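import Mathlib

set_option autoImplicit false
set_option maxHeartbeats 800000

/-!
# Symmetric algebras with two independent trace functions and a central nilpotent element

Such an algebra over an algebraically closed field has dimension twice a square.
-/

namespace CfsgLib.Block

variable {k : Type*} [Field k] [IsAlgClosed k] {A : Type*} [Ring A] [Algebra k A]
  [FiniteDimensional k A]

theorem finrank_eq_two_mul_sq (τ : A →ₗ[k] k) (hτ : ∀ a b, τ (a * b) = τ (b * a))
    (hnd : ∀ a, (∀ b, τ (a * b) = 0) → a = 0)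
    (hdim : ∀ f : Fin 3 → (A →ₗ[k] k), (∀ i a b, f i (a * b) = f i (b * a)) →
      ∃ c : Fin 3 → k, c ≠ 0 ∧ ∑ i, c i • f i = 0)
    (z : A) (hz : ∀ a, z * a = a * z) (hz0 : z ≠ 0) (hznil : IsNilpotent z) :
    ∃ n : ℕ, Module.finrank k A = 2 * n ^ 2 := by
  classical
  haveI : IsArtinianRing A := IsArtinianRing.of_finite k A
  haveI : Nontrivial A := ⟨⟨z, 0, hz0⟩⟩
  obtain ⟨N, hN⟩ := IsSemiprimaryRing.isNilpotent (R := A)
  haveI : IsSemisimpleRing (A ⧸ Ring.jacobson A) := IsSemiprimaryRing.isSemisimpleRing
  obtain ⟨ι, d, hd, ⟨e0⟩⟩ :=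
    IsSemisimpleRing.exists_algEquiv_pi_matrix_of_isAlgClosed k (A ⧸ Ring.jacobson A)
  let π₀ : A →ₐ[k] Π i, Matrix (Fin (d i)) (Fin (d i)) k :=
    e0.toAlgHom.comp (Ideal.Quotient.mkₐ k (Ring.jacobson A))
  have hπ₀ : Function.Surjective π₀ :=
    e0.surjective.comp (Ideal.Quotient.mkₐ_surjective k (Ring.jacobson A))
  have hker : ∀ a, π₀ a = 0 → a ∈ Ring.jacobson A := fun a ha => by
    have h : e0 (Ideal.Quotient.mkₐ k (Ring.jacobson A) a) = e0 0 := by rw [map_zero]; exact ha
    exact Ideal.Quotient.eq_zero_iff_mem.1 (e0.injective h)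
  have hnilJ : ∀ a, π₀ a = 0 → IsNilpotent a := fun a ha => by
    refine ⟨N, ?_⟩
    have h := Ideal.pow_mem_pow (hker a ha) N
    rwa [hN, Ideal.zero_eq_bot, Ideal.mem_bot] at h
  -- there is exactly one simple component
  let tf : Fin ι → (A →ₗ[k] k) := fun i =>
    (Matrix.traceLinearMap (Fin (d i)) k k).comp
      ((LinearMap.proj i).comp π₀.toLinearMap)
  have htf : ∀ i a b, tf i (a * b) = tf i (b * a) := fun i a b => by
    show Matrix.trace (π₀ (a * b) i) = Matrix.trace (π₀ (b * a) i)
    rw [map_mul, map_mul, Pi.mul_apply, Pi.mul_apply, Matrix.trace_mul_comm]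
  haveI := hd
  have hone : ∀ i, ∃ a, ∀ j, tf j a = if j = i then 1 else 0 := by
    intro i
    obtain ⟨a, ha⟩ := hπ₀ (Pi.single i (Matrix.single 0 0 1))
    refine ⟨a, fun j => ?_⟩
    show Matrix.trace (π₀ a j) = _
    rw [ha]
    by_cases h : j = i
    · subst h; rw [Pi.single_eq_same, if_pos rfl, Matrix.trace_single_eq_same]
    · rw [Pi.single_eq_of_ne h, if_neg h, Matrix.trace_zero]
  have hsub : ∀ i j : Fin ι, i = j := by
    intro i j
    by_contra hij
    obtain ⟨c, hc, hsum⟩ := hdim ![tf i, tf j, τ] (by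
      intro l a b
      fin_cases l
      · exact htf i a b
      · exact htf j a b
      · exact hτ a b)
    have hev : ∀ a, c 0 * tf i a + c 1 * tf j a + c 2 * τ a = 0 := fun a => by
      have := congrArg (fun f : A →ₗ[k] k => f a) hsum
      simpa [Fin.sum_univ_three] using this
    have hc2 : c 2 = 0 := by
      by_contra h2
      refine hz0 (hnd z fun b => ?_)
      have hnz : ∀ l, tf l (z * b) = 0 := fun l => by
        have h := (show Commute z b from hz b).isNilpotent_mul_right hznil
        have h' : IsNilpotent (π₀ (z * b) l) :=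
          (h.map π₀).map (Pi.evalRingHom (fun i => Matrix (Fin (d i)) (Fin (d i)) k) l)
        exact (Matrix.isNilpotent_trace_of_isNilpotent h').eq_zero
      have := hev (z * b)
      rw [hnz, hnz, mul_zero, mul_zero, zero_add, zero_add] at this
      exact (mul_eq_zero.1 this).resolve_left h2
    obtain ⟨a, ha⟩ := hone i
    obtain ⟨a', ha'⟩ := hone j
    have e1 := hev a
    have e2 := hev a'
    rw [ha i, ha j, if_pos rfl, if_neg (fun h => hij h.symm), hc2] at e1
    rw [ha' i, ha' j, if_pos rfl, if_neg hij, hc2] at e2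
    apply hc
    funext l
    fin_cases l
    · simpa using e1
    · simpa using e2
    · exact hc2
  have hι : 0 < ι := by
    by_contra h
    have h0 : ι = 0 := by omega
    subst h0
    obtain ⟨m, hm⟩ := hnilJ (1 : A) (funext fun i => i.elim0)
    rw [one_pow] at hm
    exact one_ne_zero hm
  obtain ⟨n, hn⟩ : ∃ n, n = d ⟨0, hι⟩ := ⟨_, rfl⟩
  let π : A →ₐ[k] Matrix (Fin (d ⟨0, hι⟩)) (Fin (d ⟨0, hι⟩)) k :=
    (Pi.evalAlgHom k (fun i => Matrix (Fin (d i)) (Fin (d i)) k) ⟨0, hι⟩).comp π₀
  have hπ : Function.Surjective π := by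
    intro m
    obtain ⟨a, ha⟩ := hπ₀ (Pi.single ⟨0, hι⟩ m)
    exact ⟨a, by
      show π₀ a ⟨0, hι⟩ = m
      rw [ha, Pi.single_eq_same]⟩
  have hπker : ∀ a, π a = 0 → π₀ a = 0 := fun a ha => funext fun i => by
    obtain rfl := hsub i ⟨0, hι⟩
    exact ha
  -- a primitive idempotent and matrix units
  obtain ⟨e, he, heπ⟩ := exists_isIdempotentElem_eq_of_ker_isNilpotent π.toRingHom
    (fun a ha => hnilJ a (hπker a ha)) (Matrix.single 0 0 1) (hπ _)
    (by rw [IsIdempotentElem, Matrix.single_mul_single_same, mul_one])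
  have heπ' : π e = Matrix.single 0 0 1 := heπ
  choose x hx using fun t => hπ (Matrix.single t (0 : Fin (d ⟨0, hι⟩)) (1 : k))
  choose y0 hy0 using fun t => hπ (Matrix.single (0 : Fin (d ⟨0, hι⟩)) t (1 : k))
  obtain ⟨u, hu⟩ : ∃ u : Aˣ, (u : A) = ∑ t, x t * e * y0 t := by
    have h1 : π (∑ t, x t * e * y0 t) = 1 := by
      rw [map_sum]
      simp only [map_mul, hx, hy0, heπ', Matrix.single_mul_single_same, mul_one]
      ext i j
      rw [Matrix.sum_apply, Finset.sum_eq_single i]
      · by_cases h : i = j
        · subst h; simp [Matrix.single_apply, Matrix.one_apply]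
        · simp [Matrix.single_apply, Matrix.one_apply, h]
      · intro c _ hc
        simp [Matrix.single_apply, hc]
      · exact fun h => absurd (Finset.mem_univ _) h
    have h2 : IsNilpotent (1 - ∑ t, x t * e * y0 t) :=
      hnilJ _ (hπker _ (by rw [map_sub, map_one, h1, sub_self]))
    obtain ⟨u, hu⟩ := h2.isUnit_one_sub
    exact ⟨u, by rw [hu]; abel⟩
  have hπu : π ((u⁻¹ : Aˣ) : A) = 1 := by
    have h1 : π (u : A) = 1 := by
      rw [hu, map_sum]
      simp only [map_mul, hx, hy0, heπ', Matrix.single_mul_single_same, mul_one]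
      ext i j
      rw [Matrix.sum_apply, Finset.sum_eq_single i]
      · by_cases h : i = j
        · subst h; simp [Matrix.single_apply, Matrix.one_apply]
        · simp [Matrix.single_apply, Matrix.one_apply, h]
      · intro c _ hc
        simp [Matrix.single_apply, hc]
      · exact fun h => absurd (Finset.mem_univ _) h
    have h2 : π (u : A) * π ((u⁻¹ : Aˣ) : A) = 1 := by rw [← map_mul, Units.mul_inv, map_one]
    rwa [h1, one_mul] at h2
  obtain ⟨y, hy⟩ : ∃ y : Fin (d ⟨0, hι⟩) → A, y = fun t => y0 t * ((u⁻¹ : Aˣ) : A) := ⟨_, rfl⟩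
  have hyπ : ∀ t, π (y t) = Matrix.single (0 : Fin (d ⟨0, hι⟩)) t (1 : k) := fun t => by
    rw [hy]; simp only [map_mul, hπu, mul_one, hy0]
  have hsum1 : ∑ t, x t * e * y t = 1 := by
    rw [hy]
    simp only [← mul_assoc, ← Finset.sum_mul]
    rw [← hu, Units.mul_inv]
  -- the corner algebra
  let Bs : Submodule k A :=
    { carrier := {b | e * b * e = b}
      add_mem' := fun {a b} ha hb => by
        show e * (a + b) * e = a + b
        rw [mul_add, add_mul, ha, hb]
      zero_mem' := by show e * 0 * e = 0; rw [mul_zero, zero_mul]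
      smul_mem' := fun c a ha => by
        show e * (c • a) * e = c • a
        rw [mul_smul_comm, smul_mul_assoc, ha] }
  have hBmem : ∀ b, b ∈ Bs ↔ e * b * e = b := fun b => Iff.rfl
  have hee : e * e = e := he
  have hBe : ∀ a, e * a * e ∈ Bs := fun a => by
    rw [hBmem, ← mul_assoc, ← mul_assoc, hee, mul_assoc (e * a) e e, hee]
  have hBl : ∀ b ∈ Bs, e * b = b := fun b hb => by
    rw [hBmem] at hb; rw [← hb, ← mul_assoc, ← mul_assoc, hee]
  have hBr : ∀ b ∈ Bs, b * e = b := fun b hb => by
    rw [hBmem] at hb; rw [← hb, mul_assoc (e * b) e e, hee]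
  have heB : e ∈ Bs := by rw [hBmem, hee, hee]
  have hBmul : ∀ a ∈ Bs, ∀ b ∈ Bs, a * b ∈ Bs := fun a ha b hb => by
    rw [hBmem, ← mul_assoc, hBl a ha, mul_assoc, hBr b hb]
  let K : Submodule k A := Bs ⊓ LinearMap.ker π.toLinearMap
  have hKmem : ∀ b, b ∈ K ↔ b ∈ Bs ∧ π b = 0 := fun b =>
    ⟨fun h => ⟨h.1, LinearMap.mem_ker.1 h.2⟩, fun h => ⟨h.1, LinearMap.mem_ker.2 h.2⟩⟩
  have hdecomp : ∀ b ∈ Bs, b - (π b 0 0) • e ∈ K := fun b hb => by
    refine (hKmem _).2 ⟨sub_mem hb (Bs.smul_mem _ heB), ?_⟩
    have h : π b = Matrix.single 0 0 (π b 0 0) := by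
      conv_lhs => rw [← (hBmem b).1 hb, map_mul, map_mul, heπ']
      rw [Matrix.single_mul_mul_single, one_mul, mul_one]
    rw [map_sub, map_smul, heπ', Matrix.smul_single, smul_eq_mul, mul_one, ← h, sub_self]
  have hKK : K * K ≤ K := by
    rw [Submodule.mul_le]
    exact fun a ha b hb => (hKmem _).2 ⟨hBmul a ((hKmem a).1 ha).1 b ((hKmem b).1 hb).1,
      by rw [map_mul, ((hKmem a).1 ha).2, zero_mul]⟩
  -- at most two independent functionals on the corner, modulo a commutator subspace
  have hquot : ∀ W0 : Submodule k A, (∀ a ∈ K, ∀ b ∈ K, a * b - b * a ∈ W0) →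
      Module.finrank k ↥(Bs.map W0.mkQ) ≤ 2 := by
    intro W0 hW0
    by_contra hgt
    push Not at hgt
    obtain ⟨v, hv⟩ : ∃ v : Fin 3 → ↥(Bs.map W0.mkQ), LinearIndependent k v :=
      ⟨_, (Module.finBasis k ↥(Bs.map W0.mkQ)).linearIndependent.comp (Fin.castLE hgt)
        (Fin.castLE_injective hgt)⟩
    have hv' : LinearIndependent k fun i => ((v i : ↥(Bs.map W0.mkQ)) : A ⧸ W0) :=
      hv.map' (Bs.map W0.mkQ).subtype (Submodule.ker_subtype _)
    have hdual : ∀ i, ∃ g : (A ⧸ W0) →ₗ[k] k, ∀ j, g (v j : A ⧸ W0) = if j = i then 1 else 0 := by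
      intro i
      let b := Module.Basis.span hv'
      obtain ⟨g, hg⟩ := LinearMap.exists_extend (b.coord i)
      refine ⟨g, fun j => ?_⟩
      have e1 := LinearMap.congr_fun hg (b j)
      have e2 : ((b j : _) : A ⧸ W0) = (v j : A ⧸ W0) := by
        simp [b, Module.Basis.span_apply]
      rw [LinearMap.comp_apply, Submodule.subtype_apply, e2] at e1
      rw [e1, Module.Basis.coord_apply, Module.Basis.repr_self, Finsupp.single_apply]
    choose g hg using hdual
    choose w hwB hwv using fun i => Submodule.mem_map.1 (v i).2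
    have htr : ∀ i, ∀ a ∈ Bs, ∀ b ∈ Bs,
        g i (W0.mkQ (a * b)) = g i (W0.mkQ (b * a)) := by
      intro i a ha b hb
      congr 1
      rw [Submodule.mkQ_apply, Submodule.mkQ_apply, Submodule.Quotient.eq]
      have h := hW0 _ (hdecomp a ha) _ (hdecomp b hb)
      have e3 : (a - π a 0 0 • e) * (b - π b 0 0 • e) - (b - π b 0 0 • e) * (a - π a 0 0 • e)
          = a * b - b * a := by
        simp only [sub_mul, mul_sub, smul_mul_assoc, mul_smul_comm, hBl a ha, hBl b hb, hBr a ha,
          hBr b hb, hee, smul_sub, smul_smul, mul_comm (π b 0 0) (π a 0 0)]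
        abel
      rwa [e3] at h
    let f : Fin 3 → (A →ₗ[k] k) := fun i =>
      ∑ t, ((g i).comp W0.mkQ).comp (LinearMap.mulLeftRight k (e * y t, x t * e))
    have hf : ∀ i a, f i a = ∑ t, g i (W0.mkQ (e * y t * a * (x t * e))) := fun i a => by
      simp [f]
    have hins : ∀ a b : A, ∑ t, a * x t * e * (e * y t * b) = a * b := fun a b => by
      calc ∑ t, a * x t * e * (e * y t * b) = ∑ t, a * (x t * e * y t) * b :=
            Finset.sum_congr rfl fun t _ => by
              rw [show a * x t * e * (e * y t * b) = a * x t * (e * e) * y t * b by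
                simp only [mul_assoc], hee]
              simp only [mul_assoc]
        _ = a * b := by rw [← Finset.sum_mul, ← Finset.mul_sum, hsum1, mul_one]
    have hex : ∀ (a : A) t s, e * y t * a * x s * e ∈ Bs := fun a t s => by
      rw [show e * y t * a * x s * e = e * (y t * a * x s) * e by simp only [mul_assoc]]
      exact hBe _
    have hftr : ∀ i a b, f i (a * b) = f i (b * a) := by
      intro i a b
      have key : ∀ a b : A, f i (a * b)
          = ∑ t, ∑ s, g i (W0.mkQ (e * y t * a * x s * e * (e * y s * b * x t * e))) := by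
        intro a b
        rw [hf]
        refine Finset.sum_congr rfl fun t _ => ?_
        rw [← map_sum, ← map_sum]
        congr 2
        rw [show e * y t * (a * b) * (x t * e) = (e * y t * a) * (b * x t * e) by
          simp only [mul_assoc], ← hins (e * y t * a) (b * x t * e)]
        exact Finset.sum_congr rfl fun s _ => by simp only [mul_assoc]
      rw [key, key, Finset.sum_comm]
      exact Finset.sum_congr rfl fun s _ => Finset.sum_congr rfl fun t _ =>
        htr i _ (hex a t s) _ (hex b s t)
    have hfB : ∀ i, ∀ b ∈ Bs, f i b = g i (W0.mkQ b) := by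
      intro i b hb
      rw [hf]
      have key : ∀ t, g i (W0.mkQ (e * y t * b * (x t * e)))
          = g i (W0.mkQ (b * (e * x t * e * (e * y t * e)))) := by
        intro t
        rw [show e * y t * b * (x t * e) = (e * y t * e) * (b * (e * x t * e)) by
          conv_lhs => rw [← (hBmem b).1 hb]
          conv_rhs => rw [← (hBmem b).1 hb]
          simp only [mul_assoc, ← mul_assoc e e, hee],
          htr i _ (hBe _) _ (hBmul _ hb _ (hBe _)), mul_assoc]
      simp only [key]
      rw [← map_sum, ← map_sum, ← Finset.mul_sum]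
      congr 2
      rw [show ∑ t, e * x t * e * (e * y t * e) = e * e from hins e e, hee, hBr b hb]
    obtain ⟨c, hc, hsum⟩ := hdim f hftr
    apply hc
    funext j
    have h := congrArg (fun F : A →ₗ[k] k => F (w j)) hsum
    simp only [LinearMap.coe_sum, Finset.sum_apply, LinearMap.smul_apply, smul_eq_mul,
      LinearMap.zero_apply, hfB _ _ (hwB j), hwv, hg, mul_ite, mul_one, mul_zero] at h
    simpa using h
  -- the maximal ideal of the corner is at most one-dimensional
  have hnil : ∀ b ∈ K, IsNilpotent b := fun b hb => hnilJ b (hπker b ((hKmem b).1 hb).2)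
  have hKpow : ∃ m, ∀ a ∈ K ^ (m + 1), a = 0 := by
    refine ⟨N, fun a ha => ?_⟩
    have hle : ∀ j, ∀ a ∈ K ^ (j + 1), a ∈ (Ring.jacobson A) ^ (j + 1) := by
      intro j
      induction j with
      | zero =>
        intro a ha
        rw [zero_add] at ha ⊢
        rw [Submodule.pow_one] at ha ⊢
        exact hker a (hπker a ((hKmem a).1 ha).2)
      | succ j ih =>
        intro a ha
        rw [pow_succ _ (j + 1)] at ha
        induction ha using Submodule.mul_induction_on' with
        | mem_mul_mem a ha b hb =>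
          rw [Submodule.pow_succ]
          exact Submodule.mul_mem_mul (ih a ha) (hker b (hπker b ((hKmem b).1 hb).2))
        | add a _ b _ ha hb => exact add_mem ha hb
    have h := Ideal.pow_le_pow_right (I := Ring.jacobson A) (Nat.le_succ N) (hle N a ha)
    rwa [hN, Ideal.zero_eq_bot, Ideal.mem_bot] at h
  have hne : e ∉ K := fun h => by
    have h1 := ((hKmem e).1 h).2
    rw [heπ'] at h1
    have h2 := congrFun (congrFun h1 0) 0
    rw [Matrix.single_apply_same] at h2
    exact one_ne_zero h2
  have honedim : ∀ W0 : Submodule k A, W0 ≤ K → (∀ a ∈ K, ∀ b ∈ K, a * b - b * a ∈ W0) →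
      ∃ x₀ ∈ K, K ≤ Submodule.span k {x₀} ⊔ W0 := by
    intro W0 hle hW0
    by_cases hall : K ≤ W0
    · exact ⟨0, K.zero_mem, hall.trans le_sup_right⟩
    obtain ⟨x₀, hx₀, hx₀W⟩ := SetLike.not_le_iff_exists.1 hall
    refine ⟨x₀, hx₀, fun a ha => ?_⟩
    by_contra hna
    have h2 := hquot W0 hW0
    have hxB : ∀ b ∈ K, W0.mkQ b ∈ Bs.map W0.mkQ := fun b hb =>
      Submodule.mem_map_of_mem ((hKmem b).1 hb).1
    let v : Fin 3 → ↥(Bs.map W0.mkQ) := ![⟨W0.mkQ e, Submodule.mem_map_of_mem heB⟩,
      ⟨W0.mkQ x₀, hxB x₀ hx₀⟩, ⟨W0.mkQ a, hxB a ha⟩]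
    have hv : LinearIndependent k v := by
      rw [Fintype.linearIndependent_iff]
      intro c hc
      have h : c 0 • e + c 1 • x₀ + c 2 • a ∈ W0 := by
        rw [← Submodule.Quotient.mk_eq_zero]
        have := congrArg Subtype.val hc
        simpa [v, Fin.sum_univ_three] using this
      have h0 : c 0 = 0 := by
        by_contra h0
        apply hne
        have hm : c 0 • e ∈ K := by
          have := sub_mem (sub_mem (hle h) (K.smul_mem (c 2) ha)) (K.smul_mem (c 1) hx₀)
          simpa using this
        simpa [smul_smul, inv_mul_cancel₀ h0] using K.smul_mem (c 0)⁻¹ hm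
      rw [h0, zero_smul, zero_add] at h
      have h2' : c 2 = 0 := by
        by_contra h2'
        apply hna
        have hm : c 2 • a ∈ Submodule.span k {x₀} ⊔ W0 := by
          have e4 : c 2 • a = (-c 1) • x₀ + (c 1 • x₀ + c 2 • a) := by rw [neg_smul]; abel
          rw [e4]
          exact Submodule.add_mem_sup (Submodule.smul_mem _ _ (Submodule.mem_span_singleton_self x₀)) h
        simpa [smul_smul, inv_mul_cancel₀ h2'] using Submodule.smul_mem _ (c 2)⁻¹ hm
      rw [h2', zero_smul, add_zero] at h
      have h1 : c 1 = 0 := by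
        by_contra h1
        exact hx₀W (by simpa [smul_smul, inv_mul_cancel₀ h1] using W0.smul_mem (c 1)⁻¹ h)
      intro i
      fin_cases i
      · exact h0
      · exact h1
      · exact h2'
    have := hv.fintype_card_le_finrank
    rw [Fintype.card_fin] at this
    omega
  obtain ⟨x₁, hx₁, hK1⟩ := honedim (K * K) hKK fun a ha b hb =>
    sub_mem (Submodule.mul_mem_mul ha hb) (Submodule.mul_mem_mul hb ha)
  let P : Submodule k A := Submodule.span k (Set.range fun i : ℕ => x₁ ^ (i + 1))
  have hxP : Submodule.span k {x₁} ≤ P := Submodule.span_mono (by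
    rintro _ rfl; exact ⟨0, pow_one _⟩)
  have hPP : P * P ≤ P := by
    rw [Submodule.span_mul_span]
    refine Submodule.span_le.2 ?_
    rintro _ ⟨_, ⟨i, rfl⟩, _, ⟨j, rfl⟩, rfl⟩
    exact Submodule.subset_span ⟨i + j + 1, by
      show x₁ ^ (i + j + 1 + 1) = x₁ ^ (i + 1) * x₁ ^ (j + 1)
      rw [← pow_add]; congr 1; omega⟩
  have hPK : P ≤ K := Submodule.span_le.2 (by
    rintro _ ⟨i, rfl⟩
    induction i with
    | zero => show x₁ ^ (0 + 1) ∈ K; rw [pow_one]; exact hx₁
    | succ i ih =>
      show x₁ ^ (i + 1 + 1) ∈ K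
      rw [pow_succ]
      exact hKK (Submodule.mul_mem_mul ih hx₁))
  have hKP : ∀ m, K ≤ P ⊔ K ^ (m + 1) := by
    intro m
    induction m with
    | zero => rw [zero_add, pow_one]; exact le_sup_right
    | succ m ih =>
      refine hK1.trans (sup_le (hxP.trans le_sup_left) ?_)
      have h1 : K * K ≤ (P ⊔ K ^ (m + 1)) * K := mul_le_mul' ih le_rfl
      refine h1.trans ?_
      rw [Submodule.sup_mul, ← pow_succ]
      refine sup_le ?_ le_sup_right
      refine (mul_le_mul' le_rfl ih).trans ?_
      rw [Submodule.mul_sup]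
      refine sup_le (hPP.trans le_sup_left) ?_
      refine (mul_le_mul' hPK le_rfl).trans ?_
      rw [← pow_succ']
      exact le_sup_right
  obtain ⟨m, hm⟩ := hKpow
  have hKeqP : K ≤ P := by
    refine (hKP m).trans (sup_le le_rfl ?_)
    intro a ha
    rw [hm a ha]; exact P.zero_mem
  have hcomm : ∀ a ∈ K, ∀ b ∈ K, a * b - b * a ∈ (⊥ : Submodule k A) := by
    intro a ha b hb
    rw [Submodule.mem_bot, sub_eq_zero]
    have hgen : ∀ i, ∀ b ∈ P, x₁ ^ (i + 1) * b = b * x₁ ^ (i + 1) := by
      intro i b hb
      induction hb using Submodule.span_induction with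
      | mem c hc => obtain ⟨j, rfl⟩ := hc; exact Commute.pow_pow (Commute.refl x₁) _ _
      | zero => rw [mul_zero, zero_mul]
      | add c c' _ _ h h' => rw [mul_add, add_mul, h, h']
      | smul r c _ h => rw [mul_smul_comm, smul_mul_assoc, h]
    have haP := hKeqP ha
    induction haP using Submodule.span_induction with
    | mem c hc => obtain ⟨i, rfl⟩ := hc; exact hgen i b (hKeqP hb)
    | zero => rw [mul_zero, zero_mul]
    | add c c' hc hc' h h' => rw [mul_add, add_mul, h (hPK hc), h' (hPK hc')]
    | smul r c hc h => rw [mul_smul_comm, smul_mul_assoc, h (hPK hc)]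
  obtain ⟨x₀, hx₀, hK0⟩ := honedim ⊥ bot_le hcomm
  rw [sup_bot_eq] at hK0
  have hxx : x₀ * x₀ = 0 := by
    obtain ⟨c, hc⟩ := Submodule.mem_span_singleton.1 (hK0 (hKK (Submodule.mul_mem_mul hx₀ hx₀)))
    obtain ⟨j, hj⟩ := hnil x₀ hx₀
    by_cases hc0 : c = 0
    · rw [← hc, hc0, zero_smul]
    · have hpow : ∀ l, x₀ ^ (l + 1) = c ^ l • x₀ := by
        intro l
        induction l with
        | zero => rw [pow_zero, one_smul, zero_add, pow_one]
        | succ l ih => rw [pow_succ, ih, smul_mul_assoc, ← hc, smul_smul, pow_succ]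
      rcases j with _ | j
      · rw [pow_zero] at hj; exact absurd hj one_ne_zero
      · rw [hpow] at hj
        rw [(smul_eq_zero.1 hj).resolve_left (pow_ne_zero _ hc0), mul_zero]
  have hKK0 : ∀ a ∈ K, ∀ b ∈ K, a * b = 0 := by
    intro a ha b hb
    obtain ⟨r, rfl⟩ := Submodule.mem_span_singleton.1 (hK0 ha)
    obtain ⟨r', rfl⟩ := Submodule.mem_span_singleton.1 (hK0 hb)
    rw [smul_mul_assoc, mul_smul_comm, hxx, smul_zero, smul_zero]
  -- the matrix units are exact
  have hex : ∀ (a : A) s t, e * y s * a * x t * e ∈ Bs := fun a s t => by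
    rw [show e * y s * a * x t * e = e * (y s * a * x t) * e by simp only [mul_assoc]]
    exact hBe _
  let q : Fin (d ⟨0, hι⟩) → Fin (d ⟨0, hι⟩) → A := fun s t =>
    (if s = t then e else 0) - e * y s * x t * e
  have hqK : ∀ s t, q s t ∈ K := by
    intro s t
    refine (hKmem _).2 ⟨sub_mem (by split_ifs <;> [exact heB; exact Bs.zero_mem])
      (by simpa using hex 1 s t), ?_⟩
    simp only [q, map_sub, map_mul, heπ', hyπ, hx]
    by_cases h : s = t
    · subst h
      rw [if_pos rfl, heπ']
      simp
    · rw [if_neg h, map_zero]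
      simp [Matrix.single_mul_single_of_ne, h]
  have hunit : ∀ s t, e * y s * x t * e = if s = t then e else 0 := by
    intro s r
    obtain ⟨P', hP'⟩ : ∃ P' : Fin (d ⟨0, hι⟩) → Fin (d ⟨0, hι⟩) → A,
        P' = fun s t => e * y s * x t * e := ⟨_, rfl⟩
    have hidem : ∑ t, P' s t * P' t r = P' s r := by
      rw [hP']
      calc ∑ t, e * y s * x t * e * (e * y t * x r * e)
          = ∑ t, e * y s * (x t * e * y t) * (x r * e) :=
            Finset.sum_congr rfl fun t _ => by
              rw [show e * y s * x t * e * (e * y t * x r * e)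
                = e * y s * x t * (e * e) * (y t * x r * e) by simp only [mul_assoc], hee]
              simp only [mul_assoc]
        _ = e * y s * x r * e := by
          rw [← Finset.sum_mul, ← Finset.mul_sum, hsum1, mul_one]; simp only [mul_assoc]
    have hz' : ∑ t, q s t * q t r = 0 :=
      Finset.sum_eq_zero fun t _ => hKK0 _ (hqK s t) _ (hqK t r)
    have hPB : ∀ a b, P' a b ∈ Bs := fun a b => by rw [hP']; simpa using hex 1 a b
    have hterm : ∀ t, q s t * q t r
        = (if s = t then (if t = r then e else 0) else 0) - (if s = t then P' t r else 0)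
          - (if t = r then P' s t else 0) + P' s t * P' t r := by
      intro t
      show ((if s = t then e else 0) - e * y s * x t * e)
        * ((if t = r then e else 0) - e * y t * x r * e) = _
      have e1 : e * (P' t r) = P' t r := hBl _ (hPB t r)
      have e2 : P' s t * e = P' s t := hBr _ (hPB s t)
      rw [show e * y s * x t * e = P' s t by rw [hP'], show e * y t * x r * e = P' t r by rw [hP']]
      simp only [sub_mul, mul_sub, ite_mul, mul_ite, zero_mul, mul_zero, hee, e1, e2]
      split_ifs <;> abel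
    simp only [hterm, Finset.sum_add_distrib, Finset.sum_sub_distrib, Finset.sum_ite_eq,
      Finset.sum_ite_eq', Finset.mem_univ, if_true, hidem] at hz'
    have e5 : (if s = r then e else 0) - P' s r = 0 := by
      revert hz'
      generalize (if s = r then e else (0 : A)) = w
      intro hz'
      rw [← hz']; abel
    rw [sub_eq_zero] at e5
    rw [e5, hP']
  -- the linear isomorphism with the matrices over the corner
  let Φ : A →ₗ[k] (Fin (d ⟨0, hι⟩) × Fin (d ⟨0, hι⟩) → Bs) :=
    LinearMap.pi fun st => (LinearMap.mulLeftRight k (e * y st.1, x st.2 * e)).codRestrict Bs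
      (fun a => by simpa [mul_assoc] using hex a st.1 st.2)
  have hΦ : ∀ a s t, (Φ a (s, t) : A) = e * y s * a * (x t * e) := fun a s t => by simp [Φ]
  have hrec : ∀ a, a = ∑ s, ∑ t, x s * (Φ a (s, t) : A) * y t := by
    intro a
    simp only [hΦ]
    calc a = (∑ s, x s * e * y s) * a * ∑ t, x t * e * y t := by rw [hsum1, one_mul, mul_one]
      _ = _ := by
        rw [Finset.sum_mul, Finset.sum_mul]
        refine Finset.sum_congr rfl fun s _ => ?_
        rw [Finset.mul_sum]
        exact Finset.sum_congr rfl fun t _ => by simp only [mul_assoc]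
  have hbij : Function.Bijective Φ := by
    refine ⟨fun a b h => ?_, fun b => ⟨∑ s, ∑ t, x s * (b (s, t) : A) * y t, ?_⟩⟩
    · rw [hrec a, hrec b, h]
    · funext ⟨s', t'⟩
      apply Subtype.ext
      rw [hΦ, Finset.mul_sum, Finset.sum_mul, Finset.sum_eq_single s']
      · rw [Finset.mul_sum, Finset.sum_mul, Finset.sum_eq_single t']
        · have hb := (b (s', t')).2
          calc e * y s' * (x s' * (b (s', t') : A) * y t') * (x t' * e)
              = e * y s' * (x s' * (e * (b (s', t') : A) * e) * y t') * (x t' * e) := by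
                rw [(hBmem _).1 hb]
            _ = (e * y s' * x s' * e) * (b (s', t') : A) * (e * y t' * x t' * e) := by
                simp only [mul_assoc]
            _ = (b (s', t') : A) := by
                rw [hunit, hunit, if_pos rfl, if_pos rfl, (hBmem _).1 hb]
        · intro t _ ht
          calc e * y s' * (x s' * (b (s', t) : A) * y t) * (x t' * e)
              = e * y s' * (x s' * (e * (b (s', t) : A) * e) * y t) * (x t' * e) := by
                rw [(hBmem _).1 (b (s', t)).2]
            _ = (e * y s' * x s' * e) * (b (s', t) : A) * (e * y t * x t' * e) := by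
                simp only [mul_assoc]
            _ = 0 := by rw [hunit t t', if_neg ht, mul_zero]
        · exact fun h => absurd (Finset.mem_univ _) h
      · intro s _ hs
        rw [Finset.mul_sum, Finset.sum_mul]
        refine Finset.sum_eq_zero fun t _ => ?_
        calc e * y s' * (x s * (b (s, t) : A) * y t) * (x t' * e)
            = e * y s' * (x s * (e * (b (s, t) : A) * e) * y t) * (x t' * e) := by
              rw [(hBmem _).1 (b (s, t)).2]
          _ = (e * y s' * x s * e) * ((b (s, t) : A) * (e * y t * x t' * e)) := by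
              simp only [mul_assoc]
          _ = 0 := by rw [hunit s' s, if_neg (fun h => hs h.symm), zero_mul]
      · exact fun h => absurd (Finset.mem_univ _) h
  have hB2 : Module.finrank k Bs = 2 := by
    have hsup : Bs ≤ Submodule.span k {e, x₀} := by
      intro b hb
      obtain ⟨r, hr⟩ := Submodule.mem_span_singleton.1 (hK0 (hdecomp b hb))
      exact Submodule.mem_span_pair.2 ⟨π b 0 0, r, by rw [hr]; abel⟩
    refine le_antisymm ((Submodule.finrank_mono hsup).trans ?_) ?_
    · refine (finrank_span_le_card ({e, x₀} : Set A)).trans ?_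
      rw [Set.toFinset_insert, Set.toFinset_singleton]
      exact Finset.card_le_two
    by_contra hlt
    push Not at hlt
    have hK0' : ∀ b ∈ K, b = 0 := by
      intro b hb
      by_contra hb0
      have hli : LinearIndependent k ![(⟨e, heB⟩ : Bs), ⟨b, ((hKmem b).1 hb).1⟩] := by
        rw [LinearIndependent.pair_iff]
        intro r r' h
        have h' : r • e + r' • b = 0 := congrArg Subtype.val h
        have hr : r = 0 := by
          by_contra hr
          apply hne
          have hm : r • e ∈ K := by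
            rw [eq_neg_of_add_eq_zero_left h']; exact K.neg_mem (K.smul_mem _ hb)
          simpa [smul_smul, inv_mul_cancel₀ hr] using K.smul_mem r⁻¹ hm
        rw [hr, zero_smul, zero_add, smul_eq_zero] at h'
        exact ⟨hr, h'.resolve_right hb0⟩
      have := hli.fintype_card_le_finrank
      rw [Fintype.card_fin] at this
      omega
    refine hz0 ?_
    rw [hrec z]
    refine Finset.sum_eq_zero fun s _ => Finset.sum_eq_zero fun t _ => ?_
    obtain ⟨b, hb⟩ : ∃ b, b = (Φ z (s, t) : A) := ⟨_, rfl⟩
    have hbB : b ∈ Bs := hb ▸ (Φ z (s, t)).2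
    have hb' : b = π b 0 0 • e := sub_eq_zero.1 (hK0' _ (hdecomp b hbB))
    have hbz : b = z * (e * y s * (x t * e)) := by
      rw [hb, hΦ, mul_assoc (e * y s) z, hz, ← mul_assoc]
      exact (hz _).symm
    have hbn : IsNilpotent b :=
      hbz ▸ (show Commute z _ from hz _).isNilpotent_mul_right hznil
    have hscal : IsNilpotent (π b 0 0) := by
      obtain ⟨j, hj⟩ := hbn
      refine ⟨j + 1, ?_⟩
      have hj' : b ^ (j + 1) = 0 := by rw [pow_succ, hj, zero_mul]
      rw [hb', smul_pow, he.pow_succ_eq] at hj'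
      exact (smul_eq_zero.1 hj').resolve_right fun h => hne (h ▸ K.zero_mem)
    rw [← hb, hb', hscal.eq_zero, zero_smul, mul_zero, zero_mul]
  refine ⟨d ⟨0, hι⟩, ?_⟩
  rw [(LinearEquiv.ofBijective Φ hbij).finrank_eq, Module.finrank_pi_fintype]
  simp only [hB2, Finset.sum_const, Finset.card_univ, Fintype.card_prod, Fintype.card_fin,
    smul_eq_mul]
  ring

end CfsgLib.Block
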