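import Cfsg.Agent.Lib.BlockNormalDefectCount

/-!
# Congruences between class sums counted along a Sylow subgroup
-/

set_option autoImplicit false
set_option linter.style.haveILetI false
set_option linter.unusedSectionVars false
set_option linter.unusedFintypeInType false

namespace CfsgLib.Block

open Cfsg CfsgLib.Char
open scoped ComplexConjugate Classical

universe u

variable {G : Type u} [Group G] [Fintype G] {p : ℕ} [Fact p.Prime] {M : Ideal AlgInt} (S : Sylow p G)

theorem exists_sylowMult (χ : IrrCharacter G) : ∃ m : ℕ,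
    ∑ s : (S : Subgroup G), (χ : G → ℂ) (s : G) = (Nat.card (S : Subgroup G) : ℂ) * m := by
  obtain ⟨m, hm⟩ := inner_character_nat (isCharacter_restrict χ.2.isCharacter' (S : Subgroup G))
    (trivIrr (S : Subgroup G)).2.isCharacter'
  refine ⟨m, ?_⟩
  rw [← hm, classInner, ← mul_assoc, mul_inv_cancel₀ (natCard_ne_zero _), one_mul]
  simp [trivIrr]

/-- The multiplicity of the trivial character in the restriction to a Sylow subgroup. -/
noncomputable def sylowMult (χ : IrrCharacter G) : ℕ := (exists_sylowMult S χ).choose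

theorem sum_sylowMult (χ : IrrCharacter G) : ∑ s : (S : Subgroup G), (χ : G → ℂ) (s : G) =
    (Nat.card (S : Subgroup G) : ℂ) * sylowMult S χ := (exists_sylowMult S χ).choose_spec

/-- The weight of a character in the counting form. -/
noncomputable def sylowWeight (d : ℕ) (χ : IrrCharacter G) : ℂ :=
  ((p ^ d * charDegree (χ : G → ℂ) * sylowMult S χ : ℕ) : ℂ) / (Nat.card G : ℂ)

/-- Pairs from two classes differing by an element of a Sylow subgroup, in terms of characters. -/
theorem sylow_class_form {d : ℕ} (hd : d ≤ (Nat.card G).factorization p) (x y : G) :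
    (Nat.card {yz : G × G // yz.1 ∈ (ConjClasses.mk x).carrier ∧ yz.2 ∈ (ConjClasses.mk y).carrier ∧
        yz.2 * yz.1⁻¹ ∈ (S : Subgroup G)} : ℂ) / ((p ^ ((Nat.card G).factorization p - d) : ℕ) : ℂ) =
      ∑ χ : IrrCharacter G, sylowWeight S d χ * centralChar (χ : G → ℂ) x *
        centralChar (χ : G → ℂ) y⁻¹ := by
    have hp := (Fact.out : p.Prime)
    set a := (Nat.card G).factorization p
    set Ω := Nat.card {yz : G × G // yz.1 ∈ (ConjClasses.mk x).carrier ∧
      yz.2 ∈ (ConjClasses.mk y).carrier ∧ yz.2 * yz.1⁻¹ ∈ (S : Subgroup G)}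
    have hconj : ∀ (χ : IrrCharacter G) (g : G), conj ((χ : G → ℂ) g⁻¹) = (χ : G → ℂ) g := fun χ g => by
      rw [isCharacter_inv_eq_conj χ.2.isCharacter', Complex.conj_conj]
    have hfib : ∀ (a₀ b₀ : G), IsConj b₀ a₀ → Nat.card {u : G // u * b₀ * u⁻¹ = a₀} =
        Nat.card (Subgroup.centralizer ({b₀} : Set G)) := by
      intro a₀ b₀ h
      obtain ⟨t, ht⟩ := isConj_iff.1 h
      refine Nat.card_congr ((Equiv.mulLeft t⁻¹).subtypeEquiv fun u => ?_)
      rw [Equiv.coe_mulLeft, Subgroup.mem_centralizer_singleton_iff]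
      constructor
      · intro e
        calc t⁻¹ * u * b₀ = t⁻¹ * (u * b₀ * u⁻¹) * u := by group
          _ = b₀ * (t⁻¹ * u) := by rw [e, ← ht]; group
      · intro e
        calc u * b₀ * u⁻¹ = t * (t⁻¹ * u * b₀) * u⁻¹ := by group
          _ = a₀ := by rw [e, ← ht]; group
    set ci := Nat.card (Subgroup.centralizer ({x} : Set G)) with hci
    set cj := Nat.card (Subgroup.centralizer ({y} : Set G)) with hcj
    have h1 : (Ω * (cj * ci) : ℕ) = ∑ s : (S : Subgroup G),
        Nat.card {q : G × G // q.1 * y * q.1⁻¹ * (q.2 * (x)⁻¹ * q.2⁻¹) = (s : G)} := by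
      rw [← Nat.card_sigma]
      let T := {yz : G × G // yz.1 ∈ (ConjClasses.mk x).carrier ∧ yz.2 ∈ (ConjClasses.mk y).carrier ∧
        yz.2 * yz.1⁻¹ ∈ (S : Subgroup G)}
      have h2 : Nat.card ((t : T) × ({u : G // u * y * u⁻¹ = t.1.2} × {v : G // v * x * v⁻¹ = t.1.1})) =
          Ω * (cj * ci) := by
        rw [Nat.card_sigma, Finset.sum_congr rfl (g := fun _ => cj * ci), Finset.sum_const,
          Finset.card_univ, smul_eq_mul, ← Nat.card_eq_fintype_card]
        intro t _
        rw [Nat.card_prod, hfib, hfib]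
        · exact ConjClasses.mk_eq_mk_iff_isConj.1 (ConjClasses.mem_carrier_iff_mk_eq.1 t.2.1).symm
        · exact ConjClasses.mk_eq_mk_iff_isConj.1 (ConjClasses.mem_carrier_iff_mk_eq.1 t.2.2.1).symm
      rw [← h2]
      refine Nat.card_congr
        { toFun := fun t => ⟨⟨t.1.1.2 * t.1.1.1⁻¹, t.1.2.2.2⟩, ⟨(t.2.1.1, t.2.2.1), by
            show t.2.1.1 * y * t.2.1.1⁻¹ * (t.2.2.1 * (x)⁻¹ * t.2.2.1⁻¹) = t.1.1.2 * t.1.1.1⁻¹
            rw [← conj_inv, t.2.1.2, t.2.2.2]⟩⟩
          invFun := fun q => ⟨⟨(q.2.1.2 * x * q.2.1.2⁻¹, q.2.1.1 * y * q.2.1.1⁻¹), by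
              rw [ConjClasses.mem_carrier_iff_mk_eq, ConjClasses.mk_eq_mk_iff_isConj]
              exact (isConj_iff.2 ⟨q.2.1.2, rfl⟩).symm, by
              rw [ConjClasses.mem_carrier_iff_mk_eq, ConjClasses.mk_eq_mk_iff_isConj]
              exact (isConj_iff.2 ⟨q.2.1.1, rfl⟩).symm, by
              show q.2.1.1 * y * q.2.1.1⁻¹ * (q.2.1.2 * x * q.2.1.2⁻¹)⁻¹ ∈ (S : Subgroup G)
              rw [conj_inv, q.2.2]
              exact q.1.2⟩, ⟨q.2.1.1, rfl⟩, ⟨q.2.1.2, rfl⟩⟩
          left_inv := ?_
          right_inv := ?_ }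
      · rintro ⟨⟨⟨y, z⟩, ht⟩, ⟨u, hu⟩, ⟨v, hv⟩⟩
        dsimp only at hu hv
        subst hu hv
        rfl
      · rintro ⟨⟨s, hs⟩, ⟨⟨u, v⟩, hq⟩⟩
        dsimp only at hq
        subst hq
        refine Sigma.subtype_ext (Subtype.ext ?_) rfl
        show u * y * u⁻¹ * (v * x * v⁻¹)⁻¹ = _
        rw [conj_inv]
    have h2 := congrArg (fun n : ℕ => (n : ℂ)) h1
    simp only [Nat.cast_mul, Nat.cast_sum, count_conj_mul, hconj] at h2
    rw [← Finset.mul_sum, Finset.sum_comm] at h2
    have e : ∀ χ : IrrCharacter G, sylowWeight S d χ * centralChar (χ : G → ℂ) (x) *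
        centralChar (χ : G → ℂ) (y)⁻¹ =
        (Nat.card G : ℂ) * (((p ^ d : ℕ) : ℂ) * sylowMult S χ) * ((χ : G → ℂ) (x) * conj ((χ : G → ℂ) (y))) /
          ((χ : G → ℂ) 1 * ((ci : ℂ) * cj)) := by
      intro χ
      have hq : ∀ g : G, centralChar (χ : G → ℂ) g = (Nat.card G : ℂ) /
          (Nat.card (Subgroup.centralizer ({g} : Set G)) : ℂ) * (χ : G → ℂ) g / (χ : G → ℂ) 1 := by
        intro g
        have h := centralChar_mul_degree χ g
        have hc := natCard_ne_zero (Subgroup.centralizer ({g} : Set G))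
        have h1 := irr_one_ne_zero χ
        have he : (Nat.card G : ℂ) = (Nat.card (Subgroup.centralizer ({g} : Set G)) : ℂ) *
            ((Subgroup.centralizer ({g} : Set G)).index : ℂ) := by
          exact_mod_cast (Subgroup.card_mul_index _).symm
        rw [he]
        field_simp
        linear_combination h
      have h1c : conj ((χ : G → ℂ) 1) = (χ : G → ℂ) 1 := by
        rw [← charDegree_cast χ.2.isCharacter', Complex.conj_natCast]
      rw [centralChar_inv, hq, hq, sylowWeight]
      simp only [map_div₀, map_mul, Complex.conj_natCast, h1c, Nat.cast_mul]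
      rw [charDegree_cast χ.2.isCharacter', ← hci, ← hcj]
      have h1 := irr_one_ne_zero χ
      have h3 := natCard_ne_zero G
      have h4 : (ci : ℂ) ≠ 0 := natCard_ne_zero _
      have h5 : (cj : ℂ) ≠ 0 := natCard_ne_zero _
      field_simp
    rw [Finset.sum_congr rfl fun χ _ => e χ]
    have hpa : ((p ^ (a - d) : ℕ) : ℂ) * ((p ^ d : ℕ) : ℂ) = (Nat.card (S : Subgroup G) : ℂ) := by
      rw [S.card_eq_multiplicity, ← Nat.cast_mul, ← pow_add, Nat.sub_add_cancel]
      exact hd
    have hci0 : (ci : ℂ) ≠ 0 := natCard_ne_zero _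
    have hcj0 : (cj : ℂ) ≠ 0 := natCard_ne_zero _
    rw [div_eq_iff (Nat.cast_ne_zero.2 (pow_ne_zero _ hp.ne_zero)),
      ← mul_left_inj' (mul_ne_zero hcj0 hci0), h2, Finset.sum_mul, Finset.sum_mul, Finset.mul_sum]
    refine Finset.sum_congr rfl fun χ _ => ?_
    simp only [← Finset.sum_div, ← Finset.mul_sum]
    rw [sum_sylowMult S χ, ← hpa]
    have h1 := irr_one_ne_zero χ
    field_simp

variable (hM : IsPModular p M)

include hM in
theorem sylowWeight_mem {d : ℕ} (χ : IrrCharacter G)
    (h : (Nat.card G).factorization p ≤ d + (charDegree (χ : G → ℂ)).factorization p) :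
    sylowWeight S d χ ∈ locRing hM := by
  refine natCast_div_mem hM Nat.card_pos.ne' ?_
  refine dvd_mul_of_dvd_left (dvd_trans (pow_dvd_pow p h) ?_) _
  rw [pow_add]
  exact Nat.mul_dvd_mul_left _ (Nat.ordProj_dvd _ _)

include hM in
theorem sylowWeight_mul_mem {d : ℕ} {x : G} (hx : classDefect p x = d) (χ : IrrCharacter G) :
    sylowWeight S d χ * centralChar (χ : G → ℂ) x ∈ locRing hM := by
  have e : sylowWeight S d χ * centralChar (χ : G → ℂ) (x) =
      ((p ^ d * sylowMult S χ : ℕ) : ℂ) / (Nat.card (Subgroup.centralizer ({x} : Set G)) : ℂ) *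
        (χ : G → ℂ) (x) := by
    have h := centralChar_mul_degree χ (x)
    have he : (Nat.card G : ℂ) = (Nat.card (Subgroup.centralizer ({x} : Set G)) : ℂ) *
        ((Subgroup.centralizer ({x} : Set G)).index : ℂ) := by
      exact_mod_cast (Subgroup.card_mul_index _).symm
    rw [sylowWeight]
    simp only [Nat.cast_mul]
    rw [charDegree_cast χ.2.isCharacter', he]
    have hc := natCard_ne_zero (Subgroup.centralizer ({x} : Set G))
    have hi : ((Subgroup.centralizer ({x} : Set G)).index : ℂ) ≠ 0 :=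
      Nat.cast_ne_zero.2 Subgroup.index_ne_zero_of_finite
    field_simp
    linear_combination ((p ^ d : ℕ) : ℂ) * (sylowMult S χ : ℂ) * h
  rw [e]
  refine mul_mem (natCast_div_mem hM Nat.card_pos.ne' ?_) (irr_mem hM χ _)
  rw [show (Nat.card (Subgroup.centralizer ({x} : Set G))).factorization p = d from hx]
  exact Dvd.intro _ rfl

include hM in
theorem sum_sylowWeight_unit {B : Set (IrrCharacter G)} (hB : IsPBlock M B) {d : ℕ}
    (hd : blockDefect p B = d)
    (hmem : ∑ χ ∈ Finset.univ.filter (· ∈ B), sylowWeight S d χ ∈ locRing hM) :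
    res hM ⟨_, hmem⟩ ≠ 0 := by
    intro h0
    have hp := (Fact.out : p.Prime)
    obtain ⟨η, hη⟩ := isPBlock_nonempty hM hB
    set a := (Nat.card G).factorization p with ha
    have hbd' : blockMin p B + d = a := by
      have := blockMin_le_card hM hB
      rw [blockDefect_eq] at hd
      omega
    have hconj : ∀ (χ : IrrCharacter G) (g : G), conj ((χ : G → ℂ) g⁻¹) = (χ : G → ℂ) g := fun χ g => by
      rw [isCharacter_inv_eq_conj χ.2.isCharacter', Complex.conj_conj]
    set A0 := Finset.univ.filter (· ∈ B) with hA0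
    set sq2 := ∑ χ ∈ A0, charDegree (χ : G → ℂ) ^ 2 with hsq
    have h1 : ((∑ χ ∈ Finset.univ.filter (· ∈ B), sylowWeight S d χ) : ℂ) = ((p ^ d * sq2 : ℕ) : ℂ) / ((Nat.card G * p ^ a : ℕ) : ℂ) := by
      have h2 : ∑ χ ∈ A0, (charDegree (χ : G → ℂ) : ℂ) * ∑ s : (S : Subgroup G), (χ : G → ℂ) (s : G) =
          (sq2 : ℂ) := by
        simp only [Finset.mul_sum]
        rw [Finset.sum_comm, Finset.sum_eq_single (1 : (S : Subgroup G))]
        · rw [hsq, Nat.cast_sum]
          refine Finset.sum_congr rfl fun χ _ => ?_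
          rw [OneMemClass.coe_one, ← charDegree_cast χ.2.isCharacter']
          push_cast
          ring
        · intro s _ hs
          have hord : p ∣ orderOf (s : G)⁻¹ := by
            rw [orderOf_inv, Subgroup.orderOf_coe]
            obtain ⟨k, hk⟩ := IsPGroup.iff_orderOf.1 S.2 s
            rw [hk]
            refine dvd_pow_self p fun h0 => hs ?_
            rwa [h0, pow_zero, orderOf_eq_one_iff] at hk
          have h := coef_indVal_singular hM hB hord
          simp only [coef, mul_eq_zero, inv_eq_zero, natCard_ne_zero G, false_or] at h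
          refine Eq.trans ?_ h
          rw [hA0, Finset.sum_filter]
          refine Finset.sum_congr rfl fun χ _ => ?_
          rw [hconj, charDegree_cast χ.2.isCharacter']
          unfold indVal
          split_ifs <;> simp
        · exact fun h => absurd (Finset.mem_univ _) h
      simp only [sum_sylowMult S, S.card_eq_multiplicity] at h2
      simp only [sylowWeight]
      simp only [← Finset.sum_div]
      push_cast
      rw [← h2, div_eq_div_iff (natCard_ne_zero G) (mul_ne_zero (natCard_ne_zero G)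
        (pow_ne_zero _ (Nat.cast_ne_zero.2 hp.ne_zero))), Finset.sum_mul, Finset.mul_sum,
        Finset.sum_mul]
      refine Finset.sum_congr rfl fun χ _ => ?_
      push_cast
      ring
    have hsq0 : sq2 ≠ 0 := by
      intro h
      have := Finset.sum_eq_zero_iff.1 h (η) (by simp [hA0, hη])
      exact pow_ne_zero 2 (charDegree_pos (η)).ne' this
    have hden : Nat.card G * p ^ a ≠ 0 := mul_ne_zero Nat.card_pos.ne' (pow_ne_zero _ hp.ne_zero)
    have h3 : ((p ^ d * sq2 : ℤ) : ℂ) / ((Nat.card G * p ^ a : ℕ) : ℂ) ∈ locRing hM := by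
      have := hmem
      rw [h1] at this
      push_cast at this ⊢
      exact this
    have h4 : ¬ MemLocalIdeal M (((p ^ d * sq2 : ℤ) : ℂ) / ((Nat.card G * p ^ a : ℕ) : ℂ)) := by
      rw [not_memLocalIdeal_div_iff hM hden h3]
      refine ⟨by exact_mod_cast mul_ne_zero (pow_ne_zero _ hp.ne_zero) hsq0, ?_⟩
      rw [show ((p : ℤ) ^ d * (sq2 : ℤ)) = ((p ^ d * sq2 : ℕ) : ℤ) by push_cast; ring,
        padicValInt.of_nat, ← Nat.factorization_def _ hp,
        Nat.factorization_mul (pow_ne_zero _ hp.ne_zero) hsq0,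
        Nat.factorization_mul Nat.card_pos.ne' (pow_ne_zero _ hp.ne_zero), Finsupp.add_apply,
        Finsupp.add_apply, factorization_sum_sq hM hB, hp.factorization_pow, hp.factorization_pow,
        Finsupp.single_eq_same, Finsupp.single_eq_same]
      have := hbd'
      omega
    refine h4 ((res_eq_zero_iff hM ⟨_, h3⟩).1 ?_)
    rw [← h0]
    refine congrArg (res hM) (Subtype.ext ?_)
    refine Eq.trans ?_ h1.symm
    push_cast
    ring

variable {r : ℕ}

/-- Some choice of columns of a matrix with a right inverse is invertible. -/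
theorem exists_cols_det_ne_zero {K : Type*} [CommRing K] [Nontrivial K] {X : Type*} [Fintype X]
    (A : Matrix (Fin r) X K) (R : Matrix X (Fin r) K) (h : A * R = 1) :
    ∃ σ : Fin r → X, (A.submatrix id σ).det ≠ 0 := by
  by_contra hc
  push Not at hc
  refine one_ne_zero (α := K) ?_
  rw [← Matrix.det_one (n := Fin r), ← h, ← Matrix.det_transpose]
  have e : (A * R).transpose = fun j => ∑ b, R b j • A.transpose b := by
    funext j i
    simp [Matrix.mul_apply, Finset.sum_apply, mul_comm]
  rw [e]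
  show (Matrix.detRowAlternating (R := K)).toMultilinearMap (fun j => ∑ b, R b j • A.transpose b) = 0
  rw [MultilinearMap.map_sum]
  refine Finset.sum_eq_zero fun σ _ => ?_
  rw [MultilinearMap.map_smul_univ]
  have := hc σ
  rw [← Matrix.det_transpose] at this
  exact smul_eq_zero_of_right _ this

include hM in
/-- Separated classes give blocks with prescribed defect group and invertible character values. -/
theorem exists_blocks_separated (D : Subgroup G) (x : Fin r → G)
    (hx : ∀ i j, IsConj (x i) (x j) → i = j)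
    (hD : ∀ i, ∃ S : Sylow p (Subgroup.centralizer ({x i} : Set G)),
      (S : Subgroup (Subgroup.centralizer ({x i} : Set G))).map
        (Subgroup.centralizer ({x i} : Set G)).subtype = D)
    (hsep : ∀ i j, ∀ g h : G, IsConj (x i) g → IsConj (x j) h →
      ∀ k : ℕ, 0 < k → orderOf (g * h⁻¹) ≠ p ^ k) :
    ∃ B : Fin r → Set (IrrCharacter G), Function.Injective B ∧
      (∀ i, IsPBlock M (B i) ∧ IsDefectGroup p M (B i) D) ∧
      ∀ χ : Fin r → IrrCharacter G, (∀ i, χ i ∈ B i ∧ blockHeight p (B i) (χ i : G → ℂ) = 0) →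
        ¬ MemLocalIdeal M (Matrix.det (Matrix.of fun i j : Fin r => (χ i : G → ℂ) (x j))) := by
  rcases isEmpty_or_nonempty (Fin r) with hr | hr
  · refine ⟨fun i => isEmptyElim i, fun i => isEmptyElim i, fun i => isEmptyElim i, fun χ _ => ?_⟩
    rw [Matrix.det_isEmpty]
    haveI := nontrivial_resField hM
    intro h1
    exact one_ne_zero (α := ResField M)
      ((map_one (res hM)).symm.trans ((res_eq_zero_iff hM 1).2 h1))
  have hp := (Fact.out : p.Prime)
  haveI := charP_resField hM
  haveI := nontrivial_resField hM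
  letI : Field (ResField M) := @Ideal.Quotient.field _ _ M hM.2.1
  obtain ⟨S⟩ := (inferInstance : Nonempty (Sylow p G))
  set a := (Nat.card G).factorization p with ha
  set d := (Nat.card D).factorization p with hd
  have hDp : IsPGroup p D := by
    obtain ⟨P, hP⟩ := hD (Classical.arbitrary (Fin r))
    exact hP ▸ P.2.map _
  have hDcard : Nat.card D = p ^ d := by
    obtain ⟨k, hk⟩ := IsPGroup.iff_card.1 hDp
    rw [hd, hk, hp.factorization_pow, Finsupp.single_eq_same]
  have hda : d ≤ a :=
    (Nat.factorization_le_iff_dvd Nat.card_pos.ne' Nat.card_pos.ne').2 D.card_subgroup_dvd_card p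
  have hcd : ∀ i, classDefect p (x i) = d ∧ D ≤ Subgroup.centralizer ({x i} : Set G) := by
    intro i
    obtain ⟨P, hP⟩ := hD i
    refine ⟨?_, hP ▸ Subgroup.map_subtype_le _⟩
    have h1 : Nat.card (P : Subgroup (Subgroup.centralizer ({x i} : Set G))) = Nat.card D := by
      rw [← hP, Subgroup.card_map_of_injective (Subgroup.subtype_injective _)]
    rw [P.card_eq_multiplicity, hDcard] at h1
    exact Nat.pow_right_injective hp.two_le h1
  -- the counting matrix is diagonal
  set Ω : Fin r → Fin r → ℕ := fun i j => Nat.card {yz : G × G //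
    yz.1 ∈ (ConjClasses.mk (x i)).carrier ∧ yz.2 ∈ (ConjClasses.mk (x j)).carrier ∧
      yz.2 * yz.1⁻¹ ∈ (S : Subgroup G)} with hΩ
  have heq : ∀ i j (y z : G), y ∈ (ConjClasses.mk (x i)).carrier → z ∈ (ConjClasses.mk (x j)).carrier →
      z * y⁻¹ ∈ (S : Subgroup G) → z = y := by
    intro i j y z hy hz hzy
    rw [ConjClasses.mem_carrier_iff_mk_eq, ConjClasses.mk_eq_mk_iff_isConj] at hy hz
    obtain ⟨k, hk⟩ := IsPGroup.iff_orderOf.1 S.2 ⟨_, hzy⟩
    rcases Nat.eq_zero_or_pos k with h0 | h0
    · rw [h0, pow_zero, orderOf_eq_one_iff] at hk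
      exact mul_inv_eq_one.1 (congrArg Subtype.val hk)
    · rw [Subgroup.orderOf_mk] at hk
      exact absurd hk (hsep j i z y hz.symm hy.symm k h0)
  have hΩd : ∀ i, Ω i i = (Subgroup.centralizer ({x i} : Set G)).index := by
    intro i
    have h1 : Ω i i = Nat.card (ConjClasses.mk (x i)).carrier := Nat.card_congr
      { toFun := fun t => ⟨t.1.1, t.2.1⟩
        invFun := fun y => ⟨(y.1, y.1), y.2, y.2, by rw [mul_inv_cancel]; exact one_mem _⟩
        left_inv := fun t => Subtype.ext (Prod.ext rfl (heq i i _ _ t.2.1 t.2.2.1 t.2.2.2).symm)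
        right_inv := fun _ => rfl }
    rw [h1, ← ConjAct.orbit_eq_carrier_conjClasses,
      Nat.card_congr (MulAction.orbitEquivQuotientStabilizer (ConjAct G) (x i)),
      Subgroup.centralizer_eq_comap_stabilizer]
    exact (Subgroup.index_comap_of_surjective _ (ConjAct.toConjAct (G := G)).surjective).symm
  have hΩo : ∀ i j, i ≠ j → Ω i j = 0 := by
    intro i j hij
    refine Nat.card_eq_zero.2 (Or.inl ⟨fun t => hij (hx i j ?_)⟩)
    have e := heq i j _ _ t.2.1 t.2.2.1 t.2.2.2
    have h1 := ConjClasses.mem_carrier_iff_mk_eq.1 t.2.1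
    have h2 := ConjClasses.mem_carrier_iff_mk_eq.1 t.2.2.1
    rw [e] at h2
    exact ConjClasses.mk_eq_mk_iff_isConj.1 (h1.symm.trans h2)
  -- the blocks
  have hωmem : ∀ (χ : IrrCharacter G) (g : G), centralChar (χ : G → ℂ) g ∈ locRing hM := fun χ g =>
    centralChar_mem hM χ g
  have hevcl : ∀ (χ : IrrCharacter G) (g : G), ev hM χ (cl hM g) = res hM ⟨_, hωmem χ g⟩ :=
    fun χ g => ev_cl hM g χ
  let Bl := {B : Set (IrrCharacter G) // IsPBlock M B ∧ IsDefectGroup p M B D}
  have hne : ∀ B : Bl, ∃ χ : IrrCharacter G, χ ∈ B.1 := fun B => isPBlock_nonempty hM B.2.1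
  choose rep hrep using hne
  have hdB : ∀ B : Bl, blockDefect p B.1 = d := fun B => by
    have h := card_defectGroup hM B.2.1 B.2.2
    rw [hDcard] at h
    exact (Nat.pow_right_injective hp.two_le h).symm
  have hbd : ∀ B : Bl, blockMin p B.1 + d = a := by
    intro B
    have h1 := hdB B
    have h2 := blockMin_le_card hM B.2.1
    rw [blockDefect_eq] at h1
    omega
  have hkey : ∀ (χ : IrrCharacter G) (i : Fin r) (g : G),
      Subgroup.centralizer ({g} : Set G) = Subgroup.centralizer ({x i} : Set G) →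
      ¬ IsDefectGroup p M (blockOf M (χ : G → ℂ)) D →
      (∃ h : sylowWeight S d χ ∈ locRing hM, res hM ⟨_, h⟩ = 0) ∨ ev hM χ (cl hM g) = 0 := by
    intro χ i g hg hnot
    set B := blockOf M (χ : G → ℂ)
    have hB : IsPBlock M B := isPBlock_blockOf χ
    have hχ : χ ∈ B := mem_blockOf_self hM χ
    rcases lt_or_ge (blockDefect p B) d with hlt | hge
    · left
      have h1 := blockMin_le (p := p) hχ
      have h2 := blockMin_le_card hM hB
      rw [blockDefect_eq] at hlt
      have hmem := sylowWeight_mem S hM (d := d) χ (by omega)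
      refine ⟨hmem, ?_⟩
      have hdiv : p ^ (a + 1) ∣ p ^ d * charDegree (χ : G → ℂ) := by
        refine (pow_dvd_pow p (show a + 1 ≤ d + (charDegree (χ : G → ℂ)).factorization p by omega)).trans ?_
        rw [pow_add]
        exact Nat.mul_dvd_mul_left _ (Nat.ordProj_dvd _ _)
      obtain ⟨c, hc⟩ := hdiv
      have hmem' : ((p ^ a * c * sylowMult S χ : ℕ) : ℂ) / (Nat.card G : ℂ) ∈ locRing hM :=
        natCast_div_mem hM Nat.card_pos.ne' ((Dvd.intro _ rfl).trans (Dvd.intro _ rfl))
      have e : (⟨_, hmem⟩ : locRing hM) = ((p : ℕ) : locRing hM) * ⟨_, hmem'⟩ := by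
        refine Subtype.ext ?_
        show sylowWeight S d χ = (((p : ℕ) : locRing hM) : ℂ) * _
        rw [sylowWeight, hc, SubringClass.coe_natCast]
        push_cast
        ring
      rw [e, map_mul, map_natCast, CharP.cast_eq_zero, zero_mul]
    · right
      by_contra h
      obtain ⟨P, hP⟩ := exists_defectGroup hM hB
      obtain ⟨h', hconj, hh'⟩ := exists_conj_mem_centralizer hM hB (isPGroup_defectGroup hM hB hP)
        (brauerNonzero_defectGroup hM hB hP) hχ h
      obtain ⟨t, ht⟩ := isConj_iff.1 hconj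
      have hle := map_conj_le_centralizer ht hh'
      rw [hg] at hle
      have hd' : blockDefect p B = d := by
        refine le_antisymm ?_ hge
        refine (blockDefect_le_classDefect hM hB hχ h).trans ?_
        rw [← (hcd i).1, classDefect, classDefect, hg]
      obtain ⟨P₁, hP₁⟩ := exists_sylow_map_eq (p := p) hle (by
        rw [card_map_conj, card_defectGroup hM hB hP, hd', ← (hcd i).1]; rfl)
      obtain ⟨P₂, hP₂⟩ := hD i
      obtain ⟨c, hc⟩ := MulAction.exists_smul_eq (Subgroup.centralizer ({x i} : Set G)) P₁ P₂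
      have hD' := isDefectGroup_conj hM hB hP ((c : G) * t⁻¹)
      apply hnot
      convert hD' using 1
      rw [← map_conj_map_conj, hP₁, ← hP₂, ← hc, Sylow.coe_subgroup_smul, Subgroup.pointwise_smul_def]
      show Subgroup.map _ (Subgroup.map (MulAut.conj c).toMonoidHom
        (P₁ : Subgroup (Subgroup.centralizer ({x i} : Set G)))) = _
      rw [Subgroup.map_map, Subgroup.map_map]
      rfl
  -- the form modulo `M`
  have hterm : ∀ (χ : IrrCharacter G) (i j : Fin r),
      sylowWeight S d χ * centralChar (χ : G → ℂ) (x i) * centralChar (χ : G → ℂ) (x j)⁻¹ ∈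
        locRing hM := fun χ i j => mul_mem (sylowWeight_mul_mem S hM (hcd i).1 χ) (hωmem _ _)
  have hwB : ∀ B : Bl, ∀ χ ∈ B.1, sylowWeight S d χ ∈ locRing hM := fun B χ hχ =>
    sylowWeight_mem S hM χ (by
      have := blockMin_le (p := p) hχ
      have := hbd B
      omega)
  let c : Bl → ResField M := fun B => res hM
    ⟨∑ χ ∈ Finset.univ.filter (· ∈ B.1), sylowWeight S d χ,
      sum_mem fun χ hχ => hwB B χ (Finset.mem_filter.1 hχ).2⟩
  let A : Matrix (Fin r) Bl (ResField M) := Matrix.of fun i B => ev hM (rep B) (cl hM (x i))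
  let Ainv : Matrix Bl (Fin r) (ResField M) := Matrix.of fun B j => ev hM (rep B) (cl hM (x j)⁻¹)
  have hidx : ∀ i, ∃ h : ((Subgroup.centralizer ({x i} : Set G)).index : ℂ) /
      ((p ^ (a - d) : ℕ) : ℂ) ∈ locRing hM, res hM ⟨_, h⟩ ≠ 0 ∧
      (Subgroup.centralizer ({x i} : Set G)).index.factorization p = a - d := by
    intro i
    have hf : (Subgroup.centralizer ({x i} : Set G)).index.factorization p = a - d := by
      have h1 := (Subgroup.centralizer ({x i} : Set G)).card_mul_index
      have h2 := (hcd i).1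
      rw [classDefect] at h2
      rw [ha, ← h1, Nat.factorization_mul Nat.card_pos.ne' Subgroup.index_ne_zero_of_finite,
        Finsupp.add_apply, h2, Nat.add_sub_cancel_left]
    have hpa : p ^ (a - d) ≠ 0 := pow_ne_zero _ hp.ne_zero
    have hmem : ((Subgroup.centralizer ({x i} : Set G)).index : ℂ) / ((p ^ (a - d) : ℕ) : ℂ) ∈ locRing hM :=
      natCast_div_mem hM hpa (by
        rw [hp.factorization_pow, Finsupp.single_eq_same]
        calc p ^ (a - d) = p ^ ((Subgroup.centralizer ({x i} : Set G)).index.factorization p) := by rw [hf]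
          _ ∣ _ := Nat.ordProj_dvd _ _)
    have hdvd : p ^ (a - d) ∣ (Subgroup.centralizer ({x i} : Set G)).index := hf ▸ Nat.ordProj_dvd _ _
    refine ⟨hmem, ?_, hf⟩
    rw [res_natCast_div hM hdvd hmem, ← map_natCast (res hM), ne_eq, map_natCast,
      CharP.cast_eq_zero_iff (ResField M) p]
    intro h
    obtain ⟨k, hk⟩ := h
    obtain ⟨l, hl⟩ := hdvd
    rw [hl, Nat.mul_div_cancel_left _ (Nat.pos_of_ne_zero hpa)] at hk
    have hk0 : k ≠ 0 := fun h0 => by
      rw [h0, mul_zero] at hk
      rw [hk, mul_zero] at hl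
      exact Subgroup.index_ne_zero_of_finite hl
    rw [hl, hk, ← mul_assoc, ← pow_succ, Nat.factorization_mul (pow_ne_zero _ hp.ne_zero) hk0,
      Finsupp.add_apply, hp.factorization_pow, Finsupp.single_eq_same] at hf
    omega
  choose hidxm hidx0 hidxf using hidx
  have hform : A * Matrix.diagonal c * Ainv =
      Matrix.diagonal (fun i => res hM ⟨_, hidxm i⟩) := by
    ext i j
    have hmem : ((Ω i j : ℕ) : ℂ) / ((p ^ (a - d) : ℕ) : ℂ) ∈ locRing hM := by
      rw [sylow_class_form S hda]; exact sum_mem fun χ _ => hterm χ i j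
    have hr : res hM ⟨_, hmem⟩ = (Matrix.diagonal (fun i => res hM ⟨_, hidxm i⟩) : Matrix _ _ _) i j := by
      by_cases h : i = j
      · subst h
        rw [Matrix.diagonal_apply_eq]
        exact congrArg (res hM) (Subtype.ext (congrArg (fun n : ℕ => (n : ℂ) / ((p ^ (a - d) : ℕ) : ℂ)) (hΩd i)))
      · rw [Matrix.diagonal_apply_ne _ h, ← map_zero (res hM)]
        refine congrArg (res hM) (Subtype.ext ?_)
        show ((Ω i j : ℕ) : ℂ) / _ = 0
        rw [hΩo i j h, Nat.cast_zero, zero_div]
    rw [← hr, show (⟨_, hmem⟩ : locRing hM) = ∑ χ : IrrCharacter G, ⟨_, hterm χ i j⟩ from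
      Subtype.ext (by rw [AddSubmonoidClass.coe_finsetSum]; exact sylow_class_form S hda _ _),
      map_sum, Matrix.mul_apply]
    simp only [Matrix.mul_diagonal]
    have hsplit : ∀ χ : IrrCharacter G, res hM (⟨_, hterm χ i j⟩ : locRing hM) =
        ∑ B : Bl, if χ ∈ B.1 then res hM (⟨_, hterm χ i j⟩ : locRing hM) else 0 := by
      intro χ
      by_cases h : IsDefectGroup p M (blockOf M (χ : G → ℂ)) D
      · rw [Finset.sum_eq_single (⟨blockOf M (χ : G → ℂ), isPBlock_blockOf χ, h⟩ : Bl),
          if_pos (mem_blockOf_self hM χ)]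
        · intro B _ hB
          rw [if_neg fun h' => hB (Subtype.ext (isPBlock_eq_blockOf hM B.2.1 h'))]
        · exact fun h => absurd (Finset.mem_univ _) h
      · have hz : res hM (⟨_, hterm χ i j⟩ : locRing hM) = 0 := by
          rcases hkey χ j (x j)⁻¹ (by
              ext z
              rw [Subgroup.mem_centralizer_singleton_iff, Subgroup.mem_centralizer_singleton_iff]
              exact ⟨fun h => inv_inv (x j) ▸ (Commute.inv_right h : Commute z (x j)⁻¹⁻¹),
                fun h => (Commute.inv_right h : Commute z (x j)⁻¹)⟩) h with ⟨hw, hw0⟩ | hj0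
          · rw [show (⟨_, hterm χ i j⟩ : locRing hM) = ⟨_, hw⟩ * ⟨_, hωmem χ (x i)⟩ * ⟨_, hωmem χ (x j)⁻¹⟩
              from rfl, map_mul, map_mul, hw0, zero_mul, zero_mul]
          · rw [hevcl] at hj0
            rw [show (⟨_, hterm χ i j⟩ : locRing hM) =
              ⟨_, sylowWeight_mul_mem S hM (hcd i).1 χ⟩ * ⟨_, hωmem χ (x j)⁻¹⟩ from rfl, map_mul, hj0,
              mul_zero]
        rw [hz]
        simp
    rw [Finset.sum_congr rfl fun χ _ => hsplit χ, Finset.sum_comm]
    refine Finset.sum_congr rfl fun B _ => ?_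
    simp only [c, A, Ainv, Matrix.of_apply]
    rw [← Finset.sum_filter, show (⟨∑ χ ∈ Finset.univ.filter (· ∈ B.1), sylowWeight S d χ, _⟩ : locRing hM) =
      ∑ χ : {χ : IrrCharacter G // χ ∈ B.1}, ⟨_, hwB B χ.1 χ.2⟩ from Subtype.ext (by
        rw [AddSubmonoidClass.coe_finsetSum]
        exact Finset.sum_subtype _ (fun χ => by simp) _),
      Finset.sum_subtype (Finset.univ.filter (· ∈ B.1)) (p := fun χ => χ ∈ B.1) (fun χ => by simp)]
    simp only [map_sum, Finset.mul_sum, Finset.sum_mul]
    refine Finset.sum_congr rfl fun χ _ => ?_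
    rw [← ev_eq_of_mem hM B.2.1 χ.2 (hrep B) (cl hM (x i)),
      ← ev_eq_of_mem hM B.2.1 χ.2 (hrep B) (cl hM (x j)⁻¹), hevcl, hevcl, ← map_mul, ← map_mul]
    refine congrArg (res hM) (Subtype.ext ?_)
    show centralChar (χ.1 : G → ℂ) (x i) * sylowWeight S d χ.1 * _ = sylowWeight S d χ.1 * _ * _
    ring
  obtain ⟨σ, hσ⟩ := exists_cols_det_ne_zero A
    (Matrix.diagonal c * Ainv * Matrix.diagonal (fun i => (res hM ⟨_, hidxm i⟩)⁻¹)) (by
      rw [← Matrix.mul_assoc, ← Matrix.mul_assoc, hform, Matrix.diagonal_mul_diagonal,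
        ← Matrix.diagonal_one]
      congr 1
      funext i
      exact mul_inv_cancel₀ (hidx0 i))
  have hσinj : Function.Injective σ := by
    intro i j hij
    by_contra hne
    exact hσ (Matrix.det_zero_of_column_eq hne fun k => by simp [hij])
  refine ⟨fun i => (σ i).1, fun i j h => hσinj (Subtype.ext h), fun i => (σ i).2, fun χ hχ => ?_⟩
  have hv : ∀ i j, ∃ h : (χ i : G → ℂ) (x j) ∈ locRing hM,
      ∃ u : ResField M, u ≠ 0 ∧ ∃ t : ResField M, t ≠ 0 ∧
        t = res hM ⟨_, hidxm j⟩ ∧ res hM ⟨_, h⟩ * t = u * A j (σ i) ∧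
        ∃ hu : (charDegree (χ i : G → ℂ) : ℂ) / ((p ^ (a - d) : ℕ) : ℂ) ∈ locRing hM,
          u = res hM ⟨_, hu⟩ := by
    intro i j
    obtain ⟨hmem, h0⟩ := hχ i
    rw [blockHeight_zero_iff hmem] at h0
    have hbd' := hbd (σ i)
    dsimp only at h0 hmem
    have hdvd : p ^ (a - d) ∣ charDegree (χ i : G → ℂ) := by
      rw [show a - d = (charDegree (χ i : G → ℂ)).factorization p by omega]
      exact Nat.ordProj_dvd _ _
    have hu : (charDegree (χ i : G → ℂ) : ℂ) / ((p ^ (a - d) : ℕ) : ℂ) ∈ locRing hM :=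
      natCast_div_mem hM (pow_ne_zero _ hp.ne_zero) (by
        rwa [hp.factorization_pow, Finsupp.single_eq_same])
    have hu0 : res hM ⟨_, hu⟩ ≠ 0 := by
      rw [res_natCast_div hM hdvd hu, ne_eq, CharP.cast_eq_zero_iff (ResField M) p]
      have := Nat.not_dvd_ordCompl hp (charDegree_pos (χ i)).ne'
      rwa [show a - d = (charDegree (χ i : G → ℂ)).factorization p by omega]
    refine ⟨irr_mem hM (χ i) (x j), _, hu0, _, hidx0 j, rfl, ?_, hu, rfl⟩
    simp only [A, Matrix.of_apply]
    rw [← ev_eq_of_mem hM (σ i).2.1 hmem (hrep (σ i)), hevcl, ← map_mul, ← map_mul]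
    refine congrArg (res hM) (Subtype.ext ?_)
    show (χ i : G → ℂ) (x j) * _ = _ * centralChar (χ i : G → ℂ) (x j)
    have h2 := centralChar_mul_degree (χ i) (x j)
    rw [← charDegree_cast (χ i).2.isCharacter'] at h2
    have hp0 : ((p ^ (a - d) : ℕ) : ℂ) ≠ 0 := Nat.cast_ne_zero.2 (pow_ne_zero _ hp.ne_zero)
    field_simp
    linear_combination -h2
  choose hmemv u hu0 t ht0 ht hrel hum hueq using hv
  let V : Matrix (Fin r) (Fin r) (locRing hM) := Matrix.of fun i j => ⟨_, hmemv i j⟩
  intro hbad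
  have hdet : (V.det : ℂ) = Matrix.det (Matrix.of fun i j : Fin r => (χ i : G → ℂ) (x j)) := by
    rw [show ((V.det : locRing hM) : ℂ) = (locRing hM).subtype V.det from rfl, RingHom.map_det]
    rfl
  rw [← hdet, ← res_eq_zero_iff, RingHom.map_det] at hbad
  have e : (res hM).mapMatrix V * Matrix.diagonal (fun j => res hM ⟨_, hidxm j⟩) =
      Matrix.diagonal (fun i => u i (Classical.arbitrary _)) * (A.submatrix id σ).transpose := by
    ext i j
    rw [Matrix.mul_diagonal, Matrix.diagonal_mul]
    simp only [RingHom.mapMatrix_apply, Matrix.map_apply, V, Matrix.of_apply, Matrix.transpose_apply,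
      Matrix.submatrix_apply, id_eq]
    have hu' : u i (Classical.arbitrary _) = u i j := by rw [hueq, hueq]
    rw [hu', ← ht i j]
    exact hrel i j
  have h := congrArg Matrix.det e
  rw [Matrix.det_mul, Matrix.det_mul, hbad, zero_mul, Matrix.det_transpose, Matrix.det_diagonal] at h
  rcases mul_eq_zero.1 h.symm with h1 | h1
  · obtain ⟨i, -, hi⟩ := Finset.prod_eq_zero_iff.1 h1
    exact hu0 _ _ hi
  · exact hσ h1

end CfsgLib.Block
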