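import Cfsg.Agent.Lib.BlockGalSum
import Cfsg.Agent.Lib.BlockLocal

/-!
# Lower bounds for Galois averages
-/

set_option autoImplicit false

namespace CfsgLib.Block

open Polynomial Cfsg
open scoped ComplexConjugate Classical

variable {p : ℕ} {M : Ideal AlgInt}

/-- The exponents coprime to `p` below `N`. -/
noncomputable def galExps (p N : ℕ) : Finset ℕ := (Finset.range N).filter fun j => ¬ p ∣ j

theorem one_mem_galExps (hp : p.Prime) (a : ℕ) : 1 ∈ galExps p (p ^ (a + 1)) :=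
  Finset.mem_filter.2
    ⟨Finset.mem_range.2 (Nat.one_lt_pow (Nat.succ_ne_zero a) hp.one_lt), hp.not_dvd_one⟩

theorem galExps_not_dvd {N k : ℕ} (hk : k ∈ galExps p N) : ¬ p ∣ k := (Finset.mem_filter.1 hk).2

theorem not_dvd_mul_mod (hp : p.Prime) (a : ℕ) {k j : ℕ} (hk : ¬ p ∣ k) (hj : ¬ p ∣ j) :
    ¬ p ∣ k * j % p ^ (a + 1) := by
  intro h
  rw [Nat.dvd_mod_iff (dvd_pow_self p (Nat.succ_ne_zero a))] at h
  exact (hp.dvd_mul.1 h).elim hk hj

theorem intPow_dvd_of_div_mem (hM : IsPModular p M) {n : ℤ} {e : ℕ}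
    (h : (n : ℂ) / (p : ℂ) ^ e ∈ locRing hM) : (p : ℤ) ^ e ∣ n := by
  have h' : ((n.natAbs : ℕ) : ℂ) / (p : ℂ) ^ e ∈ locRing hM := by
    rcases Int.natAbs_eq n with hn | hn
    · rw [show ((n.natAbs : ℕ) : ℂ) = (n : ℂ) by conv_rhs => rw [hn, Int.cast_natCast]]
      exact h
    · rw [show ((n.natAbs : ℕ) : ℂ) = -(n : ℂ) by
        conv_rhs => rw [hn, Int.cast_neg, Int.cast_natCast, neg_neg], neg_div]
      exact neg_mem h
  rw [← Int.natCast_pow, Int.natCast_dvd]
  exact pow_dvd_of_div_mem hM e _ h'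

/-- A family which is nonzero at one exponent is nonzero at all of them. -/
theorem GalVal.ne_zero {ζ : ℂ} {a : ℕ} {f : ℕ → ℂ} (hp : p.Prime)
    (hζ : IsPrimitiveRoot ζ (p ^ (a + 1))) (hf : GalVal p ζ f) (h1 : f 1 ≠ 0) {k : ℕ}
    (hk : ¬ p ∣ k) : f k ≠ 0 := by
  obtain ⟨Q, hQ⟩ := hf
  intro h0
  have hc : Nat.Coprime k (p ^ (a + 1)) :=
    Nat.Coprime.pow_right _ (hp.coprime_iff_not_dvd.2 hk).symm
  have hint : IsIntegral ℤ ζ := hζ.isIntegral (pow_pos hp.pos _)
  rw [hQ k hk] at h0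
  have hd : minpoly ℤ (ζ ^ k) ∣ Q :=
    minpoly.isIntegrallyClosed_dvd (hint.pow k) h0
  rw [← hζ.minpoly_eq_pow_coprime hc] at hd
  obtain ⟨r, hr⟩ := hd
  apply h1
  rw [hQ 1 hp.not_dvd_one, pow_one, hr, map_mul, minpoly.aeval, zero_mul]

/-- **Arithmetic and geometric mean.** A positive family of algebraic integers all of whose
members are divisible by `p ^ e` has average at least `p ^ e`. -/
theorem GalVal.le_sum (hM : IsPModular p M) {ζ : ℂ} {a : ℕ}
    (hζ : IsPrimitiveRoot ζ (p ^ (a + 1))) {x : ℕ → ℝ} (hf : GalVal p ζ fun k => (x k : ℂ))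
    (e : ℕ) (hpos : ∀ k ∈ galExps p (p ^ (a + 1)), 0 < x k)
    (hdiv : ∀ k ∈ galExps p (p ^ (a + 1)), (x k : ℂ) / (p : ℂ) ^ e ∈ locRing hM) :
    ((galExps p (p ^ (a + 1))).card : ℝ) * (p : ℝ) ^ e ≤
      ∑ k ∈ galExps p (p ^ (a + 1)), x k := by
  have hp := hM.1
  set N := p ^ (a + 1) with hN
  set J := galExps p N with hJ
  have hNpos : 0 < N := pow_pos hp.pos _
  set F : ℕ → ℂ := fun k => ∏ j ∈ J, (x (k * j % N) : ℂ) with hF
  have hFG : GalVal p ζ F := by
    refine galVal_prod J (fun j k => (x (k * j % N) : ℂ)) fun j hj => ?_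
    obtain ⟨Q, hQ⟩ := hf
    refine ⟨Q.comp (Polynomial.X ^ j), fun k hk => ?_⟩
    rw [Polynomial.aeval_comp, Polynomial.aeval_X_pow]
    show (x (k * j % N) : ℂ) = _
    rw [show (x (k * j % N) : ℂ) = _ from hQ _ (not_dvd_mul_mod hp a hk (galExps_not_dvd hj)),
      ← pow_mul, pow_eq_pow_mod (k * j) hζ.pow_eq_one]
  have hFc : ∀ k, ¬ p ∣ k → F k = F 1 := by
    intro k hk
    simp only [hF, one_mul]
    have hinj : Set.InjOn (fun j => k * j % N) (J : Set ℕ) := by
      intro i hi j hj hij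
      have hcop : Nat.Coprime N k := by
        rw [hN]; exact Nat.Coprime.pow_left _ (hp.coprime_iff_not_dvd.2 hk)
      exact (Nat.ModEq.cancel_left_of_coprime hcop hij).eq_of_lt_of_lt
        (Finset.mem_range.1 (Finset.mem_filter.1 hi).1)
        (Finset.mem_range.1 (Finset.mem_filter.1 hj).1)
    have himg : J.image (fun j => k * j % N) = J := by
      refine Finset.eq_of_subset_of_card_le ?_ (Finset.card_image_of_injOn hinj).ge
      intro y hy
      obtain ⟨j, hj, rfl⟩ := Finset.mem_image.1 hy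
      exact Finset.mem_filter.2 ⟨Finset.mem_range.2 (Nat.mod_lt _ hNpos),
        not_dvd_mul_mod hp a hk (galExps_not_dvd hj)⟩
    conv_rhs => rw [← himg, Finset.prod_image hinj]
    refine Finset.prod_congr rfl fun j hj => ?_
    rw [Nat.mod_mod]
  obtain ⟨z, hz⟩ := hFG.exists_int hp hζ.pow_eq_one hFc
  have hprodz : ∏ j ∈ J, (x j : ℂ) = (z : ℂ) := by
    rw [← hz]
    simp only [hF, one_mul]
    exact Finset.prod_congr rfl fun j hj => by
      rw [Nat.mod_eq_of_lt (Finset.mem_range.1 (Finset.mem_filter.1 hj).1)]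
  have hR : (∏ j ∈ J, x j : ℝ) = (z : ℝ) := by
    apply Complex.ofReal_injective
    push_cast
    exact hprodz
  have hzpos : (0 : ℤ) < z := by
    have := Finset.prod_pos hpos
    rw [hR] at this
    exact Int.cast_pos.1 this
  have hdvd : (p : ℤ) ^ (e * J.card) ∣ z := by
    apply intPow_dvd_of_div_mem hM
    rw [← hprodz, pow_mul, ← Finset.prod_const, ← Finset.prod_div_distrib]
    exact prod_mem fun j hj => hdiv j hj
  have hpe : (0 : ℝ) < (p : ℝ) ^ e := pow_pos (Nat.cast_pos.2 hp.pos) _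
  have h1 : (1 : ℝ) ≤ ∏ j ∈ J, x j / (p : ℝ) ^ e := by
    rw [Finset.prod_div_distrib, hR, Finset.prod_const, ← pow_mul,
      one_le_div (pow_pos (Nat.cast_pos.2 hp.pos) _)]
    exact_mod_cast Int.le_of_dvd hzpos hdvd
  have h2 := card_le_sum_of_prod_ge_one J _ (fun j hj => div_pos (hpos j hj) hpe) h1
  rw [← Finset.sum_div, le_div_iff₀ hpe] at h2
  exact h2

end CfsgLib.Block
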