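import Cfsg.Agent.Lib.BlockGalInt
import Mathlib.RingTheory.RootsOfUnity.Minpoly

/-!
# Galois sums of positive algebraic integers
-/

set_option autoImplicit false

namespace CfsgLib.Block

open Polynomial
open scoped ComplexConjugate Classical

variable {p : ℕ} {ζ : ℂ} {f : ℕ → ℂ}

/-- An integral value is the value at every coprime exponent. -/
theorem GalVal.eq_of_int {a : ℕ} (hp : p.Prime) (hζ : IsPrimitiveRoot ζ (p ^ a))
    (hf : GalVal p ζ f) {n : ℤ} (h1 : f 1 = (n : ℂ)) {k : ℕ} (hk : ¬ p ∣ k) : f k = (n : ℂ) := by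
  obtain ⟨Q, hQ⟩ := hf
  have hpos : 0 < p ^ a := pow_pos hp.pos a
  have hint : IsIntegral ℤ ζ := hζ.isIntegral hpos
  have hc : Nat.Coprime k (p ^ a) := Nat.Coprime.pow_right a (hp.coprime_iff_not_dvd.2 hk).symm
  have h0 : aeval ζ (Q - C n) = 0 := by
    have h2 := hQ 1 hp.not_dvd_one
    rw [pow_one, h1] at h2
    rw [map_sub, aeval_C, ← h2]
    simp
  have hd : minpoly ℤ ζ ∣ Q - C n := minpoly.isIntegrallyClosed_dvd hint h0
  rw [hζ.minpoly_eq_pow_coprime hc] at hd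
  have hk0 : aeval (ζ ^ k) (Q - C n) = 0 := by
    obtain ⟨r, hr⟩ := hd
    rw [hr, map_mul, minpoly.aeval, zero_mul]
  rw [map_sub, aeval_C, sub_eq_zero] at hk0
  rw [hQ k hk, hk0]
  simp

theorem card_le_sum_of_prod_ge_one {ι : Type*} (s : Finset ι) (x : ι → ℝ) (hx : ∀ i ∈ s, 0 < x i)
    (hprod : 1 ≤ ∏ i ∈ s, x i) : (s.card : ℝ) ≤ ∑ i ∈ s, x i := by
  have hlog : 0 ≤ ∑ i ∈ s, Real.log (x i) := by
    rw [← Real.log_prod (fun i hi => (hx i hi).ne')]
    exact Real.log_nonneg hprod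
  have hle : ∑ i ∈ s, Real.log (x i) ≤ ∑ i ∈ s, (x i - 1) :=
    Finset.sum_le_sum fun i hi => Real.log_le_sub_one_of_pos (hx i hi)
  simp only [Finset.sum_sub_distrib, Finset.sum_const, nsmul_eq_mul, mul_one] at hle
  linarith

end CfsgLib.Block
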