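import Cfsg.Agent.Lib.BlockGalInt
import Cfsg.Agent.Lib.BlockLocal
import Mathlib.RingTheory.RootsOfUnity.Minpoly

/-!
# Galois averages over the 2-power cyclotomic fields
-/

set_option autoImplicit false

namespace CfsgLib.Block

open Polynomial Cfsg
open scoped ComplexConjugate Classical

/-- The odd exponents below `2 ^ (a + 1)`. -/
noncomputable def oddExps (a : ℕ) : Finset ℕ :=
  (Finset.range (2 ^ (a + 1))).filter fun k => ¬ 2 ∣ k

theorem card_oddExps (a : ℕ) :
    oddExps a = (Finset.range (2 ^ a)).image fun r => 2 * r + 1 := by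
  ext k
  simp only [oddExps, Finset.mem_filter, Finset.mem_range, Finset.mem_image]
  constructor
  · rintro ⟨h1, h2⟩
    exact ⟨k / 2, by rw [pow_succ] at h1; omega, by omega⟩
  · rintro ⟨r, hr, rfl⟩
    exact ⟨by rw [pow_succ]; omega, by omega⟩

theorem sum_oddExps {ζ : ℂ} {a : ℕ} (hζ : IsPrimitiveRoot ζ (2 ^ (a + 1))) {i : ℕ}
    (hi : i < 2 * 2 ^ (a + 1)) :
    ∑ k ∈ oddExps a, ζ ^ (i * k) =
      if i = 0 ∨ i = 2 ^ (a + 1) then ((2 : ℂ) ^ a)
      else if i = 2 ^ a ∨ i = 3 * 2 ^ a then -((2 : ℂ) ^ a) else 0 := by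
  have hm : ζ ^ (2 ^ a) = -1 := by
    have h1 : IsPrimitiveRoot (ζ ^ (2 ^ a)) 2 :=
      hζ.pow (pow_pos two_pos _) (by rw [pow_succ])
    exact h1.eq_neg_one_of_two_right
  rw [card_oddExps, Finset.sum_image (fun x _ y _ h => by simpa using h)]
  have e : ∀ r, ζ ^ (i * (2 * r + 1)) = ζ ^ i * ((ζ ^ i) ^ 2) ^ r := fun r => by
    rw [← pow_mul, ← pow_mul, ← pow_add]
    congr 1
    ring
  simp only [e, ← Finset.mul_sum]
  have h2 : 2 ^ (a + 1) = 2 * 2 ^ a := by rw [pow_succ]; ring
  split_ifs with h h'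
  · have h1 : ζ ^ i = 1 := by
      rcases h with rfl | rfl
      · rw [pow_zero]
      · exact hζ.pow_eq_one
    simp [h1]
  · have h1 : ζ ^ i = -1 := by
      rcases h' with rfl | rfl
      · exact hm
      · rw [mul_comm, pow_mul, hm]; norm_num
    simp [h1]
  · have hne : (ζ ^ i) ^ 2 ≠ 1 := fun hc => by
      rw [← pow_mul, hζ.pow_eq_one_iff_dvd, h2] at hc
      obtain ⟨c, hc⟩ := hc
      have hi' : i = 2 ^ a * c := by linarith [hc]
      have hp : 0 < 2 ^ a := pow_pos two_pos a
      have hc4 : c < 4 := by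
        by_contra hcon
        have : 2 ^ a * 4 ≤ 2 ^ a * c := Nat.mul_le_mul_left _ (not_lt.1 hcon)
        omega
      interval_cases c <;> simp_all <;> omega
    rw [geom_sum_eq hne, ← pow_mul, ← pow_mul,
      show i * (2 * 2 ^ a) = 2 ^ (a + 1) * i by rw [h2]; ring, pow_mul, hζ.pow_eq_one, one_pow,
      sub_self, zero_div, mul_zero]

variable {M : Ideal AlgInt}

/-- **Averages of a unit.** For a value which is a unit modulo two, the average of its square
norm is an odd integer; if it is real then so is its average, and the square of the latter is at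
most the former. -/
theorem galTwo_average (hM : IsPModular 2 M) {ζ : ℂ} {a : ℕ} {f : ℕ → ℂ}
    (hζ : IsPrimitiveRoot ζ (2 ^ (a + 1))) (hf : GalVal 2 ζ f) (hne : ¬ MemLocalIdeal M (f 1)) :
    ∃ S c : ℤ, Odd S ∧ 0 ≤ S ∧ ∑ k ∈ oddExps a, f k * conj (f k) = (2 : ℂ) ^ a * S ∧
      ((∀ k, ¬ 2 ∣ k → conj (f k) = f k) →
        Odd c ∧ c ^ 2 ≤ S ∧ ∑ k ∈ oddExps a, f k = (2 : ℂ) ^ a * c) := by
  obtain ⟨Q, hQ⟩ := hf
  set m := 2 ^ a with hm
  have hmpos : 0 < m := pow_pos two_pos a
  have h2 : 2 ^ (a + 1) = 2 * m := by rw [hm, pow_succ]; ring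
  set c : ℕ → ℤ := fun r => ∑ j ∈ Q.support.filter (fun j => j % m = r), Q.coeff j * (-1) ^ (j / m)
    with hc
  have hζm : ζ ^ m = -1 := by
    have h1 : IsPrimitiveRoot (ζ ^ m) 2 := hζ.pow (pow_pos two_pos _) (by rw [h2]; ring)
    exact h1.eq_neg_one_of_two_right
  have hred : ∀ k, ¬ 2 ∣ k → f k = ∑ r ∈ Finset.range m, (c r : ℂ) * ζ ^ (r * k) := by
    intro k hk
    rw [hQ k hk, aeval_eq_sum_range' (lt_add_one Q.natDegree)]
    rw [← Finset.sum_subset (s₁ := Q.support) (s₂ := Finset.range (Q.natDegree + 1))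
      (f := fun i => Q.coeff i • (ζ ^ k) ^ i)
      (fun j hj => Finset.mem_range.2 (Nat.lt_succ_of_le (le_natDegree_of_mem_supp j hj)))
      (fun j _ hj => by simp [notMem_support_iff.1 hj]),
      ← Finset.sum_fiberwise_of_maps_to (g := fun j => j % m) (t := Finset.range m)
        (fun j _ => Finset.mem_range.2 (Nat.mod_lt _ hmpos))]
    refine Finset.sum_congr rfl fun r _ => ?_
    simp only [hc]
    push_cast
    rw [Finset.sum_mul]
    refine Finset.sum_congr rfl fun j hj => ?_
    have hjr : j % m = r := (Finset.mem_filter.1 hj).2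
    rw [zsmul_eq_mul, ← pow_mul, mul_assoc]
    congr 1
    have hk1 : (-1 : ℂ) ^ k = -1 := by
      rw [Odd.neg_one_pow]; exact Nat.odd_iff.2 (by omega)
    have e : k * j = m * k * (j / m) + r * k := by
      conv_lhs => rw [← Nat.div_add_mod j m, hjr]
      ring
    rw [e, pow_add, pow_mul, pow_mul, hζm, hk1]
  have hJodd : ∀ k ∈ oddExps a, ¬ 2 ∣ k := fun k hk => (Finset.mem_filter.1 hk).2
  have hNroot : ∀ i, ζ ^ (2 ^ (a + 1) * i) = 1 := fun i => by
    rw [pow_mul, hζ.pow_eq_one, one_pow]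
  have hconj : ∀ r, r < m → ∀ k, conj (ζ ^ (r * k)) = ζ ^ ((2 * m - r) * k) := by
    intro r hr k
    have h1 : (ζ ^ (r * k)) ^ (2 * m) = 1 := by
      rw [← pow_mul, mul_comm, ← h2, hNroot]
    rw [← CfsgLib.Char.inv_eq_conj_of_pow_eq_one (by omega) h1]
    refine inv_eq_of_mul_eq_one_right ?_
    rw [← pow_add, ← add_mul, Nat.add_sub_cancel' (by omega), ← h2, hNroot]
  have hval : ∀ r < m, ∀ r' < m, ∑ k ∈ oddExps a, ζ ^ ((r + (2 * m - r')) * k) =
      if r = r' then (2 : ℂ) ^ a else 0 := by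
    intro r hr r' hr'
    rw [sum_oddExps hζ (by omega)]
    split_ifs <;> first | rfl | omega
  set S := ∑ r ∈ Finset.range m, c r ^ 2 with hS
  have hsum : ∑ k ∈ oddExps a, f k * conj (f k) = (2 : ℂ) ^ a * S := by
    calc ∑ k ∈ oddExps a, f k * conj (f k)
        = ∑ k ∈ oddExps a, ∑ r ∈ Finset.range m, ∑ r' ∈ Finset.range m,
            (c r : ℂ) * (c r' : ℂ) * ζ ^ ((r + (2 * m - r')) * k) := by
          refine Finset.sum_congr rfl fun k hk => ?_
          rw [hred k (hJodd k hk), map_sum, Finset.sum_mul_sum]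
          refine Finset.sum_congr rfl fun r _ => Finset.sum_congr rfl fun r' hr' => ?_
          rw [map_mul, map_intCast, hconj r' (Finset.mem_range.1 hr') k, add_mul, pow_add]
          ring
      _ = ∑ r ∈ Finset.range m, ∑ r' ∈ Finset.range m,
            (c r : ℂ) * (c r' : ℂ) * (if r = r' then (2 : ℂ) ^ a else 0) := by
          rw [Finset.sum_comm]
          refine Finset.sum_congr rfl fun r hr => ?_
          rw [Finset.sum_comm]
          refine Finset.sum_congr rfl fun r' hr' => ?_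
          rw [← Finset.mul_sum, hval r (Finset.mem_range.1 hr) r' (Finset.mem_range.1 hr')]
      _ = _ := by
          simp only [mul_ite, mul_zero, Finset.sum_ite_eq, hS]
          push_cast
          rw [Finset.mul_sum]
          refine Finset.sum_congr rfl fun r hr => ?_
          rw [if_pos hr]
          ring
  have hodd : Odd (∑ r ∈ Finset.range m, c r) := by
    rw [← Int.not_even_iff_odd, even_iff_two_dvd]
    intro hd
    apply hne
    rw [memLocalIdeal_iff_exists hM]
    have hroot : IsIntegral ℤ ζ := hζ.isIntegral (pow_pos two_pos _)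
    set z : locRing hM := ⟨ζ, isIntegral_mem hM hroot⟩ with hz
    have hz1 : res hM z = 1 :=
      res_eq_one_of_pow_prime_pow hM (n := a + 1) (Subtype.ext (by simpa [hz] using hζ.pow_eq_one))
    have e : ((∑ r ∈ Finset.range m, (c r : locRing hM) * z ^ r : locRing hM) : ℂ) = f 1 := by
      rw [hred 1 (by decide)]
      simp [hz]
    refine ⟨e ▸ Subtype.mem _, ?_⟩
    have e2 : (⟨f 1, e ▸ Subtype.mem _⟩ : locRing hM) =
        ∑ r ∈ Finset.range m, (c r : locRing hM) * z ^ r := Subtype.ext e.symm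
    rw [e2, map_sum]
    simp only [map_mul, map_pow, hz1, one_pow, mul_one, map_intCast]
    rw [← Int.cast_sum]
    haveI := charP_resField hM
    exact (CharP.intCast_eq_zero_iff (ResField M) 2 _).2 hd
  have hSodd : Odd S := by
    rw [← Int.not_even_iff_odd, even_iff_two_dvd] at hodd ⊢
    intro hd
    apply hodd
    have : (2 : ℤ) ∣ ∑ r ∈ Finset.range m, (c r ^ 2 - c r) :=
      Finset.dvd_sum fun r _ => by
        rcases Int.even_or_odd (c r) with ⟨t, ht⟩ | ⟨t, ht⟩
        · exact ⟨2 * t ^ 2 - t, by rw [ht]; ring⟩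
        · exact ⟨2 * t ^ 2 + t, by rw [ht]; ring⟩
    rw [Finset.sum_sub_distrib] at this
    exact (dvd_sub_right hd).1 this
  refine ⟨S, c 0, hSodd, Finset.sum_nonneg fun r _ => sq_nonneg (c r), hsum, fun hreal => ?_⟩
  have hmom : ∀ i, i < m → ∑ k ∈ oddExps a, f k * ζ ^ ((2 * m - i) * k) =
      (2 : ℂ) ^ a * c i := by
    intro i hi
    calc ∑ k ∈ oddExps a, f k * ζ ^ ((2 * m - i) * k)
        = ∑ k ∈ oddExps a, ∑ r ∈ Finset.range m,
            (c r : ℂ) * ζ ^ ((r + (2 * m - i)) * k) := by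
          refine Finset.sum_congr rfl fun k hk => ?_
          rw [hred k (hJodd k hk), Finset.sum_mul]
          exact Finset.sum_congr rfl fun r _ => by rw [add_mul, pow_add]; ring
      _ = _ := by
          rw [Finset.sum_comm]
          rw [Finset.sum_congr rfl fun r hr => by
            rw [← Finset.mul_sum, hval r (Finset.mem_range.1 hr) i hi]]
          simp only [mul_ite, mul_zero, Finset.sum_ite_eq', Finset.mem_range, if_pos hi]
          ring
  have hpair : ∀ r, 0 < r → r < m → c r = -c (m - r) := by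
    intro r h0 hr
    have h1 := congrArg conj (hmom r hr)
    rw [map_sum, map_mul, map_pow, map_intCast, show conj (2 : ℂ) = 2 from map_ofNat _ 2] at h1
    have e : ∑ k ∈ oddExps a, conj (f k * ζ ^ ((2 * m - r) * k)) =
        -((2 : ℂ) ^ a * c (m - r)) := by
      calc ∑ k ∈ oddExps a, conj (f k * ζ ^ ((2 * m - r) * k))
          = ∑ k ∈ oddExps a, f k * ζ ^ ((2 * m - (m - r)) * k) * (-1) := by
            refine Finset.sum_congr rfl fun k hk => ?_
            rw [map_mul, hreal k (hJodd k hk), ← hconj r hr k, Complex.conj_conj, mul_assoc]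
            congr 1
            rw [show 2 * m - (m - r) = m + r by omega, add_mul, pow_add, pow_mul ζ m k, hζm,
              (Nat.odd_iff.2 (by have := hJodd k hk; omega) : Odd k).neg_one_pow]
            ring
        _ = _ := by rw [← Finset.sum_mul, hmom (m - r) (by omega)]; ring
    rw [e] at h1
    have h3 : (c r : ℂ) = -(c (m - r) : ℂ) := by
      apply mul_left_cancel₀ (pow_ne_zero a (two_ne_zero' ℂ))
      linear_combination -h1
    exact_mod_cast h3
  have hzero : ∑ r ∈ Finset.Ico 1 m, c r = 0 := by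
    have h1 : ∑ r ∈ Finset.Ico 1 m, c r = ∑ r ∈ Finset.Ico 1 m, -c r := by
      calc ∑ r ∈ Finset.Ico 1 m, c r = ∑ r ∈ Finset.Ico 1 m, -c (m - r) :=
            Finset.sum_congr rfl fun r hr => by
              rw [Finset.mem_Ico] at hr
              exact hpair r (by omega) hr.2
        _ = _ := by
            refine Finset.sum_nbij' (fun r => m - r) (fun r => m - r) ?_ ?_ ?_ ?_ fun r _ => rfl
            all_goals intro r hr; simp only [Finset.coe_Ico, Set.mem_Ico, Finset.mem_Ico] at *; omega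
    rw [Finset.sum_neg_distrib] at h1
    linarith
  refine ⟨?_, Finset.single_le_sum (fun r _ => sq_nonneg (c r)) (Finset.mem_range.2 hmpos), ?_⟩
  · rw [Finset.range_eq_Ico, Finset.sum_eq_sum_Ico_succ_bot hmpos, hzero, add_zero] at hodd
    exact hodd
  · rw [← hmom 0 hmpos]
    refine Finset.sum_congr rfl fun k _ => ?_
    rw [Nat.sub_zero, ← h2, hNroot, mul_one]

end CfsgLib.Block
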