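import Cfsg.Agent.Lib.BlockGalTwo
import Cfsg.Agent.Lib.BlockGalSum

/-!
# Divisibility in the 2-power cyclotomic rings
-/

set_option autoImplicit false

namespace CfsgLib.Block

open Polynomial Cfsg
open scoped ComplexConjugate Classical

variable {M : Ideal AlgInt}

/-- Two is divisible by `(1 - ζ) ^ 2 ^ a`. -/
theorem exists_two_eq_pow_mul {R : Type*} [CommRing R] {z : R} {a : ℕ} (hz : z ^ 2 ^ a = -1) :
    ∃ s : R, (2 : R) = (1 - z) ^ 2 ^ a * s := by
  suffices ∀ j ≤ a, ∃ s : R, 1 - z ^ 2 ^ j = (1 - z) ^ 2 ^ j * s by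
    obtain ⟨s, hs⟩ := this a le_rfl
    exact ⟨s, by rw [← hs, hz]; ring⟩
  intro j hj
  induction j with
  | zero => exact ⟨1, by simp⟩
  | succ j ih =>
    obtain ⟨s, hs⟩ := ih (by omega)
    set w := z ^ 2 ^ j with hw
    have hneg : -w = w ^ (2 ^ (a - j) + 1) := by
      rw [pow_succ, hw, ← pow_mul,
        show 2 ^ j * 2 ^ (a - j) = 2 ^ a by rw [← pow_add, Nat.add_sub_cancel' (by omega)], hz]
      ring
    obtain ⟨t, ht⟩ := sub_dvd_pow_sub_pow (1 : R) w (2 ^ (a - j) + 1)
    rw [one_pow, ← hneg] at ht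
    refine ⟨s * s * t, ?_⟩
    rw [pow_succ, pow_mul, ← hw, pow_mul (1 - z)]
    linear_combination (norm := ring_nf) (1 - w) * ht + t * (1 - w + (1 - z) ^ 2 ^ j * s) * hs

/-- **The power basis is a basis modulo two.** -/
theorem two_dvd_coeff {Q : ℤ[X]} (hM : IsPModular 2 M) {z : locRing hM} {a : ℕ}
    (hz : z ^ 2 ^ a = -1) (hdeg : Q.natDegree < 2 ^ a)
    (h : ∃ y, aeval z Q = 2 * y) (i : ℕ) : (2 : ℤ) ∣ Q.coeff i := by
  set m := 2 ^ a with hm
  set P := Q.comp (1 - X) with hP
  set π := 1 - z with hπ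
  have hev : aeval π P = aeval z Q := by
    rw [hP, aeval_comp]
    congr 2
    simp [hπ]
  haveI := charP_resField hM
  haveI : M.IsMaximal := hM.2.1
  have hPdeg : P.natDegree < m := by
    refine lt_of_le_of_lt (Nat.le_trans (natDegree_comp_le) ?_) hdeg
    have : (1 - X : ℤ[X]).natDegree ≤ 1 := (natDegree_sub_le _ _).trans (by simp)
    calc Q.natDegree * (1 - X : ℤ[X]).natDegree ≤ Q.natDegree * 1 := Nat.mul_le_mul_left _ this
      _ = _ := mul_one _
  obtain ⟨s, hs⟩ := exists_two_eq_pow_mul hz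
  have hz1 : res hM z = 1 := res_eq_one_of_pow_prime_pow hM (n := a + 1) (by
    rw [pow_succ, pow_mul, hz]; ring)
  have hπ0 : res hM π = 0 := by rw [hπ, map_sub, map_one, hz1, sub_self]
  have hπne : π ≠ 0 := by
    intro h0
    rw [← hπ, h0, zero_pow (pow_pos two_pos a).ne', zero_mul] at hs
    exact two_ne_zero (congrArg Subtype.val hs : (2 : ℂ) = 0)
  have hall : ∀ j, (2 : ℤ) ∣ P.coeff j := by
    by_contra hcon
    push_neg at hcon
    set i₀ := Nat.find hcon with hi₀
    have hodd : ¬ (2 : ℤ) ∣ P.coeff i₀ := Nat.find_spec hcon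
    have hlow : ∀ j < i₀, (2 : ℤ) ∣ P.coeff j := fun j hj => not_not.1 (Nat.find_min hcon hj)
    have hi₀m : i₀ < m := by
      by_contra hge
      exact hodd (by rw [coeff_eq_zero_of_natDegree_lt (by omega)]; exact dvd_zero _)
    obtain ⟨y, hy⟩ := h
    rw [← hev, aeval_eq_sum_range' hPdeg] at hy
    have key : ∀ j ∈ Finset.range m, j ≠ i₀ →
        ∃ t : locRing hM, P.coeff j • π ^ j = π ^ i₀ * (π * t) := by
      intro j _ hne
      rcases lt_or_gt_of_ne hne with hlt | hgt
      · obtain ⟨c, hc⟩ := hlow j hlt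
        refine ⟨π ^ (m - i₀ - 1) * s * π ^ j * (c : locRing hM), ?_⟩
        rw [hc, zsmul_eq_mul, Int.cast_mul, Int.cast_ofNat, hs, ← hπ, ← hm,
          show m = i₀ + ((m - i₀ - 1) + 1) by omega, pow_add π i₀, pow_succ π]
        simp only [show i₀ + ((m - i₀ - 1) + 1) - i₀ - 1 = m - i₀ - 1 by omega]
        ring
      · refine ⟨π ^ (j - i₀ - 1) * (P.coeff j : locRing hM), ?_⟩
        rw [zsmul_eq_mul]
        conv_lhs => rw [show j = i₀ + ((j - i₀ - 1) + 1) by omega, pow_add, pow_succ]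
        rw [show i₀ + ((j - i₀ - 1) + 1) = j by omega]
        ring
    choose! t ht using key
    rw [← Finset.add_sum_erase _ _ (Finset.mem_range.2 hi₀m),
      Finset.sum_congr rfl fun j hj => ht j (Finset.mem_of_mem_erase hj) (Finset.ne_of_mem_erase hj),
      zsmul_eq_mul, hs, ← hπ, ← hm, ← Finset.mul_sum, ← Finset.mul_sum] at hy
    have h2 : (P.coeff i₀ : locRing hM) + π * ∑ j ∈ (Finset.range m).erase i₀, t j =
        π * (π ^ (m - i₀ - 1) * s * y) := by
      apply mul_left_cancel₀ (pow_ne_zero i₀ hπne)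
      rw [mul_add, mul_comm _ (P.coeff i₀ : locRing hM), hy]
      conv_lhs => rw [show m = i₀ + ((m - i₀ - 1) + 1) by omega, pow_add, pow_succ]
      ring
    have h3 := congrArg (res hM) h2
    rw [map_add, map_mul, map_mul, hπ0, zero_mul, zero_mul, add_zero, map_intCast] at h3
    exact hodd ((CharP.intCast_eq_zero_iff (ResField M) 2 _).1 h3)
  have hQ : Q = P.comp (1 - X) := by
    rw [hP, comp_assoc]
    simp
  have hPmap : P.map (Int.castRingHom (ZMod 2)) = 0 := by
    ext j
    rw [coeff_map, coeff_zero]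
    exact (ZMod.intCast_zmod_eq_zero_iff_dvd _ 2).2 (hall j)
  have : (Q.map (Int.castRingHom (ZMod 2))).coeff i = 0 := by
    rw [hQ, map_comp, hPmap, zero_comp, coeff_zero]
  rw [coeff_map] at this
  exact (ZMod.intCast_zmod_eq_zero_iff_dvd _ 2).1 this

/-- A family whose value is divisible by a power of two can be divided by it. -/
theorem galVal_div_two_pow (hM : IsPModular 2 M) {ζ : ℂ} {a : ℕ}
    (hζ : IsPrimitiveRoot ζ (2 ^ (a + 1))) {f : ℕ → ℂ} (hf : GalVal 2 ζ f) :
    ∀ h : ℕ, f 1 / (2 : ℂ) ^ h ∈ locRing hM → GalVal 2 ζ fun k => f k / (2 : ℂ) ^ h := by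
  intro h
  induction h with
  | zero => exact fun _ => hf.congr fun k _ => by simp
  | succ h ih =>
    intro hh
    obtain ⟨Q, hQ⟩ := ih (by
      have := mul_mem hh (natCast_mem _ 2 : ((2 : ℕ) : ℂ) ∈ locRing hM)
      convert this using 1
      push_cast
      rw [pow_succ]
      field_simp)
    have hm1 : (X ^ 2 ^ a + 1 : ℤ[X]).Monic := by
      simpa using monic_X_pow_add_C (1 : ℤ) (pow_pos two_pos a).ne'
    have hζm : ζ ^ 2 ^ a = -1 := by
      have h1 : IsPrimitiveRoot (ζ ^ 2 ^ a) 2 :=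
        hζ.pow (pow_pos two_pos _) (by rw [pow_succ])
      exact h1.eq_neg_one_of_two_right
    set R := Q %ₘ (X ^ 2 ^ a + 1) with hR
    have hRk : ∀ k, ¬ 2 ∣ k → f k / (2 : ℂ) ^ h = aeval (ζ ^ k) R := by
      intro k hk
      rw [show f k / (2 : ℂ) ^ h = _ from hQ k hk]
      conv_lhs => rw [← modByMonic_add_div Q (X ^ 2 ^ a + 1)]
      rw [map_add, map_mul]
      have : aeval (ζ ^ k) (X ^ 2 ^ a + 1 : ℤ[X]) = 0 := by
        have hk1 : (-1 : ℂ) ^ k = -1 := by
          rw [Odd.neg_one_pow]; exact Nat.odd_iff.2 (by omega)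
        rw [map_add, map_one, map_pow, aeval_X, ← pow_mul, mul_comm, pow_mul, hζm, hk1]
        ring
      rw [this, zero_mul, add_zero]
    have hdeg : R.natDegree < 2 ^ a := by
      have h1 : (X ^ 2 ^ a + 1 : ℤ[X]).natDegree = 2 ^ a := by
        simpa using natDegree_X_pow_add_C (n := 2 ^ a) (r := (1 : ℤ))
      rw [← h1]
      exact natDegree_modByMonic_lt Q hm1 fun e => by
        rw [e, natDegree_one] at h1
        exact absurd h1.symm (pow_pos two_pos a).ne'
    set z : locRing hM := ⟨ζ, isIntegral_mem hM (hζ.isIntegral (pow_pos two_pos _))⟩ with hzdef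
    have hdvd : ∀ i, (2 : ℤ) ∣ R.coeff i := by
      refine fun i => two_dvd_coeff hM (z := z) (Subtype.ext (by simpa [hzdef] using hζm)) hdeg
        ⟨⟨_, hh⟩, Subtype.ext ?_⟩ i
      have e : ((aeval z R : locRing hM) : ℂ) = aeval ζ R := by
        show (locRing hM).subtype (aeval z R) = _
        rw [aeval_def, aeval_def, hom_eval₂]
        congr 1
      rw [e]
      have := hRk 1 (by decide)
      rw [pow_one] at this
      rw [← this]
      push_cast
      rw [pow_succ]
      field_simp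
      exact congrArg (f 1 * ·) (Nat.cast_ofNat (R := ℂ) (n := 2)).symm
    choose c hc using hdvd
    refine ⟨∑ i ∈ Finset.range (2 ^ a), C (c i) * X ^ i, fun k hk => ?_⟩
    show f k / (2 : ℂ) ^ (h + 1) = _
    rw [pow_succ, ← div_div, hRk k hk, aeval_eq_sum_range' hdeg, map_sum, Finset.sum_div]
    refine Finset.sum_congr rfl fun i _ => ?_
    rw [map_mul, aeval_C, map_pow, aeval_X, hc i, zsmul_eq_mul]
    push_cast
    simp
    ring

/-- A real value in the maximal ideal has even average. -/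
theorem galTwo_average_even (hM : IsPModular 2 M) {ζ : ℂ} {a : ℕ}
    (hζ : IsPrimitiveRoot ζ (2 ^ (a + 1))) {f : ℕ → ℂ} (hf : GalVal 2 ζ f)
    (hmem : MemLocalIdeal M (f 1)) (hreal : ∀ k, ¬ 2 ∣ k → conj (f k) = f k) :
    ∃ c : ℤ, Even c ∧ ∑ k ∈ oddExps a, f k = (2 : ℂ) ^ a * c := by
  obtain ⟨S, c, -, -, -, hc⟩ := galTwo_average hM hζ
    (f := fun k => f k + ((1 : ℤ) : ℂ)) (hf.add (galVal_const 1)) (by
      intro hbad
      rw [memLocalIdeal_iff_exists hM] at hmem hbad
      obtain ⟨h1, e1⟩ := hmem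
      obtain ⟨h2, e2⟩ := hbad
      have : (⟨_, h2⟩ : locRing hM) = ⟨_, h1⟩ + 1 := Subtype.ext (by simp)
      rw [this, map_add, e1, map_one, zero_add] at e2
      haveI := charP_resField hM
      haveI : M.IsMaximal := hM.2.1
      letI := @Ideal.Quotient.field _ _ M hM.2.1
      exact one_ne_zero e2)
  obtain ⟨hodd, -, hsum⟩ := hc fun k hk => by simp [hreal k hk]
  refine ⟨c - 1, hodd.sub_odd (by decide), ?_⟩
  have hcard : (oddExps a).card = 2 ^ a := by
    rw [card_oddExps, Finset.card_image_of_injective _ (fun x y h => by simpa using h),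
      Finset.card_range]
  rw [Finset.sum_add_distrib, Finset.sum_const, hcard, nsmul_eq_mul] at hsum
  push_cast at hsum ⊢
  linear_combination hsum

end CfsgLib.Block
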