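import Cfsg.Agent.Lib.CharDegree
import Cfsg.Agent.Lib.CharLinear
import Cfsg.Agent.Lib.CharPerm
import Cfsg.Agent.Lib.CorePSolvable
import Cfsg.Agent.Lib.LocalFFModel
import Cfsg.Agent.Lib.BlockRegular
import Cfsg.Prelude.Def_Blocks

/-!
# Characters of degree prime to `p` in a `p`-solvable group
-/

set_option autoImplicit false
set_option linter.style.haveILetI false
set_option linter.unusedSectionVars false

universe u

namespace CfsgLib.Block

open Cfsg CfsgLib.Char
open scoped Classical

variable {p : ℕ}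

/-- Itô: the degree divides the index of an abelian normal subgroup. -/
theorem charDegree_dvd_index_abelian {G : Type u} [Group G] [Finite G] (A : Subgroup G) [A.Normal]
    (hA : ∀ x ∈ A, ∀ y ∈ A, x * y = y * x) (χ : IrrCharacter G) :
    charDegree (χ : G → ℂ) ∣ A.index := by
  haveI := Fintype.ofFinite G
  obtain ⟨θ, hθ, hcon⟩ := exists_irr_under (H := A) χ.2
  have hθ1 : θ 1 = 1 := irr_degree_one_of_comm (fun a b => Subtype.ext (hA a a.2 b b.2)) hθ
  have hAT : A ≤ inertia θ := le_inertia (irr_classFunction ⟨θ, hθ⟩)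
  obtain ⟨ψ, hψ, -, hψm⟩ := exists_clifford_correspondent χ.2 hθ hcon (inertia θ) rfl hAT
  obtain ⟨e, he⟩ := inner_character_nat (CfsgLib.Char.isCharacter_restrict χ.2.isCharacter' A)
    (show IsIrrCharacter A θ from hθ).isCharacter'
  rw [he] at hψm
  have hres := restrict_eq_smul_of_le_inertia hθ (inertia θ) hAT le_rfl hψ (by
    rw [hψm, ← he]; exact hcon)
  rw [hψm] at hres
  let j : A.subgroupOf (inertia θ) ≃* A := Subgroup.subgroupOfEquivOfLe hAT
  haveI : Fintype (A.subgroupOf (inertia θ)) := Fintype.ofFinite _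
  have hinv : ∀ (g : inertia θ) (n : A.subgroupOf (inertia θ)),
      (θ ∘ j) (MulAut.conjNormal g n) = (θ ∘ j) n := by
    intro g n
    have hg := g.2
    rw [mem_inertia, conjFn_eq_comp] at hg
    have h := congrFun hg (j n)
    rw [Function.comp_apply] at h
    show θ (j (MulAut.conjNormal g n)) = θ (j n)
    rw [← h]
    congr 1
  have hdvd : e ∣ (A.subgroupOf (inertia θ)).index :=
    mult_dvd_index hψ (isIrrCharacter_comp_equiv hθ j) hinv e (funext fun n => by
      have := congrFun hres (j n)
      exact this)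
  have hdeg : charDegree (χ : G → ℂ) = e * (inertia θ).index := by
    have h := clifford_degree χ.2 hθ hcon
    rw [he, hθ1, mul_one, ← charDegree_cast χ.2.isCharacter'] at h
    exact_mod_cast h
  rw [hdeg, ← Subgroup.relIndex_mul_index hAT]
  exact mul_dvd_mul_right hdvd _

/-- All irreducible degrees prime to `p` are inherited by normal subgroups. -/
theorem not_dvd_degree_normal {G : Type u} [Group G] [Finite G] (N : Subgroup G) [N.Normal]
    (h : ∀ χ : IrrCharacter G, ¬ p ∣ charDegree (χ : G → ℂ)) (θ : IrrCharacter N) :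
    ¬ p ∣ charDegree (θ : N → ℂ) ∧ ¬ p ∣ (inertia (θ : N → ℂ)).index := by
  haveI := Fintype.ofFinite G
  obtain ⟨χ, hχ, hcon⟩ := exists_irr_over (H := N) θ.2
  obtain ⟨e, he⟩ := inner_character_nat (CfsgLib.Char.isCharacter_restrict
    (show IsIrrCharacter G χ from hχ).isCharacter' N) θ.2.isCharacter'
  have hd := clifford_degree hχ θ.2 hcon
  rw [he, ← charDegree_cast θ.2.isCharacter',
    ← charDegree_cast (show IsIrrCharacter G χ from hχ).isCharacter'] at hd
  have hd' : charDegree χ = e * (inertia (θ : N → ℂ)).index * charDegree (θ : N → ℂ) := by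
    exact_mod_cast hd
  have h1 := h ⟨χ, hχ⟩
  rw [show charDegree ((⟨χ, hχ⟩ : IrrCharacter G) : G → ℂ) = charDegree χ from rfl, hd'] at h1
  exact ⟨fun h' => h1 (h'.mul_left _), fun h' => h1 ((h'.mul_left _).mul_right _)⟩

/-- All irreducible degrees prime to `p` are inherited by quotients. -/
theorem not_dvd_degree_quotient {G : Type u} [Group G] [Finite G] (N : Subgroup G) [N.Normal]
    (h : ∀ χ : IrrCharacter G, ¬ p ∣ charDegree (χ : G → ℂ)) (χ : IrrCharacter (G ⧸ N)) :
    ¬ p ∣ charDegree (χ : G ⧸ N → ℂ) := by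
  have h' := h ⟨_, isIrrCharacter_comp_surjective χ.2 (QuotientGroup.mk' N)
    (QuotientGroup.mk'_surjective N)⟩
  rw [show charDegree (((χ : G ⧸ N → ℂ) ∘ (QuotientGroup.mk' N)) : G → ℂ) =
    charDegree (χ : G ⧸ N → ℂ) by rw [charDegree, charDegree, Function.comp_apply, map_one]] at h'
  exact h'

/-- A proper subgroup misses a conjugacy class. -/
theorem exists_class_avoiding {G : Type u} [Group G] [Finite G] {H : Subgroup G} (hH : H ≠ ⊤) :
    ∃ g : G, ∀ c : G, c * g * c⁻¹ ∉ H := by
  by_contra hcon
  push Not at hcon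
  haveI := Fintype.ofFinite G
  haveI := Fintype.ofFinite (G ⧸ H)
  have hsum := MulAction.sum_card_fixedBy_eq_card_orbits_mul_card_group G (G ⧸ H)
  haveI : Unique (MulAction.orbitRel.Quotient G (G ⧸ H)) :=
    { default := Quotient.mk'' ((1 : G) : G ⧸ H)
      uniq := fun a => by
        induction a using Quotient.inductionOn' with
        | h a => exact Quotient.sound' (MulAction.exists_smul_eq G ((1 : G) : G ⧸ H) a) }
  rw [Fintype.card_unique, one_mul] at hsum
  have hone : ∀ g : G, 1 ≤ Fintype.card (MulAction.fixedBy (G ⧸ H) g) := fun g => by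
    obtain ⟨c, hc⟩ := hcon g
    refine Fintype.card_pos_iff.2 ⟨⟨((c⁻¹ : G) : G ⧸ H), ?_⟩⟩
    show g • ((c⁻¹ : G) : G ⧸ H) = _
    rw [MulAction.Quotient.smul_coe, smul_eq_mul, eq_comm, QuotientGroup.eq, inv_inv, ← mul_assoc]
    exact hc
  have h1 : 2 ≤ Fintype.card (MulAction.fixedBy (G ⧸ H) (1 : G)) := by
    rw [← Nat.card_eq_fintype_card,
      show MulAction.fixedBy (G ⧸ H) (1 : G) = Set.univ from Set.eq_univ_of_forall fun a => one_smul G a,
      Nat.card_congr (Equiv.Set.univ _)]
    show 2 ≤ H.index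
    have h0 := H.index_ne_zero_of_finite
    have h1 : H.index ≠ 1 := fun h => hH (Subgroup.index_eq_one.1 h)
    omega
  have hlt : ∑ _g : G, 1 < ∑ g : G, Fintype.card (MulAction.fixedBy (G ⧸ H) g) :=
    Finset.sum_lt_sum (fun g _ => hone g) ⟨1, Finset.mem_univ _, h1⟩
  rw [hsum, Finset.sum_const, Finset.card_univ, smul_eq_mul, mul_one] at hlt
  exact lt_irrefl _ hlt

/-- A `p`-element fixing every character of a normal `p'`-subgroup centralises it. -/
theorem centralizes_of_fix_irr {G : Type u} [Group G] [Finite G] [Fact p.Prime] (N : Subgroup G)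
    [N.Normal] (hN : ¬ p ∣ Nat.card N) {x : G} (hx : ∃ k, orderOf x = p ^ k)
    (hfix : ∀ θ : IrrCharacter N, x ∈ inertia (θ : N → ℂ)) : ∀ n ∈ N, x * n = n * x := by
  haveI := Fintype.ofFinite G
  obtain ⟨k, hk⟩ := hx
  set σ : MulAut N := MulAut.conjNormal x with hσ
  -- every class is fixed
  let τ : ConjClasses N → ConjClasses N := ConjClasses.map σ.toMonoidHom
  have hτ : Function.Surjective τ := by
    intro C
    obtain ⟨n, rfl⟩ := C.exists_rep
    exact ⟨ConjClasses.mk (σ.symm n), congrArg ConjClasses.mk (σ.apply_symm_apply n)⟩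
  have hcard := brauer_permutation (G := N) id τ hτ (fun θ g g' hg => by
    have h := hfix θ
    rw [mem_inertia, conjFn_eq_comp] at h
    have hg' : ConjClasses.mk g' = ConjClasses.mk (σ g) := hg
    rw [id, char_eq_of_isConj (irr_classFunction θ) (ConjClasses.mk_eq_mk_iff_isConj.1 hg')]
    exact congrFun h g)
  have hall : ∀ C, τ C = C := by
    have e1 : Nat.card {θ : IrrCharacter N // id θ = θ} = Nat.card (ConjClasses N) := by
      rw [← card_irrCharacter]
      exact Nat.card_congr (Equiv.subtypeUnivEquiv fun _ => rfl)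
    rw [e1] at hcard
    intro C
    have hbij := (Subtype.coe_injective (p := fun C : ConjClasses N => τ C = C)).bijective_of_nat_card_le
      hcard.le
    obtain ⟨⟨D, hD⟩, rfl⟩ := hbij.2 C
    exact hD
  -- the centralizer meets every class
  set C₀ : Subgroup N := (Subgroup.centralizer ({x} : Set G)).subgroupOf N with hC₀
  have hmeet : ∀ n : N, ∃ c : N, c * n * c⁻¹ ∈ C₀ := by
    intro n
    set K : Set N := {m | IsConj n m} with hK
    let act : MulAction (Subgroup.zpowers x) N :=
      MulAction.compHom N ((MulAut.conjNormal : G →* MulAut N).comp (Subgroup.zpowers x).subtype)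
    letI := act
    have hxK : ∀ (z : Subgroup.zpowers x) (m : N), m ∈ K → z • m ∈ K := by
      rintro ⟨z, hz⟩ m hm
      obtain ⟨i, rfl⟩ := (Submonoid.mem_powers_iff _ _).1 (mem_powers_iff_mem_zpowers.2 hz)
      show IsConj n ((MulAut.conjNormal (x ^ i) : MulAut N) m)
      induction i with
      | zero =>
        rw [pow_zero, map_one, MulAut.one_apply]
        exact hm
      | succ i ih =>
        rw [pow_succ', map_mul, MulAut.mul_apply]
        have h1 := ih (Subgroup.pow_mem _ (Subgroup.mem_zpowers x) i)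
        rw [← ConjClasses.mk_eq_mk_iff_isConj] at h1 ⊢
        have h2 := hall (ConjClasses.mk n)
        rw [h1] at h2 ⊢
        exact h2.symm
    let sub : SubMulAction (Subgroup.zpowers x) N := ⟨K, fun z {m} hm => hxK z m hm⟩
    have hpK : IsPGroup p (Subgroup.zpowers x) := IsPGroup.of_card (n := k) (by rw [Nat.card_zpowers, hk])
    have hnd : ¬ p ∣ Nat.card sub := by
      have hcl : Nat.card sub = (Subgroup.centralizer ({n} : Set N)).index := by
        rw [Subgroup.centralizer_eq_comap_stabilizer]
        erw [Subgroup.index_comap_of_surjective _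
          (show Function.Surjective (ConjAct.toConjAct : N ≃* ConjAct N).toMonoidHom from
            ConjAct.toConjAct.surjective)]
        rw [MulAction.index_stabilizer]
        rw [← Nat.card_coe_set_eq]
        refine Nat.card_congr (Equiv.setCongr ?_)
        ext m
        rw [ConjAct.orbit_eq_carrier_conjClasses]
        show IsConj n m ↔ m ∈ (ConjClasses.mk n).carrier
        rw [ConjClasses.mem_carrier_iff_mk_eq, ConjClasses.mk_eq_mk_iff_isConj, isConj_comm]
      rw [hcl]
      exact fun h => hN (h.trans ((Subgroup.centralizer ({n} : Set N)).index_dvd_card))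
    obtain ⟨⟨m, hm⟩, hfx⟩ := hpK.nonempty_fixed_point_of_prime_not_dvd_card sub hnd
    obtain ⟨c, hc⟩ := isConj_iff.1 (show IsConj n m from hm)
    refine ⟨c, ?_⟩
    rw [hc, hC₀, Subgroup.mem_subgroupOf, Subgroup.mem_centralizer_singleton_iff]
    have h1 := congrArg (fun w : sub => ((w : N) : G)) (hfx ⟨x, Subgroup.mem_zpowers x⟩)
    have h2 : x * (m : G) * x⁻¹ = (m : G) := h1
    exact (mul_inv_eq_iff_eq_mul.1 h2).symm
  have htop : C₀ = ⊤ := by
    by_contra hne
    obtain ⟨g, hg⟩ := exists_class_avoiding hne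
    obtain ⟨c, hc⟩ := hmeet g
    exact hg c hc
  intro n hn
  have h : (⟨n, hn⟩ : N) ∈ C₀ := by rw [htop]; trivial
  exact (Subgroup.mem_centralizer_singleton_iff.1 (Subgroup.mem_subgroupOf.1 h)).symm

/-- **Itô–Michler for `p`-solvable groups.** -/
theorem sylow_normal_abelian [Fact p.Prime] : ∀ (n : ℕ) (G : Type u) [Group G] [Finite G],
    Nat.card G ≤ n → IsPSolvable p G → (∀ χ : IrrCharacter G, ¬ p ∣ charDegree (χ : G → ℂ)) →
    ∀ P : Sylow p G, (P : Subgroup G).Normal ∧
      ∀ x ∈ (P : Subgroup G), ∀ y ∈ (P : Subgroup G), x * y = y * x := by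
  have hp : p.Prime := Fact.out
  intro n
  induction n with
  | zero => intro G _ _ hn; exact absurd hn (by have := Nat.card_pos (α := G); omega)
  | succ n ih =>
    intro G _ _ hn hs h P
    haveI := Fintype.ofFinite G
    have habel : (P : Subgroup G).Normal →
        ∀ x ∈ (P : Subgroup G), ∀ y ∈ (P : Subgroup G), x * y = y * x := by
      intro hPn x hx y hy
      haveI := hPn
      have hlin : ∀ θ : IrrCharacter (P : Subgroup G), (θ : ↥(P : Subgroup G) → ℂ) 1 = 1 := by
        intro θ
        obtain ⟨a, ha⟩ := IsPGroup.iff_card.1 P.isPGroup'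
        obtain ⟨i, -, hi⟩ := (Nat.dvd_prime_pow hp).1 (ha ▸ charDegree_dvd_card θ)
        rw [← charDegree_cast θ.2.isCharacter', hi]
        rcases Nat.eq_zero_or_pos i with rfl | hi'
        · simp
        · exact absurd (by rw [hi]; exact dvd_pow_self p hi'.ne') (not_dvd_degree_normal (P : Subgroup G) h θ).1
      exact congrArg Subtype.val (comm_of_linear hlin ⟨x, hx⟩ ⟨y, hy⟩)
    suffices hnorm : (P : Subgroup G).Normal from ⟨hnorm, habel hnorm⟩
    by_cases htriv : (⊤ : Subgroup G) = ⊥
    · have hP : (P : Subgroup G) = ⊤ := by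
        rw [htriv]; exact le_bot_iff.1 (htriv ▸ le_top)
      rw [hP]; infer_instance
    obtain ⟨N, hNn, -, hN1, hN⟩ :=
      CfsgLib.Core.exists_normal_le_of_isPSolvable hs (X := (⊤ : Subgroup G)) htriv
    haveI := hNn
    have hcardq : Nat.card (G ⧸ N) ≤ n := by
      have h1 := Subgroup.card_eq_card_quotient_mul_card_subgroup N
      have h2 : 2 ≤ Nat.card N := Finite.one_lt_card_iff_nontrivial.2
        ((Subgroup.nontrivial_iff_ne_bot N).2 hN1)
      have h3 := Nat.card_pos (α := G ⧸ N)
      nlinarith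
    let P' : Sylow p (G ⧸ N) := P.mapSurjective (QuotientGroup.mk'_surjective N)
    obtain ⟨hP'n, -⟩ := ih (G ⧸ N) hcardq
      (CfsgLib.Core.isPSolvable_of_surjective _ (QuotientGroup.mk'_surjective N) hs)
      (not_dvd_degree_quotient N h) P'
    have hM : ((P : Subgroup G) ⊔ N).Normal := by
      have e : ((P' : Subgroup (G ⧸ N))).comap (QuotientGroup.mk' N) = (P : Subgroup G) ⊔ N := by
        show ((P : Subgroup G).map (QuotientGroup.mk' N)).comap _ = _
        rw [Subgroup.comap_map_eq, QuotientGroup.ker_mk']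
      rw [← e]
      exact hP'n.comap _
    rcases hN with hNp | hNc
    · have hNP : N ≤ (P : Subgroup G) := by
        obtain ⟨Q, hQ⟩ := hNp.exists_le_sylow
        obtain ⟨g, rfl⟩ := MulAction.exists_smul_eq G Q P
        intro x hx
        have h1 : g⁻¹ * x * g ∈ N := by simpa using hNn.conj_mem x hx g⁻¹
        have h2 := Subgroup.smul_mem_pointwise_smul _ (MulAut.conj g) _ (hQ h1)
        rw [show MulAut.conj g • (g⁻¹ * x * g) = x by
          show g * (g⁻¹ * x * g) * g⁻¹ = x
          group] at h2
        exact h2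
      rwa [sup_eq_left.2 hNP] at hM
    have hNd : ¬ p ∣ Nat.card N := fun hd => hp.coprime_iff_not_dvd.1 hNc.symm hd
    set M := (P : Subgroup G) ⊔ N with hMdef
    haveI := hM
    by_cases hMtop : M = ⊤
    · -- `P` covers the quotient, so it centralises `N`
      have hfix : ∀ x ∈ (P : Subgroup G), ∀ θ : IrrCharacter N, x ∈ inertia (θ : N → ℂ) := by
        intro x hx θ
        have hNI : N ≤ inertia (θ : N → ℂ) := le_inertia (irr_classFunction θ)
        have h1 := (not_dvd_degree_normal N h θ).2
        have h2 : (inertia (θ : N → ℂ)).index ∣ Nat.card (P : Subgroup G) := by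
          refine (Subgroup.index_dvd_of_le hNI).trans ?_
          rw [← Subgroup.relIndex_top_right, ← hMtop, hMdef, Subgroup.relIndex_sup_right]
          exact Subgroup.relIndex_dvd_card _ _
        obtain ⟨a, ha⟩ := IsPGroup.iff_card.1 P.isPGroup'
        obtain ⟨i, -, hi⟩ := (Nat.dvd_prime_pow hp).1 (ha ▸ h2)
        have htop : inertia (θ : N → ℂ) = ⊤ := by
          rw [← Subgroup.index_eq_one]
          rcases Nat.eq_zero_or_pos i with rfl | hi'
          · simpa using hi
          · exact absurd (by rw [hi]; exact dvd_pow_self p hi'.ne') h1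
        rw [htop]; trivial
      have hcomm : ∀ x ∈ (P : Subgroup G), ∀ n ∈ N, x * n = n * x := fun x hx =>
        centralizes_of_fix_irr N hNd (by
          obtain ⟨k, hk⟩ := IsPGroup.iff_orderOf.1 P.isPGroup' ⟨x, hx⟩
          exact ⟨k, by rwa [← Subgroup.orderOf_coe] at hk⟩) (hfix x hx)
      rw [← Subgroup.normalizer_eq_top_iff, eq_top_iff, ← hMtop]
      refine sup_le Subgroup.le_normalizer fun n hn => Subgroup.mem_normalizer_iff.2 fun x => ?_
      constructor
      · intro hx
        rwa [← hcomm x hx n hn, mul_inv_cancel_right]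
      · intro hx
        have h1 : n * x * n⁻¹ * n = n * (n * x * n⁻¹) := hcomm _ hx n hn
        rw [inv_mul_cancel_right] at h1
        rwa [← mul_left_cancel h1] at hx
    · have hcM : Nat.card M ≤ n := by
        have hne : Nat.card M ≠ Nat.card G := fun e => hMtop (Subgroup.eq_top_of_card_eq _ e)
        have hle := Subgroup.card_le_card_group M
        omega
      obtain ⟨hPM, -⟩ := ih M hcM (CfsgLib.LocalFF.isPSolvable_subgroup hs M)
        (fun θ => (not_dvd_degree_normal M h θ).1) (P.subtype le_sup_left)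
      haveI : ((P.subtype (le_sup_left : (P : Subgroup G) ≤ M) : Sylow p M) : Subgroup M).Normal := hPM
      haveI := Sylow.characteristic_of_normal (P.subtype (le_sup_left : (P : Subgroup G) ≤ M)) hPM
      have h2 : (((P.subtype (le_sup_left : (P : Subgroup G) ≤ M) : Sylow p M) :
          Subgroup M).map M.subtype).Normal := inferInstance
      rw [Sylow.coe_subtype, Subgroup.map_subgroupOf_eq_of_le le_sup_left] at h2
      exact h2

end CfsgLib.Block
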