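import Mathlib.LinearAlgebra.FreeModule.PID
import Mathlib.RingTheory.Int.Basic
import Mathlib.LinearAlgebra.StdBasis
import Mathlib.Data.Fin.VecNotation
import Mathlib.Algebra.Order.Ring.Int
import Mathlib.Tactic.Linarith
import Mathlib.Tactic.Ring

/-!
# Factorizations of symmetric integral matrices which are idempotent up to a factor
-/

set_option autoImplicit false

namespace CfsgLib.Block

open scoped Classical

/-- A symmetric integral matrix `A` with `A ^ 2 = q • A` has the form `U Q Uᵗ` with `Q` positive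
definite of size `tr A / q`. -/
theorem exists_lattice_form {ι : Type*} [Fintype ι] (A : ι → ι → ℤ) {q : ℤ} (hq : 0 < q)
    (hs : ∀ i j, A i j = A j i) (hsq : ∀ i j, ∑ k, A i k * A k j = q * A i j) :
    ∃ (r : ℕ) (U : ι → Fin r → ℤ) (Q : Fin r → Fin r → ℤ),
      (∀ i j, A i j = ∑ s, ∑ t, U i s * Q s t * U j t) ∧ (∀ s t, Q s t = Q t s) ∧
      (r : ℤ) * q = ∑ i, A i i ∧ ∀ v : Fin r → ℤ, v ≠ 0 → 0 < ∑ s, ∑ t, v s * Q s t * v t := by
  set c : ι → ι → ℤ := fun j i => A i j with hc
  set N := Submodule.span ℤ (Set.range c) with hN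
  obtain ⟨r, e⟩ := Submodule.basisOfPid (Pi.basisFun ℤ ι) N
  have hmem : ∀ j, c j ∈ N := fun j => Submodule.subset_span ⟨j, rfl⟩
  set U : ι → Fin r → ℤ := fun j s => e.repr ⟨c j, hmem j⟩ s with hU
  set E : Fin r → ι → ℤ := fun s i => ((e s : N) : ι → ℤ) i with hE
  have hA : ∀ i j, A i j = ∑ s, U j s * E s i := by
    intro i j
    have h := congrArg (fun x : N => (x : ι → ℤ) i) (e.sum_repr ⟨c j, hmem j⟩)
    simp only [AddSubmonoidClass.coe_finsetSum, Finset.sum_apply, SetLike.val_smul,
      Pi.smul_apply, smul_eq_mul] at h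
    exact h.symm
  have hw : ∀ s, ∃ w : ι → ℤ, ∀ i, E s i = ∑ j, A i j * w j := by
    intro s
    obtain ⟨w, hw⟩ := Submodule.mem_span_range_iff_exists_fun ℤ |>.1 (e s).2
    refine ⟨w, fun i => ?_⟩
    rw [hE]
    dsimp only
    rw [← hw]
    simp [hc, mul_comm]
  choose w hw using hw
  set Q : Fin r → Fin r → ℤ := fun s t => ∑ j, w s j * E t j with hQ
  have hEU : ∀ s i, E s i = ∑ t, U i t * Q s t := by
    intro s i
    rw [hw s i]
    simp only [hQ, Finset.mul_sum]
    rw [Finset.sum_comm]
    refine Finset.sum_congr rfl fun j _ => ?_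
    rw [hs i j, hA j i, Finset.sum_mul]
    exact Finset.sum_congr rfl fun t _ => by ring
  have hindep : ∀ v : Fin r → ℤ, (∀ i, ∑ s, v s * E s i = 0) → v = 0 := by
    intro v hv
    have h0 : ∑ s, v s • e s = 0 := by
      apply Subtype.ext
      funext i
      simp only [AddSubmonoidClass.coe_finsetSum, Finset.sum_apply, SetLike.val_smul,
        Pi.smul_apply, smul_eq_mul, ZeroMemClass.coe_zero, Pi.zero_apply]
      exact hv i
    exact funext (Fintype.linearIndependent_iff.1 e.linearIndependent v h0)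
  have hAE : ∀ s i, ∑ j, A i j * E s j = q * E s i := by
    intro s i
    simp only [hw, Finset.mul_sum]
    rw [Finset.sum_comm]
    refine Finset.sum_congr rfl fun k _ => ?_
    rw [← mul_assoc, ← hsq i k, Finset.sum_mul]
    exact Finset.sum_congr rfl fun j _ => by ring
  have hUE : ∀ s t, ∑ j, U j t * E s j = if s = t then q else 0 := by
    intro s t
    have h := hindep (fun t => ∑ j, U j t * E s j - if s = t then q else 0) fun i => by
      simp only [sub_mul, Finset.sum_sub_distrib, ite_mul, zero_mul, Finset.sum_ite_eq,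
        Finset.mem_univ, if_true]
      rw [← hAE s i, sub_eq_zero]
      simp only [Finset.sum_mul]
      rw [Finset.sum_comm]
      refine Finset.sum_congr rfl fun j _ => ?_
      rw [hA i j, Finset.sum_mul]
      exact Finset.sum_congr rfl fun t _ => by ring
    exact sub_eq_zero.1 (congrFun h t)
  refine ⟨r, U, Q, fun i j => ?_, fun s t => ?_, ?_, fun v hv => ?_⟩
  · rw [hA i j, Finset.sum_comm]
    refine Finset.sum_congr rfl fun t _ => ?_
    rw [hEU t i, Finset.mul_sum]
    refine Finset.sum_congr rfl fun s _ => ?_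
    have hQsymm : Q t s = Q s t := by
      simp only [hQ, hw, Finset.mul_sum]
      rw [Finset.sum_comm]
      exact Finset.sum_congr rfl fun a _ => Finset.sum_congr rfl fun b _ => by rw [hs b a]; ring
    rw [hQsymm]
    ring
  · simp only [hQ, hw, Finset.mul_sum]
    rw [Finset.sum_comm]
    exact Finset.sum_congr rfl fun a _ => Finset.sum_congr rfl fun b _ => by rw [hs b a]; ring
  · calc (r : ℤ) * q = ∑ t : Fin r, ∑ j, U j t * E t j := by
          rw [Finset.sum_congr rfl fun t _ => (hUE t t).trans (if_pos rfl)]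
          simp
      _ = _ := by
          rw [Finset.sum_comm]
          exact Finset.sum_congr rfl fun j _ => (hA j j).symm
  · set W : ι → ℤ := fun j => ∑ s, v s * w s j with hW
    set V : ι → ℤ := fun j => ∑ t, v t * E t j with hV
    have hsum : ∑ s, ∑ t, v s * Q s t * v t = ∑ j, W j * V j := by
      simp only [hQ, hW, hV, Finset.sum_mul, Finset.mul_sum]
      rw [Finset.sum_comm_cycle]
      refine Finset.sum_congr rfl fun a _ => ?_
      rw [Finset.sum_comm]
      exact Finset.sum_congr rfl fun b _ => Finset.sum_congr rfl fun j _ => by ring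
    have hAV : ∀ i, ∑ j, A i j * V j = q * V i := fun i => by
      simp only [hV, Finset.mul_sum]
      rw [Finset.sum_comm]
      refine Finset.sum_congr rfl fun t _ => ?_
      rw [mul_left_comm, ← hAE t i, Finset.mul_sum]
      exact Finset.sum_congr rfl fun j _ => by ring
    have hAW : ∀ i, ∑ j, A i j * W j = V i := fun i => by
      simp only [hV, hW, Finset.mul_sum]
      rw [Finset.sum_comm]
      refine Finset.sum_congr rfl fun t _ => ?_
      rw [hw t i, Finset.mul_sum]
      exact Finset.sum_congr rfl fun j _ => by ring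
    have hkey : q * ∑ j, W j * V j = ∑ j, V j * V j := by
      simp only [Finset.mul_sum]
      calc ∑ j, q * (W j * V j) = ∑ j, ∑ i, W j * (A j i * V i) := by
            refine Finset.sum_congr rfl fun j _ => ?_
            rw [← Finset.mul_sum, hAV j]
            ring
        _ = _ := by
            rw [Finset.sum_comm]
            refine Finset.sum_congr rfl fun i _ => ?_
            conv_rhs => arg 1; rw [← hAW i]
            rw [Finset.sum_mul]
            exact Finset.sum_congr rfl fun j _ => by rw [hs j i]; ring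
    have hne : ∃ j, V j ≠ 0 := by
      by_contra h
      push_neg at h
      exact hv (hindep v h)
    obtain ⟨j₀, hj₀⟩ := hne
    have hpos : 0 < ∑ j, V j * V j :=
      Finset.sum_pos' (fun j _ => mul_self_nonneg _)
        ⟨j₀, Finset.mem_univ _, mul_self_pos.2 hj₀⟩
    rw [hsum]
    rw [← hkey] at hpos
    exact pos_of_mul_pos_right hpos hq.le

/-- A positive binary form has a reduced representative. -/
theorem exists_reduced_binary {ι : Type*} [Fintype ι] (A : ι → ι → ℤ) {q : ℤ} (hq : 0 < q)
    (hs : ∀ i j, A i j = A j i) (hsq : ∀ i j, ∑ k, A i k * A k j = q * A i j)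
    (htr : ∑ i, A i i = 2 * q) :
    ∃ (x y : ι → ℤ) (α β γ : ℤ), 0 < α ∧ 0 < γ ∧ 2 * |β| ≤ α ∧ 2 * |β| ≤ γ ∧
      ∀ i j, A i j = α * (x i * x j) + β * (x i * y j + y i * x j) + γ * (y i * y j) := by
  obtain ⟨r, U, Q, hA, hsymm, hr, hpos⟩ := exists_lattice_form A hq hs hsq
  obtain rfl : r = 2 := by
    have : (r : ℤ) * q = 2 * q := hr.trans htr
    exact_mod_cast mul_right_cancel₀ hq.ne' this
  let Rep : (ι → ℤ) → (ι → ℤ) → ℤ → ℤ → ℤ → Prop := fun x y α β γ =>
    (∀ m n : ℤ, m ≠ 0 ∨ n ≠ 0 → 0 < α * (m * m) + 2 * β * (m * n) + γ * (n * n)) ∧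
      ∀ i j, A i j = α * (x i * x j) + β * (x i * y j + y i * x j) + γ * (y i * y j)
  have hex : ∃ n : ℕ, ∃ x y α β γ, Rep x y α β γ ∧ (α + γ).toNat = n := by
    refine ⟨_, fun i => U i 0, fun i => U i 1, Q 0 0, Q 0 1, Q 1 1, ⟨?_, fun i j => ?_⟩, rfl⟩
    · intro m n hmn
      have h := hpos ![m, n] fun h0 => by
        rcases hmn with h | h
        · exact h (by simpa using congrFun h0 0)
        · exact h (by simpa using congrFun h0 1)
      simp only [Fin.sum_univ_two, Matrix.cons_val_zero, Matrix.cons_val_one] at h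
      rw [hsymm 1 0] at h
      linarith
    · rw [hA i j]
      simp only [Fin.sum_univ_two]
      rw [hsymm 1 0]
      ring
  obtain ⟨x, y, α, β, γ, ⟨hp, hrep⟩, hn⟩ := Nat.find_spec hex
  have hmin : ∀ x' y' α' β' γ', Rep x' y' α' β' γ' → α + γ ≤ α' + γ' := by
    intro x' y' α' β' γ' h
    have h1 := Nat.find_min' hex ⟨x', y', α', β', γ', h, rfl⟩
    rw [← hn] at h1
    have h2 := h.1 1 0 (by simp)
    have h3 := h.1 0 1 (by simp)
    simp at h2 h3
    omega
  have hα := hp 1 0 (by simp)
  have hγ := hp 0 1 (by simp)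
  simp at hα hγ
  have sh1 : ∀ t : ℤ, Rep (fun i => x i - t * y i) y α (β + t * α)
      (α * (t * t) + 2 * β * t + γ) := fun t => by
    refine ⟨fun m n hmn => ?_, fun i j => by rw [hrep i j]; ring⟩
    have h := hp (m + t * n) n (by
      by_cases hn0 : n = 0
      · exact Or.inl (by subst hn0; simpa using hmn)
      · exact Or.inr hn0)
    linarith
  have sh2 : ∀ t : ℤ, Rep x (fun i => y i - t * x i) (γ * (t * t) + 2 * β * t + α) (β + t * γ)
      γ := fun t => by
    refine ⟨fun m n hmn => ?_, fun i j => by rw [hrep i j]; ring⟩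
    have h := hp m (n + t * m) (by
      by_cases hm0 : m = 0
      · exact Or.inr (by subst hm0; simpa using hmn)
      · exact Or.inl hm0)
    linarith
  have h1 := hmin _ _ _ _ _ (sh1 1)
  have h2 := hmin _ _ _ _ _ (sh1 (-1))
  have h3 := hmin _ _ _ _ _ (sh2 1)
  have h4 := hmin _ _ _ _ _ (sh2 (-1))
  refine ⟨x, y, α, β, γ, hα, hγ, ?_, ?_, hrep⟩
  · rcases abs_cases β with ⟨h, -⟩ | ⟨h, -⟩ <;> linarith
  · rcases abs_cases β with ⟨h, -⟩ | ⟨h, -⟩ <;> linarith

end CfsgLib.Block
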