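import Cfsg.Agent.Lib.BlockPairStab
import Cfsg.Agent.Lib.BlockNilpotent
import Cfsg.Agent.Lib.BlockHeight
import Cfsg.Agent.Lib.BlockRank
import Cfsg.Agent.Lib.BlockSubFacts

/-!
# Maximal Brauer pairs and characters of defect zero modulo the centre of the defect group
-/

set_option autoImplicit false
set_option linter.style.haveILetI false
set_option linter.unusedSectionVars false
set_option linter.unusedFintypeInType false

namespace CfsgLib.Block

open Cfsg CfsgLib.Char
open scoped ComplexConjugate Classical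

universe u

variable {G : Type u} [Group G] [Fintype G] {p : ℕ} [Fact p.Prime] {M : Ideal AlgInt}

section Central

variable (hM : IsPModular p M) {Z : Subgroup G} (hZp : IsPGroup p Z) (hZc : Z ≤ Subgroup.center G)
  {e : Set (IrrCharacter G)} (he : IsPBlock M e)

include hZp hZc in
/-- Multiplication of central `p`-elements and `p`-regular elements is injective. -/
theorem central_mul_regular_inj {z z' r r' : G} (hz : z ∈ Z) (hz' : z' ∈ Z) (hr : ¬ p ∣ orderOf r)
    (hr' : ¬ p ∣ orderOf r') (h : z * r = z' * r') : z = z' ∧ r = r' := by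
  have hp := (Fact.out : p.Prime)
  set w := z'⁻¹ * z with hw
  have hwZ : w ∈ Z := mul_mem (inv_mem hz') hz
  have hr'w : r' = w * r := by rw [hw, mul_assoc, h]; group
  have hcomm : Commute w r := ((Subgroup.mem_center_iff.1 (hZc hwZ)) r).symm
  have h1 : w ^ (orderOf r * orderOf r') = 1 := by
    have h2 : (w * r) ^ (orderOf r * orderOf r') = 1 := by
      rw [← hr'w, mul_comm, pow_mul, pow_orderOf_eq_one, one_pow]
    rwa [hcomm.mul_pow, pow_mul r, pow_orderOf_eq_one, one_pow, mul_one] at h2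
  obtain ⟨j, hj⟩ := hZp ⟨w, hwZ⟩
  have hj' : w ^ (p ^ j) = 1 := congrArg Subtype.val hj
  have hcop : Nat.Coprime (orderOf r * orderOf r') (p ^ j) :=
    Nat.Coprime.pow_right j (Nat.Coprime.mul_left ((hp.coprime_iff_not_dvd.2 hr).symm)
      ((hp.coprime_iff_not_dvd.2 hr').symm))
  have h3 : orderOf w = 1 := Nat.eq_one_of_dvd_coprimes hcop (orderOf_dvd_of_pow_eq_one h1)
    (orderOf_dvd_of_pow_eq_one hj')
  rw [orderOf_eq_one_iff] at h3
  refine ⟨inv_mul_eq_one.1 h3 |>.symm, ?_⟩
  rw [hr'w, h3, one_mul]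

include hM hZp hZc he in
/-- A character trivial on a central `p`-subgroup and of defect zero modulo it has height zero. -/
theorem blockDefect_le_of_quotient_zero {θ : IrrCharacter G} (hθ : θ ∈ e)
    (htriv : ∀ z ∈ Z, (θ : G → ℂ) z = (θ : G → ℂ) 1)
    (hdeg : (charDegree (θ : G → ℂ)).factorization p + (Nat.card Z).factorization p =
      (Nat.card G).factorization p) :
    blockDefect p e ≤ (Nat.card Z).factorization p := by
  have hp := hM.1
  set R := Finset.univ.filter (fun g : G => ¬ p ∣ orderOf g) with hR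
  set S : ℝ := ∑ r ∈ R, Complex.normSq ((θ : G → ℂ) r) with hS
  obtain ⟨k, hk⟩ := IsPGroup.iff_card.1 hZp
  have hkfac : (Nat.card Z).factorization p = k := by
    rw [hk, hp.factorization_pow, Finsupp.single_eq_same]
  haveI := Fintype.ofFinite Z
  have hval : ∀ z ∈ Z, ∀ r, (θ : G → ℂ) (z * r) = (θ : G → ℂ) r := by
    intro z hz r
    obtain ⟨-, h⟩ := centVal_spec θ (hZc hz)
    rw [h r, centVal, htriv z hz, div_self (irr_one_ne_zero θ), one_mul]
  have hle : (Nat.card Z : ℝ) * S ≤ (Nat.card G : ℝ) := by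
    have hG : ∑ g : G, Complex.normSq ((θ : G → ℂ) g) = (Nat.card G : ℝ) := by
      have h1 := irr_inner_self θ.2
      unfold classInner at h1
      simp only [Complex.mul_conj] at h1
      rw [inv_mul_eq_iff_eq_mul₀ (natCard_ne_zero G), mul_one] at h1
      exact_mod_cast h1
    rw [← hG]
    have e : (Nat.card Z : ℝ) * S = ∑ x ∈ (Finset.univ : Finset Z) ×ˢ R,
        Complex.normSq ((θ : G → ℂ) ((x.1 : G) * x.2)) := by
      rw [Finset.sum_product, hS]
      simp only [fun (z : Z) r => hval z z.2 r, Finset.sum_const, Finset.card_univ, nsmul_eq_mul,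
        ← Nat.card_eq_fintype_card]
    rw [e, ← Finset.sum_image (f := fun g => Complex.normSq ((θ : G → ℂ) g))
      (g := fun x : Z × G => (x.1 : G) * x.2) ?_]
    · exact Finset.sum_le_sum_of_subset_of_nonneg (Finset.subset_univ _)
        fun g _ _ => Complex.normSq_nonneg _
    · rintro ⟨z, r⟩ hx ⟨z', r'⟩ hy hxy
      simp only [Finset.coe_product, Set.mem_prod, hR, Finset.coe_filter, Set.mem_ofPred_eq,
        Finset.mem_univ, true_and] at hx hy
      obtain ⟨h1, h2⟩ := central_mul_regular_inj hZp hZc z.2 z'.2 hx.2 hy.2 hxy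
      exact Prod.ext (Subtype.ext h1) h2
  have hSpos : 0 < S := by
    refine Finset.sum_pos' (fun r _ => Complex.normSq_nonneg _) ⟨1, ?_, ?_⟩
    · simp [hR, hp.not_dvd_one]
    · exact Complex.normSq_pos.2 (irr_one_ne_zero θ)
  obtain ⟨m, hm⟩ := exists_int_scaledReg_dvd hp θ θ.2.isCharacter'
  rw [scaledReg_eq, CfsgLib.Char.inner_smul_left, classInner_regPart] at hm
  simp only [Complex.mul_conj] at hm
  rw [← hR, ← Complex.ofReal_sum, ← hS] at hm
  have hvG : (Nat.card G).factorization p = (charDegree (θ : G → ℂ)).factorization p + k := by omega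
  have hm' : (p : ℝ) ^ k * S = (m : ℝ) * (Nat.card G : ℝ) := by
    apply Complex.ofReal_injective
    push_cast
    have hG := natCard_ne_zero G
    have hpc : (p : ℂ) ≠ 0 := Nat.cast_ne_zero.2 hp.ne_zero
    rw [hvG, pow_add, Nat.cast_pow] at hm
    field_simp at hm
    linear_combination hm
  have hm1 : m = 1 := by
    have hG : (0 : ℝ) < (Nat.card G : ℝ) := Nat.cast_pos.2 Nat.card_pos
    rw [hk] at hle
    push_cast at hle
    rw [hm'] at hle
    have h1 : (m : ℝ) ≤ 1 := by nlinarith
    have h2 : (0 : ℝ) < m := by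
      have : (0 : ℝ) < (p : ℝ) ^ k * S := mul_pos (pow_pos (Nat.cast_pos.2 hp.pos) k) hSpos
      rw [hm'] at this
      exact pos_of_mul_pos_left this hG.le
    have h1' : m ≤ 1 := by exact_mod_cast h1
    have h2' : 0 < m := by exact_mod_cast h2
    omega
  have hn : classInner (scaledReg p (θ : G → ℂ)) (θ : G → ℂ) =
      ((p ^ (charDegree (θ : G → ℂ)).factorization p : ℕ) : ℤ) := by
    obtain ⟨m', hm''⟩ := exists_int_scaledReg_dvd hp θ θ.2.isCharacter'
    have : (m' : ℂ) = m := by
      have h2 := hm''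
      rw [scaledReg_eq, CfsgLib.Char.inner_smul_left, classInner_regPart] at h2
      simp only [Complex.mul_conj] at h2
      rw [← hR, ← Complex.ofReal_sum, ← hS, hm] at h2
      exact mul_left_cancel₀ (Nat.cast_ne_zero.2 (pow_ne_zero _ hp.ne_zero)) h2.symm
    rw [hm'', this, hm1]
    simp
  have h0 : blockHeight p e (θ : G → ℂ) = 0 := by
    rw [height_zero_iff_ev_regElt hM he hθ hθ, regRatio_ne_iff hM θ θ hn]
    exact ⟨by exact_mod_cast pow_ne_zero _ hp.ne_zero, by rw [padicValInt.of_nat, padicValNat.prime_pow]⟩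
  rw [blockHeight_zero_iff hθ] at h0
  rw [blockDefect_eq, ← h0]
  omega

include hM hZp hZc he in
/-- A block with central defect group has a character of defect zero modulo the defect group. -/
theorem exists_quotient_zero (hd : blockDefect p e = (Nat.card Z).factorization p) :
    ∃ θ ∈ e, (∀ z ∈ Z, (θ : G → ℂ) z = (θ : G → ℂ) 1) ∧
      (charDegree (θ : G → ℂ)).factorization p + (Nat.card Z).factorization p =
        (Nat.card G).factorization p := by
  have hp := hM.1
  haveI := Fintype.ofFinite Z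
  set A := Finset.univ.filter (· ∈ e) with hA
  set d : IrrCharacter G → ℕ := fun θ => charDegree (θ : G → ℂ) with hdd
  set T : IrrCharacter G → Prop := fun θ => ∀ z ∈ Z, (θ : G → ℂ) z = (θ : G → ℂ) 1 with hT
  have hz : ∀ z : Z, z ≠ 1 → ∑ θ ∈ A, (θ : G → ℂ) 1 * conj ((θ : G → ℂ) z) = 0 := by
    intro z hz
    have hord : p ∣ orderOf (z : G) := by
      rw [Subgroup.orderOf_coe]
      obtain ⟨j, hj⟩ := IsPGroup.iff_orderOf.1 hZp z
      rw [hj]
      refine dvd_pow_self p fun h0 => hz ?_
      rwa [h0, pow_zero, orderOf_eq_one_iff] at hj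
    have h := coef_indVal_singular hM he hord
    simp only [coef, mul_eq_zero, inv_eq_zero, natCard_ne_zero G, false_or] at h
    refine Eq.trans ?_ h
    rw [hA, Finset.sum_filter]
    exact Finset.sum_congr rfl fun θ _ => by unfold indVal; split_ifs <;> simp
  have hchar : ∀ θ : IrrCharacter G, ∑ z : Z, conj ((θ : G → ℂ) z) =
      if T θ then (Nat.card Z : ℂ) * (θ : G → ℂ) 1 else 0 := by
    intro θ
    have h1 : conj ((θ : G → ℂ) 1) = (θ : G → ℂ) 1 := by
      rw [← charDegree_cast θ.2.isCharacter', Complex.conj_natCast]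
    split_ifs with h
    · rw [Finset.sum_congr rfl fun z _ => by rw [h z z.2, h1]]
      rw [Finset.sum_const, Finset.card_univ, nsmul_eq_mul, Nat.card_eq_fintype_card]
    · simp only [hT, not_forall] at h
      obtain ⟨z₀, hz₀, hne⟩ := h
      obtain ⟨-, hw⟩ := centVal_spec θ (hZc hz₀)
      have e : ∑ z : Z, conj ((θ : G → ℂ) z) = conj (centVal θ z₀) * ∑ z : Z, conj ((θ : G → ℂ) z) := by
        rw [Finset.mul_sum]
        refine (Fintype.sum_equiv (Equiv.mulLeft ⟨z₀, hz₀⟩) _ _ fun z => ?_).symm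
        show _ = conj ((θ : G → ℂ) (z₀ * (z : G)))
        rw [hw, map_mul]
      by_contra hc
      have h2 : conj (centVal θ z₀) = 1 := mul_right_cancel₀ hc (by rw [one_mul]; exact e.symm)
      have h3 : centVal θ z₀ = 1 := by simpa using congrArg conj h2
      apply hne
      have := hw 1
      rwa [h3, one_mul, mul_one] at this
  have hsum : Nat.card Z * ∑ θ ∈ A.filter T, d θ ^ 2 = ∑ θ ∈ A, d θ ^ 2 := by
    have e1 : ∑ z : Z, ∑ θ ∈ A, (θ : G → ℂ) 1 * conj ((θ : G → ℂ) z) =
        ∑ θ ∈ A, ((d θ : ℂ) ^ 2) := by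
      rw [Finset.sum_eq_single (1 : Z) (fun z _ h => hz z h) fun h => absurd (Finset.mem_univ _) h]
      refine Finset.sum_congr rfl fun θ _ => ?_
      rw [OneMemClass.coe_one, hdd, ← charDegree_cast θ.2.isCharacter', Complex.conj_natCast, sq]
    rw [Finset.sum_comm] at e1
    simp only [← Finset.mul_sum, hchar, mul_ite, mul_zero] at e1
    apply Nat.cast_injective (R := ℂ)
    push_cast
    rw [← e1, Finset.mul_sum, Finset.sum_filter]
    refine Finset.sum_congr rfl fun θ _ => ?_
    rw [hdd, charDegree_cast θ.2.isCharacter']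
    split_ifs <;> ring
  have hbm := blockMin_le_card hM he
  have hv := factorization_sum_sq hM he
  rw [← hA] at hv
  rw [blockDefect_eq] at hd
  by_contra hc
  push Not at hc
  have hdvd : p ^ (2 * (blockMin p e + 1)) ∣ ∑ θ ∈ A.filter T, d θ ^ 2 := by
    refine Finset.dvd_sum fun θ hθ => ?_
    rw [Finset.mem_filter, hA, Finset.mem_filter] at hθ
    have h1 := blockMin_le (p := p) hθ.1.2
    have h2 := hc θ hθ.1.2 hθ.2
    have h3 : blockMin p e + 1 ≤ (d θ).factorization p := by simp only [hdd]; omega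
    rw [mul_comm 2, pow_mul]
    exact pow_dvd_pow_of_dvd ((hp.pow_dvd_iff_le_factorization (charDegree_pos θ).ne').2 h3) 2
  obtain ⟨k, hk⟩ := IsPGroup.iff_card.1 hZp
  have hdvd' : p ^ (k + 2 * (blockMin p e + 1)) ∣ ∑ θ ∈ A, d θ ^ 2 := by
    rw [← hsum, hk, pow_add]
    exact Nat.mul_dvd_mul_left _ hdvd
  have hne : ∑ θ ∈ A, d θ ^ 2 ≠ 0 := by
    obtain ⟨θ, hθ⟩ := isPBlock_nonempty hM he
    intro h0
    have := Finset.sum_eq_zero_iff.1 h0 θ (by simp [hA, hθ])
    exact (pow_ne_zero 2 (charDegree_pos θ).ne') this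
  have h4 := (hp.pow_dvd_iff_le_factorization hne).1 hdvd'
  rw [hdd, hv] at h4
  rw [hk, hp.factorization_pow, Finsupp.single_eq_same] at hd
  omega

end Central

section Pair

variable (hM : IsPModular p M) {Q : Subgroup G}
  {e : Set (IrrCharacter (Subgroup.centralizer (Q : Set G)))}

include hM in
/-- The criterion for a Brauer pair to be maximal. -/
theorem maximal_pair_iff (he : IsBrauerPair p M Q e) :
    (∃ B : Set (IrrCharacter G), IsMaximalBrauerPair p M B Q e) ↔
      ∃ θ ∈ e, (∀ z : Subgroup.centralizer (Q : Set G), (z : G) ∈ Q →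
          (θ : Subgroup.centralizer (Q : Set G) → ℂ) z = (θ : Subgroup.centralizer (Q : Set G) → ℂ) 1) ∧
        (charDegree (θ : Subgroup.centralizer (Q : Set G) → ℂ)).factorization p +
            (Nat.card ↥(Q ⊓ Subgroup.centralizer (Q : Set G))).factorization p =
          (Nat.card (Subgroup.centralizer (Q : Set G))).factorization p ∧
        (∀ g : G, g ∈ Subgroup.normalizer (Q : Set G) →
          StabilizesBlock (Subgroup.centralizer (Q : Set G)) e g → (∃ k : ℕ, orderOf g = p ^ k) →
            g ∈ Q ⊔ Subgroup.centralizer (Q : Set G)) := by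
  have hp := (Fact.out : p.Prime)
  haveI := Fintype.ofFinite (Subgroup.centralizer (Q : Set G))
  obtain ⟨hQ, hb⟩ := he
  have hpair : PairFn hM Q (pFn hM Q e) := (isBrauerPair_iff hM hb).1 ⟨hQ, hb⟩
  set Z : Subgroup (Subgroup.centralizer (Q : Set G)) := (Q ⊓ (Subgroup.centralizer (Q : Set G))).subgroupOf (Subgroup.centralizer (Q : Set G)) with hZ
  have hcardZ : Nat.card Z = Nat.card (Q ⊓ (Subgroup.centralizer (Q : Set G)) : Subgroup G) :=
    Nat.card_congr (Subgroup.subgroupOfEquivOfLe inf_le_right).toEquiv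
  have hZp : IsPGroup p Z := (hQ.to_le inf_le_left).comap_of_injective _ (Subgroup.subtype_injective (Subgroup.centralizer (Q : Set G)))
  have hZc : Z ≤ Subgroup.center (Subgroup.centralizer (Q : Set G)) := fun z hz => Subgroup.mem_center_iff.2 fun c =>
    Subtype.ext ((Subgroup.mem_centralizer_iff.1 c.2 _ (Subgroup.mem_inf.1 hz).1).symm)
  have hZmem : ∀ z : (Subgroup.centralizer (Q : Set G)), z ∈ Z ↔ (z : G) ∈ Q := fun z =>
    ⟨fun h => (Subgroup.mem_inf.1 h).1, fun h => Subgroup.mem_inf.2 ⟨h, z.2⟩⟩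
  constructor
  · rintro ⟨B, hmax⟩
    obtain ⟨-, hψ⟩ := maxPair_of_isMaximal hM hmax
    obtain ⟨x, hc, hle⟩ := exists_conj_centralizer_defect hψ hb hψ.1
    have hQx : Q.map (MulAut.conj x).toMonoidHom = Q :=
      Subgroup.eq_of_le_of_card_ge hc.le (card_map_conj Q x).ge
    rw [hQx] at hle
    have hge := card_centralizer_le_defect hpair hb (Relation.ReflTransGen.refl)
    have hd : blockDefect p e = (Nat.card Z).factorization p := by
      rw [hcardZ, le_antisymm hge hle, hp.factorization_pow, Finsupp.single_eq_same]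
    obtain ⟨θ, hθ, htriv, hdeg⟩ := exists_quotient_zero hM hZp hZc hb hd
    refine ⟨θ, hθ, fun z hz => htriv z ((hZmem z).2 hz), by rw [← hcardZ]; exact hdeg, ?_⟩
    intro g hg hst hord
    exact pElement_stab_mem hψ hord hg ((stabilizes_iff_cnj hb hg).1 hst)
  · rintro ⟨θ, hθ, htriv, hdeg, hstab⟩
    obtain ⟨B, hB, -⟩ := existsUnique_pairIn hpair
    have hd := blockDefect_le_of_quotient_zero hM hZp hZc hb hθ
      (fun z hz => htriv z ((hZmem z).1 hz)) (by rw [hcardZ]; exact hdeg)
    rw [hcardZ] at hd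
    refine ⟨B, isMaximal_of_maxPair hM hb ⟨hB, fun R γ hR hc => ?_⟩⟩
    by_contra hne
    rcases hc.eq_or_step with h | ⟨c, hlt, hns, hrest⟩
    · exact hne (congrArg Prod.fst h).symm
    have hcfn : PairFn hM c.1 c.2 := hrest.pairFn hR.1
    have hchain : Chain hM (Q, pFn hM Q e) c := Relation.ReflTransGen.single hns
    have hcard : Nat.card (c.1 ⊓ (Subgroup.centralizer (Q : Set G)) : Subgroup G) ≤ Nat.card (Q ⊓ (Subgroup.centralizer (Q : Set G)) : Subgroup G) := by
      refine (card_centralizer_le_defect hcfn hb hchain).trans ?_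
      obtain ⟨j, hj⟩ := IsPGroup.iff_card.1 (hQ.to_le (inf_le_left (b := (Subgroup.centralizer (Q : Set G)))))
      rw [hj, hp.factorization_pow, Finsupp.single_eq_same] at hd
      rw [hj]
      exact Nat.pow_le_pow_right hp.pos hd
    have hZeq : Q ⊓ (Subgroup.centralizer (Q : Set G)) = c.1 ⊓ (Subgroup.centralizer (Q : Set G)) :=
      Subgroup.eq_of_le_of_card_ge (inf_le_inf_right (Subgroup.centralizer (Q : Set G)) hlt.le) hcard
    refine hlt.ne (le_antisymm hlt.le fun g hg => ?_)
    obtain ⟨-, hN, hinv⟩ : Q ≤ c.1 ∧ c.1 ≤ Subgroup.normalizer (Q : Set G) ∧ InvBy c.1 (pFn hM Q e) :=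
      ⟨hns.2.2.1, hns.2.2.2.1, hns.2.2.2.2.1⟩
    have hgN := hN hg
    obtain ⟨j, hj⟩ := IsPGroup.iff_orderOf.1 hcfn.1 ⟨g, hg⟩
    have hgm := hstab g hgN ((stabilizes_iff_cnj hb hgN).2 (cnj_eq_self_of_invBy hinv hg))
      ⟨j, by rwa [Subgroup.orderOf_mk] at hj⟩
    rw [← SetLike.mem_coe, Subgroup.coe_mul_of_left_le_normalizer_right] at hgm
    · obtain ⟨q, hq, k, hk, rfl⟩ := hgm
      have hkc : k ∈ c.1 := by
        have := mul_mem (inv_mem (hlt.le hq)) hg
        rwa [inv_mul_cancel_left] at this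
      exact mul_mem hq (Subgroup.mem_inf.1 (hZeq ▸ Subgroup.mem_inf.2 ⟨hkc, hk⟩)).1
    · exact fun q hq => mem_normalizer_centralizer (Subgroup.le_normalizer hq)

end Pair

end CfsgLib.Block
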