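import Cfsg.Agent.Lib.BlockSubFacts
import Cfsg.Agent.Lib.BlockRegular

/-!
# The structure of nilpotent blocks: the regular parts are proportional
-/

set_option autoImplicit false
set_option linter.style.haveILetI false
set_option linter.unusedSectionVars false

namespace CfsgLib.Block

open Cfsg CfsgLib.Char
open scoped ComplexConjugate Classical

universe u

/-- Positive reals of product at least one and sum at most their number are all one. -/
theorem eq_one_of_prod_ge_one {ι : Type*} (s : Finset ι) (x : ι → ℝ) (hx : ∀ i ∈ s, 0 < x i)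
    (hprod : 1 ≤ ∏ i ∈ s, x i) (hsum : ∑ i ∈ s, x i ≤ s.card) : ∀ i ∈ s, x i = 1 := by
  have hlog : 0 ≤ ∑ i ∈ s, Real.log (x i) := by
    rw [← Real.log_prod (fun i hi => (hx i hi).ne')]
    exact Real.log_nonneg hprod
  have hle : ∀ i ∈ s, 0 ≤ x i - 1 - Real.log (x i) := fun i hi => by
    linarith [Real.log_le_sub_one_of_pos (hx i hi)]
  have htot : ∑ i ∈ s, (x i - 1 - Real.log (x i)) ≤ 0 := by
    simp only [Finset.sum_sub_distrib, Finset.sum_const, nsmul_eq_mul, mul_one]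
    linarith
  intro i hi
  by_contra hne
  have h1 := (Finset.sum_eq_zero_iff_of_nonneg hle).1 (le_antisymm htot (Finset.sum_nonneg hle)) i hi
  linarith [Real.log_lt_sub_one_of_pos (hx i hi) hne]

variable {G : Type u} [Group G] [Fintype G] {p : ℕ} {M : Ideal AlgInt}

theorem sum_filter_mem_eq {R : Type*} [AddCommMonoid R] {P : Subgroup G} (F : G → R) :
    ∑ u ∈ Finset.univ.filter (· ∈ P), F u = ∑ u : P, F u :=
  Finset.sum_subtype _ (fun u => by simp) F

/-- A good function with unit values has a good inverse. -/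
theorem exists_goodRing_inv (hM : IsPModular p M) {f : G → ℂ} (hf : f ∈ goodRing hM)
    (hv : ∀ g, f g ∈ locRing hM) (hu : ∀ g, ¬ MemLocalIdeal M (f g)) :
    ∃ w ∈ goodRing (G := G) hM, ∀ g, w g * f g = 1 := by
  have hne : ∀ g, f g ≠ 0 := fun g h => hu g (by
    rw [h, memLocalIdeal_iff_exists hM]
    exact ⟨zero_mem _, map_zero _⟩)
  have hconst : ∀ c ∈ locRing hM, (fun _ : G => c) ∈ goodRing hM := fun c hc => by
    have := smul_mem_goodRing hM (one_mem (goodRing (G := G) hM)) hc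
    convert this using 1
    funext g
    simp
  have key : ∀ S : Finset G, ∃ w ∈ goodRing (G := G) hM,
      ∀ g, ∏ v ∈ S, (f v - f g) = (∏ v ∈ S, f v) + f g * w g := by
    intro S
    induction S using Finset.induction with
    | empty => exact ⟨0, zero_mem _, fun g => by simp⟩
    | insert v S hvS ih =>
      obtain ⟨w, hw, e⟩ := ih
      refine ⟨(fun _ => f v) * w - (fun _ => ∏ x ∈ S, f x) - f * w,
        sub_mem (sub_mem (mul_mem (hconst _ (hv v)) hw)
          (hconst _ (prod_mem fun x _ => hv x))) (mul_mem hf hw), fun g => ?_⟩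
      rw [Finset.prod_insert hvS, Finset.prod_insert hvS, e g]
      simp only [Pi.sub_apply, Pi.mul_apply]
      ring
  obtain ⟨w, hw, e⟩ := key Finset.univ
  set c := ∏ v ∈ (Finset.univ : Finset G), f v with hc
  have hc0 : c ≠ 0 := Finset.prod_ne_zero_iff.2 fun v _ => hne v
  have hci : (-c)⁻¹ ∈ locRing hM := by
    rw [inv_neg, hc, ← Finset.prod_inv_distrib]
    exact neg_mem (prod_mem fun v _ => inv_mem_of_not_memLocalIdeal hM (hv v) (hu v))
  refine ⟨(-c)⁻¹ • w, smul_mem_goodRing hM hw hci, fun g => ?_⟩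
  have h0 : ∏ v ∈ (Finset.univ : Finset G), (f v - f g) = 0 :=
    Finset.prod_eq_zero (Finset.mem_univ g) (sub_self _)
  have := e g
  rw [h0] at this
  simp only [Pi.smul_apply, smul_eq_mul]
  rw [mul_assoc, show w g * f g = -c by linear_combination -this,
    inv_mul_cancel₀ (neg_ne_zero.2 hc0)]

/-- The values of a character at coprime powers. -/
theorem galVal_char {φ : G → ℂ} (hφ : IsCharacter G φ) {ζ₀ : ℂ} {N : ℕ} (hN : 0 < N)
    (hζ : IsPrimitiveRoot ζ₀ N) {u : G} (hu : u ^ N = 1) :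
    GalVal p ζ₀ fun k => φ (u ^ k) := by
  set K := Subgroup.zpowers u with hK
  set u' : K := ⟨u, Subgroup.mem_zpowers u⟩ with hu'
  have hc : u' ∈ Subgroup.center K := Subgroup.mem_center_iff.2 fun g => by
    obtain ⟨j, hj⟩ := Subgroup.mem_zpowers_iff.1 g.2
    apply Subtype.ext
    show (g : G) * u = u * (g : G)
    rw [← hj]
    exact ((Commute.refl u).zpow_left j).eq
  have hexp : ∀ k, φ (u ^ k) = ∑ z : IrrCharacter K,
      classInner (fun h : K => φ h) (z : K → ℂ) *
        (centVal z u' ^ k * (z : K → ℂ) 1) := by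
    intro k
    have := congrFun (classFunction_eq_sum (fun h : K => φ h)
      (isCharacter_classFunction (isCharacter_restrict hφ K))) (u' ^ k)
    simp only [Finset.sum_apply, Pi.smul_apply, smul_eq_mul] at this
    rw [show φ (u ^ k) = φ ((u' ^ k : K) : G) by simp [hu'], this]
    refine Finset.sum_congr rfl fun z _ => ?_
    rw [← centVal_pow z hc, ← (centVal_spec z (Subgroup.pow_mem _ hc k)).2 1, mul_one]
  refine GalVal.congr (galVal_sum Finset.univ _ fun z _ => ?_) (fun k _ => hexp k)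
  obtain ⟨n, hn⟩ := inner_character_nat (isCharacter_restrict hφ K) z.2.isCharacter'
  have hroot : centVal z u' ^ N = 1 := by
    rw [← centVal_pow z hc, show u' ^ N = 1 from Subtype.ext (by simpa [hu'] using hu), centVal_one]
  refine GalVal.congr ((galVal_const (n : ℤ)).mul ((galVal_of_root hN hζ hroot).mul
    (galVal_const (charDegree (z : K → ℂ) : ℤ)))) fun k _ => ?_
  rw [hn, ← charDegree_cast z.2.isCharacter']
  push_cast
  ring

theorem blockMat_real (hM : IsPModular p M) {B : Set (IrrCharacter G)} (hB : IsPBlock M B)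
    {ξ : IrrCharacter G} (hξ : ξ ∈ B) (η : IrrCharacter G) :
    conj (blockMat p B ξ η) = blockMat p B ξ η ∧ blockMat p B η ξ = blockMat p B ξ η := by
  obtain ⟨n, hn⟩ := exists_int_blockMat hM hB hξ η
  have h : conj (blockMat p B ξ η) = blockMat p B ξ η := by rw [hn]; simp
  exact ⟨h, by rw [← blockMat_conj, h]⟩

theorem blockMat_self_nonneg (B : Set (IrrCharacter G)) (ξ : IrrCharacter G) :
    ∃ r : ℝ, 0 ≤ r ∧ blockMat p B ξ ξ = (r : ℂ) := by
  refine ⟨(p : ℝ) ^ blockDefect p B * ((Nat.card G : ℝ)⁻¹ *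
    ∑ g ∈ Finset.univ.filter (fun g => ¬ p ∣ orderOf g), Complex.normSq ((ξ : G → ℂ) g)), ?_, ?_⟩
  · exact mul_nonneg (pow_nonneg (Nat.cast_nonneg _) _) (mul_nonneg (inv_nonneg.2 (Nat.cast_nonneg _))
      (Finset.sum_nonneg fun g _ => Complex.normSq_nonneg _))
  · rw [blockMat_eq_sum]
    push_cast
    simp only [Complex.mul_conj]

section Main

variable {hM : IsPModular p M} {B : Set (IrrCharacter G)} {P : Subgroup G}
  {ψ : G → ResField M} [Fact p.Prime] (hψ : MaxPair hM B P ψ) (hnil : IsNilpotentBlock p M B)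
  (ih : ∀ H : Subgroup G, H ≠ ⊤ → ∀ f : Set (IrrCharacter H), IsNilpotentBlock p M f → NilData p f)
  {χ₀ : IrrCharacter G} (hχ₀ : χ₀ ∈ B) (h0 : blockHeight p B (χ₀ : G → ℂ) = 0)

/-- The multiplicity function of `ξ` against `χ₀` on `P`. -/
noncomputable def nilFn (h : PairFn hM P ψ) (χ₀ ξ : IrrCharacter G) (u : P) : ℂ :=
  subInner h (u : G) (ξ : G → ℂ) (χ₀ : G → ℂ)

omit [Fact p.Prime] in
theorem nilFn_classFunction (h : PairFn hM P ψ) (χ₀ ξ : IrrCharacter G) :
    IsClassFunction P (nilFn h χ₀ ξ) := fun u t => by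
  show subInner h ((t * u * t⁻¹ : P) : G) _ _ = _
  rw [Subgroup.coe_mul, Subgroup.coe_mul, Subgroup.coe_inv]
  exact subInner_conj h t.2 u.2 ξ χ₀

omit [Fact p.Prime] in
theorem pow_card_coe {u : G} (hu : u ∈ P) : u ^ Nat.card P = 1 := by
  have h := congrArg Subtype.val (pow_card_eq_one' (x := (⟨u, hu⟩ : P)))
  rwa [Subgroup.coe_pow, Subgroup.coe_one] at h

include hψ in
theorem card_P_eq : Nat.card P = p ^ blockDefect p B :=
  card_defectGroup hM hψ.1.2.1 hψ.isDefectGroup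

include hψ in
theorem coprime_card {k : ℕ} (hk : ¬ p ∣ k) : (Nat.card P).Coprime k := by
  rw [card_P_eq hψ]
  exact Nat.Coprime.pow_left _ (hM.1.coprime_iff_not_dvd.2 hk)

include hψ in
theorem pow_mem_center_iff {u : G} (hu : u ∈ P) {k : ℕ} (hk : ¬ p ∣ k) :
    u ^ k ∈ Subgroup.center G ↔ u ∈ Subgroup.center G := by
  refine ⟨fun h => ?_, fun h => Subgroup.pow_mem _ h k⟩
  obtain ⟨j, hj⟩ := IsPGroup.iff_orderOf.1 hψ.1.1.1 ⟨u, hu⟩
  have e := exists_pow_eq_of_coprime ⟨j, by rwa [← Subgroup.orderOf_coe] at hj⟩ hM.1 hk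
  have h1 : u ∈ Subgroup.zpowers (u ^ k) := by rw [e]; exact Subgroup.mem_zpowers u
  exact Subgroup.zpowers_le.2 h h1

include hψ hnil ih hχ₀ h0 in
/-- Step 1: the height zero character has unit contributions. -/
theorem nil_unit : blockMat p B χ₀ χ₀ = 1 ∧
    ∀ u ∈ P, subInner hψ.1.1 u (χ₀ : G → ℂ) (χ₀ : G → ℂ) = 1 := by
  have hB : IsPBlock M B := hψ.1.2.1
  have hpr : p.Prime := hM.1
  obtain ⟨i, hi, hii, hiP, hib, hne⟩ := exists_source hψ hχ₀ h0
  have hζ := Complex.isPrimitiveRoot_exp (Nat.card P) Nat.card_pos.ne'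
  set ζ₀ := Complex.exp (2 * Real.pi * Complex.I / (Nat.card P : ℕ))
  set N := Finset.univ.filter (fun u : P => (u : G) ∉ Subgroup.center G) with hN
  have hdec := fun (u : P) (hu : u ∈ N) =>
    exists_subDec hψ hnil ih hζ u.2 (Finset.mem_filter.1 hu).2
  choose A hA hAk hAm using hdec
  set x : P → ℝ := fun u => if hu : u ∈ N then Complex.normSq (A u hu χ₀ 1) else 1 with hx
  have hval : ∀ u ∈ N, subInner hψ.1.1 (u : G) (χ₀ : G → ℂ) (χ₀ : G → ℂ) = (x u : ℂ) := by
    intro u hu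
    have h := hAk u hu 1 hpr.not_dvd_one χ₀ χ₀
    rw [pow_one] at h
    simp only [hx, dif_pos hu]
    rw [h, Complex.mul_conj]
  have hxpos : ∀ u ∈ N, 0 < x u := by
    intro u hu
    simp only [hx, dif_pos hu]
    refine Complex.normSq_pos.2 fun ha => hne ?_
    obtain ⟨m, hm⟩ := hAm u hu i hi hii hiP hib
    rw [← res_matVal_source hψ.1.1.1 χ₀ hi hii hiP u.2, res_eq_zero_iff]
    show MemLocalIdeal M (matVal hM (χ₀ : G → ℂ) i u)
    rw [hm χ₀, ha, zero_mul, memLocalIdeal_iff_exists hM]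
    exact ⟨zero_mem _, map_zero _⟩
  set f : ℕ → ℂ := fun k => ∏ u ∈ N, subInner hψ.1.1 ((u : G) ^ k) (χ₀ : G → ℂ) (χ₀ : G → ℂ)
    with hf
  have hroot : ζ₀ ^ p ^ blockDefect p B = 1 := by
    rw [← card_P_eq hψ]; exact hζ.pow_eq_one
  have hfG : GalVal p ζ₀ f := by
    refine GalVal.congr (galVal_prod N (fun u k => if hu : u ∈ N then
      A u hu χ₀ k * conj (A u hu χ₀ k) else 1) fun u hu => ?_) fun k hk => ?_
    · simp only [dif_pos hu]
      exact (hA u hu χ₀).mul ((hA u hu χ₀).conj hpr hroot)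
    · refine Finset.prod_congr rfl fun u hu => ?_
      rw [dif_pos hu]
      exact hAk u hu k hk χ₀ χ₀
  have hfc : ∀ k, ¬ p ∣ k → f k = f 1 := by
    intro k hk
    have hbij := (powCoprime (coprime_card hψ hk))
    simp only [hf, pow_one]
    refine Finset.prod_nbij (fun u : P => u ^ k) ?_ ?_ ?_ ?_
    · intro u hu
      simp only [hN, Finset.mem_filter, Finset.mem_univ, true_and] at hu ⊢
      rw [Subgroup.coe_pow, pow_mem_center_iff hψ u.2 hk]
      exact hu
    · intro a _ b _ hab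
      exact (powCoprime (coprime_card hψ hk)).injective hab
    · intro b hb
      obtain ⟨a, ha⟩ := (powCoprime (coprime_card hψ hk)).surjective b
      have ha' : a ^ k = b := ha
      refine ⟨a, ?_, ha'⟩
      simp only [hN, Finset.coe_filter, Finset.mem_univ, true_and, Set.mem_ofPred_eq] at hb ⊢
      intro hc
      apply hb
      rw [← ha', Subgroup.coe_pow]
      exact Subgroup.pow_mem _ hc k
    · intro u _
      rw [Subgroup.coe_pow]
  obtain ⟨n, hn⟩ := hfG.exists_int hpr hroot hfc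
  have hprod : (∏ u ∈ N, x u : ℝ) = (n : ℝ) := by
    apply Complex.ofReal_injective
    push_cast
    rw [← hn]
    simp only [hf, pow_one]
    exact Finset.prod_congr rfl fun u hu => (hval u hu).symm
  have hprod1 : (1 : ℝ) ≤ ∏ u ∈ N, x u := by
    have hpos := Finset.prod_pos hxpos
    rw [hprod] at hpos ⊢
    exact_mod_cast Int.add_one_le_iff.2 (Int.cast_pos.1 hpos)
  obtain ⟨a, ha⟩ := exists_int_blockMat hM hB hχ₀ χ₀
  have ha0 : a ≠ 0 := ((intMat_divisibility hM hB hχ₀ hχ₀ ha).2.1 h0).1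
  obtain ⟨r, hr, hre⟩ := blockMat_self_nonneg (p := p) B χ₀
  have har : (a : ℝ) = r := by
    apply Complex.ofReal_injective
    push_cast
    rw [← ha, hre]
  have ha1 : (1 : ℝ) ≤ a := by
    have : (0 : ℤ) ≤ a := by exact_mod_cast har ▸ hr
    exact_mod_cast (show (1 : ℤ) ≤ a by omega)
  set Z := Finset.univ.filter (fun u : P => (u : G) ∈ Subgroup.center G) with hZ
  have hZc : ∀ u ∈ Z, subInner hψ.1.1 (u : G) (χ₀ : G → ℂ) (χ₀ : G → ℂ) = (a : ℂ) := by
    intro u hu
    rw [subInner_central hψ u.2 (Finset.mem_filter.1 hu).2 hχ₀ hχ₀,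
      centVal_mul_conj _ (Finset.mem_filter.1 hu).2, one_mul, ha]
  have hexp := card_mul_classInner_nilpotent hψ hnil hχ₀ hχ₀
  rw [irr_inner_self χ₀.2, mul_one,
    sum_filter_mem_eq,
    ← Finset.sum_filter_add_sum_filter_not Finset.univ
      (fun u : P => (u : G) ∈ Subgroup.center G),
    Finset.sum_congr rfl hZc, Finset.sum_congr rfl hval, Finset.sum_const, nsmul_eq_mul] at hexp
  have hexpR : (Nat.card P : ℝ) = (Z.card : ℝ) * a + ∑ u ∈ N, x u := by
    apply Complex.ofReal_injective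
    push_cast
    exact hexp
  have hcard : (Nat.card P : ℝ) = (Z.card : ℝ) + N.card := by
    rw [← Nat.cast_add, hZ, hN, Finset.card_filter_add_card_filter_not, Finset.card_univ,
      Nat.card_eq_fintype_card]
  have hZpos : (0 : ℝ) < Z.card := by
    exact_mod_cast Finset.card_pos.2 ⟨1, by simp [hZ]⟩
  have hall := eq_one_of_prod_ge_one N x hxpos hprod1 (by nlinarith)
  have hsum : ∑ u ∈ N, x u = N.card := by
    rw [Finset.sum_congr rfl hall]; simp
  have hA1 : (a : ℝ) = 1 := by nlinarith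
  have ha' : a = 1 := by exact_mod_cast hA1
  have hblock : blockMat p B χ₀ χ₀ = 1 := by rw [ha, ha']; simp
  refine ⟨hblock, fun u hu => ?_⟩
  by_cases huc : u ∈ Subgroup.center G
  · rw [hZc ⟨u, hu⟩ (by simp [hZ, huc]), ha']; simp
  · rw [hval ⟨u, hu⟩ (by simp [hN, huc]), hall ⟨u, hu⟩ (by simp [hN, huc])]; simp

include hψ hnil ih hχ₀ h0 in
/-- Off the centre the contributions factor through `χ₀`. -/
theorem nil_factor {u : G} (hu : u ∈ P) (huc : u ∉ Subgroup.center G) :
    (∀ ξ η : IrrCharacter G, subInner hψ.1.1 u (ξ : G → ℂ) (η : G → ℂ) =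
      subInner hψ.1.1 u (ξ : G → ℂ) (χ₀ : G → ℂ) *
        conj (subInner hψ.1.1 u (η : G → ℂ) (χ₀ : G → ℂ))) ∧
    ∀ i ∈ grpRing hM G, i * i = i → (∀ t ∈ P, ∀ g, i (t * g * t⁻¹) 1 = i g 1) →
      (∀ (Q : Subgroup G) (φ : G → ResField M), Chain hM (Q, φ) (P, ψ) →
        gconv φ (trc Q (redCol hM i)) = trc Q (redCol hM i)) →
      ∀ χ : IrrCharacter G, matVal hM (χ : G → ℂ) i u =
        subInner hψ.1.1 u (χ : G → ℂ) (χ₀ : G → ℂ) * matVal hM (χ₀ : G → ℂ) i u := by
  have hζ := Complex.isPrimitiveRoot_exp (Nat.card P) Nat.card_pos.ne'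
  obtain ⟨A, -, hAk, hAm⟩ := exists_subDec hψ hnil ih hζ hu huc
  have hk := fun ξ η => hAk 1 hM.1.not_dvd_one ξ η
  simp only [pow_one] at hk
  have h1 := (nil_unit hψ hnil ih hχ₀ h0).2 u hu
  rw [hk] at h1
  refine ⟨fun ξ η => ?_, fun i hi hii hiP hib χ => ?_⟩
  · rw [hk ξ η, hk ξ χ₀, hk η χ₀, map_mul, Complex.conj_conj]
    linear_combination (-(A ξ 1 * conj (A η 1))) * h1
  · obtain ⟨m, hm⟩ := hAm i hi hii hiP hib
    rw [hm χ, hm χ₀, hk χ χ₀]
    linear_combination (-(A χ 1 * m)) * h1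

include hψ hnil ih in
/-- `|P|` times a multiplicity is a rational integer. -/
theorem nil_int {ξ : IrrCharacter G} (hξ : ξ ∈ B) (hχ : χ₀ ∈ B) (φ : IrrCharacter P) :
    ∃ n : ℤ, (Nat.card P : ℂ) * classInner (nilFn hψ.1.1 χ₀ ξ) (φ : P → ℂ) = n := by
  have hpr : p.Prime := hM.1
  have hζ := Complex.isPrimitiveRoot_exp (Nat.card P) Nat.card_pos.ne'
  set ζ₀ := Complex.exp (2 * Real.pi * Complex.I / (Nat.card P : ℕ))
  have hroot : ζ₀ ^ p ^ blockDefect p B = 1 := by
    rw [← card_P_eq hψ]; exact hζ.pow_eq_one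
  set f : ℕ → ℂ := fun k => ∑ u : P, nilFn hψ.1.1 χ₀ ξ (u ^ k) * conj ((φ : P → ℂ) (u ^ k))
    with hf
  have hG : GalVal p ζ₀ f := by
    refine galVal_sum _ (fun (u : P) k => nilFn hψ.1.1 χ₀ ξ (u ^ k) * conj ((φ : P → ℂ) (u ^ k)))
      fun u _ => ?_
    refine GalVal.mul ?_ ((galVal_char φ.2.isCharacter' Nat.card_pos hζ pow_card_eq_one').conj
      hpr hroot)
    obtain ⟨a, ha⟩ := exists_int_blockMat hM hψ.1.2.1 hξ χ₀
    by_cases huc : (u : G) ∈ Subgroup.center G
    · have hr : ∀ χ : IrrCharacter G, centVal χ (u : G) ^ Nat.card P = 1 := fun χ => by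
        rw [← centVal_pow χ huc, pow_card_coe u.2, centVal_one]
      refine GalVal.congr (((galVal_of_root Nat.card_pos hζ (hr ξ)).mul
        ((galVal_of_root Nat.card_pos hζ (hr χ₀)).conj hpr hroot)).mul (galVal_const a))
        fun k hk => ?_
      show subInner _ ((u ^ k : P) : G) _ _ = _
      rw [Subgroup.coe_pow, subInner_central hψ (Subgroup.pow_mem _ u.2 k)
        (Subgroup.pow_mem _ huc k) hξ hχ, centVal_pow ξ huc, centVal_pow χ₀ huc, ha]
    · obtain ⟨A, hA, hAk, -⟩ := exists_subDec hψ hnil ih hζ u.2 huc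
      refine GalVal.congr ((hA ξ).mul ((hA χ₀).conj hpr hroot)) fun k hk => ?_
      show subInner _ ((u ^ k : P) : G) _ _ = _
      rw [Subgroup.coe_pow]
      exact hAk k hk ξ χ₀
  have hc : ∀ k, ¬ p ∣ k → f k = f 1 := fun k hk => by
    simp only [hf, pow_one]
    exact Equiv.sum_comp (powCoprime (coprime_card hψ hk))
      (fun u : P => nilFn hψ.1.1 χ₀ ξ u * conj ((φ : P → ℂ) u))
  obtain ⟨n, hn⟩ := hG.exists_int hpr hroot hc
  refine ⟨n, ?_⟩
  rw [← hn, classInner, ← mul_assoc, mul_inv_cancel₀ (natCard_ne_zero _), one_mul]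
  simp only [hf, pow_one]

include hψ in
theorem exists_int_of_mem {c : ℂ} {n : ℤ} (hn : (Nat.card P : ℂ) * c = n) (hc : c ∈ locRing hM) :
    ∃ m : ℤ, c = m := by
  have e : (n : ℂ) / (Nat.card P : ℂ) = c := by
    rw [← hn, mul_div_cancel_left₀ _ (natCard_ne_zero P)]
  have h := pow_factorization_dvd_of_div_mem hM (d := Nat.card P) Nat.card_pos.ne' (e ▸ hc)
  rw [card_P_eq hψ, hM.1.factorization_pow, Finsupp.single_eq_same, ← card_P_eq hψ] at h
  obtain ⟨m, rfl⟩ := h
  refine ⟨m, ?_⟩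
  rw [← e]
  push_cast
  rw [mul_div_cancel_left₀ _ (natCard_ne_zero P)]

include hψ hnil ih hχ₀ h0 in
/-- The ratio of the values on a source idempotent. -/
theorem nil_ratio {ξ : IrrCharacter G} :
    ∃ (i : Matrix G G (locRing hM)) (r : P → ℂ), i ∈ grpRing hM G ∧ i * i = i ∧
      r ∈ goodRing (G := P) hM ∧ matVal hM (χ₀ : G → ℂ) i 1 ≠ 0 ∧
      ∀ u : P, ((u : G) ∉ Subgroup.center G → r u = nilFn hψ.1.1 χ₀ ξ u) ∧
        ((u : G) ∈ Subgroup.center G → r u = centVal ξ u * conj (centVal χ₀ u) *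
          (matVal hM (ξ : G → ℂ) i 1 / matVal hM (χ₀ : G → ℂ) i 1)) := by
  obtain ⟨i, hi, hii, hiP, hib, hne⟩ := exists_source hψ hχ₀ h0
  have hgood : ∀ χ : IrrCharacter G, (fun u : P => matVal hM (χ : G → ℂ) i u) ∈ goodRing hM := by
    intro χ
    have hS : Polynomial.aeval i (((({0, 1} : Multiset (locRing hM))).map
        fun μ => Polynomial.X - Polynomial.C μ).prod) = 0 := by
      simp [mul_sub, hii]
    obtain ⟨T, φ, hT, hφ, he⟩ := exists_matVal_decomp hM P χ.2.isCharacter' hi hiP hS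
    have e : (fun u : P => matVal hM (χ : G → ℂ) i u) = ∑ z ∈ T, z • φ z := by
      funext u
      rw [he u]
      simp [Finset.sum_apply]
    rw [e]
    refine sum_mem fun z hz => smul_mem_goodRing hM (isCharacter_mem_goodRing hM (hφ z hz)) ?_
    obtain ⟨μ, -, rfl⟩ := hT z hz
    exact μ.2
  have hunit : ∀ u : P, ¬ MemLocalIdeal M (matVal hM (χ₀ : G → ℂ) i u) := fun u hu => hne (by
    rw [← res_matVal_source hψ.1.1.1 χ₀ hi hii hiP u.2, res_eq_zero_iff]
    exact hu)
  obtain ⟨w, hw, hwf⟩ := exists_goodRing_inv hM (hgood χ₀) (fun u => matVal_mem hM χ₀ i u) hunit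
  have h00 : ∀ u : P, matVal hM (χ₀ : G → ℂ) i u ≠ 0 := fun u h => by
    have h2 := hwf u
    rw [h, mul_zero] at h2
    exact zero_ne_one h2
  refine ⟨i, fun u => matVal hM (ξ : G → ℂ) i u * w u, hi, hii, mul_mem (hgood ξ) hw,
    by simpa using h00 1, fun u => ⟨fun hu => ?_, fun hu => ?_⟩⟩
  · show matVal hM (ξ : G → ℂ) i u * w u = _
    rw [(nil_factor hψ hnil ih hχ₀ h0 u.2 hu).2 i hi hii hiP hib ξ, mul_assoc, mul_comm _ (w u),
      hwf u, mul_one]
    rfl
  · have hz : ∀ χ : IrrCharacter G,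
        matVal hM (χ : G → ℂ) i u = centVal χ u * matVal hM (χ : G → ℂ) i 1 := fun χ => by
      simp only [matVal, one_mul, (centVal_spec χ hu).2, Finset.mul_sum]
      exact Finset.sum_congr rfl fun g _ => by ring
    have h1 : w u * (centVal χ₀ u * matVal hM (χ₀ : G → ℂ) i 1) = 1 := by rw [← hz]; exact hwf u
    have h2 := centVal_mul_conj χ₀ hu
    have h3 : matVal hM (χ₀ : G → ℂ) i 1 ≠ 0 := by simpa using h00 1
    show matVal hM (ξ : G → ℂ) i u * w u = _
    rw [hz ξ]
    field_simp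
    linear_combination (centVal ξ u * matVal hM (ξ : G → ℂ) i 1 * conj (centVal χ₀ u)) * h1 -
      (centVal ξ u * matVal hM (ξ : G → ℂ) i 1 * w u * matVal hM (χ₀ : G → ℂ) i 1) * h2

include hψ hnil hχ₀ in
theorem nil_inner_one {ξ : IrrCharacter G} (hξ : ξ ∈ B) :
    classInner (nilFn hψ.1.1 χ₀ ξ) (1 : P → ℂ) = classInner (ξ : G → ℂ) (χ₀ : G → ℂ) := by
  have h := card_mul_classInner_nilpotent hψ hnil hξ hχ₀
  rw [sum_filter_mem_eq] at h
  refine mul_left_cancel₀ (natCard_ne_zero P) ?_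
  rw [h, classInner, ← mul_assoc, mul_inv_cancel₀ (natCard_ne_zero _), one_mul]
  simp [nilFn]

omit [Fact p.Prime] in
theorem sum_center_char (φ : IrrCharacter P) :
    ∃ n : ℕ, ∑ u ∈ Finset.univ.filter (fun u : P => (u : G) ∈ Subgroup.center G),
      conj ((φ : P → ℂ) u) =
        ((Finset.univ.filter (fun u : P => (u : G) ∈ Subgroup.center G)).card : ℂ) * n := by
  set ZP : Subgroup P := (Subgroup.center G).comap P.subtype with hZP
  obtain ⟨n, hn⟩ := inner_character_nat (isCharacter_restrict φ.2.isCharacter' ZP)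
    (isCharacter_one (G := ZP))
  refine ⟨n, ?_⟩
  rw [Finset.sum_subtype (p := (· ∈ ZP)) _ (fun u => by simp [hZP, Subgroup.mem_subgroupOf]),
    show ((Finset.univ.filter (fun u : P => (u : G) ∈ Subgroup.center G)).card : ℂ) = Nat.card ZP by
      rw [Nat.card_eq_fintype_card, Fintype.card_subtype]
      simp [hZP, Subgroup.mem_subgroupOf]]
  have h2 := congrArg conj hn
  simp only [classInner, map_mul, map_inv₀, Complex.conj_natCast, map_sum, map_one, mul_one] at h2
  rw [← h2, ← mul_assoc, mul_inv_cancel₀ (natCard_ne_zero _), one_mul]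

include hψ hnil ih hχ₀ h0 in
/-- If the central values agree, the multiplicities are integral. -/
theorem nil_mem_of_central {ξ : IrrCharacter G} (hξ : ξ ∈ B)
    (hc : ∀ z ∈ P, z ∈ Subgroup.center G → centVal ξ z = centVal χ₀ z) (φ : IrrCharacter P) :
    classInner (nilFn hψ.1.1 χ₀ ξ) (φ : P → ℂ) ∈ locRing hM := by
  obtain ⟨i, r, -, -, hr, -, hru⟩ := nil_ratio hψ hnil ih hχ₀ h0 (ξ := ξ)
  set v := matVal hM (ξ : G → ℂ) i 1 / matVal hM (χ₀ : G → ℂ) i 1
  set Z := Finset.univ.filter (fun u : P => (u : G) ∈ Subgroup.center G) with hZ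
  set a := blockMat p B ξ χ₀ with ha
  have hdiff : ∀ u : P, nilFn hψ.1.1 χ₀ ξ u = r u + (if u ∈ Z then a - v else 0) := by
    intro u
    by_cases hu : (u : G) ∈ Subgroup.center G
    · rw [if_pos (by simp [hZ, hu]), (hru u).2 hu, nilFn, subInner_central hψ u.2 hu hξ hχ₀,
        hc u u.2 hu, centVal_mul_conj χ₀ hu, ha]
      ring
    · rw [if_neg (by simp [hZ, hu]), (hru u).1 hu, add_zero]
  have hin : ∀ θ : P → ℂ, classInner (nilFn hψ.1.1 χ₀ ξ) θ = classInner r θ +
      (Nat.card P : ℂ)⁻¹ * ((a - v) * ∑ u ∈ Z, conj (θ u)) := by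
    intro θ
    simp only [classInner, ← mul_add]
    congr 1
    rw [Finset.mul_sum, ← Finset.sum_filter_add_sum_filter_not Finset.univ (· ∈ Z)
      (fun u => nilFn hψ.1.1 χ₀ ξ u * conj (θ u))]
    rw [show Finset.univ.filter (· ∈ Z) = Z by ext; simp,
      ← Finset.sum_filter_add_sum_filter_not Finset.univ (· ∈ Z) (fun u => r u * conj (θ u)),
      show Finset.univ.filter (· ∈ Z) = Z by ext; simp]
    rw [add_right_comm, ← Finset.sum_add_distrib]
    congr 1
    · refine Finset.sum_congr rfl fun u hu => ?_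
      rw [hdiff u, if_pos hu]
      ring
    · refine Finset.sum_congr rfl fun u hu => ?_
      rw [hdiff u, if_neg (Finset.mem_filter.1 hu).2, add_zero]
  have h1 := hin 1
  rw [nil_inner_one hψ hnil hχ₀ hξ] at h1
  have hkey : (Nat.card P : ℂ)⁻¹ * ((a - v) * (Z.card : ℂ)) ∈ locRing hM := by
    have e : (Nat.card P : ℂ)⁻¹ * ((a - v) * (Z.card : ℂ)) =
        classInner (ξ : G → ℂ) (χ₀ : G → ℂ) - classInner r (1 : P → ℂ) := by
      rw [h1]
      simp
    rw [e]
    refine sub_mem ?_ (hr.2 (trivIrr P))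
    rw [irr_classInner]
    split <;> simp [one_mem, zero_mem]
  obtain ⟨n, hn⟩ := sum_center_char (G := G) φ
  rw [hin, hn, show (Nat.card P : ℂ)⁻¹ * ((a - v) * ((Z.card : ℂ) * (n : ℂ))) =
    (Nat.card P : ℂ)⁻¹ * ((a - v) * (Z.card : ℂ)) * (n : ℂ) by ring]
  exact add_mem (hr.2 φ) (mul_mem hkey (natCast_mem _ n))

include hψ hnil ih hχ₀ h0 in
/-- Parseval for the multiplicities. -/
theorem nil_parseval {ξ : IrrCharacter G} (hξ : ξ ∈ B) (c : IrrCharacter P → ℤ)
    (hc : ∀ φ : IrrCharacter P, classInner (nilFn hψ.1.1 χ₀ ξ) (φ : P → ℂ) = c φ) {a b : ℤ}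
    (ha : blockMat p B ξ χ₀ = a) (hb : blockMat p B ξ ξ = b) :
    (Nat.card P : ℤ) * ∑ φ : IrrCharacter P, c φ ^ 2 = Nat.card P -
      (Finset.univ.filter (fun u : P => (u : G) ∈ Subgroup.center G)).card * (b - a ^ 2) := by
  set Z := Finset.univ.filter (fun u : P => (u : G) ∈ Subgroup.center G) with hZ
  have h1 : classInner (nilFn hψ.1.1 χ₀ ξ) (nilFn hψ.1.1 χ₀ ξ) =
      ((∑ φ : IrrCharacter P, c φ ^ 2 : ℤ) : ℂ) := by
    rw [inner_eq_sum_coeff _ _ (nilFn_classFunction hψ.1.1 χ₀ ξ)]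
    push_cast
    refine Finset.sum_congr rfl fun φ _ => ?_
    rw [hc φ, map_intCast]
    ring
  have hexp := card_mul_classInner_nilpotent hψ hnil hξ hξ
  rw [irr_inner_self ξ.2, mul_one,
    sum_filter_mem_eq] at hexp
  have hpt : ∀ u : P, subInner hψ.1.1 (u : G) (ξ : G → ℂ) (ξ : G → ℂ) -
      nilFn hψ.1.1 χ₀ ξ u * conj (nilFn hψ.1.1 χ₀ ξ u) =
        if u ∈ Z then ((b : ℂ) - (a : ℂ) ^ 2) else 0 := by
    intro u
    by_cases hu : (u : G) ∈ Subgroup.center G
    · rw [if_pos (by simp [hZ, hu]), nilFn, subInner_central hψ u.2 hu hξ hξ,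
        subInner_central hψ u.2 hu hξ hχ₀, ha, hb, map_mul, map_mul, Complex.conj_conj,
        map_intCast, centVal_mul_conj ξ hu]
      linear_combination (-((a : ℂ) ^ 2) * centVal χ₀ u * conj (centVal χ₀ u)) *
        centVal_mul_conj ξ hu - (a : ℂ) ^ 2 * centVal_mul_conj χ₀ hu
    · rw [if_neg (by simp [hZ, hu]), (nil_factor hψ hnil ih hχ₀ h0 u.2 hu).1 ξ ξ]
      exact sub_self _
  have hsum := Finset.sum_congr rfl fun (u : P) (_ : u ∈ Finset.univ) => hpt u
  rw [Finset.sum_sub_distrib, ← hexp, Finset.sum_ite_mem, Finset.univ_inter, Finset.sum_const,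
    nsmul_eq_mul] at hsum
  have hg : ∑ u : P, nilFn hψ.1.1 χ₀ ξ u * conj (nilFn hψ.1.1 χ₀ ξ u) =
      (Nat.card P : ℂ) * ((∑ φ : IrrCharacter P, c φ ^ 2 : ℤ) : ℂ) := by
    rw [← h1, classInner, ← mul_assoc, mul_inv_cancel₀ (natCard_ne_zero _), one_mul]
  rw [hg] at hsum
  have : (((Nat.card P : ℤ) * ∑ φ : IrrCharacter P, c φ ^ 2 : ℤ) : ℂ) =
      ((Nat.card P - (Z.card : ℤ) * (b - a ^ 2) : ℤ) : ℂ) := by
    push_cast at hsum ⊢
    linear_combination -hsum
  exact_mod_cast this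

include hψ hnil ih hχ₀ h0 in
/-- Step 2: proportionality when the central values agree. -/
theorem nil_prop_of_central {ξ : IrrCharacter G} (hξ : ξ ∈ B)
    (hc : ∀ z ∈ P, z ∈ Subgroup.center G → centVal ξ z = centVal χ₀ z) :
    regPart p (ξ : G → ℂ) = blockMat p B ξ χ₀ • regPart p (χ₀ : G → ℂ) := by
  have hB : IsPBlock M B := hψ.1.2.1
  have hint : ∀ φ : IrrCharacter P, ∃ m : ℤ, classInner (nilFn hψ.1.1 χ₀ ξ) (φ : P → ℂ) = m :=
    fun φ => by
      obtain ⟨n, hn⟩ := nil_int hψ hnil ih hξ hχ₀ φ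
      exact exists_int_of_mem hψ hn (nil_mem_of_central hψ hnil ih hχ₀ h0 hξ hc φ)
  choose c hcφ using hint
  obtain ⟨a, ha⟩ := exists_int_blockMat hM hB hξ χ₀
  obtain ⟨b, hb⟩ := exists_int_blockMat hM hB hξ ξ
  have hpar := nil_parseval hψ hnil ih hχ₀ h0 hξ c hcφ ha hb
  obtain ⟨h00, -⟩ := nil_unit hψ hnil ih hχ₀ h0
  have ha0 : a ≠ 0 := by
    have h := ((intMat_divisibility hM hB hχ₀ hξ
      (n := a) (by rw [(blockMat_real hM hB hξ χ₀).2, ha])).2.1 h0).1
    exact h
  have hpos : 1 ≤ ∑ φ : IrrCharacter P, c φ ^ 2 := by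
    by_contra hlt
    have hz : ∀ φ, c φ = 0 := fun φ => by
      have h2 : c φ ^ 2 ≤ ∑ φ : IrrCharacter P, c φ ^ 2 :=
        Finset.single_le_sum (fun φ _ => sq_nonneg (c φ)) (Finset.mem_univ φ)
      have h3 : c φ ^ 2 = 0 := by nlinarith [sq_nonneg (c φ)]
      exact pow_eq_zero_iff two_ne_zero |>.1 h3
    have h4 : nilFn hψ.1.1 χ₀ ξ = 0 := by
      rw [classFunction_eq_sum _ (nilFn_classFunction hψ.1.1 χ₀ ξ)]
      refine Finset.sum_eq_zero fun φ _ => ?_
      rw [hcφ φ, hz φ]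
      simp
    have h5 := congrFun h4 1
    rw [Pi.zero_apply, nilFn, OneMemClass.coe_one,
      subInner_central hψ P.one_mem (Subgroup.one_mem _) hξ hχ₀, centVal_one, centVal_one, ha] at h5
    simp at h5
    exact ha0 h5
  set x : G → ℂ := regPart p (ξ : G → ℂ) - (a : ℂ) • regPart p (χ₀ : G → ℂ) with hx
  have hR : ∀ s t : IrrCharacter G, (p : ℂ) ^ blockDefect p B *
      classInner (regPart p (s : G → ℂ)) (regPart p (t : G → ℂ)) = blockMat p B s t := fun s t => by
    rw [regPart_inner_self, blockMat, CfsgLib.Char.inner_smul_left]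
  have hxx : (p : ℂ) ^ blockDefect p B * classInner x x = (b : ℂ) - (a : ℂ) ^ 2 := by
    simp only [hx, CfsgLib.Char.inner_sub_left, CfsgLib.Char.inner_sub_right, CfsgLib.Char.inner_smul_left,
      CfsgLib.Char.inner_smul_right, map_intCast]
    linear_combination hR ξ ξ - (a : ℂ) * hR ξ χ₀ - (a : ℂ) * hR χ₀ ξ + (a : ℂ) ^ 2 * hR χ₀ χ₀ +
      hb - (2 * (a : ℂ)) * ha - (a : ℂ) * ((blockMat_real hM hB hξ χ₀).2) + (a : ℂ) ^ 2 * h00
  have hD : 0 ≤ b - a ^ 2 := by
    rw [CfsgLib.Char.inner_self_eq_norm_sq] at hxx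
    have e : ((b - a ^ 2 : ℤ) : ℝ) = (p : ℝ) ^ blockDefect p B *
        ((Nat.card G : ℝ)⁻¹ * ∑ g, ‖x g‖ ^ 2) := by
      apply Complex.ofReal_injective
      push_cast at hxx ⊢
      exact hxx.symm
    have : (0 : ℝ) ≤ ((b - a ^ 2 : ℤ) : ℝ) := by rw [e]; positivity
    exact_mod_cast this
  have hZpos : 0 < ((Finset.univ.filter
      (fun u : P => (u : G) ∈ Subgroup.center G)).card : ℤ) := by
    exact_mod_cast Finset.card_pos.2 ⟨1, by simp⟩
  have hPpos : 0 < (Nat.card P : ℤ) := by exact_mod_cast Nat.card_pos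
  have hD0 : b - a ^ 2 = 0 := by nlinarith
  have hx0 : x = 0 := by
    rw [← CfsgLib.Char.inner_self_eq_zero]
    have e : ((b : ℂ) - (a : ℂ) ^ 2) = 0 := by exact_mod_cast congrArg (Int.cast : ℤ → ℂ) hD0
    rw [e] at hxx
    exact (mul_eq_zero.1 hxx).resolve_left (pow_ne_zero _ (Nat.cast_ne_zero.2 hM.1.ne_zero))
  rw [ha, ← sub_eq_zero]
  exact hx0

include hψ hnil ih hχ₀ h0 in
/-- Step 3: proportionality of all regular parts. -/
theorem nil_prop {ξ : IrrCharacter G} (hξ : ξ ∈ B) :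
    regPart p (ξ : G → ℂ) = blockMat p B ξ χ₀ • regPart p (χ₀ : G → ℂ) := by
  have hB : IsPBlock M B := hψ.1.2.1
  have hpr : p.Prime := hM.1
  set Z := Finset.univ.filter (fun z : G => z ∈ P ∧ z ∈ Subgroup.center G) with hZ
  have hZc : ∀ z ∈ Z, z ∈ Subgroup.center G := fun z hz => (Finset.mem_filter.1 hz).2.2
  set Θ : G → ℂ := fun g => ∑ z ∈ Z,
    if ¬ p ∣ orderOf (z⁻¹ * g) then centVal χ₀ z * (ξ : G → ℂ) (z⁻¹ * g) else 0 with hΘ
  have hΘc : IsClassFunction G Θ := fun g x => by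
    refine Finset.sum_congr rfl fun z hz => ?_
    have e : z⁻¹ * (x * g * x⁻¹) = x * (z⁻¹ * g) * x⁻¹ := by
      have hc := Subgroup.mem_center_iff.1 (Subgroup.inv_mem _ (hZc z hz)) x
      calc z⁻¹ * (x * g * x⁻¹) = z⁻¹ * x * g * x⁻¹ := by group
        _ = x * z⁻¹ * g * x⁻¹ := by rw [hc]
        _ = x * (z⁻¹ * g) * x⁻¹ := by group
    rw [e, orderOf_conj_eq, irr_classFunction ξ]
  set S : IrrCharacter G → ℂ := fun η => ∑ z ∈ Z, centVal χ₀ z * conj (centVal η z) with hS
  have hinner : ∀ η : IrrCharacter G, classInner Θ (η : G → ℂ) =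
      S η * classInner (regPart p (ξ : G → ℂ)) (η : G → ℂ) := by
    intro η
    rw [classInner_regPart, classInner]
    simp only [hΘ, hS, Finset.sum_mul, Finset.mul_sum]
    rw [Finset.sum_comm]
    conv_rhs => rw [Finset.sum_comm]
    refine Finset.sum_congr rfl fun z hz => ?_
    rw [Finset.sum_filter, ← Equiv.sum_comp (Equiv.mulLeft z)]
    refine Finset.sum_congr rfl fun y _ => ?_
    simp only [Equiv.coe_mulLeft, inv_mul_cancel_left]
    rw [(centVal_spec η (hZc z hz)).2, map_mul]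
    split_ifs <;> ring
  have hSz : ∀ η : IrrCharacter G, S η ≠ 0 →
      ∀ z ∈ P, z ∈ Subgroup.center G → centVal η z = centVal χ₀ z := by
    intro η hne z hzP hzc
    by_contra hd
    set μ := centVal χ₀ z * conj (centVal η z) with hμ
    have hμ1 : μ ≠ 1 := fun h => hd (by
      linear_combination (centVal χ₀ z) * centVal_mul_conj η hzc - centVal η z * h)
    apply hne
    have hshift : S η = μ * S η := by
      simp only [hS, Finset.mul_sum]
      refine (Finset.sum_bij' (fun w _ => z * w) (fun w _ => z⁻¹ * w) ?_ ?_ ?_ ?_ ?_).symm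
      · intro w hw
        simp only [hZ, Finset.mem_filter, Finset.mem_univ, true_and] at hw ⊢
        exact ⟨P.mul_mem hzP hw.1, Subgroup.mul_mem _ hzc hw.2⟩
      · intro w hw
        simp only [hZ, Finset.mem_filter, Finset.mem_univ, true_and] at hw ⊢
        exact ⟨P.mul_mem (P.inv_mem hzP) hw.1,
          Subgroup.mul_mem _ (Subgroup.inv_mem _ hzc) hw.2⟩
      · intro w _
        show z⁻¹ * (z * w) = w
        group
      · intro w _
        show z * (z⁻¹ * w) = w
        group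
      · intro w _
        rw [centVal_mul χ₀ hzc, centVal_mul η hzc, map_mul, hμ]
        ring
    have : (μ - 1) * S η = 0 := by linear_combination -hshift
    exact (mul_eq_zero.1 this).resolve_left (sub_ne_zero.2 hμ1)
  set C := ∑ η : IrrCharacter G,
    S η * classInner (regPart p (ξ : G → ℂ)) (η : G → ℂ) * blockMat p B η χ₀ with hC
  have hreg : regPart p (ξ : G → ℂ) = C • regPart p (χ₀ : G → ℂ) := by
    funext y
    by_cases hy : p ∣ orderOf y
    · simp [regPart, hy]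
    rw [Pi.smul_apply, smul_eq_mul, regPart_apply_regular hy, regPart_apply_regular hy]
    have hval : Θ y = (ξ : G → ℂ) y := by
      simp only [hΘ]
      rw [Finset.sum_eq_single 1]
      · simp [centVal_one, hy]
      · intro z hz hz1
        rw [if_neg]
        intro hr
        apply hz1
        obtain ⟨hzP, hzc⟩ := (Finset.mem_filter.1 hz).2
        obtain ⟨j, hj⟩ := IsPGroup.iff_orderOf.1 hψ.1.1.1 ⟨z, hzP⟩
        rw [← Subgroup.orderOf_coe] at hj
        have hcomm : Commute z⁻¹ y :=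
          (Subgroup.mem_center_iff.1 (Subgroup.inv_mem _ hzc) y).symm
        have h3 : z⁻¹ ^ (orderOf (z⁻¹ * y) * orderOf y) = 1 := by
          have h4 : (z⁻¹ * y) ^ (orderOf (z⁻¹ * y) * orderOf y) = 1 := by
            rw [pow_mul, pow_orderOf_eq_one, one_pow]
          rwa [hcomm.mul_pow, mul_comm (orderOf (z⁻¹ * y)), pow_mul y, pow_orderOf_eq_one,
            one_pow, mul_one, mul_comm] at h4
        have h5 := orderOf_dvd_of_pow_eq_one h3
        rw [orderOf_inv, hj] at h5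
        have hcop : Nat.Coprime (p ^ j) (orderOf (z⁻¹ * y) * orderOf y) :=
          Nat.Coprime.pow_left _ ((hpr.coprime_iff_not_dvd.2 hr).mul_right
            (hpr.coprime_iff_not_dvd.2 hy))
        exact orderOf_eq_one_iff.1 (hj.trans (hcop.eq_one_of_dvd h5))
      · intro h
        exact absurd (Finset.mem_filter.2 ⟨Finset.mem_univ _, P.one_mem, Subgroup.one_mem _⟩) h
    rw [← hval, classFunction_eq_sum Θ hΘc, Finset.sum_apply, hC, Finset.sum_mul]
    refine Finset.sum_congr rfl fun η _ => ?_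
    rw [Pi.smul_apply, smul_eq_mul, hinner η]
    by_cases h1 : S η = 0
    · simp [h1]
    by_cases h2 : η ∈ B
    · rw [eq_mul_of_regPart_eq (nil_prop_of_central hψ hnil ih hχ₀ h0 h2 (hSz η h1)) hy]
      ring
    · rw [classInner_regPart_eq_zero hM (fun h => h2 ?_)]
      · ring
      · rw [isPBlock_eq_blockOf hM hB hξ]
        exact h
  have h00 := (nil_unit hψ hnil ih hχ₀ h0).1
  have e : blockMat p B ξ χ₀ = C := by
    have h1 : blockMat p B ξ χ₀ = C * blockMat p B χ₀ χ₀ := by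
      simp only [blockMat, CfsgLib.Char.inner_smul_left]
      rw [hreg, CfsgLib.Char.inner_smul_left]
      ring
    rw [h1, h00, mul_one]
  rw [e]
  exact hreg

end Main

/-- Every defect group carries a maximal pair. -/
theorem exists_maxPair_defectGroup [Fact p.Prime] (hM : IsPModular p M)
    {B : Set (IrrCharacter G)} (hB : IsPBlock M B) {D : Subgroup G}
    (hD : IsDefectGroup p M B D) : ∃ ψ, MaxPair hM B D ψ := by
  have hP := isPGroup_defectGroup hM hB hD
  obtain ⟨g, hg, hne⟩ := brauerNonzero_defectGroup hM hB hD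
  obtain ⟨hts, hti, htt⟩ := trc_props hM hP (invBy_gFn hM B D) (invBy_gFn hM B _) (gFn_mul_self hB)
  have ht0 : trc D (gFn hM B) ≠ 0 := fun h => hne (by
    have h2 := congrFun h g
    rwa [trc, if_pos hg, gFn_block hM hB] at h2)
  obtain ⟨β, hβ, he⟩ := exists_occ hts hti htt ht0
  exact ⟨β, maxPair_of_defectGroup ⟨⟨hP, hβ⟩, hB, he⟩ hD⟩

/-- **The regular parts of a nilpotent block are integral multiples of one of them.** -/
theorem nilData (hM : IsPModular p M) : ∀ (n : ℕ) {G : Type u} [Group G] [Fintype G],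
    Nat.card G ≤ n → ∀ B : Set (IrrCharacter G), IsNilpotentBlock p M B → NilData p B := by
  haveI : Fact p.Prime := ⟨hM.1⟩
  intro n
  induction n with
  | zero => intro G _ _ h; exact absurd h (by simp [Nat.card_pos.ne'])
  | succ n ih =>
    intro G _ _ hn B hnil
    have hB : IsPBlock M B := hnil.1
    obtain ⟨χ₀, hχ₀, h0⟩ := exists_height_zero hM hB
    obtain ⟨P, ψ, hψ⟩ : ∃ P ψ, MaxPair hM B P ψ := by
      obtain ⟨D, hD⟩ := exists_defectGroup hM hB
      exact ⟨D, exists_maxPair_defectGroup hM hB hD⟩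
    have ih' : ∀ H : Subgroup G, H ≠ ⊤ → ∀ f : Set (IrrCharacter H),
        IsNilpotentBlock p M f → NilData p f := by
      intro H hH f hf
      refine ih ?_ f hf
      have h1 : Nat.card H < Nat.card G := lt_of_le_of_ne (Subgroup.card_le_card_group H)
        fun he => hH ((Subgroup.card_eq_iff_eq_top H).1 he)
      omega
    refine ⟨χ₀, hχ₀, h0, (nil_unit hψ hnil ih' hχ₀ h0).1, fun ξ hξ => ?_⟩
    obtain ⟨a, ha⟩ := exists_int_blockMat hM hB hξ χ₀
    exact ⟨a, by rw [← ha]; exact nil_prop hψ hnil ih' hχ₀ h0 hξ⟩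

end CfsgLib.Block
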