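import Cfsg.Agent.Lib.BlockFirstMain
import Cfsg.Agent.Lib.CharMult
import Cfsg.Agent.Lib.BlockHeight
import Mathlib.LinearAlgebra.Matrix.Rank

/-!
# Counting blocks with a given normal defect group
-/

set_option autoImplicit false
set_option linter.style.haveILetI false
set_option linter.unusedSectionVars false
set_option linter.unusedFintypeInType false

namespace CfsgLib.Block

open Cfsg CfsgLib.Char
open scoped ComplexConjugate Classical

universe u

theorem rank_blocks_one {m : Type*} [Fintype m] {r q : ℕ} (e : m ≃ Fin r ⊕ Fin q) {K : Type*}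
    [Field K] :
    ((Matrix.fromBlocks 1 0 0 0 : Matrix (Fin r ⊕ Fin q) (Fin r ⊕ Fin q) K).submatrix e e).rank =
      Fintype.card {i : m // (e i).isLeft = true} := by
  rw [← Matrix.diagonal_one, ← Matrix.diagonal_zero, Matrix.fromBlocks_diagonal,
    Matrix.submatrix_diagonal_equiv, Matrix.rank_diagonal]
  refine Fintype.card_congr (Equiv.subtypeEquivRight fun i => ?_)
  rcases hi : e i with a | a <;> simp [hi]

theorem rank_unit_mul_unit {m : Type*} [Fintype m] {K : Type*} [Field K] (W B W' : Matrix m m K)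
    (h1 : IsUnit W) (h2 : IsUnit W') : (W * B * W').rank = B.rank := by
  rw [Matrix.rank_mul_eq_left_of_isUnit_det _ _ ((Matrix.isUnit_iff_isUnit_det _).1 h2),
    Matrix.rank_mul_eq_right_of_isUnit_det _ _ ((Matrix.isUnit_iff_isUnit_det _).1 h1)]

/-- The rank of a square matrix does not change under a homomorphism of fields. -/
theorem rank_map_field {m : Type*} [Fintype m] {F L : Type*} [Field F] [Field L] (f : F →+* L)
    (A : Matrix m m F) : (A.map f).rank = A.rank := by
  obtain ⟨V, U, e, hV, hU, h⟩ := Matrix.exists_rank_normal_form A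
  have h' : f.mapMatrix V * f.mapMatrix A * f.mapMatrix U =
      (Matrix.fromBlocks 1 0 0 0 :
        Matrix (Fin A.rank ⊕ Fin (Fintype.card m - A.rank)) (Fin A.rank ⊕ Fin (Fintype.card m - A.rank)) L).submatrix e e := by
    rw [← map_mul, ← map_mul, h, RingHom.mapMatrix_apply, ← Matrix.submatrix_map,
      Matrix.fromBlocks_map]
    simp
  have h1 := congrArg Matrix.rank h'
  rw [rank_blocks_one, rank_unit_mul_unit _ _ _ (hV.map f.mapMatrix) (hU.map f.mapMatrix),
    RingHom.mapMatrix_apply] at h1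
  have h2 := congrArg Matrix.rank h
  rw [rank_blocks_one, rank_unit_mul_unit _ _ _ hV hU] at h2
  rw [h1, ← h2]

variable {G : Type u} [Group G] [Fintype G] {p : ℕ} [Fact p.Prime] {M : Ideal AlgInt}

theorem res_natCast_div (hM : IsPModular p M) {n d : ℕ} (hd : d ∣ n) (h : (n : ℂ) / d ∈ locRing hM) :
    res hM ⟨(n : ℂ) / d, h⟩ = ((n / d : ℕ) : ResField M) := by
  rw [← map_natCast (res hM) (n / d)]
  refine congrArg _ (Subtype.ext ?_)
  rcases Nat.eq_zero_or_pos d with h0 | h0
  · subst h0
    simp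
  · rw [SubringClass.coe_natCast, Nat.cast_div hd (Nat.cast_ne_zero.2 h0.ne')]

/-- The class sum only depends on the class. -/
theorem cl_congr (hM : IsPModular p M) {g h : G} (hc : IsConj g h) : cl hM g = cl hM h := by
  refine intRing_ext fun x => ?_
  rw [coef_cl, coef_cl]
  simp only [classInd, Set.mem_ofPred_eq]
  exact if_congr ⟨fun e => hc.symm.trans e, fun e => hc.trans e⟩ rfl rfl

variable (hM : IsPModular p M) (D : Subgroup G) [D.Normal] (hD : IsPGroup p D) (S : Sylow p G)

include hM hD S in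
/-- The number of blocks with a given normal defect group is the rank of a matrix of class data. -/
theorem card_blocks_normal_defect {ι : Type*} [Fintype ι] (K : ι → ConjClasses G)
    (hKinj : Function.Injective K)
    (hK : ∀ C : ConjClasses G, (∃ i, K i = C) ↔ ∃ x ∈ C.carrier, ¬ p ∣ orderOf x ∧
      ∃ Q : Sylow p (Subgroup.centralizer ({x} : Set G)),
        (Q : Subgroup (Subgroup.centralizer ({x} : Set G))).map
          (Subgroup.centralizer ({x} : Set G)).subtype = D) :
    Nat.card {B : Set (IrrCharacter G) // IsPBlock M B ∧ IsDefectGroup p M B D} =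
      (Matrix.of fun i j : ι => ((Nat.card {yz : G × G // yz.1 ∈ (K i).carrier ∧
        yz.2 ∈ (K j).carrier ∧ yz.2 * yz.1⁻¹ ∈ (S : Subgroup G)} /
          p ^ ((Nat.card G).factorization p - (Nat.card D).factorization p) : ℕ) : ZMod p)).rank := by
  have hp := (Fact.out : p.Prime)
  haveI := charP_resField hM
  haveI := nontrivial_resField hM
  letI : Field (ResField M) := @Ideal.Quotient.field _ _ M hM.2.1
  set a := (Nat.card G).factorization p with ha
  set d := (Nat.card D).factorization p with hd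
  have hDcard : Nat.card D = p ^ d := by
    obtain ⟨k, hk⟩ := IsPGroup.iff_card.1 hD
    rw [hd, hk, hp.factorization_pow, Finsupp.single_eq_same]
  -- the classes
  set x : ι → G := fun i => Quotient.out (K i) with hx
  have hxK : ∀ i, ConjClasses.mk (x i) = K i := fun i => Quotient.out_eq (K i)
  have hcond : ∀ g : G, (∃ i, K i = ConjClasses.mk g) ↔ ¬ p ∣ orderOf g ∧
      D ≤ Subgroup.centralizer ({g} : Set G) ∧ classDefect p g = d := by
    intro g
    rw [hK]
    constructor
    · rintro ⟨y, hy, hyreg, Q, hQ⟩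
      rw [ConjClasses.mem_carrier_iff_mk_eq, ConjClasses.mk_eq_mk_iff_isConj] at hy
      obtain ⟨t, rfl⟩ := isConj_iff.1 hy
      refine ⟨by rwa [orderOf_conj_eq], ?_, ?_⟩
      · intro k hk
        have hk' : t⁻¹ * k * t ∈ D := ‹D.Normal›.conj_mem' k hk t
        rw [← hQ] at hk'
        obtain ⟨q, -, hq⟩ := hk'
        have hc := Subgroup.mem_centralizer_singleton_iff.1 q.2
        rw [Subgroup.subtype_apply] at hq
        rw [hq] at hc
        rw [Subgroup.mem_centralizer_singleton_iff]
        calc k * (t * y * t⁻¹) = t * (t⁻¹ * k * t * y) * t⁻¹ := by group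
          _ = t * y * t⁻¹ * k := by rw [hc]; group
      · have h1 : Nat.card (Q : Subgroup (Subgroup.centralizer ({y} : Set G))) = Nat.card D := by
          rw [← hQ, Subgroup.card_map_of_injective (Subgroup.subtype_injective _)]
        rw [Q.card_eq_multiplicity, hDcard] at h1
        have h2 := Nat.pow_right_injective hp.two_le h1
        rw [classDefect, ← h2]
        refine congrArg (fun n => n.factorization p) (Nat.card_congr
          (?_ : Subgroup.centralizer ({y} : Set G) ≃ Subgroup.centralizer ({t * y * t⁻¹} : Set G))).symm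
        exact (MulAut.conj t).toEquiv.subtypeEquiv fun z => by
            simp only [Subgroup.mem_centralizer_singleton_iff, MulEquiv.toEquiv_eq_coe,
              EquivLike.coe_coe, MulAut.conj_apply]
            constructor
            · intro h
              calc t * z * t⁻¹ * (t * y * t⁻¹) = t * (z * y) * t⁻¹ := by group
                _ = t * y * t⁻¹ * (t * z * t⁻¹) := by rw [h]; group
            · intro h
              calc z * y = t⁻¹ * (t * z * t⁻¹ * (t * y * t⁻¹)) * t := by group
                _ = y * z := by rw [h]; group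
    · rintro ⟨hreg, hDC, hcd⟩
      obtain ⟨Q, hQ⟩ := exists_sylow_map_eq (p := p) hDC (by rw [hDcard, ← hcd]; rfl)
      exact ⟨g, ConjClasses.mem_carrier_mk, hreg, Q, hQ.symm⟩
  -- inversion of the classes
  have hinv : ∀ i, ∃ j, K j = ConjClasses.mk (x i)⁻¹ := fun i => by
    obtain ⟨h1, h2, h3⟩ := (hcond (x i)).1 ⟨i, (hxK i).symm⟩
    refine (hcond _).2 ⟨by rwa [orderOf_inv], fun k hk => ?_, ?_⟩
    · have := h2 hk
      rw [Subgroup.mem_centralizer_singleton_iff] at this ⊢
      exact (Commute.inv_right this : Commute k (x i)⁻¹)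
    · rw [← h3, classDefect, classDefect]
      congr 2
      refine Nat.card_congr (Equiv.subtypeEquivRight fun z => ?_)
      rw [Subgroup.mem_centralizer_singleton_iff, Subgroup.mem_centralizer_singleton_iff]
      exact ⟨fun h => inv_inv (x i) ▸ (Commute.inv_right h : Commute z (x i)⁻¹⁻¹),
        fun h => (Commute.inv_right h : Commute z (x i)⁻¹)⟩
  choose σ hσ using hinv
  have hσx : ∀ i, IsConj (x i)⁻¹ (x (σ i)) := fun i =>
    ConjClasses.mk_eq_mk_iff_isConj.1 (by rw [hxK, hσ i])
  have hσσ : ∀ i, σ (σ i) = i := fun i => hKinj (by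
    rw [hσ (σ i), ← hxK i, ConjClasses.mk_eq_mk_iff_isConj]
    obtain ⟨t, ht⟩ := isConj_iff.1 (hσx i)
    exact (isConj_iff.2 ⟨t, by rw [← ht, conj_inv, inv_inv]⟩ : IsConj (x i) (x (σ i))⁻¹).symm)
  -- the blocks with defect group `D`
  let Bl := {B : Set (IrrCharacter G) // IsPBlock M B ∧ IsDefectGroup p M B D}
  have hne : ∀ B : Bl, ∃ χ : IrrCharacter G, χ ∈ B.1 := fun B => isPBlock_nonempty hM B.2.1
  choose rep hrep using hne
  have hdB : ∀ B : Bl, blockDefect p B.1 = d := fun B => by
    have h := card_defectGroup hM B.2.1 B.2.2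
    rw [hDcard] at h
    exact (Nat.pow_right_injective hp.two_le h).symm
  let E : Matrix Bl ι (ResField M) := Matrix.of fun B i => cred hM (bIdem hM B.2.1) (x i)
  let A : Matrix ι Bl (ResField M) := Matrix.of fun i B => ev hM (rep B) (cl hM (x i))
  let E' : Matrix ι Bl (ResField M) := Matrix.of fun i B => E B (σ i)
  let A' : Matrix Bl ι (ResField M) := Matrix.of fun B i => A (σ i) B
  have hEA : E * A = 1 := by
    ext B B'
    rw [Matrix.mul_apply, Matrix.one_apply]
    have h : ev hM (rep B') (bIdem hM B.2.1) = if B = B' then 1 else 0 := by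
      rw [ev_bIdem]
      refine if_congr ⟨fun h => Subtype.ext ?_, fun h => h ▸ hrep B'⟩ rfl rfl
      rw [isPBlock_eq_blockOf hM B.2.1 h, isPBlock_eq_blockOf hM B'.2.1 (hrep B')]
    rw [← h, ev_eq_sum]
    refine Finset.sum_of_injOn K hKinj.injOn (fun _ _ => Finset.mem_univ _) (fun C _ hC => ?_)
      fun i _ => rfl
    by_contra hne
    refine hC ?_
    have hl := left_ne_zero_of_mul hne
    have hpow : p ^ blockDefect p B.1 = Nat.card D := by rw [hdB, hDcard]
    obtain ⟨h1, h2⟩ := classDefect_eq_of_supp hM D hD B.2.1 hpow hl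
    obtain ⟨i, hi⟩ := (hcond (Quotient.out C)).2 ⟨fun h => hl (cred_bIdem_singular hM B.2.1 h),
      fun k hk => Subgroup.mem_centralizer_singleton_iff.2 (Subgroup.mem_centralizer_iff.1 h1 k hk),
      (Nat.pow_right_injective hp.two_le (hDcard.symm.trans h2)).symm⟩
    exact ⟨i, by simp, hi.trans (Quotient.out_eq C)⟩
  have hAE : A' * E' = 1 := by
    ext B B'
    rw [Matrix.mul_apply, Matrix.one_apply]
    have h := congrFun (congrFun hEA B') B
    rw [Matrix.mul_apply, Matrix.one_apply] at h
    rw [show (if B = B' then (1 : ResField M) else 0) = if B' = B then 1 else 0 from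
      if_congr eq_comm rfl rfl, ← h]
    refine Fintype.sum_equiv ⟨σ, σ, hσσ, hσσ⟩ _ _ fun i => ?_
    exact mul_comm _ _
  -- the entries
  haveI : Fintype (S : Subgroup G) := Fintype.ofFinite _
  have hm : ∀ χ : IrrCharacter G, ∃ m : ℕ, ∑ s : (S : Subgroup G), (χ : G → ℂ) (s : G) =
      (Nat.card (S : Subgroup G) : ℂ) * m := by
    intro χ
    obtain ⟨m, hm⟩ := inner_character_nat (isCharacter_restrict χ.2.isCharacter' (S : Subgroup G))
      (trivIrr (S : Subgroup G)).2.isCharacter'
    refine ⟨m, ?_⟩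
    rw [← hm, classInner, ← mul_assoc, mul_inv_cancel₀ (natCard_ne_zero _), one_mul]
    simp [trivIrr]
  choose m hm using hm
  have hconj : ∀ (χ : IrrCharacter G) (g : G), conj ((χ : G → ℂ) g⁻¹) = (χ : G → ℂ) g := fun χ g => by
    rw [isCharacter_inv_eq_conj χ.2.isCharacter', Complex.conj_conj]
  set w : IrrCharacter G → ℂ := fun χ =>
    ((p ^ d * charDegree (χ : G → ℂ) * m χ : ℕ) : ℂ) / (Nat.card G : ℂ) with hw
  set Ω : ι → ι → ℕ := fun i j => Nat.card {yz : G × G // yz.1 ∈ (K i).carrier ∧
    yz.2 ∈ (K j).carrier ∧ yz.2 * yz.1⁻¹ ∈ (S : Subgroup G)} with hΩ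
  have hSa : Nat.card (S : Subgroup G) = p ^ a := S.card_eq_multiplicity
  have hform : ∀ i j, (Ω i j : ℂ) / ((p ^ (a - d) : ℕ) : ℂ) =
      ∑ χ : IrrCharacter G, w χ * centralChar (χ : G → ℂ) (x i) * centralChar (χ : G → ℂ) (x j)⁻¹ := by
    intro i j
    have hfib : ∀ (a₀ b₀ : G), IsConj b₀ a₀ → Nat.card {u : G // u * b₀ * u⁻¹ = a₀} =
        Nat.card (Subgroup.centralizer ({b₀} : Set G)) := by
      intro a₀ b₀ h
      obtain ⟨t, ht⟩ := isConj_iff.1 h
      refine Nat.card_congr ((Equiv.mulLeft t⁻¹).subtypeEquiv fun u => ?_)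
      rw [Equiv.coe_mulLeft, Subgroup.mem_centralizer_singleton_iff]
      constructor
      · intro e
        calc t⁻¹ * u * b₀ = t⁻¹ * (u * b₀ * u⁻¹) * u := by group
          _ = b₀ * (t⁻¹ * u) := by rw [e, ← ht]; group
      · intro e
        calc u * b₀ * u⁻¹ = t * (t⁻¹ * u * b₀) * u⁻¹ := by group
          _ = a₀ := by rw [e, ← ht]; group
    set ci := Nat.card (Subgroup.centralizer ({x i} : Set G)) with hci
    set cj := Nat.card (Subgroup.centralizer ({x j} : Set G)) with hcj
    have h1 : (Ω i j * (cj * ci) : ℕ) = ∑ s : (S : Subgroup G),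
        Nat.card {q : G × G // q.1 * x j * q.1⁻¹ * (q.2 * (x i)⁻¹ * q.2⁻¹) = (s : G)} := by
      rw [← Nat.card_sigma]
      let T := {yz : G × G // yz.1 ∈ (K i).carrier ∧ yz.2 ∈ (K j).carrier ∧
        yz.2 * yz.1⁻¹ ∈ (S : Subgroup G)}
      have h2 : Nat.card ((t : T) × ({u : G // u * x j * u⁻¹ = t.1.2} × {v : G // v * x i * v⁻¹ = t.1.1})) =
          Ω i j * (cj * ci) := by
        rw [Nat.card_sigma, Finset.sum_congr rfl (g := fun _ => cj * ci), Finset.sum_const,
          Finset.card_univ, smul_eq_mul, ← Nat.card_eq_fintype_card]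
        intro t _
        rw [Nat.card_prod, hfib, hfib]
        · exact ConjClasses.mk_eq_mk_iff_isConj.1 ((hxK i).trans (ConjClasses.mem_carrier_iff_mk_eq.1 t.2.1).symm)
        · exact ConjClasses.mk_eq_mk_iff_isConj.1 ((hxK j).trans (ConjClasses.mem_carrier_iff_mk_eq.1 t.2.2.1).symm)
      rw [← h2]
      refine Nat.card_congr
        { toFun := fun t => ⟨⟨t.1.1.2 * t.1.1.1⁻¹, t.1.2.2.2⟩, ⟨(t.2.1.1, t.2.2.1), by
            show t.2.1.1 * x j * t.2.1.1⁻¹ * (t.2.2.1 * (x i)⁻¹ * t.2.2.1⁻¹) = t.1.1.2 * t.1.1.1⁻¹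
            rw [← conj_inv, t.2.1.2, t.2.2.2]⟩⟩
          invFun := fun q => ⟨⟨(q.2.1.2 * x i * q.2.1.2⁻¹, q.2.1.1 * x j * q.2.1.1⁻¹), by
              rw [ConjClasses.mem_carrier_iff_mk_eq, ← hxK i, ConjClasses.mk_eq_mk_iff_isConj]
              exact (isConj_iff.2 ⟨q.2.1.2, rfl⟩).symm, by
              rw [ConjClasses.mem_carrier_iff_mk_eq, ← hxK j, ConjClasses.mk_eq_mk_iff_isConj]
              exact (isConj_iff.2 ⟨q.2.1.1, rfl⟩).symm, by
              show q.2.1.1 * x j * q.2.1.1⁻¹ * (q.2.1.2 * x i * q.2.1.2⁻¹)⁻¹ ∈ (S : Subgroup G)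
              rw [conj_inv, q.2.2]
              exact q.1.2⟩, ⟨q.2.1.1, rfl⟩, ⟨q.2.1.2, rfl⟩⟩
          left_inv := ?_
          right_inv := ?_ }
      · rintro ⟨⟨⟨y, z⟩, ht⟩, ⟨u, hu⟩, ⟨v, hv⟩⟩
        dsimp only at hu hv
        subst hu hv
        rfl
      · rintro ⟨⟨s, hs⟩, ⟨⟨u, v⟩, hq⟩⟩
        dsimp only at hq
        subst hq
        refine Sigma.subtype_ext (Subtype.ext ?_) rfl
        show u * x j * u⁻¹ * (v * x i * v⁻¹)⁻¹ = _
        rw [conj_inv]
    have h2 := congrArg (fun n : ℕ => (n : ℂ)) h1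
    simp only [Nat.cast_mul, Nat.cast_sum, count_conj_mul, hconj] at h2
    rw [← Finset.mul_sum, Finset.sum_comm] at h2
    have e : ∀ χ : IrrCharacter G, w χ * centralChar (χ : G → ℂ) (x i) *
        centralChar (χ : G → ℂ) (x j)⁻¹ =
        (Nat.card G : ℂ) * (((p ^ d : ℕ) : ℂ) * m χ) * ((χ : G → ℂ) (x i) * conj ((χ : G → ℂ) (x j))) /
          ((χ : G → ℂ) 1 * ((ci : ℂ) * cj)) := by
      intro χ
      have hq : ∀ g : G, centralChar (χ : G → ℂ) g = (Nat.card G : ℂ) /
          (Nat.card (Subgroup.centralizer ({g} : Set G)) : ℂ) * (χ : G → ℂ) g / (χ : G → ℂ) 1 := by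
        intro g
        have h := centralChar_mul_degree χ g
        have hc := natCard_ne_zero (Subgroup.centralizer ({g} : Set G))
        have h1 := irr_one_ne_zero χ
        have he : (Nat.card G : ℂ) = (Nat.card (Subgroup.centralizer ({g} : Set G)) : ℂ) *
            ((Subgroup.centralizer ({g} : Set G)).index : ℂ) := by
          exact_mod_cast (Subgroup.card_mul_index _).symm
        rw [he]
        field_simp
        linear_combination h
      have h1c : conj ((χ : G → ℂ) 1) = (χ : G → ℂ) 1 := by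
        rw [← charDegree_cast χ.2.isCharacter', Complex.conj_natCast]
      rw [centralChar_inv, hq, hq, hw]
      simp only [map_div₀, map_mul, Complex.conj_natCast, h1c, Nat.cast_mul]
      rw [charDegree_cast χ.2.isCharacter', ← hci, ← hcj]
      have h1 := irr_one_ne_zero χ
      have h3 := natCard_ne_zero G
      have h4 : (ci : ℂ) ≠ 0 := natCard_ne_zero _
      have h5 : (cj : ℂ) ≠ 0 := natCard_ne_zero _
      field_simp
    rw [Finset.sum_congr rfl fun χ _ => e χ]
    have hpa : ((p ^ (a - d) : ℕ) : ℂ) * ((p ^ d : ℕ) : ℂ) = (Nat.card (S : Subgroup G) : ℂ) := by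
      rw [hSa, ← Nat.cast_mul, ← pow_add, Nat.sub_add_cancel]
      exact (Nat.factorization_le_iff_dvd Nat.card_pos.ne' Nat.card_pos.ne').2 D.card_subgroup_dvd_card p
    have hci0 : (ci : ℂ) ≠ 0 := natCard_ne_zero _
    have hcj0 : (cj : ℂ) ≠ 0 := natCard_ne_zero _
    rw [div_eq_iff (Nat.cast_ne_zero.2 (pow_ne_zero _ hp.ne_zero)),
      ← mul_left_inj' (mul_ne_zero hcj0 hci0), h2, Finset.sum_mul, Finset.sum_mul, Finset.mul_sum]
    refine Finset.sum_congr rfl fun χ _ => ?_
    simp only [← Finset.sum_div, ← Finset.mul_sum]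
    rw [hm χ, ← hpa]
    have h1 := irr_one_ne_zero χ
    field_simp
  -- the weights
  have hbm : ∀ {B : Set (IrrCharacter G)}, IsPBlock M B → d ≤ blockDefect p B := by
    intro B hB
    obtain ⟨P, hP⟩ := exists_defectGroup hM hB
    have h1 := Subgroup.card_dvd_of_le (normal_pGroup_le_defectGroup hM D hD hB hP)
    rw [hDcard, card_defectGroup hM hB hP] at h1
    exact (Nat.pow_dvd_pow_iff_le_right hp.one_lt).1 h1
  have hωmem : ∀ (χ : IrrCharacter G) (g : G), centralChar (χ : G → ℂ) g ∈ locRing hM := by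
    intro χ g
    have := (cl hM g).2
    exact centralChar_mem hM χ g
  have hevcl : ∀ (χ : IrrCharacter G) (g : G), ev hM χ (cl hM g) = res hM ⟨_, hωmem χ g⟩ :=
    fun χ g => ev_cl hM g χ
  have hzero : ∀ (χ : IrrCharacter G), blockDefect p (blockOf M (χ : G → ℂ)) ≠ d → ∀ i,
      ev hM χ (cl hM (x i)) = 0 := by
    intro χ hne i
    by_contra h
    have := blockDefect_le_classDefect hM (isPBlock_blockOf χ) (mem_blockOf_self hM χ) h
    rw [((hcond (x i)).1 ⟨i, (hxK i).symm⟩).2.2] at this
    exact hne (le_antisymm this (hbm (isPBlock_blockOf χ)))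
  have hwmem : ∀ χ : IrrCharacter G, a ≤ d + (charDegree (χ : G → ℂ)).factorization p →
      w χ ∈ locRing hM := by
    intro χ h
    refine natCast_div_mem hM Nat.card_pos.ne' ?_
    refine dvd_mul_of_dvd_left (dvd_trans (pow_dvd_pow p (h : _ ≤ _)) ?_) _
    rw [pow_add]
    exact Nat.mul_dvd_mul_left _ (Nat.ordProj_dvd _ _)
  have hterm : ∀ (χ : IrrCharacter G) (i j : ι),
      ∃ h : w χ * centralChar (χ : G → ℂ) (x i) * centralChar (χ : G → ℂ) (x j)⁻¹ ∈ locRing hM,
        blockDefect p (blockOf M (χ : G → ℂ)) ≠ d → res hM ⟨_, h⟩ = 0 := by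
    intro χ i j
    have hj : centralChar (χ : G → ℂ) (x j)⁻¹ ∈ locRing hM := hωmem _ _
    have hwi : w χ * centralChar (χ : G → ℂ) (x i) ∈ locRing hM := by
      obtain ⟨hireg, hiD, hicd⟩ := (hcond (x i)).1 ⟨i, (hxK i).symm⟩
      have e : w χ * centralChar (χ : G → ℂ) (x i) =
          ((p ^ d * m χ : ℕ) : ℂ) / (Nat.card (Subgroup.centralizer ({x i} : Set G)) : ℂ) *
            (χ : G → ℂ) (x i) := by
        have h := centralChar_mul_degree χ (x i)
        have he : (Nat.card G : ℂ) = (Nat.card (Subgroup.centralizer ({x i} : Set G)) : ℂ) *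
            ((Subgroup.centralizer ({x i} : Set G)).index : ℂ) := by
          exact_mod_cast (Subgroup.card_mul_index _).symm
        rw [hw]
        simp only [Nat.cast_mul]
        rw [charDegree_cast χ.2.isCharacter', he]
        have hc := natCard_ne_zero (Subgroup.centralizer ({x i} : Set G))
        have hi : ((Subgroup.centralizer ({x i} : Set G)).index : ℂ) ≠ 0 :=
          Nat.cast_ne_zero.2 Subgroup.index_ne_zero_of_finite
        field_simp
        linear_combination ((p ^ d : ℕ) : ℂ) * (m χ : ℂ) * h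
      rw [e]
      refine mul_mem (natCast_div_mem hM Nat.card_pos.ne' ?_) (irr_mem hM χ _)
      rw [show (Nat.card (Subgroup.centralizer ({x i} : Set G))).factorization p = d from hicd]
      exact Dvd.intro _ rfl
    refine ⟨mul_mem hwi hj, fun hne => ?_⟩
    have := hzero χ hne (σ j)
    rw [← cl_congr hM (hσx j), hevcl] at this
    rw [show (⟨w χ * centralChar (χ : G → ℂ) (x i) * centralChar (χ : G → ℂ) (x j)⁻¹,
      mul_mem hwi hj⟩ : locRing hM) = ⟨_, hwi⟩ * ⟨_, hj⟩ from rfl, map_mul, this, mul_zero]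
  choose hterm hterm0 using hterm
  -- the diagonal
  have hbd : ∀ B : Bl, blockMin p B.1 + d = a := by
    intro B
    have h1 := hdB B
    have h2 := blockMin_le_card hM B.2.1
    rw [blockDefect_eq] at h1
    omega
  have hwB : ∀ B : Bl, ∀ χ ∈ B.1, w χ ∈ locRing hM := fun B χ hχ => hwmem χ (by
    have := blockMin_le (p := p) hχ
    have := hbd B
    omega)
  let c : Bl → locRing hM := fun B =>
    ∑ χ : {χ : IrrCharacter G // χ ∈ B.1}, ⟨w χ.1, hwB B χ.1 χ.2⟩
  have hc : ∀ B, res hM (c B) ≠ 0 := by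
    intro B h0
    set A0 := Finset.univ.filter (· ∈ B.1) with hA0
    set sq2 := ∑ χ ∈ A0, charDegree (χ : G → ℂ) ^ 2 with hsq
    have h1 : (c B : ℂ) = ((p ^ d * sq2 : ℕ) : ℂ) / ((Nat.card G * p ^ a : ℕ) : ℂ) := by
      have h2 : ∑ χ ∈ A0, (charDegree (χ : G → ℂ) : ℂ) * ∑ s : (S : Subgroup G), (χ : G → ℂ) (s : G) =
          (sq2 : ℂ) := by
        simp only [Finset.mul_sum]
        rw [Finset.sum_comm, Finset.sum_eq_single (1 : (S : Subgroup G))]
        · rw [hsq, Nat.cast_sum]
          refine Finset.sum_congr rfl fun χ _ => ?_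
          rw [OneMemClass.coe_one, ← charDegree_cast χ.2.isCharacter']
          push_cast
          ring
        · intro s _ hs
          have hord : p ∣ orderOf (s : G)⁻¹ := by
            rw [orderOf_inv, Subgroup.orderOf_coe]
            obtain ⟨k, hk⟩ := IsPGroup.iff_orderOf.1 S.2 s
            rw [hk]
            refine dvd_pow_self p fun h0 => hs ?_
            rwa [h0, pow_zero, orderOf_eq_one_iff] at hk
          have h := coef_indVal_singular hM B.2.1 hord
          simp only [coef, mul_eq_zero, inv_eq_zero, natCard_ne_zero G, false_or] at h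
          refine Eq.trans ?_ h
          rw [hA0, Finset.sum_filter]
          refine Finset.sum_congr rfl fun χ _ => ?_
          rw [hconj, charDegree_cast χ.2.isCharacter']
          unfold indVal
          split_ifs <;> simp
        · exact fun h => absurd (Finset.mem_univ _) h
      simp only [hm, hSa] at h2
      simp only [c, AddSubmonoidClass.coe_finsetSum]
      rw [← Finset.sum_subtype (f := fun χ => w χ) A0 (fun χ => by simp [hA0]), hw]
      simp only [← Finset.sum_div]
      push_cast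
      rw [← h2, div_eq_div_iff (natCard_ne_zero G) (mul_ne_zero (natCard_ne_zero G)
        (pow_ne_zero _ (Nat.cast_ne_zero.2 hp.ne_zero))), Finset.sum_mul, Finset.mul_sum,
        Finset.sum_mul]
      refine Finset.sum_congr rfl fun χ _ => ?_
      push_cast
      ring
    have hsq0 : sq2 ≠ 0 := by
      intro h
      have := Finset.sum_eq_zero_iff.1 h (rep B) (by simp [hA0, hrep B])
      exact pow_ne_zero 2 (charDegree_pos (rep B)).ne' this
    have hden : Nat.card G * p ^ a ≠ 0 := mul_ne_zero Nat.card_pos.ne' (pow_ne_zero _ hp.ne_zero)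
    have h3 : ((p ^ d * sq2 : ℤ) : ℂ) / ((Nat.card G * p ^ a : ℕ) : ℂ) ∈ locRing hM := by
      have := (c B).2
      rw [h1] at this
      push_cast at this ⊢
      exact this
    have h4 : ¬ MemLocalIdeal M (((p ^ d * sq2 : ℤ) : ℂ) / ((Nat.card G * p ^ a : ℕ) : ℂ)) := by
      rw [not_memLocalIdeal_div_iff hM hden h3]
      refine ⟨by exact_mod_cast mul_ne_zero (pow_ne_zero _ hp.ne_zero) hsq0, ?_⟩
      rw [show ((p : ℤ) ^ d * (sq2 : ℤ)) = ((p ^ d * sq2 : ℕ) : ℤ) by push_cast; ring,
        padicValInt.of_nat, ← Nat.factorization_def _ hp,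
        Nat.factorization_mul (pow_ne_zero _ hp.ne_zero) hsq0,
        Nat.factorization_mul Nat.card_pos.ne' (pow_ne_zero _ hp.ne_zero), Finsupp.add_apply,
        Finsupp.add_apply, factorization_sum_sq hM B.2.1, hp.factorization_pow, hp.factorization_pow,
        Finsupp.single_eq_same, Finsupp.single_eq_same]
      have := hbd B
      omega
    refine h4 ((res_eq_zero_iff hM ⟨_, h3⟩).1 ?_)
    rw [← h0]
    refine congrArg (res hM) (Subtype.ext ?_)
    rw [h1]
    push_cast
    ring
  -- the matrix modulo `p`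
  let f : ZMod p →+* ResField M := ZMod.castHom dvd_rfl (ResField M)
  set N : Matrix ι ι (ZMod p) := Matrix.of fun i j => ((Ω i j / p ^ (a - d) : ℕ) : ZMod p) with hN
  have hblk : ∀ χ : IrrCharacter G, blockDefect p (blockOf M (χ : G → ℂ)) = d →
      IsDefectGroup p M (blockOf M (χ : G → ℂ)) D := fun χ h =>
    (isDefectGroup_iff_card hM D hD (isPBlock_blockOf χ)).2 (by rw [h, hDcard])
  have hNmap : N.map f = A * Matrix.diagonal (fun B => res hM (c B)) * A' := by
    ext i j
    have hmem : (Ω i j : ℂ) / ((p ^ (a - d) : ℕ) : ℂ) ∈ locRing hM := by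
      rw [hform]; exact sum_mem fun χ _ => hterm χ i j
    have hdvd : p ^ (a - d) ∣ Ω i j := by
      have := pow_factorization_dvd_of_div_mem hM (n := (Ω i j : ℤ)) (pow_ne_zero (a - d) hp.ne_zero)
        (by rw [Int.cast_natCast]; exact hmem)
      rw [hp.factorization_pow, Finsupp.single_eq_same] at this
      exact_mod_cast this
    rw [Matrix.map_apply, hN, Matrix.of_apply, map_natCast, ← res_natCast_div hM hdvd hmem,
      show (⟨_, hmem⟩ : locRing hM) = ∑ χ : IrrCharacter G, ⟨_, hterm χ i j⟩ from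
        Subtype.ext (by rw [AddSubmonoidClass.coe_finsetSum]; exact hform i j), map_sum, Matrix.mul_apply]
    simp only [Matrix.mul_diagonal]
    have hsplit : ∀ χ : IrrCharacter G, res hM (⟨_, hterm χ i j⟩ : locRing hM) =
        ∑ B : Bl, if χ ∈ B.1 then res hM (⟨_, hterm χ i j⟩ : locRing hM) else 0 := by
      intro χ
      by_cases h : blockDefect p (blockOf M (χ : G → ℂ)) = d
      · rw [Finset.sum_eq_single (⟨blockOf M (χ : G → ℂ), isPBlock_blockOf χ, hblk χ h⟩ : Bl),
          if_pos (mem_blockOf_self hM χ)]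
        · intro B _ hB
          rw [if_neg fun h' => hB (Subtype.ext (isPBlock_eq_blockOf hM B.2.1 h'))]
        · exact fun h => absurd (Finset.mem_univ _) h
      · rw [hterm0 χ i j h]
        simp
    rw [Finset.sum_congr rfl fun χ _ => hsplit χ, Finset.sum_comm]
    refine Finset.sum_congr rfl fun B _ => ?_
    rw [← Finset.sum_filter, Finset.sum_subtype (Finset.univ.filter (· ∈ B.1))
      (p := fun χ => χ ∈ B.1) (fun χ => by simp)]
    simp only [c, map_sum, Finset.mul_sum, Finset.sum_mul]
    refine Finset.sum_congr rfl fun χ _ => ?_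
    simp only [A, A', Matrix.of_apply]
    rw [← cl_congr hM (hσx j), ← ev_eq_of_mem hM B.2.1 χ.2 (hrep B) (cl hM (x i)),
      ← ev_eq_of_mem hM B.2.1 χ.2 (hrep B) (cl hM (x j)⁻¹), hevcl, hevcl, ← map_mul, ← map_mul]
    refine congrArg (res hM) (Subtype.ext ?_)
    show w χ.1 * _ * _ = centralChar (χ.1 : G → ℂ) (x i) * w χ.1 * _
    ring
  show Nat.card Bl = N.rank
  rw [← rank_map_field f N, hNmap, Nat.card_eq_fintype_card]
  refine le_antisymm ?_ ((Matrix.rank_mul_le_left _ _).trans ((Matrix.rank_mul_le_left _ _).trans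
    (Matrix.rank_le_card_width _)))
  have hdiag : E * (A * Matrix.diagonal (fun B => res hM (c B)) * A') * E' =
      Matrix.diagonal (fun B => res hM (c B)) := by
    rw [← Matrix.mul_assoc, ← Matrix.mul_assoc, hEA, Matrix.one_mul, Matrix.mul_assoc, hAE,
      Matrix.mul_one]
  have h := congrArg Matrix.rank hdiag
  rw [Matrix.rank_diagonal, Fintype.card_subtype, Finset.filter_true_of_mem fun B _ => hc B,
    Finset.card_univ] at h
  rw [← h]
  exact (Matrix.rank_mul_le_left _ _).trans (Matrix.rank_mul_le_right _ _)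

end CfsgLib.Block
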