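import Cfsg.Agent.Lib.BlockGlaubermanSub
import Cfsg.Agent.Lib.BlockRegular
import Cfsg.Agent.Lib.BlockPrincipal
import Cfsg.Agent.Lib.CharDegree
import Cfsg.Agent.Lib.CharLinear
import Cfsg.Agent.Lib.CharClifford
import Cfsg.Agent.Lib.CharInd
import Cfsg.Agent.Lib.CoreTransfer
import Cfsg.Agent.Lib.CoreBasic
import Cfsg.Agent.Lib.CorePGroup
import Mathlib.RepresentationTheory.Character
import Mathlib.GroupTheory.Transfer

/-!
Characters of degree prime to `p` of a Sylow normalizer: if all of them extend to the group then the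
normalizer has a normal complement.
-/

set_option autoImplicit false

namespace CfsgLib.Block

open Cfsg CfsgLib.Char
open scoped Classical

universe u
variable {G : Type u} [Group G] [Fintype G] {p : ℕ} [Fact p.Prime]

/-- A normal p'-subgroup on which a p-subgroup acts without fixed points lies in the kernel of every
irreducible character of degree prime to `p`. -/
theorem apply_eq_one_of_fixedPointFree (R P : Subgroup G) [R.Normal] (hR : ¬ p ∣ Nat.card R)
    (hP : IsPGroup p P) (hfix : R ⊓ Subgroup.centralizer (P : Set G) = ⊥) (χ : IrrCharacter G)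
    (hd : ¬ p ∣ charDegree (χ : G → ℂ)) {r : G} (hr : r ∈ R) : (χ : G → ℂ) r = (χ : G → ℂ) 1 := by
  obtain ⟨M, hM⟩ := exists_isPModular (Fact.out : p.Prime)
  set φ := CfsgLib.Glauberman.conjOn R P fun s _ g hg => (inferInstance : R.Normal).conj_mem g hg s
  have hmem : ∀ g : R, (χ : G → ℂ) g ∈ locRing hM := fun g => irr_mem hM χ _
  have hsum := CfsgLib.Glauberman.sum_fixed (φ := φ) hP hM (fun g : R => CfsgLib.Glauberman.rd hM ((χ : G → ℂ) g))
    (fun s g => by
      rw [CfsgLib.Glauberman.conjOn_coe, irr_classFunction χ (g : G) (s : G)])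
  have hbot : ∀ c : CfsgLib.Glauberman.fix φ, ((c : R) : G) = 1 := fun c => by
    have h := (CfsgLib.Glauberman.mem_fix_conjOn R P _ (c : R)).1 c.2
    rw [hfix, Subgroup.mem_bot] at h
    exact h
  haveI : Subsingleton (CfsgLib.Glauberman.fix φ) :=
    ⟨fun a b => Subtype.ext (Subtype.ext ((hbot a).trans (hbot b).symm))⟩
  rw [← CfsgLib.Glauberman.rd_sum hM _ _ (fun g _ => hmem g)] at hsum
  replace hsum := hsum.trans (Finset.sum_eq_single (1 : CfsgLib.Glauberman.fix φ)
    (fun c _ hc => absurd (Subsingleton.elim c 1) hc) (fun h => absurd (Finset.mem_univ _) h))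
  rw [Subgroup.coe_one, Subgroup.coe_one, ← charDegree_cast χ.2.isCharacter', CfsgLib.Glauberman.rd_natCast] at hsum
  have hS0 : ∑ g : R, (χ : G → ℂ) g ≠ 0 := by
    intro e
    rw [e, CfsgLib.Glauberman.rd_zero] at hsum
    haveI := charP_resField hM
    exact hd ((CharP.cast_eq_zero_iff (ResField M) p _).1 hsum.symm)
  obtain ⟨n, ρ, hirr, hρ⟩ := χ.2
  haveI := hirr
  haveI : Invertible (Nat.card R : ℂ) := invertibleNatCard R
  have hinv : (Representation.invariants (ρ.comp R.subtype)) ≠ ⊥ := by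
    intro e
    have h := Representation.card_inv_mul_sum_char_eq_finrank (ρ := ρ.comp R.subtype)
    rw [e, finrank_bot, Nat.cast_zero, mul_eq_zero, inv_eq_zero, or_iff_right (natCard_ne_zero R)] at h
    refine hS0 (Eq.trans ?_ h)
    exact Finset.sum_congr rfl fun g _ => by rw [← hρ]; rfl
  rcases subrep_eq_bot_or_eq_top ρ (Representation.invariants (ρ.comp R.subtype)) (fun g v hv => by
    rw [Representation.mem_invariants] at hv ⊢
    intro x
    have hx : g⁻¹ * (x : G) * g ∈ R := by simpa using (inferInstance : R.Normal).conj_mem (x : G) x.2 g⁻¹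
    show ρ (x : G) (ρ g v) = ρ g v
    rw [← Module.End.mul_apply, ← map_mul, show (x : G) * g = g * (g⁻¹ * (x : G) * g) by group, map_mul,
      Module.End.mul_apply]
    exact congrArg (ρ g) (hv ⟨_, hx⟩)) with h | h
  · exact absurd h hinv
  · have hone : ρ r = 1 := LinearMap.ext fun v => by
      have hv : v ∈ (Representation.invariants (ρ.comp R.subtype)) := h ▸ Submodule.mem_top
      exact hv ⟨r, hr⟩
    rw [← hρ]
    show LinearMap.trace ℂ _ (ρ r) = LinearMap.trace ℂ _ (ρ 1)
    rw [hone, map_one ρ]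

section Normal

variable {N : Type u} [Group N] [Fintype N] (P : Subgroup N) [P.Normal]

/-- A linear constituent forces the commutators of a normal p-subgroup into the kernel. -/
theorem apply_commutator_eq_one (hP : IsPGroup p P) (θ : IrrCharacter N) (hθ : ¬ p ∣ charDegree (θ : N → ℂ))
    {x : P} (hx : x ∈ commutator P) : (θ : N → ℂ) x = (θ : N → ℂ) 1 := by
  haveI : Fintype P := Fintype.ofFinite P
  have hch : IsCharacter P (fun y : P => (θ : N → ℂ) y) := isCharacter_restrict θ.2.isCharacter' P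
  have hdec := classFunction_eq_sum _ (isCharacter_classFunction hch)
  have hlin : ∀ ξ : IrrCharacter P, classInner (fun y : P => (θ : N → ℂ) y) (ξ : P → ℂ) ≠ 0 →
      (ξ : P → ℂ) x = (ξ : P → ℂ) 1 := by
    intro ξ hξ
    obtain ⟨k, hk, -⟩ := degree_ratio θ.2 ξ.2 hξ
    have hk' : charDegree (θ : N → ℂ) = k * charDegree (ξ : P → ℂ) := by
      rw [← charDegree_cast θ.2.isCharacter', ← charDegree_cast ξ.2.isCharacter'] at hk
      exact_mod_cast hk
    obtain ⟨j, hj⟩ := IsPGroup.iff_card.1 hP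
    obtain ⟨i, -, hi⟩ := (Nat.dvd_prime_pow (Fact.out : p.Prime)).1 (hj ▸ charDegree_dvd_card ξ)
    have h1 : charDegree (ξ : P → ℂ) = 1 := by
      rcases i with _ | i
      · rw [hi, pow_zero]
      · exact absurd (by rw [hk', hi]; exact Dvd.dvd.mul_left (dvd_pow_self p i.succ_ne_zero) k) hθ
    obtain ⟨f, hf⟩ := exists_hom_of_degree_one ξ.2.isCharacter' (by rw [← charDegree_cast ξ.2.isCharacter', h1, Nat.cast_one])
    have hfx : f x = 1 := by
      have := Abelianization.commutator_subset_ker f hx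
      exact this
    rw [hf]
    show (f x : ℂ) = (f 1 : ℂ)
    rw [hfx, map_one]
  have h1 := congrFun hdec x
  have h2 := congrFun hdec 1
  simp only [Finset.sum_apply, Pi.smul_apply, smul_eq_mul, Subgroup.coe_one] at h1 h2
  rw [h1, h2]
  refine Finset.sum_congr rfl fun ξ _ => ?_
  by_cases h0 : classInner (fun y : P => (θ : N → ℂ) y) (ξ : P → ℂ) = 0
  · rw [h0, zero_mul, zero_mul]
  · rw [hlin ξ h0]

/-- A character trivial on the commutators of a normal Sylow p-subgroup has degree prime to `p`. -/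
theorem not_dvd_degree_of_commutator_le_ker (hidx : ¬ p ∣ P.index) (θ : IrrCharacter N)
    (hker : ∀ x : P, x ∈ commutator P → (θ : N → ℂ) x = (θ : N → ℂ) 1) : ¬ p ∣ charDegree (θ : N → ℂ) := by
  haveI : Fintype P := Fintype.ofFinite P
  have hch : IsCharacter P (fun y : P => (θ : N → ℂ) y) := isCharacter_restrict θ.2.isCharacter' P
  have hne : (fun y : P => (θ : N → ℂ) y) ≠ 0 := fun e => irr_one_ne_zero θ (congrFun e 1)
  obtain ⟨ξ, hξ, hξ0⟩ := exists_constituent hch hne
  obtain ⟨k, hk, hki⟩ := degree_ratio θ.2 hξ hξ0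
  -- the restriction is trivial on commutators, so the constituent is linear
  obtain ⟨n, ρ, -, hρ⟩ := id θ.2
  obtain ⟨m, σ, hσi, hσ⟩ := id hξ
  have hcomm : ∀ a b : P, ρ (a : N) * ρ (b : N) = ρ (b : N) * ρ (a : N) := by
    intro a b
    have h : ρ ((a * b * a⁻¹ * b⁻¹ : P) : N) = 1 := by
      refine (char_eq_one_iff ρ _).1 ?_
      rw [hρ]
      exact hker _ (Subgroup.commutator_mem_commutator (Subgroup.mem_top a) (Subgroup.mem_top b))
    have e : ρ (a : N) * ρ (b : N) = ρ ((a * b * a⁻¹ * b⁻¹ : P) : N) * (ρ (b : N) * ρ (a : N)) := by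
      rw [← map_mul, ← map_mul, ← map_mul]
      congr 1
      push_cast
      group
    rw [e, h, one_mul]
  haveI := hσi
  obtain ⟨μ, hμ⟩ : ∃ μ : P → ℂ, ∀ a, σ a = μ a • 1 := by
    have key : ∀ a b : P, σ a * σ b = σ b * σ a := by
      intro a b
      -- the commutator acts trivially on the constituent
      have hker' : ξ (a * b * a⁻¹ * b⁻¹) = ξ 1 := by
        have hle : ∀ z : P, (θ : N → ℂ) z = (θ : N → ℂ) 1 → ξ z = ξ 1 := by
          intro z hz
          by_contra hne'
          have hdec := classFunction_eq_sum _ (isCharacter_classFunction hch)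
          choose c hc using fun η : IrrCharacter P => inner_character_nat hch η.2.isCharacter'
          have h1 := congrArg Complex.re (congrFun hdec z)
          have h2 := congrArg Complex.re (congrFun hdec 1)
          simp only [Finset.sum_apply, Pi.smul_apply, smul_eq_mul, Subgroup.coe_one, hc] at h1 h2
          rw [hz, h2, Complex.re_sum, Complex.re_sum] at h1
          have hlt : ∑ η : IrrCharacter P, ((c η : ℂ) * (η : P → ℂ) z).re < ∑ η : IrrCharacter P, ((c η : ℂ) * (η : P → ℂ) 1).re := by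
            refine Finset.sum_lt_sum (fun η _ => ?_) ⟨⟨ξ, hξ⟩, Finset.mem_univ _, ?_⟩
            · simp only [Complex.mul_re, Complex.natCast_re, Complex.natCast_im, zero_mul, sub_zero]
              exact mul_le_mul_of_nonneg_left ((Complex.re_le_norm _).trans (isCharacter_norm_le η.2.isCharacter' z)) (Nat.cast_nonneg _)
            · simp only [Complex.mul_re, Complex.natCast_re, Complex.natCast_im, zero_mul, sub_zero]
              refine mul_lt_mul_of_pos_left ?_ ?_
              · refine lt_of_le_of_ne ((Complex.re_le_norm _).trans (isCharacter_norm_le hξ.isCharacter' z)) fun e => hne' ?_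
                obtain ⟨d, hd⟩ := exists_degree hξ.isCharacter'
                have hn := isCharacter_norm_le hξ.isCharacter' z
                rw [hd, Complex.natCast_re] at hn e
                have hsq : Complex.normSq (ξ z) ≤ (d : ℝ) ^ 2 := by
                  rw [Complex.normSq_eq_norm_sq]; exact pow_le_pow_left₀ (norm_nonneg _) hn 2
                rw [Complex.normSq_apply, e] at hsq
                have him : (ξ z).im = 0 := by nlinarith [sq_nonneg (ξ z).im]
                rw [hd]
                exact Complex.ext (by rw [e, Complex.natCast_re]) (by rw [him, Complex.natCast_im])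
              · have : c ⟨ξ, hξ⟩ ≠ 0 := fun e => hξ0 (by
                  have := hc ⟨ξ, hξ⟩
                  rw [e, Nat.cast_zero] at this
                  exact this)
                exact Nat.cast_pos.2 (Nat.pos_of_ne_zero this)
          linarith
        exact hle _ (hker _ (Subgroup.commutator_mem_commutator (Subgroup.mem_top a) (Subgroup.mem_top b)))
      have h : σ (a * b * a⁻¹ * b⁻¹) = 1 := (char_eq_one_iff σ _).1 (by rw [hσ]; exact hker')
      have e : σ a * σ b = σ (a * b * a⁻¹ * b⁻¹) * (σ b * σ a) := by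
        rw [← map_mul, ← map_mul, ← map_mul]; congr 1; group
      rw [e, h, one_mul]
    choose μ hμ using fun a => schur_scalar σ (σ a) fun b => key a b
    exact ⟨μ, hμ⟩
  have hm1 : m = 1 := by
    haveI := nontrivial_of_irreducible σ
    have hm0 : m ≠ 0 := by
      rintro rfl
      exact not_subsingleton (Fin 0 → ℂ) inferInstance
    rcases subrep_eq_bot_or_eq_top σ (ℂ ∙ (Pi.single (⟨0, Nat.pos_of_ne_zero hm0⟩ : Fin m) (1 : ℂ))) (fun a v hv => by
      rw [hμ a]; exact Submodule.smul_mem _ _ hv) with h | h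
    · rw [Submodule.span_singleton_eq_bot, Pi.single_eq_zero_iff] at h
      exact absurd h one_ne_zero
    · have hv0 : (Pi.single (⟨0, Nat.pos_of_ne_zero hm0⟩ : Fin m) (1 : ℂ)) ≠ (0 : Fin m → ℂ) := fun e => by
        simpa using congrFun e ⟨0, Nat.pos_of_ne_zero hm0⟩
      have := finrank_span_singleton (K := ℂ) hv0
      rw [h, finrank_top, Module.finrank_fin_fun] at this
      exact this
  have hξ1 : ξ 1 = 1 := by
    rw [← hσ, Representation.char_one, Module.finrank_fin_fun, hm1, Nat.cast_one]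
  rw [hξ1, mul_one, ← charDegree_cast θ.2.isCharacter', Nat.cast_inj] at hk
  rw [hk]
  exact fun h => hidx (h.trans hki)

end Normal

section Main

variable (P : Sylow p G)

local notation "N₀" => Subgroup.normalizer ((P : Subgroup G) : Set G)

theorem sylowIn_isPGroup : IsPGroup p ((P : Subgroup G).subgroupOf N₀) :=
  P.isPGroup'.comap_of_injective _ (Subgroup.subtype_injective _)

theorem not_dvd_index_sylowIn : ¬ p ∣ ((P : Subgroup G).subgroupOf N₀).index := fun h =>
  P.not_dvd_index (h.trans (Subgroup.relIndex_dvd_index_of_le Subgroup.le_normalizer))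

/-- The commutators of the Sylow subgroup seen inside its normalizer. -/
theorem mem_commutator_sylowIn (x : N₀) :
    (x : G) ∈ ⁅(P : Subgroup G), (P : Subgroup G)⁆ ↔
      x ∈ (commutator ((P : Subgroup G).subgroupOf N₀)).map ((P : Subgroup G).subgroupOf N₀).subtype := by
  have h : ((commutator ((P : Subgroup G).subgroupOf N₀)).map ((P : Subgroup G).subgroupOf N₀).subtype).map (Subgroup.subtype N₀) =
      ⁅(P : Subgroup G), (P : Subgroup G)⁆ := by
    rw [commutator_def, Subgroup.map_commutator, Subgroup.map_commutator, ← MonoidHom.range_eq_map, Subgroup.range_subtype,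
      Subgroup.subgroupOf_map_subtype, inf_eq_left.2 Subgroup.le_normalizer]
  rw [← h]
  exact Subgroup.mem_map_iff_mem (Subgroup.subtype_injective _)

theorem commutator_sylow_le : ⁅(P : Subgroup G), (P : Subgroup G)⁆ ≤ (P : Subgroup G) :=
  Subgroup.commutator_le.2 fun a ha b hb =>
    (P : Subgroup G).mul_mem ((P : Subgroup G).mul_mem ((P : Subgroup G).mul_mem ha hb) ((P : Subgroup G).inv_mem ha))
      ((P : Subgroup G).inv_mem hb)

/-- Characters of the normalizer of degree prime to `p` are those trivial on the commutators of the Sylow subgroup. -/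
theorem not_dvd_degree_iff_sylowIn (θ : IrrCharacter N₀) :
    ¬ p ∣ charDegree (θ : N₀ → ℂ) ↔
      ∀ x : N₀, (x : G) ∈ ⁅(P : Subgroup G), (P : Subgroup G)⁆ → (θ : N₀ → ℂ) x = (θ : N₀ → ℂ) 1 := by
  haveI : Fintype N₀ := Fintype.ofFinite _
  refine ⟨fun hθ x hx => ?_, fun h => not_dvd_degree_of_commutator_le_ker _ (not_dvd_index_sylowIn P) θ fun y hy => ?_⟩
  · obtain ⟨y, hy, rfl⟩ := (mem_commutator_sylowIn P x).1 hx
    exact apply_commutator_eq_one _ (sylowIn_isPGroup P) θ hθ hy
  · exact h _ ((mem_commutator_sylowIn P _).2 ⟨y, hy, rfl⟩)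

/-- A normal subgroup of the normalizer is the intersection of the kernels of the characters trivial on it. -/
theorem mem_of_forall_ker {N : Type u} [Group N] [Finite N] (Q : Subgroup N) [Q.Normal] {x : N}
    (h : ∀ θ : IrrCharacter N, (∀ q ∈ Q, (θ : N → ℂ) q = (θ : N → ℂ) 1) → (θ : N → ℂ) x = (θ : N → ℂ) 1) :
    x ∈ Q := by
  haveI : Fintype (N ⧸ Q) := Fintype.ofFinite _
  rw [← QuotientGroup.eq_one_iff, ← isConj_one_left]
  refine (isConj_iff_irr_eq _ _).2 fun ξ => ?_
  have hθ := isIrrCharacter_comp_surjective ξ.2 (QuotientGroup.mk' Q) (QuotientGroup.mk'_surjective Q)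
  exact h ⟨_, hθ⟩ (fun q hq => by
    show (ξ : N ⧸ Q → ℂ) (QuotientGroup.mk' Q q) = (ξ : N ⧸ Q → ℂ) (QuotientGroup.mk' Q 1)
    rw [map_one, show QuotientGroup.mk' Q q = 1 from (QuotientGroup.eq_one_iff q).2 hq])

/-- If every character of degree prime to `p` of a Sylow normalizer extends to the group then the
normalizer has a normal complement. -/
theorem exists_complement_of_forall_extend
    (hext : ∀ θ : IrrCharacter N₀, ¬ p ∣ charDegree (θ : N₀ → ℂ) → ∃ χ : IrrCharacter G, ∀ x : N₀, (χ : G → ℂ) x = (θ : N₀ → ℂ) x) :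
    ∃ K : Subgroup G, K.Normal ∧ K ⊔ N₀ = ⊤ ∧ K ⊓ N₀ = ⊥ := by
  have hp : p.Prime := Fact.out
  set D := ⁅(P : Subgroup G), (P : Subgroup G)⁆ with hD
  choose X hX using hext
  have hXd : ∀ θ hθ, ¬ p ∣ charDegree ((X θ hθ : IrrCharacter G) : G → ℂ) := fun θ hθ => by
    have h : (charDegree ((X θ hθ : IrrCharacter G) : G → ℂ) : ℂ) = (charDegree (θ : N₀ → ℂ) : ℂ) := by
      rw [charDegree_cast (X θ hθ).2.isCharacter', charDegree_cast θ.2.isCharacter', ← hX θ hθ 1, Subgroup.coe_one]
    rw [Nat.cast_inj.1 h]; exact hθ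
  let K : Subgroup G := ⨅ (θ) (hθ), charKer (X θ hθ).2.isCharacter'
  haveI hKn : K.Normal := Subgroup.normal_iInf_normal fun θ => Subgroup.normal_iInf_normal fun hθ => charKer_normal _
  have hmemK : ∀ {g : G}, g ∈ K ↔ ∀ θ hθ, ((X θ hθ : IrrCharacter G) : G → ℂ) g = ((X θ hθ : IrrCharacter G) : G → ℂ) 1 :=
    fun {g} => by simp only [K, Subgroup.mem_iInf, mem_charKer]
  have hKN : ∀ x : N₀, (x : G) ∈ K ↔ (x : G) ∈ D := by
    intro x
    constructor
    · intro hx
      haveI : Fintype N₀ := Fintype.ofFinite _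
      have hQ : (((commutator ((P : Subgroup G).subgroupOf N₀)).map ((P : Subgroup G).subgroupOf N₀).subtype)).Normal := by
        rw [commutator_def, Subgroup.map_commutator, ← MonoidHom.range_eq_map, Subgroup.range_subtype]
        infer_instance
      refine (mem_commutator_sylowIn P x).2 (@mem_of_forall_ker _ _ _ _ hQ _ fun θ hθ => ?_)
      have hd : ¬ p ∣ charDegree (θ : N₀ → ℂ) :=
        (not_dvd_degree_iff_sylowIn P θ).2 fun y hy => hθ y ((mem_commutator_sylowIn P y).1 hy)
      rw [← hX θ hd x, hmemK.1 hx θ hd, ← hX θ hd 1, Subgroup.coe_one]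
    · intro hx
      refine hmemK.2 fun θ hθ => ?_
      rw [hX θ hθ x, ← Subgroup.coe_one N₀, hX θ hθ 1]
      exact (not_dvd_degree_iff_sylowIn P θ).1 hθ x hx
  have hDP : D ≤ (P : Subgroup G) := commutator_sylow_le P
  have hPN : (P : Subgroup G) ≤ N₀ := Subgroup.le_normalizer
  -- the subgroup `L` attached to the characters trivial on the Sylow subgroup
  let L : Subgroup G := ⨅ (θ : IrrCharacter N₀) (hθ : ¬ p ∣ charDegree (θ : N₀ → ℂ)) (_ : ∀ x : N₀, (x : G) ∈ (P : Subgroup G) → (θ : N₀ → ℂ) x = (θ : N₀ → ℂ) 1),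
    charKer (X θ hθ).2.isCharacter'
  haveI hLn : L.Normal := Subgroup.normal_iInf_normal fun θ => Subgroup.normal_iInf_normal fun hθ =>
    Subgroup.normal_iInf_normal fun _ => charKer_normal _
  have hKL : K ≤ L := fun g hg => by
    simp only [L, Subgroup.mem_iInf, mem_charKer]
    exact fun θ hθ _ => hmemK.1 hg θ hθ
  have hPL : (P : Subgroup G) ≤ L := fun g hg => by
    simp only [L, Subgroup.mem_iInf, mem_charKer]
    intro θ hθ hker
    rw [← Subgroup.coe_one N₀, hX θ hθ 1]
    exact (hX θ hθ ⟨g, hPN hg⟩).trans (hker ⟨g, hPN hg⟩ hg)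
  have hLN : ∀ x : N₀, (x : G) ∈ L → (x : G) ∈ (P : Subgroup G) := by
    intro x hx
    haveI : Fintype N₀ := Fintype.ofFinite _
    refine mem_of_forall_ker ((P : Subgroup G).subgroupOf N₀) (x := x) fun θ hθ => ?_
    have hker : ∀ y : N₀, (y : G) ∈ (P : Subgroup G) → (θ : N₀ → ℂ) y = (θ : N₀ → ℂ) 1 := fun y hy => hθ y hy
    have hd : ¬ p ∣ charDegree (θ : N₀ → ℂ) := (not_dvd_degree_iff_sylowIn P θ).2 fun y hy => hker y (hDP hy)
    simp only [L, Subgroup.mem_iInf, mem_charKer] at hx
    rw [← hX θ hd x, hx θ hd hker, ← hX θ hd 1, Subgroup.coe_one]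
  have hNL : N₀ ⊔ L = ⊤ := Sylow.normalizer_sup_eq_top' P hPL
  -- pass to the quotient by `K`
  set π := QuotientGroup.mk' K with hπ
  have hπs : Function.Surjective π := QuotientGroup.mk'_surjective K
  haveI : Fintype (G ⧸ K) := Fintype.ofFinite _
  let P' : Sylow p (G ⧸ K) := P.mapSurjective hπs
  have hP' : (P' : Subgroup (G ⧸ K)) = (P : Subgroup G).map π := Sylow.coe_mapSurjective hπs P
  have hnorm : ∀ y, y ∈ Subgroup.normalizer ((P' : Subgroup (G ⧸ K)) : Set (G ⧸ K)) → ∃ x : N₀, π x = y := by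
    intro y hy
    obtain ⟨g, rfl⟩ := hπs y
    set T := (Subgroup.normalizer ((P' : Subgroup (G ⧸ K)) : Set (G ⧸ K))).comap π with hT
    set H := (P' : Subgroup (G ⧸ K)).comap π with hH
    have hPH : (P : Subgroup G) ≤ H := fun a ha => by
      rw [hH, Subgroup.mem_comap, hP']; exact ⟨a, ha, rfl⟩
    have hHT : H ≤ T := fun a ha => Subgroup.le_normalizer (Subgroup.mem_comap.1 ha)
    haveI : (H.subgroupOf T).Normal := ⟨fun a ha b => by
      rw [Subgroup.mem_subgroupOf, hH, Subgroup.mem_comap] at ha ⊢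
      simp only [Subgroup.coe_mul, InvMemClass.coe_inv, map_mul, map_inv]
      exact (Subgroup.mem_normalizer_iff.1 b.2 _).1 ha⟩
    have hfr := Sylow.normalizer_sup_eq_top' (P.subtype (hPH.trans hHT)) (N := H.subgroupOf T)
      (fun a ha => hPH (by rw [Sylow.coe_subtype] at ha; exact ha))
    have hg : (⟨g, hy⟩ : T) ∈ Subgroup.normalizer ((P.subtype (hPH.trans hHT) : Subgroup T) : Set T) ⊔ H.subgroupOf T := by
      exact (le_of_eq hfr.symm) (Subgroup.mem_top _)
    obtain ⟨a, ha, b, hb, hab⟩ := Subgroup.mem_sup_of_normal_right.1 hg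
    have haN : (a : G) ∈ N₀ := by
      rw [Subgroup.mem_normalizer_iff] at ha ⊢
      intro z
      constructor
      · intro hz
        have := (ha ⟨z, hPH.trans hHT hz⟩).1 (by rw [Sylow.coe_subtype]; exact hz)
        rw [Sylow.coe_subtype] at this
        exact this
      · intro hz
        have hzT : z ∈ T := by
          have h1 : (a : G) * z * (a : G)⁻¹ ∈ T := hPH.trans hHT hz
          have h2 := T.mul_mem (T.mul_mem (T.inv_mem a.2) h1) a.2
          simpa [mul_assoc] using h2
        have := (ha ⟨z, hzT⟩).2 (by rw [Sylow.coe_subtype]; exact hz)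
        rw [Sylow.coe_subtype] at this
        exact this
    have hbP : π (b : G) ∈ (P : Subgroup G).map π := by
      rw [← hP']; exact Subgroup.mem_comap.1 hb
    obtain ⟨c, hc, hcb⟩ := hbP
    refine ⟨⟨(a : G) * c, (N₀).mul_mem haN (hPN hc)⟩, ?_⟩
    show π ((a : G) * c) = π g
    rw [map_mul, hcb, ← map_mul]
    exact congrArg π (congrArg Subtype.val hab)
  -- Burnside transfer inside the image of `L`
  set L' := L.map π with hL'
  haveI hL'n : L'.Normal := Subgroup.Normal.map hLn π hπs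
  have hP'L' : (P' : Subgroup (G ⧸ K)) ≤ L' := by rw [hP']; exact Subgroup.map_mono hPL
  let Q : Sylow p L' := P'.subtype hP'L'
  have hQmem : ∀ y : L', y ∈ (Q : Subgroup L') ↔ (y : G ⧸ K) ∈ (P : Subgroup G).map π := fun y => by
    show y ∈ (P' : Subgroup (G ⧸ K)).subgroupOf L' ↔ _
    rw [Subgroup.mem_subgroupOf, hP']
  have hcomm : ∀ a ∈ (P : Subgroup G), ∀ b ∈ (P : Subgroup G), π a * π b = π b * π a := by
    intro a ha b hb
    have h : a * b * a⁻¹ * b⁻¹ ∈ K := (hKN ⟨_, hPN ((P : Subgroup G).mul_mem ((P : Subgroup G).mul_mem ((P : Subgroup G).mul_mem ha hb) ((P : Subgroup G).inv_mem ha)) ((P : Subgroup G).inv_mem hb))⟩).2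
      (Subgroup.commutator_mem_commutator ha hb)
    have e : π (a * b * a⁻¹ * b⁻¹) = 1 := (QuotientGroup.eq_one_iff _).2 h
    calc π a * π b = π (a * b * a⁻¹ * b⁻¹) * (π b * π a) := by rw [← map_mul, ← map_mul, ← map_mul]; congr 1; group
      _ = π b * π a := by rw [e, one_mul]
  have hnormQ : ∀ y : L', y ∈ Subgroup.normalizer ((Q : Subgroup L') : Set L') → y ∈ (Q : Subgroup L') := by
    intro y hy
    have hy' : (y : G ⧸ K) ∈ Subgroup.normalizer ((P' : Subgroup (G ⧸ K)) : Set (G ⧸ K)) := by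
      rw [Subgroup.mem_normalizer_iff] at hy ⊢
      intro z
      constructor
      · intro hz
        exact (hy ⟨z, hP'L' hz⟩).1 hz
      · intro hz
        have hzL : z ∈ L' := by
          have h2 := L'.mul_mem (L'.mul_mem (L'.inv_mem y.2) (hP'L' hz)) y.2
          simpa [mul_assoc] using h2
        exact (hy ⟨z, hzL⟩).2 hz
    obtain ⟨x, hx⟩ := hnorm _ hy'
    rw [hQmem, ← hx]
    refine ⟨x, hLN x ?_, rfl⟩
    obtain ⟨l, hl, hly⟩ := y.2
    have hk : l⁻¹ * (x : G) ∈ K := (QuotientGroup.eq (s := K)).1 (hly.trans hx.symm)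
    have := L.mul_mem hl (hKL hk)
    rwa [mul_inv_cancel_left] at this
  have hburn : Subgroup.normalizer ((Q : Subgroup L') : Set L') ≤ Subgroup.centralizer ((Q : Subgroup L') : Set L') := by
    intro y hy
    rw [Subgroup.mem_centralizer_iff]
    intro z hz
    obtain ⟨a, ha, hay⟩ := (hQmem y).1 (hnormQ y hy)
    obtain ⟨b, hb, hbz⟩ := (hQmem z).1 hz
    refine Subtype.ext ?_
    rw [Subgroup.coe_mul, Subgroup.coe_mul, ← hay, ← hbz]
    exact hcomm b hb a ha
  set R := (MonoidHom.transferSylow Q hburn).ker with hR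
  have hRp : ¬ p ∣ Nat.card R := MonoidHom.not_dvd_card_ker_transferSylow Q hburn
  have hcompl := MonoidHom.ker_transferSylow_isComplement' Q hburn
  -- the image of the complement is normal in the quotient
  set R' := R.map L'.subtype with hR'
  have hR'card : Nat.card R' = Nat.card R := Subgroup.card_map_of_injective L'.subtype_injective
  have hR'mem : ∀ y : L', ¬ p ∣ orderOf y → y ∈ R := by
    intro y hy
    haveI : R.Normal := MonoidHom.normal_ker _
    obtain ⟨k, hk⟩ := IsPGroup.iff_card.1 Q.isPGroup'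
    have hidx : R.index = p ^ k := by
      rw [← hk]; exact hcompl.symm.index_eq_card
    rw [← QuotientGroup.eq_one_iff]
    have h1 : orderOf (QuotientGroup.mk' R y) ∣ p ^ k := hidx ▸ orderOf_dvd_natCard _
    have h2 : orderOf (QuotientGroup.mk' R y) ∣ orderOf y := orderOf_map_dvd _ y
    obtain ⟨i, -, hi⟩ := (Nat.dvd_prime_pow hp).1 h1
    rcases i with _ | i
    · rw [pow_zero] at hi; exact orderOf_eq_one_iff.1 hi
    · exact absurd ((dvd_pow_self p i.succ_ne_zero).trans (hi ▸ h2)) hy
  haveI hR'n : R'.Normal := ⟨fun a ha g => by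
    obtain ⟨b, hb, rfl⟩ := ha
    have hbo : ¬ p ∣ orderOf b := fun h => hRp (h.trans (by rw [← Subgroup.orderOf_mk (H := R) b hb]; exact orderOf_dvd_natCard _))
    refine ⟨⟨g * b * g⁻¹, hL'n.conj_mem _ b.2 g⟩, hR'mem _ ?_, rfl⟩
    rw [Subgroup.orderOf_mk, show g * (b : G ⧸ K) * g⁻¹ = MulAut.conj g (b : G ⧸ K) from rfl, (MulAut.conj g).orderOf_eq,
      Subgroup.orderOf_coe]
    exact hbo⟩
  have hfpf : R' ⊓ Subgroup.centralizer ((P' : Subgroup (G ⧸ K)) : Set (G ⧸ K)) = ⊥ := by
    rw [eq_bot_iff]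
    rintro _ ⟨⟨y, hy, rfl⟩, hc⟩
    have hy' : y ∈ (Q : Subgroup L') := hnormQ y (by
      rw [Subgroup.mem_normalizer_iff]
      intro z
      have hzc : ∀ w : L', w ∈ (Q : Subgroup L') → y * w * y⁻¹ = w := fun w hw => Subtype.ext (by
        have h := Subgroup.mem_centralizer_iff.1 hc (w : G ⧸ K) (by rw [hP']; exact (hQmem w).1 hw)
        simp only [Subgroup.coe_mul, InvMemClass.coe_inv]
        rw [show (y : G ⧸ K) * (w : G ⧸ K) = w * y from h.symm, mul_inv_cancel_right])
      constructor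
      · intro hz; rwa [hzc z hz]
      · intro hz
        have h := hzc _ hz
        have h' : y * z * y⁻¹ = z := by
          have h2 := congrArg (fun w => y⁻¹ * w * y) h
          simpa [mul_assoc] using h2
        rwa [h'] at hz)
    have h1 : y ∈ R ⊓ (Q : Subgroup L') := ⟨hy, hy'⟩
    rw [disjoint_iff.1 hcompl.disjoint, Subgroup.mem_bot] at h1
    rw [h1]; exact Subgroup.one_mem _
  have hRK : ∀ g : G, π g ∈ R' → g ∈ K := by
    intro g hg
    refine hmemK.2 fun θ hθ => ?_
    obtain ⟨ξ, hξ, hξc, hξi⟩ := exists_deflate (X θ hθ).2.isCharacter' π hπs (fun k hk => by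
      rw [hπ, QuotientGroup.ker_mk'] at hk
      exact hmemK.1 hk θ hθ)
    have hξd : ¬ p ∣ charDegree ξ := by
      have h : (charDegree ξ : ℂ) = (charDegree ((X θ hθ : IrrCharacter G) : G → ℂ) : ℂ) := by
        rw [charDegree_cast hξ, charDegree_cast (X θ hθ).2.isCharacter', ← hξc, Function.comp_apply, map_one]
      rw [Nat.cast_inj.1 h]; exact hXd θ hθ
    rw [← hξc, Function.comp_apply, Function.comp_apply, map_one]
    exact apply_eq_one_of_fixedPointFree R' (P' : Subgroup (G ⧸ K)) (by rw [hR'card]; exact hRp) P'.isPGroup' hfpf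
      ⟨ξ, hξi (X θ hθ).2⟩ hξd hg
  -- hence `G = K N`
  have htop : N₀ ⊔ K = ⊤ := by
    rw [eq_top_iff, ← hNL]
    refine sup_le le_sup_left fun g hg => ?_
    have hgL : π g ∈ L' := ⟨g, hg, rfl⟩
    have hg' : (⟨π g, hgL⟩ : L') ∈ R ⊔ (Q : Subgroup L') := by rw [hcompl.sup_eq_top]; exact Subgroup.mem_top _
    haveI : R.Normal := MonoidHom.normal_ker _
    obtain ⟨r, hr, q, hq, hrq⟩ := Subgroup.mem_sup_of_normal_left.1 hg'
    obtain ⟨a, ha, haq⟩ := (hQmem q).1 hq
    have h1 : π (g * a⁻¹) = (r : G ⧸ K) := by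
      rw [map_mul, map_inv, haq, show π g = ((r * q : L') : G ⧸ K) from (congrArg Subtype.val hrq).symm, Subgroup.coe_mul,
        mul_inv_cancel_right]
    have h2 : g * a⁻¹ ∈ K := hRK _ (h1 ▸ ⟨r, hr, rfl⟩)
    have := Subgroup.mul_mem (N₀ ⊔ K) (Subgroup.mem_sup_right h2) (Subgroup.mem_sup_left (hPN ha))
    rwa [inv_mul_cancel_right] at this
  -- Tate
  have hKP : K ⊓ (P : Subgroup G) ≤ (frattini (P : Subgroup G)).map (P : Subgroup G).subtype := by
    intro g hg
    have hgD : g ∈ D := (hKN ⟨g, hPN hg.2⟩).1 hg.1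
    have hDmap : D = (commutator (P : Subgroup G)).map (P : Subgroup G).subtype := by
      rw [commutator_def, Subgroup.map_commutator, ← MonoidHom.range_eq_map, Subgroup.range_subtype]
    rw [hDmap] at hgD
    exact Subgroup.map_mono (CfsgLib.Core.pgroup_commutator_le_frattini P.isPGroup') hgD
  obtain ⟨S, U, hUn, hUS⟩ := CfsgLib.Core.tate P hKP
  have hUp : ¬ p ∣ Nat.card U := by
    rw [← hUS.index_eq_card]
    exact S.not_dvd_index
  haveI := hUn
  have hUmem : ∀ y : K, ¬ p ∣ orderOf y → y ∈ U := by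
    intro y hy
    obtain ⟨k, hk⟩ := IsPGroup.iff_card.1 S.isPGroup'
    have hidx : U.index = p ^ k := by rw [← hk]; exact hUS.symm.index_eq_card
    rw [← QuotientGroup.eq_one_iff]
    have h1 : orderOf (QuotientGroup.mk' U y) ∣ p ^ k := hidx ▸ orderOf_dvd_natCard _
    have h2 : orderOf (QuotientGroup.mk' U y) ∣ orderOf y := orderOf_map_dvd _ y
    obtain ⟨i, -, hi⟩ := (Nat.dvd_prime_pow hp).1 h1
    rcases i with _ | i
    · rw [pow_zero] at hi; exact orderOf_eq_one_iff.1 hi
    · exact absurd ((dvd_pow_self p i.succ_ne_zero).trans (hi ▸ h2)) hy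
  set U' := U.map K.subtype with hU'
  haveI hU'n : U'.Normal := ⟨fun a ha g => by
    obtain ⟨b, hb, rfl⟩ := ha
    have hbo : ¬ p ∣ orderOf b := fun h => hUp (h.trans (by rw [← Subgroup.orderOf_mk (H := U) b hb]; exact orderOf_dvd_natCard _))
    refine ⟨⟨g * b * g⁻¹, hKn.conj_mem _ b.2 g⟩, hUmem _ ?_, rfl⟩
    rw [Subgroup.orderOf_mk, show g * (b : G) * g⁻¹ = MulAut.conj g (b : G) from rfl, (MulAut.conj g).orderOf_eq,
      Subgroup.orderOf_coe]
    exact hbo⟩
  refine ⟨U', hU'n, ?_, ?_⟩
  · rw [eq_top_iff, ← htop]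
    refine sup_le le_sup_right fun g hg => ?_
    -- `K` is generated by `U'` and a Sylow subgroup of `K` inside `P`
    have hPKsyl : ∃ T : Sylow p K, (T : Subgroup K) = (P : Subgroup G).subgroupOf K := by
      obtain ⟨T, hT⟩ := (P.isPGroup'.comap_of_injective K.subtype K.subtype_injective).exists_le_sylow
      refine ⟨T, le_antisymm ?_ hT⟩
      obtain ⟨P₂, hP₂⟩ := (T.isPGroup'.map K.subtype).exists_le_sylow
      have hTmap : (T : Subgroup K) = (P₂ : Subgroup G).subgroupOf K := by
        refine le_antisymm (fun a ha => hP₂ ⟨a, ha, rfl⟩) ?_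
        have hge : (T : Subgroup K) ≤ (P₂ : Subgroup G).subgroupOf K := fun a ha => hP₂ ⟨a, ha, rfl⟩
        exact le_of_eq (T.3 (P₂.isPGroup'.comap_of_injective K.subtype K.subtype_injective) hge)
      obtain ⟨g, hg⟩ := MulAction.exists_smul_eq G P P₂
      have hcard : Nat.card ((P₂ : Subgroup G).subgroupOf K) = Nat.card ((P : Subgroup G).subgroupOf K) := by
        refine Nat.card_congr
          { toFun := fun a => ⟨⟨g⁻¹ * (a : K) * g, ?_⟩, ?_⟩
            invFun := fun a => ⟨⟨g * (a : K) * g⁻¹, hKn.conj_mem _ (a : K).2 g⟩, ?_⟩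
            left_inv := fun a => Subtype.ext (Subtype.ext (by simp [mul_assoc]))
            right_inv := fun a => Subtype.ext (Subtype.ext (by simp [mul_assoc])) }
        · simpa using hKn.conj_mem _ (a : K).2 g⁻¹
        · have h := a.2
          rw [Subgroup.mem_subgroupOf] at h
          have h' : ((a : K) : G) ∈ ((g • P : Sylow p G) : Subgroup G) := by rw [hg]; exact h
          obtain ⟨b, hb, hba⟩ := h'
          show g⁻¹ * ((a : K) : G) * g ∈ (P : Subgroup G)
          rw [← hba]
          show g⁻¹ * (g * b * g⁻¹) * g ∈ (P : Subgroup G)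
          rw [show g⁻¹ * (g * b * g⁻¹) * g = b by group]
          exact hb
        · show g * ((a : K) : G) * g⁻¹ ∈ (P₂ : Subgroup G)
          have h' : g * ((a : K) : G) * g⁻¹ ∈ ((g • P : Sylow p G) : Subgroup G) := ⟨_, a.2, rfl⟩
          rw [hg] at h'
          exact h'
      exact le_of_eq (Subgroup.eq_of_le_of_card_ge hT (by rw [hTmap, hcard]; exact le_rfl)).symm
    obtain ⟨T, hT⟩ := hPKsyl
    have hUT : U ⊔ (T : Subgroup K) = ⊤ := by
      apply Subgroup.eq_top_of_card_eq
      refine Nat.dvd_antisymm (Subgroup.card_subgroup_dvd_card _) ?_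
      rw [← hUS.card_mul]
      refine Nat.Coprime.mul_dvd_of_dvd_of_dvd ?_ (Subgroup.card_dvd_of_le le_sup_left) ?_
      · obtain ⟨k, hk⟩ := IsPGroup.iff_card.1 S.isPGroup'
        rw [hk]; exact (((hp.coprime_iff_not_dvd).2 hUp).symm).pow_right k
      · rw [S.card_eq_multiplicity, ← T.card_eq_multiplicity]; exact Subgroup.card_dvd_of_le le_sup_right
    have hgk : (⟨g, hg⟩ : K) ∈ U ⊔ (T : Subgroup K) := by rw [hUT]; exact Subgroup.mem_top _
    obtain ⟨a, ha, b, hb, hab⟩ := Subgroup.mem_sup_of_normal_left.1 hgk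
    rw [hT] at hb
    rw [show g = ((a * b : K) : G) from (congrArg Subtype.val hab).symm, Subgroup.coe_mul]
    exact Subgroup.mul_mem _ (Subgroup.mem_sup_left ⟨a, ha, rfl⟩) (Subgroup.mem_sup_right (hPN hb))
  · rw [eq_bot_iff]
    rintro g ⟨⟨u, hu, rfl⟩, hgN⟩
    have hgD : (u : G) ∈ D := (hKN ⟨(u : G), hgN⟩).1 u.2
    obtain ⟨k, hk⟩ := IsPGroup.iff_orderOf.1 P.isPGroup' ⟨(u : G), hDP hgD⟩
    rw [Subgroup.orderOf_mk, Subgroup.orderOf_coe] at hk
    rcases k with _ | k
    · rw [pow_zero, orderOf_eq_one_iff] at hk; rw [hk]; exact Subgroup.one_mem _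
    · exact absurd ((dvd_pow_self p k.succ_ne_zero).trans (hk ▸ (by rw [← Subgroup.orderOf_mk (H := U) u hu]; exact orderOf_dvd_natCard _ : orderOf u ∣ Nat.card U))) hUp

/-- With a normal complement every character of a subgroup is a restriction. -/
theorem exists_extend_of_complement (H K : Subgroup G) [K.Normal] (hsup : K ⊔ H = ⊤) (hinf : K ⊓ H = ⊥)
    (θ : IrrCharacter H) : ∃ χ : IrrCharacter G, (∀ x : H, (χ : G → ℂ) x = (θ : H → ℂ) x) ∧
      ∀ k ∈ K, (χ : G → ℂ) k = (χ : G → ℂ) 1 := by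
  set f := (QuotientGroup.mk' K).comp H.subtype with hf
  have hbij : Function.Bijective f := by
    refine ⟨(injective_iff_map_eq_one f).2 fun x hx => ?_, fun y => ?_⟩
    · have : (x : G) ∈ K ⊓ H := ⟨(QuotientGroup.eq_one_iff _).1 hx, x.2⟩
      rw [hinf, Subgroup.mem_bot] at this
      exact Subtype.ext this
    · obtain ⟨g, rfl⟩ := QuotientGroup.mk'_surjective K y
      have hg : g ∈ K ⊔ H := by rw [hsup]; exact Subgroup.mem_top _
      obtain ⟨a, ha, b, hb, rfl⟩ := Subgroup.mem_sup_of_normal_left.1 hg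
      refine ⟨⟨b, hb⟩, ?_⟩
      show QuotientGroup.mk' K b = QuotientGroup.mk' K (a * b)
      rw [map_mul, show QuotientGroup.mk' K a = 1 from (QuotientGroup.eq_one_iff a).2 ha, one_mul]
  set e := MulEquiv.ofBijective f hbij
  refine ⟨⟨_, isIrrCharacter_comp_surjective θ.2 (e.symm.toMonoidHom.comp (QuotientGroup.mk' K))
    (e.symm.surjective.comp (QuotientGroup.mk'_surjective K))⟩, fun x => ?_, fun k hk => ?_⟩
  · show (θ : H → ℂ) (e.symm (QuotientGroup.mk' K (x : G))) = _
    rw [show QuotientGroup.mk' K (x : G) = e x from rfl, MulEquiv.symm_apply_apply]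
  · show (θ : H → ℂ) (e.symm (QuotientGroup.mk' K k)) = (θ : H → ℂ) (e.symm (QuotientGroup.mk' K 1))
    rw [map_one, show QuotientGroup.mk' K k = 1 from (QuotientGroup.eq_one_iff k).2 hk]

end Main

end CfsgLib.Block
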