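import Cfsg.Agent.Lib.BlockCoveringDefect
import Cfsg.Agent.Lib.BlockGlaubermanSub
import Cfsg.Agent.Lib.BlockBound
import Cfsg.Agent.Lib.BlockPairBridge
import Cfsg.Agent.Lib.CorePSolvable
import Cfsg.Agent.Lib.StableComplement
import Cfsg.Agent.Lib.LocalBase
import Cfsg.Prelude.Def_Local

/-!
# Blocks over the `p'`-core of a group with a constrained `p`-series, and blocks of principal type
-/

set_option autoImplicit false
set_option linter.style.haveILetI false
set_option linter.unusedSectionVars false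
set_option linter.unusedFintypeInType false

namespace CfsgLib.Block

open Cfsg CfsgLib.Char CfsgLib.Glauberman
open scoped ComplexConjugate Classical

universe u

variable {G : Type u} [Group G] [Fintype G] {p : ℕ} [Fact p.Prime] {M : Ideal AlgInt}

theorem gconv_comm_of_invBy {R : Type*} [CommRing R] {C : Subgroup G} {a b : G → R}
    (ha : InvBy C a) (hb : ∀ g, g ∉ C → b g = 0) : gconv a b = gconv b a := by
  funext g
  simp only [gconv]
  refine Fintype.sum_equiv ((Equiv.inv G).trans (Equiv.mulRight g)) _ _ fun y => ?_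
  show a y * b (y⁻¹ * g) = b (y⁻¹ * g) * a ((y⁻¹ * g)⁻¹ * g)
  by_cases hy : y⁻¹ * g ∈ C
  · rw [← ha _ (inv_mem hy) y, mul_comm]
    congr 2
    group
  · rw [hb _ hy, mul_zero, zero_mul]

/-- A block function of a subgroup of `H` is one inside `H`. -/
theorem isBlockFn_subgroupOf (hM : IsPModular p M) {C H : Subgroup G} [Fintype H] (hCH : C ≤ H)
    {β : G → ResField M} (h : IsBlockFn hM C β) :
    IsBlockFn hM (G := H) (C.subgroupOf H) (fun k : H => β k) := by
  obtain ⟨e, he, rfl⟩ := h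
  haveI := Fintype.ofFinite C
  haveI := Fintype.ofFinite (C.subgroupOf H)
  let φ : C ≃* C.subgroupOf H := (Subgroup.subgroupOfEquivOfLe hCH).symm
  refine ⟨irrMap φ '' e, isPBlock_irrMap φ he, ?_⟩
  funext k
  have hcoeff : subgroupBlockCoeff (C.subgroupOf H) (irrMap φ '' e) k =
      subgroupBlockCoeff C e (k : G) := by
    by_cases hk : (k : G) ∈ C
    · have hk' : k = ((φ ⟨(k : G), hk⟩ : C.subgroupOf H) : H) := Subtype.ext rfl
      conv_lhs => rw [hk', subgroupBlockCoeff_coe, blockCoeff_irrMap]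
      exact (subgroupBlockCoeff_coe C e ⟨(k : G), hk⟩).symm
    · rw [subgroupBlockCoeff_not_mem _ _ hk, subgroupBlockCoeff_not_mem]
      exact hk
  simp only [bFn, hcoeff]

variable (hM : IsPModular p M) {K : Subgroup G} [hKn : K.Normal] [Fintype K]

include hM in
/-- The Brauer image of a stable block of a normal `p'`-subgroup is a block of the fixed points. -/
theorem isBlockFn_trc (hK : ¬ p ∣ Nat.card K) {b : Set (IrrCharacter K)} (hb : IsPBlock M b)
    {R : Subgroup G} (hR : IsPGroup p R) (hinv : ∀ x ∈ R, cnj x (bFn hM K b) = bFn hM K b) :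
    IsBlockFn hM (K ⊓ Subgroup.centralizer (R : Set G)) (trc R (bFn hM K b)) := by
  haveI := charP_resField hM
  haveI := nontrivial_resField hM
  obtain ⟨θ, hθ⟩ := isPBlock_nonempty hM hb
  have hone : Nat.card b ≤ 1 := by
    refine (card_block_le hM hb).trans ?_
    have : blockDefect p b = 0 := by
      rw [blockDefect_eq, Nat.factorization_eq_zero_of_not_dvd hK, Nat.zero_sub]
    rw [this]
    norm_num
  have hbs : b = {θ} := by
    refine Set.eq_singleton_iff_unique_mem.2 ⟨hθ, fun η hη => ?_⟩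
    haveI := Finite.card_le_one_iff_subsingleton.1 hone
    exact congrArg Subtype.val (Subsingleton.elim (⟨η, hη⟩ : b) ⟨θ, hθ⟩)
  have hnorm : ∀ s ∈ R, ∀ g ∈ K, s * g * s⁻¹ ∈ K := fun s _ g hg => hKn.conj_mem g hg s
  set φ := conjOn K R hnorm with hφdef
  have hθinv : Inv φ (θ : K → ℂ) := by
    rw [inv_conjOn_iff]
    intro s hs g g' e
    have hiff : ∀ a, a ∈ K ↔ s⁻¹ * a * s ∈ K := fun a => ⟨fun h => hKn.conj_mem' a h s,
      fun h => by
        have := hKn.conj_mem _ h s
        rwa [show s * (s⁻¹ * a * s) * s⁻¹ = a by group] at this⟩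
    obtain ⟨h1, h2⟩ := conjSet_data hM s hiff hb
    rw [hinv s hs] at h2
    have hmem : θ ∈ conjSet K K s b := by rw [bFn_injOn hM K h1 hb h2]; exact hθ
    obtain ⟨ξ, hξ, hval⟩ := hmem
    rw [hbs, Set.mem_singleton_iff] at hξ
    subst hξ
    exact hval g g' e
  set C' := K ⊓ Subgroup.centralizer (R : Set G) with hC'
  haveI := Fintype.ofFinite C'
  let ε : fix φ ≃* C' := fixEquiv K R hnorm C' rfl
  set β := bFn hM K b with hβdef
  have hf : ∀ n : K, eFun θ n ∈ locRing hM := eFun_mem hK hM θ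
  have hval : ∀ n : K, β (n : G) = res hM ⟨eFun θ n, hf n⟩ := by
    intro n
    rw [hβdef, bFn_eq_ext0, ext0_coe, gFn_block hM hb, cred]
    refine congrArg (res hM) (Subtype.ext ?_)
    show coef (indVal b) n = coef (Pi.single θ 1) n
    congr 1
    funext η
    by_cases h : η = θ
    · subst h; simp [indVal, hθ]
    · have : η ∉ b := by rw [hbs]; simpa using h
      simp [indVal, this, h]
  set F : C' → ℂ := fun c => eFun θ ((ε.symm c : fix φ) : K) with hF
  have hFc : IsClassFunction C' F := fun c d => by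
    have e : ((ε.symm (d * c * d⁻¹) : fix φ) : K) =
        ((ε.symm d : fix φ) : K) * ((ε.symm c : fix φ) : K) * ((ε.symm d : fix φ) : K)⁻¹ :=
      Subtype.ext rfl
    simp only [hF, e]
    exact coef_classFunction _ _ _
  set w := ofFun hM F hFc (fun c => hf _) with hw
  have hsupp : ∀ g, g ∉ C' → trc R β g = 0 := by
    intro g hg
    rw [trc]
    split_ifs with h
    · exact IsBlockFn.supp (hM := hM) (H := K) ⟨b, hb, rfl⟩ fun h' => hg ⟨h', h⟩
    · rfl
  have hwcred : ext0 C' (cred hM w) = trc R β := by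
    rw [← ext0_restrict hsupp]
    congr 1
    funext c
    rw [hw, cred_ofFun, trc, if_pos (show (c : G) ∈ Subgroup.centralizer (R : Set G) from c.2.2)]
    exact (hval ⟨c, c.2.1⟩).symm
  have hinvR : InvBy R β := invBy_of_cnj hinv
  have hsq : cred hM (w * w) = cred hM w := by
    apply ext0_injective C'
    rw [cred_mul_eq_gconv, ext0_gconv, hwcred, ← trc_gconv hR hinvR hinvR, hβdef,
      IsBlockFn.mul_self (hM := hM) (H := K) ⟨b, hb, rfl⟩]
  obtain ⟨β₀, hβ₀⟩ := corr_surjective hR hK hM hθinv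
  set ξ₀ := irrMap ε β₀ with hξ₀
  have hev : ∀ ξ : IrrCharacter C', ev hM ξ w = if ξ = ξ₀ then 1 else 0 := by
    intro ξ
    set η := irrMap ε.symm ξ with hη
    have hξ : ξ = irrMap ε η := (irrMap_symm ε ξ).symm
    have e : ev hM ξ w = pairing hM θ η := by
      have hom : om (η : fix φ → ℂ) (fun c : fix φ => eFun θ (c : K)) = om (ξ : C' → ℂ) F := by
        rw [hξ, om, om]
        have h1 : (irrMap ε η : C' → ℂ) 1 = (η : fix φ → ℂ) 1 := by
          rw [← map_one ε, irrMap_apply]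
        rw [h1]
        congr 1
        refine Fintype.sum_equiv ε.toEquiv _ _ fun c => ?_
        show _ = F (ε c) * (irrMap ε η : C' → ℂ) (ε c)
        rw [irrMap_apply, hF]
        simp
      have hmem : om (ξ : C' → ℂ) F ∈ locRing hM := hom ▸ om_mem hK hM hf η
      rw [pairing, hom, rd_of_mem hM hmem, hw]
      rfl
    have hiff : ξ = ξ₀ ↔ η = β₀ := by
      rw [hξ, hξ₀]
      exact ⟨fun h => irrMap_injective ε h, fun h => by rw [h]⟩
    rw [e]
    by_cases h : η = β₀
    · rw [if_pos (hiff.2 h), h, ← hβ₀]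
      exact pairing_corr hR hK hM β₀
    · rw [if_neg fun h' => h (hiff.1 h')]
      by_contra hne
      exact h (corr_injective hR hK hM ((eq_corr hR hK hM hθinv hne).symm.trans hβ₀.symm))
  have hB₀ : IsPBlock M (blockOf M (ξ₀ : C' → ℂ)) := isPBlock_blockOf ξ₀
  refine ⟨blockOf M (ξ₀ : C' → ℂ), hB₀, ?_⟩
  rw [bFn_eq_ext0, gFn_block hM hB₀, ← hwcred]
  congr 1
  funext c
  have hsing : ∀ ξ, ξ ∈ blockOf M (ξ₀ : C' → ℂ) ↔ ξ = ξ₀ := by
    intro ξ
    refine ⟨fun h => ?_, fun h => h ▸ mem_blockOf_self hM ξ₀⟩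
    have h2 := ev_eq_of_mem hM hB₀ h (mem_blockOf_self hM ξ₀) w
    rw [hev, hev, if_pos rfl] at h2
    by_contra hne
    rw [if_neg hne] at h2
    exact zero_ne_one h2
  refine ((mk_redIdeal_eq_iff hM _ _).1 (mk_eq_of_idem hM w _ ((mk_redIdeal_eq_iff hM _ _).2
    (congrFun hsq)) (bIdem_sq hM hB₀) fun ξ => ?_) c).symm
  rw [hev, ev_bIdem]
  simp only [hsing]

section Core

variable (hK : ¬ p ∣ Nat.card K) {b : Set (IrrCharacter K)} (hb : IsPBlock M b)
  (hinv : ∀ x : G, cnj x (bFn hM K b) = bFn hM K b)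
  {L : Subgroup G} [hLn : L.Normal] (hKL : K ≤ L) (hLreg : ∀ l ∈ L, ¬ p ∣ orderOf l → l ∈ K)
  {Q : Subgroup G} (hQL : Q ≤ L) (hQ : IsPGroup p Q)
  (hCreg : ∀ c ∈ Subgroup.centralizer (Q : Set G), ¬ p ∣ orderOf c → c ∈ K)

include hM hb hinv in
theorem orbitSet_eq_of_cnj : orbitSet (G := G) b = b := by
  refine Set.Subset.antisymm ?_ (subset_orbitSet b)
  rintro ψ ⟨g, θ, hθ, hψ⟩
  have hiff : ∀ a : G, a ∈ K ↔ g⁻¹⁻¹ * a * g⁻¹ ∈ K := fun a => ⟨fun h => by
    rw [inv_inv]; exact hKn.conj_mem a h g, fun h => by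
    have := hKn.conj_mem _ h g⁻¹
    rwa [show g⁻¹ * (g⁻¹⁻¹ * a * g⁻¹) * g⁻¹⁻¹ = a by group] at this⟩
  obtain ⟨h1, h2⟩ := conjSet_data hM g⁻¹ hiff hb
  rw [hinv] at h2
  rw [← bFn_injOn hM K h1 hb h2]
  refine ⟨θ, hθ, fun c c' hc => ?_⟩
  rw [hψ]
  refine congrArg (θ : K → ℂ) (Subtype.ext ?_)
  show g * (c' : G) * g⁻¹ = c
  rw [hc]
  group

include hM hK hb hinv hKL hLreg hQL hQ hCreg in
/-- The characters over a stable block of the core form one block of full defect. -/
theorem single_block :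
    ∃ B : Set (IrrCharacter G), IsPBlock M B ∧ B = covSet b ∧ gFn hM B = bFn hM K b ∧
      ∀ S : Sylow p G, IsDefectGroup p M B (S : Subgroup G) := by
  haveI := charP_resField hM
  haveI := Fintype.ofFinite L
  set β := bFn hM K b with hβdef
  set C := Subgroup.centralizer (Q : Set G) with hCdef
  set γ := trc Q β with hγdef
  have horb := orbitSet_eq_of_cnj hM hb hinv
  have hβinv : ∀ H : Subgroup G, InvBy H β := fun H => invBy_of_cnj fun x _ => hinv x
  have hcov : cred hM (covElt (G := G) hM hb) = β := by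
    rw [cred_covElt, hβdef, bFn_eq_ext0, gFn_block hM hb]
    congr 2
    refine Subtype.ext ?_
    show indVal (orbitSet b) = indVal b
    rw [horb]
  have hγK : IsBlockFn hM (K ⊓ C) γ := isBlockFn_trc hM hK hb hQ fun x _ => hinv x
  have hγsupp : ∀ g, g ∉ C → γ g = 0 := fun g hg => trc_supp β hg
  have hγinv : InvBy C γ := invBy_trc (Subgroup.centralizer_le_normalizer _) (hβinv C)
  obtain ⟨e, he, hγe⟩ := exists_occ (hM := hM) (H := C) hγsupp hγinv hγK.mul_self hγK.ne_zero
  have hesupp : ∀ g, g ∉ K ⊓ C → e g = 0 := by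
    intro g hg
    by_cases hgC : g ∈ C
    · obtain ⟨E, hE, rfl⟩ := he
      rw [bFn_eq_ext0, show g = ((⟨g, hgC⟩ : C) : G) from rfl, ext0_coe, gFn_block hM hE]
      refine cred_bIdem_singular hM hE ?_
      by_contra hreg
      rw [← Subgroup.orderOf_coe] at hreg
      exact hg ⟨hCreg g hgC hreg, hgC⟩
    · exact he.supp hgC
  have heγ : γ = e := by
    rcases hγK.occ_or hesupp (invBy_mono he.invBy inf_le_right) he.mul_self with h | h
    · rw [← gconv_comm_of_invBy hγinv (fun g hg => he.supp hg), hγe] at h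
      exact h.symm
    · rw [← gconv_comm_of_invBy hγinv (fun g hg => he.supp hg), hγe] at h
      exact absurd h he.ne_zero
  have hpair : PairFn hM Q γ := ⟨hQ, heγ ▸ he⟩
  have hblock : ∀ B₁, IsPBlock M B₁ → (∃ χ ∈ B₁, ∃ θ ∈ b, Over K χ θ) →
      gconv (gFn hM B₁) β = gFn hM B₁ ∧ PairIn hM B₁ Q γ := by
    intro B₁ hB₁ hc
    obtain ⟨χ, hχ, θ, hθ, hover⟩ := hc
    have h1 : gconv (gFn hM B₁) β = gFn hM B₁ := by
      rw [← hcov]; exact gFn_mul_covElt hM hb hB₁ hχ hθ hover
    refine ⟨h1, hpair, hB₁, ?_⟩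
    -- a block of `L` below `B₁`
    obtain ⟨η, hη⟩ := exists_over (N := L) χ
    set bL := blockOf M (η : L → ℂ)
    have hbL : IsPBlock M bL := isPBlock_blockOf η
    have hne := gconv_bFn_ne_zero hM hbL hB₁ hχ (mem_blockOf_self hM η) hη
    have hLsupp : ∀ g, g ∉ K → bFn hM L bL g = 0 := by
      intro g hg
      by_cases hgL : g ∈ L
      · rw [bFn_eq_ext0, show g = ((⟨g, hgL⟩ : L) : G) from rfl, ext0_coe, gFn_block hM hbL]
        refine cred_bIdem_singular hM hbL ?_
        by_contra hreg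
        rw [← Subgroup.orderOf_coe] at hreg
        exact hg (hLreg g hgL hreg)
      · exact IsBlockFn.supp (hM := hM) (H := L) ⟨bL, hbL, rfl⟩ hgL
    have hLfn : IsBlockFn hM L (bFn hM L bL) := ⟨bL, hbL, rfl⟩
    have hLβ : bFn hM L bL = β := by
      rcases IsBlockFn.occ_or (hM := hM) (H := K) (β := β) ⟨b, hb, rfl⟩ hLsupp
        (invBy_mono hLfn.invBy hKL) hLfn.mul_self with h | h
      · have h2 : gconv β (bFn hM L bL) = gconv (bFn hM L bL) β :=
          gconv_comm_of_invBy (hβinv L) fun g hg => hLfn.supp hg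
        rcases IsBlockFn.occ_or (hM := hM) (H := L) (β := bFn hM L bL) hLfn
          (a := β) (fun g hg => IsBlockFn.supp (hM := hM) (H := K) ⟨b, hb, rfl⟩ fun h' => hg (hKL h'))
          (hβinv L) (IsBlockFn.mul_self (hM := hM) (H := K) ⟨b, hb, rfl⟩) with h3 | h3
        · rw [h2, h] at h3; exact h3.symm
        · rw [h2, h] at h3
          exact absurd h3 (IsBlockFn.ne_zero (hM := hM) (H := K) ⟨b, hb, rfl⟩)
      · exfalso
        refine hne ?_
        calc gconv (gFn hM B₁) (bFn hM L bL) = gconv (gconv (gFn hM B₁) β) (bFn hM L bL) := by rw [h1]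
          _ = gconv (gFn hM B₁) (gconv (bFn hM L bL) β) := by
            rw [gconv_assoc, gconv_comm_of_invBy (hβinv L) fun g hg => hLfn.supp hg]
          _ = 0 := by rw [h, gconv_zero]
    obtain ⟨c, hc, hne'⟩ := brauerNonzero_of_gconv hM hbL hQ hQL (by rw [hLβ]; exact hγK.ne_zero)
      hB₁ hne
    have hne2 : trc Q (gFn hM B₁) ≠ 0 := fun h0 => by
      have := congrFun h0 c
      rw [trc, if_pos hc, gFn_block hM hB₁] at this
      exact hne' this
    rcases hpair.trc_gFn_or hB₁ with h | h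
    · exact h
    · exfalso
      refine hne2 ?_
      rw [← h1, trc_gconv hQ (invBy_gFn hM B₁ Q) (hβinv Q), ← hγdef, h]
  obtain ⟨θ, hθ⟩ := isPBlock_nonempty hM hb
  obtain ⟨χ₀, hχ₀, hover₀⟩ := exists_irr_over (G := G) θ.2
  set χ : IrrCharacter G := ⟨χ₀, hχ₀⟩
  set B := blockOf M (χ : G → ℂ)
  have hB : IsPBlock M B := isPBlock_blockOf χ
  have hχB : χ ∈ B := mem_blockOf_self hM χ
  have hBset : B = covSet b := by
    ext ψ
    constructor
    · intro hψ φ hφ
      have := mem_orbitSet_of_covers hM hB hb hχB hθ (show Over K χ θ from hover₀) hψ hφ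
      rwa [horb] at this
    · intro hψ
      obtain ⟨φ, hφ⟩ := exists_over (N := K) ψ
      have h1 := (hblock _ (isPBlock_blockOf ψ)
        ⟨ψ, mem_blockOf_self hM ψ, φ, hψ φ hφ, hφ⟩).2
      have h2 := (hblock B hB ⟨χ, hχB, θ, hθ, hover₀⟩).2
      rw [(existsUnique_pairIn hpair).unique h2 h1]
      exact mem_blockOf_self hM ψ
  have hgFn : gFn hM B = β := by
    rw [← hcov, gFn_block hM hB]
    congr 1
    refine Subtype.ext ?_
    show indVal B = indVal (covSet (orbitSet b))
    rw [horb, hBset]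
  refine ⟨B, hB, hBset, hgFn, fun S => ?_⟩
  have hne : trc (S : Subgroup G) β ≠ 0 :=
    (isBlockFn_trc hM hK hb S.2 fun x _ => hinv x).ne_zero
  obtain ⟨g, hg⟩ := Function.ne_iff.1 hne
  have hgS : g ∈ Subgroup.centralizer ((S : Subgroup G) : Set G) := by
    by_contra h
    exact hg (trc_supp β h)
  obtain ⟨D, hD, hSD⟩ := exists_defectGroup_ge hM hB S.2 ⟨g, hgS, by
    rw [← gFn_block hM hB, hgFn]
    rw [trc, if_pos hgS] at hg
    exact hg⟩
  rwa [← S.3 (isPGroup_defectGroup hM hB hD) hSD]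

include hM hK hb hinv hKL hLreg hQL hQ in
/-- Such a block is of principal type. -/
theorem principal_type (hCL : Subgroup.centralizer (Q : Set G) ≤ L) (hQS : ¬ p ∣ Q.relIndex L)
    {R : Subgroup G} (hR : IsPGroup p R) :
    IsBlockFn hM (Subgroup.centralizer (R : Set G)) (trc R (bFn hM K b)) := by
  have hp := (Fact.out : p.Prime)
  set H := Subgroup.centralizer (R : Set G) with hHdef
  haveI := Fintype.ofFinite H
  set f := QuotientGroup.mk' K with hf
  have hfs : Function.Surjective f := QuotientGroup.mk'_surjective K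
  have hker : (Nat.card f.ker).Coprime p := by
    rw [hf, QuotientGroup.ker_mk']
    exact ((hp.coprime_iff_not_dvd).2 hK).symm
  -- the image of `L` is a `p`-group
  have hfL : IsPGroup p (L.map f) := by
    rintro ⟨_, l, hl, rfl⟩
    obtain ⟨k, m, hm, hlm⟩ :=
      Nat.exists_eq_pow_mul_and_not_dvd (isOfFinOrder_of_finite l).orderOf_pos.ne' p hp.ne_one
    refine ⟨k, Subtype.ext ?_⟩
    show f l ^ p ^ k = 1
    rw [← map_pow, hf, QuotientGroup.mk'_apply, QuotientGroup.eq_one_iff]
    refine hLreg _ (pow_mem hl _) ?_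
    rw [orderOf_pow, hlm, Nat.gcd_mul_right_left, Nat.mul_div_cancel_left m (pow_pos hp.pos k)]
    exact hm
  have hsyl : ∀ (L₁ Q₁ : Subgroup G), L₁ ≤ L → Q₁ ≤ L₁ → IsPGroup p Q₁ → ¬ p ∣ Q₁.relIndex L₁ →
      L₁.map f = Q₁.map f := by
    intro L₁ Q₁ hL₁ hQ₁ hQ₁p hidx
    refine (Subgroup.eq_of_le_of_card_ge (Subgroup.map_mono hQ₁) ?_).symm
    obtain ⟨j, hj⟩ := IsPGroup.iff_card.1 (hfL.to_le (Subgroup.map_mono hL₁))
    have hdvd : Nat.card (L₁.map f) ∣ Nat.card (Q₁.map f) := by
      have h1 : (Q₁.map f).relIndex (L₁.map f) ∣ Q₁.relIndex L₁ := by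
        have h := Subgroup.index_map_dvd (Q₁.subgroupOf L₁) (f.subgroupMap_surjective L₁)
        have e : (Q₁.subgroupOf L₁).map (f.subgroupMap L₁) = (Q₁.map f).subgroupOf (L₁.map f) := by
          ext ⟨y, hy⟩
          constructor
          · rintro ⟨x, hx, hxy⟩
            exact ⟨x, hx, congrArg Subtype.val hxy⟩
          · rintro ⟨x, hx, hxy⟩
            exact ⟨⟨x, hQ₁ hx⟩, hx, Subtype.ext hxy⟩
        rwa [e] at h
      have h2 : (Q₁.map f).relIndex (L₁.map f) ∣ p ^ j := hj ▸ Subgroup.relIndex_dvd_card _ _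
      obtain ⟨i, -, hi⟩ := (Nat.dvd_prime_pow hp).1 h2
      have hi0 : i = 0 := by
        by_contra h0
        exact hidx ((dvd_pow_self p h0).trans (hi ▸ h1))
      rw [hi0, pow_zero] at hi
      have h3 := Subgroup.card_mul_index ((Q₁.map f).subgroupOf (L₁.map f))
      rw [show ((Q₁.map f).subgroupOf (L₁.map f)).index = 1 from hi, mul_one,
        Nat.card_congr (Subgroup.subgroupOfEquivOfLe (Subgroup.map_mono (f := f) hQ₁)).toEquiv] at h3
      exact h3 ▸ dvd_rfl
    exact Nat.le_of_dvd Nat.card_pos hdvd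
  have hfQ : L.map f = Q.map f := hsyl L Q le_rfl hQL hQ hQS
  obtain ⟨Q'⟩ := (inferInstance : Nonempty (Sylow p (L ⊓ H : Subgroup G)))
  set Q₁ := (Q' : Subgroup (L ⊓ H : Subgroup G)).map (L ⊓ H).subtype with hQ₁
  have hQ₁le : Q₁ ≤ L ⊓ H := Subgroup.map_subtype_le _
  have hQ₁p : IsPGroup p Q₁ := Q'.2.map _
  have hidx₁ : ¬ p ∣ Q₁.relIndex (L ⊓ H) := by
    rw [Subgroup.relIndex, hQ₁, Subgroup.subgroupOf,
      Subgroup.comap_map_eq_self_of_injective (Subgroup.subtype_injective _)]
    exact Q'.not_dvd_index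
  have hfL₁ := hsyl (L ⊓ H) Q₁ inf_le_left hQ₁le hQ₁p hidx₁
  -- regular elements centralizing a Sylow subgroup of `C_L(R)`
  have hreg : ∀ c ∈ H, c ∈ Subgroup.centralizer (Q₁ : Set G) → ¬ p ∣ orderOf c → c ∈ K := by
    intro c hcH hcQ hc
    haveI hXn : (L.map f).Normal := hLn.map f hfs
    have hT : IsPGroup p (L.map f ⊔ R.map f : Subgroup (G ⧸ K)) :=
      hfL.to_sup_of_normal_left (hR.map f)
    have hcentX : ∀ x ∈ L.map f, f c * x = x * f c := by
      refine CfsgLib.Local.thompson_AxB' (R := L.map f) (Q := R.map f)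
        hT le_sup_left le_sup_right ?_ (fun x hx => hXn.conj_mem x hx _) ?_ ?_ ?_
      · rw [Subgroup.normalizer_eq_top]; exact le_top
      · exact Nat.Coprime.coprime_dvd_left (orderOf_map_dvd f c) ((hp.coprime_iff_not_dvd).2 hc).symm
      · rintro _ ⟨r, hr, rfl⟩
        rw [← map_mul, ← map_mul, Subgroup.mem_centralizer_iff.1 hcH r hr]
      · rintro _ ⟨l, hl, rfl⟩ hfix
        -- a fixed point of `R` in the coset of `l`
        let X := {k : G // k * l⁻¹ ∈ K}
        have hX : Nat.card X = Nat.card K := Nat.card_congr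
          { toFun := fun k => ⟨k.1 * l⁻¹, k.2⟩
            invFun := fun k => ⟨k * l, by rw [mul_inv_cancel_right]; exact k.2⟩
            left_inv := fun k => Subtype.ext (inv_mul_cancel_right _ _)
            right_inv := fun k => Subtype.ext (mul_inv_cancel_right _ _) }
        have hact : ∀ (r : R) (k : X), (r : G) * k * (r : G)⁻¹ * l⁻¹ ∈ K := by
          intro r k
          rw [← QuotientGroup.eq_one_iff]
          have h1 : f (k : G) = f l := by
            have := (QuotientGroup.eq_one_iff _).2 k.2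
            rw [← QuotientGroup.mk'_apply, map_mul, map_inv, mul_inv_eq_one] at this
            exact this
          show f ((r : G) * k * (r : G)⁻¹ * l⁻¹) = 1
          rw [map_mul, map_mul, map_mul, map_inv, map_inv, h1, hfix _ ⟨r, r.2, rfl⟩]
          group
        letI : MulAction R X :=
          { smul := fun r k => ⟨(r : G) * k * (r : G)⁻¹, hact r k⟩
            one_smul := fun k => Subtype.ext (show (1 : G) * k * 1⁻¹ = k by group)
            mul_smul := fun r s k => Subtype.ext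
              (show ((r : G) * s) * k * ((r : G) * s)⁻¹ = r * (s * k * (s : G)⁻¹) * (r : G)⁻¹ by group) }
        obtain ⟨k, hk⟩ := hR.nonempty_fixed_point_of_prime_not_dvd_card X (by rw [hX]; exact hK)
        have hkl : f (k : G) = f l := by
          have := (QuotientGroup.eq_one_iff _).2 k.2
          rw [← QuotientGroup.mk'_apply, map_mul, map_inv, mul_inv_eq_one] at this
          exact this
        have hkH : (k : G) ∈ H := Subgroup.mem_centralizer_iff.2 fun r hr => by
          have h := congrArg Subtype.val (hk ⟨r, hr⟩)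
          change r * (k : G) * r⁻¹ = k at h
          exact mul_inv_eq_iff_eq_mul.1 h
        have hkL : (k : G) ∈ L := by
          have := mul_mem (hKL k.2) hl
          rwa [inv_mul_cancel_right] at this
        obtain ⟨q, hq, hfq⟩ : f (k : G) ∈ Q₁.map f := hfL₁ ▸ ⟨k, ⟨hkL, hkH⟩, rfl⟩
        rw [← hkl, ← hfq, ← map_mul, ← map_mul, Subgroup.mem_centralizer_iff.1 hcQ q hq]
    have hcC : f c ∈ Subgroup.centralizer ((Q.map f : Subgroup (G ⧸ K)) : Set (G ⧸ K)) := by
      rw [← hfQ, Subgroup.mem_centralizer_iff]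
      exact fun x hx => (hcentX x hx).symm
    obtain ⟨z, hz, hzc⟩ := CfsgLib.Stable.centralizer_map_le f hfs hker hQ hcC
    refine hLreg c ?_ hc
    have : z⁻¹ * c ∈ K := by
      rw [← QuotientGroup.eq_one_iff, ← QuotientGroup.mk'_apply, map_mul, map_inv, ← hf, hzc,
        inv_mul_cancel]
    have := mul_mem (hCL hz) (hKL this)
    rwa [mul_inv_cancel_left] at this
  -- apply the criterion inside the centralizer
  set γ := trc R (bFn hM K b) with hγdef
  have hγ : IsBlockFn hM (K ⊓ H) γ := isBlockFn_trc hM hK hb hR fun x _ => hinv x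
  obtain ⟨b', hb', hbb'⟩ := isBlockFn_subgroupOf hM (inf_le_right : K ⊓ H ≤ H) hγ
  haveI : ((K ⊓ H).subgroupOf H).Normal := by
    rw [Subgroup.inf_subgroupOf_right]; infer_instance
  haveI : ((L ⊓ H).subgroupOf H).Normal := by
    rw [Subgroup.inf_subgroupOf_right]; infer_instance
  haveI := Fintype.ofFinite ((K ⊓ H).subgroupOf H)
  have hcnj : ∀ x : H, cnj x (bFn hM ((K ⊓ H).subgroupOf H) b') = bFn hM ((K ⊓ H).subgroupOf H) b' := by
    intro x
    rw [hbb']
    funext k
    show γ ((x⁻¹ * k * x : H) : G) = γ (k : G)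
    have h := cnj_eq_self_of_invBy (invBy_trc (Subgroup.centralizer_le_normalizer _)
      (invBy_of_cnj (K := H) fun y _ => hinv y)) x.2
    exact congrFun h (k : G)
  obtain ⟨B', hB', -, hg, -⟩ := single_block hM (G := H) (K := (K ⊓ H).subgroupOf H)
    (by rw [Nat.card_congr (Subgroup.subgroupOfEquivOfLe inf_le_right).toEquiv]
        exact fun h => hK (h.trans (Subgroup.card_dvd_of_le inf_le_left)))
    hb' hcnj (L := (L ⊓ H).subgroupOf H) (Subgroup.comap_mono (inf_le_inf_right H hKL))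
    (fun l hl hreg' => ⟨hLreg l (Subgroup.mem_inf.1 hl).1 (by rwa [Subgroup.orderOf_coe]), l.2⟩)
    (Q := Q₁.subgroupOf H) (Subgroup.comap_mono hQ₁le)
    (hQ₁p.comap_of_injective _ (Subgroup.subtype_injective H))
    (fun c hc hreg' => ⟨hreg c c.2 ((mem_centralizer_subgroupOf (hQ₁le.trans inf_le_right) c).1 hc)
      (by rwa [Subgroup.orderOf_coe]), c.2⟩)
  refine ⟨B', hB', ?_⟩
  rw [bFn_eq_ext0, hg, hbb', ext0_restrict fun g hg' => hγ.supp fun h => hg' h.2]

include hM in
/-- Blocks of a centralizer inducing a block are those under its Brauer image. -/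
theorem isInduced_centralizer_iff {R : Subgroup G} (hR : IsPGroup p R)
    [Fintype (Subgroup.centralizer (R : Set G))]
    {e : Set (IrrCharacter (Subgroup.centralizer (R : Set G)))} (he : IsPBlock M e)
    {B : Set (IrrCharacter G)} (hB : IsPBlock M B) :
    IsInducedBlock M (Subgroup.centralizer (R : Set G)) e B ↔
      gconv (trc R (gFn hM B)) (bFn hM (Subgroup.centralizer (R : Set G)) e) =
        bFn hM (Subgroup.centralizer (R : Set G)) e := by
  haveI := nontrivial_resField hM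
  have hC : Subgroup.centralizer (R : Set G) ≤ (Subgroup.centralizer (R : Set G)) := le_rfl
  have hN : (Subgroup.centralizer (R : Set G)) ≤ Subgroup.normalizer (R : Set G) := Subgroup.centralizer_le_normalizer _
  obtain ⟨ξ, hξ⟩ := isPBlock_nonempty hM he
  obtain ⟨χ, hχ⟩ := exists_ev_eq_brLam hM hR hC hN ξ
  have hind : IsInducedBlock M (Subgroup.centralizer (R : Set G)) e (blockOf M (χ : G → ℂ)) :=
    isInducedBlock_of_ev hM (Subgroup.centralizer (R : Set G)) he (isPBlock_blockOf χ) hξ (mem_blockOf_self hM χ) fun v => by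
      rw [← hχ, brLam_apply]
      refine ev_congr_cred hM (funext fun h => ?_) ξ
      rw [cred_resLift, cred_brLift, if_pos h.2]
  have h1 : IsInducedBlock M (Subgroup.centralizer (R : Set G)) e B ↔ χ ∈ B :=
    ⟨fun h => isInducedBlock_unique hM (Subgroup.centralizer (R : Set G)) h hind ▸ mem_blockOf_self hM χ,
      fun h => isPBlock_eq_blockOf hM hB h ▸ hind⟩
  have h2 : χ ∈ B ↔ ξ ∈ brSet hM hR hC hN hB := by
    show _ ↔ brLam hM hR hC hN ξ (bIdem hM hB) = 1
    rw [hχ, ev_bIdem]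
    by_cases h : χ ∈ B <;> simp [h]
  rw [h1, h2]
  have hsupp : ∀ g, g ∉ (Subgroup.centralizer (R : Set G)) → trc R (gFn hM B) g = 0 := fun g hg => trc_supp _ hg
  set w : intRing (G := (Subgroup.centralizer (R : Set G))) hM := ⟨_, brSet_mem hM hR hC hN hB⟩ with hw
  have hval : trc R (gFn hM B) = ext0 (Subgroup.centralizer (R : Set G)) (cred hM w) := by
    rw [← ext0_restrict hsupp]
    congr 1
    funext k
    rw [hw, cred_brSet, gFn_block hM hB]
    rfl
  rw [hval, bFn_eq_ext0, gFn_block hM he, ← ext0_gconv, ← cred_mul_eq_gconv]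
  constructor
  · intro h
    congr 2
    refine Subtype.ext (funext fun η => ?_)
    show indVal (brSet hM hR hC hN hB) η * indVal e η = indVal e η
    by_cases hη : η ∈ e
    · have : η ∈ brSet hM hR hC hN hB := by
        refine blockOf_subset_of_indVal_mem hM (brSet_mem hM hR hC hN hB) h ?_
        rw [← isPBlock_eq_blockOf hM he hξ]; exact hη
      simp [indVal, hη, this]
    · simp [indVal, hη]
  · intro h
    have h3 := ev_congr_cred hM (ext0_injective (Subgroup.centralizer (R : Set G)) h) ξ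
    rw [map_mul, ev_bIdem, if_pos hξ, mul_one] at h3
    by_contra hne
    have h4 : ev hM ξ w = 0 := by
      rw [← map_zero (res hM)]
      refine congrArg (res hM) (Subtype.ext ?_)
      show indVal (brSet hM hR hC hN hB) ξ = 0
      simp [indVal, hne]
    rw [h4] at h3
    exact zero_ne_one h3

end Core

section Main

variable {L Q : Subgroup G} {θ : IrrCharacter K}

include hM in
/-- The block of characters over an invariant character of `O_{p'}(G)` in the constrained case. -/
theorem constrained_core_block (hK : K = pPrimeCore p G) (hL : L = pPrimePCore p G) (hQL : Q ≤ L)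
    (hQ : IsPGroup p Q) (hQS : ¬ p ∣ Q.relIndex L) (hCQ : Subgroup.centralizer (Q : Set G) ≤ L)
    (hθ : ∀ g : G, conjFn g (θ : K → ℂ) = (θ : K → ℂ))
    (B : Set (IrrCharacter G)) (hBdef : ∀ χ : IrrCharacter G, χ ∈ B ↔ Over K χ θ) :
    IsPBlock M B ∧ (∀ S : Sylow p G, IsDefectGroup p M B (S : Subgroup G)) ∧
      ∀ R : Subgroup G, IsPGroup p R → ∃! f : Set (IrrCharacter (Subgroup.centralizer (R : Set G))),
        IsInducedBlock M (Subgroup.centralizer (R : Set G)) f B := by
  have hp := (Fact.out : p.Prime)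
  have hKp : ¬ p ∣ Nat.card K := hK ▸ CfsgLib.Core.not_dvd_card_pPrimeCore p
  haveI := CfsgLib.Core.normal_pCore (G := G ⧸ pPrimeCore p G) p
  haveI hLn : L.Normal := by
    rw [hL, pPrimePCore]
    exact Subgroup.Normal.comap inferInstance _
  haveI := CfsgLib.Core.normal_pPrimeCore (G := G) p
  have hKL : K ≤ L := by
    intro k hk
    rw [hL, pPrimePCore, Subgroup.mem_comap, QuotientGroup.mk'_apply,
      (QuotientGroup.eq_one_iff k).2 (hK ▸ hk)]
    exact one_mem _
  have hLreg : ∀ l ∈ L, ¬ p ∣ orderOf l → l ∈ K := by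
    intro l hl hreg
    rw [hK, ← QuotientGroup.eq_one_iff, ← QuotientGroup.mk'_apply]
    rw [hL, pPrimePCore, Subgroup.mem_comap] at hl
    obtain ⟨j, hj⟩ := CfsgLib.Core.isPGroup_pCore p ⟨_, hl⟩
    refine orderOf_eq_one_iff.1 (Nat.eq_one_of_dvd_coprimes
      (((hp.coprime_iff_not_dvd).2 hreg).symm.pow_right j) (orderOf_map_dvd _ l)
      (orderOf_dvd_of_pow_eq_one (congrArg Subtype.val hj)))
  have hb : IsPBlock M ({θ} : Set (IrrCharacter K)) := by
    have h1 := isPBlock_blockOf (M := M) θ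
    have h2 : Nat.card (blockOf M (θ : K → ℂ)) ≤ 1 := by
      refine (card_block_le hM h1).trans ?_
      have : blockDefect p (blockOf M (θ : K → ℂ)) = 0 := by
        rw [blockDefect_eq, Nat.factorization_eq_zero_of_not_dvd hKp, Nat.zero_sub]
      rw [this]
      norm_num
    rwa [show ({θ} : Set (IrrCharacter K)) = blockOf M (θ : K → ℂ) from ?_]
    refine (Set.eq_singleton_iff_unique_mem.2 ⟨mem_blockOf_self hM θ, fun η hη => ?_⟩).symm
    haveI := Finite.card_le_one_iff_subsingleton.1 h2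
    exact congrArg Subtype.val (Subsingleton.elim (⟨η, hη⟩ : blockOf M (θ : K → ℂ))
      ⟨θ, mem_blockOf_self hM θ⟩)
  have hinv : ∀ x : G, cnj x (bFn hM K ({θ} : Set (IrrCharacter K))) = bFn hM K {θ} := by
    intro x
    have hiff : ∀ a, a ∈ K ↔ x⁻¹ * a * x ∈ K := fun a => ⟨fun h => ‹K.Normal›.conj_mem' a h x,
      fun h => by
        have := ‹K.Normal›.conj_mem _ h x
        rwa [show x * (x⁻¹ * a * x) * x⁻¹ = a by group] at this⟩
    obtain ⟨h1, h2⟩ := conjSet_data hM x hiff hb
    rw [← h2]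
    congr 1
    have hmem : θ ∈ conjSet K K x ({θ} : Set (IrrCharacter K)) := by
      refine ⟨θ, rfl, fun c c' hc => ?_⟩
      rw [← congrFun (hθ x) c]
      exact congrArg (θ : K → ℂ) (Subtype.ext hc)
    rw [isPBlock_eq_blockOf hM h1 hmem, isPBlock_eq_blockOf hM hb (Set.mem_singleton θ)]
  have hCreg : ∀ c ∈ Subgroup.centralizer (Q : Set G), ¬ p ∣ orderOf c → c ∈ K :=
    fun c hc h => hLreg c (hCQ hc) h
  obtain ⟨B₀, hB₀, hset, hg, hdef⟩ :=
    single_block hM hKp hb hinv hKL hLreg hQL hQ hCreg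
  have hBB : B = B₀ := by
    ext χ
    rw [hBdef, hset]
    refine ⟨fun h φ hφ => ?_, fun h => ?_⟩
    · obtain ⟨g, e⟩ := exists_conj_of_over h hφ
      rw [hθ] at e
      exact Subtype.ext e
    · obtain ⟨φ, hφ⟩ := exists_over (N := K) χ
      rwa [← Set.mem_singleton_iff.1 (h φ hφ)]
  subst hBB
  refine ⟨hB₀, hdef, fun R hR => ?_⟩
  haveI := Fintype.ofFinite (Subgroup.centralizer (R : Set G))
  obtain ⟨f, hf, hff⟩ := principal_type hM hKp hb hinv hKL hLreg hQL hQ hCQ hQS hR
  refine ⟨f, (isInduced_centralizer_iff hM hR hf hB₀).2 ?_, fun f' hf' => ?_⟩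
  · rw [hg, ← hff]
    exact IsBlockFn.mul_self (hM := hM) ⟨f, hf, rfl⟩
  · have h := (isInduced_centralizer_iff hM hR hf'.1 hB₀).1 hf'
    rw [hg, ← hff] at h
    refine bFn_injOn hM _ hf'.1 hf ?_
    by_contra hne
    rw [IsBlockFn.mul_ne (hM := hM) ⟨f, hf, rfl⟩ ⟨f', hf'.1, rfl⟩ (Ne.symm hne)] at h
    exact IsBlockFn.ne_zero (hM := hM) ⟨f', hf'.1, rfl⟩ h.symm

include hM in
/-- The block of characters over an invariant character of `O_{p'}(G)` of a `p`-solvable group. -/
theorem pSolvable_core_block (hsolv : IsPSolvable p G) (hK : K = pPrimeCore p G)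
    (hθ : ∀ g : G, conjFn g (θ : K → ℂ) = (θ : K → ℂ)) :
    ∃ B : Set (IrrCharacter G), IsPBlock M B ∧ (∀ χ : IrrCharacter G, χ ∈ B ↔ Over K χ θ) ∧
      (∀ P : Sylow p G, IsDefectGroup p M B (P : Subgroup G)) ∧
      ∀ D : Subgroup G, IsDefectGroup p M B D → ∃ P : Sylow p G, D = (P : Subgroup G) := by
  have hp := (Fact.out : p.Prime)
  haveI := CfsgLib.Core.normal_pPrimeCore (G := G) p
  haveI := CfsgLib.Core.normal_pCore (G := G ⧸ pPrimeCore p G) p
  set L := pPrimePCore p G with hL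
  set f := QuotientGroup.mk' (pPrimeCore p G) with hf
  obtain ⟨Q'⟩ := (inferInstance : Nonempty (Sylow p L))
  set Q := (Q' : Subgroup L).map L.subtype with hQ
  have hQS : ¬ p ∣ Q.relIndex L := by
    rw [Subgroup.relIndex, hQ, Subgroup.subgroupOf,
      Subgroup.comap_map_eq_self_of_injective (Subgroup.subtype_injective _)]
    exact Q'.not_dvd_index
  have hfQ : Q.map f = pCore p (G ⧸ pPrimeCore p G) := by
    let F : L →* pCore p (G ⧸ pPrimeCore p G) := (f.comp L.subtype).codRestrict _ fun m => m.2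
    have hFs : Function.Surjective F := by
      rintro ⟨q, hq⟩
      obtain ⟨g, rfl⟩ := QuotientGroup.mk'_surjective (pPrimeCore p G) q
      exact ⟨⟨g, hq⟩, Subtype.ext rfl⟩
    have htop := (Q'.mapSurjective hFs).3
      (show IsPGroup p (⊤ : Subgroup (pCore p (G ⧸ pPrimeCore p G))) from
        (CfsgLib.Core.isPGroup_pCore p).of_equiv Subgroup.topEquiv.symm) le_top
    rw [Sylow.coe_mapSurjective] at htop
    refine le_antisymm ?_ fun q hq => ?_
    · rintro _ ⟨_, ⟨m, -, rfl⟩, rfl⟩; exact m.2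
    · obtain ⟨m, hm, he⟩ : (⟨q, hq⟩ : pCore p (G ⧸ pPrimeCore p G)) ∈ (Q' : Subgroup L).map F :=
        htop ▸ Subgroup.mem_top _
      exact ⟨m, ⟨m, hm, rfl⟩, congrArg Subtype.val he⟩
  have hCQ : Subgroup.centralizer (Q : Set G) ≤ L := by
    intro c hc
    show f c ∈ pCore p (G ⧸ pPrimeCore p G)
    refine CfsgLib.Core.centralizer_pCore_le_of_isPSolvable
      (CfsgLib.Core.isPSolvable_of_surjective f (QuotientGroup.mk'_surjective _) hsolv)
      (CfsgLib.Core.pPrimeCore_quotient_pPrimeCore p) ?_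
    rw [← hfQ, Subgroup.mem_centralizer_iff]
    rintro _ ⟨q, hq, rfl⟩
    rw [← map_mul, ← map_mul, Subgroup.mem_centralizer_iff.1 hc q hq]
  set B : Set (IrrCharacter G) := {χ | Over K χ θ}
  obtain ⟨hB, hdef, -⟩ := constrained_core_block hM hK hL (Subgroup.map_subtype_le _) (Q'.2.map _)
    hQS hCQ hθ B (fun _ => Iff.rfl)
  refine ⟨B, hB, fun _ => Iff.rfl, hdef, fun D hD => ?_⟩
  obtain ⟨S⟩ := (inferInstance : Nonempty (Sylow p G))
  obtain ⟨x, hx⟩ := defectGroup_eq_conj hM hB (hdef S) hD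
  refine ⟨MulAut.conj x • S, ?_⟩
  rw [← hx]
  rfl

end Main

end CfsgLib.Block
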