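import Cfsg.Agent.Lib.BlockQuadDiv
import Cfsg.Agent.Lib.BlockGalAvg

/-!
# Averages of the contributions of a major subsection
-/

set_option autoImplicit false

universe u

namespace CfsgLib.Block

open Cfsg CfsgLib.Char
open scoped ComplexConjugate Classical

variable {G : Type u} [Group G] [Fintype G] {p : ℕ} {M : Ideal AlgInt} {u : G}
  {b : Set (IrrCharacter (Subgroup.centralizer ({u} : Set G)))} {B : Set (IrrCharacter G)}

theorem qCoef_self_ofReal (χ : IrrCharacter G) (k : ℕ) :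
    (((qCoef p u b χ χ k).re : ℝ) : ℂ) = qCoef p u b χ χ k :=
  Complex.conj_eq_iff_re.1 (qCoef_conj χ χ k)

theorem conj_qCoef_eq_pow (hM : IsPModular p M) (hb : IsPBlock M b) {a : ℕ}
    (ha : orderOf u = p ^ a) (χ ψ : IrrCharacter G) (k : ℕ) :
    conj (qCoef p u b χ ψ k) = qCoef p u b χ ψ (k * (p ^ (a + 1) - 1)) := by
  have hN : 0 < p ^ (a + 1) := pow_pos hM.1.pos _
  have e : ∀ z : IrrCharacter (Subgroup.centralizer ({u} : Set G)),
      conj (centVal z (qElt u) ^ k) = centVal z (qElt u) ^ (k * (p ^ (a + 1) - 1)) := by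
    intro z
    have h1 : (centVal z (qElt u) ^ k) ^ p ^ (a + 1) = 1 := by
      rw [← pow_mul, mul_comm, pow_mul, centVal_qElt_pow ha z, one_pow]
    rw [← CfsgLib.Char.inv_eq_conj_of_pow_eq_one hN h1]
    refine inv_eq_of_mul_eq_one_right ?_
    rw [← pow_add, show k + k * (p ^ (a + 1) - 1) = k * p ^ (a + 1) by
      rw [Nat.mul_sub_one, Nat.add_sub_cancel' (Nat.le_mul_of_pos_right k hN)], pow_mul, h1]
  simp only [qCoef, map_sum, map_mul, Complex.conj_natCast, Complex.conj_conj]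
  refine Finset.sum_congr rfl fun z _ => Finset.sum_congr rfl fun z' _ => ?_
  obtain ⟨A, hA⟩ := exists_int_qMat hM hb z z'
  rw [← map_mul conj (indVal b z), ← map_mul conj (indVal b z * indVal b z'), hA, map_intCast,
    e z, ← e z', Complex.conj_conj]

theorem not_dvd_mul_pow_sub_one (hp : p.Prime) {a k : ℕ} (hk : ¬ p ∣ k) :
    ¬ p ∣ k * (p ^ (a + 1) - 1) := by
  intro h
  rcases hp.dvd_mul.1 h with h | h
  · exact hk h
  · have h1 : p ∣ p ^ (a + 1) := dvd_pow_self p (Nat.succ_ne_zero a)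
    have h2 : 1 ≤ p ^ (a + 1) := pow_pos hp.pos _
    have h3 := Nat.dvd_sub h1 h
    rw [Nat.sub_sub_self h2, Nat.dvd_one] at h3
    exact hp.ne_one h3

variable (hM : IsPModular p M) (hB : IsPBlock M B)
  (hind : IsInducedBlock M (Subgroup.centralizer ({u} : Set G)) b B)

include hM hB hind in
theorem qCoef_row_re {a : ℕ} (ha : orderOf u = p ^ a) (χ : IrrCharacter G) {k : ℕ}
    (hk : ¬ p ∣ k) :
    ∑ ψ ∈ blkFin B, Complex.normSq (qCoef p u b χ ψ k) =
      (p : ℝ) ^ blockDefect p b * (qCoef p u b χ χ k).re := by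
  apply Complex.ofReal_injective
  push_cast
  rw [qCoef_self_ofReal, ← qCoef_row hM hB hind ha χ hk]
  exact Finset.sum_congr rfl fun ψ _ => (Complex.mul_conj _).symm

include hM hB hind in
theorem qCoef_trace_re {a : ℕ} (ha : orderOf u = p ^ a) {k : ℕ} (hk : ¬ p ∣ k) :
    ∑ χ ∈ blkFin B, (qCoef p u b χ χ k).re = (p : ℝ) ^ blockDefect p b * blockRank p b := by
  apply Complex.ofReal_injective
  push_cast
  rw [Finset.sum_congr rfl fun χ _ => qCoef_self_ofReal (p := p) (b := b) χ k,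
    qCoef_trace hM hB hind ha hk]
  push_cast
  rfl

variable (hbd : blockDefect p b = blockDefect p B)

include hM hB hind hbd in
theorem qCoef_ne_zero {a : ℕ} (ha : orderOf u = p ^ a) {χ ψ : IrrCharacter G} (hχ : χ ∈ B)
    (hψ : ψ ∈ B) (hψ0 : blockHeight p B (ψ : G → ℂ) = 0) {k : ℕ} (hk : ¬ p ∣ k) :
    qCoef p u b χ ψ k ≠ 0 := by
  intro h
  apply (qCoef_div hM hB hind hbd ha hχ ψ hk).2 hψ hψ0
  rw [h, zero_div, memLocalIdeal_iff_exists hM]
  exact ⟨zero_mem _, map_zero (res hM)⟩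

include hM hB hind hbd in
theorem qCoef_self_pos {a : ℕ} (ha : orderOf u = p ^ a) {χ : IrrCharacter G} (hχ : χ ∈ B)
    {k : ℕ} (hk : ¬ p ∣ k) : 0 < (qCoef p u b χ χ k).re := by
  obtain ⟨ψ, hψ, hψ0⟩ := exists_height_zero hM hB
  have h1 : Complex.normSq (qCoef p u b χ ψ k) ≤
      (p : ℝ) ^ blockDefect p b * (qCoef p u b χ χ k).re := by
    rw [← qCoef_row_re hM hB hind ha χ hk]
    exact Finset.single_le_sum (f := fun φ : IrrCharacter G => Complex.normSq (qCoef p u b χ φ k))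
      (fun φ _ => Complex.normSq_nonneg _) (mem_blkFin.2 hψ)
  have h2 : 0 < Complex.normSq (qCoef p u b χ ψ k) :=
    Complex.normSq_pos.2 (qCoef_ne_zero hM hB hind hbd ha hχ hψ hψ0 hk)
  exact pos_of_mul_pos_right (h2.trans_le h1) (by positivity)

include hM hB hind hbd in
/-- The diagonal contribution has average at least `p` to the height. -/
theorem qCoef_self_avg {a : ℕ} (ha : orderOf u = p ^ a) {χ : IrrCharacter G} (hχ : χ ∈ B) :
    ((galExps p (p ^ (a + 1))).card : ℝ) * (p : ℝ) ^ blockHeight p B (χ : G → ℂ) ≤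
      ∑ k ∈ galExps p (p ^ (a + 1)), (qCoef p u b χ χ k).re := by
  have hζ := Complex.isPrimitiveRoot_exp (p ^ (a + 1)) (pow_pos hM.1.pos _).ne'
  refine GalVal.le_sum hM hζ
    ((galVal_qCoef hM hind.1 ha hζ χ χ).congr fun k _ => qCoef_self_ofReal χ k) _
    (fun k hk => qCoef_self_pos hM hB hind hbd ha hχ (galExps_not_dvd hk)) fun k hk => ?_
  rw [qCoef_self_ofReal]
  exact (qCoef_div hM hB hind hbd ha hχ χ (galExps_not_dvd hk)).1

include hM hB hind hbd in
/-- Against a character of height zero the square norm has average at least `p` to twice the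
height. -/
theorem qCoef_normSq_avg {a : ℕ} (ha : orderOf u = p ^ a) {χ ψ : IrrCharacter G} (hχ : χ ∈ B)
    (hψ : ψ ∈ B) (hψ0 : blockHeight p B (ψ : G → ℂ) = 0) :
    ((galExps p (p ^ (a + 1))).card : ℝ) * (p : ℝ) ^ (2 * blockHeight p B (χ : G → ℂ)) ≤
      ∑ k ∈ galExps p (p ^ (a + 1)), Complex.normSq (qCoef p u b χ ψ k) := by
  have hζ := Complex.isPrimitiveRoot_exp (p ^ (a + 1)) (pow_pos hM.1.pos _).ne'
  refine GalVal.le_sum hM hζ
    (((galVal_qCoef hM hind.1 ha hζ χ ψ).mul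
      ((galVal_qCoef hM hind.1 ha hζ χ ψ).conj hM.1 hζ.pow_eq_one)).congr fun k _ =>
        (Complex.mul_conj _).symm) _
    (fun k hk => Complex.normSq_pos.2
      (qCoef_ne_zero hM hB hind hbd ha hχ hψ hψ0 (galExps_not_dvd hk))) fun k hk => ?_
  rw [← Complex.mul_conj, conj_qCoef_eq_pow hM hind.1 ha,
    pow_mul' (p : ℂ) 2 (blockHeight p B (χ : G → ℂ)), sq, ← div_mul_div_comm]
  exact mul_mem (qCoef_div hM hB hind hbd ha hχ ψ (galExps_not_dvd hk)).1
    (qCoef_div hM hB hind hbd ha hχ ψ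
      (not_dvd_mul_pow_sub_one hM.1 (galExps_not_dvd hk))).1

section Major

variable {z : G}

theorem exists_orderOf_major [Fact p.Prime] (hM : IsPModular p M) {B : Set (IrrCharacter G)}
    (hB : IsPBlock M B) {D : Subgroup G} (hD : IsDefectGroup p M B D) (hz : z ∈ D) :
    ∃ a, orderOf z = p ^ a := by
  obtain ⟨a, ha⟩ := IsPGroup.iff_orderOf.1 (isPGroup_defectGroup hM hB hD) ⟨z, hz⟩
  exact ⟨a, by rw [← ha, Subgroup.orderOf_mk]⟩

theorem blockDefect_major [Fact p.Prime] (hM : IsPModular p M) {B : Set (IrrCharacter G)}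
    (hB : IsPBlock M B) {D : Subgroup G} (hD : IsDefectGroup p M B D)
    (hzc : ∀ d ∈ D, d * z = z * d)
    {b : Set (IrrCharacter (Subgroup.centralizer ({z} : Set G)))}
    (hb : IsInducedBlock M (Subgroup.centralizer ({z} : Set G)) b B)
    (hbD : IsDefectGroup p M b (D.subgroupOf (Subgroup.centralizer ({z} : Set G)))) :
    blockDefect p b = blockDefect p B := by
  have hle : D ≤ Subgroup.centralizer ({z} : Set G) := fun d hd =>
    Subgroup.mem_centralizer_singleton_iff.2 (hzc d hd)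
  have h := card_defectGroup hM hb.1 hbD
  rw [Nat.card_congr (Subgroup.subgroupOfEquivOfLe hle).toEquiv, card_defectGroup hM hB hD] at h
  exact (Nat.pow_right_injective (Fact.out : p.Prime).two_le h).symm

end Major

end CfsgLib.Block
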