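import Cfsg.Agent.Lib.BlockQuadForm
import Cfsg.Agent.Lib.BlockPPart
import Cfsg.Agent.Lib.BlockBrauer

/-!
# Divisibility of the contributions of a major subsection

The contributions `p ^ d · m(χ, ψ)` of a major subsection are divisible by `p` to the height of
`χ`, exactly so if `ψ` has height zero.
-/

set_option autoImplicit false

universe u

namespace CfsgLib.Block

open Cfsg CfsgLib.Char
open scoped ComplexConjugate Classical

variable {G : Type u} [Group G] [Fintype G] {p : ℕ} {M : Ideal AlgInt} {u : G}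
  {b : Set (IrrCharacter (Subgroup.centralizer ({u} : Set G)))} {B : Set (IrrCharacter G)}

/-- The `k`-th Galois twist of the part of `χ` at the subsection. -/
noncomputable def secTwist (u : G) (b : Set (IrrCharacter (Subgroup.centralizer ({u} : Set G))))
    (χ : IrrCharacter G) (k : ℕ) (s : Subgroup.centralizer ({u} : Set G)) : ℂ :=
  ∑ z : IrrCharacter (Subgroup.centralizer ({u} : Set G)), indVal b z *
    (centVal z (qElt u) ^ k * (qMult u χ z : ℂ) *
      (z : Subgroup.centralizer ({u} : Set G) → ℂ) s)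

theorem qCoef_eq_twist (χ ψ : IrrCharacter G) (k : ℕ) :
    qCoef p u b χ ψ k = (p : ℂ) ^ blockDefect p b *
      (Nat.card (Subgroup.centralizer ({u} : Set G)) : ℂ)⁻¹ *
      ∑ s ∈ regElts p (Subgroup.centralizer ({u} : Set G)),
        secTwist u b χ k s * conj (secTwist u b ψ k s) := by
  simp only [qCoef, secTwist, map_sum, map_mul, map_pow, conj_indVal, Finset.sum_mul_sum,
    Complex.conj_natCast]
  rw [Finset.sum_comm (s := regElts p _), Finset.mul_sum]
  refine Finset.sum_congr rfl fun z _ => ?_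
  rw [Finset.sum_comm (s := regElts p _), Finset.mul_sum]
  refine Finset.sum_congr rfl fun z' _ => ?_
  rw [blockMat_eq_sum, Nat.cast_mul, regElts]
  simp only [Finset.mul_sum, Finset.sum_mul]
  exact Finset.sum_congr rfl fun s _ => by ring

theorem apply_pow_mul_eq_sum (χ : IrrCharacter G) (k : ℕ)
    (s : Subgroup.centralizer ({u} : Set G)) :
    (χ : G → ℂ) (u ^ k * (s : G)) = ∑ z : IrrCharacter (Subgroup.centralizer ({u} : Set G)),
      centVal z (qElt u) ^ k * (qMult u χ z : ℂ) *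
        (z : Subgroup.centralizer ({u} : Set G) → ℂ) s := by
  have := congrFun (classFunction_eq_sum
    (fun h : Subgroup.centralizer ({u} : Set G) => (χ : G → ℂ) h)
    (isCharacter_classFunction (CfsgLib.Char.isCharacter_restrict χ.2.isCharacter' _)))
    (qElt u ^ k * s)
  simp only [Finset.sum_apply, Pi.smul_apply, smul_eq_mul] at this
  rw [show u ^ k * (s : G) = ((qElt u ^ k * s : Subgroup.centralizer ({u} : Set G)) : G) by
    simp [qElt], this]
  refine Finset.sum_congr rfl fun z _ => ?_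
  rw [(centVal_spec z (Subgroup.pow_mem _ (qElt_center u) k)).2, qMult_spec u χ z,
    centVal_pow z (qElt_center u)]
  ring

theorem sum_regElts_irr_eq_zero (hM : IsPModular p M) (hb : IsPBlock M b)
    {z z' : IrrCharacter (Subgroup.centralizer ({u} : Set G))} (hz : z ∉ b) (hz' : z' ∈ b) :
    ∑ s ∈ regElts p (Subgroup.centralizer ({u} : Set G)),
      (z : Subgroup.centralizer ({u} : Set G) → ℂ) s *
        conj ((z' : Subgroup.centralizer ({u} : Set G) → ℂ) s) = 0 := by
  have h := classInner_regPart_eq_zero (p := p) hM (χ := z) (ψ := z') fun hs => hz (by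
    rw [isPBlock_eq_blockOf hM hb hz']
    exact sameBlock_symm hM hs)
  rw [classInner_regPart, mul_eq_zero] at h
  exact h.resolve_left (inv_ne_zero (Nat.cast_ne_zero.2 Nat.card_pos.ne'))

theorem sum_apply_twist (hM : IsPModular p M) (hb : IsPBlock M b) (χ ψ : IrrCharacter G) (k : ℕ) :
    ∑ s ∈ regElts p (Subgroup.centralizer ({u} : Set G)),
        (χ : G → ℂ) (u ^ k * (s : G)) * conj (secTwist u b ψ k s) =
      ∑ s ∈ regElts p (Subgroup.centralizer ({u} : Set G)),
        secTwist u b χ k s * conj (secTwist u b ψ k s) := by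
  rw [← sub_eq_zero, ← Finset.sum_sub_distrib]
  calc _ = ∑ s ∈ regElts p (Subgroup.centralizer ({u} : Set G)),
        ∑ z : IrrCharacter (Subgroup.centralizer ({u} : Set G)),
        ∑ z' : IrrCharacter (Subgroup.centralizer ({u} : Set G)),
          ((1 - indVal b z) * indVal b z') *
            (centVal z (qElt u) ^ k * (qMult u χ z : ℂ) *
              conj (centVal z' (qElt u) ^ k * (qMult u ψ z' : ℂ))) *
            ((z : Subgroup.centralizer ({u} : Set G) → ℂ) s *
              conj ((z' : Subgroup.centralizer ({u} : Set G) → ℂ) s)) := by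
        refine Finset.sum_congr rfl fun s _ => ?_
        rw [← sub_mul, apply_pow_mul_eq_sum, secTwist, ← Finset.sum_sub_distrib, secTwist,
          map_sum, Finset.sum_mul_sum]
        refine Finset.sum_congr rfl fun z _ => Finset.sum_congr rfl fun z' _ => ?_
        simp only [map_mul, conj_indVal]
        ring
    _ = 0 := by
        rw [Finset.sum_comm]
        refine Finset.sum_eq_zero fun z _ => ?_
        rw [Finset.sum_comm]
        refine Finset.sum_eq_zero fun z' _ => ?_
        rw [← Finset.mul_sum]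
        by_cases hz : z ∈ b
        · simp [indVal, hz]
        by_cases hz' : z' ∈ b
        · rw [sum_regElts_irr_eq_zero hM hb hz hz', mul_zero]
        · simp [indVal, hz']

theorem conj_secTwist_mem (hM : IsPModular p M) {a : ℕ} (ha : orderOf u = p ^ a)
    (χ : IrrCharacter G) (k : ℕ) (s : Subgroup.centralizer ({u} : Set G)) :
    conj (secTwist u b χ k s) ∈ locRing hM := by
  simp only [secTwist, map_sum, map_mul, map_pow, conj_indVal, Complex.conj_natCast]
  refine sum_mem fun z _ => mul_mem ?_ (mul_mem (mul_mem (pow_mem ?_ k) (natCast_mem _ _)) ?_)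
  · rw [indVal]; split_ifs <;> simp [one_mem, zero_mem]
  · exact isIntegral_mem hM (IsIntegral.of_pow (pow_pos hM.1.pos (a + 1))
      (by rw [← map_pow, centVal_qElt_pow ha z, map_one]; exact isIntegral_one))
  · rw [← isCharacter_inv_eq_conj z.2.isCharacter']
    exact irr_mem hM z _

theorem secTwist_conj (χ : IrrCharacter G) (k : ℕ) (s h : Subgroup.centralizer ({u} : Set G)) :
    secTwist u b χ k (h * s * h⁻¹) = secTwist u b χ k s := by
  simp only [secTwist]
  exact Finset.sum_congr rfl fun z _ => by rw [irr_classFunction z s h]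

/-- The function on the section of `u ^ k` given by the conjugate part of `ψ`. -/
noncomputable def sectWeight (p : ℕ) (u : G)
    (b : Set (IrrCharacter (Subgroup.centralizer ({u} : Set G)))) (ψ : IrrCharacter G) (k : ℕ)
    (y : G) : ℂ :=
  ∑ s ∈ regElts p (Subgroup.centralizer ({u} : Set G)),
    if y = u ^ k * (s : G) then conj (secTwist u b ψ k s) else 0

theorem sectWeight_eq (ψ : IrrCharacter G) (k : ℕ) {s : Subgroup.centralizer ({u} : Set G)}
    (hs : ¬ p ∣ orderOf s) :
    sectWeight p u b ψ k (u ^ k * (s : G)) = conj (secTwist u b ψ k s) := by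
  unfold sectWeight
  rw [Finset.sum_eq_single_of_mem (f := fun t : Subgroup.centralizer ({u} : Set G) =>
      if u ^ k * (s : G) = u ^ k * (t : G) then conj (secTwist u b ψ k t) else 0) s
    (show s ∈ regElts p (Subgroup.centralizer ({u} : Set G)) from
      Finset.mem_filter.2 ⟨Finset.mem_univ s, hs⟩) fun t _ ht =>
    if_neg fun h => ht (Subtype.ext (mul_left_cancel h).symm), if_pos rfl]

theorem exists_of_sectWeight_ne_zero {ψ : IrrCharacter G} {k : ℕ} {y : G}
    (h : sectWeight p u b ψ k y ≠ 0) :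
    ∃ s : Subgroup.centralizer ({u} : Set G), ¬ p ∣ orderOf s ∧ y = u ^ k * (s : G) := by
  obtain ⟨s, hs, h'⟩ := Finset.exists_ne_zero_of_sum_ne_zero h
  exact ⟨s, (Finset.mem_filter.1 hs).2, by by_contra hc; exact h' (if_neg hc)⟩

theorem isPPart_pow_mul {a : ℕ} (ha : orderOf u = p ^ a) (hp : p.Prime) (k : ℕ)
    {s : Subgroup.centralizer ({u} : Set G)} (hs : ¬ p ∣ orderOf s) :
    IsPPart p (u ^ k * (s : G)) (u ^ k) := by
  refine ⟨(s : G), rfl, Commute.pow_left ?_ k, ?_, by rwa [Subgroup.orderOf_coe]⟩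
  · exact (Subgroup.mem_centralizer_singleton_iff.1 s.2).symm
  · obtain ⟨j, -, hj⟩ := (Nat.dvd_prime_pow hp).1
      (ha ▸ orderOf_pow_dvd k : orderOf (u ^ k) ∣ p ^ a)
    exact ⟨j, hj⟩

theorem sum_conj_sectWeight_mem (hM : IsPModular p M) {a : ℕ} (ha : orderOf u = p ^ a)
    (ψ : IrrCharacter G) {k : ℕ} (hk : ¬ p ∣ k) (g : G) :
    (Nat.card (Subgroup.centralizer ({u} : Set G)) : ℂ)⁻¹ *
      ∑ x : G, sectWeight p u b ψ k (x * g * x⁻¹) ∈ locRing hM := by
  by_cases hex : ∃ x₀, sectWeight p u b ψ k (x₀ * g * x₀⁻¹) ≠ 0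
  swap
  · push_neg at hex
    simp [hex]
  obtain ⟨x₀, hx₀⟩ := hex
  obtain ⟨s₀, hs₀, he₀⟩ := exists_of_sectWeight_ne_zero hx₀
  set S := Finset.univ.filter (fun x : G => x * x₀⁻¹ ∈ Subgroup.centralizer ({u} : Set G)) with hS
  have hval : ∀ x ∈ S, sectWeight p u b ψ k (x * g * x⁻¹) = conj (secTwist u b ψ k s₀) := by
    intro x hx
    set h : Subgroup.centralizer ({u} : Set G) := ⟨x * x₀⁻¹, (Finset.mem_filter.1 hx).2⟩ with hh
    have hu : (h : G) * u ^ k * (h : G)⁻¹ = u ^ k := by
      rw [mul_inv_eq_iff_eq_mul]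
      exact (Commute.pow_right
        (show Commute (h : G) u from Subgroup.mem_centralizer_singleton_iff.1 h.2) k).eq
    have hord : ¬ p ∣ orderOf (h * s₀ * h⁻¹) := by
      rw [show orderOf (h * s₀ * h⁻¹) = orderOf s₀ from
        orderOf_injective (MulAut.conj h).toMonoidHom (MulAut.conj h).injective s₀]
      exact hs₀
    have e : x * g * x⁻¹ =
        u ^ k * ((h * s₀ * h⁻¹ : Subgroup.centralizer ({u} : Set G)) : G) := by
      calc x * g * x⁻¹ = (h : G) * (x₀ * g * x₀⁻¹) * (h : G)⁻¹ := by simp [hh, mul_assoc]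
        _ = (h : G) * u ^ k * (h : G)⁻¹ * ((h : G) * (s₀ : G) * (h : G)⁻¹) := by rw [he₀]; group
        _ = _ := by rw [hu]; rfl
    rw [e, sectWeight_eq ψ k hord, secTwist_conj]
  have hzero : ∀ x, x ∉ S → sectWeight p u b ψ k (x * g * x⁻¹) = 0 := by
    intro x hx
    by_contra hne
    obtain ⟨s, hs, he⟩ := exists_of_sectWeight_ne_zero hne
    apply hx
    refine Finset.mem_filter.2 ⟨Finset.mem_univ x, ?_⟩
    have h1 := isPPart_conj (isPPart_pow_mul ha hM.1 k hs₀) (x * x₀⁻¹)
    rw [← he₀, show x * x₀⁻¹ * (x₀ * g * x₀⁻¹) * (x * x₀⁻¹)⁻¹ = x * g * x⁻¹ by group, he] at h1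
    have h2 := isPPart_unique hM.1 h1 (isPPart_pow_mul ha hM.1 k hs)
    rw [mul_inv_eq_iff_eq_mul] at h2
    obtain ⟨j, hj⟩ := Subgroup.mem_zpowers_iff.1
      (show u ∈ Subgroup.zpowers (u ^ k) by
        rw [exists_pow_eq_of_coprime ⟨a, ha⟩ hM.1 hk]; exact Subgroup.mem_zpowers u)
    rw [Subgroup.mem_centralizer_singleton_iff]
    have h3 : Commute (x * x₀⁻¹) ((u ^ k) ^ j) := Commute.zpow_right h2 j
    rw [hj] at h3
    exact h3
  have hcard : S.card = Nat.card (Subgroup.centralizer ({u} : Set G)) := by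
    rw [Nat.card_eq_fintype_card, ← Finset.card_univ]
    refine Finset.card_bij' (fun x hx => ⟨x * x₀⁻¹, (Finset.mem_filter.1 hx).2⟩)
      (fun h _ => (h : G) * x₀) (fun _ _ => Finset.mem_univ _)
      (fun h _ => Finset.mem_filter.2 ⟨Finset.mem_univ _, by simp⟩) (fun x _ => by simp)
      (fun h _ => by simp)
  rw [← Finset.sum_subset (Finset.subset_univ S) (fun x _ hx => hzero x hx),
    Finset.sum_congr rfl hval, Finset.sum_const, hcard, nsmul_eq_mul, ← mul_assoc,
    inv_mul_cancel₀ (Nat.cast_ne_zero.2 Nat.card_pos.ne'), one_mul]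
  exact conj_secTwist_mem hM ha ψ k s₀

/-- The central element attached to `ψ` and the section of `u ^ k`. -/
noncomputable def sectElt (hM : IsPModular p M) {a : ℕ} (ha : orderOf u = p ^ a)
    (b : Set (IrrCharacter (Subgroup.centralizer ({u} : Set G)))) (ψ : IrrCharacter G) {k : ℕ}
    (hk : ¬ p ∣ k) : intRing (G := G) hM :=
  ofFun hM (fun g => (Nat.card (Subgroup.centralizer ({u} : Set G)) : ℂ)⁻¹ *
      ∑ x : G, sectWeight p u b ψ k (x * g * x⁻¹))
    (fun g y => by
      dsimp only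
      congr 1
      exact Fintype.sum_equiv (Equiv.mulRight y) _ _ fun x => by
        simp only [Equiv.coe_mulRight]; congr 1; group)
    (sum_conj_sectWeight_mem hM ha ψ hk)

theorem sectElt_apply (hM : IsPModular p M) (hb : IsPBlock M b) {a : ℕ} (ha : orderOf u = p ^ a)
    (χ ψ : IrrCharacter G) {k : ℕ} (hk : ¬ p ∣ k) :
    ((sectElt hM ha b ψ hk : intRing (G := G) hM) : IrrCharacter G → ℂ) χ =
      (Nat.card G : ℂ) / (p : ℂ) ^ blockDefect p b * qCoef p u b χ ψ k / (χ : G → ℂ) 1 := by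
  show om (χ : G → ℂ) _ = _
  rw [om, qCoef_eq_twist, ← sum_apply_twist hM hb]
  congr 1
  have hp0 : (p : ℂ) ^ blockDefect p b ≠ 0 := pow_ne_zero _ (Nat.cast_ne_zero.2 hM.1.ne_zero)
  rw [← mul_assoc, ← mul_assoc, div_mul_cancel₀ _ hp0]
  calc ∑ g, (Nat.card (Subgroup.centralizer ({u} : Set G)) : ℂ)⁻¹ *
        (∑ x : G, sectWeight p u b ψ k (x * g * x⁻¹)) * (χ : G → ℂ) g
      = ∑ _x : G, (Nat.card (Subgroup.centralizer ({u} : Set G)) : ℂ)⁻¹ *
          ∑ y : G, sectWeight p u b ψ k y * (χ : G → ℂ) y := by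
        simp only [Finset.sum_mul, Finset.mul_sum]
        rw [Finset.sum_comm]
        refine Finset.sum_congr rfl fun x _ => ?_
        refine Fintype.sum_equiv (MulAut.conj x).toEquiv _ _ fun g => ?_
        simp only [MulEquiv.toEquiv_eq_coe, EquivLike.coe_coe, MulAut.conj_apply,
          irr_classFunction χ g x]
        ring
    _ = _ := by
        rw [Finset.sum_const, Finset.card_univ, nsmul_eq_mul, ← mul_assoc,
          ← Nat.card_eq_fintype_card]
        congr 1
        simp only [sectWeight, Finset.sum_mul]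
        rw [Finset.sum_comm]
        refine Finset.sum_congr rfl fun s _ => ?_
        simp only [ite_mul, zero_mul, Finset.sum_ite_eq', Finset.mem_univ, if_true]
        ring

variable (hM : IsPModular p M) (hB : IsPBlock M B)
  (hind : IsInducedBlock M (Subgroup.centralizer ({u} : Set G)) b B)
  (hbd : blockDefect p b = blockDefect p B)

include hM hB hind hbd in
theorem qCoef_div_eq {a : ℕ} (ha : orderOf u = p ^ a) {θ : IrrCharacter G} (hθ : θ ∈ B)
    (ψ : IrrCharacter G) {k : ℕ} (hk : ¬ p ∣ k) :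
    qCoef p u b θ ψ k / (p : ℂ) ^ blockHeight p B (θ : G → ℂ) =
      ((sectElt hM ha b ψ hk : intRing (G := G) hM) : IrrCharacter G → ℂ) θ *
        (((ordCompl[p] (charDegree (θ : G → ℂ)) : ℕ) : ℂ) *
          ((ordCompl[p] (Nat.card G) : ℕ) : ℂ)⁻¹) := by
  have hp := hM.1
  set v := sectElt hM ha b ψ hk with hv
  set g' := ordCompl[p] (Nat.card G) with hg'
  rw [hv, sectElt_apply hM hind.1 ha θ ψ hk, hbd]
  have e1 : (Nat.card G : ℂ) =
      (p : ℂ) ^ (blockDefect p B + blockMin p B) * ((g' : ℕ) : ℂ) := by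
    rw [defect_add_min hM hB, hg']
    exact_mod_cast (Nat.ordProj_mul_ordCompl_eq_self (Nat.card G) p).symm
  have hh : (charDegree (θ : G → ℂ)).factorization p =
      blockMin p B + blockHeight p B (θ : G → ℂ) := by
    rw [blockHeight_eq]
    have := blockMin_le (p := p) hθ
    omega
  have e2 : (θ : G → ℂ) 1 = (p : ℂ) ^ (blockMin p B + blockHeight p B (θ : G → ℂ)) *
      ((ordCompl[p] (charDegree (θ : G → ℂ)) : ℕ) : ℂ) := by
    rw [← CfsgLib.Block.charDegree_cast θ.2.isCharacter', ← hh]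
    exact_mod_cast (Nat.ordProj_mul_ordCompl_eq_self _ p).symm
  have hp0 : (p : ℂ) ≠ 0 := Nat.cast_ne_zero.2 hp.ne_zero
  have hg0 : ((g' : ℕ) : ℂ) ≠ 0 := Nat.cast_ne_zero.2 (Nat.ordCompl_pos p Nat.card_pos.ne').ne'
  have hc0 : ((ordCompl[p] (charDegree (θ : G → ℂ)) : ℕ) : ℂ) ≠ 0 :=
    Nat.cast_ne_zero.2 (Nat.ordCompl_pos p (charDegree_pos θ).ne').ne'
  rw [e1, e2, pow_add, pow_add]
  field_simp

include hM in
theorem isUnit_ordCompl {n : ℕ} (hn : n ≠ 0) :
    IsUnit ((ordCompl[p] n : ℕ) : locRing hM) := by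
  refine (isUnit_iff_res_ne_zero hM).2 fun h => ?_
  exact Nat.not_dvd_ordCompl hM.1 hn
    ((memLocalIdeal_natCast_iff hM _).1 ((memLocalIdeal_iff_exists hM).2 ⟨natCast_mem _ _, h⟩))

include hM hB hind hbd in
theorem qCoef_div_mem {a : ℕ} (ha : orderOf u = p ^ a) {χ : IrrCharacter G} (hχ : χ ∈ B)
    (ψ : IrrCharacter G) {k : ℕ} (hk : ¬ p ∣ k) :
    qCoef p u b χ ψ k / (p : ℂ) ^ blockHeight p B (χ : G → ℂ) ∈ locRing hM ∧
      (MemLocalIdeal M (qCoef p u b χ ψ k / (p : ℂ) ^ blockHeight p B (χ : G → ℂ)) ↔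
        ev hM χ (sectElt hM ha b ψ hk) = 0) := by
  have hgi : ((ordCompl[p] (Nat.card G) : ℕ) : ℂ)⁻¹ ∈ locRing hM :=
    inv_mem_of_not_memLocalIdeal hM (natCast_mem _ _) fun h =>
      Nat.not_dvd_ordCompl hM.1 Nat.card_pos.ne' ((memLocalIdeal_natCast_iff hM _).1 h)
  set w : locRing hM := ((ordCompl[p] (charDegree (χ : G → ℂ)) : ℕ) : locRing hM) * ⟨_, hgi⟩
    with hw
  have hwu : IsUnit w :=
    (isUnit_ordCompl hM (charDegree_pos χ).ne').mul
      (IsUnit.of_mul_eq_one ((ordCompl[p] (Nat.card G) : ℕ) : locRing hM)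
        (Subtype.ext (inv_mul_cancel₀ (Nat.cast_ne_zero.2
          (Nat.ordCompl_pos p Nat.card_pos.ne').ne'))))
  have e := qCoef_div_eq hM hB hind hbd ha hχ ψ hk
  have hmem : qCoef p u b χ ψ k / (p : ℂ) ^ blockHeight p B (χ : G → ℂ) ∈ locRing hM :=
    e ▸ mul_mem (val_mem hM (sectElt hM ha b ψ hk).2 χ) (mul_mem (natCast_mem _ _) hgi)
  have e' : (⟨_, hmem⟩ : locRing hM) = evO hM χ (sectElt hM ha b ψ hk) * w := by
    apply Subtype.ext
    simpa [evO, hw] using e
  refine ⟨hmem, ?_⟩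
  rw [memLocalIdeal_iff_exists hM]
  constructor
  · rintro ⟨h, h0⟩
    rw [e', map_mul] at h0
    exact ((hwu.map (res hM)).mul_left_eq_zero).1 h0
  · intro h0
    exact ⟨hmem, by rw [e', map_mul, show res hM (evO hM χ _) = 0 from h0, zero_mul]⟩

include hM hB hind hbd in
/-- The residue of the divided contribution vanishes for all or for no member of the block. -/
theorem qCoef_div_mem_iff {a : ℕ} (ha : orderOf u = p ^ a) {χ θ : IrrCharacter G} (hχ : χ ∈ B)
    (hθ : θ ∈ B) (ψ : IrrCharacter G) {k : ℕ} (hk : ¬ p ∣ k) :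
    MemLocalIdeal M (qCoef p u b χ ψ k / (p : ℂ) ^ blockHeight p B (χ : G → ℂ)) ↔
      MemLocalIdeal M (qCoef p u b θ ψ k / (p : ℂ) ^ blockHeight p B (θ : G → ℂ)) := by
  rw [(qCoef_div_mem hM hB hind hbd ha hχ ψ hk).2, (qCoef_div_mem hM hB hind hbd ha hθ ψ hk).2,
    ev_eq_of_mem hM hB hχ hθ]

include hM hB hind hbd in
/-- The contribution divided by `p` to the height is locally integral, and is a unit when the
second character has height zero. -/
theorem qCoef_div {a : ℕ} (ha : orderOf u = p ^ a) {χ : IrrCharacter G} (hχ : χ ∈ B)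
    (ψ : IrrCharacter G) {k : ℕ} (hk : ¬ p ∣ k) :
    qCoef p u b χ ψ k / (p : ℂ) ^ blockHeight p B (χ : G → ℂ) ∈ locRing hM ∧
      (ψ ∈ B → blockHeight p B (ψ : G → ℂ) = 0 →
        ¬ MemLocalIdeal M (qCoef p u b χ ψ k / (p : ℂ) ^ blockHeight p B (χ : G → ℂ))) := by
  refine ⟨(qCoef_div_mem hM hB hind hbd ha hχ ψ hk).1, fun hψ hψ0 hbad => ?_⟩
  rw [qCoef_div_mem_iff hM hB hind hbd ha hχ hψ ψ hk, hψ0, pow_zero, div_one] at hbad
  exact qCoef_not_mem hM hB hind ha hψ hψ0 hψ hψ0 k hbad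

end CfsgLib.Block
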