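import Cfsg.Agent.Lib.BlockGalSum
import Cfsg.Agent.Lib.BlockSectionVal
import Cfsg.Agent.Lib.BlockSectionRank
import Cfsg.Agent.Lib.BlockSubFacts
import Cfsg.Agent.Lib.BlockNilStruct
import Cfsg.Agent.Lib.BlockHeight
import Cfsg.Agent.Lib.BlockBound
import Cfsg.Agent.Lib.BlockRank

/-!
# The quadratic form of a subsection

For a `p`-element `u` and a block `b` of its centralizer inducing `B`, the contributions of the
subsection to the scalar product of two characters of `B`, scaled by `p ^ q`, are algebraic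
integers in the field of `|u|`-th roots of unity; they form an idempotent up to the factor
`p ^ q`, of trace `p ^ q · l(b)`.
-/

set_option autoImplicit false

universe u

namespace CfsgLib.Block

open Cfsg CfsgLib.Char
open scoped ComplexConjugate Classical

variable {G : Type u} [Group G] [Fintype G] {p : ℕ} {M : Ideal AlgInt}

/-- The element `u` of its own centralizer. -/
def qElt (u : G) : Subgroup.centralizer ({u} : Set G) :=
  ⟨u, Subgroup.mem_centralizer_singleton_iff.2 rfl⟩

theorem qElt_center (u : G) : qElt u ∈ Subgroup.center (Subgroup.centralizer ({u} : Set G)) :=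
  Subgroup.mem_center_iff.2 fun g =>
    Subtype.ext (Subgroup.mem_centralizer_singleton_iff.1 g.2)

/-- The multiplicity of a character of the centralizer of `u` in the restriction of `χ`. -/
noncomputable def qMult (u : G) (χ : IrrCharacter G)
    (z : IrrCharacter (Subgroup.centralizer ({u} : Set G))) : ℕ :=
  (inner_character_nat (CfsgLib.Char.isCharacter_restrict χ.2.isCharacter'
    (Subgroup.centralizer ({u} : Set G))) z.2.isCharacter').choose

theorem qMult_spec (u : G) (χ : IrrCharacter G)
    (z : IrrCharacter (Subgroup.centralizer ({u} : Set G))) :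
    classInner (fun h : Subgroup.centralizer ({u} : Set G) => (χ : G → ℂ) h)
      (z : Subgroup.centralizer ({u} : Set G) → ℂ) = (qMult u χ z : ℂ) :=
  (inner_character_nat (CfsgLib.Char.isCharacter_restrict χ.2.isCharacter'
    (Subgroup.centralizer ({u} : Set G))) z.2.isCharacter').choose_spec

/-- The scaled contribution of the subsection `(u, b)` to the pair of characters `χ, ψ`, with the
`k`-th Galois twist. -/
noncomputable def qCoef (p : ℕ) (u : G)
    (b : Set (IrrCharacter (Subgroup.centralizer ({u} : Set G)))) (χ ψ : IrrCharacter G) (k : ℕ) :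
    ℂ :=
  ∑ z : IrrCharacter (Subgroup.centralizer ({u} : Set G)),
    ∑ z' : IrrCharacter (Subgroup.centralizer ({u} : Set G)),
      ((qMult u χ z * qMult u ψ z' : ℕ) : ℂ) * (indVal b z * indVal b z' * blockMat p b z z') *
        (centVal z (qElt u) ^ k * conj (centVal z' (qElt u) ^ k))

variable {u : G} {b : Set (IrrCharacter (Subgroup.centralizer ({u} : Set G)))}
  {B : Set (IrrCharacter G)}

theorem classInner_section_eq (χ : IrrCharacter G)
    (z : IrrCharacter (Subgroup.centralizer ({u} : Set G))) :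
    classInner (fun c : Subgroup.centralizer ({u} : Set G) => (χ : G → ℂ) (u * (c : G)))
      (z : Subgroup.centralizer ({u} : Set G) → ℂ) = centVal z (qElt u) * (qMult u χ z : ℂ) := by
  have hexp : (fun c : Subgroup.centralizer ({u} : Set G) => (χ : G → ℂ) (u * (c : G))) =
      ∑ w : IrrCharacter (Subgroup.centralizer ({u} : Set G)),
        ((qMult u χ w : ℂ) * centVal w (qElt u)) •
          (w : Subgroup.centralizer ({u} : Set G) → ℂ) := by
    funext c
    have := congrFun (classFunction_eq_sum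
      (fun h : Subgroup.centralizer ({u} : Set G) => (χ : G → ℂ) h)
      (isCharacter_classFunction (CfsgLib.Char.isCharacter_restrict χ.2.isCharacter' _)))
      (qElt u * c)
    simp only [Finset.sum_apply, Pi.smul_apply, smul_eq_mul] at this ⊢
    rw [show u * (c : G) = ((qElt u * c : Subgroup.centralizer ({u} : Set G)) : G) from rfl, this]
    refine Finset.sum_congr rfl fun w _ => ?_
    rw [(centVal_spec w (qElt_center u)).2, qMult_spec u χ w]
    ring
  rw [hexp, CfsgLib.Char.inner_sum_left, Finset.sum_eq_single z]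
  · rw [CfsgLib.Char.inner_smul_left, irr_inner_self z.2]
    ring
  · intro w _ hw
    rw [CfsgLib.Char.inner_smul_left, irr_classInner, if_neg hw, mul_zero]
  · simp

theorem secPart_apply (χ : IrrCharacter G) (s : Subgroup.centralizer ({u} : Set G)) :
    secPart u b χ s = ∑ z : IrrCharacter (Subgroup.centralizer ({u} : Set G)),
      indVal b z * (centVal z (qElt u) * (qMult u χ z : ℂ) *
        (z : Subgroup.centralizer ({u} : Set G) → ℂ) s) := by
  rw [secPart, blockPart_eq]
  simp only [classInner_section_eq]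

/-- The regular elements. -/
noncomputable def regElts (p : ℕ) (H : Type*) [Group H] [Fintype H] : Finset H :=
  Finset.univ.filter fun s => ¬ p ∣ orderOf s

theorem qCoef_one (χ ψ : IrrCharacter G) :
    qCoef p u b χ ψ 1 = (p : ℂ) ^ blockDefect p b *
      (Nat.card (Subgroup.centralizer ({u} : Set G)) : ℂ)⁻¹ *
      ∑ s ∈ regElts p (Subgroup.centralizer ({u} : Set G)),
        secPart u b χ s * conj (secPart u b ψ s) := by
  simp only [qCoef, secPart_apply, map_sum, map_mul, conj_indVal, Finset.sum_mul_sum,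
    Complex.conj_natCast, pow_one]
  rw [Finset.sum_comm (s := regElts p _), Finset.mul_sum]
  refine Finset.sum_congr rfl fun z _ => ?_
  rw [Finset.sum_comm (s := regElts p _), Finset.mul_sum]
  refine Finset.sum_congr rfl fun z' _ => ?_
  rw [blockMat_eq_sum, Nat.cast_mul, regElts]
  simp only [Finset.mul_sum, Finset.sum_mul]
  exact Finset.sum_congr rfl fun s _ => by ring

theorem qCoef_conj (χ ψ : IrrCharacter G) (k : ℕ) :
    conj (qCoef p u b χ ψ k) = qCoef p u b ψ χ k := by
  simp only [qCoef, map_sum, map_mul, map_pow, Complex.conj_natCast, Complex.conj_conj,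
    conj_indVal, blockMat_conj]
  rw [Finset.sum_comm]
  refine Finset.sum_congr rfl fun z _ => Finset.sum_congr rfl fun z' _ => ?_
  push_cast
  ring

theorem centVal_qElt_pow {a : ℕ} (ha : orderOf u = p ^ a)
    (z : IrrCharacter (Subgroup.centralizer ({u} : Set G))) :
    centVal z (qElt u) ^ p ^ (a + 1) = 1 := by
  have h1 : orderOf (qElt u) = p ^ a := by rw [← Subgroup.orderOf_coe]; exact ha
  have h2 := (centVal_spec z (qElt_center u)).1
  rw [h1] at h2
  rw [pow_succ, pow_mul, h2, one_pow]

theorem exists_int_qMat (hM : IsPModular p M) (hb : IsPBlock M b)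
    (z z' : IrrCharacter (Subgroup.centralizer ({u} : Set G))) :
    ∃ A : ℤ, indVal b z * indVal b z' * blockMat p b z z' = A := by
  by_cases hz : z ∈ b
  · by_cases hz' : z' ∈ b
    · obtain ⟨A, hA⟩ := exists_int_blockMat hM hb hz z'
      exact ⟨A, by simp [indVal, hz, hz', hA]⟩
    · exact ⟨0, by simp [indVal, hz']⟩
  · exact ⟨0, by simp [indVal, hz]⟩

theorem galVal_qCoef (hM : IsPModular p M) (hb : IsPBlock M b) {a : ℕ} (ha : orderOf u = p ^ a)
    {ζ : ℂ} (hζ : IsPrimitiveRoot ζ (p ^ (a + 1))) (χ ψ : IrrCharacter G) :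
    GalVal p ζ (qCoef p u b χ ψ) := by
  refine galVal_sum _ _ fun z _ => galVal_sum _ _ fun z' _ => ?_
  obtain ⟨A, hA⟩ := exists_int_qMat hM hb z z'
  have hN : 0 < p ^ (a + 1) := pow_pos hM.1.pos _
  refine GalVal.congr (((galVal_const ((qMult u χ z * qMult u ψ z' : ℕ) : ℤ)).mul
    (galVal_const A)).mul ((galVal_of_root hN hζ (centVal_qElt_pow ha z)).mul
    ((galVal_of_root hN hζ (centVal_qElt_pow ha z')).conj hM.1 hζ.pow_eq_one))) fun k _ => ?_
  rw [hA]
  push_cast
  ring

/-- The characters of `B`, as a finite set. -/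
noncomputable def blkFin (B : Set (IrrCharacter G)) : Finset (IrrCharacter G) :=
  Finset.univ.filter fun χ => χ ∈ B

theorem mem_blkFin {χ : IrrCharacter G} : χ ∈ blkFin B ↔ χ ∈ B := by simp [blkFin]

theorem sum_blkFin (F : IrrCharacter G → ℂ) :
    ∑ χ ∈ blkFin B, F χ = ∑ χ, indVal B χ * F χ := by
  rw [blkFin, Finset.sum_filter]
  exact Finset.sum_congr rfl fun χ _ => by rw [indVal]; split_ifs <;> simp

theorem ind_sq (b : Set (IrrCharacter G)) (z : IrrCharacter G) :
    indVal b z * indVal b z = indVal b z := by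
  rw [indVal]; split_ifs <;> simp

section Induced

variable (hM : IsPModular p M) (hB : IsPBlock M B)
  (hind : IsInducedBlock M (Subgroup.centralizer ({u} : Set G)) b B)

include hM hind in
theorem induced_mem_secSet : ∀ ξ ∈ b, ξ ∈ secSet M u B := fun ξ hξ => by
  show IsInducedBlock M _ _ B
  rw [← isPBlock_eq_blockOf hM hind.1 hξ]
  exact hind

include hM hB hind in
theorem qCoef_col (hu : ∃ a, orderOf u = p ^ a) {s t : Subgroup.centralizer ({u} : Set G)}
    (hs : ¬ p ∣ orderOf s) (ht : ¬ p ∣ orderOf t) :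
    ∑ χ ∈ blkFin B, secPart u b χ s * conj (secPart u b χ t) =
      ∑ z : IrrCharacter (Subgroup.centralizer ({u} : Set G)), indVal b z *
        ((z : Subgroup.centralizer ({u} : Set G) → ℂ) s *
          conj ((z : Subgroup.centralizer ({u} : Set G) → ℂ) t)) := by
  rw [sum_blkFin, sum_secPart_mul hM hu hB hind.1 hind.1 (induced_mem_secSet hM hind) hs ht]
  refine Finset.sum_congr rfl fun z _ => ?_
  rw [indVal]
  split_ifs <;> simp

include hM hB hind in
/-- The trace of the form. -/
theorem qCoef_trace {a : ℕ} (ha : orderOf u = p ^ a) {k : ℕ} (hk : ¬ p ∣ k) :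
    ∑ χ ∈ blkFin B, qCoef p u b χ χ k =
      (((p ^ blockDefect p b * blockRank p b : ℕ) : ℤ) : ℂ) := by
  haveI : Fact p.Prime := ⟨hM.1⟩
  have hζ := Complex.isPrimitiveRoot_exp (p ^ (a + 1)) (pow_pos hM.1.pos _).ne'
  refine GalVal.eq_of_int hM.1 hζ
    (galVal_sum _ (fun χ k => qCoef p u b χ χ k) fun χ _ => galVal_qCoef hM hind.1 ha hζ χ χ)
    ?_ hk
  show ∑ χ ∈ blkFin B, qCoef p u b χ χ 1 = _
  simp only [qCoef_one, ← Finset.mul_sum]
  have hcol : ∀ s ∈ regElts p (Subgroup.centralizer ({u} : Set G)), _ := fun s hs =>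
    qCoef_col (t := s) hM hB hind ⟨a, ha⟩ (Finset.mem_filter.1 hs).2 (Finset.mem_filter.1 hs).2
  rw [Finset.sum_comm, Finset.sum_congr rfl hcol, Finset.sum_comm]
  push_cast
  rw [blockRank_cast hM hind.1, Finset.mul_sum, Finset.mul_sum]
  refine Finset.sum_congr rfl fun z _ => ?_
  have e : blockMat p b z z = (p : ℂ) ^ blockDefect p b * regMat p z z := by
    rw [blockMat, CfsgLib.Char.inner_smul_left, regMat]
  rw [mul_left_comm, ← e, blockMat_eq_sum, ← Finset.mul_sum, regElts]
  ring

include hM hB hind in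
/-- The form is idempotent up to the factor `p ^ q`. -/
theorem qCoef_row {a : ℕ} (ha : orderOf u = p ^ a) (χ : IrrCharacter G) {k : ℕ} (hk : ¬ p ∣ k) :
    ∑ ψ ∈ blkFin B, qCoef p u b χ ψ k * conj (qCoef p u b χ ψ k) =
      (p : ℂ) ^ blockDefect p b * qCoef p u b χ χ k := by
  haveI : Fact p.Prime := ⟨hM.1⟩
  have hp := hM.1
  have hζ := Complex.isPrimitiveRoot_exp (p ^ (a + 1)) (pow_pos hp.pos _).ne'
  have hg := fun ψ => galVal_qCoef hM hind.1 ha hζ χ ψ
  have h0 := GalVal.eq_of_int hp hζ (n := 0)
    (f := fun k => ∑ ψ ∈ blkFin B, qCoef p u b χ ψ k * conj (qCoef p u b χ ψ k) +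
      ((-((p ^ blockDefect p b : ℕ) : ℤ) : ℤ) : ℂ) * qCoef p u b χ χ k)
    ((galVal_sum _ (fun ψ k => qCoef p u b χ ψ k * conj (qCoef p u b χ ψ k)) fun ψ _ =>
      (hg ψ).mul ((hg ψ).conj hp hζ.pow_eq_one)).add ((galVal_const _).mul (hg χ))) ?_ hk
  · simp only [Int.cast_zero] at h0
    push_cast at h0
    linear_combination h0
  simp only [Int.cast_zero]
  push_cast
  rw [neg_mul, ← sub_eq_add_neg, sub_eq_zero]
  set S := regElts p (Subgroup.centralizer ({u} : Set G)) with hS
  set c := (p : ℂ) ^ blockDefect p b * (Nat.card (Subgroup.centralizer ({u} : Set G)) : ℂ)⁻¹ with hc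
  have hcc : conj c = c := by simp [hc]
  set v : IrrCharacter (Subgroup.centralizer ({u} : Set G)) → ℂ := fun z' => ∑ z : IrrCharacter (Subgroup.centralizer ({u} : Set G)),
    indVal b z * (centVal z (qElt u) * (qMult u χ z : ℂ)) * blockMat p b z z' with hv
  have hcs : ∀ z' : IrrCharacter (Subgroup.centralizer ({u} : Set G)),
      c * ∑ s ∈ S, secPart u b χ s * conj ((z' : (Subgroup.centralizer ({u} : Set G)) → ℂ) s) = v z' := by
    intro z'
    simp only [secPart_apply, hv, blockMat_eq_sum, hc, hS, regElts, Finset.mul_sum,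
      Finset.sum_mul]
    rw [Finset.sum_comm]
    exact Finset.sum_congr rfl fun z _ => Finset.sum_congr rfl fun s _ => by ring
  calc ∑ ψ ∈ blkFin B, qCoef p u b χ ψ 1 * conj (qCoef p u b χ ψ 1)
      = ∑ ψ ∈ blkFin B, ∑ s ∈ S, ∑ t ∈ S, (c * c * (secPart u b χ s * conj (secPart u b χ t))) *
          (secPart u b ψ t * conj (secPart u b ψ s)) := by
        refine Finset.sum_congr rfl fun ψ _ => ?_
        rw [qCoef_one, map_mul, map_sum, hcc, mul_mul_mul_comm, Finset.sum_mul_sum,
          Finset.mul_sum]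
        refine Finset.sum_congr rfl fun s _ => ?_
        rw [Finset.mul_sum]
        refine Finset.sum_congr rfl fun t _ => ?_
        simp only [map_mul, Complex.conj_conj]
        ring
    _ = ∑ s ∈ S, ∑ t ∈ S, (c * c * (secPart u b χ s * conj (secPart u b χ t))) *
          ∑ z' : IrrCharacter (Subgroup.centralizer ({u} : Set G)), indVal b z' * ((z' : (Subgroup.centralizer ({u} : Set G)) → ℂ) t * conj ((z' : (Subgroup.centralizer ({u} : Set G)) → ℂ) s)) := by
        rw [Finset.sum_comm]
        refine Finset.sum_congr rfl fun s hs => ?_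
        rw [Finset.sum_comm]
        refine Finset.sum_congr rfl fun t ht => ?_
        rw [← Finset.mul_sum, qCoef_col hM hB hind ⟨a, ha⟩ (Finset.mem_filter.1 ht).2
          (Finset.mem_filter.1 hs).2]
    _ = ∑ z' : IrrCharacter (Subgroup.centralizer ({u} : Set G)), indVal b z' * (v z' * conj (v z')) := by
        simp only [← hcs, map_mul, map_sum, hcc, Complex.conj_conj, Finset.mul_sum,
          Finset.sum_mul]
        rw [Finset.sum_congr rfl fun s _ => Finset.sum_comm, Finset.sum_comm]
        refine Finset.sum_congr rfl fun z' _ => ?_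
        rw [Finset.sum_comm]
        exact Finset.sum_congr rfl fun t _ => Finset.sum_congr rfl fun s _ => by ring
    _ = _ := by
        simp only [hv, qCoef, map_sum, map_mul, conj_indVal, blockMat_conj,
          Complex.conj_natCast, Finset.sum_mul, Finset.mul_sum, pow_one]
        rw [Finset.sum_comm]
        conv_rhs => rw [Finset.sum_comm]
        refine Finset.sum_congr rfl fun w _ => ?_
        rw [Finset.sum_comm]
        refine Finset.sum_congr rfl fun z _ => ?_
        by_cases hw : w ∈ b
        · have hsum : ∑ z' : IrrCharacter (Subgroup.centralizer ({u} : Set G)), indVal b z' *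
              (blockMat p b z z' * blockMat p b z' w) =
              (p : ℂ) ^ blockDefect p b * blockMat p b z w := by
            rw [← sum_blockMat_mul hM hind.1 hw, Finset.sum_filter]
            refine Finset.sum_congr rfl fun z' _ => ?_
            rw [indVal]; split_ifs <;> simp
          calc _ = ∑ z' : IrrCharacter (Subgroup.centralizer ({u} : Set G)), (indVal b z * centVal z (qElt u) * (qMult u χ z : ℂ) *
                (indVal b w * conj (centVal w (qElt u)) * (qMult u χ w : ℂ))) *
                (indVal b z' * (blockMat p b z z' * blockMat p b z' w)) :=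
                Finset.sum_congr rfl fun z' _ => by ring
            _ = _ := by rw [← Finset.mul_sum, hsum]; push_cast; ring
        · simp [indVal, hw]

include hM hB hind in
/-- For two characters of height zero the form is a unit modulo `p`. -/
theorem qCoef_not_mem {a : ℕ} (ha : orderOf u = p ^ a) {χ ψ : IrrCharacter G} (hχ : χ ∈ B)
    (hχ0 : blockHeight p B (χ : G → ℂ) = 0) (hψ : ψ ∈ B)
    (hψh : blockHeight p B (ψ : G → ℂ) = 0) (k : ℕ) :
    ¬ MemLocalIdeal M (qCoef p u b χ ψ k) := by
  have hp := hM.1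
  have hb := hind.1
  obtain ⟨ψ₀, hψ₀, hψ0⟩ := exists_height_zero hM hb
  choose A hA using exists_int_qMat hM hb
  set m := blockMin p b with hm
  have hqmem : ∀ z : IrrCharacter (Subgroup.centralizer ({u} : Set G)), (((charDegree (z : (Subgroup.centralizer ({u} : Set G)) → ℂ) / p ^ m : ℕ)) : ℂ) ∈ locRing hM :=
    fun z => natCast_mem _ _
  set q : IrrCharacter (Subgroup.centralizer ({u} : Set G)) → ResField M := fun z => res hM ⟨_, hqmem z⟩ with hq
  set e : IrrCharacter (Subgroup.centralizer ({u} : Set G)) → ResField M := fun z => ev hM ψ₀ (regElt hM z) with he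
  have hAe : ∀ z ∈ b, ∀ z' ∈ b,
      res hM ((A z z' : ℤ) : locRing hM) = e z * q z' := by
    intro z hz z' hz'
    rw [he]
    dsimp only
    rw [ev_eq_of_mem hM hb hψ₀ hz' (regElt hM z), ev_regElt, hq, ← map_mul]
    congr 1
    apply Subtype.ext
    show _ = _ * (((charDegree (z' : (Subgroup.centralizer ({u} : Set G)) → ℂ) / p ^ m : ℕ)) : ℂ)
    have hdvd : p ^ m ∣ charDegree (z' : (Subgroup.centralizer ({u} : Set G)) → ℂ) :=
      (pow_dvd_pow p (blockMin_le hz')).trans (Nat.ordProj_dvd _ _)
    show _ = classInner (scaledReg p (z : (Subgroup.centralizer ({u} : Set G)) → ℂ)) (z' : (Subgroup.centralizer ({u} : Set G)) → ℂ) / (z' : (Subgroup.centralizer ({u} : Set G)) → ℂ) 1 * _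
    rw [blockMat_mul_pow hM hb, Nat.cast_div hdvd
      (by exact_mod_cast pow_ne_zero m hp.ne_zero), CfsgLib.Block.charDegree_cast z'.2.isCharacter']
    have := hA z z'
    rw [indVal, indVal, if_pos hz, if_pos hz', one_mul, one_mul] at this
    rw [this]
    push_cast
    have h1 := irr_one_ne_zero z'
    have h2 : (p : ℂ) ^ m ≠ 0 := pow_ne_zero _ (Nat.cast_ne_zero.2 hp.ne_zero)
    field_simp
    simp [hm]
  set n' : IrrCharacter G → IrrCharacter (Subgroup.centralizer ({u} : Set G)) → ResField M := fun χ z =>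
    if z ∈ b then (qMult u χ z : ResField M) else 0 with hn'
  have he0 : e ψ₀ ≠ 0 := (height_zero_iff_ev_regElt hM hb hψ₀ hψ₀).1 hψ0
  have hsymm : ∀ z ∈ b, e z * q ψ₀ = e ψ₀ * q z := by
    intro z hz
    rw [← hAe z hz ψ₀ hψ₀, ← hAe ψ₀ hψ₀ z hz]
    congr 1
    have h1 := hA z ψ₀
    have h2 := hA ψ₀ z
    rw [indVal, indVal, if_pos hz, if_pos hψ₀, one_mul, one_mul] at h1
    rw [indVal, indVal, if_pos hz, if_pos hψ₀, one_mul, one_mul,
      (blockMat_real hM hb hz ψ₀).2, h1] at h2
    congr 1
    exact_mod_cast h2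
  have hq0 : q ψ₀ ≠ 0 := by
    rw [hq]
    intro h
    rw [res_eq_zero_iff] at h
    change MemLocalIdeal M (((charDegree (ψ₀ : (Subgroup.centralizer ({u} : Set G)) → ℂ) / p ^ m : ℕ)) : ℂ) at h
    rw [memLocalIdeal_natCast_iff hM] at h
    rw [blockHeight_zero_iff hψ₀] at hψ0
    rw [hm, ← hψ0] at h
    exact Nat.not_dvd_ordCompl hp (charDegree_pos ψ₀).ne' h
  have hne : ∀ χ ∈ B, blockHeight p B (χ : G → ℂ) = 0 → ∑ z, n' χ z * e z ≠ 0 := by
    intro χ hχ hh hzero
    refine (restrict_regRatio_induced hM hind χ hψ₀).2 ⟨hχ, hh⟩ ?_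
    rw [memLocalIdeal_iff_exists hM]
    have hval : classInner (scaledReg p fun h : (Subgroup.centralizer ({u} : Set G)) => (χ : G → ℂ) h) (ψ₀ : (Subgroup.centralizer ({u} : Set G)) → ℂ) / (ψ₀ : (Subgroup.centralizer ({u} : Set G)) → ℂ) 1 =
        ∑ z : IrrCharacter (Subgroup.centralizer ({u} : Set G)), (qMult u χ z : ℂ) *
          (classInner (scaledReg p (z : (Subgroup.centralizer ({u} : Set G)) → ℂ)) (ψ₀ : (Subgroup.centralizer ({u} : Set G)) → ℂ) / (ψ₀ : (Subgroup.centralizer ({u} : Set G)) → ℂ) 1) := by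
      rw [scaledReg_inner_restrict, Finset.sum_div]
      exact Finset.sum_congr rfl fun z _ => by rw [qMult_spec u χ z]; ring
    rw [hval]
    have hmem : ∀ z : IrrCharacter (Subgroup.centralizer ({u} : Set G)), (qMult u χ z : ℂ) *
          (classInner (scaledReg p (z : (Subgroup.centralizer ({u} : Set G)) → ℂ)) (ψ₀ : (Subgroup.centralizer ({u} : Set G)) → ℂ) / (ψ₀ : (Subgroup.centralizer ({u} : Set G)) → ℂ) 1) ∈ locRing hM :=
      fun z => mul_mem (natCast_mem _ _) (regRatio_mem hM z ψ₀)
    refine ⟨sum_mem fun z _ => hmem z, ?_⟩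
    have e3 : (⟨_, sum_mem fun z (_ : z ∈ Finset.univ) => hmem z⟩ : locRing hM) =
        ∑ z : IrrCharacter (Subgroup.centralizer ({u} : Set G)), (qMult u χ z : locRing hM) * ⟨_, regRatio_mem hM z ψ₀⟩ := by
      apply Subtype.ext
      simp
    rw [e3, map_sum, ← hzero]
    refine Finset.sum_congr rfl fun z _ => ?_
    rw [map_mul, map_natCast, ← ev_regElt, hn']
    dsimp only
    by_cases hz : z ∈ b
    · rw [if_pos hz]
    · rw [if_neg hz, zero_mul, ev_regElt_eq_zero_of_not_sameBlock hM, mul_zero]
      intro hsb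
      apply hz
      rw [isPBlock_eq_blockOf hM hb hψ₀]
      exact sameBlock_symm hM hsb
  have hneq : ∀ χ ∈ B, blockHeight p B (χ : G → ℂ) = 0 → ∑ z, n' χ z * q z ≠ 0 := by
    intro χ hχ hh hzero
    apply hne χ hχ hh
    have h1 : (∑ z, n' χ z * e z) * q ψ₀ = e ψ₀ * ∑ z, n' χ z * q z := by
      rw [Finset.sum_mul, Finset.mul_sum]
      refine Finset.sum_congr rfl fun z _ => ?_
      by_cases hz : z ∈ b
      · rw [mul_assoc, hsymm z hz]; ring
      · simp [hn', hz]
    rw [hzero, mul_zero] at h1
    haveI : M.IsMaximal := hM.2.1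
    letI := @Ideal.Quotient.field _ _ M hM.2.1
    exact (mul_eq_zero.1 h1).resolve_right hq0
  have hN : 0 < p ^ (a + 1) := pow_pos hp.pos _
  have hwmem : ∀ z : IrrCharacter (Subgroup.centralizer ({u} : Set G)), centVal z (qElt u) ∈ locRing hM := fun z =>
    isIntegral_mem hM (IsIntegral.of_pow hN
      (by rw [centVal_qElt_pow ha z]; exact isIntegral_one))
  have hwcmem : ∀ z : IrrCharacter (Subgroup.centralizer ({u} : Set G)), conj (centVal z (qElt u)) ∈ locRing hM := fun z =>
    isIntegral_mem hM (IsIntegral.of_pow hN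
      (by rw [← map_pow, centVal_qElt_pow ha z, map_one]; exact isIntegral_one))
  have hw1 : ∀ z : IrrCharacter (Subgroup.centralizer ({u} : Set G)), res hM ⟨_, hwmem z⟩ = 1 := fun z =>
    res_eq_one_of_pow_prime_pow hM (n := a + 1) (Subtype.ext (by simpa using centVal_qElt_pow ha z))
  have hw2 : ∀ z : IrrCharacter (Subgroup.centralizer ({u} : Set G)), res hM ⟨_, hwcmem z⟩ = 1 := fun z =>
    res_eq_one_of_pow_prime_pow hM (n := a + 1) (Subtype.ext (by
      have := congrArg conj (centVal_qElt_pow ha z)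
      simpa using this))
  rw [memLocalIdeal_iff_exists hM]
  rintro ⟨hx, hzero⟩
  have hloc : (⟨qCoef p u b χ ψ k, hx⟩ : locRing hM) = ∑ z : IrrCharacter (Subgroup.centralizer ({u} : Set G)),
      ∑ z' : IrrCharacter (Subgroup.centralizer ({u} : Set G)), ((qMult u χ z * qMult u ψ z' : ℕ) : locRing hM) *
        ((A z z' : ℤ) : locRing hM) * (⟨_, hwmem z⟩ ^ k * ⟨_, hwcmem z'⟩ ^ k) := by
    apply Subtype.ext
    simp [qCoef, hA, map_pow]
  rw [hloc] at hzero
  simp only [map_sum, map_mul, map_pow, hw1, hw2, one_pow, mul_one, map_natCast,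
    Nat.cast_mul] at hzero
  have h1 : (∑ z, n' χ z * e z) * (∑ z, n' ψ z * q z) = 0 := by
    rw [← hzero, Finset.sum_mul_sum]
    refine Finset.sum_congr rfl fun z _ => Finset.sum_congr rfl fun z' _ => ?_
    by_cases hz : z ∈ b ∧ z' ∈ b
    · rw [hAe z hz.1 z' hz.2]
      simp only [hn', if_pos hz.1, if_pos hz.2]
      ring
    · have hA0 : A z z' = 0 := by
        have := hA z z'
        rcases not_and_or.1 hz with h | h <;> simp [indVal, h] at this <;>
          exact_mod_cast this.symm
      rcases not_and_or.1 hz with h | h <;> simp [hn', h, hA0]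
  letI := @Ideal.Quotient.field _ _ M hM.2.1
  exact (mul_ne_zero (hne χ hχ hχ0) (hneq ψ hψ hψh)) h1

end Induced

end CfsgLib.Block
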