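import Cfsg.Agent.Lib.BlockInflate
import Cfsg.Agent.Lib.BlockFn
import Cfsg.Agent.Lib.BlockFirstMain
import Cfsg.Agent.Lib.BlockClassDefect
import Cfsg.Agent.Lib.BlockOrth

/-!
# Defect groups of blocks of a quotient
-/

set_option autoImplicit false

universe u

namespace CfsgLib.Block

open Cfsg CfsgLib.Char
open scoped Classical

variable {G : Type u} [Group G] [Fintype G] {p : ℕ} [Fact p.Prime] {M : Ideal AlgInt}
  (N : Subgroup G) [hNn : N.Normal] [Fintype (G ⧸ N)]

theorem card_le_card_map (P : Subgroup G) {a b : ℕ} (hP : Nat.card P = p ^ a)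
    (hN : (Nat.card N).factorization p = b) :
    p ^ (a - b) ≤ Nat.card (P.map (QuotientGroup.mk' N)) := by
  have hp := (Fact.out : p.Prime)
  obtain ⟨i, hia, hi⟩ := (Nat.dvd_prime_pow hp).1
    (hP ▸ Subgroup.card_dvd_of_le (inf_le_left : P ⊓ N ≤ P))
  have hib : i ≤ b := hN ▸ ((hp.pow_dvd_iff_le_factorization Nat.card_pos.ne').1
    (hi ▸ Subgroup.card_dvd_of_le (inf_le_right : P ⊓ N ≤ N)))
  have h : Nat.card (P.map (QuotientGroup.mk' N)) * Nat.card (P ⊓ N : Subgroup G) = Nat.card P := by
    have e := (QuotientGroup.mk' N).subgroupMap P |>.ker.card_mul_index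
    rw [Subgroup.index_ker, MonoidHom.range_eq_top.2 ((QuotientGroup.mk' N).subgroupMap_surjective P),
      Subgroup.card_top] at e
    rw [← e, mul_comm]
    congr 1
    have ek : ((QuotientGroup.mk' N).subgroupMap P).ker = (P ⊓ N).subgroupOf P := by
      ext x
      rw [MonoidHom.mem_ker, Subgroup.mem_subgroupOf, Subgroup.mem_inf, Subtype.ext_iff]
      show (QuotientGroup.mk (x : G) : G ⧸ N) = 1 ↔ _
      rw [QuotientGroup.eq_one_iff]
      exact ⟨fun h => ⟨x.2, h⟩, fun h => h.2⟩
    rw [ek]
    exact (Nat.card_congr (Subgroup.subgroupOfEquivOfLe inf_le_left).toEquiv).symm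
  rw [hi, hP] at h
  by_contra hlt
  push Not at hlt
  have := Nat.mul_lt_mul_of_pos_right hlt (pow_pos hp.pos i)
  rw [h, ← pow_add] at this
  have := (Nat.pow_lt_pow_iff_right hp.one_lt).1 this
  omega

/-- A defect group of a block of the quotient lies in the image of one of the covering block. -/
theorem exists_defectGroup_map_ge (hM : IsPModular p M) {Bbar : Set (IrrCharacter (G ⧸ N))}
    (hBbar : IsPBlock M Bbar) {B : Set (IrrCharacter G)} (hB : IsPBlock M B)
    {χ : IrrCharacter (G ⧸ N)} (hχ : χ ∈ Bbar) (hχB : inflate N χ ∈ B) {Dbar : Subgroup (G ⧸ N)}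
    (hD : IsDefectGroup p M Bbar Dbar) :
    ∃ P, IsDefectGroup p M B P ∧ Dbar ≤ P.map (QuotientGroup.mk' N) := by
  have hp := (Fact.out : p.Prime)
  haveI := nontrivial_resField hM
  haveI : M.IsMaximal := hM.2.1
  letI : Field (ResField M) := @Ideal.Quotient.field _ _ M hM.2.1
  haveI := charP_resField hM
  obtain ⟨g, hg⟩ := exists_defectClass hM hB
  have hev : ev hM (inflate N χ) (cl hM g) ≠ 0 := ((isDefectClass_iff hM hB g).1 hg).2 _ hχB
  obtain ⟨m, hm⟩ := centralChar_inflate N g
  rw [show ev hM (inflate N χ) (cl hM g) =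
      (m : ResField M) * ev hM χ (cl hM (QuotientGroup.mk g : G ⧸ N)) by
    rw [ev_cl, ev_cl, ← map_natCast (res hM), ← map_mul]
    exact congrArg (res hM) (Subtype.ext (hm χ))] at hev
  have hevq := right_ne_zero_of_mul hev
  have hpm : ¬ p ∣ m := fun h => left_ne_zero_of_mul hev ((CharP.cast_eq_zero_iff (ResField M) p _).2 h)
  set C := Subgroup.centralizer ({g} : Set G) with hC
  set q : G ⧸ N := QuotientGroup.mk g with hq
  set Cq := Subgroup.centralizer ({q} : Set (G ⧸ N)) with hCq
  -- the multiplier is the quotient of the class sizes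
  have hidx : C.index = m * Cq.index := by
    have h := hm ⟨fun _ => 1, isIrrCharacter_one⟩
    have h1 := centralChar_mul_degree (inflate N ⟨fun _ => 1, isIrrCharacter_one⟩) g
    have h2 := centralChar_mul_degree (⟨fun _ => 1, isIrrCharacter_one⟩ : IrrCharacter (G ⧸ N)) q
    simp only [inflate_apply, mul_one] at h1 h2
    rw [h1, h2] at h
    exact_mod_cast h
  obtain ⟨S, hS⟩ := exists_defectGroup hM hB
  obtain ⟨P₀⟩ := (inferInstance : Nonempty (Sylow p C))
  set P := (P₀ : Subgroup C).map C.subtype with hP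
  have hPcard : Nat.card P = p ^ (Nat.card C).factorization p := by
    rw [hP, Subgroup.card_subtype, P₀.card_eq_multiplicity]
  have hPdef : IsDefectGroup p M B P := by
    rw [isDefectGroup_data hM hB]
    exact ⟨g, hg, Subgroup.map_subtype_le _, by
      rw [hPcard, defectClass_factorization_centralizer hM hB hg]⟩
  set Pb := P.map (QuotientGroup.mk' N) with hPb
  have hPbC : Pb ≤ Cq := by
    rintro _ ⟨x, hx, rfl⟩
    rw [Subgroup.mem_centralizer_singleton_iff]
    show (QuotientGroup.mk x : G ⧸ N) * QuotientGroup.mk g = QuotientGroup.mk g * QuotientGroup.mk x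
    rw [← QuotientGroup.mk_mul, ← QuotientGroup.mk_mul,
      Subgroup.mem_centralizer_singleton_iff.1 (Subgroup.map_subtype_le _ hx)]
  have hPbp : IsPGroup p Pb := (IsPGroup.of_card hPcard).map _
  obtain ⟨j, hj⟩ := hPbp.exists_card_eq
  have hge := card_le_card_map N P hPcard rfl
  rw [← hPb, hj, Nat.pow_le_pow_iff_right hp.one_lt] at hge
  have hle := (hp.pow_dvd_iff_le_factorization Nat.card_pos.ne').1 (hj ▸ Subgroup.card_dvd_of_le hPbC)
  have hG : (Nat.card G).factorization p =
      (Nat.card N).factorization p + (Nat.card (G ⧸ N)).factorization p := by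
    rw [Subgroup.card_eq_card_quotient_mul_card_subgroup N,
      Nat.factorization_mul Nat.card_pos.ne' Nat.card_pos.ne', Finsupp.add_apply, Nat.add_comm]
  have h1 : (Nat.card G).factorization p = (Nat.card C).factorization p + C.index.factorization p := by
    rw [← C.card_mul_index, Nat.factorization_mul Nat.card_pos.ne' Subgroup.index_ne_zero_of_finite,
      Finsupp.add_apply]
  have h2 : (Nat.card (G ⧸ N)).factorization p =
      (Nat.card Cq).factorization p + Cq.index.factorization p := by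
    rw [← Cq.card_mul_index, Nat.factorization_mul Nat.card_pos.ne' Subgroup.index_ne_zero_of_finite,
      Finsupp.add_apply]
  have h3 : C.index.factorization p = Cq.index.factorization p := by
    rw [hidx, Nat.factorization_mul (fun h => hpm (by rw [h]; exact dvd_zero p)) Subgroup.index_ne_zero_of_finite,
      Finsupp.add_apply, Nat.factorization_eq_zero_of_not_dvd hpm, Nat.zero_add]
  have hcardPb : Nat.card Pb = p ^ (Nat.card Cq).factorization p := by
    rw [hj]; congr 1; omega
  obtain ⟨T, hT⟩ := exists_sylow_map_eq hPbC hcardPb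
  obtain ⟨q', hconj, hq'⟩ := exists_conj_mem_centralizer hM hBbar
    (isPGroup_defectGroup hM hBbar hD) (brauerNonzero_defectGroup hM hBbar hD) hχ hevq
  obtain ⟨x, hx⟩ := isConj_iff.1 hconj
  have hle' := map_conj_le_centralizer hx hq'
  obtain ⟨y, hy⟩ := conjLE_sylow_centralizer T
    (isPGroup_map_conj (isPGroup_defectGroup hM hBbar hD) x⁻¹) hle'
  rw [map_conj_map_conj, ← hT] at hy
  obtain ⟨z, hz⟩ := QuotientGroup.mk'_surjective N (y * x⁻¹)⁻¹
  refine ⟨P.map (MulAut.conj z).toMonoidHom, isDefectGroup_conj hM hB hPdef z, fun d hd => ?_⟩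
  have hd' := hy (Subgroup.mem_map_of_mem _ hd)
  obtain ⟨w, hw, hwd⟩ := hd'
  refine ⟨z * w * z⁻¹, ⟨w, hw, rfl⟩, ?_⟩
  rw [map_mul, map_mul, map_inv, hwd, hz]
  show (y * x⁻¹)⁻¹ * (y * x⁻¹ * d * (y * x⁻¹)⁻¹) * ((y * x⁻¹)⁻¹)⁻¹ = d
  group

/-- The set of characters of the quotient inflating into a set. -/
def deflSet (B : Set (IrrCharacter G)) : Set (IrrCharacter (G ⧸ N)) := {ψ | inflate N ψ ∈ B}

theorem coef_deflSet (B : Set (IrrCharacter G)) (g : G) :
    coef (indVal (deflSet N B)) (QuotientGroup.mk g : G ⧸ N) =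
      ∑ n : N, coef (indVal B) (g * n) := by
  set F : G ⧸ N → ℂ := fun q => ∑ n : N, coef (indVal B) (Quotient.out q * n) with hF
  have hmk : ∀ a : G, F (QuotientGroup.mk a) = ∑ n : N, coef (indVal B) (a * n) := by
    intro a
    obtain ⟨n₀, hn₀⟩ := QuotientGroup.mk_out_eq_mul N a
    show ∑ n : N, coef (indVal B) ((QuotientGroup.mk a : G ⧸ N).out * n) = _
    rw [hn₀]
    exact Fintype.sum_equiv (Equiv.mulLeft n₀) _ _ (fun n => by simp [mul_assoc])
  have hFc : IsClassFunction (G ⧸ N) F := by
    intro q r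
    obtain ⟨a, rfl⟩ := QuotientGroup.mk_surjective q
    obtain ⟨x, rfl⟩ := QuotientGroup.mk_surjective r
    rw [← QuotientGroup.mk_inv, ← QuotientGroup.mk_mul, ← QuotientGroup.mk_mul, hmk, hmk]
    refine Fintype.sum_equiv (MulAut.conjNormal x⁻¹ : MulAut N).toEquiv _ _ fun n => ?_
    rw [MulEquiv.toEquiv_eq_coe, EquivLike.coe_coe, MulAut.conjNormal_apply]
    rw [← coef_classFunction (indVal B) (x * a * x⁻¹ * (n : G)) x⁻¹]
    congr 1
    group
  rw [← hmk, ← coef_om hFc]
  refine congrArg (fun v => coef v (QuotientGroup.mk g : G ⧸ N)) (funext fun ψ => ?_)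
  have h := om_coef (indVal B) (inflate N ψ)
  rw [show indVal (deflSet N B) ψ = indVal B (inflate N ψ) from rfl, ← h]
  show (∑ a : G, coef (indVal B) a * (ψ : G ⧸ N → ℂ) (QuotientGroup.mk a)) /
      (ψ : G ⧸ N → ℂ) (QuotientGroup.mk (1 : G)) = _
  rw [QuotientGroup.mk_one]
  show _ = (∑ q, F q * (ψ : G ⧸ N → ℂ) q) / _
  congr 1
  rw [← Finset.sum_fiberwise Finset.univ (fun a : G => (QuotientGroup.mk a : G ⧸ N))]
  refine Finset.sum_congr rfl fun q _ => ?_
  obtain ⟨a, rfl⟩ := QuotientGroup.mk_surjective q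
  rw [hmk, Finset.sum_mul]
  refine Finset.sum_bij' (fun b hb => (⟨a⁻¹ * b,
    QuotientGroup.eq.1 (Finset.mem_filter.1 hb).2.symm⟩ : N)) (fun n _ => a * n)
    (fun _ _ => Finset.mem_univ _) ?_ ?_ ?_ ?_
  · intro n _
    exact Finset.mem_filter.2 ⟨Finset.mem_univ _, QuotientGroup.mk_mul_of_mem a n.2⟩
  · intro b _; exact mul_inv_cancel_left a b
  · intro n _; exact Subtype.ext (inv_mul_cancel_left a (n : G))
  · intro b hb
    rw [mul_inv_cancel_left, (Finset.mem_filter.1 hb).2]

/-- A regular element centralizing a `p`-subgroup: its translates there are singular. -/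
theorem eq_one_of_regular {g n : G} (hN : IsPGroup p N) (hn : n ∈ N) (hc : Commute g n)
    (hg : ¬ p ∣ orderOf g) (hgn : ¬ p ∣ orderOf (g * n)) : n = 1 := by
  obtain ⟨k, hk⟩ := IsPGroup.iff_orderOf.1 hN ⟨n, hn⟩
  rw [Subgroup.orderOf_mk] at hk
  have hp := (Fact.out : p.Prime)
  have := hc.orderOf_mul_eq_mul_orderOf_of_coprime
    (by rw [hk]; exact ((hp.coprime_iff_not_dvd).2 hg).symm.pow_right k)
  rw [hk] at this
  rcases k with _ | k
  · exact orderOf_eq_one_iff.1 (by rw [hk, pow_zero])
  · exact absurd (this ▸ (dvd_pow_self p k.succ_ne_zero).mul_left _) hgn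

/-- Modulo a normal `p`-subgroup some block inside a given one has the full image as defect group. -/
theorem exists_quotient_block (hM : IsPModular p M) (hN : IsPGroup p N) {B : Set (IrrCharacter G)}
    (hB : IsPBlock M B) : ∃ Bbar : Set (IrrCharacter (G ⧸ N)), IsPBlock M Bbar ∧
      (∀ χ ∈ Bbar, inflate N χ ∈ B) ∧
      blockDefect p B - (Nat.card N).factorization p ≤ blockDefect p Bbar := by
  haveI := nontrivial_resField hM
  set A := deflSet N B with hA
  have hint : indVal A ∈ intRing (G := G ⧸ N) hM := by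
    intro q
    obtain ⟨g, rfl⟩ := QuotientGroup.mk_surjective q
    rw [hA, coef_deflSet]
    exact sum_mem fun n _ => indVal_mem hM hB _
  obtain ⟨g, hg⟩ := exists_defectClass hM hB
  have hne := ((isDefectClass_iff hM hB g).1 hg).1
  have hgreg := defectClass_regular hM hB hg
  have hgC : g ∈ Subgroup.centralizer (N : Set G) := by
    by_contra h
    exact hne (cred_bIdem_eq_zero_of_notMem hM N hN hB h)
  have hcred : cred hM (⟨_, hint⟩ : intRing (G := G ⧸ N) hM) (QuotientGroup.mk g : G ⧸ N)
      = cred hM (bIdem hM hB) g := by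
    show res hM ⟨coef (indVal A) (QuotientGroup.mk g : G ⧸ N), _⟩ = res hM ⟨coef (indVal B) g, _⟩
    refine congrArg (res hM) (Subtype.ext ?_)
    show coef (indVal A) (QuotientGroup.mk g : G ⧸ N) = coef (indVal B) g
    rw [hA, coef_deflSet, Finset.sum_eq_single (1 : N)]
    · rw [OneMemClass.coe_one, mul_one]
    · intro n _ hn
      refine coef_indVal_singular hM hB ?_
      by_contra h
      exact hn (Subtype.ext (eq_one_of_regular N hN n.2
        (Subgroup.mem_centralizer_iff.1 hgC n n.2).symm hgreg h))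
    · exact fun h => absurd (Finset.mem_univ _) h
  set T := (allBlocks (G ⧸ N) M).filter (fun C => C ⊆ A) with hT
  set f : Set (IrrCharacter (G ⧸ N)) → intRing (G := G ⧸ N) hM := fun C =>
    if h : IsPBlock M C then bIdem hM h else 0 with hf
  have hsum : (⟨_, hint⟩ : intRing (G := G ⧸ N) hM) = ∑ C ∈ T, f C := by
    refine Subtype.ext ?_
    rw [AddSubmonoidClass.coe_finsetSum]
    funext ψ
    rw [Finset.sum_apply]
    show indVal A ψ = _
    rw [Finset.sum_congr rfl (fun C hC => by
      rw [hf]; simp only [dif_pos (mem_allBlocks.1 (Finset.mem_filter.1 hC).1)]; rfl :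
      ∀ C ∈ T, ((f C : intRing (G := G ⧸ N) hM) : IrrCharacter (G ⧸ N) → ℂ) ψ = indVal C ψ)]
    by_cases hψ : ψ ∈ A
    · rw [Finset.sum_eq_single (blockOf M (ψ : G ⧸ N → ℂ))]
      · simp [indVal, hψ, mem_blockOf_self hM ψ]
      · intro C hC hne'
        have : ψ ∉ C := fun h =>
          hne' (isPBlock_eq_blockOf hM (mem_allBlocks.1 (Finset.mem_filter.1 hC).1) h)
        simp [indVal, this]
      · intro h
        exact absurd (Finset.mem_filter.2 ⟨mem_allBlocks.2 (isPBlock_blockOf ψ),
          blockOf_subset_of_indVal_mem hM hint hψ⟩) h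
    · rw [Finset.sum_eq_zero fun C hC => ?_]
      · simp [indVal, hψ]
      · have : ψ ∉ C := fun h => hψ ((Finset.mem_filter.1 hC).2 h)
        simp [indVal, this]
  rw [hsum, cred_sum_eq, Finset.sum_apply] at hcred
  obtain ⟨C, hC, hCne⟩ := Finset.exists_ne_zero_of_sum_ne_zero (hcred.trans_ne hne)
  obtain ⟨hC1, hC2⟩ := Finset.mem_filter.1 hC
  have hCb := mem_allBlocks.1 hC1
  simp only [hf, dif_pos hCb] at hCne
  refine ⟨C, hCb, fun χ hχ => hC2 hχ, le_trans ?_ (classDefect_le_blockDefect hM hCb hCne)⟩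
  obtain ⟨P, hP⟩ := exists_defectGroup hM hB
  rw [← defectClass_factorization_centralizer hM hB hg]
  have hp := (Fact.out : p.Prime)
  set Cg := Subgroup.centralizer ({g} : Set G)
  obtain ⟨S⟩ := (inferInstance : Nonempty (Sylow p Cg))
  have hScard : Nat.card ((S : Subgroup Cg).map Cg.subtype) = p ^ (Nat.card Cg).factorization p := by
    rw [Subgroup.card_subtype, S.card_eq_multiplicity]
  have hle := card_le_card_map N ((S : Subgroup Cg).map Cg.subtype) hScard rfl
  obtain ⟨j, hj⟩ := ((IsPGroup.of_card hScard).map (QuotientGroup.mk' N)).exists_card_eq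
  rw [hj, Nat.pow_le_pow_iff_right hp.one_lt] at hle
  refine hle.trans ((hp.pow_dvd_iff_le_factorization Nat.card_pos.ne').1 (hj ▸ Subgroup.card_dvd_of_le ?_))
  rintro _ ⟨x, hx, rfl⟩
  rw [Subgroup.mem_centralizer_singleton_iff]
  show (QuotientGroup.mk x : G ⧸ N) * QuotientGroup.mk g = QuotientGroup.mk g * QuotientGroup.mk x
  rw [← QuotientGroup.mk_mul, ← QuotientGroup.mk_mul,
    Subgroup.mem_centralizer_singleton_iff.1 (Subgroup.map_subtype_le _ hx)]

/-- Inflation reflects blocks over a normal `p`-subgroup when relevant regular elements centralize it. -/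
theorem sameBlock_of_inflate_pGroup (hM : IsPModular p M) (hN : IsPGroup p N) (R : Subgroup (G ⧸ N))
    [R.Normal] (hR : IsPGroup p R)
    (hcen : ∀ g : G, ¬ p ∣ orderOf g → (QuotientGroup.mk g : G ⧸ N) ∈
      Subgroup.centralizer (R : Set (G ⧸ N)) → g ∈ Subgroup.centralizer (N : Set G))
    {χ χ' : IrrCharacter (G ⧸ N)}
    (h : SameBlock M (inflate N χ : G → ℂ) (inflate N χ' : G → ℂ)) :
    SameBlock M (χ : G ⧸ N → ℂ) (χ' : G ⧸ N → ℂ) := by
  haveI := nontrivial_resField hM
  have hp := (Fact.out : p.Prime)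
  rw [sameBlock_iff hM] at h
  have hB := isPBlock_blockOf (M := M) χ
  have key : ev hM χ' (bIdem hM hB) = ev hM χ (bIdem hM hB) := by
    rw [ev_eq_sum, ev_eq_sum hM (bIdem hM hB) χ]
    refine Finset.sum_congr rfl fun C _ => ?_
    by_cases hne : cred hM (bIdem hM hB) (Quotient.out C) = 0
    · rw [hne, zero_mul, zero_mul]
    have hq : ¬ p ∣ orderOf (Quotient.out C) := fun h => hne (cred_bIdem_singular hM hB h)
    have hqR : (Quotient.out C) ∈ Subgroup.centralizer (R : Set (G ⧸ N)) := by
      by_contra h'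
      exact hne (cred_bIdem_eq_zero_of_notMem hM R hR hB h')
    obtain ⟨g₀, hg₀⟩ := QuotientGroup.mk_surjective (Quotient.out C : G ⧸ N)
    -- a regular lift
    obtain ⟨g, hgq, hgreg⟩ : ∃ g : G, (QuotientGroup.mk g : G ⧸ N) = Quotient.out C ∧
        ¬ p ∣ orderOf g := by
      obtain ⟨b, hb⟩ := hN.exists_card_eq
      have hco : Nat.Coprime (p ^ b) (orderOf (Quotient.out C)) :=
        ((hp.coprime_iff_not_dvd).2 hq).pow_left b
      obtain ⟨a, -, ha⟩ : ∃ a, True ∧ p ^ b * a ≡ 1 [MOD orderOf (Quotient.out C)] := by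
        rcases Nat.eq_or_lt_of_le (orderOf_pos (Quotient.out C)) with h1 | h1
        · exact ⟨0, trivial, by rw [← h1]; exact Nat.modEq_one⟩
        · obtain ⟨a, -, ha⟩ := Nat.exists_mul_mod_eq_one_of_coprime hco h1
          exact ⟨a, trivial, by rw [Nat.ModEq, ha, Nat.mod_eq_of_lt h1]⟩
      refine ⟨g₀ ^ (p ^ b * a), ?_, ?_⟩
      · rw [QuotientGroup.mk_pow, hg₀]
        conv_rhs => rw [← pow_one (Quotient.out C)]
        exact pow_eq_pow_iff_modEq.2 ha
      · intro hdvd
        have hmem : g₀ ^ orderOf (Quotient.out C) ∈ N := by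
          rw [← QuotientGroup.eq_one_iff, QuotientGroup.mk_pow, hg₀, pow_orderOf_eq_one]
        have h1 : g₀ ^ (orderOf (Quotient.out C) * p ^ b) = 1 := by
          rw [pow_mul, ← hb]
          exact congrArg Subtype.val (pow_card_eq_one' (x := (⟨_, hmem⟩ : N)))
        have h2 : orderOf (g₀ ^ (p ^ b * a)) ∣ orderOf (Quotient.out C) := by
          apply orderOf_dvd_of_pow_eq_one
          rw [← pow_mul, show p ^ b * a * orderOf (Quotient.out C) =
            orderOf (Quotient.out C) * p ^ b * a by ring, pow_mul, h1, one_pow]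
        exact hq (hdvd.trans h2)
    have hgC := hcen g hgreg (hgq ▸ hqR)
    obtain ⟨m, hm⟩ := centralChar_inflate N g
    have hidx : (Subgroup.centralizer ({g} : Set G)).index =
        (Subgroup.centralizer ({(QuotientGroup.mk g : G ⧸ N)} : Set (G ⧸ N))).index := by
      have e : Subgroup.centralizer ({g} : Set G) =
          (Subgroup.centralizer ({(QuotientGroup.mk g : G ⧸ N)} : Set (G ⧸ N))).comap
            (QuotientGroup.mk' N) := by
        ext x
        rw [Subgroup.mem_comap, Subgroup.mem_centralizer_singleton_iff,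
          Subgroup.mem_centralizer_singleton_iff]
        constructor
        · intro hx
          show (QuotientGroup.mk x : G ⧸ N) * QuotientGroup.mk g = _
          rw [← QuotientGroup.mk_mul, hx, QuotientGroup.mk_mul]
          rfl
        · intro hx
          have hx' : (QuotientGroup.mk (x * g) : G ⧸ N) = QuotientGroup.mk (g * x) := hx
          have hn : g⁻¹ * (x * g * x⁻¹) ∈ N := by
            rw [← QuotientGroup.eq, QuotientGroup.mk_mul, hx', ← QuotientGroup.mk_mul,
              mul_inv_cancel_right]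
          have hc : Commute g (g⁻¹ * (x * g * x⁻¹)) :=
            (Subgroup.mem_centralizer_iff.1 hgC _ hn).symm
          have hreg' : ¬ p ∣ orderOf (g * (g⁻¹ * (x * g * x⁻¹))) := by
            rw [mul_inv_cancel_left]
            have := orderOf_injective (MulAut.conj x).toMonoidHom (MulAut.conj x).injective g
            simp only [MulEquiv.toMonoidHom_eq_coe, MonoidHom.coe_coe, MulAut.conj_apply] at this
            rwa [this]
          have h1 := eq_one_of_regular N hN hn hc hgreg hreg'
          exact mul_inv_eq_iff_eq_mul.1 (inv_mul_eq_one.1 h1).symm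
      rw [e, Subgroup.index_comap_of_surjective _ (QuotientGroup.mk'_surjective N)]
    have hm1 : m = 1 := by
      have h0 := hm ⟨fun _ => 1, isIrrCharacter_one⟩
      have h1 := centralChar_mul_degree (inflate N ⟨fun _ => 1, isIrrCharacter_one⟩) g
      have h2 := centralChar_mul_degree
        (⟨fun _ => 1, isIrrCharacter_one⟩ : IrrCharacter (G ⧸ N)) (QuotientGroup.mk g : G ⧸ N)
      simp only [inflate_apply, mul_one] at h1 h2
      rw [h1, h2, hidx] at h0
      have hne0 : ((Subgroup.centralizer ({(QuotientGroup.mk g : G ⧸ N)} : Set (G ⧸ N))).index : ℂ) ≠ 0 :=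
        Nat.cast_ne_zero.2 Subgroup.index_ne_zero_of_finite
      exact_mod_cast (mul_eq_right₀ hne0).1 h0.symm
    have hev : ∀ ψ : IrrCharacter (G ⧸ N), ev hM ψ (cl hM (Quotient.out C)) =
        ev hM (inflate N ψ) (cl hM g) := fun ψ => by
      rw [ev_cl, ev_cl, ← hgq]
      refine congrArg (res hM) (Subtype.ext ?_)
      show centralChar _ _ = centralChar _ _
      rw [hm ψ, hm1, Nat.cast_one, one_mul]
    rw [hev, hev, h g]
  rw [ev_bIdem, ev_bIdem, if_pos (mem_blockOf_self hM χ)] at key
  by_contra hn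
  rw [if_neg (show χ' ∉ blockOf M (χ : G ⧸ N → ℂ) from hn)] at key
  exact zero_ne_one key

end CfsgLib.Block
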