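import Cfsg.Agent.Lib.BlockGlaubermanSolv
import Cfsg.Agent.Lib.BlockCoprimeExt
import Cfsg.Agent.Lib.CharGallagher
import Cfsg.Agent.Lib.BlockInflate
import Cfsg.Agent.Lib.CharDet

/-!
# The relative Glauberman correspondence over a normal subgroup of prime power order
-/

set_option autoImplicit false
set_option linter.style.haveILetI false
set_option linter.unusedSectionVars false
set_option linter.unusedFintypeInType false

namespace CfsgLib.Glauberman

open Cfsg CfsgLib.Char CfsgLib.Block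
open scoped ComplexConjugate Classical

universe u v

section Aux

variable {E : Type u} [Group E] [Fintype E]

/-- Inner products are unchanged along a surjection. -/
theorem inner_comp_surj {F : Type u} [Group F] [Fintype F] (π : E →* F)
    (hπ : Function.Surjective π) (f g : F → ℂ) :
    classInner (f ∘ π) (g ∘ π) = classInner f g := by
  have hfib : ∀ y : F, (Finset.univ.filter fun x => π x = y).card = Nat.card π.ker := by
    intro y
    obtain ⟨a, rfl⟩ := hπ y
    rw [← Fintype.card_subtype, ← Nat.card_eq_fintype_card]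
    exact Nat.card_congr
      { toFun := fun x => ⟨a⁻¹ * x.1, by simp [MonoidHom.mem_ker, x.2]⟩
        invFun := fun k => ⟨a * k.1, by simp [MonoidHom.mem_ker.1 k.2]⟩
        left_inv := fun x => Subtype.ext (mul_inv_cancel_left a _)
        right_inv := fun k => Subtype.ext (inv_mul_cancel_left a _) }
  have hsum : ∑ x : E, f (π x) * conj (g (π x)) = (Nat.card π.ker : ℂ) * ∑ y, f y * conj (g y) := by
    rw [← Finset.sum_fiberwise Finset.univ (fun x => π x), Finset.mul_sum]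
    refine Finset.sum_congr rfl fun y _ => ?_
    rw [Finset.sum_congr rfl fun x hx => by rw [(Finset.mem_filter.1 hx).2], Finset.sum_const,
      nsmul_eq_mul, hfib]
  have hcard : Nat.card E = Nat.card F * Nat.card π.ker := by
    rw [Subgroup.card_eq_card_quotient_mul_card_subgroup π.ker,
      Nat.card_congr (QuotientGroup.quotientKerEquivOfSurjective π hπ).toEquiv]
  simp only [classInner, Function.comp]
  rw [hsum, hcard]
  push_cast
  field_simp [natCard_ne_zero F, natCard_ne_zero π.ker]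
  rw [mul_div_cancel_left₀ _ (natCard_ne_zero π.ker)]

/-- A constituent of a constituent is a constituent. -/
theorem inner_ne_zero_trans {H : Type u} [Group H] [Fintype H] (j : H →* E) {F : E → ℂ}
    (hF : IsCharacter E F) {ξ : E → ℂ} (hξ : IsIrrCharacter E ξ) {θ : H → ℂ}
    (hθ : IsCharacter H θ) (h1 : classInner F ξ ≠ 0) (h2 : classInner (ξ ∘ j) θ ≠ 0) :
    classInner (F ∘ j) θ ≠ 0 := by
  choose a ha using fun η : IrrCharacter E => inner_character_nat hF η.2.isCharacter'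
  choose b hb using fun η : IrrCharacter E =>
    inner_character_nat (isCharacter_comp η.2.isCharacter' j) hθ
  have hsum := classFunction_eq_sum F (isCharacter_classFunction hF)
  have e : F ∘ j = ∑ η : IrrCharacter E, classInner F η • ((η : E → ℂ) ∘ j) := by
    conv_lhs => rw [hsum]
    funext x
    simp [Finset.sum_apply]
  rw [e, inner_sum_left]
  simp only [CfsgLib.Char.inner_smul_left, ha]
  intro h
  have h' : (∑ η : IrrCharacter E, a η * b η : ℕ) = 0 := by
    have : ((∑ η : IrrCharacter E, a η * b η : ℕ) : ℂ) = 0 := by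
      rw [← h]
      push_cast
      exact Finset.sum_congr rfl fun η _ => congrArg _ (hb η).symm
    exact_mod_cast this
  rcases mul_eq_zero.1 ((Finset.sum_eq_zero_iff.1 h') ⟨ξ, hξ⟩ (Finset.mem_univ _)) with h0 | h0
  · exact h1 (by have := ha ⟨ξ, hξ⟩; rw [h0, Nat.cast_zero] at this; exact this)
  · exact h2 (by have := hb ⟨ξ, hξ⟩; rw [h0, Nat.cast_zero] at this; exact this)

/-- The determinant of a character composed with a homomorphism. -/
theorem detChar_comp {F : Type u} [Group F] [Finite F] (j : E →* F) {χ : F → ℂ}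
    (hχ : IsCharacter F χ) : detChar (χ ∘ j) = detChar χ ∘ j := by
  obtain ⟨m, ρ, rfl⟩ := hχ
  funext x
  let σ : Representation ℂ E (Fin m → ℂ) := ρ.comp j
  show detChar σ.character x = detChar ρ.character (j x)
  rw [detChar_eq_det, detChar_eq_det]
  rfl

theorem detOrder_comp_equiv {F : Type u} [Group F] [Finite F] (e : E ≃* F) {χ : F → ℂ}
    (hχ : IsCharacter F χ) : detOrder (χ ∘ e) = detOrder χ := by
  show orderOf (detChar (χ ∘ e.toMonoidHom)) = orderOf (detChar χ)
  rw [detChar_comp e.toMonoidHom hχ]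
  refine orderOf_eq_orderOf_iff.2 fun n => ⟨fun h => funext fun y => ?_, fun h => funext fun x => ?_⟩
  · have := congrFun h (e.symm y)
    simpa using this
  · simpa using congrFun h (e x)

end Aux

section Rel

variable {K : Type u} [Group K] [Fintype K] {S : Type v} [Group S] [Finite S] (φ : S →* MulAut K)
  (Q : Subgroup K) [hQn : Q.Normal] (hQi : ∀ s, ∀ q ∈ Q, φ s q ∈ Q)

/-- The elements centralised by the operators modulo `Q`. -/
def relC : Subgroup K where
  carrier := {k | ∀ s, φ s k * k⁻¹ ∈ Q}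
  one_mem' := fun s => by simp
  mul_mem' := fun {a b} ha hb s => by
    rw [show φ s (a * b) * (a * b)⁻¹ = (φ s a * a⁻¹) * (a * (φ s b * b⁻¹) * a⁻¹) by
      rw [map_mul]; group]
    exact mul_mem (ha s) (hQn.conj_mem _ (hb s) a)
  inv_mem' := fun {a} ha s => by
    rw [show φ s a⁻¹ * a⁻¹⁻¹ = a⁻¹ * (a * (φ s a)⁻¹) * a⁻¹⁻¹ by rw [map_inv]; group]
    refine hQn.conj_mem _ ?_ a⁻¹
    have := inv_mem (ha s)
    rwa [mul_inv_rev, inv_inv] at this

variable {φ Q}

theorem mem_relC {k : K} : k ∈ relC φ Q ↔ ∀ s, φ s k * k⁻¹ ∈ Q := Iff.rfl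

include hQi in
theorem le_relC : Q ≤ relC φ Q := fun q hq s => mul_mem (hQi s q hq) (inv_mem hq)

include hQi in
theorem relC_map (s : S) (k : K) (hk : k ∈ relC φ Q) : φ s k ∈ relC φ Q := by
  have h := mul_mem (le_relC hQi (hk s)) hk
  rwa [inv_mul_cancel_right] at h

/-- The action on a quotient. -/
def quotAct : S →* MulAut (K ⧸ Q) where
  toFun s := QuotientGroup.congr Q Q (φ s) (by
    refine le_antisymm ?_ fun q hq => ⟨φ s⁻¹ q, hQi s⁻¹ q hq, ?_⟩
    · rintro _ ⟨q, hq, rfl⟩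
      exact hQi s q hq
    · show φ s (φ s⁻¹ q) = q
      rw [← MulAut.mul_apply, ← map_mul, mul_inv_cancel, map_one]; rfl)
  map_one' := MulEquiv.ext fun x => by
    obtain ⟨k, rfl⟩ := QuotientGroup.mk_surjective x
    simp
  map_mul' s t := MulEquiv.ext fun x => by
    obtain ⟨k, rfl⟩ := QuotientGroup.mk_surjective x
    simp [map_mul]

theorem quotAct_mk (s : S) (k : K) :
    quotAct hQi s (QuotientGroup.mk k) = QuotientGroup.mk (φ s k) := rfl

include hQi in
theorem mk_mem_fix_iff (k : K) :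
    (QuotientGroup.mk k : K ⧸ Q) ∈ fix (quotAct hQi) ↔ k ∈ relC φ Q := by
  rw [mem_fix, mem_relC]
  refine forall_congr' fun s => ?_
  rw [quotAct_mk, QuotientGroup.eq]
  constructor
  · intro h
    have := hQn.conj_mem _ (inv_mem h) k
    rw [show φ s k * k⁻¹ = k * ((φ s k)⁻¹ * k)⁻¹ * k⁻¹ by group]
    exact this
  · intro h
    have := hQn.conj_mem _ (inv_mem h) k⁻¹
    rw [show (φ s k)⁻¹ * k = k⁻¹ * (φ s k * k⁻¹)⁻¹ * k⁻¹⁻¹ by group]
    exact this

variable {p : ℕ} [Fact p.Prime] (hS : IsPGroup p S) (hidx : ¬ p ∣ Q.index)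

include hQi hS hidx in
/-- A coset of an invariant overgroup fixed by the operators meets `relC`. -/
theorem exists_relC_coset (T : Subgroup K) (hQT : Q ≤ T) (hTi : ∀ s, ∀ t ∈ T, φ s t ∈ T) {k : K}
    (hk : ∀ s, φ s k * k⁻¹ ∈ T) : ∃ c ∈ relC φ Q, c * k⁻¹ ∈ T := by
  let X : Set (K ⧸ Q) := {q | ∃ t ∈ T, q = QuotientGroup.mk (t * k)}
  have hX : ∀ (s : S), ∀ q ∈ X, quotAct hQi s q ∈ X := by
    rintro s q ⟨t, ht, rfl⟩
    refine ⟨φ s t * (φ s k * k⁻¹), mul_mem (hTi s t ht) (hk s), ?_⟩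
    rw [quotAct_mk, map_mul, mul_assoc, inv_mul_cancel_right]
  letI : MulAction S X :=
    { smul := fun s q => ⟨quotAct hQi s q, hX s q q.2⟩
      one_smul := fun q => Subtype.ext (show quotAct hQi 1 (q : K ⧸ Q) = q by rw [map_one]; rfl)
      mul_smul := fun s t q => Subtype.ext (by
        show quotAct hQi (s * t) (q : K ⧸ Q) = quotAct hQi s (quotAct hQi t q)
        rw [map_mul]; rfl) }
  have hcard : ¬ p ∣ Nat.card X := by
    intro h
    have e : Nat.card X = Nat.card (T.map (QuotientGroup.mk' Q)) := Nat.card_congr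
      { toFun := fun q => ⟨q.1 * (QuotientGroup.mk k)⁻¹, by
          obtain ⟨t, ht, e⟩ := q.2
          exact ⟨t, ht, by rw [e, QuotientGroup.mk_mul, mul_inv_cancel_right]; rfl⟩⟩
        invFun := fun q => ⟨q.1 * QuotientGroup.mk k, by
          obtain ⟨t, ht, e⟩ := q.2
          exact ⟨t, ht, by rw [← e]; rfl⟩⟩
        left_inv := fun q => Subtype.ext (inv_mul_cancel_right _ _)
        right_inv := fun q => Subtype.ext (mul_inv_cancel_right _ _) }
    rw [e] at h
    exact hidx (h.trans (by rw [Subgroup.index]; exact Subgroup.card_subgroup_dvd_card _))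
  obtain ⟨⟨q, t, ht, rfl⟩, hq⟩ := hS.nonempty_fixed_point_of_prime_not_dvd_card X hcard
  refine ⟨t * k, (mk_mem_fix_iff hQi _).1 fun s => congrArg Subtype.val (hq s), ?_⟩
  rwa [mul_inv_cancel_right]

/-- Invariance of a function on an invariant subgroup. -/
def InvOn (φ : S →* MulAut K) (H : Subgroup K) (f : H → ℂ) : Prop :=
  ∀ s, ∀ h h' : H, (h' : K) = φ s (h : K) → f h' = f h

include hQi in
/-- The inertia group of an invariant character is invariant. -/
theorem inertia_map {θ : Q → ℂ} (hθ : InvOn φ Q θ) (s : S) {t : K} (ht : t ∈ inertia θ) :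
    φ s t ∈ inertia θ := by
  rw [mem_inertia] at ht ⊢
  funext x
  obtain ⟨y, hy⟩ : ∃ y : Q, (x : K) = φ s y := ⟨⟨φ s⁻¹ x, hQi s⁻¹ x x.2⟩, by
    show (x : K) = φ s (φ s⁻¹ x)
    rw [← MulAut.mul_apply, ← map_mul, mul_inv_cancel, map_one]; rfl⟩
  rw [hθ s y x hy]
  conv_rhs => rw [← congrFun ht y]
  rw [conjFn_eq_comp, conjFn_eq_comp]
  refine hθ s _ _ ?_
  show ((MulAut.conjNormal (φ s t) : MulAut Q) x : K) = φ s ((MulAut.conjNormal t : MulAut Q) y)
  rw [MulAut.conjNormal_apply, MulAut.conjNormal_apply, hy, map_mul, map_mul, map_inv]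

include hQi hS hidx in
/-- An invariant character has an invariant constituent on `Q`. -/
theorem exists_inv_constituent {χ : K → ℂ} (hχ : IsIrrCharacter K χ)
    (hinv : ∀ s k, χ (φ s k) = χ k) : ∃ θ : Q → ℂ, IsIrrCharacter Q θ ∧ InvOn φ Q θ ∧
      classInner (fun n : Q => χ n) θ ≠ 0 := by
  obtain ⟨θ₀, hθ₀, h0⟩ := exists_irr_under (H := Q) hχ
  let φQ := restr φ Q hQi
  let X : Set (Q → ℂ) := {η | IsIrrCharacter Q η ∧ classInner (fun n : Q => χ n) η ≠ 0}
  have hX : ∀ (s : S), ∀ η ∈ X, η ∘ φQ s⁻¹ ∈ X := by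
    rintro s η ⟨hη, hη0⟩
    refine ⟨isIrrCharacter_comp_equiv hη (φQ s⁻¹), ?_⟩
    have e : (fun n : Q => χ n) = (fun n : Q => χ n) ∘ φQ s⁻¹ := funext fun n => (hinv s⁻¹ n).symm
    rw [e, inner_comp_equiv]
    exact hη0
  letI : MulAction S X :=
    { smul := fun s η => ⟨(η : Q → ℂ) ∘ φQ s⁻¹, hX s η η.2⟩
      one_smul := fun η => Subtype.ext (funext fun x => by
        show (η : Q → ℂ) (φQ 1⁻¹ x) = (η : Q → ℂ) x
        rw [inv_one, map_one]; rfl)
      mul_smul := fun s t η => Subtype.ext (funext fun x => by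
        show (η : Q → ℂ) (φQ (s * t)⁻¹ x) = (η : Q → ℂ) (φQ t⁻¹ (φQ s⁻¹ x))
        rw [mul_inv_rev, map_mul]; rfl) }
  have hXeq : X = (conjOrbit θ₀ : Set (Q → ℂ)) := by
    ext η
    rw [Finset.mem_coe, mem_conjOrbit]
    refine ⟨fun h => constituent_conj hχ hθ₀ h.1 h0 h.2, ?_⟩
    rintro ⟨g, rfl⟩
    refine ⟨isIrrCharacter_conjFn hθ₀ g, ?_⟩
    have e : (fun n : Q => χ n) = conjFn g (fun n : Q => χ n) :=
      (classFunction_restrict_conjFn (isCharacter_classFunction hχ.isCharacter') g).symm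
    rw [e, conjFn_eq_comp, conjFn_eq_comp, inner_comp_equiv]
    exact h0
  have hcard : ¬ p ∣ Nat.card X := by
    rw [hXeq, Nat.card_eq_card_toFinset, Finset.toFinset_coe, card_conjOrbit_eq_index]
    exact fun h => hidx (h.trans (Subgroup.index_dvd_of_le
      (le_inertia (isCharacter_classFunction hθ₀.isCharacter'))))
  obtain ⟨⟨η, hη, hη0⟩, hfix⟩ := hS.nonempty_fixed_point_of_prime_not_dvd_card X hcard
  refine ⟨η, hη, fun s h h' e => ?_, hη0⟩
  have h1 : η (φQ s⁻¹ h') = η h' := congrFun (congrArg Subtype.val (hfix s)) h'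
  rw [← h1]
  congr 1
  refine Subtype.ext ?_
  show φ s⁻¹ (h' : K) = h
  rw [e, ← MulAut.mul_apply, ← map_mul, inv_mul_cancel, map_one]; rfl

end Rel

section Over

variable {K : Type u} [Group K] [Fintype K] {S : Type v} [Group S] [Finite S] {φ : S →* MulAut K}
  {Q : Subgroup K} [hQn : Q.Normal] (hQi : ∀ s, ∀ q ∈ Q, φ s q ∈ Q) {p : ℕ} [Fact p.Prime]
  (hS : IsPGroup p S) (hQp : IsPGroup p Q) (hidx : ¬ p ∣ Q.index) {θ : Q → ℂ}
  (hθ : IsIrrCharacter Q θ) (hθi : InvOn φ Q θ)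

/-- The only constituent over `θ` of the restriction to the inertia group. -/
theorem clifford_unique {χ : K → ℂ} (hχ : IsIrrCharacter K χ) {T : Subgroup K} [Fintype T]
    (hQT : Q ≤ T) {ψ : T → ℂ} (hψ : IsIrrCharacter T ψ) (hind : indFun T ψ = χ)
    (he : classInner (fun n : Q => ψ ⟨(n : K), hQT n.2⟩) θ = classInner (fun n : Q => χ n) θ)
    (hθ : IsIrrCharacter Q θ) {η : T → ℂ} (hη : IsIrrCharacter T η)
    (h1 : classInner (fun t : T => χ t) η ≠ 0)
    (h2 : classInner (fun n : Q => η ⟨(n : K), hQT n.2⟩) θ ≠ 0) : η = ψ := by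
  have haψ : classInner (fun t : T => χ t) ψ = 1 := by
    rw [← frobenius_right ψ χ (isCharacter_classFunction hχ.isCharacter'), hind, irr_inner_self hχ]
  choose a ha using fun ξ : IrrCharacter T =>
    inner_character_nat (isCharacter_restrict hχ.isCharacter' T) ξ.2.isCharacter'
  choose b hb using fun ξ : IrrCharacter T => inner_character_nat
    (isCharacter_comp ξ.2.isCharacter' (Subgroup.inclusion hQT)) hθ.isCharacter'
  have hsum := mult_eq_sum hχ (θ := θ) T hQT
  rw [← he] at hsum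
  by_contra hne
  have hψi : (⟨ψ, hψ⟩ : IrrCharacter T) ≠ ⟨η, hη⟩ := fun e => hne (congrArg Subtype.val e).symm
  have hnat : (b ⟨ψ, hψ⟩ : ℂ) = ((∑ ξ : IrrCharacter T, a ξ * b ξ : ℕ) : ℂ) := by
    push_cast
    rw [show (b ⟨ψ, hψ⟩ : ℂ) = classInner (fun n : Q => ψ ⟨(n : K), hQT n.2⟩) θ from (hb ⟨ψ, hψ⟩).symm,
      hsum]
    exact Finset.sum_congr rfl fun ξ _ => by rw [← ha ξ, ← hb ξ]; rfl
  have hnat' : b ⟨ψ, hψ⟩ = ∑ ξ : IrrCharacter T, a ξ * b ξ := by exact_mod_cast hnat
  have ha1 : a ⟨ψ, hψ⟩ = 1 := by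
    have := (ha ⟨ψ, hψ⟩).symm.trans haψ
    exact_mod_cast this
  have hle := Finset.sum_le_sum_of_subset (f := fun ξ => a ξ * b ξ)
    (s := {⟨ψ, hψ⟩, ⟨η, hη⟩}) (t := Finset.univ) (Finset.subset_univ _)
  rw [Finset.sum_pair hψi, ← hnat', ha1, one_mul] at hle
  have hpos : 0 < a ⟨η, hη⟩ * b ⟨η, hη⟩ := Nat.mul_pos
    (Nat.pos_of_ne_zero fun e => h1 (by have := ha ⟨η, hη⟩; rw [e, Nat.cast_zero] at this; exact this))
    (Nat.pos_of_ne_zero fun e => h2 (by have := hb ⟨η, hη⟩; rw [e, Nat.cast_zero] at this; exact this))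
  omega

/-- `Q` inside a subgroup. -/
def subQ (H : Subgroup K) (hQH : Q ≤ H) : Q ≃* Q.subgroupOf H :=
  (Subgroup.subgroupOfEquivOfLe hQH).symm

theorem inner_subQ (H : Subgroup K) (hQH : Q ≤ H) [Fintype (Q.subgroupOf H)]
    (f g : Q.subgroupOf H → ℂ) :
    classInner (fun n : Q => f (subQ H hQH n)) (fun n : Q => g (subQ H hQH n)) = classInner f g :=
  inner_comp_equiv (subQ H hQH) f g

include hQi hθi in
theorem inertia_inv : ∀ s, ∀ t ∈ inertia θ, φ s t ∈ inertia θ := fun s _ ht =>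
  inertia_map hQi hθi s ht

/-- The action on the inertia group. -/
def actT : S →* MulAut (inertia θ) := restr φ (inertia θ) (inertia_inv hQi hθi)

include hQi in
theorem actT_Q (s : S) (q : inertia θ) (hq : q ∈ Q.subgroupOf (inertia θ)) :
    actT hQi hθi s q ∈ Q.subgroupOf (inertia θ) :=
  Subgroup.mem_subgroupOf.2 (hQi s q (Subgroup.mem_subgroupOf.1 hq))

include hQi hQp hidx hθ hθi in
theorem exists_ext : ∃ θh : inertia θ → ℂ, IsIrrCharacter (inertia θ) θh ∧
    (∀ s t, θh (actT hQi hθi s t) = θh t) ∧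
    ∀ (n : Q) (hn : (n : K) ∈ inertia θ), θh ⟨n, hn⟩ = θ n := by
  have hQT : Q ≤ inertia θ := le_inertia (isCharacter_classFunction hθ.isCharacter')
  haveI := Fintype.ofFinite (Q.subgroupOf (inertia θ))
  let e := subQ (inertia θ) hQT
  let ϑ : Q.subgroupOf (inertia θ) → ℂ := θ ∘ e.symm
  have hϑ : IsIrrCharacter _ ϑ := isIrrCharacter_comp_equiv hθ e.symm
  have hinv : ∀ (g : inertia θ) (n : Q.subgroupOf (inertia θ)),
      ϑ ⟨g * n * g⁻¹, (inferInstance : (Q.subgroupOf (inertia θ)).Normal).conj_mem _ n.2 g⟩ = ϑ n :=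
    fun g n => by
    refine Eq.trans ?_ (congrFun (mem_inertia.1 g.2) (e.symm n))
    rw [conjFn_eq_comp]
    refine congrArg θ (Subtype.ext ?_)
    rw [MulAut.conjNormal_apply]
    rfl
  obtain ⟨b, hb⟩ := IsPGroup.iff_card.1 hQp
  have hd : ϑ 1 = (charDegree θ : ℂ) := by
    rw [charDegree_cast hθ.isCharacter']
    exact congrArg θ (map_one e.symm)
  have hpcop : ∀ m, m ∣ Nat.card Q → (Q.subgroupOf (inertia θ)).index.Coprime m := fun m hm => by
    rw [hb] at hm
    refine Nat.Coprime.coprime_dvd_right hm (Nat.Coprime.pow_right _ ?_)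
    rw [Nat.coprime_comm, (Fact.out : p.Prime).coprime_iff_not_dvd]
    exact fun h => hidx (h.trans (Subgroup.relIndex_dvd_index_of_normal Q _))
  have hcop : Nat.Coprime (Q.subgroupOf (inertia θ)).index (detOrder ϑ * charDegree θ) := by
    refine Nat.Coprime.mul_right (hpcop _ ?_) (hpcop _ (charDegree_dvd_card ⟨θ, hθ⟩))
    exact (detOrder_dvd_card hϑ.isCharacter').trans (dvd_of_eq (Nat.card_congr e.toEquiv).symm)
  obtain ⟨θh, ⟨hirr, hres, hdet⟩, huniq⟩ := canonical_extension _ hϑ hinv hd hcop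
  refine ⟨θh, hirr, fun s t => ?_, fun n hn => (hres ⟨⟨n, hn⟩, n.2⟩).trans (congrArg θ (Subtype.ext rfl))⟩
  refine congrFun (huniq (θh ∘ actT hQi hθi s) (isIrrCharacter_comp_equiv hirr _) (fun n => ?_) ?_) t
  · show θh (actT hQi hθi s n) = ϑ n
    refine (hres ⟨actT hQi hθi s n, actT_Q hQi hθi s n n.2⟩).trans ?_
    exact hθi s (e.symm n) (e.symm ⟨actT hQi hθi s n, actT_Q hQi hθi s n n.2⟩) rfl
  · rw [detOrder_comp_equiv _ hirr.isCharacter', hdet]
    exact hcop.coprime_dvd_right (dvd_mul_right _ _)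

include hQi hS hidx hθi in
theorem index_inertia_modEq (hQT : Q ≤ inertia θ) :
    ((inertia θ).subgroupOf (relC φ Q)).index ≡ (inertia θ).index [MOD p] := by
  have hT := inertia_inv hQi hθi (θ := θ)
  have hwd : ∀ (s : S) (a b : K), a⁻¹ * b ∈ inertia θ → (φ s a)⁻¹ * φ s b ∈ inertia θ :=
    fun s a b h => by rw [← map_inv, ← map_mul]; exact hT s _ h
  letI : MulAction S (K ⧸ inertia θ) :=
    { smul := fun s q => Quotient.liftOn' q (fun k => (QuotientGroup.mk (φ s k) : K ⧸ inertia θ))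
        fun a b h => QuotientGroup.eq.2 (hwd s a b (QuotientGroup.leftRel_apply.1 h))
      one_smul := fun q => by
        obtain ⟨k, rfl⟩ := QuotientGroup.mk_surjective q
        show (QuotientGroup.mk (φ 1 k) : K ⧸ inertia θ) = _
        rw [map_one]; rfl
      mul_smul := fun s t q => by
        obtain ⟨k, rfl⟩ := QuotientGroup.mk_surjective q
        show (QuotientGroup.mk (φ (s * t) k) : K ⧸ inertia θ) = QuotientGroup.mk (φ s (φ t k))
        rw [map_mul]; rfl }
  have hsmul : ∀ (s : S) (k : K),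
      s • (QuotientGroup.mk k : K ⧸ inertia θ) = QuotientGroup.mk (φ s k) := fun s k => rfl
  have h := hS.card_modEq_card_fixedPoints (K ⧸ inertia θ)
  refine Nat.ModEq.trans (congrArg (· % p) ?_) h.symm
  show Nat.card (relC φ Q ⧸ (inertia θ).subgroupOf (relC φ Q)) = _
  refine Nat.card_congr (Equiv.ofBijective (fun q => Quotient.liftOn' q
    (fun c => (⟨QuotientGroup.mk (c : K), fun s => by
      rw [hsmul, QuotientGroup.eq]
      have h1 := hQT (hQn.conj_mem _ (inv_mem (c.2 s)) (c : K)⁻¹)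
      have h2 : (c : K)⁻¹ * (φ s (c : K) * (c : K)⁻¹)⁻¹ * (c : K)⁻¹⁻¹ = (φ s (c : K))⁻¹ * (c : K) := by
        group
      rwa [h2] at h1⟩ : MulAction.fixedPoints S (K ⧸ inertia θ)))
    fun a b hab => Subtype.ext (QuotientGroup.eq.2
      (Subgroup.mem_subgroupOf.1 (QuotientGroup.leftRel_apply.1 hab)))) ⟨?_, ?_⟩)
  · intro q q'
    obtain ⟨a, rfl⟩ := QuotientGroup.mk_surjective q
    obtain ⟨b, rfl⟩ := QuotientGroup.mk_surjective q'
    intro e
    exact QuotientGroup.eq.2 (Subgroup.mem_subgroupOf.2 (QuotientGroup.eq.1 (congrArg Subtype.val e)))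
  · rintro ⟨q, hq⟩
    obtain ⟨k, rfl⟩ := QuotientGroup.mk_surjective q
    have hk : ∀ s, φ s k⁻¹ * k⁻¹⁻¹ ∈ inertia θ := fun s => by
      rw [inv_inv, map_inv]
      exact QuotientGroup.eq.1 ((hsmul s k).symm.trans (hq s))
    obtain ⟨c, hc, hck⟩ := exists_relC_coset hQi hS hidx (inertia θ) hQT hT hk
    refine ⟨QuotientGroup.mk (⟨c, hc⟩⁻¹ : relC φ Q), Subtype.ext (QuotientGroup.eq.2 ?_)⟩
    simpa using hck

include hQi hS hQp hidx hθ hθi in
/-- The correspondence over one invariant character of `Q`. -/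
theorem exists_over_data {M : Ideal AlgInt} (hM : IsPModular p M) :
    ∃ (Fx : Type u) (_ : Group Fx) (_ : Fintype Fx)
      (X : IrrCharacter Fx → IrrCharacter K) (Y : IrrCharacter Fx → IrrCharacter (relC φ Q))
      (m : IrrCharacter Fx → IrrCharacter Fx → ℕ),
      (∀ γ, ∀ s, ∀ k, (X γ : K → ℂ) (φ s k) = (X γ : K → ℂ) k) ∧
      (∀ γ, ∀ s, ∀ c c' : relC φ Q, (c' : K) = φ s (c : K) →
        (Y γ : relC φ Q → ℂ) c' = (Y γ : relC φ Q → ℂ) c) ∧
      (∀ χ : IrrCharacter K, (∀ s k, (χ : K → ℂ) (φ s k) = (χ : K → ℂ) k) →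
        classInner (fun n : Q => (χ : K → ℂ) n) θ ≠ 0 → ∃ γ, X γ = χ) ∧
      (∀ ξ : IrrCharacter (relC φ Q),
        classInner (fun n : Q => (ξ : relC φ Q → ℂ) ⟨n, le_relC hQi n.2⟩) θ ≠ 0 → ∃ γ, Y γ = ξ) ∧
      (∀ γ γ', classInner (fun c : relC φ Q => (X γ : K → ℂ) c) (Y γ' : relC φ Q → ℂ) = m γ γ') ∧
      (∀ γ, ((m γ γ : ℤ) ≡ 1 [ZMOD p] ∨ (m γ γ : ℤ) ≡ -1 [ZMOD p])) ∧
      (∀ γ γ', γ ≠ γ' → p ∣ m γ γ') ∧
      ∀ γ, (charDegree (X γ : K → ℂ) : ℤ) ≡ (m γ γ : ℤ) *
        charDegree (Y γ : relC φ Q → ℂ) [ZMOD p] := by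
  have hQT : Q ≤ inertia θ := le_inertia (isCharacter_classFunction hθ.isCharacter')
  have hQC : Q ≤ relC φ Q := le_relC hQi
  have hmod := index_inertia_modEq hQi hS hidx hθi hQT
  obtain ⟨θh, hθh, hθhinv, hθhres⟩ := exists_ext hQi hQp hidx hθ hθi
  haveI := Fintype.ofFinite (Q.subgroupOf (inertia θ))
  let φT := actT hQi hθi (θ := θ)
  have hQTi : ∀ s, ∀ q ∈ Q.subgroupOf (inertia θ), φT s q ∈ Q.subgroupOf (inertia θ) :=
    fun s q hq => actT_Q hQi hθi s q hq
  have hidxT : ¬ p ∣ (Q.subgroupOf (inertia θ)).index :=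
    fun h => hidx (h.trans (Subgroup.relIndex_dvd_index_of_normal Q _))
  let φb := quotAct (φ := φT) hQTi
  have hbar : ¬ p ∣ Nat.card (inertia θ ⧸ Q.subgroupOf (inertia θ)) := hidxT
  haveI := Fintype.ofFinite (inertia θ ⧸ Q.subgroupOf (inertia θ))
  let E : Subgroup (relC φ Q) := (inertia θ).subgroupOf (relC φ Q)
  haveI := Fintype.ofFinite E
  let ι : E →* inertia θ := (((relC φ Q).subtype).comp E.subtype).codRestrict (inertia θ) fun e =>
    Subgroup.mem_subgroupOf.1 e.2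
  have hιmem : ∀ e, (QuotientGroup.mk (ι e) : inertia θ ⧸ Q.subgroupOf (inertia θ)) ∈ fix φb :=
    fun e => (mk_mem_fix_iff hQTi (ι e)).2 fun s => Subgroup.mem_subgroupOf.2 ((e : relC φ Q).2 s)
  let π : E →* fix φb := ((QuotientGroup.mk' _).comp ι).codRestrict (fix φb) hιmem
  have hπ : Function.Surjective π := by
    rintro ⟨q, hq⟩
    obtain ⟨t, rfl⟩ := QuotientGroup.mk_surjective q
    have ht := (mk_mem_fix_iff hQTi t).1 hq
    exact ⟨⟨⟨(t : K), fun s => Subgroup.mem_subgroupOf.1 (ht s)⟩, Subgroup.mem_subgroupOf.2 t.2⟩, rfl⟩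
  let NE : Subgroup E := (Q.subgroupOf (inertia θ)).comap ι
  haveI : Fintype NE := Fintype.ofFinite NE
  have hπN : ∀ (n : NE) (g : E), π ((n : E) * g) = π g := fun n g => by
    rw [map_mul, show π (n : E) = 1 from Subtype.ext ((QuotientGroup.eq_one_iff (ι (n : E))).2 n.2),
      one_mul]
  let θE : E → ℂ := θh ∘ ι
  let eN : Q ≃* NE :=
    { toFun := fun n => ⟨⟨⟨(n : K), hQC n.2⟩, Subgroup.mem_subgroupOf.2 (hQT n.2)⟩,
        Subgroup.mem_subgroupOf.2 n.2⟩
      invFun := fun x => ⟨((x : E) : relC φ Q), Subgroup.mem_subgroupOf.1 x.2⟩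
      left_inv := fun n => rfl
      right_inv := fun x => rfl
      map_mul' := fun _ _ => rfl }
  have hθEN : (fun n : NE => θE n) ∘ eN = θ := funext fun n => hθhres n _
  have hθEirrN : IsIrrCharacter NE (fun n : NE => θE n) := by
    have e : (fun n : NE => θE n) = θ ∘ eN.symm := funext fun x => by
      conv_rhs => rw [← hθEN]
      simp
    rw [e]
    exact isIrrCharacter_comp_equiv hθ eN.symm
  have hθEchar : IsCharacter E θE := isCharacter_comp hθh.isCharacter' ι
  have hθEirr : IsIrrCharacter E θE := by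
    obtain ⟨η, hη, h0⟩ := exists_constituent hθEchar fun h => by
      have h1 := congrFun h 1
      have h2 := congrFun hθEN 1
      simp only [Function.comp, map_one, OneMemClass.coe_one] at h2
      rw [h1, Pi.zero_apply] at h2
      exact irr_one_ne_zero ⟨θ, hθ⟩ h2.symm
    obtain ⟨θ', hθ', hη'⟩ := exists_irr_under (H := NE) hη
    have h3 : classInner (fun n : NE => θE n) θ' ≠ 0 :=
      inner_ne_zero_trans NE.subtype hθEchar hη hθ'.isCharacter' h0 hη'
    have h4 : θ' = fun n : NE => θE n := by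
      by_contra hne
      exact h3 (irr_inner_ne hθEirrN hθ' (Ne.symm hne))
    have h5 : (θE 1).re ≤ (η 1).re := by
      have e1 := clifford_degree hη hθ' hη'
      obtain ⟨a, ha⟩ := inner_character_nat (isCharacter_restrict hη.isCharacter' NE) hθ'.isCharacter'
      obtain ⟨d, hd⟩ := exists_degree hθEchar
      rw [ha] at e1
      rw [e1, h4]
      show (θE 1).re ≤ ((a : ℂ) * _ * θE ((1 : NE) : E)).re
      rw [OneMemClass.coe_one, hd]
      norm_cast
      have ha0 : a ≠ 0 := fun e => hη' (by rw [ha, e, Nat.cast_zero])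
      exact Nat.le_mul_of_pos_left _ (Nat.mul_pos (Nat.pos_of_ne_zero ha0)
        (Nat.pos_of_ne_zero Subgroup.index_ne_zero_of_finite))
    exact (eq_of_constituent_of_degree hθEchar hη h0 h5) ▸ hη
  haveI : Fintype (Q.subgroupOf (relC φ Q)) := Fintype.ofFinite _
  -- characters of the fixed quotient give characters of E
  let Y0 : IrrCharacter (fix φb) → (E → ℂ) := fun γ => ((γ : fix φb → ℂ) ∘ π) * θE
  have hcos : ∀ γ : fix φb → ℂ, ∀ (n : NE) (g : E), (γ ∘ π) ((n : E) * g) = (γ ∘ π) g :=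
    fun γ n g => congrArg γ (hπN n g)
  have hY0 : ∀ γ, IsIrrCharacter E (Y0 γ) := fun γ => by
    refine isIrr_of_inner_self_one (isCharacter_mul (isCharacter_comp γ.2.isCharacter' π) hθEchar) ?_
    show classInner (((γ : fix φb → ℂ) ∘ π) * θE) (((γ : fix φb → ℂ) ∘ π) * θE) = 1
    rw [inner_mul_ext NE hθEirr hθEirrN (hcos _) (hcos _), inner_comp_surj π hπ, irr_inner_self γ.2]
  let θC : Q.subgroupOf (relC φ Q) → ℂ := θ ∘ (subQ (relC φ Q) hQC).symm
  have hθC : IsIrrCharacter _ θC := isIrrCharacter_comp_equiv hθ _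
  have hEin : E = inertia θC := by
    ext c
    rw [Subgroup.mem_subgroupOf, mem_inertia, mem_inertia]
    constructor
    · intro h
      funext n
      refine Eq.trans ?_ (congrFun h ((subQ (relC φ Q) hQC).symm n))
      rw [conjFn_eq_comp, conjFn_eq_comp]
      refine congrArg θ (Subtype.ext ?_)
      show (((MulAut.conjNormal c : MulAut (Q.subgroupOf (relC φ Q))) n : relC φ Q) : K) = _
      rw [MulAut.conjNormal_apply, MulAut.conjNormal_apply]
      rfl
    · intro h
      funext n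
      refine Eq.trans ?_ (congrFun h (subQ (relC φ Q) hQC n))
      rw [conjFn_eq_comp, conjFn_eq_comp]
      refine congrArg θ (Subtype.ext ?_)
      show _ = (((MulAut.conjNormal c : MulAut (Q.subgroupOf (relC φ Q))) (subQ (relC φ Q) hQC n) :
        relC φ Q) : K)
      rw [MulAut.conjNormal_apply, MulAut.conjNormal_apply]
      rfl
  have hHE : Q.subgroupOf (relC φ Q) ≤ E := fun n hn =>
    Subgroup.mem_subgroupOf.2 (hQT (Subgroup.mem_subgroupOf.1 hn))
  have hoverY : ∀ γ : IrrCharacter (fix φb), classInner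
      (fun n : Q.subgroupOf (relC φ Q) => Y0 γ ⟨(n : relC φ Q), hHE n.2⟩) θC ≠ 0 := fun γ => by
    rw [← inner_subQ (relC φ Q) hQC]
    have e : (fun n : Q => Y0 γ ⟨(subQ (relC φ Q) hQC n : relC φ Q), hHE (subQ (relC φ Q) hQC n).2⟩) =
        (γ : fix φb → ℂ) 1 • θ := funext fun n => by
      show (γ : fix φb → ℂ) (π (eN n : E)) * θE (eN n : E) = (γ : fix φb → ℂ) 1 * θ n
      rw [show π (eN n : E) = 1 by rw [← mul_one (eN n : E), hπN, map_one]]
      exact congrArg _ (congrFun hθEN n)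
    rw [e, CfsgLib.Char.inner_smul_left,
      show (fun n : Q => θC (subQ (relC φ Q) hQC n)) = θ from
        funext fun n => congrArg θ (MulEquiv.symm_apply_apply _ n), irr_inner_self hθ, mul_one]
    exact irr_one_ne_zero γ
  let Y : IrrCharacter (fix φb) → IrrCharacter (relC φ Q) := fun γ =>
    ⟨indFun E (Y0 γ), (clifford_induced hθC E hEin hHE (hY0 γ) (hoverY γ)).1⟩
  -- characters of the quotient give characters of K
  have hQTirr : IsIrrCharacter (Q.subgroupOf (inertia θ))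
      (fun n : Q.subgroupOf (inertia θ) => θh n) := by
    have e : (fun n : Q.subgroupOf (inertia θ) => θh n) = θ ∘ (subQ (inertia θ) hQT).symm :=
      funext fun x => hθhres ((subQ (inertia θ) hQT).symm x) (x : inertia θ).2
    rw [e]
    exact isIrrCharacter_comp_equiv hθ _
  let X0 : IrrCharacter (inertia θ ⧸ Q.subgroupOf (inertia θ)) → (inertia θ → ℂ) := fun β t =>
    (β : inertia θ ⧸ Q.subgroupOf (inertia θ) → ℂ) (QuotientGroup.mk t) * θh t
  have hcosT : ∀ f : inertia θ ⧸ Q.subgroupOf (inertia θ) → ℂ, ∀ (n : Q.subgroupOf (inertia θ))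
      (g : inertia θ), (f ∘ QuotientGroup.mk' _) ((n : inertia θ) * g) = (f ∘ QuotientGroup.mk' _) g :=
    fun f n g => congrArg f (by
      rw [map_mul, show QuotientGroup.mk' (Q.subgroupOf (inertia θ)) (n : inertia θ) = 1 from
        (QuotientGroup.eq_one_iff (n : inertia θ)).2 n.2, one_mul])
  have hX0 : ∀ β, IsIrrCharacter (inertia θ) (X0 β) := fun β => by
    refine isIrr_of_inner_self_one
      (isCharacter_mul (isCharacter_comp β.2.isCharacter' (QuotientGroup.mk' _)) hθh.isCharacter') ?_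
    show classInner (((β : inertia θ ⧸ Q.subgroupOf (inertia θ) → ℂ) ∘ QuotientGroup.mk' _) * θh)
      (((β : inertia θ ⧸ Q.subgroupOf (inertia θ) → ℂ) ∘ QuotientGroup.mk' _) * θh) = 1
    rw [inner_mul_ext _ hθh hQTirr (hcosT _) (hcosT _),
      inner_comp_surj _ (QuotientGroup.mk'_surjective _), irr_inner_self β.2]
  have hX0res : ∀ (β : IrrCharacter (inertia θ ⧸ Q.subgroupOf (inertia θ))) (n : Q),
      X0 β ⟨(n : K), hQT n.2⟩ = (β : inertia θ ⧸ Q.subgroupOf (inertia θ) → ℂ) 1 * θ n := fun β n => by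
    show (β : inertia θ ⧸ Q.subgroupOf (inertia θ) → ℂ) (QuotientGroup.mk (⟨(n : K), hQT n.2⟩ : inertia θ)) * θh ⟨(n : K), hQT n.2⟩ = _
    rw [(QuotientGroup.eq_one_iff (⟨(n : K), hQT n.2⟩ : inertia θ)).2 (Subgroup.mem_subgroupOf.2 n.2),
      hθhres]
  have hoverX : ∀ β, classInner (fun n : Q => X0 β ⟨(n : K), hQT n.2⟩) θ ≠ 0 := fun β => by
    rw [show (fun n : Q => X0 β ⟨(n : K), hQT n.2⟩) = (β : inertia θ ⧸ Q.subgroupOf (inertia θ) → ℂ) 1 • θ from
      funext (hX0res β), CfsgLib.Char.inner_smul_left, irr_inner_self hθ, mul_one]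
    exact irr_one_ne_zero β
  let X : IrrCharacter (fix φb) → IrrCharacter K := fun γ =>
    ⟨indFun (inertia θ) (X0 (corr hS hbar hM γ)),
      (clifford_induced hθ (inertia θ) rfl hQT (hX0 _) (hoverX _)).1⟩
  have hmult : ∀ (β : IrrCharacter (inertia θ ⧸ Q.subgroupOf (inertia θ))) (χ : IrrCharacter K),
      indFun (inertia θ) (X0 β) = (χ : K → ℂ) → ∀ γ,
      classInner (fun c : relC φ Q => (χ : K → ℂ) c) (Y γ : relC φ Q → ℂ) = mult β γ := by
    intro β χ hind γ
    have hχ := χ.2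
    show classInner (fun c : relC φ Q => (χ : K → ℂ) c) (indFun E (Y0 γ)) = _
    rw [frobenius_right (Y0 γ) _ (isClassFunction_restrict
      (isCharacter_classFunction hχ.isCharacter') _)]
    -- the inertia component
    have he : classInner (fun n : Q => X0 β ⟨(n : K), hQT n.2⟩) θ =
        classInner (fun n : Q => (χ : K → ℂ) n) θ := by
      obtain ⟨ψ, hψ, hψind, hψe⟩ := exists_clifford_correspondent hχ hθ (by
        rw [← hind]
        exact (clifford_induced hθ (inertia θ) rfl hQT (hX0 _) (hoverX _)).2.1) (inertia θ) rfl hQT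
      have hψne : classInner (fun n : Q => ψ ⟨(n : K), hQT n.2⟩) θ ≠ 0 := by
        rw [hψe, ← hind]
        exact (clifford_induced hθ (inertia θ) rfl hQT (hX0 _) (hoverX _)).2.1
      rw [← hψe, (clifford_induced hθ (inertia θ) rfl hQT (hX0 _) (hoverX _)).2.2 ψ hψ hψne
        (hψind.trans hind.symm)]
    have hsum := classFunction_eq_sum _
      (isCharacter_classFunction (isCharacter_restrict hχ.isCharacter' (inertia θ)))
    have e1 : (fun e : E => (χ : K → ℂ) ((e : relC φ Q) : K)) = ∑ η : IrrCharacter (inertia θ),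
        classInner (fun t : inertia θ => (χ : K → ℂ) t) η • ((η : inertia θ → ℂ) ∘ ι) := by
      funext e
      rw [Finset.sum_apply]
      exact (congrFun hsum (ι e)).trans (by rw [Finset.sum_apply]; rfl)
    rw [e1, inner_sum_left, Finset.sum_eq_single ⟨X0 β, hX0 β⟩]
    · rw [CfsgLib.Char.inner_smul_left]
      have h1 : classInner (fun t : inertia θ => (χ : K → ℂ) t) (X0 β) = 1 := by
        rw [← frobenius_right (X0 β) (χ : K → ℂ) (isCharacter_classFunction hχ.isCharacter'),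
          hind, irr_inner_self hχ]
      rw [show classInner (fun t : inertia θ => (χ : K → ℂ) t)
        ((⟨X0 β, hX0 β⟩ : IrrCharacter (inertia θ)) : inertia θ → ℂ) = 1 from h1, one_mul]
      show classInner (((fun x : fix φb => (β : inertia θ ⧸ Q.subgroupOf (inertia θ) → ℂ) x) ∘ π) * θE)
        (((γ : fix φb → ℂ) ∘ π) * θE) = _
      rw [inner_mul_ext NE hθEirr hθEirrN (hcos _) (hcos _), inner_comp_surj π hπ, mult_spec]
    · intro η _ hne
      rw [CfsgLib.Char.inner_smul_left]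
      by_contra h
      obtain ⟨ha, hb⟩ := mul_ne_zero_iff.1 h
      refine hne (Subtype.ext (clifford_unique hχ hQT (hX0 β) hind he hθ η.2 ha ?_))
      refine inner_ne_zero_trans (Subgroup.inclusion hQT |>.comp (MonoidHom.id Q))
        η.2.isCharacter' η.2 hθ.isCharacter' (by rw [irr_inner_self η.2]; exact one_ne_zero) ?_
      have := hoverY γ
      rw [← inner_subQ (relC φ Q) hQC] at this
      have hθθ : (fun n : Q => θC (subQ (relC φ Q) hQC n)) = θ :=
        funext fun n => congrArg θ (MulEquiv.symm_apply_apply _ n)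
      rw [hθθ] at this
      exact inner_ne_zero_trans (NE.subtype.comp eN.toMonoidHom) (isCharacter_comp η.2.isCharacter' ι)
        (hY0 γ) hθ.isCharacter' hb this
    · intro h; exact absurd (Finset.mem_univ _) h
  have hfixθ : ∀ (s : S) (e e' : E), ((e' : relC φ Q) : K) = φ s ((e : relC φ Q) : K) →
      π e' = π e ∧ θE e' = θE e := fun s e e' h => by
    have hι : ι e' = φT s (ι e) := Subtype.ext h
    refine ⟨Subtype.ext ?_, ?_⟩
    · show (QuotientGroup.mk (ι e') : inertia θ ⧸ _) = QuotientGroup.mk (ι e)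
      rw [hι]
      exact hιmem e s
    · show θh (ι e') = θh (ι e)
      rw [hι, hθhinv]
  refine ⟨fix φb, inferInstance, Fintype.ofFinite _, X, Y, fun γ γ' => mult (corr hS hbar hM γ) γ',
    fun γ s k => ?_, fun γ s c c' hcc => ?_, fun χ hχi hχθ => ?_, fun ξ hξθ => ?_,
    fun γ γ' => hmult _ (X γ) rfl γ', fun γ => mult_modEq hS hbar hM γ, fun γ γ' hne => ?_, fun γ => ?_⟩
  · have hirr : IsIrrCharacter K ((X γ : K → ℂ) ∘ φ s) := isIrrCharacter_comp_equiv (X γ).2 (φ s)
    have hne : classInner ((X γ : K → ℂ) ∘ φ s) (X γ : K → ℂ) ≠ 0 := by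
      show classInner ((X γ : K → ℂ) ∘ φ s) (indFun (inertia θ) (X0 (corr hS hbar hM γ))) ≠ 0
      rw [frobenius_right _ _ (isCharacter_classFunction hirr.isCharacter')]
      have e1 : (fun t : inertia θ => ((X γ : K → ℂ) ∘ φ s) t) =
          (fun t : inertia θ => (X γ : K → ℂ) t) ∘ φT s := rfl
      have e2 : X0 (corr hS hbar hM γ) = X0 (corr hS hbar hM γ) ∘ φT s := funext fun t => by
        show _ = (corr hS hbar hM γ : inertia θ ⧸ Q.subgroupOf (inertia θ) → ℂ) (QuotientGroup.mk (φT s t)) * θh (φT s t)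
        rw [hθhinv, ← quotAct_mk hQTi, corr_inv]
      rw [e1, e2, inner_comp_equiv, ← frobenius_right _ _
        (isCharacter_classFunction (X γ).2.isCharacter')]
      show classInner (X γ : K → ℂ) (X γ : K → ℂ) ≠ 0
      rw [irr_inner_self (X γ).2]
      exact one_ne_zero
    by_contra h
    exact hne (irr_inner_ne hirr (X γ).2 fun e => h (congrFun e k))
  · let φC := restr φ (relC φ Q) (fun s k hk => relC_map hQi s k hk)
    have hc : c' = φC s c := Subtype.ext hcc
    rw [hc]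
    have hirr : IsIrrCharacter (relC φ Q) ((Y γ : relC φ Q → ℂ) ∘ φC s) :=
      isIrrCharacter_comp_equiv (Y γ).2 (φC s)
    have hEi : ∀ e : E, φC s (e : relC φ Q) ∈ E := fun e =>
      Subgroup.mem_subgroupOf.2 (inertia_inv hQi hθi s _ (Subgroup.mem_subgroupOf.1 e.2))
    let φE : MulAut E :=
      { toFun := fun e => ⟨φC s e, hEi e⟩
        invFun := fun e => ⟨φC s⁻¹ e, Subgroup.mem_subgroupOf.2
          (inertia_inv hQi hθi s⁻¹ _ (Subgroup.mem_subgroupOf.1 e.2))⟩
        left_inv := fun e => Subtype.ext (Subtype.ext (by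
          show φ s⁻¹ (φ s _) = _
          rw [← MulAut.mul_apply, ← map_mul, inv_mul_cancel, map_one]; rfl))
        right_inv := fun e => Subtype.ext (Subtype.ext (by
          show φ s (φ s⁻¹ _) = _
          rw [← MulAut.mul_apply, ← map_mul, mul_inv_cancel, map_one]; rfl))
        map_mul' := fun a b => Subtype.ext (map_mul (φC s) _ _) }
    have hne : classInner ((Y γ : relC φ Q → ℂ) ∘ φC s) (Y γ : relC φ Q → ℂ) ≠ 0 := by
      show classInner ((Y γ : relC φ Q → ℂ) ∘ φC s) (indFun E (Y0 γ)) ≠ 0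
      rw [frobenius_right _ _ (isCharacter_classFunction hirr.isCharacter')]
      have e1 : (fun e : E => ((Y γ : relC φ Q → ℂ) ∘ φC s) e) =
          (fun e : E => (Y γ : relC φ Q → ℂ) e) ∘ φE := rfl
      have e2 : Y0 γ = Y0 γ ∘ φE := funext fun e => by
        obtain ⟨h1, h2⟩ := hfixθ s e (φE e) rfl
        show (γ : fix φb → ℂ) (π e) * θE e = (γ : fix φb → ℂ) (π (φE e)) * θE (φE e)
        rw [h1, h2]
      rw [e1, e2, inner_comp_equiv, ← frobenius_right _ _
        (isCharacter_classFunction (Y γ).2.isCharacter')]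
      show classInner (Y γ : relC φ Q → ℂ) (Y γ : relC φ Q → ℂ) ≠ 0
      rw [irr_inner_self (Y γ).2]
      exact one_ne_zero
    by_contra h
    exact hne (irr_inner_ne hirr (Y γ).2 fun e => h (congrFun e c))
  · obtain ⟨ψ, hψ, hind, he⟩ := exists_clifford_correspondent χ.2 hθ hχθ (inertia θ) rfl hQT
    have hψinv : ∀ s t, ψ (φT s t) = ψ t := fun s t => by
      refine congrFun (clifford_unique χ.2 hQT hψ hind he hθ
        (isIrrCharacter_comp_equiv hψ (φT s)) ?_ ?_) t
      · rw [show (fun t : inertia θ => (χ : K → ℂ) t) = (fun t : inertia θ => (χ : K → ℂ) t) ∘ φT s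
          from funext fun t => (hχi s t).symm, inner_comp_equiv,
          ← frobenius_right ψ (χ : K → ℂ) (isCharacter_classFunction χ.2.isCharacter'), hind,
          irr_inner_self χ.2]
        exact one_ne_zero
      · have e1 : (fun n : Q => (ψ ∘ φT s) ⟨(n : K), hQT n.2⟩) =
            (fun n : Q => ψ ⟨(n : K), hQT n.2⟩) ∘ restr φ Q hQi s := rfl
        have e2 : θ = θ ∘ restr φ Q hQi s := funext fun n => (hθi s n (restr φ Q hQi s n) rfl).symm
        rw [e1, congrArg (classInner _) e2, inner_comp_equiv, he]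
        exact hχθ
    have hg := (gallagher (Q.subgroupOf (inertia θ)) hθh hQTirr hψ).1 (by
      rw [← inner_subQ (inertia θ) hQT]
      rw [show (fun n : Q => θh (subQ (inertia θ) hQT n : inertia θ)) = θ from
        funext fun n => hθhres n _]
      show classInner (fun n : Q => ψ ⟨(n : K), hQT n.2⟩) θ ≠ 0
      rw [he]
      exact hχθ)
    obtain ⟨β, hβ⟩ := exists_inflate_of_ker (Q.subgroupOf (inertia θ)) (ψ := ⟨_, hg.1⟩) fun n hn => by
      have := cosetAvg_mul_coset (Q.subgroupOf (inertia θ)) ψ θh ⟨n, hn⟩ 1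
      rw [mul_one] at this
      exact this
    have hβval : ∀ t, (β : inertia θ ⧸ Q.subgroupOf (inertia θ) → ℂ) (QuotientGroup.mk t) =
        cosetAvg (Q.subgroupOf (inertia θ)) ψ θh t := fun t =>
      congrFun (congrArg Subtype.val hβ) t
    have hβinv : Inv φb (β : inertia θ ⧸ Q.subgroupOf (inertia θ) → ℂ) := by
      intro s q
      obtain ⟨t, rfl⟩ := QuotientGroup.mk_surjective q
      rw [quotAct_mk, hβval, hβval, cosetAvg_eq, cosetAvg_eq]
      congr 1
      refine (Fintype.sum_equiv (restr φT _ hQTi s).toEquiv _ _ fun n => ?_).symm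
      show _ = ψ (φT s (n : inertia θ) * φT s t) * conj (θh (φT s (n : inertia θ) * φT s t))
      rw [← map_mul, hψinv, hθhinv]
    obtain ⟨γ, hγ⟩ := corr_surjective hS hbar hM hβinv
    refine ⟨γ, Subtype.ext ?_⟩
    show indFun (inertia θ) (X0 (corr hS hbar hM γ)) = _
    rw [hγ, show X0 β = ψ from funext fun t => by
      show (β : inertia θ ⧸ Q.subgroupOf (inertia θ) → ℂ) (QuotientGroup.mk t) * θh t = ψ t
      rw [hβval]
      exact congrFun hg.2 t, hind]
  · have hξθC : classInner (fun n : Q.subgroupOf (relC φ Q) => (ξ : relC φ Q → ℂ) n) θC ≠ 0 := by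
      rw [← inner_subQ (relC φ Q) hQC, show (fun n : Q => θC (subQ (relC φ Q) hQC n)) = θ from
        funext fun n => congrArg θ (MulEquiv.symm_apply_apply _ n)]
      exact hξθ
    obtain ⟨ξ₀, hξ₀, hind, he⟩ := exists_clifford_correspondent ξ.2 hθC hξθC E hEin hHE
    have hg := (gallagher NE hθEirr hθEirrN hξ₀).1 (by
      rw [← inner_comp_equiv eN]
      rw [hθEN]
      have h2 := he.trans_ne hξθC
      rw [← inner_subQ (relC φ Q) hQC, show (fun n : Q => θC (subQ (relC φ Q) hQC n)) = θ from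
        funext fun n => congrArg θ (MulEquiv.symm_apply_apply _ n)] at h2
      exact h2)
    obtain ⟨γ, -, hγ, hγirr⟩ := exists_deflate hg.1.isCharacter' π hπ fun k hk => by
      have hkN : k ∈ NE := (QuotientGroup.eq_one_iff (ι k)).1 (congrArg Subtype.val (MonoidHom.mem_ker.1 hk))
      have := cosetAvg_mul_coset NE ξ₀ θE ⟨k, hkN⟩ 1
      rw [mul_one] at this
      exact this
    refine ⟨⟨γ, hγirr hg.1⟩, Subtype.ext ?_⟩
    show indFun E ((γ ∘ π) * θE) = _
    rw [hγ, hg.2, hind]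
  · by_contra h
    exact hne (corr_injective hS hbar hM
      ((not_dvd_mult_iff hS hbar hM (corr_inv hS hbar hM γ) γ').1 h))
  · have hdX : (charDegree (X γ : K → ℂ) : ℂ) = ((inertia θ).index : ℂ) *
        ((charDegree (corr hS hbar hM γ : inertia θ ⧸ Q.subgroupOf (inertia θ) → ℂ) : ℂ) * (charDegree θ : ℂ)) := by
      rw [charDegree_cast (X γ).2.isCharacter', charDegree_cast (corr hS hbar hM γ).2.isCharacter',
        charDegree_cast hθ.isCharacter']
      show indFun (inertia θ) (X0 (corr hS hbar hM γ)) 1 = _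
      rw [indFun_one_apply]
      exact congrArg _ (hX0res (corr hS hbar hM γ) 1)
    have hdY : (charDegree (Y γ : relC φ Q → ℂ) : ℂ) = (E.index : ℂ) *
        ((charDegree (γ : fix φb → ℂ) : ℂ) * (charDegree θ : ℂ)) := by
      rw [charDegree_cast (Y γ).2.isCharacter', charDegree_cast γ.2.isCharacter',
        charDegree_cast hθ.isCharacter']
      show indFun E (Y0 γ) 1 = _
      rw [indFun_one_apply]
      show (E.index : ℂ) * ((γ : fix φb → ℂ) (π 1) * θE 1) = _
      rw [map_one, ← congrFun hθEN 1]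
      simp
    have hdX' : charDegree (X γ : K → ℂ) =
        (inertia θ).index * (charDegree (corr hS hbar hM γ : inertia θ ⧸ Q.subgroupOf (inertia θ) → ℂ) * charDegree θ) := by
      exact_mod_cast hdX
    have hdY' : charDegree (Y γ : relC φ Q → ℂ) =
        E.index * (charDegree (γ : fix φb → ℂ) * charDegree θ) := by exact_mod_cast hdY
    have hcorr : (charDegree (corr hS hbar hM γ : inertia θ ⧸ Q.subgroupOf (inertia θ) → ℂ) : ZMod p) =
        (mult (corr hS hbar hM γ) γ : ZMod p) * charDegree (γ : fix φb → ℂ) := by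
      have hsum := classFunction_eq_sum _ (isCharacter_classFunction
        (isCharacter_restrict (corr hS hbar hM γ).2.isCharacter' (fix φb)))
      have h1 := congrFun hsum 1
      simp only [Finset.sum_apply, Pi.smul_apply, smul_eq_mul, mult_spec] at h1
      rw [OneMemClass.coe_one, ← charDegree_cast (corr hS hbar hM γ).2.isCharacter'] at h1
      have h2 : charDegree (corr hS hbar hM γ : inertia θ ⧸ Q.subgroupOf (inertia θ) → ℂ) = ∑ γ' : IrrCharacter (fix φb),
          mult (corr hS hbar hM γ) γ' * charDegree (γ' : fix φb → ℂ) := by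
        have : ((charDegree (corr hS hbar hM γ : inertia θ ⧸ Q.subgroupOf (inertia θ) → ℂ) : ℕ) : ℂ) = ((∑ γ' : IrrCharacter (fix φb),
            mult (corr hS hbar hM γ) γ' * charDegree (γ' : fix φb → ℂ) : ℕ) : ℂ) := by
          rw [h1]
          push_cast
          exact Finset.sum_congr rfl fun γ' _ => by rw [charDegree_cast γ'.2.isCharacter']
        exact_mod_cast this
      rw [h2, Nat.cast_sum, Finset.sum_eq_single γ]
      · push_cast; rfl
      · intro γ' _ hne
        rw [Nat.cast_mul, (ZMod.natCast_eq_zero_iff _ _).2 (by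
          by_contra h
          exact hne (corr_injective hS hbar hM
            ((not_dvd_mult_iff hS hbar hM (corr_inv hS hbar hM γ) γ').1 h)).symm), zero_mul]
      · intro h; exact absurd (Finset.mem_univ _) h
    rw [← ZMod.intCast_eq_intCast_iff]
    push_cast
    rw [hdX', hdY']
    push_cast
    rw [hcorr, show ((inertia θ).index : ZMod p) = (E.index : ZMod p) from
      ((ZMod.natCast_eq_natCast_iff _ _ p).2 hmod).symm]
    ring

end Over

section Global

variable {K : Type u} [Group K] [Fintype K] {S : Type v} [Group S] [Finite S] {φ : S →* MulAut K}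
  {Q : Subgroup K} [hQn : Q.Normal] (hQi : ∀ s, ∀ q ∈ Q, φ s q ∈ Q) {p : ℕ} [Fact p.Prime]
  (hS : IsPGroup p S) (hQp : IsPGroup p Q) (hidx : ¬ p ∣ Q.index)

include hQi hS hidx in
/-- An invariant character of `relC` has an invariant constituent on `Q`. -/
theorem exists_inv_constituent_relC (ξ : IrrCharacter (relC φ Q))
    (hξ : ∀ s, ∀ c c' : relC φ Q, (c' : K) = φ s (c : K) →
      (ξ : relC φ Q → ℂ) c' = (ξ : relC φ Q → ℂ) c) :
    ∃ θ : Q → ℂ, IsIrrCharacter Q θ ∧ InvOn φ Q θ ∧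
      classInner (fun n : Q => (ξ : relC φ Q → ℂ) ⟨n, le_relC hQi n.2⟩) θ ≠ 0 := by
  let φC := restr φ (relC φ Q) (fun s k hk => relC_map hQi s k hk)
  have hidxC : ¬ p ∣ (Q.subgroupOf (relC φ Q)).index :=
    fun h => hidx (h.trans (Subgroup.relIndex_dvd_index_of_normal Q _))
  have hQiC : ∀ s, ∀ q ∈ Q.subgroupOf (relC φ Q), φC s q ∈ Q.subgroupOf (relC φ Q) :=
    fun s q hq => Subgroup.mem_subgroupOf.2 (hQi s q (Subgroup.mem_subgroupOf.1 hq))
  obtain ⟨θC, hθC, hθCi, h0⟩ := exists_inv_constituent (φ := φC) hQiC hS hidxC ξ.2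
    fun s k => hξ s k (φC s k) rfl
  refine ⟨θC ∘ subQ (relC φ Q) (le_relC hQi), isIrrCharacter_comp_equiv hθC _,
    fun s n n' h => hθCi s _ _ (Subtype.ext h), ?_⟩
  exact ((inner_comp_equiv (subQ (relC φ Q) (le_relC hQi))
    (fun n : Q.subgroupOf (relC φ Q) => (ξ : relC φ Q → ℂ) n) θC).trans_ne h0)

include hQi hS hidx in
theorem over_of_mult_ne_zero {χ : IrrCharacter K} {θ : Q → ℂ} (hθ : IsIrrCharacter Q θ)
    (hθi : InvOn φ Q θ) (hχθ : classInner (fun n : Q => (χ : K → ℂ) n) θ ≠ 0)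
    (ξ : IrrCharacter (relC φ Q))
    (hξ : ∀ s, ∀ c c' : relC φ Q, (c' : K) = φ s (c : K) →
      (ξ : relC φ Q → ℂ) c' = (ξ : relC φ Q → ℂ) c)
    (hne : classInner (fun c : relC φ Q => (χ : K → ℂ) c) (ξ : relC φ Q → ℂ) ≠ 0) :
    classInner (fun n : Q => (ξ : relC φ Q → ℂ) ⟨n, le_relC hQi n.2⟩) θ ≠ 0 := by
  obtain ⟨θ', hθ', hθ'i, h0⟩ := exists_inv_constituent_relC hQi hS hidx ξ hξ
  have h1 : classInner (fun n : Q => (χ : K → ℂ) n) θ' ≠ 0 :=
    inner_ne_zero_trans (Subgroup.inclusion (le_relC hQi))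
      (isCharacter_restrict χ.2.isCharacter' (relC φ Q)) ξ.2 hθ'.isCharacter' hne h0
  obtain ⟨k, rfl⟩ := constituent_conj χ.2 hθ hθ' hχθ h1
  have hk : ∀ s, φ s k * k⁻¹ ∈ inertia θ := fun s => by
    have e : conjFn (φ s k) θ = conjFn k θ := funext fun x => by
      obtain ⟨y, hy⟩ : ∃ y : Q, (x : K) = φ s y := ⟨⟨φ s⁻¹ x, hQi s⁻¹ x x.2⟩, by
        show (x : K) = φ s (φ s⁻¹ x)
        rw [← MulAut.mul_apply, ← map_mul, mul_inv_cancel, map_one]; rfl⟩
      rw [hθ'i s y x hy, conjFn_eq_comp, conjFn_eq_comp]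
      refine hθi s _ _ ?_
      show ((MulAut.conjNormal (φ s k) : MulAut Q) x : K) =
        φ s ((MulAut.conjNormal k : MulAut Q) y)
      rw [MulAut.conjNormal_apply, MulAut.conjNormal_apply, hy, map_mul, map_mul, map_inv]
    rw [mem_inertia, conjFn_mul, e, ← conjFn_mul, mul_inv_cancel, conjFn_one]
  obtain ⟨c, hc, hck⟩ := exists_relC_coset hQi hS hidx (inertia θ)
    (le_inertia (isCharacter_classFunction hθ.isCharacter')) (fun s t ht => inertia_map hQi hθi s ht) hk
  have e2 : conjFn c θ = conjFn k θ := by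
    conv_lhs => rw [show c = c * k⁻¹ * k by group, conjFn_mul, mem_inertia.1 hck]
  rw [← e2] at h0
  have e3 : (fun n : Q => (ξ : relC φ Q → ℂ) ⟨n, le_relC hQi n.2⟩) =
      (fun n : Q => (ξ : relC φ Q → ℂ) ⟨n, le_relC hQi n.2⟩) ∘ (MulAut.conjNormal c : MulAut Q) := by
    funext n
    refine (isCharacter_classFunction ξ.2.isCharacter' ⟨n, le_relC hQi n.2⟩ ⟨c, hc⟩).symm.trans ?_
    refine congrArg (ξ : relC φ Q → ℂ) (Subtype.ext ?_)
    show (c : K) * n * c⁻¹ = ((MulAut.conjNormal c : MulAut Q) n : K)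
    rw [MulAut.conjNormal_apply]
  rw [e3, conjFn_eq_comp, inner_comp_equiv] at h0
  exact h0

include hQi hS hQp hidx in
/-- The relative Glauberman correspondence. -/
theorem relative_glauberman :
    ∃ f : {χ : IrrCharacter K // ∀ s k, (χ : K → ℂ) (φ s k) = (χ : K → ℂ) k} →
      {ξ : IrrCharacter (relC φ Q) // ∀ s, ∀ c c' : relC φ Q, (c' : K) = φ s (c : K) →
        (ξ : relC φ Q → ℂ) c' = (ξ : relC φ Q → ℂ) c},
    Function.Bijective f ∧ ∀ χ, (∀ ξ, ∃ m : ℕ,
      classInner (fun c : relC φ Q => (χ.1 : K → ℂ) c) (ξ.1 : relC φ Q → ℂ) = m ∧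
        (ξ = f χ → ((m : ZMod p) = 1 ∨ (m : ZMod p) = -1)) ∧ (ξ ≠ f χ → p ∣ m)) ∧
      ((charDegree ((f χ).1 : relC φ Q → ℂ) : ZMod p) = (charDegree (χ.1 : K → ℂ) : ZMod p) ∨
        (charDegree ((f χ).1 : relC φ Q → ℂ) : ZMod p) = -(charDegree (χ.1 : K → ℂ) : ZMod p)) := by
  obtain ⟨M, hM⟩ := exists_isPModular (Fact.out : p.Prime)
  let A := {χ : IrrCharacter K // ∀ s k, (χ : K → ℂ) (φ s k) = (χ : K → ℂ) k}
  let B := {ξ : IrrCharacter (relC φ Q) // ∀ s, ∀ c c' : relC φ Q, (c' : K) = φ s (c : K) →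
        (ξ : relC φ Q → ℂ) c' = (ξ : relC φ Q → ℂ) c}
  choose m hm using fun (χ : A) (ξ : B) => inner_character_nat
    (isCharacter_restrict χ.1.2.isCharacter' (relC φ Q)) ξ.1.2.isCharacter'
  have hnot0 : ∀ (χ : A) (ξ : B), ¬ p ∣ m χ ξ →
      classInner (fun c : relC φ Q => (χ.1 : K → ℂ) c) (ξ.1 : relC φ Q → ℂ) ≠ 0 := fun χ ξ h h0 =>
    h (by
      have e := (hm χ ξ).symm.trans h0
      rw [Nat.cast_eq_zero] at e
      rw [e]
      exact dvd_zero p)
  have hunit : ∀ n : ℕ, ((n : ℤ) ≡ 1 [ZMOD p] ∨ (n : ℤ) ≡ -1 [ZMOD p]) →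
      ((n : ZMod p) = 1 ∨ (n : ZMod p) = -1) := fun n h => by
    rcases h with h | h
    · left
      have := (ZMod.intCast_eq_intCast_iff _ _ p).2 h
      simpa using this
    · right
      have := (ZMod.intCast_eq_intCast_iff _ _ p).2 h
      simpa using this
  have hex : ∀ χ : A, ∃ ξ : B, ((m χ ξ : ZMod p) = 1 ∨ (m χ ξ : ZMod p) = -1) ∧
      (∀ ξ' : B, ¬ p ∣ m χ ξ' → ξ' = ξ) ∧
      ((charDegree (ξ.1 : relC φ Q → ℂ) : ZMod p) = (charDegree (χ.1 : K → ℂ) : ZMod p) ∨
        (charDegree (ξ.1 : relC φ Q → ℂ) : ZMod p) = -(charDegree (χ.1 : K → ℂ) : ZMod p)) := by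
    intro χ
    obtain ⟨θ, hθ, hθi, h0⟩ := exists_inv_constituent hQi hS hidx χ.1.2 χ.2
    obtain ⟨Fx, _, _, X, Y, μ, hXi, hYi, hXs, hYs, hμ, hμ1, hμ0, hdeg⟩ :=
      exists_over_data hQi hS hQp hidx hθ hθi hM
    obtain ⟨γ, hγ⟩ := hXs χ.1 χ.2 h0
    refine ⟨⟨Y γ, hYi γ⟩, ?_, ?_, ?_⟩
    · have e : ((m χ ⟨Y γ, hYi γ⟩ : ℕ) : ℂ) = ((μ γ γ : ℕ) : ℂ) := by
        rw [← hm, ← hγ]; exact hμ γ γ
      rw [Nat.cast_inj] at e
      rw [e]
      exact hunit _ (hμ1 γ)
    · intro ξ' hξ'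
      have hover := over_of_mult_ne_zero hQi hS hidx hθ hθi h0 ξ'.1 ξ'.2 (hnot0 χ ξ' hξ')
      obtain ⟨γ', hγ'⟩ := hYs ξ'.1 hover
      refine Subtype.ext (hγ'.symm.trans (congrArg Y ?_))
      by_contra hne
      refine hξ' ?_
      have e : ((m χ ξ' : ℕ) : ℂ) = ((μ γ γ' : ℕ) : ℂ) := by
        rw [← hm, ← hγ, ← hγ']; exact hμ γ γ'
      rw [Nat.cast_inj] at e
      rw [e]
      exact hμ0 γ γ' (Ne.symm hne)
    · have h := (ZMod.intCast_eq_intCast_iff _ _ p).2 (hdeg γ)
      rw [hγ] at h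
      push_cast at h
      rcases hunit _ (hμ1 γ) with e | e
      · left
        rw [h, e, one_mul]
      · right
        rw [h, e, neg_one_mul, neg_neg]
  choose f hf1 hf2 hf3 using hex
  refine ⟨f, ⟨fun χ χ' hff => ?_, fun ξ => ?_⟩, fun χ => ⟨fun ξ => ⟨m χ ξ, hm χ ξ, ?_, ?_⟩, hf3 χ⟩⟩
  · have hnd : ∀ χ : A, ¬ p ∣ m χ (f χ) := fun χ h => by
      have h0 := (ZMod.natCast_eq_zero_iff _ _).2 h
      rcases hf1 χ with e | e
      · exact one_ne_zero (e.symm.trans h0)
      · exact neg_ne_zero.2 one_ne_zero (e.symm.trans h0)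
    have h' : ¬ p ∣ m χ' (f χ) := hff ▸ hnd χ'
    obtain ⟨θ, hθ, hθi, h0⟩ := exists_inv_constituent_relC hQi hS hidx (f χ).1 (f χ).2
    obtain ⟨Fx, _, _, X, Y, μ, hXi, hYi, hXs, hYs, hμ, hμ1, hμ0, hdeg⟩ :=
      exists_over_data hQi hS hQp hidx hθ hθi hM
    obtain ⟨γ, hγ⟩ := hYs (f χ).1 h0
    have key : ∀ χ₁ : A, ¬ p ∣ m χ₁ (f χ) → χ₁.1 = X γ := by
      intro χ₁ h₁
      obtain ⟨a, ha⟩ := hXs χ₁.1 χ₁.2 (inner_ne_zero_trans (Subgroup.inclusion (le_relC hQi))
        (isCharacter_restrict χ₁.1.2.isCharacter' (relC φ Q)) (f χ).1.2 hθ.isCharacter'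
        (hnot0 χ₁ _ h₁) h0)
      refine ha.symm.trans (congrArg X ?_)
      by_contra hne
      refine h₁ ?_
      have e : ((m χ₁ (f χ) : ℕ) : ℂ) = ((μ a γ : ℕ) : ℂ) := by
        rw [← hm, ← ha, ← hγ]; exact hμ a γ
      rw [Nat.cast_inj] at e
      rw [e]
      exact hμ0 a γ hne
    exact Subtype.ext ((key χ (hnd χ)).trans (key χ' h').symm)
  · obtain ⟨θ, hθ, hθi, h0⟩ := exists_inv_constituent_relC hQi hS hidx ξ.1 ξ.2
    obtain ⟨Fx, _, _, X, Y, μ, hXi, hYi, hXs, hYs, hμ, hμ1, hμ0, hdeg⟩ :=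
      exists_over_data hQi hS hQp hidx hθ hθi hM
    obtain ⟨γ, hγ⟩ := hYs ξ.1 h0
    refine ⟨⟨X γ, hXi γ⟩, (hf2 _ ξ fun hd => ?_).symm⟩
    have e : ((m ⟨X γ, hXi γ⟩ ξ : ℕ) : ℂ) = ((μ γ γ : ℕ) : ℂ) := by
      rw [← hm, ← hγ]; exact hμ γ γ
    rw [Nat.cast_inj] at e
    rw [e, ← ZMod.natCast_eq_zero_iff] at hd
    rcases hunit _ (hμ1 γ) with e1 | e1
    · exact one_ne_zero (e1.symm.trans hd)
    · exact neg_ne_zero.2 one_ne_zero (e1.symm.trans hd)
  · rintro rfl
    exact hf1 χ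
  · intro hne
    by_contra h
    exact hne (hf2 χ ξ h)

end Global

end CfsgLib.Glauberman
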