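import Cfsg.Agent.Lib.BlockSmallDegree
import Cfsg.Agent.Lib.BlockMinDim
import Mathlib.RingTheory.Valuation.ValuationSubring

/-!
A fixed vector of the normalizer of a trivial-intersection p-subgroup, killed by the sum over the group,
produces `#P` linearly independent translates.
-/

set_option autoImplicit false

namespace CfsgLib.Block

open scoped Classical

universe u

variable {K : Type*} [Field K] (O : ValuationSubring K)

/-- The element of largest valuation. -/
theorem exists_dominant {ι : Type*} (s : Finset ι) (c : ι → K) (h : ∃ i ∈ s, c i ≠ 0) :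
    ∃ i ∈ s, c i ≠ 0 ∧ ∀ j ∈ s, c j / c i ∈ O := by
  obtain ⟨i, hi, hmax⟩ := s.exists_max_image (fun j => O.valuation (c j)) (by obtain ⟨i, hi, -⟩ := h; exact ⟨i, hi⟩)
  have hne : c i ≠ 0 := by
    intro e
    obtain ⟨j, hj, hj0⟩ := h
    have := hmax j hj
    rw [e, map_zero] at this
    exact hj0 ((Valuation.zero_iff _).1 (le_antisymm this zero_le))
  refine ⟨i, hi, hne, fun j hj => (O.valuation_le_one_iff _).1 ?_⟩
  rw [map_div₀, div_le_one₀ (zero_lt_iff.2 ((Valuation.ne_zero_iff _).2 hne))]
  exact hmax j hj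

variable {G : Type u} [Group G] [Fintype G]

/-- A function on the group with unit sum along a coset of a p-subgroup gives an invertible matrix. -/
theorem eq_zero_of_coset_relation {p : ℕ} [Fact p.Prime] (hO : (p : O) ∈ IsLocalRing.maximalIdeal O)
    (P : Subgroup G) (hP : IsPGroup p P) (f : G → O) (a g : G)
    (hsum : IsLocalRing.residue O (∑ x : P, f (a * (x : G) * g)) ≠ 0)
    (c : P → K) (hrel : ∀ y : P, ∑ x : P, c x * (f (a * ((y : G) * (x : G)) * g) : K) = 0) : c = 0 := by
  by_contra hc
  obtain ⟨i, -, hi0, hi⟩ := exists_dominant O Finset.univ c (by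
    by_contra h
    push Not at h
    exact hc (funext fun x => h x (Finset.mem_univ _)))
  haveI : CharP (IsLocalRing.ResidueField O) p := by
    refine (CharP.charP_iff_prime_eq_zero Fact.out).2 ?_
    rw [← map_natCast (IsLocalRing.residue O) p]
    exact (IsLocalRing.residue_eq_zero_iff _).2 hO
  let d : P → O := fun x => ⟨c x / c i, hi x (Finset.mem_univ _)⟩
  let ρ : P →* Module.End (IsLocalRing.ResidueField O) (P → IsLocalRing.ResidueField O) :=
    { toFun := fun b => LinearMap.funLeft _ _ fun y => y * b
      map_one' := by ext h y; simp [LinearMap.funLeft]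
      map_mul' := fun b b' => by
        apply LinearMap.ext
        intro h
        funext y
        simp [LinearMap.funLeft, mul_assoc] }
  let v : P → P → IsLocalRing.ResidueField O := fun x y => IsLocalRing.residue O (f (a * ((y : G) * (x : G)) * g))
  have hli := linearIndependent_of_transitive hP ρ v (fun b x => funext fun y => by
    show IsLocalRing.residue O (f (a * ((y : G) * ((b * x : P) : G)) * g)) =
      IsLocalRing.residue O (f (a * (((y * b : P) : G) * (x : G)) * g))
    rw [Subgroup.coe_mul, Subgroup.coe_mul, mul_assoc (y : G)]) (fun e => hsum (by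
      have h := congrFun e (1 : P)
      simpa [v, map_sum, Finset.sum_apply] using h))
  have h0 := Fintype.linearIndependent_iff.1 hli (fun x => IsLocalRing.residue O (d x)) (by
    funext y
    rw [Finset.sum_apply, Pi.zero_apply]
    simp only [Pi.smul_apply, smul_eq_mul, v, ← map_mul, ← map_sum]
    rw [show (∑ x : P, d x * f (a * ((y : G) * (x : G)) * g)) = 0 from ?_, map_zero]
    apply Subtype.ext
    push_cast
    simp only [d, div_mul_eq_mul_div, ← Finset.sum_div, hrel y, zero_div]) i
  rw [show d i = 1 from Subtype.ext (div_self hi0), map_one] at h0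
  exact one_ne_zero h0

/-- A fixed vector of the normalizer of a trivial-intersection p-subgroup which is killed by the sum over the
group has `#P` linearly independent translates. -/
theorem exists_independent_translates {p : ℕ} [Fact p.Prime] (P : Subgroup G) (hP : IsPGroup p P)
    (N : Subgroup G) (hTI : ∀ g : G, g ∉ N → ∀ x ∈ P, g⁻¹ * x * g ∈ N → x = 1) (hPN : P ≤ N)
    {V : Type*} [AddCommGroup V] [Module ℂ V] (ρ : Representation ℂ G V) (w : V) (hw : w ≠ 0)
    (hfix : ∀ n ∈ N, ρ n w = w) (hkill : ∑ g : G, ρ g w = 0) :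
    ∃ g : G, LinearIndependent ℂ (fun x : P => ρ ((x : G) * g) w) := by
  obtain ⟨ψ, hψ⟩ : ∃ ψ : Module.Dual ℂ V, ψ w ≠ 0 := by
    by_contra h
    push Not at h
    exact hw ((Module.forall_dual_apply_eq_zero_iff ℂ w).1 h)
  obtain ⟨O, hO⟩ := exists_valuationSubring_prime p (Fact.out : p.Prime)
  obtain ⟨a, -, ha0, ha⟩ := exists_dominant O (Finset.univ : Finset G) (fun g => ψ (ρ g w))
    ⟨1, Finset.mem_univ _, by simpa using hψ⟩
  let f : G → O := fun g => ⟨ψ (ρ g w) / ψ (ρ a w), ha g (Finset.mem_univ _)⟩
  have hfN : ∀ g n : G, n ∈ N → f (g * n) = f g := fun g n hn => Subtype.ext (by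
    show ψ (ρ (g * n) w) / _ = ψ (ρ g w) / _
    rw [map_mul, Module.End.mul_apply, hfix n hn])
  -- descend to cosets
  haveI : Fintype (G ⧸ N) := Fintype.ofFinite _
  let F : G ⧸ N → O := Quotient.lift (fun g => f (a * g)) (fun g g' hgg' => by
    have hn : g⁻¹ * g' ∈ N := QuotientGroup.leftRel_apply.1 hgg'
    show f (a * g) = f (a * g')
    rw [← hfN (a * g) _ hn, mul_assoc, mul_inv_cancel_left])
  have hF : ∀ g : G, F (QuotientGroup.mk g) = f (a * g) := fun g => rfl
  have hFsum : ∑ q : G ⧸ N, F q = 0 := by
    have h1 : ∑ g : G, f (a * g) = 0 := by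
      apply Subtype.ext
      push_cast
      simp only [f, ← Finset.sum_div]
      rw [← map_sum, ← Equiv.sum_comp (Equiv.mulLeft a⁻¹) (fun g => ρ (a * g) w)]
      simp only [Equiv.coe_mulLeft, mul_inv_cancel_left, hkill, map_zero, zero_div]
    have h2 : ∑ g : G, f (a * g) = (Nat.card N : O) * ∑ q : G ⧸ N, F q := by
      rw [← Finset.sum_fiberwise Finset.univ (QuotientGroup.mk : G → G ⧸ N) fun g => f (a * g), Finset.mul_sum]
      refine Finset.sum_congr rfl fun q _ => ?_
      induction q using QuotientGroup.induction_on with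
      | H g =>
        rw [Finset.sum_congr rfl (g := fun _ => F (QuotientGroup.mk g)) fun g' hg' => by
          rw [← (Finset.mem_filter.1 hg').2, hF], Finset.sum_const, nsmul_eq_mul]
        congr 1
        rw [Nat.cast_inj.2 ?_]
        rw [← Fintype.card_subtype, ← Nat.card_eq_fintype_card]
        exact Nat.card_congr
          { toFun := fun x => ⟨g⁻¹ * x.1, QuotientGroup.eq.1 x.2.symm⟩
            invFun := fun n => ⟨g * n.1, (QuotientGroup.eq.2 (by rw [inv_mul_cancel_left]; exact n.2)).symm⟩
            left_inv := fun x => Subtype.ext (mul_inv_cancel_left g _)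
            right_inv := fun n => Subtype.ext (inv_mul_cancel_left g _) }
    rw [h1] at h2
    rcases mul_eq_zero.1 h2.symm with h | h
    · exfalso
      have h' := congrArg (fun z : O => (z : ℂ)) h
      simp at h'
    · exact h
  -- some orbit of `P` on the other cosets has unit sum
  have key : ∃ g : G, g ∉ N ∧ IsLocalRing.residue O (∑ x : P, f (a * (x : G) * g)) ≠ 0 := by
    by_contra hcon
    push Not at hcon
    let S : Finset (G ⧸ N) := Finset.univ.erase (QuotientGroup.mk 1)
    have hS0 : IsLocalRing.residue O (∑ q ∈ S, F q) = 0 := by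
      rw [map_sum, ← Finset.sum_fiberwise S (fun q : G ⧸ N => (Quotient.mk (MulAction.orbitRel P (G ⧸ N)) q))]
      refine Finset.sum_eq_zero fun o _ => ?_
      induction o using Quotient.inductionOn with
      | h q =>
        induction q using QuotientGroup.induction_on with
        | H g =>
          by_cases hg : g ∈ N
          · refine Finset.sum_eq_zero fun q hq => absurd ?_ (Finset.ne_of_mem_erase (Finset.mem_filter.1 hq).1)
            obtain ⟨x, hx⟩ := Quotient.exact (Finset.mem_filter.1 hq).2
            rw [← hx]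
            show (QuotientGroup.mk ((x : G) * g) : G ⧸ N) = QuotientGroup.mk 1
            exact QuotientGroup.eq.2 (by rw [mul_one]; exact N.inv_mem (N.mul_mem (hPN x.2) hg))
          · rw [← map_sum, ← hcon g hg]
            congr 1
            symm
            refine Finset.sum_bij (fun x _ => x • (QuotientGroup.mk g : G ⧸ N)) (fun x _ => ?_) (fun x _ y _ h => ?_) (fun q hq => ?_) (fun x _ => ?_)
            · refine Finset.mem_filter.2 ⟨Finset.mem_erase.2 ⟨fun e => hg ?_, Finset.mem_univ _⟩, Quotient.sound ⟨x, rfl⟩⟩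
              have h := QuotientGroup.eq.1 (show (QuotientGroup.mk ((x : G) * g) : G ⧸ N) = QuotientGroup.mk 1 from e)
              rw [mul_one, N.inv_mem_iff] at h
              exact (N.mul_mem_cancel_left (hPN x.2)).1 h
            · have h' := QuotientGroup.eq.1 (show (QuotientGroup.mk ((x : G) * g) : G ⧸ N) = QuotientGroup.mk ((y : G) * g) from h)
              have h1 := hTI g hg ((x : G)⁻¹ * y) (P.mul_mem (P.inv_mem x.2) y.2) (by
                have e : g⁻¹ * ((x : G)⁻¹ * y) * g = ((x : G) * g)⁻¹ * ((y : G) * g) := by group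
                rwa [e])
              exact Subtype.ext (inv_mul_eq_one.1 h1)
            · obtain ⟨x, hx⟩ := Quotient.exact (Finset.mem_filter.1 hq).2
              exact ⟨x, Finset.mem_univ _, hx⟩
            · show _ = F (QuotientGroup.mk ((x : G) * g))
              rw [hF, mul_assoc]
    rw [← Finset.add_sum_erase _ _ (Finset.mem_univ (QuotientGroup.mk (1 : G) : G ⧸ N))] at hFsum
    have h3 := congrArg (IsLocalRing.residue O) hFsum
    rw [map_add, hS0, add_zero, map_zero, hF, mul_one, show f a = 1 from Subtype.ext (div_self ha0), map_one] at h3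
    exact one_ne_zero h3
  obtain ⟨g, -, hg⟩ := key
  refine ⟨g, Fintype.linearIndependent_iff.2 fun c hc i => congrFun (eq_zero_of_coset_relation O hO P hP f a g hg c fun y => ?_) i⟩
  have h := congrArg (fun v => ψ (ρ (a * (y : G)) v) / ψ (ρ a w)) hc
  simp only [map_sum, map_smul, map_zero, zero_div, smul_eq_mul, Finset.sum_div, mul_div_assoc] at h
  rw [← h]
  refine Finset.sum_congr rfl fun x _ => ?_
  show c x * (ψ (ρ (a * ((y : G) * (x : G)) * g) w) / ψ (ρ a w)) = _
  rw [← Module.End.mul_apply, ← map_mul, show a * (y : G) * ((x : G) * g) = a * ((y : G) * (x : G)) * g by simp only [mul_assoc]]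

/-- In dimension at most `#P` the fixed points of the normalizer of a trivial-intersection p-subgroup are
fixed by the whole group. -/
theorem fixed_of_TI_of_finrank_le {p : ℕ} [Fact p.Prime] (P : Subgroup G) (hP : IsPGroup p P)
    (N : Subgroup G) (hTI : ∀ g : G, g ∉ N → ∀ x ∈ P, g⁻¹ * x * g ∈ N → x = 1) (hPN : P ≤ N)
    {V : Type*} [AddCommGroup V] [Module ℂ V] [FiniteDimensional ℂ V] (ρ : Representation ℂ G V)
    (hdim : Module.finrank ℂ V ≤ Nat.card P) (hfixed : ∃ v : V, v ≠ 0 ∧ ∀ g, ρ g v = v) (w : V)
    (hw : ∀ n ∈ N, ρ n w = w) (g : G) : ρ g w = w := by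
  have hG0 : (Nat.card G : ℂ) ≠ 0 := Nat.cast_ne_zero.2 Nat.card_pos.ne'
  let T : Module.End ℂ V := ∑ x : G, ρ x
  have hT : ∀ v, T v = ∑ x : G, ρ x v := fun v => LinearMap.sum_apply _ _ _
  have hρT : ∀ y v, ρ y (T v) = T v := fun y v => by
    rw [hT, map_sum]
    exact Fintype.sum_equiv (Equiv.mulLeft y) _ _ fun x => by rw [Equiv.coe_mulLeft, map_mul]; rfl
  have hTρ : ∀ y v, T (ρ y v) = T v := fun y v => by
    rw [hT, hT]
    exact Fintype.sum_equiv (Equiv.mulRight y) _ _ fun x => by rw [Equiv.coe_mulRight, map_mul]; rfl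
  by_contra hwG
  set w' := w - (Nat.card G : ℂ)⁻¹ • T w with hw'
  have hfix : ∀ m ∈ N, ρ m w' = w' := fun m hm => by
    rw [hw', map_sub, map_smul, hρT, hw m hm]
  have hw'0 : w' ≠ 0 := fun e => hwG (by rw [sub_eq_zero.1 e, map_smul, hρT])
  have hkill : T w' = 0 := by
    have hTT : T (T w) = (Nat.card G : ℂ) • T w := by
      rw [hT, Finset.sum_congr rfl fun x _ => hρT x w, Finset.sum_const, Finset.card_univ,
        ← Nat.card_eq_fintype_card, Nat.cast_smul_eq_nsmul]
    rw [hw', map_sub, map_smul, hTT, inv_smul_smul₀ hG0, sub_self]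
  obtain ⟨y, hli⟩ := exists_independent_translates P hP N hTI hPN ρ w' hw'0 hfix (by rw [← hT]; exact hkill)
  let u : ↥P → LinearMap.ker T := fun x => ⟨ρ ((x : G) * y) w', by rw [LinearMap.mem_ker, hTρ, hkill]⟩
  have hu : LinearIndependent ℂ u := LinearIndependent.of_comp (LinearMap.ker T).subtype hli
  have h1 := hu.fintype_card_le_finrank
  rw [← Nat.card_eq_fintype_card] at h1
  have h2 : Module.finrank ℂ (LinearMap.ker T) < Module.finrank ℂ V := by
    refine Submodule.finrank_lt fun e => ?_
    obtain ⟨v, hv0, hv⟩ := hfixed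
    have h := LinearMap.congr_fun (LinearMap.ker_eq_top.1 e) v
    rw [hT, Finset.sum_congr rfl fun x _ => hv x, Finset.sum_const, Finset.card_univ,
      ← Nat.card_eq_fintype_card, LinearMap.zero_apply, ← Nat.cast_smul_eq_nsmul ℂ] at h
    exact hv0 ((smul_eq_zero.1 h).resolve_left hG0)
  omega

end CfsgLib.Block
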