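import Cfsg.Prelude
import Cfsg.Agent.Lib.CharBasic
import Cfsg.Agent.Lib.CharPerm
import Cfsg.Agent.Lib.CharLinear
import Cfsg.Agent.Lib.BlockInflate
import Cfsg.Agent.Lib.BlockPrincipal
import Cfsg.Agent.Lib.BlockRegular

namespace CfsgLib.Block
open Cfsg CfsgLib.Char
open scoped ComplexConjugate Classical

universe u
variable {G : Type u} [Group G]

/-- The set `{1} ∪ x^G` is a normal subgroup when some irreducible character is non-zero only there. -/
theorem two_class_structure [Finite G] (hG : 2 < Nat.card G) (χ : IrrCharacter G)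
    (hχ : Nat.card {C : ConjClasses G // ∃ g ∈ C.carrier, (χ : G → ℂ) g ≠ 0} = 2) :
    ∃ N : Subgroup G, N.Normal ∧ N ≠ ⊥ ∧ (∀ g : G, (χ : G → ℂ) g ≠ 0 ↔ g ∈ N) ∧
      (∀ ψ : IrrCharacter G, ψ ≠ χ → ∀ n ∈ N, (ψ : G → ℂ) n = (ψ : G → ℂ) 1) ∧
      (∀ x ∈ N, ∀ y ∈ N, x ≠ 1 → y ≠ 1 → IsConj x y) ∧
      (∀ g : G, (χ : G → ℂ) g = (χ : G → ℂ) 1 → g = 1) := by
  have := Fintype.ofFinite G
  have hcl : IsClassFunction G (χ : G → ℂ) := isCharacter_classFunction χ.2.isCharacter'
  have h1 : (χ : G → ℂ) 1 ≠ 0 := irr_one_ne_zero χ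
  set S := {C : ConjClasses G // ∃ g ∈ C.carrier, (χ : G → ℂ) g ≠ 0} with hS
  let c1 : S := ⟨ConjClasses.mk 1, 1, ConjClasses.mem_carrier_mk, h1⟩
  obtain ⟨c2, hc2, hun⟩ := (Nat.card_eq_two_iff' c1).1 hχ
  obtain ⟨x, hxC, hx0⟩ := c2.2
  rw [ConjClasses.mem_carrier_iff_mk_eq] at hxC
  have hx1 : x ≠ 1 := fun h => hc2 (Subtype.ext (by rw [← hxC, h]))
  have hsupp : ∀ g : G, (χ : G → ℂ) g ≠ 0 → g = 1 ∨ IsConj x g := by
    intro g hg
    by_cases h : g = 1
    · exact Or.inl h
    · right
      let cg : S := ⟨ConjClasses.mk g, g, ConjClasses.mem_carrier_mk, hg⟩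
      have hne : cg ≠ c1 := by
        intro e
        have := Subtype.ext_iff.1 e
        exact h (isConj_one_left.1 (ConjClasses.mk_eq_mk_iff_isConj.1 this))
      have h2 : cg = c2 := hun cg hne
      have := Subtype.ext_iff.1 h2
      rw [← hxC] at this
      exact (ConjClasses.mk_eq_mk_iff_isConj.1 this).symm
  set T : Finset G := Finset.univ.filter (fun g => IsConj x g) with hT
  have key : ∀ ψ : IrrCharacter G, (Nat.card G : ℂ) * classInner (χ : G → ℂ) (ψ : G → ℂ) =
      (χ : G → ℂ) 1 * conj ((ψ : G → ℂ) 1) +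
        (T.card : ℂ) * (χ : G → ℂ) x * conj ((ψ : G → ℂ) x) := by
    intro ψ
    rw [classInner, mul_inv_cancel_left₀ (natCard_ne_zero G)]
    have h1T : (1 : G) ∉ T := by
      simp only [hT, Finset.mem_filter, Finset.mem_univ, true_and]
      exact fun h => hx1 (isConj_one_left.1 h)
    rw [← Finset.sum_subset (Finset.subset_univ (insert 1 T))]
    · rw [Finset.sum_insert h1T, mul_assoc, ← nsmul_eq_mul, ← Finset.sum_const]
      congr 1
      refine Finset.sum_congr rfl fun g hg => ?_
      simp only [hT, Finset.mem_filter, Finset.mem_univ, true_and] at hg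
      rw [char_eq_of_isConj hcl hg, char_eq_of_isConj (isCharacter_classFunction ψ.2.isCharacter') hg]
    · intro g _ hg
      simp only [Finset.mem_insert, hT, Finset.mem_filter, Finset.mem_univ, true_and, not_or] at hg
      by_contra hne
      rcases hsupp g (fun h => hne (by rw [h, zero_mul])) with h | h
      · exact hg.1 h
      · exact hg.2 h
  have htriv : χ ≠ trivIrr G := by
    intro e
    have hall : ∀ g : G, g ≠ 1 → IsConj x g := fun g hg =>
      (hsupp g (by rw [e]; exact one_ne_zero)).resolve_left hg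
    have hTc : T.card + 1 = Nat.card G := by
      rw [Nat.card_eq_fintype_card, ← Finset.card_univ,
        ← Finset.card_erase_add_one (Finset.mem_univ (1 : G))]
      congr 1
      refine congrArg Finset.card (Finset.ext fun g => ?_)
      simp only [hT, Finset.mem_filter, Finset.mem_univ, true_and, Finset.mem_erase, and_true]
      exact ⟨fun h e' => hx1 (by subst e'; exact isConj_one_left.1 h), hall g⟩
    have hdvd : T.card ∣ Nat.card G := by
      have hc := MulAction.index_stabilizer (ConjAct G) x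
      have hTorb : (MulAction.orbit (ConjAct G) x).ncard = T.card := by
        rw [← Set.ncard_coe_finset]
        congr 1
        ext g
        simp only [hT, Finset.coe_filter, Finset.mem_univ, true_and, Set.mem_ofPred_eq]
        rw [ConjAct.mem_orbit_conjAct]
        exact ⟨fun h => h.symm, fun h => h.symm⟩
      rw [← hTorb, ← hc]
      exact Subgroup.index_dvd_card _
    rw [← hTc, Nat.dvd_add_right dvd_rfl, Nat.dvd_one] at hdvd
    omega
  have hval : (T.card : ℂ) * (χ : G → ℂ) x = - (χ : G → ℂ) 1 := by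
    have h := key (trivIrr G)
    rw [irr_classInner, if_neg htriv, mul_zero] at h
    change (0 : ℂ) = (χ : G → ℂ) 1 * conj (1 : ℂ) + (T.card : ℂ) * (χ : G → ℂ) x * conj (1 : ℂ) at h
    rw [map_one, mul_one, mul_one] at h
    linear_combination -h
  have hker : ∀ ψ : IrrCharacter G, ψ ≠ χ → (ψ : G → ℂ) x = (ψ : G → ℂ) 1 := by
    intro ψ hψ
    have h := key ψ
    rw [irr_classInner, if_neg (Ne.symm hψ), mul_zero, hval] at h
    have h' : (χ : G → ℂ) 1 * (conj ((ψ : G → ℂ) 1) - conj ((ψ : G → ℂ) x)) = 0 := by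
      linear_combination -h
    rcases mul_eq_zero.1 h' with e | e
    · exact absurd e h1
    · exact ((starRingEnd ℂ).injective (sub_eq_zero.1 e)).symm
  let N : Subgroup G := ⨅ ψ : {ψ : IrrCharacter G // ψ ≠ χ}, charKer ψ.1.2.isCharacter'
  have hmemN : ∀ g : G, g ∈ N ↔ ∀ ψ : IrrCharacter G, ψ ≠ χ → (ψ : G → ℂ) g = (ψ : G → ℂ) 1 := by
    intro g
    simp only [N, Subgroup.mem_iInf, mem_charKer, Subtype.forall]
  have hxN : x ∈ N := (hmemN x).2 hker
  have hNnorm : N.Normal := Subgroup.normal_iInf_normal fun ψ => inferInstance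
  have hNconj : ∀ g ∈ N, g ≠ 1 → IsConj x g := by
    intro g hg hg1
    refine (hsupp g (fun h0 => ?_)).resolve_left hg1
    have hsum := sum_degree_mul g
    rw [if_neg hg1, ← Finset.add_sum_erase _ _ (Finset.mem_univ χ), h0, mul_zero, zero_add] at hsum
    have hcast : ∀ ψ ∈ (Finset.univ : Finset (IrrCharacter G)).erase χ,
        (ψ : G → ℂ) 1 * (ψ : G → ℂ) g = ((charDegree (ψ : G → ℂ) ^ 2 : ℕ) : ℂ) := fun ψ hψ => by
      rw [(hmemN g).1 hg ψ (Finset.ne_of_mem_erase hψ), Nat.cast_pow,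
        charDegree_cast ψ.2.isCharacter', sq]
    rw [Finset.sum_congr rfl hcast, ← Nat.cast_sum, Nat.cast_eq_zero, Finset.sum_eq_zero_iff] at hsum
    have := hsum (trivIrr G) (Finset.mem_erase.2 ⟨Ne.symm htriv, Finset.mem_univ _⟩)
    rw [charDegree_triv] at this
    norm_num at this
  refine ⟨N, hNnorm, ?_, ?_, fun ψ hψ n hn => (hmemN n).1 hn ψ hψ, ?_, ?_⟩
  · intro e
    rw [e, Subgroup.mem_bot] at hxN
    exact hx1 hxN
  · intro g
    constructor
    · intro hg
      rcases hsupp g hg with e | e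
      · rw [e]; exact N.one_mem
      · obtain ⟨c, hc⟩ := isConj_iff.1 e
        rw [← hc]
        exact hNnorm.conj_mem x hxN c
    · intro hg
      by_cases e : g = 1
      · rw [e]; exact h1
      · rw [← char_eq_of_isConj hcl (hNconj g hg e)]; exact hx0
  · exact fun a ha b hb ha1 hb1 => (hNconj a ha ha1).symm.trans (hNconj b hb hb1)
  · intro g hg
    rcases hsupp g (by rw [hg]; exact h1) with e | e
    · exact e
    · exfalso
      rw [← char_eq_of_isConj hcl e] at hg
      rw [hg] at hval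
      have h0 : ((T.card : ℂ) + 1) * (χ : G → ℂ) 1 = 0 := by linear_combination hval
      rcases mul_eq_zero.1 h0 with h | h
      · exact absurd h (by exact_mod_cast Nat.succ_ne_zero T.card)
      · exact h1 h

theorem two_class_le [Finite G] {χ : IrrCharacter G} {N : Subgroup G}
    (hker : ∀ ψ : IrrCharacter G, ψ ≠ χ → ∀ n ∈ N, (ψ : G → ℂ) n = (ψ : G → ℂ) 1)
    (hf : ∀ g : G, (χ : G → ℂ) g = (χ : G → ℂ) 1 → g = 1)
    (K : Subgroup G) (hK : K.Normal) (hK1 : K ≠ ⊥) : N ≤ K := by
  have := Fintype.ofFinite G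
  intro n hn
  by_contra hnK
  have hne : ¬ IsConj (QuotientGroup.mk n : G ⧸ K) 1 := fun h => hnK ((QuotientGroup.eq_one_iff n).1 (isConj_one_left.1 h))
  rw [isConj_iff_irr_eq, not_forall] at hne
  obtain ⟨η, hη⟩ := hne
  have hi : inflate K η ≠ χ := by
    intro e
    obtain ⟨k, hk, hk1⟩ := K.bot_or_exists_ne_one.resolve_left hK1
    refine hk1 (hf k ?_)
    rw [← e]
    exact inflate_ker K η hk
  have := hker _ hi n hn
  rw [inflate_apply, inflate_apply, QuotientGroup.mk_one] at this
  exact hη this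

end CfsgLib.Block
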