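import Cfsg.Agent.Lib.CoreBasic
import Cfsg.Prelude.Def_Local
import Mathlib.GroupTheory.Transfer

/-!
# The preimage of `O_p(N/C)` and `O_{p',p}(N)` for a normal `p`-subgroup
-/

set_option autoImplicit false

universe u

namespace CfsgLib.CentricCore

open Subgroup

variable {N : Type u} [Group N] [Finite N] {p : ℕ} [Fact p.Prime]

theorem mem_comap_pCore {M : Subgroup N} [M.Normal] {x : N}
    (h : x ∈ (Cfsg.pCore p (N ⧸ M)).comap (QuotientGroup.mk' M)) : ∃ k, x ^ p ^ k ∈ M := by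
  obtain ⟨k, hk⟩ := CfsgLib.Core.isPGroup_pCore (G := N ⧸ M) p ⟨_, h⟩
  exact ⟨k, (QuotientGroup.eq_one_iff _).1 (congrArg Subtype.val hk)⟩

theorem le_comap_pCore {M L : Subgroup N} [M.Normal] (hL : L.Normal)
    (h : ∀ x ∈ L, ∃ k, x ^ p ^ k ∈ M) : L ≤ (Cfsg.pCore p (N ⧸ M)).comap (QuotientGroup.mk' M) := by
  rw [← Subgroup.map_le_iff_le_comap]
  refine CfsgLib.Core.le_pCore (hL.map _ (QuotientGroup.mk'_surjective M)) ?_
  rintro ⟨_, x, hx, rfl⟩
  obtain ⟨k, hk⟩ := h x hx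
  exact ⟨k, Subtype.ext ((QuotientGroup.eq_one_iff _).2 hk)⟩

theorem pPrimeCore_le {H C : Subgroup N} [H.Normal] (hH : IsPGroup p H)
    (hC : ∀ c, c ∈ C ↔ ∀ h ∈ H, h * c = c * h) : Cfsg.pPrimeCore p N ≤ C := by
  intro x hx
  rw [hC]
  intro h hh
  refine (Subgroup.commute_of_normal_of_disjoint H _ inferInstance
    (CfsgLib.Core.normal_pPrimeCore p) ?_ h x hh hx).eq
  rw [disjoint_iff]
  refine Subgroup.inf_eq_bot_of_coprime ?_
  obtain ⟨n, hn⟩ := IsPGroup.iff_card.mp hH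
  rw [hn]
  exact (CfsgLib.Core.coprime_card_pPrimeCore p).symm.pow_left n

/-- If `H` contains a Sylow subgroup of `C = C(H)`, then `C` is a `p`-group modulo `O_{p'}`. -/
theorem pow_mem_pPrimeCore {H C : Subgroup N} [H.Normal] [hCn : C.Normal] (hH : IsPGroup p H)
    (hC : ∀ c, c ∈ C ↔ ∀ h ∈ H, h * c = c * h) (hidx : ¬ p ∣ H.relIndex C) {c : N} (hc : c ∈ C) :
    ∃ k, c ^ p ^ k ∈ Cfsg.pPrimeCore p N := by
  set m := (H.subgroupOf C).index with hm
  have hle : H.subgroupOf C ≤ Subgroup.center C := fun z hz => Subgroup.mem_center_iff.2 fun g =>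
    Subtype.ext ((hC _).1 g.2 _ hz).symm
  obtain ⟨j, hj⟩ := Subgroup.index_dvd_of_le hle
  have hom : ∀ x y : C, (x * y) ^ m = x ^ m * y ^ m := fun x y => by
    have h1 := (MonoidHom.transferCenterPow C).map_mul x y
    have h2 : (x * y) ^ (Subgroup.center C).index =
        x ^ (Subgroup.center C).index * y ^ (Subgroup.center C).index := by
      have h3 := congrArg Subtype.val h1
      rwa [Subgroup.coe_mul, MonoidHom.transferCenterPow_apply, MonoidHom.transferCenterPow_apply,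
        MonoidHom.transferCenterPow_apply] at h3
    rw [hm, hj, pow_mul, pow_mul, pow_mul, h2]
    refine Commute.mul_pow ?_ j
    have := Subgroup.mem_center_iff.1 ((MonoidHom.transferCenterPow C x).2)
      (y ^ (Subgroup.center C).index)
    exact this.symm
  let X : Subgroup N :=
    { carrier := {x | x ∈ C ∧ x ^ m = 1}
      one_mem' := ⟨C.one_mem, one_pow m⟩
      mul_mem' := fun {a b} ha hb => ⟨C.mul_mem ha.1 hb.1, by
        have := congrArg Subtype.val (hom ⟨a, ha.1⟩ ⟨b, hb.1⟩)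
        simpa [ha.2, hb.2] using this⟩
      inv_mem' := fun {a} ha => ⟨C.inv_mem ha.1, by rw [inv_pow, ha.2, inv_one]⟩ }
  have hXn : X.Normal := ⟨fun x hx g => ⟨hCn.conj_mem x hx.1 g, by rw [conj_pow, hx.2, mul_one, mul_inv_cancel]⟩⟩
  have hX : X ≤ Cfsg.pPrimeCore p N := by
    refine CfsgLib.Core.le_pPrimeCore hXn ?_
    refine Nat.Coprime.symm ((Fact.out : p.Prime).coprime_iff_not_dvd.2 fun h => ?_)
    obtain ⟨⟨x, hx⟩, hxo⟩ := exists_prime_orderOf_dvd_card' p h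
    rw [← Subgroup.orderOf_coe] at hxo
    exact hidx (show p ∣ m from hxo ▸ orderOf_dvd_of_pow_eq_one hx.2)
  have hmem : c ^ m ∈ H := Subgroup.mem_subgroupOf.1
    (Subgroup.pow_index_mem (H.subgroupOf C) (⟨c, hc⟩ : C))
  obtain ⟨k, hk⟩ := hH ⟨c ^ m, hmem⟩
  refine ⟨k, hX ⟨C.pow_mem hc _, ?_⟩⟩
  rw [← pow_mul, mul_comm, pow_mul]
  exact congrArg Subtype.val hk

theorem mem_sup_of_pow {H C : Subgroup N} {x : N} {a b : ℕ} (hab : a.Coprime b)
    (ha : x ^ a ∈ C) (hb : x ^ b ∈ H) : x ∈ H ⊔ C := by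
  have h := Nat.gcd_eq_gcd_ab a b
  rw [hab] at h
  have e : x = (x ^ a) ^ Nat.gcdA a b * (x ^ b) ^ Nat.gcdB a b := by
    rw [← zpow_natCast x a, ← zpow_natCast x b, ← zpow_mul, ← zpow_mul, ← zpow_add, ← h, Nat.cast_one, zpow_one]
  rw [e]
  exact mul_mem (mem_sup_right (zpow_mem ha _)) (mem_sup_left (zpow_mem hb _))

theorem criterion (H C : Subgroup N) [H.Normal] [C.Normal] (hH : IsPGroup p H)
    (hC : ∀ c, c ∈ C ↔ ∀ h ∈ H, h * c = c * h) (P : Subgroup N) (hP : IsPGroup p P)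
    (hPC : ¬ p ∣ P.relIndex C) :
    (H ≤ (Cfsg.pCore p (N ⧸ C)).comap (QuotientGroup.mk' C) ∧
      ¬ p ∣ H.relIndex ((Cfsg.pCore p (N ⧸ C)).comap (QuotientGroup.mk' C))) ↔
    (P ⊓ C ≤ H ∧ Cfsg.pPrimePCore p N = H ⊔ C) := by
  haveI := CfsgLib.Core.normal_pPrimeCore (G := N) p
  haveI := CfsgLib.Core.normal_pCore (G := N ⧸ C) p
  haveI := CfsgLib.Core.normal_pCore (G := N ⧸ Cfsg.pPrimeCore p N) p
  set K := (Cfsg.pCore p (N ⧸ C)).comap (QuotientGroup.mk' C) with hK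
  set L := Cfsg.pPrimePCore p N with hL
  have hOC := pPrimeCore_le hH hC
  have hCK : C ≤ K := fun x hx => by
    rw [hK, mem_comap, QuotientGroup.mk'_apply, (QuotientGroup.eq_one_iff x).2 hx]; exact one_mem _
  have hHK : H ≤ K := le_comap_pCore inferInstance fun x hx => by
    obtain ⟨k, hk⟩ := hH ⟨x, hx⟩
    exact ⟨k, by rw [show x ^ p ^ k = 1 from congrArg Subtype.val hk]; exact C.one_mem⟩
  have hLK : L ≤ K := le_comap_pCore (Subgroup.normal_comap _) fun x hx => by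
    obtain ⟨k, hk⟩ := mem_comap_pCore hx
    exact ⟨k, hOC hk⟩
  have hKL : (¬ p ∣ H.relIndex C) → K ≤ L := fun h => le_comap_pCore (Subgroup.normal_comap _) fun x hx => by
    obtain ⟨k, hk⟩ := mem_comap_pCore hx
    obtain ⟨a, ha⟩ := pow_mem_pPrimeCore hH hC h hk
    exact ⟨k + a, by rw [pow_add, pow_mul]; exact ha⟩
  constructor
  · rintro ⟨-, hr⟩
    have hpow : ∀ x ∈ K, x ^ H.relIndex K ∈ H := fun x hx => Subgroup.mem_subgroupOf.1
      (Subgroup.pow_index_mem (H.subgroupOf K) (⟨x, hx⟩ : K))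
    have hcop : ∀ k, (p ^ k).Coprime (H.relIndex K) := fun k =>
      Nat.Coprime.pow_left _ ((Fact.out : p.Prime).coprime_iff_not_dvd.2 hr)
    refine ⟨fun x hx => ?_, ?_⟩
    · obtain ⟨k, hk⟩ := hP ⟨x, hx.1⟩
      have h1 : x ^ p ^ k ∈ H := by
        rw [show x ^ p ^ k = 1 from congrArg Subtype.val hk]; exact H.one_mem
      simpa using mem_sup_of_pow (hcop k) h1 (hpow x (hCK hx.2))
    · have h : ¬ p ∣ H.relIndex C := fun h => hr (h.trans (by
        rw [← Subgroup.relIndex_sup_right C H]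
        exact Dvd.intro _ (Subgroup.relIndex_mul_relIndex H (C ⊔ H) K le_sup_right (sup_le hCK hHK))))
      refine le_antisymm (fun x hx => ?_) (sup_le (hHK.trans (hKL h)) (hCK.trans (hKL h)))
      obtain ⟨k, hk⟩ := mem_comap_pCore (hLK hx)
      exact mem_sup_of_pow (hcop k) hk (hpow x (hLK hx))
  · rintro ⟨hPH, hLe⟩
    refine ⟨hHK, fun h => hPC (h.trans ?_)⟩
    have hdvd : H.relIndex C ∣ P.relIndex C := by
      rw [← Subgroup.inf_relIndex_right P C]
      exact Subgroup.relIndex_dvd_of_le_left C hPH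
    have hC' : ¬ p ∣ H.relIndex C := fun h' => hPC (h'.trans hdvd)
    have hKe : K = C ⊔ H := by
      rw [sup_comm, ← hLe]; exact le_antisymm (hKL hC') hLK
    rw [hKe, Subgroup.relIndex_sup_right C H]
    exact hdvd

end CfsgLib.CentricCore
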