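import Cfsg.Agent.Lib.CharClifford
import Cfsg.Agent.Lib.CharLinear
import Cfsg.Agent.Lib.BlockRegular
import Cfsg.Agent.Lib.CorePGroup

/-!
# Groups of prime power order in which characters of equal degree are Galois conjugate
-/

set_option autoImplicit false
set_option linter.unusedSectionVars false

namespace CfsgLib.GalDeg

open Cfsg CfsgLib.Char CfsgLib.Block
open scoped ComplexConjugate Classical commutatorElement

universe u

attribute [local instance] Fintype.ofFinite

variable {P : Type u} [Group P] [Finite P] {p : ℕ} [hp : Fact p.Prime]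

/-- Nonlinear characters of equal degree are Galois conjugate. -/
def Gal (P : Type u) [Group P] : Prop :=
  ∀ χ ψ : IrrCharacter P, charDegree (χ : P → ℂ) ≠ 1 →
    charDegree (χ : P → ℂ) = charDegree (ψ : P → ℂ) →
      ∃ k : ℕ, Nat.Coprime k (Nat.card P) ∧ ∀ g : P, (ψ : P → ℂ) g = (χ : P → ℂ) (g ^ k)

theorem deg_pos (χ : IrrCharacter P) : 0 < charDegree (χ : P → ℂ) :=
  Nat.pos_of_ne_zero fun h => irr_one_ne_zero χ (by
    rw [← charDegree_cast χ.2.isCharacter', h, Nat.cast_zero])

theorem deg_one {χ : IrrCharacter P} (h : charDegree (χ : P → ℂ) = 1) : (χ : P → ℂ) 1 = 1 := by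
  rw [← charDegree_cast χ.2.isCharacter', h, Nat.cast_one]

theorem exists_nonlinear (hna : ¬ IsMulCommutative P) :
    ∃ χ : IrrCharacter P, charDegree (χ : P → ℂ) ≠ 1 := by
  by_contra h
  push_neg at h
  exact hna ⟨⟨comm_of_linear fun χ => deg_one (h χ)⟩⟩

theorem gal_quot (h : Gal P) (N : Subgroup P) [N.Normal] : Gal (P ⧸ N) := by
  intro χ ψ h1 h2
  let up : IrrCharacter (P ⧸ N) → IrrCharacter P := fun η =>
    ⟨(η : P ⧸ N → ℂ) ∘ QuotientGroup.mk' N,
      isIrrCharacter_comp_surjective η.2 _ (QuotientGroup.mk'_surjective N)⟩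
  obtain ⟨k, hk, hg⟩ := h (up χ) (up ψ) h1 h2
  refine ⟨k, hk.coprime_dvd_right (Subgroup.card_quotient_dvd_card N), fun q => ?_⟩
  induction q using QuotientGroup.induction_on with
  | H g => exact hg g

theorem ker_iff (h : Gal P) {χ ψ : IrrCharacter P} (h1 : charDegree (χ : P → ℂ) ≠ 1)
    (h2 : charDegree (χ : P → ℂ) = charDegree (ψ : P → ℂ)) {g : P}
    (hg : (χ : P → ℂ) g = (χ : P → ℂ) 1) : (ψ : P → ℂ) g = (ψ : P → ℂ) 1 := by
  obtain ⟨k, -, hk⟩ := h χ ψ h1 h2
  obtain ⟨n, ρ, hρ, hc⟩ := χ.2
  have hrg : ρ g = 1 := (char_eq_one_iff ρ g).1 (by rw [hc]; exact hg)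
  rw [hk g, hk 1, one_pow, ← hc]
  exact (char_eq_one_iff ρ _).2 (by rw [map_pow, hrg, one_pow])

theorem lin_mul (μ : P →* ℂˣ) (χ : IrrCharacter P) :
    IsIrrCharacter P (fun g => (μ g : ℂ) * (χ : P → ℂ) g) := by
  refine isIrr_of_inner_self_one (isCharacter_mul (isCharacter_hom μ) χ.2.isCharacter') ?_
  rw [← irr_inner_self χ.2]
  simp only [classInner, Pi.mul_apply, map_mul]
  congr 1
  refine Finset.sum_congr rfl fun g _ => ?_
  have h1 : (μ g : ℂ) * conj (μ g : ℂ) = 1 := by
    rw [Complex.mul_conj']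
    have hn : ‖(μ g : ℂ)‖ = 1 := Complex.norm_eq_one_of_pow_eq_one
      (n := orderOf g) (by rw [← Units.val_pow_eq_pow_val, ← map_pow, pow_orderOf_eq_one, map_one,
        Units.val_one]) (orderOf_pos g).ne'
    rw [hn]; simp
  linear_combination ((χ : P → ℂ) g * conj ((χ : P → ℂ) g)) * h1

theorem exists_linear_ne_one {g : P} (hg : g ∉ commutator P) : ∃ μ : P →* ℂˣ, μ g ≠ 1 := by
  haveI : Finite (Abelianization P) :=
    Finite.of_surjective (Abelianization.of (G := P)) Quotient.mk_surjective
  haveI : NeZero (Monoid.exponent (Abelianization P)) := ⟨Monoid.exponent_ne_zero_of_finite⟩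
  have hne : Abelianization.of g ≠ 1 := fun h => hg ((QuotientGroup.eq_one_iff g).1 h)
  obtain ⟨f, hf⟩ := CommGroup.exists_apply_ne_one_of_hasEnoughRootsOfUnity (Abelianization P) ℂ hne
  exact ⟨f.comp Abelianization.of, hf⟩

/-- Twist by a linear character. -/
theorem twist_deg (μ : P →* ℂˣ) (χ : IrrCharacter P) :
    charDegree (χ : P → ℂ) = charDegree (fun g => (μ g : ℂ) * (χ : P → ℂ) g) := by
  have h : (charDegree (fun g => (μ g : ℂ) * (χ : P → ℂ) g) : ℂ) = (χ : P → ℂ) 1 := by
    rw [charDegree_cast (lin_mul μ χ).isCharacter', map_one, Units.val_one, one_mul]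
  rw [← charDegree_cast χ.2.isCharacter'] at h
  exact_mod_cast h.symm

theorem ker_le_commutator (h : Gal P) {χ : IrrCharacter P} (h1 : charDegree (χ : P → ℂ) ≠ 1)
    {g : P} (hg : (χ : P → ℂ) g = (χ : P → ℂ) 1) : g ∈ commutator P := by
  by_contra hgc
  obtain ⟨μ, hμ⟩ := exists_linear_ne_one hgc
  have hk := ker_iff h h1 (ψ := ⟨_, lin_mul μ χ⟩) (twist_deg μ χ) hg
  simp only [map_one, Units.val_one, one_mul, hg] at hk
  exact hμ (Units.ext (mul_right_cancel₀ (irr_one_ne_zero χ) (hk.trans (one_mul _).symm)))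

/-- Central elements act by roots of unity. -/
theorem exists_scalar (χ : IrrCharacter P) {z : P} (hz : z ∈ Subgroup.center P) :
    ∃ ω : ℂ, ω ^ orderOf z = 1 ∧
      ∀ (i : ℕ) (g : P), (χ : P → ℂ) (z ^ i * g) = ω ^ i * (χ : P → ℂ) g := by
  obtain ⟨n, ρ, hρ, hc⟩ := χ.2
  haveI := hρ
  obtain ⟨ω, hω⟩ := schur_scalar ρ (ρ z) fun g => by
    rw [← map_mul, ← map_mul, Subgroup.mem_center_iff.1 hz g]
  have hi : ∀ (i : ℕ) (g : P), (χ : P → ℂ) (z ^ i * g) = ω ^ i * (χ : P → ℂ) g := fun i g => by
    rw [← hc, Representation.character, Representation.character, map_mul, map_pow, hω, smul_pow,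
      one_pow, smul_mul_assoc, one_mul, map_smul, smul_eq_mul]
  refine ⟨ω, ?_, hi⟩
  have h := hi (orderOf z) 1
  rw [pow_orderOf_eq_one, one_mul] at h
  exact mul_right_cancel₀ (irr_one_ne_zero χ) (h.symm.trans (one_mul _).symm)

theorem mem_commutator_of_central (h : Gal P) (hna : ¬ IsMulCommutative P) {c : P}
    (hc : c ∈ Subgroup.center P) (hcp : orderOf c = p) : c ∈ commutator P := by
  by_contra hcc
  obtain ⟨μ, hμ⟩ := exists_linear_ne_one hcc
  obtain ⟨χ, hχ⟩ := exists_nonlinear hna
  obtain ⟨ω, hω1, hω⟩ := exists_scalar χ hc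
  have hχc : (χ : P → ℂ) c = ω * (χ : P → ℂ) 1 := by simpa using hω 1 1
  by_cases hω0 : ω = 1
  · exact hcc (ker_le_commutator h hχ (by rw [hχc, hω0, one_mul]))
  -- twist so that `c` falls into the kernel
  rw [hcp] at hω1
  have hμp : (μ c : ℂ) ^ p = 1 := by
    rw [← Units.val_pow_eq_pow_val, ← map_pow, ← hcp, pow_orderOf_eq_one, map_one, Units.val_one]
  have hprim : IsPrimitiveRoot (μ c : ℂ) p := by
    rw [IsPrimitiveRoot.iff_orderOf]
    exact orderOf_eq_prime hμp fun e => hμ (Units.ext e)
  haveI : NeZero p := ⟨hp.out.ne_zero⟩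
  obtain ⟨j, -, hj⟩ := hprim.eq_pow_of_pow_eq_one (ξ := ω⁻¹) (by rw [inv_pow, hω1, inv_one])
  let χ' : IrrCharacter P := ⟨_, lin_mul (μ ^ j) χ⟩
  have hd : charDegree (χ : P → ℂ) = charDegree (χ' : P → ℂ) := twist_deg (μ ^ j) χ
  have hωne : ω ≠ 0 := fun e => by simp [e, zero_pow hp.out.ne_zero] at hω1
  refine hcc (ker_le_commutator h (χ := χ') (hd ▸ hχ) ?_)
  show ((μ ^ j) c : ℂ) * (χ : P → ℂ) c = ((μ ^ j) 1 : ℂ) * (χ : P → ℂ) 1
  rw [MonoidHom.pow_apply, Units.val_pow_eq_pow_val, hj, hχc, map_one, Units.val_one, one_mul,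
    ← mul_assoc, inv_mul_cancel₀ hωne, one_mul]

theorem linear_of_commutator_ker (χ : IrrCharacter P)
    (hk : ∀ g ∈ commutator P, (χ : P → ℂ) g = (χ : P → ℂ) 1) :
    charDegree (χ : P → ℂ) = 1 := by
  haveI : Finite (Abelianization P) :=
    Finite.of_surjective (Abelianization.of (G := P)) Quotient.mk_surjective
  obtain ⟨χ', -, he, hirr⟩ := exists_deflate χ.2.isCharacter' (Abelianization.of (G := P))
    Quotient.mk_surjective fun g hg => hk g (by rwa [Abelianization.ker_of] at hg)
  have h1 : (χ : P → ℂ) 1 = 1 := by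
    rw [← he, Function.comp_apply, map_one]
    exact irr_degree_one_of_comm (fun a b => mul_comm a b) (hirr χ.2)
  rw [← charDegree_cast χ.2.isCharacter'] at h1
  exact_mod_cast h1

theorem commutator_le_center (hP : IsPGroup p P) (hcp : Nat.card (commutator P) = p) :
    commutator P ≤ Subgroup.center P := by
  haveI := hP.isNilpotent
  have hne : commutator P ≠ ⊥ := fun e => by
    rw [e, Subgroup.card_bot] at hcp; exact hp.out.one_lt.ne hcp
  have h := CfsgLib.Core.nilpotent_inf_center_ne_bot (N := commutator P) hne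
  have hdvd := Subgroup.card_dvd_of_le (inf_le_left : commutator P ⊓ Subgroup.center P ≤ _)
  rw [hcp, Nat.dvd_prime hp.out] at hdvd
  rcases hdvd with h1 | h1
  · exact absurd (Subgroup.card_eq_one.1 h1) h
  · exact inf_eq_left.1 (Subgroup.eq_of_le_of_card_ge inf_le_left (by rw [hcp, h1]))

/-- Nonlinear characters over a derived subgroup of prime order are fully ramified over the centre. -/
theorem ramified (hP : IsPGroup p P) (hcp : Nat.card (commutator P) = p) (χ : IrrCharacter P)
    (hd : charDegree (χ : P → ℂ) ≠ 1) :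
    (∀ g, g ∉ Subgroup.center P → (χ : P → ℂ) g = 0) ∧
      charDegree (χ : P → ℂ) ^ 2 * Nat.card (Subgroup.center P) = Nat.card P := by
  have hle := commutator_le_center hP hcp
  have hvan : ∀ g, g ∉ Subgroup.center P → (χ : P → ℂ) g = 0 := by
    intro g hg
    obtain ⟨h, hh⟩ : ∃ h, h * g ≠ g * h := by
      by_contra hall
      push_neg at hall
      exact hg (Subgroup.mem_center_iff.2 hall)
    set c := h * g * h⁻¹ * g⁻¹ with hc
    have hcm : c ∈ commutator P :=
      Subgroup.commutator_mem_commutator (Subgroup.mem_top h) (Subgroup.mem_top g)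
    have hc1 : c ≠ 1 := fun e => hh (by
      rw [hc, mul_inv_eq_one] at e
      calc h * g = h * g * h⁻¹ * h := by group
        _ = g * h := by rw [e])
    obtain ⟨ω, -, hω⟩ := exists_scalar χ (hle hcm)
    have h1 : (χ : P → ℂ) g = ω * (χ : P → ℂ) g := by
      have := hω 1 g
      rw [pow_one, pow_one, show c * g = h * g * h⁻¹ by rw [hc]; group,
        isCharacter_classFunction χ.2.isCharacter' g h] at this
      exact this
    by_contra hne
    have hω1 : ω = 1 := (mul_right_cancel₀ hne ((one_mul _).trans h1)).symm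
    refine hd (linear_of_commutator_ker χ fun x hx => ?_)
    have hgen : Subgroup.zpowers c = commutator P := Subgroup.eq_of_le_of_card_ge
      (Subgroup.zpowers_le.2 hcm) (by
        rw [hcp, Nat.card_zpowers]
        have : orderOf c ∣ p := hcp ▸ Subgroup.orderOf_dvd_natCard _ hcm
        rcases (Nat.dvd_prime hp.out).1 this with e | e
        · exact absurd (orderOf_eq_one_iff.1 e) hc1
        · rw [e])
    rw [← hgen] at hx
    obtain ⟨i, hi⟩ := mem_powers_iff_mem_zpowers.2 hx
    have := hω i 1
    simp only [mul_one, hω1, one_pow, one_mul] at this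
    rw [← hi]
    exact this
  refine ⟨hvan, ?_⟩
  have h := irr_inner_self χ.2
  simp only [classInner] at h
  rw [inv_mul_eq_iff_eq_mul₀ (natCard_ne_zero P), mul_one,
    Finset.sum_congr rfl (g := fun g => if g ∈ Subgroup.center P then
      ((charDegree (χ : P → ℂ) ^ 2 : ℕ) : ℂ) else 0) fun g _ => by
      split_ifs with hg
      · obtain ⟨ω, hω1, hω⟩ := exists_scalar χ hg
        have hn : ‖ω‖ = 1 := Complex.norm_eq_one_of_pow_eq_one hω1 (orderOf_pos g).ne'
        have hv : (χ : P → ℂ) g = ω * (charDegree (χ : P → ℂ) : ℂ) := by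
          rw [charDegree_cast χ.2.isCharacter']; simpa using hω 1 1
        rw [hv, map_mul, Complex.conj_natCast]
        have : ω * conj ω = 1 := by rw [Complex.mul_conj', hn]; simp
        push_cast
        linear_combination ((charDegree (χ : P → ℂ) : ℂ) ^ 2) * this
      · rw [hvan g hg, zero_mul],
    ← Finset.sum_filter, Finset.sum_const, nsmul_eq_mul, ← Fintype.card_subtype,
    ← Nat.card_eq_fintype_card, ← Nat.cast_mul, Nat.cast_inj] at h
  rw [mul_comm] at h
  exact h

theorem deg_le_index (A : Subgroup P) (hA : ∀ a ∈ A, ∀ b ∈ A, a * b = b * a) (χ : IrrCharacter P) :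
    charDegree (χ : P → ℂ) ≤ A.index := by
  obtain ⟨θ, hθ, hcon⟩ := exists_irr_under (H := A) χ.2
  have hθ1 : θ 1 = 1 :=
    irr_degree_one_of_comm (fun a b => Subtype.ext (hA a a.2 b b.2)) hθ
  by_contra hlt
  push_neg at hlt
  have hle : ((indFun A θ) 1).re ≤ ((χ : P → ℂ) 1).re := by
    rw [indFun_one_apply, hθ1, mul_one, ← charDegree_cast χ.2.isCharacter', Complex.natCast_re,
      Complex.natCast_re]
    exact_mod_cast hlt.le
  have he := eq_of_constituent_of_degree (isCharacter_indFun hθ.isCharacter') χ.2 (by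
    rw [CfsgLib.Char.frobenius _ _ (isCharacter_classFunction χ.2.isCharacter'), ← CfsgLib.Char.inner_conj_symm]
    simpa using hcon) hle
  have h1 := congrFun he 1
  rw [indFun_one_apply, hθ1, mul_one, ← charDegree_cast χ.2.isCharacter', Nat.cast_inj] at h1
  exact absurd h1 hlt.ne

/-- A centralizer has index at most the order of a subgroup containing the commutators. -/
theorem index_centralizer_le (N : Subgroup P) (z : P) (h : ∀ g : P, z * g * z⁻¹ * g⁻¹ ∈ N) :
    (Subgroup.centralizer ({z} : Set P)).index ≤ Nat.card N := by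
  have e : (ConjClasses.mk z).carrier.ncard = (Subgroup.centralizer ({z} : Set P)).index := by
    rw [← ConjAct.orbit_eq_carrier_conjClasses, ← MulAction.index_stabilizer,
      ConjAct.stabilizer_eq_centralizer]
    rfl
  rw [← e, ← Nat.card_coe_set_eq]
  refine Nat.card_le_card_of_injective (fun w : (ConjClasses.mk z).carrier =>
    (⟨z * w.1⁻¹, by
      obtain ⟨g, hg⟩ := isConj_iff.1 (ConjClasses.mk_eq_mk_iff_isConj.1
        (ConjClasses.mem_carrier_iff_mk_eq.1 w.2).symm)
      rw [← hg]
      convert h g using 1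
      group⟩ : N)) fun u v huv => ?_
  exact Subtype.ext (inv_injective (mul_left_cancel (congrArg Subtype.val huv)))

theorem card_commutator_quot (N : Subgroup P) [N.Normal] (hN : N ≤ commutator P) :
    Nat.card (commutator (P ⧸ N)) * Nat.card N = Nat.card (commutator P) := by
  have hmap : commutator (P ⧸ N) = (commutator P).map (QuotientGroup.mk' N) := by
    rw [commutator_def, commutator_def, Subgroup.map_commutator,
      Subgroup.map_top_of_surjective _ (QuotientGroup.mk'_surjective N)]
  have hc : Nat.card N = Nat.card (((QuotientGroup.mk' N).comp (commutator P).subtype).ker) := by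
    rw [← MonoidHom.comap_ker, QuotientGroup.ker_mk']
    exact (Nat.card_congr (Subgroup.subgroupOfEquivOfLe hN).toEquiv).symm
  rw [hmap, hc, show (commutator P).map (QuotientGroup.mk' N) =
    ((QuotientGroup.mk' N).comp (commutator P).subtype).range by
      rw [MonoidHom.range_comp, Subgroup.range_subtype], ← Subgroup.index_ker]
  exact Subgroup.index_mul_card _

/-- A subgroup of prime order normalised by the group is central. -/
theorem exists_central_order (hP : IsPGroup p P) (hne : commutator P ≠ ⊥) :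
    ∃ c, c ∈ commutator P ∧ c ∈ Subgroup.center P ∧ orderOf c = p := by
  haveI := hP.isNilpotent
  have h := CfsgLib.Core.nilpotent_inf_center_ne_bot (N := commutator P) hne
  obtain ⟨n, hn⟩ := (hP.to_subgroup (commutator P ⊓ Subgroup.center P)).exists_card_eq
  have hn0 : n ≠ 0 := fun e => h (Subgroup.card_eq_one.1 (by rw [hn, e, pow_zero]))
  obtain ⟨⟨c, hc⟩, hcp⟩ := exists_prime_orderOf_dvd_card'
    (G := ↥(commutator P ⊓ Subgroup.center P)) p (hn ▸ dvd_pow_self p hn0)
  exact ⟨c, hc.1, hc.2, (Subgroup.orderOf_coe ⟨c, hc⟩).trans hcp⟩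

theorem isCyclic_center (hP : IsPGroup p P) (hna : ¬ IsMulCommutative P) (h : Gal P)
    (hcp : Nat.card (commutator P) = p) : IsCyclic (Subgroup.center P) := by
  letI : CommGroup (Subgroup.center P) :=
    { (inferInstance : Group (Subgroup.center P)) with
      mul_comm := fun a b => Subtype.ext (Subgroup.mem_center_iff.1 b.2 a) }
  have h1 : Nat.card (powMonoidHom p : (Subgroup.center P) →* (Subgroup.center P)).ker ≤ p := by
    refine le_of_le_of_eq (Nat.card_le_card_of_injective (fun x => (⟨((x : (Subgroup.center P)) : P), ?_⟩ : commutator P))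
      fun x y e => ?_) hcp
    · have hx : (x : (Subgroup.center P)) ^ p = 1 := x.2
      rcases (Nat.dvd_prime hp.out).1 (orderOf_dvd_of_pow_eq_one hx) with e | e
      · rw [orderOf_eq_one_iff.1 e]; exact (commutator P).one_mem
      · exact mem_commutator_of_central h hna (x : (Subgroup.center P)).2 ((Subgroup.orderOf_coe _).trans e)
    · simp only [Subtype.ext_iff] at e ⊢
      exact e
  have hj : ∀ j, Nat.card (powMonoidHom (p ^ j) : (Subgroup.center P) →* (Subgroup.center P)).ker ≤ p ^ j := by
    intro j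
    induction j with
    | zero =>
      have : (powMonoidHom (p ^ 0) : (Subgroup.center P) →* (Subgroup.center P)).ker = ⊥ := by
        ext x; simp
      rw [this, Subgroup.card_bot, pow_zero]
    | succ j ih =>
      let K := (powMonoidHom (p ^ (j + 1)) : (Subgroup.center P) →* (Subgroup.center P)).ker
      let f : K →* (Subgroup.center P) := (powMonoidHom p).comp K.subtype
      have hr : Nat.card f.range ≤ p ^ j := by
        refine le_trans (Subgroup.card_le_of_le ?_) ih
        rintro _ ⟨x, rfl⟩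
        have hx : (x : (Subgroup.center P)) ^ (p ^ (j + 1)) = 1 := x.2
        show ((x : (Subgroup.center P)) ^ p) ^ (p ^ j) = 1
        rw [← pow_mul, ← pow_succ', hx]
      have hk : Nat.card f.ker ≤ p := by
        refine le_trans (Nat.card_le_card_of_injective
          (fun x => (⟨((x : K) : (Subgroup.center P)), x.2⟩ : (powMonoidHom p : (Subgroup.center P) →* (Subgroup.center P)).ker)) fun x y e => ?_) h1
        simp only [Subtype.ext_iff] at e ⊢
        exact e
      show Nat.card K ≤ _
      rw [← f.ker.index_mul_card, Subgroup.index_ker, pow_succ]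
      exact Nat.mul_le_mul hr hk
  refine isCyclic_of_card_pow_eq_one_le fun n hn => ?_
  obtain ⟨m, hm⟩ := (hP.to_subgroup (Subgroup.center P)).exists_card_eq
  obtain ⟨j, -, hj'⟩ := (Nat.dvd_prime_pow hp.out).1 (hm ▸ Nat.gcd_dvd_right n (Nat.card (Subgroup.center P)))
  have hle : p ^ j ≤ n := hj' ▸ Nat.gcd_le_left _ hn
  refine le_trans ?_ ((hj j).trans hle)
  rw [Nat.card_eq_fintype_card, Fintype.card_subtype]
  refine le_of_le_of_eq (Finset.card_le_card fun x hx => ?_) rfl
  simp only [Finset.mem_filter, Finset.mem_univ, true_and, MonoidHom.mem_ker,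
    powMonoidHom_apply] at hx ⊢
  rw [← hj', pow_gcd_eq_one]
  exact ⟨hx, by rw [← hm]; exact pow_card_eq_one'⟩

/-- The derived subgroup has order `p`. -/
theorem card_commutator : ∀ (n : ℕ) (P : Type u) [Group P] [Finite P], Nat.card P = n →
    IsPGroup p P → ¬ IsMulCommutative P → Gal P → Nat.card (commutator P) = p := by
  intro n
  induction n using Nat.strong_induction_on with
  | _ n ih =>
  intro P _ _ hn hP hna h
  haveI := hP.isNilpotent
  have hne : commutator P ≠ ⊥ := fun e => hna ⟨⟨fun a b => by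
    have h1 : ⁅a, b⁆ ∈ commutator P :=
      Subgroup.commutator_mem_commutator (Subgroup.mem_top a) (Subgroup.mem_top b)
    rw [e, Subgroup.mem_bot, commutatorElement_eq_one_iff_mul_comm] at h1
    exact h1⟩⟩
  by_contra hcp
  -- quotients by central subgroups of order `p` in the derived subgroup
  have hq : ∀ c : P, c ∈ commutator P → c ∈ Subgroup.center P → orderOf c = p →
      ∀ [(Subgroup.zpowers c).Normal], Nat.card (commutator (P ⧸ Subgroup.zpowers c)) = p ∧
        ¬ IsMulCommutative (P ⧸ Subgroup.zpowers c) ∧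
        Nat.card (commutator P) = p * p := by
    intro c hc _ hco _
    have hN : Subgroup.zpowers c ≤ commutator P := Subgroup.zpowers_le.2 hc
    have hNc : Nat.card (Subgroup.zpowers c) = p := by rw [Nat.card_zpowers, hco]
    have hm := card_commutator_quot _ hN
    have hna' : ¬ IsMulCommutative (P ⧸ Subgroup.zpowers c) := by
      intro hab
      refine hcp ?_
      rw [← hm, hNc]
      have : commutator (P ⧸ Subgroup.zpowers c) = ⊥ := by
        rw [commutator_def, Subgroup.commutator_eq_bot_iff_le_centralizer]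
        intro x _ y _
        exact hab.is_comm.comm y x
      rw [this, Subgroup.card_bot, one_mul]
    have hlt : Nat.card (P ⧸ Subgroup.zpowers c) < n := by
      rw [← hn, Subgroup.card_eq_card_quotient_mul_card_subgroup (Subgroup.zpowers c), hNc]
      exact lt_mul_of_one_lt_right Nat.card_pos hp.out.one_lt
    have := ih _ hlt (P ⧸ Subgroup.zpowers c) rfl (hP.to_quotient _) hna' (gal_quot h _)
    exact ⟨this, hna', by rw [← hm, this, hNc]⟩
  have hnormal : ∀ c : P, c ∈ Subgroup.center P → (Subgroup.zpowers c).Normal := fun c hc =>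
    ⟨fun x hx g => by
      have := Subgroup.zpowers_le.2 hc hx
      rw [Subgroup.mem_center_iff.1 this g, mul_inv_cancel_right]; exact hx⟩
  -- the powers of commutators lie in every such subgroup
  have hfac : ∀ (N : Subgroup P) [N.Normal], Nat.card (commutator (P ⧸ N)) = p →
      ∀ x y : P, x ^ p * y * (x ^ p)⁻¹ * y⁻¹ ∈ N := by
    intro N _ hcard x y
    have hle := commutator_le_center (hP.to_quotient N) hcard
    set a : P ⧸ N := QuotientGroup.mk x
    set b : P ⧸ N := QuotientGroup.mk y
    have hd : ⁅a, b⁆ ∈ commutator (P ⧸ N) :=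
      Subgroup.commutator_mem_commutator (Subgroup.mem_top a) (Subgroup.mem_top b)
    have hd' : ∀ i : ℕ, a ^ i * b = ⁅a, b⁆ ^ i * (b * a ^ i) := by
      intro i
      induction i with
      | zero => simp
      | succ i hi =>
        have hz : ∀ g, g * ⁅a, b⁆ = ⁅a, b⁆ * g := Subgroup.mem_center_iff.1 (hle hd)
        calc a ^ (i + 1) * b = a ^ i * (a * b) := by rw [pow_succ, mul_assoc]
          _ = a ^ i * (⁅a, b⁆ * (b * a)) := by rw [commutatorElement_def]; group
          _ = ⁅a, b⁆ * (a ^ i * b * a) := by rw [← mul_assoc, hz]; group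
          _ = _ := by rw [hi, pow_succ', pow_succ a i]; group
    rw [← QuotientGroup.eq_one_iff]
    show a ^ p * b * (a ^ p)⁻¹ * b⁻¹ = 1
    have hdp : ⁅a, b⁆ ^ p = 1 := by
      rw [← orderOf_dvd_iff_pow_eq_one, ← hcard]; exact Subgroup.orderOf_dvd_natCard _ hd
    rw [hd' p, hdp]; group
  obtain ⟨c, hcd, hcz, hco⟩ := exists_central_order hP hne
  haveI := hnormal c hcz
  obtain ⟨hq1, hqna, hq2⟩ := hq c hcd hcz hco
  -- uniqueness of the subgroup of order `p`
  have huniq : ∀ x : P, x ∈ commutator P → x ∈ Subgroup.center P → x ^ p = 1 →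
      x ∈ Subgroup.zpowers c := by
    intro x hxd hxz hxp
    by_contra hxN
    have hxo : orderOf x = p :=
      orderOf_eq_prime hxp fun e => hxN (e ▸ Subgroup.one_mem _)
    haveI := hnormal x hxz
    obtain ⟨hx1, hxna, -⟩ := hq x hxd hxz hxo
    obtain ⟨χ, hχ⟩ := exists_nonlinear hqna
    obtain ⟨ψ, hψ⟩ := exists_nonlinear hxna
    obtain ⟨-, e1⟩ := ramified (hP.to_quotient _) hq1 χ hχ
    obtain ⟨-, e2⟩ := ramified (hP.to_quotient _) hx1 ψ hψ
    -- both centres lie over the Frattini subgroup with cyclic quotient of exponent `p`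
    have hsz : ∀ (N : Subgroup P) [N.Normal], Nat.card (commutator (P ⧸ N)) = p →
        Gal (P ⧸ N) → ¬ IsMulCommutative (P ⧸ N) →
        ∀ F : Subgroup P, F = commutator P ⊔ Subgroup.closure (Set.range fun x : P => x ^ p) →
          F ≤ (Subgroup.center (P ⧸ N)).comap (QuotientGroup.mk' N) ∧
            F.relIndex ((Subgroup.center (P ⧸ N)).comap (QuotientGroup.mk' N)) ∣ p := by
      intro N _ hcard hG hna' F hF
      have hle := commutator_le_center (hP.to_quotient N) hcard
      have hFle : F ≤ (Subgroup.center (P ⧸ N)).comap (QuotientGroup.mk' N) := by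
        rw [hF]
        refine sup_le (fun g hg => hle ?_) ((Subgroup.closure_le _).2 ?_)
        · have : (commutator P).map (QuotientGroup.mk' N) ≤ commutator (P ⧸ N) := by
            rw [commutator_def, commutator_def, Subgroup.map_commutator]
            exact Subgroup.commutator_mono le_top le_top
          exact this ⟨g, hg, rfl⟩
        · rintro _ ⟨x, rfl⟩
          refine Subgroup.mem_center_iff.2 fun q => ?_
          induction q using QuotientGroup.induction_on with
          | H y =>
            have := (QuotientGroup.eq_one_iff _).2 (hfac N hcard x y)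
            simp only [QuotientGroup.mk_mul, QuotientGroup.mk_inv, mul_inv_eq_one,
              mul_inv_eq_iff_eq_mul, one_mul] at this
            exact this.symm
      refine ⟨hFle, ?_⟩
      haveI := isCyclic_center (hP.to_quotient N) hna' hG hcard
      obtain ⟨⟨q, hqz⟩, hgen⟩ := IsCyclic.exists_generator (α := Subgroup.center (P ⧸ N))
      obtain ⟨g, rfl⟩ := QuotientGroup.mk'_surjective N q
      set T := (Subgroup.center (P ⧸ N)).comap (QuotientGroup.mk' N)
      haveI : F.Normal := ⟨fun a ha b => by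
        have hca : b * a * b⁻¹ * a⁻¹ ∈ F :=
          hF ▸ Subgroup.mem_sup_left
            (Subgroup.commutator_mem_commutator (Subgroup.mem_top b) (Subgroup.mem_top a))
        simpa [mul_assoc] using F.mul_mem hca ha⟩
      have hNle : N ⊔ F = N ⊔ F := rfl
      by_cases hNF : N ≤ F
      · have hT : T.map (QuotientGroup.mk' F) ≤ Subgroup.zpowers (QuotientGroup.mk' F g) := by
          rintro _ ⟨t, ht, rfl⟩
          obtain ⟨i, hi⟩ := Subgroup.mem_zpowers_iff.1 (hgen ⟨_, ht⟩)
          have hi' : (QuotientGroup.mk' N) (g ^ i) = QuotientGroup.mk' N t := by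
            rw [map_zpow]; exact congrArg Subtype.val hi
          refine Subgroup.mem_zpowers_iff.2 ⟨i, ?_⟩
          rw [← map_zpow]
          exact QuotientGroup.eq.2 (hNF (QuotientGroup.eq.1 hi'))
        rw [Subgroup.relIndex, Subgroup.index_eq_card]
        have hcard' : Nat.card (T ⧸ F.subgroupOf T) = Nat.card (T.map (QuotientGroup.mk' F)) := by
          rw [← Subgroup.index_eq_card,
            show F.subgroupOf T = ((QuotientGroup.mk' F).comp T.subtype).ker by
              rw [← MonoidHom.comap_ker, QuotientGroup.ker_mk']; rfl,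
            Subgroup.index_ker, MonoidHom.range_comp, Subgroup.range_subtype]
        rw [hcard']
        refine dvd_trans (Subgroup.card_dvd_of_le hT) ?_
        rw [Nat.card_zpowers]
        refine orderOf_dvd_of_pow_eq_one ?_
        rw [← map_pow, QuotientGroup.mk'_apply, QuotientGroup.eq_one_iff]
        exact hF ▸ Subgroup.mem_sup_right (Subgroup.subset_closure ⟨g, rfl⟩)
      · exfalso
        refine hNF fun a ha => ?_
        have : a ∈ commutator P := by
          obtain ⟨η, hη⟩ := exists_nonlinear hna'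
          exact ker_le_commutator h (χ := ⟨(η : P ⧸ N → ℂ) ∘ QuotientGroup.mk' N,
            isIrrCharacter_comp_surjective η.2 _ (QuotientGroup.mk'_surjective N)⟩) hη (by
              show (η : P ⧸ N → ℂ) (QuotientGroup.mk a) = (η : P ⧸ N → ℂ) (QuotientGroup.mk 1)
              rw [(QuotientGroup.eq_one_iff a).2 ha, QuotientGroup.mk_one])
        exact hF ▸ Subgroup.mem_sup_left this
    obtain ⟨f1, f1'⟩ := hsz _ hq1 (gal_quot h _) hqna _ rfl
    obtain ⟨f2, f2'⟩ := hsz _ hx1 (gal_quot h _) hxna _ rfl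
    set F := commutator P ⊔ Subgroup.closure (Set.range fun x : P => x ^ p)
    have hi : ∀ (N : Subgroup P) [N.Normal],
        ((Subgroup.center (P ⧸ N)).comap (QuotientGroup.mk' N)).index * Nat.card (Subgroup.center (P ⧸ N)) =
          Nat.card (P ⧸ N) := fun N _ => by
      rw [Subgroup.index_comap_of_surjective _ (QuotientGroup.mk'_surjective N)]
      exact Subgroup.index_mul_card _
    rw [← hi] at e1 e2
    have E1 := Nat.eq_of_mul_eq_mul_right Nat.card_pos e1
    have E2 := Nat.eq_of_mul_eq_mul_right Nat.card_pos e2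
    have m1 := Subgroup.relIndex_mul_index f1
    have m2 := Subgroup.relIndex_mul_index f2
    rw [← E1] at m1
    rw [← E2] at m2
    have hdeg : charDegree (χ : P ⧸ Subgroup.zpowers c → ℂ) =
        charDegree (ψ : P ⧸ Subgroup.zpowers x → ℂ) := by
      set d := charDegree (χ : P ⧸ Subgroup.zpowers c → ℂ)
      set e := charDegree (ψ : P ⧸ Subgroup.zpowers x → ℂ)
      have key : ∀ a b : ℕ, 0 < b → a ^ 2 = p * b ^ 2 → False := fun a b hb he => by
        have ha : a ≠ 0 := fun e0 => by
          rw [e0] at he; simp [hp.out.ne_zero, hb.ne'] at he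
        have := congrArg (fun t : ℕ => t.factorization p) he
        simp [Nat.factorization_mul hp.out.ne_zero (pow_ne_zero 2 hb.ne'),
          Nat.factorization_pow, hp.out.factorization] at this
        omega
      rcases (Nat.dvd_prime hp.out).1 f1' with a1 | a1 <;>
        rcases (Nat.dvd_prime hp.out).1 f2' with a2 | a2 <;>
          rw [a1] at m1 <;> rw [a2] at m2
      · exact Nat.pow_left_injective (n := 2) (by norm_num) (by simpa using m1.trans m2.symm)
      · exact absurd (key d e (deg_pos ψ) (by rw [← one_mul (d ^ 2)]; exact m1.trans m2.symm)) id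
      · exact absurd (key e d (deg_pos χ) (by rw [← one_mul (e ^ 2)]; exact m2.trans m1.symm)) id
      · exact Nat.pow_left_injective (n := 2) (by norm_num)
          (Nat.eq_of_mul_eq_mul_left hp.out.pos (m1.trans m2.symm))
    let up : ∀ (N : Subgroup P) [N.Normal], IrrCharacter (P ⧸ N) → IrrCharacter P := fun N _ η =>
      ⟨(η : P ⧸ N → ℂ) ∘ QuotientGroup.mk' N,
        isIrrCharacter_comp_surjective η.2 _ (QuotientGroup.mk'_surjective N)⟩
    have hcx : ((up _ χ : IrrCharacter P) : P → ℂ) x = ((up _ χ : IrrCharacter P) : P → ℂ) 1 := by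
      refine ker_iff h (χ := up _ ψ) (ψ := up _ χ) hψ hdeg.symm ?_
      show (ψ : P ⧸ Subgroup.zpowers x → ℂ) (QuotientGroup.mk x) =
        (ψ : P ⧸ Subgroup.zpowers x → ℂ) (QuotientGroup.mk 1)
      rw [(QuotientGroup.eq_one_iff x).2 (Subgroup.mem_zpowers x), QuotientGroup.mk_one]
    -- so the kernel contains the whole derived subgroup
    refine hχ (linear_of_commutator_ker χ fun g hg => ?_)
    obtain ⟨k, ρ, hρ, hρc⟩ := χ.2
    rw [← hρc, char_eq_one_iff]
    have hxbar : ρ (QuotientGroup.mk x) = 1 := by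
      rw [← char_eq_one_iff, hρc]
      exact hcx
    have hgen : Subgroup.zpowers (QuotientGroup.mk x : P ⧸ Subgroup.zpowers c) =
        commutator (P ⧸ Subgroup.zpowers c) := by
      have hmem : (QuotientGroup.mk x : P ⧸ Subgroup.zpowers c) ∈
          commutator (P ⧸ Subgroup.zpowers c) := by
        have : (commutator P).map (QuotientGroup.mk' (Subgroup.zpowers c)) ≤
            commutator (P ⧸ Subgroup.zpowers c) := by
          rw [commutator_def, commutator_def, Subgroup.map_commutator]
          exact Subgroup.commutator_mono le_top le_top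
        exact this ⟨x, hxd, rfl⟩
      refine Subgroup.eq_of_le_of_card_ge (Subgroup.zpowers_le.2 hmem) ?_
      rw [hq1, Nat.card_zpowers]
      rcases (Nat.dvd_prime hp.out).1 (hq1 ▸ Subgroup.orderOf_dvd_natCard _ hmem) with e | e
      · exact absurd ((QuotientGroup.eq_one_iff x).1 (orderOf_eq_one_iff.1 e)) hxN
      · rw [e]
    rw [← hgen] at hg
    obtain ⟨i, rfl⟩ := mem_powers_iff_mem_zpowers.2 hg
    show ρ ((QuotientGroup.mk x : P ⧸ Subgroup.zpowers c) ^ i) = 1
    rw [map_pow, hxbar, one_pow]
  -- the preimage of the centre of the quotient and its centralizer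
  set N := Subgroup.zpowers c
  have hNc : Nat.card N = p := by rw [Nat.card_zpowers, hco]
  haveI := isCyclic_center (hP.to_quotient N) hqna (gal_quot h _) hq1
  obtain ⟨⟨q, hqz⟩, hgen⟩ := IsCyclic.exists_generator (α := Subgroup.center (P ⧸ N))
  obtain ⟨z, rfl⟩ := QuotientGroup.mk'_surjective N q
  set C := Subgroup.centralizer ({z} : Set P) with hC
  have hCi : C.index ≤ p := hNc ▸ index_centralizer_le N z fun g => by
    rw [← QuotientGroup.eq_one_iff]
    simp only [QuotientGroup.mk_mul, QuotientGroup.mk_inv]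
    have := Subgroup.mem_center_iff.1 hqz (QuotientGroup.mk g)
    rw [QuotientGroup.mk'_apply] at this
    rw [← this]; group
  -- elements over the centre of the quotient commute with the centralizer
  have hCT : ∀ t : P, (QuotientGroup.mk t : P ⧸ N) ∈ Subgroup.center (P ⧸ N) → ∀ y ∈ C,
      y * t = t * y := by
    intro t ht y hy
    obtain ⟨i, hi⟩ := Subgroup.mem_zpowers_iff.1 (hgen ⟨_, ht⟩)
    have hi' : (QuotientGroup.mk (z ^ i) : P ⧸ N) = QuotientGroup.mk t := by
      rw [QuotientGroup.mk_zpow]; exact congrArg Subtype.val hi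
    have hy' : Commute y z := Subgroup.mem_centralizer_singleton_iff.1 hy
    have hcm : (z ^ i)⁻¹ * t ∈ Subgroup.center P :=
      Subgroup.zpowers_le.2 hcz (QuotientGroup.eq.1 hi')
    have h1 : Commute y (z ^ i) := hy'.zpow_right i
    calc y * t = y * (z ^ i * ((z ^ i)⁻¹ * t)) := by group
      _ = z ^ i * (((z ^ i)⁻¹ * t) * y) := by
        rw [← mul_assoc, h1.eq, mul_assoc, Subgroup.mem_center_iff.1 hcm y]
      _ = t * y := by group
  have hTd : ∀ g ∈ commutator P, (QuotientGroup.mk g : P ⧸ N) ∈ Subgroup.center (P ⧸ N) := by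
    intro g hg
    refine commutator_le_center (hP.to_quotient N) hq1 ?_
    have : (commutator P).map (QuotientGroup.mk' N) ≤ commutator (P ⧸ N) := by
      rw [commutator_def, commutator_def, Subgroup.map_commutator]
      exact Subgroup.commutator_mono le_top le_top
    exact this ⟨g, hg, rfl⟩
  have hCn : ∀ g : P, ∀ y ∈ C, g * y * g⁻¹ ∈ C := by
    intro g y hy
    have hd : g * y * g⁻¹ * y⁻¹ ∈ commutator P :=
      Subgroup.commutator_mem_commutator (Subgroup.mem_top g) (Subgroup.mem_top y)
    have hdz : g * y * g⁻¹ * y⁻¹ ∈ C := Subgroup.mem_centralizer_singleton_iff.2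
      (hCT _ (hTd _ hd) z (Subgroup.mem_centralizer_singleton_iff.2 rfl)).symm
    simpa [mul_assoc] using C.mul_mem hdz hy
  have hCC : ∀ x ∈ C, ∀ y ∈ C, ⁅x, y⁆ ∈ N := by
    intro x hx y hy
    have hd : ⁅x, y⁆ ∈ commutator P :=
      Subgroup.commutator_mem_commutator (Subgroup.mem_top x) (Subgroup.mem_top y)
    have hdC : ∀ w ∈ C, w * ⁅x, y⁆ = ⁅x, y⁆ * w := hCT _ (hTd _ hd)
    have hcen : ⁅x, y⁆ ∈ Subgroup.center P := by
      refine Subgroup.mem_center_iff.2 fun g => ?_
      have e1 : ∀ w ∈ C, ∀ v ∈ C, v * (g * w * g⁻¹ * w⁻¹) = g * w * g⁻¹ * w⁻¹ * v := fun w _ =>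
        hCT _ (hTd _ (Subgroup.commutator_mem_commutator (Subgroup.mem_top g) (Subgroup.mem_top w)))
      obtain ⟨u, hu⟩ : ∃ u, u = g * x * g⁻¹ * x⁻¹ := ⟨_, rfl⟩
      obtain ⟨v, hv⟩ : ∃ v, v = g * y * g⁻¹ * y⁻¹ := ⟨_, rfl⟩
      have hux : g * x * g⁻¹ = u * x := by rw [hu]; group
      have hvy : g * y * g⁻¹ = v * y := by rw [hv]; group
      have huC : u ∈ C := by rw [hu]; exact C.mul_mem (hCn g x hx) (C.inv_mem hx)
      have hvC : v ∈ C := by rw [hv]; exact C.mul_mem (hCn g y hy) (C.inv_mem hy)
      have cu : ∀ w ∈ C, w * u = u * w := hu ▸ e1 x hx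
      have cv : ∀ w ∈ C, w * v = v * w := hv ▸ e1 y hy
      have key : g * ⁅x, y⁆ * g⁻¹ = ⁅x, y⁆ := by
        calc g * ⁅x, y⁆ * g⁻¹ = ⁅g * x * g⁻¹, g * y * g⁻¹⁆ := by
              simp only [commutatorElement_def]; group
          _ = u * x * v * y * x⁻¹ * u⁻¹ * y⁻¹ * v⁻¹ := by
              rw [hux, hvy, commutatorElement_def]; group
          _ = v * (u * x * y * x⁻¹ * u⁻¹ * y⁻¹) * v⁻¹ := by
              rw [cv (u * x) (C.mul_mem huC hx)]; group
          _ = v * (x * y * x⁻¹ * y⁻¹) * v⁻¹ := by
              rw [show u * x * y * x⁻¹ * u⁻¹ * y⁻¹ = (u * (x * y * x⁻¹)) * u⁻¹ * y⁻¹ by group,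
                ← cu _ (C.mul_mem (C.mul_mem hx hy) (C.inv_mem hx))]
              group
          _ = ⁅x, y⁆ := by
              rw [← commutatorElement_def, hdC v hvC, mul_inv_cancel_right]
      calc g * ⁅x, y⁆ = g * ⁅x, y⁆ * g⁻¹ * g := by group
        _ = ⁅x, y⁆ * g := by rw [key]
    refine huniq _ hd hcen ?_
    have hxp : (QuotientGroup.mk (x ^ p) : P ⧸ N) ∈ Subgroup.center (P ⧸ N) := by
      refine Subgroup.mem_center_iff.2 fun q => ?_
      induction q using QuotientGroup.induction_on with
      | H w =>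
        have := (QuotientGroup.eq_one_iff _).2 (hfac N hq1 x w)
        simp only [QuotientGroup.mk_mul, QuotientGroup.mk_inv, mul_inv_eq_one,
          mul_inv_eq_iff_eq_mul, one_mul] at this
        exact this.symm
    have hcomm := hCT _ hxp y hy
    have hpow : ∀ i : ℕ, x ^ i * y = ⁅x, y⁆ ^ i * (y * x ^ i) := by
      intro i
      induction i with
      | zero => simp
      | succ i hi =>
        calc x ^ (i + 1) * y = x ^ i * (x * y) := by rw [pow_succ, mul_assoc]
          _ = x ^ i * (⁅x, y⁆ * (y * x)) := by rw [commutatorElement_def]; group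
          _ = ⁅x, y⁆ * (x ^ i * y * x) := by
            rw [← mul_assoc, Subgroup.mem_center_iff.1 hcen]; group
          _ = _ := by rw [hi, pow_succ', pow_succ x i]; group
    have hh := hpow p
    rw [← hcomm] at hh
    exact mul_right_cancel (hh.symm.trans (one_mul _).symm)
  haveI : C.Normal := ⟨fun y hy g => hCn g y hy⟩
  -- the nonlinear characters of the quotient and of the group all have degree `p`
  set Cb := C.map (QuotientGroup.mk' N) with hCb
  have hCbab : ∀ a ∈ Cb, ∀ b ∈ Cb, a * b = b * a := by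
    rintro _ ⟨a, ha, rfl⟩ _ ⟨b, hb, rfl⟩
    rw [← commutatorElement_eq_one_iff_mul_comm, ← map_commutatorElement, QuotientGroup.mk'_apply,
      QuotientGroup.eq_one_iff]
    exact hCC a ha b hb
  have hCbi : Cb.index ≤ p := (Nat.le_of_dvd (Nat.pos_of_ne_zero Subgroup.index_ne_zero_of_finite)
    (Subgroup.index_map_dvd _ (QuotientGroup.mk'_surjective N))).trans hCi
  obtain ⟨η, hη⟩ := exists_nonlinear hqna
  have hdp : charDegree (η : P ⧸ N → ℂ) = p := by
    have hle := (deg_le_index Cb hCbab η).trans hCbi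
    obtain ⟨m, hm⟩ := IsPGroup.iff_card.1 (hP.to_quotient N)
    obtain ⟨j, -, hj⟩ := (Nat.dvd_prime_pow hp.out).1 (hm ▸ charDegree_dvd_card η)
    rcases j with _ | _ | j
    · exact absurd (hj.trans (pow_zero p)) hη
    · rw [hj, zero_add, pow_one]
    · exfalso
      rw [hj] at hle
      have : p ^ 1 < p ^ (j + 1 + 1) := Nat.pow_lt_pow_right hp.out.one_lt (by omega)
      rw [pow_one] at this
      omega
  obtain ⟨-, hram⟩ := ramified (hP.to_quotient N) hq1 η hη
  rw [hdp] at hram
  -- a character with trivial kernel on `N`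
  obtain ⟨ψ, hψ⟩ : ∃ ψ : IrrCharacter P, (ψ : P → ℂ) c ≠ (ψ : P → ℂ) 1 := by
    by_contra hall
    push_neg at hall
    have := isConj_one_left.1 ((isConj_iff_irr_eq c 1).2 hall)
    exact hp.out.one_lt.ne (hco.symm.trans (orderOf_eq_one_iff.2 (by
      first
        | exact this
        | exact this.symm)) ).symm
  have hψ1 : charDegree (ψ : P → ℂ) ≠ 1 := by
    intro e
    obtain ⟨f, hf⟩ := exists_hom_of_degree_one ψ.2.isCharacter' (deg_one e)
    exact hψ (by
      rw [hf]
      show (f c : ℂ) = (f 1 : ℂ)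
      rw [MonoidHom.mem_ker.1 (Abelianization.commutator_subset_ker f hcd), map_one])
  -- its degree is at most `p` as well
  have hψp : charDegree (ψ : P → ℂ) ≤ p := by
    -- a subgroup of index at most p ^ 3 inside the centre bounds the square of the degree
    have hZ : (Subgroup.center P).index ≤ p ^ 3 := by
      set T := (Subgroup.center (P ⧸ N)).comap (QuotientGroup.mk' N)
      have hTi : T.index = p ^ 2 := by
        rw [Subgroup.index_comap_of_surjective _ (QuotientGroup.mk'_surjective N)]
        have h1 := Subgroup.index_mul_card (Subgroup.center (P ⧸ N))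
        rw [← hram] at h1
        exact Nat.eq_of_mul_eq_mul_right Nat.card_pos h1
      have hTle : Subgroup.center P ≤ T := fun a ha => Subgroup.mem_center_iff.2 fun q => by
        induction q using QuotientGroup.induction_on with
        | H w =>
          show (QuotientGroup.mk w : P ⧸ N) * QuotientGroup.mk a = _
          rw [← QuotientGroup.mk_mul, Subgroup.mem_center_iff.1 ha w]; rfl
      rw [← Subgroup.relIndex_mul_index hTle, hTi, pow_succ' p 2]
      refine Nat.mul_le_mul_right _ ?_
      -- the quotient of `T` by the centre is cyclic of exponent `p`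
      rw [Subgroup.relIndex, Subgroup.index_eq_card]
      haveI : ((Subgroup.center P).subgroupOf T).Normal := inferInstance
      have hzT : z ∈ T := hqz
      refine Nat.le_of_dvd hp.out.pos (dvd_trans ?_ (show orderOf
        (QuotientGroup.mk (⟨z, hzT⟩ : T) : T ⧸ (Subgroup.center P).subgroupOf T) ∣ p from ?_))
      · rw [← Nat.card_zpowers]
        refine dvd_of_eq (Nat.card_congr (Equiv.subtypeUnivEquiv fun q => ?_)).symm
        induction q using QuotientGroup.induction_on with
        | H t =>
          obtain ⟨i, hi⟩ := Subgroup.mem_zpowers_iff.1 (hgen ⟨_, t.2⟩)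
          refine Subgroup.mem_zpowers_iff.2 ⟨i, ?_⟩
          rw [← QuotientGroup.mk_zpow]
          refine QuotientGroup.eq.2 (Subgroup.mem_subgroupOf.2 ?_)
          simp only [Subgroup.coe_mul, InvMemClass.coe_inv, SubgroupClass.coe_zpow]
          have hi' : (QuotientGroup.mk (z ^ i) : P ⧸ N) = QuotientGroup.mk (t : P) := by
            rw [QuotientGroup.mk_zpow]; exact congrArg Subtype.val hi
          exact Subgroup.zpowers_le.2 hcz (QuotientGroup.eq.1 hi')
      · refine orderOf_dvd_of_pow_eq_one ?_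
        rw [← QuotientGroup.mk_pow, QuotientGroup.eq_one_iff, Subgroup.mem_subgroupOf]
        show z ^ p ∈ Subgroup.center P
        refine Subgroup.mem_center_iff.2 fun g => ?_
        obtain ⟨u, hu⟩ : ∃ u, u = z * g * z⁻¹ * g⁻¹ := ⟨_, rfl⟩
        have huN : u ∈ N := by
          rw [hu, ← QuotientGroup.eq_one_iff]
          simp only [QuotientGroup.mk_mul, QuotientGroup.mk_inv]
          have := Subgroup.mem_center_iff.1 hqz (QuotientGroup.mk g)
          rw [QuotientGroup.mk'_apply] at this
          rw [← this]; group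
        have huz := Subgroup.zpowers_le.2 hcz huN
        have hup : u ^ p = 1 := by
          rw [← orderOf_dvd_iff_pow_eq_one, ← hNc]; exact Subgroup.orderOf_dvd_natCard _ huN
        have hpow : ∀ i : ℕ, z ^ i * g = u ^ i * (g * z ^ i) := by
          intro i
          induction i with
          | zero => simp
          | succ i hi =>
            calc z ^ (i + 1) * g = z ^ i * (z * g) := by rw [pow_succ, mul_assoc]
              _ = z ^ i * (u * (g * z)) := by rw [hu]; group
              _ = u * (z ^ i * g * z) := by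
                rw [← mul_assoc, Subgroup.mem_center_iff.1 huz]; group
              _ = _ := by rw [hi, pow_succ', pow_succ z i]; group
        rw [hpow p, hup, one_mul]
    have hsq : charDegree (ψ : P → ℂ) ^ 2 * Nat.card (Subgroup.center P) ≤ Nat.card P := by
      have h := irr_inner_self ψ.2
      simp only [classInner] at h
      rw [inv_mul_eq_iff_eq_mul₀ (natCard_ne_zero P), mul_one] at h
      have hre := congrArg Complex.re h
      rw [Complex.re_sum, Complex.natCast_re] at hre
      have hle : ∑ g ∈ Finset.univ.filter (fun g => g ∈ Subgroup.center P),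
          (((ψ : P → ℂ) g * conj ((ψ : P → ℂ) g)).re) ≤ (Nat.card P : ℝ) := by
        rw [← hre]
        refine Finset.sum_le_sum_of_subset_of_nonneg (Finset.subset_univ _) fun g _ _ => ?_
        rw [Complex.mul_conj, Complex.ofReal_re]; exact Complex.normSq_nonneg _
      rw [Finset.sum_congr rfl (g := fun _ => ((charDegree (ψ : P → ℂ) : ℝ) ^ 2)) fun g hg => by
        obtain ⟨ω, hω1, hω⟩ := exists_scalar ψ (Finset.mem_filter.1 hg).2
        have hn : ‖ω‖ = 1 := Complex.norm_eq_one_of_pow_eq_one hω1 (orderOf_pos g).ne'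
        have hv : (ψ : P → ℂ) g = ω * (charDegree (ψ : P → ℂ) : ℂ) := by
          rw [charDegree_cast ψ.2.isCharacter']; simpa using hω 1 1
        rw [hv, Complex.mul_conj, Complex.ofReal_re, map_mul, Complex.normSq_natCast,
          Complex.normSq_eq_norm_sq, hn]
        ring, Finset.sum_const, nsmul_eq_mul, ← Fintype.card_subtype,
        ← Nat.card_eq_fintype_card] at hle
      rw [mul_comm]
      exact_mod_cast hle
    by_contra hlt
    push_neg at hlt
    obtain ⟨m, hm⟩ := IsPGroup.iff_card.1 hP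
    obtain ⟨j, -, hj⟩ := (Nat.dvd_prime_pow hp.out).1 (hm ▸ charDegree_dvd_card ψ)
    have hj2 : 2 ≤ j := by
      by_contra hj2
      have : p ^ j ≤ p ^ 1 := Nat.pow_le_pow_right hp.out.pos (by omega)
      rw [pow_one, ← hj] at this
      omega
    have h4 : p ^ 4 ≤ charDegree (ψ : P → ℂ) ^ 2 := by
      rw [hj, ← pow_mul]; exact Nat.pow_le_pow_right hp.out.pos (by omega)
    have h3 : p ^ 3 < p ^ 4 := Nat.pow_lt_pow_right hp.out.one_lt (by norm_num)
    have := (Nat.mul_le_mul_right (Nat.card (Subgroup.center P)) h4).trans hsq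
    rw [← (Subgroup.center P).index_mul_card] at this
    have := Nat.le_of_mul_le_mul_right this Nat.card_pos
    omega
  have hψe : charDegree (ψ : P → ℂ) = p := by
    obtain ⟨m, hm⟩ := IsPGroup.iff_card.1 hP
    obtain ⟨j, -, hj⟩ := (Nat.dvd_prime_pow hp.out).1 (hm ▸ charDegree_dvd_card ψ)
    rcases j with _ | _ | j
    · exact absurd (hj.trans (pow_zero p)) hψ1
    · rw [hj, zero_add, pow_one]
    · exfalso
      rw [hj] at hψp
      have : p ^ 1 < p ^ (j + 1 + 1) := Nat.pow_lt_pow_right hp.out.one_lt (by omega)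
      rw [pow_one] at this
      omega
  refine hψ (ker_iff h (χ := ⟨(η : P ⧸ N → ℂ) ∘ QuotientGroup.mk' N,
    isIrrCharacter_comp_surjective η.2 _ (QuotientGroup.mk'_surjective N)⟩)
    (show charDegree (η : P ⧸ N → ℂ) ≠ 1 from hη) (hdp.trans hψe.symm) ?_)
  show (η : P ⧸ N → ℂ) (QuotientGroup.mk c) = (η : P ⧸ N → ℂ) (QuotientGroup.mk 1)
  rw [(QuotientGroup.eq_one_iff c).2 (Subgroup.mem_zpowers c), QuotientGroup.mk_one]

/-- The converse. -/
theorem gal_of_cyclic (hP : IsPGroup p P) [IsCyclic (Subgroup.center P)]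
    (hcp : Nat.card (commutator P) = p) : Gal P := by
  intro χ ψ hχ hd
  have hψ : charDegree (ψ : P → ℂ) ≠ 1 := hd ▸ hχ
  have hle := commutator_le_center hP hcp
  obtain ⟨⟨z, hz⟩, hgen⟩ := IsCyclic.exists_generator (α := Subgroup.center P)
  have hpg : ∀ x ∈ Subgroup.center P, ∃ i : ℕ, z ^ i = x := fun x hx => by
    obtain ⟨i, hi⟩ := mem_powers_iff_mem_zpowers.2 (hgen ⟨x, hx⟩)
    exact ⟨i, congrArg Subtype.val hi⟩
  -- the central characters are faithful
  have hfaith : ∀ η : IrrCharacter P, charDegree (η : P → ℂ) ≠ 1 →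
      ∀ ω : ℂ, (∀ (i : ℕ) (g : P), (η : P → ℂ) (z ^ i * g) = ω ^ i * (η : P → ℂ) g) →
        orderOf ω = orderOf z := by
    intro η hη ω hω
    have h1 : ω ^ orderOf z = 1 := by
      have h := hω (orderOf z) 1
      rw [pow_orderOf_eq_one, one_mul] at h
      exact mul_right_cancel₀ (irr_one_ne_zero η) (h.symm.trans (one_mul _).symm)
    refine Nat.dvd_antisymm (orderOf_dvd_of_pow_eq_one h1) ?_
    by_contra hndvd
    -- otherwise the derived subgroup lies in the kernel
    obtain ⟨m, hm⟩ := hP.exists_card_eq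
    obtain ⟨a, -, ha⟩ := (Nat.dvd_prime_pow hp.out).1 (hm ▸ orderOf_dvd_natCard z)
    obtain ⟨b, hb0, hb⟩ := (Nat.dvd_prime_pow hp.out).1 (ha ▸ orderOf_dvd_of_pow_eq_one h1)
    have hba : b < a := by
      rcases lt_or_eq_of_le hb0 with h | h
      · exact h
      · exact absurd (by rw [ha, hb, h]) hndvd
    have hco : orderOf (z ^ p ^ (a - 1)) = p := by
      rw [orderOf_pow' _ (pow_ne_zero _ hp.out.ne_zero), ha,
        Nat.gcd_eq_right (pow_dvd_pow p (Nat.sub_le a 1)), Nat.pow_div (Nat.sub_le a 1) hp.out.pos,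
        show a - (a - 1) = 1 by omega, pow_one]
    refine hη (linear_of_commutator_ker η fun x hx => ?_)
    obtain ⟨i, rfl⟩ := hpg x (hle hx)
    have hxp : (z ^ i) ^ p = 1 := by
      rw [← orderOf_dvd_iff_pow_eq_one, ← hcp]; exact Subgroup.orderOf_dvd_natCard _ hx
    have hdvd : p ^ (a - 1) ∣ i := by
      rw [← pow_mul, ← orderOf_dvd_iff_pow_eq_one, ha, show a = a - 1 + 1 by omega, pow_succ] at hxp
      exact Nat.dvd_of_mul_dvd_mul_right hp.out.pos hxp
    obtain ⟨t, rfl⟩ := hdvd
    have := hω (p ^ (a - 1) * t) 1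
    rw [mul_one] at this
    rw [this, pow_mul ω, (orderOf_dvd_iff_pow_eq_one.1 (by rw [hb]; exact pow_dvd_pow p (by omega)) : ω ^ p ^ (a - 1) = 1), one_pow,
      one_mul]
  obtain ⟨ω, -, hω⟩ := exists_scalar χ hz
  obtain ⟨θ, -, hθ⟩ := exists_scalar ψ hz
  have o1 := hfaith χ hχ ω hω
  have o2 := hfaith ψ hψ θ hθ
  haveI : NeZero (orderOf z) := ⟨(orderOf_pos z).ne'⟩
  have p1 : IsPrimitiveRoot ω (orderOf z) := o1 ▸ IsPrimitiveRoot.orderOf ω
  have p2 : IsPrimitiveRoot θ (orderOf z) := o2 ▸ IsPrimitiveRoot.orderOf θ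
  obtain ⟨k, -, hkc, hk⟩ := (p1.isPrimitiveRoot_iff (k := orderOf z)).1 p2
  -- the exponent is prime to the order of the group
  have hpz : p ∣ orderOf z := by
    obtain ⟨c, hc, hcc, hco⟩ := exists_central_order hP (fun e => by
      rw [e, Subgroup.card_bot] at hcp; exact hp.out.one_lt.ne hcp)
    obtain ⟨i, hi⟩ := hpg c hcc
    rw [← hco, ← hi]
    exact orderOf_pow_dvd i
  obtain ⟨m, hm⟩ := IsPGroup.iff_card.1 hP
  have hkP : k.Coprime (Nat.card P) := by
    rw [hm]
    exact Nat.Coprime.pow_right m (hkc.coprime_dvd_right hpz)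
  refine ⟨k, hkP, fun g => ?_⟩
  by_cases hg : g ∈ Subgroup.center P
  · obtain ⟨i, rfl⟩ := hpg g hg
    have e1 := hθ i 1
    have e2 := hω (i * k) 1
    rw [mul_one] at e1 e2
    rw [← pow_mul z, e1, e2, ← charDegree_cast χ.2.isCharacter', ← charDegree_cast ψ.2.isCharacter',
      hd, ← hk, ← pow_mul, mul_comm k i]
  · have hgk : g ^ k ∉ Subgroup.center P := by
      intro hgk
      refine hg ?_
      obtain ⟨t, ht⟩ := exists_pow_eq_self_of_coprime
        (hkP.coprime_dvd_right (orderOf_dvd_natCard g))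
      rw [← ht]
      exact pow_mem hgk t
    rw [(ramified hP hcp ψ hψ).1 g hg, (ramified hP hcp χ hχ).1 _ hgk]

end CfsgLib.GalDeg
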