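import Mathlib

/-!
# Moore's presentation of the alternating group
-/

set_option autoImplicit false
set_option linter.unusedSectionVars false
set_option linter.style.haveILetI false

namespace CfsgLib.Moore

section Bound

variable {H : Type*} [Group H]

/-- The descending word `x t * x (t-1) * ... * x (t-d+1)`. -/
def word (x : ℕ → H) (t : ℕ) : ℕ → H
  | 0 => 1
  | d + 1 => word x t d * x (t - d)

/-- Moore's relations for the first `M` generators. -/
structure Rels (x : ℕ → H) (M : ℕ) : Prop where
  cube : x 0 ^ 3 = 1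
  invol : ∀ i, 1 ≤ i → i < M → x i * x i = 1
  braid : ∀ i, i + 1 < M → (x i * x (i + 1)) ^ 3 = 1
  far : ∀ i j, i + 1 < j → j < M → (x i * x j) ^ 2 = 1

variable {x : ℕ → H} {M : ℕ}

theorem Rels.comm (h : Rels x M) {i j : ℕ} (hi : 1 ≤ i) (hij : i + 1 < j) (hj : j < M) :
    x j * x i = x i * x j := by
  have h2 := h.far i j hij hj
  rw [sq] at h2
  rw [eq_inv_of_mul_eq_one_left h2, mul_inv_rev, inv_eq_of_mul_eq_one_right (h.invol i hi (by omega)),
    inv_eq_of_mul_eq_one_right (h.invol j (by omega) hj)]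

theorem Rels.zero_far (h : Rels x M) {j : ℕ} (hij : 1 < j) (hj : j < M) :
    x 0 * x j = x j * (x 0)⁻¹ ∧ x j * x 0 = (x 0)⁻¹ * x j := by
  have h2 := h.far 0 j (by omega) hj
  rw [sq] at h2
  have hjj := inv_eq_of_mul_eq_one_right (h.invol j (by omega) hj)
  refine ⟨?_, ?_⟩
  · rw [eq_inv_of_mul_eq_one_left h2, mul_inv_rev, hjj]
  · have h3 : x j * (x 0 * x j * x 0) = 1 := by
      calc x j * (x 0 * x j * x 0) = x j * ((x 0 * x j) * (x 0 * x j)) * (x j)⁻¹ := by group
        _ = 1 := by rw [h2, mul_one, mul_inv_cancel]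
    rw [mul_eq_one_iff_inv_eq, hjj] at h3
    calc x j * x 0 = (x 0)⁻¹ * (x 0 * x j * x 0) := by group
      _ = (x 0)⁻¹ * x j := by rw [← h3]

variable (x) in
/-- The subgroup generated by the first `m` generators. -/
def gens (m : ℕ) : Subgroup H := Subgroup.closure (x '' {i | i < m})

theorem mem_gens {m i : ℕ} (hi : i < m) : x i ∈ gens x m := Subgroup.subset_closure ⟨i, hi, rfl⟩

/-- Letters far below the word are pushed to the left into the smaller subgroup. -/
theorem word_push (h : Rels x M) {t : ℕ} (htM : t < M) :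
    ∀ d i, i + d < t → word x t d * x i * (word x t d)⁻¹ ∈ gens x t
  | 0, i, hid => by
    rw [word, one_mul, inv_one, mul_one]
    exact mem_gens (by omega)
  | d + 1, i, hid => by
    have ih := word_push h htM d i (by omega)
    rw [word]
    rcases Nat.eq_zero_or_pos i with rfl | hi
    · have e := (h.zero_far (j := t - d) (by omega) (by omega)).2
      have := inv_mem ih
      convert this using 1
      calc word x t d * x (t - d) * x 0 * (word x t d * x (t - d))⁻¹
          = word x t d * (x (t - d) * x 0) * (x (t - d))⁻¹ * (word x t d)⁻¹ := by group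
        _ = _ := by rw [e]; group
    · have e := h.comm (j := t - d) hi (by omega) (by omega)
      convert ih using 1
      calc word x t d * x (t - d) * x i * (word x t d * x (t - d))⁻¹
          = word x t d * (x (t - d) * x i) * (x (t - d))⁻¹ * (word x t d)⁻¹ := by group
        _ = _ := by rw [e]; group

/-- Letters strictly inside the word are pushed to the left as well. -/
theorem word_inside (h : Rels x M) {t : ℕ} (htM : t < M) :
    ∀ d j, d ≤ t → j ≤ t → t + 1 < j + d → word x t d * x j * (word x t d)⁻¹ ∈ gens x t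
  | 0, j, _, _, hjd => by omega
  | d + 1, j, hdt, hjt, hjd => by
    rw [word]
    by_cases hd : t + 1 < j + d
    · have ih := word_inside h htM d j (by omega) hjt hd
      have e := h.comm (i := t - d) (j := j) (by omega) (by omega) (by omega)
      convert ih using 1
      calc word x t d * x (t - d) * x j * (word x t d * x (t - d))⁻¹
          = word x t d * (x (t - d) * x j) * (x (t - d))⁻¹ * (word x t d)⁻¹ := by group
        _ = _ := by rw [← e]; group
    · obtain ⟨d', rfl⟩ : ∃ d', d = d' + 1 := ⟨d - 1, by omega⟩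
      obtain ⟨i, hi⟩ : ∃ i, i = t - (d' + 1) := ⟨_, rfl⟩
      have hij : t - d' = i + 1 := by omega
      have hj : j = i + 1 := by omega
      have p := word_push h htM d' i (by omega)
      rw [← hi, word, hij, hj]
      have h3 := h.braid i (by omega)
      have hii := inv_eq_of_mul_eq_one_right (h.invol i (by omega) (by omega))
      have hjj := inv_eq_of_mul_eq_one_right (h.invol (i + 1) (by omega) (by omega))
      have e : x (i + 1) * x i * x (i + 1) = x i * x (i + 1) * x i := by
        have : x (i + 1) * x i * x (i + 1) * (x i * x (i + 1) * x i)⁻¹ = 1 := by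
          rw [mul_inv_rev, mul_inv_rev, hii, hjj]
          calc x (i + 1) * x i * x (i + 1) * (x i * (x (i + 1) * x i))
              = (x i)⁻¹ * (x i * x (i + 1) * (x i * x (i + 1)) * (x i * x (i + 1))) * x i := by group
            _ = 1 := by rw [← pow_three', h3, mul_one, inv_mul_cancel]
        exact mul_inv_eq_one.mp this
      convert p using 1
      calc word x t d' * x (i + 1) * x i * x (i + 1) * (word x t d' * x (i + 1) * x i)⁻¹
          = word x t d' * (x (i + 1) * x i * x (i + 1)) * (word x t d' * x (i + 1) * x i)⁻¹ := by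
            group
        _ = _ := by rw [e]; group

theorem gens_card (h : Rels x M) :
    ∀ m, 1 ≤ m → m ≤ M → Finite (gens x m) ∧ 2 * Nat.card (gens x m) ≤ Nat.factorial (m + 2) := by
  intro m
  induction m with
  | zero => omega
  | succ t ih =>
    intro _ htM
    have hx3 : x 0 * x 0 * x 0 = 1 := by rw [← h.cube, pow_succ, sq]
    have hx0i : (x 0)⁻¹ = x 0 * x 0 := inv_eq_of_mul_eq_one_right (by rw [← mul_assoc, hx3])
    rcases Nat.eq_zero_or_pos t with rfl | ht
    · have hz : gens x 1 = Subgroup.zpowers (x 0) := by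
        rw [gens, Subgroup.zpowers_eq_closure]
        congr 1
        ext y
        simp [eq_comm]
      have hfo : IsOfFinOrder (x 0) := isOfFinOrder_iff_pow_eq_one.mpr ⟨3, by norm_num, h.cube⟩
      rw [hz]
      refine ⟨hfo.finite_zpowers, ?_⟩
      rw [Nat.card_zpowers]
      have := Nat.le_of_dvd (by norm_num) (orderOf_dvd_of_pow_eq_one h.cube)
      rw [show Nat.factorial (0 + 1 + 2) = 6 from rfl]
      omega
    obtain ⟨hfin, hcard⟩ := ih ht (by omega)
    set K := gens x t with hK
    let rep : Fin (t + 3) → H := fun r =>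
      if (r : ℕ) ≤ t + 1 then word x t r else word x t (t + 1) * x 0
    obtain ⟨S, hS⟩ : ∃ S : Set H, S = {y | ∃ k ∈ K, ∃ r, y = k * rep r} := ⟨_, rfl⟩
    have hmk : ∀ k ∈ K, ∀ d, d ≤ t + 1 → k * word x t d ∈ S := fun k hk d hd => by
      rw [hS]
      exact ⟨k, hk, ⟨d, by omega⟩, by simp [rep, hd]⟩
    have hmkb : ∀ k ∈ K, k * (word x t (t + 1) * x 0) ∈ S := fun k hk => by
      rw [hS]
      exact ⟨k, hk, ⟨t + 2, by omega⟩, by simp [rep]⟩
    have hA : word x t (t + 1) = word x t t * x 0 := by rw [word, Nat.sub_self]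
    have hinside : ∀ j, 2 ≤ j → j ≤ t → ∃ k ∈ K,
        word x t (t + 1) * x j = k * (word x t (t + 1) * x 0) := by
      intro j hj2 hjt
      refine ⟨_, word_inside h (show t < M by omega) t j le_rfl hjt (by omega), ?_⟩
      rw [hA]
      calc word x t t * x 0 * x j = word x t t * (x j * (x 0)⁻¹) := by
            rw [mul_assoc, (h.zero_far (j := j) (by omega) (by omega)).1]
        _ = _ := by rw [hx0i]; group
    have hone : ∃ k ∈ K, word x t (t + 1) * x 1 = k * (word x t (t + 1) * x 0) := by
      refine ⟨_, inv_mem (word_push h (show t < M by omega) (t - 1) 0 (by omega)), ?_⟩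
      have e1 : word x t t = word x t (t - 1) * x 1 := by
        obtain ⟨t', rfl⟩ : ∃ t', t = t' + 1 := ⟨t - 1, by omega⟩
        rw [word, show t' + 1 - t' = 1 by omega, Nat.add_sub_cancel]
      have h3 := h.braid 0 (by omega)
      have h11 := inv_eq_of_mul_eq_one_right (h.invol 1 le_rfl (by omega))
      have e : x 1 * x 0 * x 1 = (x 0)⁻¹ * x 1 * (x 0 * x 0) := by
        calc x 1 * x 0 * x 1
            = (x 0)⁻¹ * (x 0 * x 1 * (x 0 * x 1) * (x 0 * x 1)) * (x 1)⁻¹ * (x 0)⁻¹ := by group
          _ = _ := by rw [← pow_three', h3, mul_one, h11, hx0i]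
      rw [hA, e1]
      calc word x t (t - 1) * x 1 * x 0 * x 1
          = word x t (t - 1) * (x 1 * x 0 * x 1) := by group
        _ = _ := by rw [e]; group
    have hstep : ∀ y ∈ S, ∀ j, j ≤ t → y * x j ∈ S := by
      intro y hy j hjt
      rw [hS] at hy
      obtain ⟨k, hk, ⟨r, hr⟩, rfl⟩ := hy
      by_cases hrt : r ≤ t
      · rw [show rep ⟨r, hr⟩ = word x t r from if_pos (by simp; omega)]
        by_cases h1 : j + r < t
        · rw [show k * word x t r * x j =
            k * (word x t r * x j * (word x t r)⁻¹) * word x t r by group]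
          exact hmk _ (K.mul_mem hk (word_push h (show t < M by omega) r j h1)) r (by omega)
        by_cases h2 : j + r = t
        · rw [mul_assoc, show j = t - r by omega, ← word]
          exact hmk k hk _ (by omega)
        by_cases h3 : j + r = t + 1
        · obtain ⟨r', rfl⟩ : ∃ r', r = r' + 1 := ⟨r - 1, by omega⟩
          rw [word, show t - r' = j by omega, mul_assoc, mul_assoc,
            h.invol j (by omega) (by omega), mul_one]
          exact hmk k hk _ (by omega)
        · rw [show k * word x t r * x j =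
            k * (word x t r * x j * (word x t r)⁻¹) * word x t r by group]
          exact hmk _ (K.mul_mem hk
            (word_inside h (show t < M by omega) r j hrt hjt (by omega))) r (by omega)
      by_cases hra : r = t + 1
      · subst hra
        rw [show rep ⟨t + 1, hr⟩ = word x t (t + 1) from if_pos (by simp)]
        match j with
        | 0 => rw [mul_assoc]; exact hmkb k hk
        | 1 =>
          obtain ⟨c, hc, e⟩ := hone
          rw [mul_assoc, e, ← mul_assoc]
          exact hmkb _ (K.mul_mem hk hc)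
        | j + 2 =>
          obtain ⟨c, hc, e⟩ := hinside (j + 2) (by omega) hjt
          rw [mul_assoc, e, ← mul_assoc]
          exact hmkb _ (K.mul_mem hk hc)
      · rw [show rep ⟨r, hr⟩ = word x t (t + 1) * x 0 from if_neg (by simp; omega)]
        match j with
        | 0 =>
          rw [hA, mul_assoc k, mul_assoc (word x t t * x 0), mul_assoc (word x t t),
            show x 0 * (x 0 * x 0) = 1 by rw [← mul_assoc, hx3], mul_one]
          exact hmk k hk _ (by omega)
        | 1 =>
          obtain ⟨c, hc, e⟩ := hone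
          have e' : word x t (t + 1) * x 0 = c⁻¹ * (word x t (t + 1) * x 1) := by
            rw [e, inv_mul_cancel_left]
          rw [e', mul_assoc k, mul_assoc c⁻¹, mul_assoc (word x t (t + 1)),
            h.invol 1 le_rfl (by omega), mul_one, ← mul_assoc]
          exact hmk _ (K.mul_mem hk (K.inv_mem hc)) _ le_rfl
        | j + 2 =>
          obtain ⟨c, hc, e⟩ := hinside (j + 2) (by omega) hjt
          have e' : word x t (t + 1) * x 0 = c⁻¹ * (word x t (t + 1) * x (j + 2)) := by
            rw [e, inv_mul_cancel_left]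
          rw [e', mul_assoc k, mul_assoc c⁻¹, mul_assoc (word x t (t + 1)),
            h.invol (j + 2) (by omega) (by omega), mul_one, ← mul_assoc]
          exact hmk _ (K.mul_mem hk (K.inv_mem hc)) _ le_rfl
    have hsub : ∀ y ∈ gens x (t + 1), y ∈ S := by
      intro y hy
      induction hy using Subgroup.closure_induction_right with
      | one => exact one_mul (1 : H) ▸ hmk 1 K.one_mem 0 (by omega)
      | mul_right y _ z hz ihy =>
        obtain ⟨j, hj, rfl⟩ := hz
        exact hstep y ihy j (Nat.le_of_lt_succ hj)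
      | mul_inv_cancel y _ z hz ihy =>
        obtain ⟨j, hj, rfl⟩ := hz
        have hj' : j ≤ t := Nat.le_of_lt_succ hj
        rcases Nat.eq_zero_or_pos j with rfl | hj0
        · rw [hx0i, ← mul_assoc]
          exact hstep _ (hstep y ihy 0 hj') 0 hj'
        · rw [inv_eq_of_mul_eq_one_right (h.invol j hj0 (by omega))]
          exact hstep y ihy j hj'
    have hcov : ∀ y : gens x (t + 1), ∃ q : K × Fin (t + 3), (y : H) = q.1 * rep q.2 := by
      intro y
      have := hsub y y.2
      rw [hS] at this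
      obtain ⟨k, hk, r, hr⟩ := this
      exact ⟨(⟨k, hk⟩, r), hr⟩
    choose q hq using hcov
    have hqi : Function.Injective q := fun a b e => Subtype.ext (by rw [hq a, hq b, e])
    refine ⟨Finite.of_injective q hqi, ?_⟩
    have hle := Nat.card_le_card_of_injective q hqi
    rw [Nat.card_prod, Nat.card_fin] at hle
    rw [show t + 1 + 2 = (t + 2) + 1 by omega, Nat.factorial_succ]
    calc 2 * Nat.card (gens x (t + 1)) ≤ 2 * (Nat.card K * (t + 3)) := Nat.mul_le_mul_left _ hle
      _ = (t + 2 + 1) * (2 * Nat.card K) := by ring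
      _ ≤ _ := Nat.mul_le_mul_left _ hcard

end Bound

section Alternating

variable {N : ℕ}

/-- The images of Moore's generators in the symmetric group on `N + 2` points. -/
def mperm (i : Fin N) : Equiv.Perm (Fin (N + 2)) :=
  if (i : ℕ) = 0 then Equiv.swap 0 1 * Equiv.swap 1 ⟨2, by have := i.isLt; omega⟩
  else Equiv.swap 0 1 * Equiv.swap ⟨i + 1, by omega⟩ ⟨i + 2, by omega⟩

theorem mperm_even (i : Fin N) : mperm i ∈ alternatingGroup (Fin (N + 2)) := by
  rw [Equiv.Perm.mem_alternatingGroup, mperm]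
  split_ifs with h
  · rw [Equiv.Perm.sign_mul, Equiv.Perm.sign_swap Fin.zero_ne_one,
      Equiv.Perm.sign_swap (by simp [Fin.ext_iff])]
    rfl
  · rw [Equiv.Perm.sign_mul, Equiv.Perm.sign_swap Fin.zero_ne_one,
      Equiv.Perm.sign_swap (by simp [Fin.ext_iff])]
    rfl

/-- The images in the alternating group. -/
def malt (i : Fin N) : alternatingGroup (Fin (N + 2)) := ⟨mperm i, mperm_even i⟩

theorem swap_disjoint {α : Type*} [DecidableEq α] {a b c d : α} (h1 : a ≠ c) (h2 : a ≠ d)
    (h3 : b ≠ c) (h4 : b ≠ d) : Commute (Equiv.swap a b) (Equiv.swap c d) := by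
  show Equiv.swap a b * Equiv.swap c d = Equiv.swap c d * Equiv.swap a b
  rw [Equiv.mul_swap_eq_swap_mul, Equiv.swap_apply_of_ne_of_ne h1.symm h3.symm,
    Equiv.swap_apply_of_ne_of_ne h2.symm h4.symm]

theorem three_cycle_cube {α : Type*} [DecidableEq α] [Fintype α] {a b c : α} (h1 : a ≠ b)
    (h2 : a ≠ c) (h3 : b ≠ c) : (Equiv.swap a b * Equiv.swap a c) ^ 3 = 1 := by
  have h := (Equiv.Perm.isThreeCycle_swap_mul_swap_same h1 h2 h3).orderOf
  conv_lhs => rw [← h]
  exact pow_orderOf_eq_one _

theorem mperm_cube (i : Fin N) (h : (i : ℕ) = 0) : mperm i ^ 3 = 1 := by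
  rw [mperm, if_pos h, Equiv.swap_comm 0 1]
  exact three_cycle_cube (by simp [Fin.ext_iff]) (by simp [Fin.ext_iff]) (by simp [Fin.ext_iff])

theorem mperm_sq (i : Fin N) (h : 1 ≤ (i : ℕ)) : mperm i ^ 2 = 1 := by
  rw [mperm, if_neg (by omega), (swap_disjoint ?_ ?_ ?_ ?_).mul_pow, sq, sq, Equiv.swap_mul_self,
    Equiv.swap_mul_self, one_mul] <;> simp [Fin.ext_iff] <;> omega

theorem mperm_zero_mul {j : Fin N} (i : Fin N) (hi : (i : ℕ) = 0) (hj : 1 ≤ (j : ℕ)) :
    mperm i * mperm j =
      Equiv.swap 0 ⟨2, by have := j.isLt; omega⟩ * Equiv.swap ⟨j + 1, by omega⟩ ⟨j + 2, by omega⟩ := by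
  rw [mperm, mperm, if_pos hi, if_neg (by omega : ¬(j : ℕ) = 0), ← mul_assoc,
    Equiv.mul_swap_eq_swap_mul (Equiv.swap (0 : Fin (N + 2)) 1) 1, Equiv.swap_apply_right,
    Equiv.swap_apply_of_ne_of_ne (by simp [Fin.ext_iff]) (by simp [Fin.ext_iff]),
    mul_assoc (Equiv.swap 0 _), Equiv.swap_mul_self, mul_one]

theorem mperm_pos_mul {i j : Fin N} (hi : 1 ≤ (i : ℕ)) (hj : 1 ≤ (j : ℕ)) :
    mperm i * mperm j = Equiv.swap ⟨i + 1, by omega⟩ ⟨i + 2, by omega⟩ *
      Equiv.swap ⟨j + 1, by omega⟩ ⟨j + 2, by omega⟩ := by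
  rw [mperm, mperm, if_neg (by omega : ¬(i : ℕ) = 0), if_neg (by omega : ¬(j : ℕ) = 0),
    (swap_disjoint (a := (0 : Fin (N + 2))) (b := 1) ?_ ?_ ?_ ?_).eq, mul_assoc,
    ← mul_assoc (Equiv.swap 0 1), Equiv.swap_mul_self, one_mul] <;> simp [Fin.ext_iff] <;> omega

theorem mperm_braid (i j : Fin N) (h : (j : ℕ) = i + 1) : (mperm i * mperm j) ^ 3 = 1 := by
  rcases Nat.eq_zero_or_pos (i : ℕ) with hi | hi
  · rw [mperm_zero_mul i hi (by omega), show (⟨(j : ℕ) + 1, by omega⟩ : Fin (N + 2)) = ⟨2, by have := j.isLt; omega⟩ from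
      Fin.ext (by simp; omega), Equiv.swap_comm 0]
    exact three_cycle_cube (by simp [Fin.ext_iff]) (by simp [Fin.ext_iff]; omega)
      (by simp [Fin.ext_iff])
  · rw [mperm_pos_mul hi (by omega), show (⟨(j : ℕ) + 1, by omega⟩ : Fin (N + 2)) =
      ⟨(i : ℕ) + 2, by omega⟩ from Fin.ext (by simp; omega), Equiv.swap_comm (⟨(i : ℕ) + 1, by omega⟩ : Fin (N + 2))]
    exact three_cycle_cube (by simp [Fin.ext_iff]) (by simp [Fin.ext_iff]; omega)
      (by simp [Fin.ext_iff]; omega)

theorem mperm_far (i j : Fin N) (h : (i : ℕ) + 1 < j) : (mperm i * mperm j) ^ 2 = 1 := by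
  rcases Nat.eq_zero_or_pos (i : ℕ) with hi | hi
  · rw [mperm_zero_mul i hi (by omega), (swap_disjoint ?_ ?_ ?_ ?_).mul_pow, sq, sq,
      Equiv.swap_mul_self, Equiv.swap_mul_self, one_mul] <;> simp [Fin.ext_iff] <;> omega
  · rw [mperm_pos_mul hi (by omega), (swap_disjoint ?_ ?_ ?_ ?_).mul_pow, sq, sq,
      Equiv.swap_mul_self, Equiv.swap_mul_self, one_mul] <;> simp [Fin.ext_iff] <;> omega

theorem closure_malt (hN : 1 ≤ N) :
    Subgroup.closure (Set.range (malt (N := N))) = (⊤ : Subgroup (alternatingGroup (Fin (N + 2)))) := by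
  set K := Subgroup.closure (Set.range (mperm (N := N))) with hK
  set s : Equiv.Perm (Fin (N + 2)) := Equiv.swap 0 1 with hs
  have hss : s * s = 1 := Equiv.swap_mul_self _ _
  have hsi : s⁻¹ = s := Equiv.swap_inv _ _
  have hgK : ∀ i, mperm i ∈ K := fun i => Subgroup.subset_closure ⟨i, rfl⟩
  -- every adjacent swap lies in `K ∪ K * s`
  have hKn : ∀ k ∈ K, s * k * s ∈ K := by
    intro k hk
    rw [hK] at hk
    induction hk using Subgroup.closure_induction with
    | mem y hy =>
      obtain ⟨i, rfl⟩ := hy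
      rcases Nat.eq_zero_or_pos (i : ℕ) with hi | hi
      · have h := K.inv_mem (hgK i)
        rw [mperm, if_pos hi, mul_inv_rev, Equiv.swap_inv, Equiv.swap_inv] at h
        rwa [mperm, if_pos hi, hs, ← mul_assoc, Equiv.swap_mul_self, one_mul]
      · have h := hgK i
        rw [mperm, if_neg (by omega : ¬(i : ℕ) = 0)] at h ⊢
        rw [← hs] at h ⊢
        rwa [← mul_assoc, hss, one_mul, ← (swap_disjoint (a := (0 : Fin (N + 2))) (b := 1) ?_ ?_ ?_ ?_).eq]
        all_goals simp [Fin.ext_iff] <;> omega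
    | one => rw [mul_one, hss]; exact one_mem _
    | mul a b _ _ ha hb =>
      have := mul_mem ha hb
      rwa [show s * a * s * (s * b * s) = s * a * (s * s) * b * s by group, hss, mul_one,
        mul_assoc s a b] at this
    | inv a _ ha =>
      have := inv_mem ha
      rwa [mul_inv_rev, mul_inv_rev, hsi, ← mul_assoc] at this
  let T : Subgroup (Equiv.Perm (Fin (N + 2))) :=
    { carrier := {g | g ∈ K ∨ g * s ∈ K}
      one_mem' := Or.inl K.one_mem
      mul_mem' := fun {g h} hg hh => by
        rcases hg with hg | hg <;> rcases hh with hh | hh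
        · exact Or.inl (K.mul_mem hg hh)
        · exact Or.inr (by rw [mul_assoc]; exact K.mul_mem hg hh)
        · refine Or.inr ?_
          have := K.mul_mem hg (hKn h hh)
          rwa [show g * s * (s * h * s) = g * (s * s) * h * s by group, hss, mul_one] at this
        · refine Or.inl ?_
          have := K.mul_mem hg (hKn _ hh)
          rwa [show g * s * (s * (h * s) * s) = g * (s * s) * h * (s * s) by group, hss, mul_one,
            mul_one] at this
      inv_mem' := fun {g} hg => by
        rcases hg with hg | hg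
        · exact Or.inl (K.inv_mem hg)
        · refine Or.inr ?_
          have := hKn _ (K.inv_mem hg)
          rwa [mul_inv_rev, hsi, ← mul_assoc, hss, one_mul] at this }
  have hadj : ∀ i : Fin (N + 1), Equiv.swap i.castSucc i.succ ∈ T := by
    intro i
    rcases Nat.eq_zero_or_pos (i : ℕ) with hi | hi
    · refine Or.inr ?_
      rw [show i = 0 from Fin.ext hi, Fin.castSucc_zero, Fin.succ_zero_eq_one, ← hs, hss]
      exact K.one_mem
    · refine Or.inr ?_
      by_cases h1 : (i : ℕ) = 1
      · have h := K.inv_mem (hgK ⟨0, hN⟩)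
        rw [mperm, if_pos rfl, mul_inv_rev, Equiv.swap_inv, ← hs, hsi] at h
        convert h using 3 <;> exact Fin.ext (by simp [h1])
      · have h := K.inv_mem (hgK ⟨(i : ℕ) - 1, by omega⟩)
        rw [mperm, if_neg (show ¬((⟨(i : ℕ) - 1, _⟩ : Fin N) : ℕ) = 0 by simp; omega), mul_inv_rev,
          Equiv.swap_inv, ← hs, hsi] at h
        convert h using 3 <;> exact Fin.ext (by simp; omega)
  have hT : ∀ g, g ∈ T := by
    intro g
    have h : g ∈ Submonoid.closure (Set.range fun i : Fin (N + 1) => Equiv.swap i.castSucc i.succ) := by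
      rw [Equiv.Perm.mclosure_swap_castSucc_succ]
      exact Submonoid.mem_top g
    have hle : Submonoid.closure (Set.range fun i : Fin (N + 1) => Equiv.swap i.castSucc i.succ) ≤
        T.toSubmonoid := Submonoid.closure_le.mpr (by rintro _ ⟨i, rfl⟩; exact hadj i)
    exact hle h
  have hKmap : K = (Subgroup.closure (Set.range (malt (N := N)))).map
      (alternatingGroup (Fin (N + 2))).subtype := by
    rw [hK, MonoidHom.map_closure, ← Set.range_comp]
    rfl
  rw [eq_top_iff]
  intro g _
  rcases hT (g : Equiv.Perm (Fin (N + 2))) with h | h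
  · rw [hKmap] at h
    obtain ⟨y, hy, hyg⟩ := h
    rwa [← Subtype.ext hyg]
  · exfalso
    rw [hKmap] at h
    obtain ⟨y, -, hyg⟩ := h
    have h1 := Equiv.Perm.mem_alternatingGroup.mp y.2
    change (y : Equiv.Perm (Fin (N + 2))) = _ at hyg
    rw [hyg, Equiv.Perm.sign_mul, Equiv.Perm.mem_alternatingGroup.mp g.2, one_mul, hs,
      Equiv.Perm.sign_swap Fin.zero_ne_one] at h1
    exact absurd h1 (by decide)

theorem presentation (n : ℕ) (hn : 3 ≤ n) :
    Nonempty (PresentedGroup
      ({g : FreeGroup (Fin (n - 2)) | ∃ i : Fin (n - 2), i.val = 0 ∧ g = FreeGroup.of i ^ 3} ∪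
       {g | ∃ i : Fin (n - 2), 1 ≤ i.val ∧ g = FreeGroup.of i ^ 2} ∪
       {g | ∃ i j : Fin (n - 2), j.val = i.val + 1 ∧ g = (FreeGroup.of i * FreeGroup.of j) ^ 3} ∪
       {g | ∃ i j : Fin (n - 2), i.val + 1 < j.val ∧ g = (FreeGroup.of i * FreeGroup.of j) ^ 2})
      ≃* alternatingGroup (Fin n)) := by
  obtain ⟨N, rfl⟩ : ∃ N, n = N + 2 := ⟨n - 2, by omega⟩
  rw [show N + 2 - 2 = N by omega]
  set rels : Set (FreeGroup (Fin N)) := ({g | ∃ i : Fin N, i.val = 0 ∧ g = FreeGroup.of i ^ 3} ∪
      {g | ∃ i : Fin N, 1 ≤ i.val ∧ g = FreeGroup.of i ^ 2} ∪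
      {g | ∃ i j : Fin N, j.val = i.val + 1 ∧ g = (FreeGroup.of i * FreeGroup.of j) ^ 3} ∪
      {g | ∃ i j : Fin N, i.val + 1 < j.val ∧ g = (FreeGroup.of i * FreeGroup.of j) ^ 2}) with hrels
  have hf : ∀ r ∈ rels, FreeGroup.lift (malt (N := N)) r = 1 := by
    rintro r (((⟨i, hi, rfl⟩ | ⟨i, hi, rfl⟩) | ⟨i, j, hij, rfl⟩) | ⟨i, j, hij, rfl⟩) <;>
      refine Subtype.ext ?_
    · rw [map_pow, FreeGroup.lift_apply_of]; exact mperm_cube i hi
    · rw [map_pow, FreeGroup.lift_apply_of]; exact mperm_sq i hi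
    · rw [map_pow, map_mul, FreeGroup.lift_apply_of, FreeGroup.lift_apply_of]
      exact mperm_braid i j hij
    · rw [map_pow, map_mul, FreeGroup.lift_apply_of, FreeGroup.lift_apply_of]
      exact mperm_far i j hij
  let φ := PresentedGroup.toGroup hf
  have hsurj : Function.Surjective φ := by
    intro g
    have h : Subgroup.closure (Set.range (malt (N := N))) ≤ φ.range := by
      rw [Subgroup.closure_le]
      rintro _ ⟨i, rfl⟩
      exact ⟨PresentedGroup.of i, PresentedGroup.toGroup.of hf⟩
    exact h (by rw [closure_malt (by omega)]; exact Subgroup.mem_top g)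
  let X : ℕ → PresentedGroup rels := fun i => if h : i < N then PresentedGroup.of ⟨i, h⟩ else 1
  have hof : ∀ (i : ℕ) (h : i < N), X i = PresentedGroup.mk rels (FreeGroup.of ⟨i, h⟩) :=
    fun i h => dif_pos h
  have hR : Rels X N := by
    refine ⟨?_, fun i h1 h2 => ?_, fun i h2 => ?_, fun i j h1 h2 => ?_⟩
    · rw [hof 0 (by omega), ← map_pow]
      exact PresentedGroup.one_of_mem (Or.inl (Or.inl (Or.inl ⟨_, rfl, rfl⟩)))
    · rw [hof i h2, ← sq, ← map_pow]
      exact PresentedGroup.one_of_mem (Or.inl (Or.inl (Or.inr ⟨_, h1, rfl⟩)))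
    · rw [hof i (by omega), hof (i + 1) h2, ← map_mul, ← map_pow]
      exact PresentedGroup.one_of_mem (Or.inl (Or.inr ⟨_, _, rfl, rfl⟩))
    · rw [hof i (by omega), hof j h2, ← map_mul, ← map_pow]
      exact PresentedGroup.one_of_mem (Or.inr ⟨_, _, h1, rfl⟩)
  obtain ⟨hfin, hcard⟩ := gens_card hR N (by omega) le_rfl
  have htop : gens X N = ⊤ := by
    rw [eq_top_iff, ← PresentedGroup.closure_range_of rels, Subgroup.closure_le]
    rintro _ ⟨i, rfl⟩
    exact Subgroup.subset_closure ⟨i.1, i.2, by rw [hof i.1 i.2]; rfl⟩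
  rw [htop, Subgroup.card_top] at hcard
  haveI : Finite (PresentedGroup rels) := by
    rw [htop] at hfin
    exact Finite.of_equiv _ Subgroup.topEquiv.toEquiv
  haveI : Nontrivial (Fin (N + 2)) := ⟨⟨0, 1, Fin.zero_ne_one⟩⟩
  have hA : 2 * Nat.card (alternatingGroup (Fin (N + 2))) = Nat.factorial (N + 2) := by
    rw [Nat.card_eq_fintype_card, two_mul_card_alternatingGroup, Fintype.card_perm, Fintype.card_fin]
  exact ⟨MulEquiv.ofBijective φ (hsurj.bijective_of_nat_card_le (by omega))⟩

end Alternating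

end CfsgLib.Moore
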