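import Cfsg.Agent.Lib.CharGallagher
import Cfsg.Agent.Lib.CharMisc

/-!
# Characters over an invariant character of a normal subgroup with abelian factor
-/

set_option autoImplicit false
set_option linter.style.haveILetI false
set_option linter.unusedSectionVars false

namespace CfsgLib.Char

open Cfsg
open scoped ComplexConjugate

universe u

variable {G : Type u} [Group G]

/-- An invariant constituent is the only one. -/
theorem restrict_invariant [Fintype G] {N : Subgroup G} [hN : N.Normal] [Fintype N] {χ : G → ℂ}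
    (hχ : IsIrrCharacter G χ) {ϑ : N → ℂ} (hϑ : IsIrrCharacter N ϑ)
    (hinv : ∀ (g : G) (n : N), ϑ ⟨g * n * g⁻¹, hN.conj_mem (n : G) n.2 g⟩ = ϑ n)
    (hcon : classInner (fun n : N => χ n) ϑ ≠ 0) :
    (fun n : N => χ n) = classInner (fun n : N => χ n) ϑ • ϑ := by
  have horb : conjOrbit (G := G) ϑ = {ϑ} := by
    refine Finset.eq_singleton_iff_unique_mem.mpr ⟨self_mem_conjOrbit ϑ, fun φ hφ => ?_⟩
    obtain ⟨g, rfl⟩ := mem_conjOrbit.mp hφ
    exact funext fun n => hinv g n
  have h := clifford hχ hϑ hcon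
  rwa [horb, Finset.sum_singleton] at h

theorem inner_indFun_invariant [Fintype G] {N : Subgroup G} [hN : N.Normal] [Fintype N] {ϑ : N → ℂ}
    (hϑ : IsIrrCharacter N ϑ)
    (hinv : ∀ (g : G) (n : N), ϑ ⟨g * n * g⁻¹, hN.conj_mem (n : G) n.2 g⟩ = ϑ n) :
    classInner (indFun N ϑ) (indFun N ϑ) = (N.index : ℂ) := by
  refine mul_left_cancel₀ (natCard_ne_zero N) ?_
  rw [inner_indFun_normal_self hϑ, show inertia ϑ = ⊤ from eq_top_iff.mpr fun g _ =>
    mem_inertia.mpr (funext fun n => hinv g n), Subgroup.card_top, ← Nat.cast_mul, mul_comm,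
    N.index_mul_card]

/-- The restriction norm and vanishing. -/
theorem norm_restrict_eq_index_iff [Fintype G] (N : Subgroup G) [Fintype N] {χ : G → ℂ}
    (hχ : IsIrrCharacter G χ) :
    classInner (fun n : N => χ n) (fun n : N => χ n) = (N.index : ℂ) ↔
      ∀ g : G, g ∉ N → χ g = 0 := by
  classical
  have htot := irr_inner_self hχ
  rw [inner_self_eq_norm_sq, Complex.ofReal_eq_one,
    inv_mul_eq_one₀ (by exact_mod_cast Nat.card_pos.ne')] at htot
  rw [← Finset.sum_filter_add_sum_filter_not Finset.univ (fun g : G => g ∈ N),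
    Finset.sum_subtype (p := fun g => g ∈ N) _ (by simp) (fun g => ‖χ g‖ ^ 2)] at htot
  have hN0 : (Nat.card N : ℝ) ≠ 0 := by exact_mod_cast Nat.card_pos.ne'
  have hG : (Nat.card G : ℝ) = (N.index : ℝ) * Nat.card N := by exact_mod_cast N.index_mul_card.symm
  rw [inner_self_eq_norm_sq, ← Complex.ofReal_natCast N.index, Complex.ofReal_inj,
    inv_mul_eq_iff_eq_mul₀ hN0, mul_comm (Nat.card N : ℝ), ← hG]
  constructor
  · intro h g hg
    have h0 : ∑ x ∈ Finset.univ.filter (fun x : G => ¬ x ∈ N), ‖χ x‖ ^ 2 = 0 := by linarith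
    have := (Finset.sum_eq_zero_iff_of_nonneg fun x _ => sq_nonneg _).mp h0 g
      (Finset.mem_filter.mpr ⟨Finset.mem_univ _, hg⟩)
    simpa using this
  · intro h
    have h0 : ∑ x ∈ Finset.univ.filter (fun x : G => ¬ x ∈ N), ‖χ x‖ ^ 2 = 0 :=
      Finset.sum_eq_zero fun x hx => by simp [h x (Finset.mem_filter.mp hx).2]
    linarith

/-- Fully ramified characters. -/
theorem fully_ramified_iff [Fintype G] (N : Subgroup G) [hN : N.Normal] [Fintype N] {χ : G → ℂ}
    (hχ : IsIrrCharacter G χ) {ϑ : N → ℂ} (hϑ : IsIrrCharacter N ϑ)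
    (hcon : classInner (fun n : N => χ n) ϑ ≠ 0) :
    ((∃ e : ℕ, (fun n : N => χ n) = (e : ℂ) • ϑ ∧ e ^ 2 = N.index) ↔
      ((∀ g : G, g ∉ N → χ g = 0) ∧
        ∀ (g : G) (n : N), ϑ ⟨g * n * g⁻¹, hN.conj_mem (n : G) n.2 g⟩ = ϑ n)) ∧
    ((∃ e : ℕ, (fun n : N => χ n) = (e : ℂ) • ϑ ∧ e ^ 2 = N.index) ↔
      (∀ (g : G) (n : N), ϑ ⟨g * n * g⁻¹, hN.conj_mem (n : G) n.2 g⟩ = ϑ n ∧
        ∀ ψ : G → ℂ, IsIrrCharacter G ψ → classInner (indFun N ϑ) ψ ≠ 0 → ψ = χ)) := by
  classical
  obtain ⟨m, hm⟩ := inner_character_nat (isCharacter_restrict hχ.isCharacter' N) hϑ.isCharacter'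
  have hinv : ∀ e : ℕ, (fun n : N => χ n) = (e : ℂ) • ϑ → e ^ 2 = N.index →
      ∀ (g : G) (n : N), ϑ ⟨g * n * g⁻¹, hN.conj_mem (n : G) n.2 g⟩ = ϑ n := by
    intro e he he2 g n
    have h1 := congrFun (classFunction_restrict_conjFn (H := N)
      (isCharacter_classFunction hχ.isCharacter') g) n
    simp only [conjFn] at h1
    have ha := congrFun he n
    have hb := congrFun he ⟨g * n * g⁻¹, hN.conj_mem (n : G) n.2 g⟩
    simp only [Pi.smul_apply, smul_eq_mul] at ha hb
    rw [ha] at h1
    rw [h1] at hb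
    refine (mul_left_cancel₀ ?_ hb).symm
    exact_mod_cast fun h0 : e = 0 => Subgroup.index_ne_zero_of_finite (H := N)
      (by rw [← he2, h0]; rfl)
  have hem : ∀ e : ℕ, (fun n : N => χ n) = (e : ℂ) • ϑ → e = m := fun e he => by
    rw [he, inner_smul_left, irr_inner_self hϑ, mul_one] at hm
    exact_mod_cast hm
  have hres : (∀ (g : G) (n : N), ϑ ⟨g * n * g⁻¹, hN.conj_mem (n : G) n.2 g⟩ = ϑ n) →
      (fun n : N => χ n) = (m : ℂ) • ϑ := fun h => by
    conv_lhs => rw [restrict_invariant hχ hϑ h hcon, hm]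
  have hnorm : (fun n : N => χ n) = (m : ℂ) • ϑ →
      classInner (fun n : N => χ n) (fun n : N => χ n) = ((m ^ 2 : ℕ) : ℂ) := fun h => by
    rw [h, inner_smul_left, inner_smul_right, irr_inner_self hϑ, Complex.conj_natCast]
    push_cast; ring
  have hiχ : classInner (indFun N ϑ) χ = (m : ℂ) := by
    rw [frobenius _ _ (isCharacter_classFunction hχ.isCharacter'), ← inner_conj_symm, hm,
      Complex.conj_natCast]
  have hPc := isCharacter_indFun (G := G) hϑ.isCharacter'
  choose c hc using fun ξ : IrrCharacter G => inner_character_nat hPc ξ.2.isCharacter'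
  have hsq : (∀ (g : G) (n : N), ϑ ⟨g * n * g⁻¹, hN.conj_mem (n : G) n.2 g⟩ = ϑ n) →
      ∑ ξ : IrrCharacter G, c ξ ^ 2 = N.index := fun h => by
    have h1 := inner_indFun_invariant hϑ h
    rw [inner_eq_sum_coeff _ _ (isCharacter_classFunction hPc)] at h1
    simp only [hc, Complex.conj_natCast] at h1
    have h2 : ((∑ ξ : IrrCharacter G, c ξ ^ 2 : ℕ) : ℂ) = (N.index : ℂ) := by
      rw [← h1]; push_cast; exact Finset.sum_congr rfl fun ξ _ => sq _
    exact_mod_cast h2
  have hcχ : c ⟨χ, hχ⟩ = m := by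
    have h1 := (hc ⟨χ, hχ⟩).symm.trans hiχ
    exact_mod_cast h1
  refine ⟨⟨fun ⟨e, he, he2⟩ => ?_, fun ⟨hvan, hi⟩ => ?_⟩, ⟨fun ⟨e, he, he2⟩ g n => ?_, fun h => ?_⟩⟩
  · refine ⟨(norm_restrict_eq_index_iff N hχ).mp ?_, hinv e he he2⟩
    obtain rfl := hem e he
    rw [hnorm he, he2]
  · refine ⟨m, hres hi, ?_⟩
    have h1 := (norm_restrict_eq_index_iff N hχ).mpr hvan
    rw [hnorm (hres hi)] at h1
    exact_mod_cast h1
  · refine ⟨hinv e he he2 g n, fun ψ hψ hne => ?_⟩
    obtain rfl := hem e he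
    by_contra hd
    have hs := hsq (hinv e he he2)
    rw [← Finset.add_sum_erase _ _ (Finset.mem_univ (⟨χ, hχ⟩ : IrrCharacter G)), hcχ, he2] at hs
    have h0 : c ⟨ψ, hψ⟩ ^ 2 = 0 := Finset.sum_eq_zero_iff.mp
      (show ∑ ξ ∈ Finset.univ.erase (⟨χ, hχ⟩ : IrrCharacter G), c ξ ^ 2 = 0 by omega) _
      (Finset.mem_erase.mpr ⟨fun h => hd (congrArg Subtype.val h), Finset.mem_univ _⟩)
    exact hne (by rw [hc ⟨ψ, hψ⟩, pow_eq_zero_iff two_ne_zero |>.mp h0, Nat.cast_zero])
  · have hi : ∀ (g : G) (n : N), ϑ ⟨g * n * g⁻¹, hN.conj_mem (n : G) n.2 g⟩ = ϑ n := fun g n =>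
      (h g n).1
    refine ⟨m, hres hi, ?_⟩
    rw [← hsq hi, Finset.sum_eq_single (⟨χ, hχ⟩ : IrrCharacter G) (fun ξ _ hξ => ?_)
      (fun h => absurd (Finset.mem_univ _) h), hcχ]
    by_contra hne
    exact hξ (Subtype.ext ((h 1 1).2 ξ ξ.2 (by
      rw [hc]; exact_mod_cast fun h0 : c ξ = 0 => hne (by rw [h0]; rfl))))

/-- A family of characters whose weighted sum has the least possible norm is orthonormal. -/
theorem orthonormal_of_norm_sum [Fintype G] {ι : Type*} [Fintype ι] [DecidableEq ι] (f : ι → G → ℂ)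
    (hf : ∀ i, IsCharacter G (f i)) (hne : ∀ i, f i 1 ≠ 0) (e : ι → ℕ) (he : ∀ i, e i ≠ 0)
    (h : classInner (∑ i, (e i : ℂ) • f i) (∑ i, (e i : ℂ) • f i) = ((∑ i, e i ^ 2 : ℕ) : ℂ)) :
    ∀ i j, classInner (f i) (f j) = if i = j then 1 else 0 := by
  choose m hm using fun p : ι × ι => inner_character_nat (hf p.1) (hf p.2)
  have h2 : ∑ p : ι × ι, e p.1 * e p.2 * m p =
      ∑ p : ι × ι, e p.1 * e p.2 * (if p.1 = p.2 then 1 else 0) := by
    rw [Fintype.sum_prod_type, Fintype.sum_prod_type]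
    simp only [mul_ite, mul_one, mul_zero, Finset.sum_ite_eq, Finset.mem_univ, if_true, ← sq]
    apply Nat.cast_injective (R := ℂ)
    rw [← h]
    push_cast
    rw [inner_sum_left]
    refine Finset.sum_congr rfl fun a _ => ?_
    rw [inner_sum_right]
    refine Finset.sum_congr rfl fun b _ => ?_
    rw [inner_smul_left, inner_smul_right, Complex.conj_natCast, ← hm (a, b), mul_assoc]
  have hle : ∀ p ∈ (Finset.univ : Finset (ι × ι)),
      e p.1 * e p.2 * (if p.1 = p.2 then 1 else 0) ≤ e p.1 * e p.2 * m p := fun p _ => by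
    refine Nat.mul_le_mul_left _ ?_
    split_ifs with hpe
    · refine Nat.pos_of_ne_zero fun hz => ?_
      obtain ⟨a, b⟩ := p
      change a = b at hpe
      subst hpe
      have := hm (a, a)
      rw [hz, Nat.cast_zero, inner_self_eq_zero] at this
      exact hne a (congrFun this 1)
    · exact Nat.zero_le _
  intro i j
  have h3 := mul_left_cancel₀ (mul_ne_zero (he i) (he j))
    ((Finset.sum_eq_sum_iff_of_le hle).mp h2.symm (i, j) (Finset.mem_univ _))
  rw [hm (i, j), ← h3]
  split_ifs <;> simp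

open Classical in
/-- The characters of `T` over an invariant `θ` of `H` when `T / H` is abelian. -/
theorem exists_common_multiplicity [Fintype G] {H : Subgroup G} [hH : H.Normal] [Fintype H]
    {θ : H → ℂ} (hθ : IsIrrCharacter H θ)
    (hinv : ∀ (g : G) (n : H), θ ⟨g * n * g⁻¹, hH.conj_mem (n : G) n.2 g⟩ = θ n)
    (hab : ∀ x y : G, x * y * x⁻¹ * y⁻¹ ∈ H) :
    ∃ (e : ℕ) (C : Finset (G → ℂ)), 0 < e ∧ (∀ χ ∈ C, IsIrrCharacter G χ) ∧
      e ^ 2 * C.card = H.index ∧ indFun H θ = (e : ℂ) • ∑ χ ∈ C, χ ∧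
      (∀ χ ∈ C, χ 1 = (e : ℂ) * θ 1) ∧
      ∀ χ : G → ℂ, IsIrrCharacter G χ → classInner (fun n : H => χ n) θ ≠ 0 →
        classInner (fun n : H => χ n) θ = (e : ℂ) := by
  obtain ⟨χ₀, hχ₀, hcon₀⟩ := exists_irr_over (G := G) hθ
  obtain ⟨e, he⟩ := inner_character_nat (isCharacter_restrict hχ₀.isCharacter' H) hθ.isCharacter'
  have he0 : e ≠ 0 := fun h => hcon₀ (by rw [he, h, Nat.cast_zero])
  have hres₀ : (fun n : H => χ₀ n) = (e : ℂ) • θ := by
    conv_lhs => rw [restrict_invariant hχ₀ hθ hinv hcon₀, he]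
  set P := indFun (G := G) H (fun _ => (1 : ℂ)) with hP
  have hPc : IsCharacter G P := isCharacter_indFun (isCharacter_one (G := H))
  have hkey : P * χ₀ = (e : ℂ) • indFun H θ := by
    rw [hP, indFun_mul _ χ₀ (isCharacter_classFunction hχ₀.isCharacter'), ← indFun_smul]
    congr 1
    rw [← hres₀]
    funext n
    simp
  -- constituents of the permutation character are linear and trivial on `H`
  have hlin : ∀ β : IrrCharacter G, classInner P (β : G → ℂ) ≠ 0 →
      (β : G → ℂ) 1 = 1 ∧ ∀ n : H, (β : G → ℂ) n = 1 := by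
    intro β hβ
    have hker : ∀ n : G, n ∈ H → (β : G → ℂ) n = (β : G → ℂ) 1 := fun n hn => by
      refine constituent_ker hPc β.2 hβ ?_
      exact (indFun_ker_iff (A := H) le_rfl (isCharacter_one (G := H))).mp (fun _ _ => rfl) n hn
    have h1 : (β : G → ℂ) 1 = 1 := by
      obtain ⟨β', -, hcomp, hirr⟩ := exists_deflate β.2.isCharacter' (QuotientGroup.mk' H)
        (QuotientGroup.mk'_surjective H) fun k hk => hker k (by rwa [QuotientGroup.ker_mk'] at hk)
      rw [← hcomp, Function.comp_apply, map_one]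
      refine irr_degree_one_of_comm (fun a b => ?_) (hirr β.2)
      obtain ⟨x, rfl⟩ := QuotientGroup.mk'_surjective H a
      obtain ⟨y, rfl⟩ := QuotientGroup.mk'_surjective H b
      rw [← map_mul, ← map_mul, QuotientGroup.mk'_apply, QuotientGroup.mk'_apply, QuotientGroup.eq]
      have h := hab y⁻¹ x⁻¹
      simpa [mul_assoc] using h
    exact ⟨h1, fun n => (hker n n.2).trans h1⟩
  have hall : ∀ χ : G → ℂ, IsIrrCharacter G χ → classInner (fun n : H => χ n) θ ≠ 0 →
      classInner (fun n : H => χ n) θ = (e : ℂ) ∧ χ 1 = (e : ℂ) * θ 1 := by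
    intro χ hχ hcon
    have hne : classInner (P * χ₀) χ ≠ 0 := by
      rw [hkey, inner_smul_left, frobenius _ _ (isCharacter_classFunction hχ.isCharacter'),
        ← inner_conj_symm]
      exact mul_ne_zero (by exact_mod_cast he0) fun h => hcon ((map_eq_zero _).mp h)
    rw [classFunction_eq_sum P (isCharacter_classFunction hPc), Finset.sum_mul, inner_sum_left] at hne
    obtain ⟨β, -, hβ⟩ := Finset.exists_ne_zero_of_sum_ne_zero hne
    rw [smul_mul_assoc, inner_smul_left] at hβ
    obtain ⟨hβ1, hβH⟩ := hlin β (left_ne_zero_of_mul hβ)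
    have hirr : IsIrrCharacter G ((β : G → ℂ) * χ₀) := by
      refine isIrr_of_inner_self_one (isCharacter_mul β.2.isCharacter' hχ₀.isCharacter') ?_
      rw [← irr_inner_self hχ₀]
      simp only [classInner]
      congr 1
      refine Finset.sum_congr rfl fun g _ => ?_
      obtain ⟨f, hf⟩ := exists_hom_of_degree_one β.2.isCharacter' hβ1
      have hn : ‖(f g : ℂ)‖ = 1 := Complex.norm_eq_one_of_pow_eq_one (n := orderOf g) (by
        rw [← Units.val_pow_eq_pow_val, ← map_pow, pow_orderOf_eq_one, map_one, Units.val_one])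
        (orderOf_pos g).ne'
      rw [Pi.mul_apply, map_mul, hf]
      calc (f g : ℂ) * χ₀ g * (conj (f g : ℂ) * conj (χ₀ g))
          = ((f g : ℂ) * conj (f g : ℂ)) * (χ₀ g * conj (χ₀ g)) := by ring
        _ = χ₀ g * conj (χ₀ g) := by rw [Complex.mul_conj']; simp [hn]
    have heq : χ = (β : G → ℂ) * χ₀ := by
      by_contra hd
      exact (right_ne_zero_of_mul hβ) (irr_inner_ne hirr hχ (Ne.symm hd))
    have hr : (fun n : H => χ n) = (e : ℂ) • θ := by
      rw [← hres₀]; funext n; rw [heq, Pi.mul_apply, hβH n, one_mul]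
    refine ⟨by rw [hr, inner_smul_left, irr_inner_self hθ, mul_one], ?_⟩
    have := congrFun hr 1
    simpa using this
  set C := (Finset.univ.filter fun ξ : IrrCharacter G =>
    classInner (fun n : H => (ξ : G → ℂ) n) θ ≠ 0).map ⟨Subtype.val, Subtype.val_injective⟩ with hC
  have hmemC : ∀ χ ∈ C, IsIrrCharacter G χ ∧ classInner (fun n : H => χ n) θ ≠ 0 := fun χ hχ => by
    simp only [hC, Finset.mem_map, Finset.mem_filter, Function.Embedding.coeFn_mk] at hχ
    obtain ⟨ξ, ⟨-, hξ⟩, rfl⟩ := hχ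
    exact ⟨ξ.2, hξ⟩
  have hind : indFun H θ = (e : ℂ) • ∑ χ ∈ C, χ := by
    rw [classFunction_eq_sum (indFun H θ) (indFun_classFunction θ), hC, Finset.sum_map,
      Finset.smul_sum, Finset.sum_filter]
    refine Finset.sum_congr rfl fun ξ _ => ?_
    rw [frobenius _ _ (isCharacter_classFunction ξ.2.isCharacter'), ← inner_conj_symm]
    split_ifs with h
    · rw [(hall ξ ξ.2 h).1, Complex.conj_natCast]; rfl
    · rw [not_ne_iff] at h
      rw [h, map_zero, zero_smul]
  refine ⟨e, C, Nat.pos_of_ne_zero he0, fun χ hχ => (hmemC χ hχ).1, ?_, hind,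
    fun χ hχ => (hall χ (hmemC χ hχ).1 (hmemC χ hχ).2).2, fun χ hχ h => (hall χ hχ h).1⟩
  have h1 := inner_indFun_invariant hθ hinv
  rw [hind, inner_smul_left, inner_smul_right, Complex.conj_natCast, inner_sum_left,
    Finset.sum_congr rfl (g := fun _ => (1 : ℂ)) fun a ha => by
      rw [inner_sum_right, Finset.sum_eq_single a (fun b hb hne =>
        irr_inner_ne (hmemC a ha).1 (hmemC b hb).1 hne.symm) (fun h => absurd ha h),
        irr_inner_self (hmemC a ha).1],
    Finset.sum_const, nsmul_one] at h1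
  have h2 : ((e ^ 2 * C.card : ℕ) : ℂ) = (H.index : ℂ) := by rw [← h1]; push_cast; ring
  exact_mod_cast h2

open Classical in
/-- Decomposition of an induced character through an inertia group with abelian quotient. -/
theorem clifford_abelian_inertia [Fintype G] (H T : Subgroup G) [hN : H.Normal] {θ : H → ℂ}
    (hθ : IsIrrCharacter H θ)
    (hT : ∀ g : G, g ∈ T ↔ ∀ h : H, θ ⟨g * h * g⁻¹, hN.conj_mem h h.2 g⟩ = θ h)
    (hab : ∀ x ∈ T, ∀ y ∈ T, x * y * x⁻¹ * y⁻¹ ∈ H) :
    ∃ (e : ℕ) (C : Finset (G → ℂ)), 0 < e ∧ (∀ χ ∈ C, IsIrrCharacter G χ) ∧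
      e ^ 2 * C.card * Nat.card H = Nat.card T ∧ indFun H θ = (e : ℂ) • ∑ χ ∈ C, χ ∧
      (∀ χ ∈ C, χ 1 = (T.index : ℂ) * e * θ 1) ∧
      (Nat.Coprime (Nat.card H) (H.relIndex T) → e = 1) := by
  haveI := Fintype.ofFinite H
  haveI := Fintype.ofFinite T
  have hHT : H ≤ T := fun g hg => (hT g).mpr fun h => by
    exact congrFun (conjFn_of_mem (isCharacter_classFunction hθ.isCharacter') hg) h
  let ε : H.subgroupOf T ≃* H := Subgroup.subgroupOfEquivOfLe hHT
  haveI : (H.subgroupOf T).Normal := hN.subgroupOf T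
  haveI := Fintype.ofFinite (H.subgroupOf T)
  set θ' : H.subgroupOf T → ℂ := fun x => θ ⟨(x : T), Subgroup.mem_subgroupOf.mp x.2⟩ with hθ'
  have hθi : IsIrrCharacter _ θ' := isIrrCharacter_comp_equiv hθ ε
  have hinv' : ∀ (g : T) (n : H.subgroupOf T),
      θ' ⟨g * n * g⁻¹, (inferInstance : (H.subgroupOf T).Normal).conj_mem (n : T) n.2 g⟩ = θ' n :=
    fun g n => (hT g).mp g.2 ⟨((n : T) : G), Subgroup.mem_subgroupOf.mp n.2⟩
  obtain ⟨e, C, he0, hCirr, hcard, hind, hdeg, hall⟩ :=
    exists_common_multiplicity hθi hinv' fun x y => by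
      rw [Subgroup.mem_subgroupOf]; exact hab x x.2 y y.2
  set f : (↥C) → G → ℂ := fun i => indFun T (i : T → ℂ) with hf
  have hsum : indFun H θ = (e : ℂ) • ∑ i : C, f i := by
    rw [← indFun_trans H T hHT θ]
    show indFun T (indFun (H.subgroupOf T) θ') = _
    rw [hind, indFun_smul, indFun_sum, ← Finset.sum_coe_sort C]
  have hi : H.relIndex T * Nat.card H = Nat.card T := by
    have h := (H.subgroupOf T).index_mul_card
    rwa [Nat.card_congr ε.toEquiv] at h
  have hcT : e ^ 2 * C.card = H.relIndex T := hcard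
  have hin : inertia θ = T := by
    ext g
    rw [mem_inertia, hT]
    exact ⟨fun h n => congrFun h n, fun h => funext fun n => h n⟩
  have hnorm : classInner (indFun H θ) (indFun H θ) = (H.relIndex T : ℂ) := by
    refine mul_left_cancel₀ (natCard_ne_zero H) ?_
    rw [inner_indFun_normal_self hθ, hin, ← hi]
    push_cast; ring
  have hfc : ∀ i : C, IsCharacter G (f i) := fun i => isCharacter_indFun (hCirr i i.2).isCharacter'
  have hfone : ∀ i : C, f i 1 = (T.index : ℂ) * e * θ 1 := fun i => by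
    rw [hf]
    show indFun T (i : T → ℂ) 1 = _
    rw [indFun_one_apply, hdeg i i.2, mul_assoc]
    rfl
  have hne : ∀ i : C, f i 1 ≠ 0 := fun i => by
    rw [hfone]
    exact mul_ne_zero (mul_ne_zero (Nat.cast_ne_zero.mpr T.index_ne_zero_of_finite)
      (by exact_mod_cast he0.ne')) (irr_apply_one_ne_zero hθ)
  have horth := orthonormal_of_norm_sum f hfc hne (fun _ => e) (fun _ => he0.ne') (by
    rw [← Finset.smul_sum, ← hsum, hnorm, ← hcT, Finset.sum_const, Finset.card_univ,
      Fintype.card_coe, smul_eq_mul, mul_comm])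
  have hinj : Function.Injective f := fun i j h => by
    by_contra hne'
    have h1 := horth i i
    rw [if_pos rfl] at h1
    have h2 := horth i j
    rw [if_neg hne', ← h, h1] at h2
    exact one_ne_zero h2
  refine ⟨e, Finset.univ.map ⟨f, hinj⟩, he0, fun χ hχ => ?_, ?_, ?_, fun χ hχ => ?_, fun hcop => ?_⟩
  · obtain ⟨i, -, rfl⟩ := Finset.mem_map.mp hχ
    exact isIrr_of_inner_self_one (hfc i)
      (show classInner (f i) (f i) = 1 by rw [horth i i, if_pos rfl])
  · rw [Finset.card_map, Finset.card_univ, Fintype.card_coe, hcT, hi]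
  · rw [hsum, Finset.sum_map]; rfl
  · obtain ⟨i, -, rfl⟩ := Finset.mem_map.mp hχ
    exact hfone i
  · obtain ⟨d, -, hd⟩ := exists_degree_pos hθi
    have hc : Nat.Coprime (H.subgroupOf T).index (detOrder θ' * d) := by
      refine (Nat.Coprime.mul_right ?_ ?_)
      · refine (hcop.coprime_dvd_left ?_).symm
        refine (Nat.card_congr ε.toEquiv) ▸ ?_
        obtain ⟨F, hF⟩ := exists_hom_of_degree_one (detChar_isLinear hθi.isCharacter').1
          (detChar_isLinear hθi.isCharacter').2
        rw [detOrder, hF, orderOf_homFn]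
        exact orderOf_dvd_of_pow_eq_one (MonoidHom.ext fun x => by
          rw [homPow_apply, ← map_pow, pow_card_eq_one', map_one, MonoidHom.one_apply])
      · refine (hcop.coprime_dvd_left ?_).symm
        refine (Nat.card_congr ε.toEquiv) ▸ ?_
        obtain ⟨n, ρ, hρ, hρe⟩ := id hθi
        haveI := hρ
        have hdd := degree_dvd_card ρ
        rw [← hρe, ρ.char_one] at hd
        rwa [Nat.cast_injective hd] at hdd
    obtain ⟨χ, ⟨hχ, hres, -⟩, -⟩ := canonical_extension _ hθi hinv' hd hc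
    have h1 : classInner (fun n : H.subgroupOf T => χ n) θ' = 1 := by
      rw [show (fun n : H.subgroupOf T => χ n) = θ' from funext hres, irr_inner_self hθi]
    have h2 := hall χ hχ (by rw [h1]; exact one_ne_zero)
    rw [h1] at h2
    exact_mod_cast h2.symm

open Classical in
/-- Going down across an abelian chief factor. -/
theorem going_down [Fintype G] (K L : Subgroup G) [hK : K.Normal] [hL : L.Normal] (hLK : L < K)
    (hchief : ∀ M : Subgroup G, M.Normal → L ≤ M → M ≤ K → M = L ∨ M = K) (hab : ⁅K, K⁆ ≤ L)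
    (ϑ : K → ℂ) (hϑ : IsIrrCharacter K ϑ)
    (hinv : ∀ (g : G) (n : K), ϑ ⟨g * n * g⁻¹, hK.conj_mem (n : G) n.2 g⟩ = ϑ n) :
    IsIrrCharacter L (fun x : L => ϑ ⟨(x : G), hLK.le x.2⟩) ∨
      (∃ (φ : L → ℂ) (e : ℕ), IsIrrCharacter L φ ∧
        (fun x : L => ϑ ⟨(x : G), hLK.le x.2⟩) = (e : ℂ) • φ ∧ e ^ 2 = L.relIndex K) ∨
      (∃ F : Finset (L → ℂ), (∀ φ ∈ F, IsIrrCharacter L φ) ∧ F.card = L.relIndex K ∧
        (fun x : L => ϑ ⟨(x : G), hLK.le x.2⟩) = ∑ φ ∈ F, φ) := by
  haveI := Fintype.ofFinite K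
  haveI := Fintype.ofFinite L
  set L' := L.subgroupOf K with hL'
  haveI : L'.Normal := hL.subgroupOf K
  haveI := Fintype.ofFinite L'
  let ε : L' ≃* L := Subgroup.subgroupOfEquivOfLe hLK.le
  have hcomm : ∀ x y : K, x * y * x⁻¹ * y⁻¹ ∈ L' := fun x y => by
    rw [hL', Subgroup.mem_subgroupOf]
    exact hab (Subgroup.commutator_mem_commutator x.2 y.2)
  have hres : (fun x : L => ϑ ⟨(x : G), hLK.le x.2⟩) = (fun x : L' => ϑ x) ∘ ε.symm :=
    funext fun x => rfl
  obtain ⟨φ', hφ', hcon⟩ := exists_irr_under (H := L') hϑ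
  have hφ : IsIrrCharacter L (φ' ∘ ε.symm) := isIrrCharacter_comp_equiv hφ' ε.symm
  -- the inertia group of the constituent in `G`
  set φ : L → ℂ := φ' ∘ ε.symm with hφd
  set T := inertia φ with hT
  have hTmem : ∀ x : K, (x : G) ∈ T ↔ x ∈ inertia φ' := by
    intro x
    rw [hT, mem_inertia, mem_inertia]
    constructor
    · intro h
      funext y
      have h2 := congrFun h (ε y)
      simp only [conjFn, hφd, Function.comp, MulEquiv.symm_apply_apply] at h2
      refine Eq.trans ?_ h2
      exact congrArg φ' (ε.symm_apply_eq.mpr (Subtype.ext rfl)).symm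
    · intro h
      funext y
      have h2 := congrFun h (ε.symm y)
      simp only [conjFn, hφd, Function.comp] at h2 ⊢
      refine Eq.trans ?_ h2
      exact congrArg φ' (ε.symm_apply_eq.mpr (Subtype.ext rfl))
  -- the constituents are conjugate under `K`
  have hGT : ∀ g : G, ∃ k ∈ K, g * k ∈ T := by
    intro g
    have hc2 : classInner (fun x : L' => ϑ x) ((conjFn g φ) ∘ ε) ≠ 0 := by
      have hre : conjFn g (fun x : L => ϑ ⟨(x : G), hLK.le x.2⟩) =
          fun x : L => ϑ ⟨(x : G), hLK.le x.2⟩ := funext fun x =>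
        hinv g ⟨(x : G), hLK.le x.2⟩
      have h1 : classInner (fun x : L => ϑ ⟨(x : G), hLK.le x.2⟩) (conjFn g φ) =
          classInner (fun x : L => ϑ ⟨(x : G), hLK.le x.2⟩) φ := by
        conv_lhs => rw [← hre]
        rw [conjFn_eq_comp, conjFn_eq_comp, inner_comp_equiv]
      have h2 : classInner (fun x : L' => ϑ x) ((conjFn g φ) ∘ ε) =
          classInner (fun x : L => ϑ ⟨(x : G), hLK.le x.2⟩) (conjFn g φ) := by
        rw [← inner_comp_equiv ε]
        congr 1
      have h3 : classInner (fun x : L => ϑ ⟨(x : G), hLK.le x.2⟩) φ =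
          classInner (fun x : L' => ϑ x) φ' := by
        rw [hres, hφd, inner_comp_equiv]
      rw [h2, h1, h3]
      exact hcon
    obtain ⟨k, hk⟩ := constituent_conj (G := K) hϑ hφ'
      (isIrrCharacter_comp_equiv (isIrrCharacter_conjFn hφ g) ε) hcon hc2
    refine ⟨((k⁻¹ : K) : G), (k⁻¹ : K).2, ?_⟩
    have h1 : conjFn g φ = conjFn (k : G) φ := by
      funext y
      have h2 := congrFun hk (ε.symm y)
      simp only [Function.comp, MulEquiv.apply_symm_apply, conjFn] at h2 ⊢
      rw [h2]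
      simp only [conjFn, hφd, Function.comp]
      exact congrArg φ' (ε.symm_apply_eq.mpr (Subtype.ext rfl)).symm
    rw [hT, mem_inertia, conjFn_mul, h1, ← conjFn_mul, InvMemClass.coe_inv, mul_inv_cancel,
      conjFn_one]
  have hLT : L ≤ T := le_inertia (isCharacter_classFunction hφ.isCharacter')
  have hM : (T ⊓ K).Normal := by
    refine ⟨fun m hm g => ?_⟩
    obtain ⟨k, hk, hgk⟩ := hGT g
    have hkm : k⁻¹ * m * k ∈ T ⊓ K := by
      refine ⟨?_, K.mul_mem (K.mul_mem (K.inv_mem hk) hm.2) hk⟩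
      have h1 : m⁻¹ * k⁻¹ * m * k ∈ L :=
        hab (by simpa [commutatorElement_def, mul_assoc] using
          Subgroup.commutator_mem_commutator (K.inv_mem hm.2) (K.inv_mem hk))
      have h2 := T.mul_mem hm.1 (hLT h1)
      simpa [mul_assoc] using h2
    have h3 : g * m * g⁻¹ = (g * k) * (k⁻¹ * m * k) * (g * k)⁻¹ := by group
    rw [h3]
    exact ⟨T.mul_mem (T.mul_mem hgk hkm.1) (T.inv_mem hgk),
      hK.conj_mem _ hkm.2 _⟩
  have hiL : L'.index = L.relIndex K := rfl
  obtain ⟨e, he⟩ := inner_character_nat (isCharacter_restrict hϑ.isCharacter' L') hφ'.isCharacter'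
  rcases hchief (T ⊓ K) hM (le_inf hLT hLK.le) inf_le_right with hTL | hTK
  · -- a regular orbit
    right; right
    have hle : inertia φ' ≤ L' := fun x hx => by
      rw [hL', Subgroup.mem_subgroupOf, ← hTL]
      exact ⟨(hTmem x).mpr hx, x.2⟩
    have hind : indFun L' φ' = ϑ := by
      have hi := isIrr_indFun_of_inertia_le hφ' hle
      by_contra hd
      have h := irr_inner_ne hi hϑ hd
      rw [frobenius _ _ (isCharacter_classFunction hϑ.isCharacter'), ← inner_conj_symm,
        map_eq_zero] at h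
      exact hcon h
    have he1 : classInner (fun x : L' => ϑ x) φ' = 1 := by
      rw [← inner_conj_symm, ← frobenius φ' ϑ (isCharacter_classFunction hϑ.isCharacter'), hind,
        irr_inner_self hϑ, map_one]
    have hcl := clifford hϑ hφ' hcon
    rw [he1, one_smul] at hcl
    refine ⟨(conjOrbit (G := K) φ').map ⟨fun f => f ∘ ε.symm, fun a b h => funext fun y => by
      have := congrFun h (ε y); simpa using this⟩, fun ξ hξ => ?_, ?_, ?_⟩
    · obtain ⟨a, ha, rfl⟩ := Finset.mem_map.mp hξ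
      obtain ⟨k, rfl⟩ := mem_conjOrbit.mp ha
      exact isIrrCharacter_comp_equiv (isIrrCharacter_conjFn hφ' k) ε.symm
    · rw [Finset.card_map, card_conjOrbit_eq_index,
        le_antisymm hle (le_inertia (isCharacter_classFunction hφ'.isCharacter')), hiL]
    · rw [hres, hcl, Finset.sum_map]
      funext y
      simp only [Function.comp, Finset.sum_apply]
      exact Finset.sum_congr rfl fun c _ => rfl
  · -- an invariant constituent
    have hinvφ : ∀ (g : K) (n : L'),
        φ' ⟨g * n * g⁻¹, (inferInstance : L'.Normal).conj_mem (n : K) n.2 g⟩ = φ' n := fun g n => by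
      have hgT : (g : G) ∈ T := (hTK.ge g.2).1
      exact congrFun ((hTmem g).mp hgT) n
    have hresφ : (fun x : L' => ϑ x) = (e : ℂ) • φ' := by
      conv_lhs => rw [restrict_invariant hϑ hφ' hinvφ hcon, he]
    set W : Subgroup G := Subgroup.closure ((L : Set G) ∪ {x | ∃ h : x ∈ K, ϑ ⟨x, h⟩ ≠ 0}) with hW
    have hWK : W ≤ K := (Subgroup.closure_le K).mpr fun x hx => hx.elim (fun h => hLK.le h) fun h => h.1
    have hWn : W.Normal := by
      refine ⟨fun x hx g => ?_⟩
      have hmap : W.map (MulAut.conj g).toMonoidHom ≤ W := by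
        rw [hW, MonoidHom.map_closure]
        refine (Subgroup.closure_le _).mpr ?_
        rintro _ ⟨y, hy | ⟨hyK, hy⟩, rfl⟩
        · exact Subgroup.subset_closure (.inl (hL.conj_mem y hy g))
        · refine Subgroup.subset_closure (.inr ⟨hK.conj_mem y hyK g, ?_⟩)
          exact fun e0 => hy ((hinv g ⟨y, hyK⟩).symm.trans e0)
      exact hmap ⟨x, hx, rfl⟩
    rcases hchief W hWn (fun x hx => Subgroup.subset_closure (.inl hx)) hWK with hWL | hWK'
    · -- fully ramified
      right; left
      refine ⟨φ, e, hφ, ?_, ?_⟩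
      · rw [hres, hresφ]; rfl
      · have hvan : ∀ g : K, g ∉ L' → ϑ g = 0 := fun g hg => by
          by_contra h
          exact hg (Subgroup.mem_subgroupOf.mpr (hWL ▸ Subgroup.subset_closure (.inr ⟨g.2, h⟩)))
        have h1 := (norm_restrict_eq_index_iff L' hϑ).mpr hvan
        rw [hresφ, inner_smul_left, inner_smul_right, irr_inner_self hφ', Complex.conj_natCast,
          mul_one, ← sq, hiL] at h1
        exact_mod_cast h1
    · -- the restriction is irreducible
      left
      obtain ⟨m, C, hm0, hCirr, hcard, hind, -, hall⟩ :=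
        exists_common_multiplicity hφ' hinvφ hcomm
      have hem : (e : ℂ) = (m : ℂ) := he ▸ hall ϑ hϑ hcon
      -- the linear characters of the quotient give distinct constituents
      letI : CommGroup (K ⧸ L') :=
        { QuotientGroup.Quotient.group L' with
          mul_comm := fun a b => by
            obtain ⟨x, rfl⟩ := QuotientGroup.mk'_surjective L' a
            obtain ⟨y, rfl⟩ := QuotientGroup.mk'_surjective L' b
            rw [← map_mul, ← map_mul, QuotientGroup.mk'_apply, QuotientGroup.mk'_apply,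
              QuotientGroup.eq]
            have h := hcomm y⁻¹ x⁻¹
            simpa [mul_assoc] using h }
      haveI : NeZero (Monoid.exponent (K ⧸ L')) := ⟨Monoid.exponent_ne_zero_of_finite⟩
      have hnum : Nat.card ((K ⧸ L') →* ℂˣ) = L'.index := by
        rw [CommGroup.card_monoidHom_of_hasEnoughRootsOfUnity, Subgroup.index_eq_card]
      have hlam : ∀ l : (K ⧸ L') →* ℂˣ,
          (fun x : K => (l (QuotientGroup.mk' L' x) : ℂ) * ϑ x) ∈ C := by
        intro l
        set β : K → ℂ := fun x => ((l.comp (QuotientGroup.mk' L')) x : ℂ) with hβ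
        have hirr : IsIrrCharacter K (β * ϑ) := by
          refine isIrr_of_inner_self_one
            (isCharacter_mul (isCharacter_hom (l.comp (QuotientGroup.mk' L'))) hϑ.isCharacter') ?_
          rw [← irr_inner_self hϑ]
          simp only [classInner]
          congr 1
          refine Finset.sum_congr rfl fun x _ => ?_
          have hn : ‖β x‖ = 1 := Complex.norm_eq_one_of_pow_eq_one (n := orderOf x) (by
            rw [hβ]
            show ((l.comp (QuotientGroup.mk' L')) x : ℂ) ^ orderOf x = 1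
            rw [← Units.val_pow_eq_pow_val, ← map_pow, pow_orderOf_eq_one, map_one, Units.val_one])
            (orderOf_pos x).ne'
          rw [Pi.mul_apply, map_mul]
          calc β x * ϑ x * (conj (β x) * conj (ϑ x)) = (β x * conj (β x)) * (ϑ x * conj (ϑ x)) := by
                ring
            _ = ϑ x * conj (ϑ x) := by rw [Complex.mul_conj']; simp [hn]
        have hne : classInner (indFun L' φ') (β * ϑ) ≠ 0 := by
          rw [frobenius _ _ (isCharacter_classFunction hirr.isCharacter'), ← inner_conj_symm]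
          rw [show (fun n : L' => (β * ϑ) n) = fun n : L' => ϑ n from funext fun n => by
            simp [hβ, (QuotientGroup.eq_one_iff (n : K)).mpr n.2]]
          exact fun h => hcon ((map_eq_zero _).mp h)
        rw [hind, inner_smul_left, inner_sum_left] at hne
        obtain ⟨ξ, hξ, hξne⟩ := Finset.exists_ne_zero_of_sum_ne_zero (right_ne_zero_of_mul hne)
        have : ξ = β * ϑ := by
          by_contra hd
          exact hξne (irr_inner_ne (hCirr ξ hξ) hirr hd)
        rw [this] at hξ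
        exact hξ
      have hinj : Function.Injective fun l : (K ⧸ L') →* ℂˣ =>
          (⟨_, hlam l⟩ : C) := fun l l' h => by
        have h' : ∀ x : K, (l (QuotientGroup.mk' L' x) : ℂ) * ϑ x =
            (l' (QuotientGroup.mk' L' x) : ℂ) * ϑ x := fun x => congrFun (congrArg Subtype.val h) x
        let E : Subgroup K :=
          (l.comp (QuotientGroup.mk' L')).eqLocus (l'.comp (QuotientGroup.mk' L'))
        have hE : W ≤ E.map K.subtype := by
          refine (Subgroup.closure_le _).mpr ?_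
          rintro x (hx | ⟨hxK, hx⟩)
          · refine ⟨⟨x, hLK.le hx⟩, ?_, rfl⟩
            show l _ = l' _
            rw [QuotientGroup.mk'_apply,
              (QuotientGroup.eq_one_iff (⟨x, hLK.le hx⟩ : K)).mpr (Subgroup.mem_subgroupOf.mpr hx),
              map_one, map_one]
          · exact ⟨⟨x, hxK⟩, Units.ext (mul_right_cancel₀ hx (h' ⟨x, hxK⟩)), rfl⟩
        refine MonoidHom.ext fun q => ?_
        obtain ⟨x, rfl⟩ := QuotientGroup.mk'_surjective L' q
        obtain ⟨y, hy, hyx⟩ := hE (hWK'.ge x.2)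
        obtain rfl : y = x := Subtype.ext hyx
        exact hy
      have hle : L'.index ≤ C.card := by
        rw [← hnum, ← Fintype.card_coe C, ← Nat.card_eq_fintype_card]
        exact Nat.card_le_card_of_injective _ hinj
      have hi0 : 0 < L'.index := Nat.pos_of_ne_zero L'.index_ne_zero_of_finite
      have hm1 : m ^ 2 ≤ 1 := by
        by_contra hc'
        have : 2 * C.card ≤ m ^ 2 * C.card := Nat.mul_le_mul_right _ (by omega)
        omega
      have hm : m = 1 := by nlinarith
      rw [hres, hresφ, hem, hm, Nat.cast_one, one_smul]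
      exact hφ

end CfsgLib.Char
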