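import Cfsg.Agent.Lib.CharBrauer3
import Cfsg.Agent.Lib.CharGalois
import Cfsg.Agent.Lib.CharMisc
import Cfsg.Agent.Lib.CharDegree
import Cfsg.Agent.Lib.BlockDefect2
import Mathlib.RingTheory.Polynomial.Cyclotomic.Roots

/-!
# Separation of sections by congruences, and the class number with an abelian Sylow subgroup
-/

set_option autoImplicit false
set_option linter.style.haveILetI false
set_option linter.unusedSectionVars false

namespace CfsgLib.Char

open Cfsg CfsgLib.Block Polynomial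
open scoped ComplexConjugate

universe u

variable {G : Type u} [Group G]

/-- Congruence of all characters detects the `p`-regular parts. -/
theorem pRegular_conj_iff [Finite G] {p : ℕ} {M : Ideal AlgInt} (hM : IsPModular p M) {x y a b : G}
    (ha : IsPPart p x a) (hb : IsPPart p y b) :
    IsConj (a⁻¹ * x) (b⁻¹ * y) ↔
      ∀ χ : IrrCharacter G, MemLocalIdeal M ((χ : G → ℂ) x - (χ : G → ℂ) y) := by
  classical
  haveI := Fintype.ofFinite G
  obtain ⟨x', hx', hcx, hxk, hxp⟩ := ha
  obtain ⟨y', hy', hcy, hyk, hyp⟩ := hb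
  subst hx' hy'
  rw [inv_mul_cancel_left, inv_mul_cancel_left]
  constructor
  · intro h χ
    rw [memLocalIdeal_sub_iff hM (isIntegral_mem hM (isCharacter_isIntegral χ.2.isCharacter' _))
      (isIntegral_mem hM (isCharacter_isIntegral χ.2.isCharacter' _)),
      res_apply_mul hM χ.2.isCharacter' hcx hxk hxp, res_apply_mul hM χ.2.isCharacter' hcy hyk hyp]
    congr 2
    exact char_eq_of_isConj (isCharacter_classFunction χ.2.isCharacter') h
  · intro h
    obtain ⟨j, n, hn, hcard⟩ :=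
      Nat.exists_eq_pow_mul_and_not_dvd (Nat.card_pos (α := G)).ne' p hM.1.ne_one
    have hcop : (p ^ j).Coprime n := ((hM.1.coprime_iff_not_dvd).mpr hn).pow_left j
    obtain ⟨e, he⟩ := exists_partExp hcop
    have hpart : ∀ u w : G, Commute u w → (∃ k, orderOf u = p ^ k) → ¬ p ∣ orderOf w →
        (u * w) ^ e = w := by
      intro u w hc hu hw
      have h1 : u ^ (p ^ j) = 1 := by
        obtain ⟨k, hk⟩ := hu
        rw [← orderOf_dvd_iff_pow_eq_one, hk]
        refine ((((hM.1.coprime_iff_not_dvd).mpr hn).pow_left k).dvd_of_dvd_mul_right ?_)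
        rw [← hk, ← hcard]; exact orderOf_dvd_natCard u
      have h2 : w ^ n = 1 := by
        rw [← orderOf_dvd_iff_pow_eq_one]
        refine ((((hM.1.coprime_iff_not_dvd).mpr hw).pow_left j).symm.dvd_of_dvd_mul_left ?_)
        rw [← hcard]; exact orderOf_dvd_natCard w
      rw [hc.mul_pow, he.eq_one h1, he.eq_self h2, one_mul]
    have hfx : sectionFn n e x' (a * x') = (n : ℂ) := by
      rw [sectionFn, hpart a x' hcx hxk hxp, if_pos (IsConj.refl x')]
    by_contra hne
    have hfy : sectionFn n e x' (b * y') = 0 := by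
      rw [sectionFn, hpart b y' hcy hyk hyp, if_neg fun h' => hne h'.symm]
    have hcl : IsClassFunction G (sectionFn n e x') := fun u w => by
      have hcj : IsConj (u ^ e) ((w * u * w⁻¹) ^ e) := isConj_iff.mpr ⟨w, conj_pow.symm⟩
      simp only [sectionFn]
      by_cases h : IsConj (u ^ e) x'
      · rw [if_pos h, if_pos (hcj.symm.trans h)]
      · rw [if_neg h, if_neg fun h' => h (hcj.trans h')]
    have hval := fun g => congrFun (classFunction_eq_sum (sectionFn n e x') hcl) g
    have hint : ∀ χ : IrrCharacter G, classInner (sectionFn n e x') (χ : G → ℂ) ∈ locRing hM :=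
      fun χ => isIntegral_mem hM (sectionFn_integral hcard hcop he x' χ)
    have hd : MemLocalIdeal M ((n : ℂ) - 0) := by
      rw [← hfx, ← hfy, hval, hval, Finset.sum_apply, Finset.sum_apply, ← Finset.sum_sub_distrib,
        memLocalIdeal_iff_exists hM]
      have hterm : ∀ χ : IrrCharacter G,
          (classInner (sectionFn n e x') (χ : G → ℂ) • (χ : G → ℂ)) (a * x') -
            (classInner (sectionFn n e x') (χ : G → ℂ) • (χ : G → ℂ)) (b * y') =
          classInner (sectionFn n e x') (χ : G → ℂ) *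
            ((χ : G → ℂ) (a * x') - (χ : G → ℂ) (b * y')) := fun χ => by
        simp only [Pi.smul_apply, smul_eq_mul, mul_sub]
      simp only [hterm]
      have hd' : ∀ χ : IrrCharacter G,
          ∃ hz : (χ : G → ℂ) (a * x') - (χ : G → ℂ) (b * y') ∈ locRing hM, res hM ⟨_, hz⟩ = 0 :=
        fun χ => (memLocalIdeal_iff_exists hM).1 (h χ)
      choose hz hz0 using hd'
      let F : IrrCharacter G → locRing hM := fun χ => ⟨_, hint χ⟩ * ⟨_, hz χ⟩
      refine ⟨sum_mem fun χ _ => mul_mem (hint χ) (hz χ), ?_⟩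
      have e1 : (⟨∑ χ : IrrCharacter G, classInner (sectionFn n e x') (χ : G → ℂ) *
          ((χ : G → ℂ) (a * x') - (χ : G → ℂ) (b * y')),
          sum_mem fun χ _ => mul_mem (hint χ) (hz χ)⟩ : locRing hM) = ∑ χ, F χ :=
        Subtype.ext (by push_cast [F]; rfl)
      rw [e1, map_sum]
      exact Finset.sum_eq_zero fun χ _ => by simp only [F]; rw [map_mul, hz0 χ, mul_zero]
    rw [sub_zero, memLocalIdeal_iff_exists hM] at hd
    obtain ⟨hz, h0⟩ := hd
    exact hn ((res_natCast_eq_zero_iff hM n).1 (by rw [← h0]; congr 1))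

/-- A character vanishing at an element of prime power order has degree divisible by the prime. -/
theorem prime_dvd_degree_of_zero [Finite G] {p : ℕ} (hp : p.Prime) {g : G} {m : ℕ}
    (hg : orderOf g = p ^ (m + 1)) {χ : G → ℂ} (hχ : IsCharacter G χ) {d : ℕ} (hd : χ 1 = d)
    (h0 : χ g = 0) : p ∣ d := by
  classical
  haveI := Fintype.ofFinite G
  haveI := Fact.mk hp
  set C := Subgroup.zpowers g
  haveI := Fintype.ofFinite C
  have hq : Nat.card C = p ^ (m + 1) := by rw [Nat.card_zpowers, hg]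
  set ζ := Complex.exp (2 * Real.pi * Complex.I / (p ^ (m + 1) : ℕ))
  have hζ : IsPrimitiveRoot ζ (p ^ (m + 1)) :=
    Complex.isPrimitiveRoot_exp _ (pow_ne_zero _ hp.ne_zero)
  haveI : NeZero (p ^ (m + 1)) := ⟨pow_ne_zero _ hp.ne_zero⟩
  have hres := isCharacter_restrict hχ C
  have hsum := classFunction_eq_sum (fun c : C => χ c) (isCharacter_classFunction hres)
  choose c hc using fun ξ : IrrCharacter C => inner_character_nat hres ξ.2.isCharacter'
  let gC : C := ⟨g, Subgroup.mem_zpowers g⟩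
  have hroot : ∀ ξ : IrrCharacter C, (ξ : C → ℂ) 1 = 1 ∧ ∃ j : ℕ, ζ ^ j = (ξ : C → ℂ) gC := by
    intro ξ
    have hcomm : ∀ u w : C, u * w = w * u := fun u w => mul_comm' u w
    refine ⟨irr_degree_one_of_comm hcomm ξ.2, ?_⟩
    obtain ⟨f, hf⟩ := exists_hom_of_irr_comm hcomm ξ.2
    obtain ⟨j, -, hj⟩ := hζ.eq_pow_of_pow_eq_one (ξ := (f gC : ℂ)) (by
      rw [← Units.val_pow_eq_pow_val, ← map_pow, ← hq, pow_card_eq_one', map_one, Units.val_one])
    exact ⟨j, by rw [hj, hf]⟩
  choose h1 j hj using hroot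
  set Q : ℤ[X] := ∑ ξ : IrrCharacter C, (c ξ : ℤ[X]) * X ^ j ξ with hQ
  have hQ0 : aeval ζ Q = 0 := by
    rw [← h0, show χ g = (fun c : C => χ c) gC from rfl, hsum, Finset.sum_apply, hQ, map_sum]
    refine Finset.sum_congr rfl fun ξ _ => ?_
    rw [Pi.smul_apply, smul_eq_mul, hc, ← hj, map_mul, map_pow, aeval_X, map_natCast]
  have hdvd : cyclotomic (p ^ (m + 1)) ℤ ∣ Q := by
    rw [cyclotomic_eq_minpoly hζ (pow_pos hp.pos _)]
    exact minpoly.isIntegrallyClosed_dvd (hζ.isIntegral (pow_pos hp.pos _)) hQ0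
  obtain ⟨R, hR⟩ := hdvd
  have h2 := congrArg (Polynomial.eval 1) hR
  rw [eval_mul, eval_one_cyclotomic_prime_pow] at h2
  have h3 : (eval 1 Q : ℤ) = (d : ℤ) := by
    rw [hQ, eval_finsetSum]
    have h4 : ((∑ ξ : IrrCharacter C, (c ξ : ℤ) : ℤ) : ℂ) = ((d : ℤ) : ℂ) := by
      rw [Int.cast_natCast, ← hd, show χ 1 = (fun c : C => χ c) 1 from rfl, hsum, Finset.sum_apply]
      push_cast
      exact Finset.sum_congr rfl fun ξ _ => by rw [Pi.smul_apply, smul_eq_mul, hc, h1, mul_one]
    rw [← Int.cast_injective h4]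
    exact Finset.sum_congr rfl fun ξ _ => by simp
  rw [h3] at h2
  exact Int.natCast_dvd_natCast.mp ⟨_, h2⟩

/-- The class number with a self-centralising element in an abelian normal Sylow subgroup. -/
theorem class_number_le [Finite G] (p : ℕ) [hp : Fact p.Prime] (P : Sylow p G)
    [hP : (P : Subgroup G).Normal] (hab : ∀ a ∈ P, ∀ b ∈ P, a * b = b * a) {g : G} (hg : g ∈ P)
    (hC : Subgroup.centralizer ({g} : Set G) = P) :
    Nat.card (IrrCharacter G) ≤ Nat.card P ∧
      (Nat.card (IrrCharacter G) = Nat.card P → commutator G ≤ P) := by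
  classical
  haveI := Fintype.ofFinite G
  haveI := Fintype.ofFinite (P : Subgroup G)
  have hne : ∀ χ : IrrCharacter G, (χ : G → ℂ) g ≠ 0 := by
    intro χ hz
    obtain ⟨θ, hθ, hcon⟩ := exists_irr_under (H := (P : Subgroup G)) χ.2
    obtain ⟨k, hk, hki⟩ := degree_ratio χ.2 hθ hcon
    rw [irr_degree_one_of_comm (fun a b : (P : Subgroup G) => Subtype.ext (hab a a.2 b b.2)) hθ,
      mul_one] at hk
    by_cases hg1 : g = 1
    · exact irr_apply_one_ne_zero χ.2 (hg1 ▸ hz)
    obtain ⟨j, hj⟩ := P.isPGroup' ⟨g, hg⟩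
    obtain ⟨i, -, hi⟩ := (Nat.dvd_prime_pow hp.out).mp (orderOf_dvd_of_pow_eq_one hj)
    rw [Subgroup.orderOf_mk] at hi
    rcases i with _ | i
    · exact hg1 (orderOf_eq_one_iff.mp (by rw [hi, pow_zero]))
    exact P.not_dvd_index ((prime_dvd_degree_of_zero hp.out hi χ.2.isCharacter' hk hz).trans hki)
  have hsum : ∑ χ : IrrCharacter G, ‖(χ : G → ℂ) g‖ ^ 2 = (Nat.card P : ℝ) := by
    have h := column_orth_conj (IsConj.refl g)
    rw [hC] at h
    have h2 : ((∑ χ : IrrCharacter G, ‖(χ : G → ℂ) g‖ ^ 2 : ℝ) : ℂ) = ((Nat.card P : ℝ) : ℂ) := by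
      rw [Complex.ofReal_natCast, ← h, Complex.ofReal_sum]
      exact Finset.sum_congr rfl fun χ _ => by rw [Complex.mul_conj, Complex.normSq_eq_norm_sq]
    exact_mod_cast h2
  set n := Nat.card G with hn
  have hn0 : 0 < n := Nat.card_pos
  set ζ := Complex.exp (2 * Real.pi * Complex.I / n) with hζd
  have hζ : IsPrimitiveRoot ζ n := Complex.isPrimitiveRoot_exp n hn0.ne'
  choose Q hQ using fun χ : IrrCharacter G => hasGalPoly_char hζ χ.2.isCharacter' g
  obtain ⟨q, hq⟩ := rat_of_invariant hn0 hζ (∏ χ : IrrCharacter G, Q χ)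
      (∏ χ : IrrCharacter G, (χ : G → ℂ) g) fun k hk => by
    rw [map_prod]
    let f : IrrCharacter G → IrrCharacter G := fun χ =>
      ⟨powTwist k (χ : G → ℂ), powTwist_irr hk χ.2⟩
    have hf : Function.Bijective f := Finite.injective_iff_bijective.mp fun χ χ' e => by
      refine Subtype.ext (funext fun x => ?_)
      obtain ⟨w, rfl⟩ := (powCoprime (G := G) hk.symm).surjective x
      exact congrFun (congrArg Subtype.val e) w
    exact Fintype.prod_bijective f hf _ _ fun χ => (hQ χ k hk).symm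
  obtain ⟨z, hz⟩ := int_of_isIntegral_rat q
    (hq ▸ IsIntegral.prod _ fun χ _ => isCharacter_isIntegral χ.2.isCharacter' g)
  have hz0 : z ≠ 0 := fun e => by
    rw [← hz, e, Int.cast_zero, Rat.cast_zero] at hq
    exact Finset.prod_ne_zero_iff.mpr (fun χ _ => hne χ) hq
  have hge : (1 : ℝ) ≤ ∏ χ : IrrCharacter G, ‖(χ : G → ℂ) g‖ ^ 2 := by
    rw [Finset.prod_pow, ← norm_prod, hq, ← hz, Rat.cast_intCast, Complex.norm_intCast]
    exact one_le_pow₀ (by exact_mod_cast Int.one_le_abs hz0)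
  have hle : ∏ χ : IrrCharacter G, ‖(χ : G → ℂ) g‖ ^ 2 ≤
      Real.exp (∑ χ : IrrCharacter G, (‖(χ : G → ℂ) g‖ ^ 2 - 1)) := by
    rw [Real.exp_sum]
    exact Finset.prod_le_prod (fun χ _ => sq_nonneg _) fun χ _ => by
      linarith [Real.add_one_le_exp (‖(χ : G → ℂ) g‖ ^ 2 - 1)]
  have h0 := Real.one_le_exp_iff.mp (hge.trans hle)
  rw [Finset.sum_sub_distrib, hsum, Finset.sum_const, Finset.card_univ, nsmul_one,
    ← Nat.card_eq_fintype_card, sub_nonneg] at h0
  refine ⟨by exact_mod_cast h0, fun heq => ?_⟩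
  have hone : ∀ χ : IrrCharacter G, ‖(χ : G → ℂ) g‖ ^ 2 = 1 := by
    intro χ₀
    by_contra hd
    have hlt : ∏ χ : IrrCharacter G, ‖(χ : G → ℂ) g‖ ^ 2 <
        Real.exp (∑ χ : IrrCharacter G, (‖(χ : G → ℂ) g‖ ^ 2 - 1)) := by
      rw [Real.exp_sum]
      refine Finset.prod_lt_prod (fun χ _ => by have := hne χ; positivity)
        (fun χ _ => by linarith [Real.add_one_le_exp (‖(χ : G → ℂ) g‖ ^ 2 - 1)])
        ⟨χ₀, Finset.mem_univ _, ?_⟩
      linarith [Real.add_one_lt_exp (x := ‖(χ₀ : G → ℂ) g‖ ^ 2 - 1) (sub_ne_zero.mpr hd)]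
    have h1 := hge.trans_lt hlt
    rw [Real.one_lt_exp_iff, Finset.sum_sub_distrib, hsum, Finset.sum_const, Finset.card_univ,
      nsmul_one, ← Nat.card_eq_fintype_card, heq, sub_self] at h1
    exact lt_irrefl _ h1
  haveI := hP
  have hlin : ∀ ξ : IrrCharacter (G ⧸ (P : Subgroup G)), (ξ : G ⧸ (P : Subgroup G) → ℂ) 1 = 1 := by
    intro ξ
    have h := hone ⟨(ξ : G ⧸ (P : Subgroup G) → ℂ) ∘ QuotientGroup.mk' (P : Subgroup G),
      isIrrCharacter_comp_surjective ξ.2 _ (QuotientGroup.mk'_surjective _)⟩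
    simp only [Function.comp, QuotientGroup.mk'_apply, (QuotientGroup.eq_one_iff g).mpr hg] at h
    obtain ⟨d, hd0, hd⟩ := exists_degree_pos ξ.2
    rw [hd, Complex.norm_natCast] at h
    have hd1 : d ^ 2 = 1 := by exact_mod_cast h
    rw [hd, (pow_eq_one_iff_left two_ne_zero).mp hd1, Nat.cast_one]
  have hcomm := comm_of_linear (G := G ⧸ (P : Subgroup G)) hlin
  rw [commutator_def, Subgroup.commutator_le]
  intro a _ b _
  rw [← QuotientGroup.eq_one_iff, commutatorElement_def, QuotientGroup.mk_mul, QuotientGroup.mk_mul,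
    QuotientGroup.mk_mul, QuotientGroup.mk_inv, QuotientGroup.mk_inv, hcomm (a : G ⧸ (P : Subgroup G)) b]
  group

end CfsgLib.Char
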