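import Cfsg.Agent.Lib.CharClifford
import Cfsg.Agent.Lib.CharLinear
import Cfsg.Agent.Lib.CharInt
import Cfsg.Agent.Lib.CharPerm
import Cfsg.Agent.Lib.BlockRegular
import Mathlib.GroupTheory.Nilpotent

/-!
# An irreducible character which is nonzero on exactly two classes
-/

set_option autoImplicit false
set_option linter.unusedSectionVars false

namespace CfsgLib.TwoClass

open Cfsg CfsgLib.Char CfsgLib.Block
open scoped ComplexConjugate Classical

universe u

variable {G : Type u} [Group G] [Finite G]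

theorem ncard_carrier (g : G) :
    (ConjClasses.mk g).carrier.ncard = (Subgroup.centralizer ({g} : Set G)).index := by
  rw [← ConjAct.orbit_eq_carrier_conjClasses, ← MulAction.index_stabilizer,
    ConjAct.stabilizer_eq_centralizer]
  rfl

variable {χ : IrrCharacter G}
  (hG : 2 < Nat.card G)
  (hχ : Nat.card {C : ConjClasses G // ∃ g ∈ C.carrier, (χ : G → ℂ) g ≠ 0} = 2)
  {p : ℕ} [Fact p.Prime] (N : Subgroup G) [hNn : N.Normal]
  (hN : ∀ g : G, g ∈ N ↔ (χ : G → ℂ) g ≠ 0) (hNp : IsPGroup p N) (hN1 : N ≠ ⊥)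

include hχ hN in
theorem conj_of_mem {x y : G} (hx : x ∈ N) (hx1 : x ≠ 1) (hy : y ∈ N) (hy1 : y ≠ 1) :
    IsConj x y := by
  let f : ∀ g ∈ N, {C : ConjClasses G // ∃ h ∈ C.carrier, (χ : G → ℂ) h ≠ 0} := fun g hg =>
    ⟨ConjClasses.mk g, g, ConjClasses.mem_carrier_mk, (hN g).1 hg⟩
  haveI : Finite (ConjClasses G) := Finite.of_surjective _ ConjClasses.mk_surjective
  by_contra hne
  have h3 : ({f 1 N.one_mem, f x hx, f y hy} :
      Set {C : ConjClasses G // ∃ h ∈ C.carrier, (χ : G → ℂ) h ≠ 0}).ncard = 3 := by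
    rw [Set.ncard_eq_three]
    refine ⟨_, _, _, ?_, ?_, ?_, rfl⟩ <;> intro e
    · exact hx1 (isConj_one_right.1 (ConjClasses.mk_eq_mk_iff_isConj.1 (congrArg Subtype.val e)))
    · exact hy1 (isConj_one_right.1 (ConjClasses.mk_eq_mk_iff_isConj.1 (congrArg Subtype.val e)))
    · exact hne (ConjClasses.mk_eq_mk_iff_isConj.1 (congrArg Subtype.val e))
  have h2 := Set.ncard_le_ncard (Set.subset_univ
    ({f 1 N.one_mem, f x hx, f y hy} : Set {C : ConjClasses G // ∃ h ∈ C.carrier, (χ : G → ℂ) h ≠ 0}))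
  rw [h3, Set.ncard_univ, hχ] at h2
  omega

include hχ hN in
theorem carrier_eq {x : G} (hx : x ∈ N) (hx1 : x ≠ 1) :
    (ConjClasses.mk x).carrier = (N : Set G) \ {1} := by
  ext y
  rw [ConjClasses.mem_carrier_iff_mk_eq, ConjClasses.mk_eq_mk_iff_isConj]
  constructor
  · intro h
    obtain ⟨g, hg⟩ := isConj_iff.1 h.symm
    subst hg
    refine ⟨hNn.conj_mem x hx g, fun e => hx1 ?_⟩
    rw [Set.mem_singleton_iff, mul_inv_eq_one] at e
    simpa using mul_left_cancel (e.trans (mul_one g).symm)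
  · exact fun h => conj_of_mem hχ N hN h.1 h.2 hx hx1

include hχ hN in
theorem index_centralizer {x : G} (hx : x ∈ N) (hx1 : x ≠ 1) :
    (Subgroup.centralizer ({x} : Set G)).index = Nat.card N - 1 := by
  rw [← ncard_carrier, carrier_eq hχ N hN hx hx1,
    Set.ncard_diff (by simp [N.one_mem]), Set.ncard_singleton, ← Nat.card_coe_set_eq]
  rfl

include hG hχ hN hNp hN1 in
theorem ne_one : (χ : G → ℂ) ≠ fun _ => 1 := by
  intro e
  have htop : N = ⊤ := eq_top_iff.2 fun g _ => (hN g).2 (by rw [e]; exact one_ne_zero)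
  subst htop
  haveI : Nontrivial G := Finite.one_lt_card_iff_nontrivial.1 (by omega)
  have hP : IsPGroup p G := hNp.of_equiv Subgroup.topEquiv
  haveI := hP.center_nontrivial
  obtain ⟨⟨z, hz⟩, hz1⟩ := exists_ne (1 : Subgroup.center G)
  have hz1' : z ≠ 1 := fun h => hz1 (Subtype.ext h)
  have hall : ∀ y : G, y = 1 ∨ y = z := fun y => by
    by_cases hy : y = 1
    · exact Or.inl hy
    · obtain ⟨g, hg⟩ := isConj_iff.1 (conj_of_mem hχ ⊤ hN (Subgroup.mem_top z) hz1'
        (Subgroup.mem_top y) hy)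
      rw [Subgroup.mem_center_iff.1 hz g, mul_inv_cancel_right] at hg
      exact Or.inr hg.symm
  have h2 : Nat.card G ≤ 2 := by
    refine le_trans (Nat.card_le_card_of_surjective (fun b : Bool => if b then z else 1) fun y => ?_)
      (le_of_eq (by rw [Nat.card_eq_fintype_card, Fintype.card_bool]))
    rcases hall y with h | h
    · exact ⟨false, by simp [h]⟩
    · exact ⟨true, by simp [h]⟩
  omega

include hG hχ hN hNp hN1 in
/-- The degree is `m (|N| - 1)` and the group has order `m² |N| (|N| - 1)`, `m` a power of `p`. -/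
theorem main : ∃ a : ℕ, 1 < Nat.card N ∧
    charDegree (χ : G → ℂ) = p ^ a * (Nat.card N - 1) ∧
    Nat.card G = (p ^ a) ^ 2 * Nat.card N * (Nat.card N - 1) ∧
    ∀ g ∈ N, g ≠ 1 → (χ : G → ℂ) g = -((p ^ a : ℕ) : ℂ) := by
  haveI := Fintype.ofFinite G
  have hn1 : 1 < Nat.card N := by
    haveI := (Subgroup.nontrivial_iff_ne_bot N).2 hN1
    exact Finite.one_lt_card
  obtain ⟨x, hx, hx1⟩ : ∃ x ∈ N, x ≠ (1 : G) := by
    by_contra h
    push_neg at h
    exact hN1 ((Subgroup.eq_bot_iff_forall N).2 h)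
  set c := (χ : G → ℂ) x with hc
  set d := charDegree (χ : G → ℂ) with hd
  have hd1 : (χ : G → ℂ) 1 = d := (charDegree_cast χ.2.isCharacter').symm
  have hval : ∀ g, (χ : G → ℂ) g =
      if g = 1 then (d : ℂ) else if g ∈ N then c else 0 := fun g => by
    split_ifs with h1 h2
    · rw [h1, hd1]
    · exact char_eq_of_isConj (isCharacter_classFunction χ.2.isCharacter')
        (conj_of_mem hχ N hN h2 h1 hx hx1)
    · exact not_not.1 (mt (hN g).2 h2)
  have hsum : ∀ F : ℂ → ℂ, F 0 = 0 →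
      ∑ g : G, F ((χ : G → ℂ) g) = F d + ((Nat.card N - 1 : ℕ) : ℂ) * F c := by
    intro F hF
    rw [← Finset.add_sum_erase Finset.univ _ (Finset.mem_univ (1 : G)), hd1]
    congr 1
    rw [Finset.sum_congr rfl (g := fun g => if g ∈ N then F c else 0) fun g hg => by
      rw [hval g, if_neg (Finset.ne_of_mem_erase hg)]
      split_ifs with h
      · rfl
      · exact hF,
      ← Finset.sum_filter, Finset.sum_const, nsmul_eq_mul]
    congr 2
    rw [show (Finset.univ.erase 1).filter (fun g => g ∈ N) =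
        (Finset.univ.filter fun g => g ∈ N).erase 1 from by ext g; simp [and_comm],
      Finset.card_erase_of_mem (by simp [N.one_mem]), ← Fintype.card_subtype,
      ← Nat.card_eq_fintype_card]
  have h0 : (d : ℂ) + ((Nat.card N - 1 : ℕ) : ℂ) * c = 0 := by
    have h := irr_classInner χ ⟨fun _ => (1 : ℂ), isIrrCharacter_one⟩
    rw [if_neg (fun e => ne_one hG hχ N hN hNp hN1 (congrArg Subtype.val e))] at h
    simp only [classInner, map_one, mul_one] at h
    exact (hsum id rfl).symm.trans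
      ((mul_eq_zero.1 h).resolve_left (inv_ne_zero (natCard_ne_zero G)))
  have hn0 : ((Nat.card N - 1 : ℕ) : ℂ) ≠ 0 := Nat.cast_ne_zero.2 (by omega)
  obtain ⟨m, hm⟩ : Nat.card N - 1 ∣ d := by
    refine natCast_dvd_of_isIntegral_div (by omega) ?_
    rw [show (d : ℂ) / ((Nat.card N - 1 : ℕ) : ℂ) = -c by
      rw [div_eq_iff hn0, eq_neg_of_add_eq_zero_left h0]; ring]
    exact (isCharacter_isIntegral χ.2.isCharacter' x).neg
  have hcm : c = -(m : ℂ) := by
    have h := h0
    rw [hm, Nat.cast_mul, ← mul_add, mul_eq_zero] at h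
    exact eq_neg_of_add_eq_zero_right (h.resolve_left hn0)
  have hcard : Nat.card G = m ^ 2 * Nat.card N * (Nat.card N - 1) := by
    have h := irr_inner_self χ.2
    simp only [classInner] at h
    rw [inv_mul_eq_iff_eq_mul₀ (natCard_ne_zero G), mul_one,
      hsum (fun z => z * conj z) (by simp), hcm, hm] at h
    have h' : ((Nat.card N - 1) * m) * ((Nat.card N - 1) * m) + (Nat.card N - 1) * (m * m) =
        Nat.card G := by
      have : ((((Nat.card N - 1) * m) * ((Nat.card N - 1) * m) + (Nat.card N - 1) * (m * m) : ℕ) :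
          ℂ) = (Nat.card G : ℂ) := by
        rw [← h]
        simp only [Nat.cast_add, Nat.cast_mul, map_neg, map_mul, Complex.conj_natCast]
        ring
      exact_mod_cast this
    obtain ⟨k, hk⟩ : ∃ k, Nat.card N = k + 1 := ⟨Nat.card N - 1, by omega⟩
    rw [hk, Nat.add_sub_cancel] at h' ⊢
    rw [← h']; ring
  have hm0 : m ≠ 0 := fun e => by rw [e] at hcard; simp at hcard
  obtain ⟨a, ha⟩ : ∃ a, m = p ^ a := by
    refine ⟨_, Nat.eq_prime_pow_of_unique_prime_dvd hm0 fun {q} hq hqm => ?_⟩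
    by_contra hqp
    haveI := Fact.mk hq
    let Q : Sylow q G := default
    haveI := Fintype.ofFinite (Q : Subgroup G)
    obtain ⟨j, hj⟩ := inner_character_nat
      (CfsgLib.Char.isCharacter_restrict χ.2.isCharacter' (Q : Subgroup G))
      (isIrrCharacter_one (G := (Q : Subgroup G))).isCharacter'
    have hQ : Nat.card (Q : Subgroup G) ∣ d := by
      refine ⟨j, ?_⟩
      simp only [classInner, map_one, mul_one] at hj
      rw [inv_mul_eq_iff_eq_mul₀ (natCard_ne_zero _),
        Finset.sum_eq_single (1 : (Q : Subgroup G)) (fun b _ hb => by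
          by_contra hne
          have hbN : (b : G) ∈ N := (hN _).2 hne
          obtain ⟨i, hi⟩ := IsPGroup.iff_orderOf.1 hNp ⟨b, hbN⟩
          obtain ⟨i', hi'⟩ := IsPGroup.iff_orderOf.1 Q.2 b
          rw [Subgroup.orderOf_mk] at hi
          rw [← Subgroup.orderOf_coe, hi] at hi'
          have : i' = 0 := by
            by_contra h0
            exact hqp ((Nat.prime_dvd_prime_iff_eq hq Fact.out).1
              (hq.dvd_of_dvd_pow (hi' ▸ dvd_pow_self q h0)))
          refine hb (Subtype.ext (orderOf_eq_one_iff.1 ?_))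
          rw [hi, hi', this, pow_zero]) (fun h => absurd (Finset.mem_univ _) h),
        Subgroup.coe_one, hd1] at hj
      exact_mod_cast hj
    rw [Q.card_eq_multiplicity, hm,
      hq.pow_dvd_iff_le_factorization (Nat.mul_ne_zero (by omega) hm0), hcard,
      Nat.factorization_mul (Nat.mul_ne_zero (pow_ne_zero _ hm0) (by omega)) (by omega),
      Nat.factorization_mul (pow_ne_zero _ hm0) (by omega),
      Nat.factorization_mul (by omega) hm0, Nat.factorization_pow] at hQ
    simp only [Finsupp.add_apply, Finsupp.smul_apply, smul_eq_mul] at hQ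
    have := hq.factorization_pos_of_dvd hm0 hqm
    omega
  refine ⟨a, hn1, ?_, ha ▸ hcard, fun g hg hg1 => ?_⟩
  · rw [hm, ha, mul_comm]
  · rw [hval g, if_neg hg1, if_pos hg, hcm, ha]

include hNp hN1 in
theorem card_pow : ∃ b : ℕ, Nat.card N = p ^ (b + 1) := by
  obtain ⟨b, hb⟩ := IsPGroup.iff_card.1 hNp
  rcases b with _ | b
  · exact absurd (Subgroup.card_eq_one.1 (by rw [hb, pow_zero])) hN1
  · exact ⟨b, hb⟩

include hG hχ hN hNp hN1 in
theorem exists_sylow_eq (H : Subgroup G) (hH : H.index = Nat.card N - 1) :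
    ∃ P : Sylow p G, H = P := by
  obtain ⟨a, hn, -, hcard, -⟩ := main hG hχ N hN hNp hN1
  obtain ⟨b, hb⟩ := card_pow N hNp hN1
  have hHc : Nat.card H = p ^ (2 * a + (b + 1)) := by
    have h := H.card_mul_index
    rw [hH, hcard] at h
    rw [mul_right_cancel₀ (by omega) h, hb, ← pow_mul, ← pow_add, mul_comm a 2]
  have hv : (Nat.card G).factorization p = 2 * a + (b + 1) := by
    rw [← H.card_mul_index, hH, hHc, Nat.factorization_mul (by simp [(Fact.out : p.Prime).ne_zero])
      (by omega), Finsupp.add_apply, (Fact.out : p.Prime).factorization_pow,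
      Finsupp.single_eq_same, Nat.factorization_eq_zero_of_not_dvd, add_zero]
    intro h
    have h1 : p ∣ Nat.card N := hb ▸ dvd_pow_self p (by omega)
    have := Nat.dvd_sub h1 h
    rw [show Nat.card N - (Nat.card N - 1) = 1 by omega] at this
    exact (Fact.out : p.Prime).not_dvd_one this
  exact ⟨Sylow.ofCard H (by rw [hHc, hv]), (Sylow.coe_ofCard H _).symm⟩

include hG hχ hN hNp hN1 in
theorem centralizer_sylow {x : G} (hx : x ∈ N) (hx1 : x ≠ 1) :
    ∃ P : Sylow p G, Subgroup.centralizer ({x} : Set G) = P :=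
  exists_sylow_eq hG hχ N hN hNp hN1 _ (index_centralizer hχ N hN hx hx1)

include hG hχ hN hNp hN1 in
theorem inertia_sylow (μ : IrrCharacter N) (hμ : (μ : N → ℂ) ≠ fun _ => 1) :
    ∃ P : Sylow p G, inertia (μ : N → ℂ) = P := by
  refine exists_sylow_eq hG hχ N hN hNp hN1 _ ?_
  haveI := Fintype.ofFinite G
  haveI := Fintype.ofFinite N
  obtain ⟨a, hn, hdeg, -, hc⟩ := main hG hχ N hN hNp hN1
  set e := charDegree (μ : N → ℂ) with he
  have he1 : (μ : N → ℂ) 1 = e := (charDegree_cast μ.2.isCharacter').symm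
  have hin : classInner (fun n : N => (χ : G → ℂ) n) (μ : N → ℂ) = ((p ^ a * e : ℕ) : ℂ) := by
    have h0 : ∑ n : N, conj ((μ : N → ℂ) n) = 0 := by
      have h := irr_classInner ⟨fun _ => (1 : ℂ), isIrrCharacter_one⟩ μ
      rw [if_neg (fun e => hμ (congrArg Subtype.val e).symm)] at h
      simp only [classInner, one_mul] at h
      exact (mul_eq_zero.1 h).resolve_left (inv_ne_zero (natCard_ne_zero N))
    have hfun : ∀ n : N, (χ : G → ℂ) n * conj ((μ : N → ℂ) n) =
        (if n = 1 then ((p ^ a * Nat.card N : ℕ) : ℂ) * conj ((μ : N → ℂ) n) else 0) -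
          ((p ^ a : ℕ) : ℂ) * conj ((μ : N → ℂ) n) := fun n => by
      split_ifs with h
      · subst h
        rw [Subgroup.coe_one, ← charDegree_cast χ.2.isCharacter', hdeg]
        obtain ⟨k, hk⟩ : ∃ k, Nat.card N = k + 1 := ⟨Nat.card N - 1, by omega⟩
        rw [hk, Nat.add_sub_cancel]
        push_cast; ring
      · rw [hc n n.2 fun e => h (Subtype.ext e)]; ring
    simp only [classInner, hfun, Finset.sum_sub_distrib, Finset.sum_ite_eq', Finset.mem_univ,
      if_true, ← Finset.mul_sum, h0, mul_zero, sub_zero, he1, Complex.conj_natCast]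
    rw [inv_mul_eq_iff_eq_mul₀ (natCard_ne_zero N)]
    push_cast; ring
  have hne : classInner (fun n : N => (χ : G → ℂ) n) (μ : N → ℂ) ≠ 0 := by
    rw [hin]
    refine Nat.cast_ne_zero.2 (Nat.mul_ne_zero (pow_ne_zero _ (Fact.out : p.Prime).ne_zero) ?_)
    exact fun h => irr_one_ne_zero μ (by rw [he1, h, Nat.cast_zero])
  have hd := clifford_degree χ.2 μ.2 hne
  rw [hin, he1, ← charDegree_cast χ.2.isCharacter', hdeg] at hd
  have hd' : p ^ a * (Nat.card N - 1) = p ^ a * e * (inertia (μ : N → ℂ)).index * e := by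
    exact_mod_cast hd
  rw [mul_assoc, mul_assoc] at hd'
  have hd2 := Nat.eq_of_mul_eq_mul_left (pow_pos (Fact.out : p.Prime).pos a) hd'
  have he' : e = 1 := by
    have h2 : e ∣ Nat.card N - (Nat.card N - 1) :=
      Nat.dvd_sub (charDegree_dvd_card μ) (hd2 ▸ Dvd.intro _ rfl)
    rwa [show Nat.card N - (Nat.card N - 1) = 1 by omega, Nat.dvd_one] at h2
  rw [he', one_mul, mul_one] at hd2
  exact hd2.symm

include hG hχ hN hNp hN1 in
theorem eq_of_not_ker (ψ : IrrCharacter G) (h : ¬ ∀ n ∈ N, (ψ : G → ℂ) n = (ψ : G → ℂ) 1) :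
    ψ = χ := by
  haveI := Fintype.ofFinite G
  by_contra hne
  obtain ⟨a, hn, hdeg, hcard, hc⟩ := main hG hχ N hN hNp hN1
  let S : IrrCharacter G → Prop := fun φ => ∀ n ∈ N, (φ : G → ℂ) n = (φ : G → ℂ) 1
  have hχS : ¬ S χ := fun hS => by
    obtain ⟨x, hx, hx1⟩ : ∃ x ∈ N, x ≠ (1 : G) := by
      by_contra h'
      push_neg at h'
      exact hN1 ((Subgroup.eq_bot_iff_forall N).2 h')
    have h1 := (hS x hx).symm.trans (hc x hx hx1)
    rw [← charDegree_cast χ.2.isCharacter', eq_neg_iff_add_eq_zero, ← Nat.cast_add,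
      Nat.cast_eq_zero, add_eq_zero] at h1
    exact pow_ne_zero _ (Fact.out : p.Prime).ne_zero h1.2
  have hall := sum_degree_sq (G := G)
  have hq := sum_degree_sq (G := G ⧸ N)
  simp only [← charDegree_cast (IsIrrCharacter.isCharacter' (Subtype.prop _))] at hall hq
  norm_cast at hall hq
  have hker : ∑ φ ∈ Finset.univ.filter S, charDegree (φ : G → ℂ) ^ 2 = Nat.card (G ⧸ N) := by
    rw [← hq, ← Finset.sum_subtype_eq_sum_filter, Finset.subtype_univ]
    refine (Fintype.sum_equiv ((inflateEquiv (QuotientGroup.mk' N)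
      (QuotientGroup.mk'_surjective N)).trans (Equiv.subtypeEquivRight fun φ => ?_)) _ _
        fun φ => ?_).symm
    · simp [S]
    · rfl
  have h2 : charDegree (ψ : G → ℂ) ^ 2 + charDegree (χ : G → ℂ) ^ 2 ≤
      ∑ φ ∈ Finset.univ.filter (fun φ => ¬ S φ), charDegree (φ : G → ℂ) ^ 2 := by
    rw [← Finset.sum_pair (f := fun φ : IrrCharacter G => charDegree (φ : G → ℂ) ^ 2) hne]
    refine Finset.sum_le_sum_of_subset (fun φ hφ => ?_)
    rw [Finset.mem_insert, Finset.mem_singleton] at hφ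
    refine Finset.mem_filter.2 ⟨Finset.mem_univ _, ?_⟩
    rcases hφ with rfl | rfl
    · exact h
    · exact hχS
  rw [← Finset.sum_filter_add_sum_filter_not Finset.univ S, hker] at hall
  have hsq : charDegree (χ : G → ℂ) ^ 2 + Nat.card (G ⧸ N) = Nat.card G := by
    have hq' : Nat.card (G ⧸ N) = (p ^ a) ^ 2 * (Nat.card N - 1) := by
      have := N.index_mul_card
      rw [hcard, ← Subgroup.index_eq_card] at *
      refine Nat.eq_of_mul_eq_mul_right (by omega : 0 < Nat.card N) ?_
      rw [this]; ring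
    obtain ⟨k, hk⟩ : ∃ k, Nat.card N = k + 1 := ⟨Nat.card N - 1, by omega⟩
    rw [hdeg, hq', hcard, hk, Nat.add_sub_cancel]; ring
  have hpos : 0 < charDegree (ψ : G → ℂ) ^ 2 :=
    pow_pos (Nat.pos_of_ne_zero fun h0 => irr_one_ne_zero ψ (by
      rw [← charDegree_cast ψ.2.isCharacter', h0, Nat.cast_zero])) 2
  omega

include hG hχ hN hNp hN1 in
theorem centralizer_quot {x : G} (hx : x ∉ N) :
    Nat.card (Subgroup.centralizer ({x} : Set G)) =
      Nat.card (Subgroup.centralizer ({(x : G ⧸ N)} : Set (G ⧸ N))) := by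
  haveI := Fintype.ofFinite G
  have h1 := column_orth_conj (IsConj.refl x)
  have h2 := column_orth_conj (IsConj.refl (x : G ⧸ N))
  have key : ∑ φ : IrrCharacter G, (φ : G → ℂ) x * conj ((φ : G → ℂ) x) =
      ∑ φ : IrrCharacter (G ⧸ N), (φ : G ⧸ N → ℂ) x * conj ((φ : G ⧸ N → ℂ) x) := by
    rw [← Finset.sum_filter_add_sum_filter_not Finset.univ
      (fun φ : IrrCharacter G => ∀ n ∈ N, (φ : G → ℂ) n = (φ : G → ℂ) 1),
      Finset.sum_eq_zero (s := Finset.univ.filter
        fun φ : IrrCharacter G => ¬ ∀ n ∈ N, (φ : G → ℂ) n = (φ : G → ℂ) 1) fun φ hφ => by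
        rw [eq_of_not_ker hG hχ N hN hNp hN1 φ (Finset.mem_filter.1 hφ).2,
          not_not.1 (mt (hN x).2 hx), zero_mul], add_zero,
      ← Finset.sum_subtype_eq_sum_filter, Finset.subtype_univ]
    refine (Fintype.sum_equiv ((inflateEquiv (QuotientGroup.mk' N)
      (QuotientGroup.mk'_surjective N)).trans (Equiv.subtypeEquivRight fun φ => ?_)) _ _
        fun φ => ?_).symm
    · simp
    · rfl
  exact_mod_cast h1.symm.trans (key.trans h2)

include hNp in
theorem le_sylow (P : Sylow p G) : N ≤ P := by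
  obtain ⟨Q, hQ⟩ := hNp.exists_le_sylow
  obtain ⟨g, rfl⟩ := MulAction.exists_smul_eq G Q P
  intro n hn
  rw [Sylow.coe_subgroup_smul, Subgroup.mem_pointwise_smul_iff_inv_smul_mem]
  refine hQ ?_
  simpa [MulAut.smul_def] using hNn.conj_mem n hn g⁻¹

include hG hχ hN hNp hN1 in
/-- An element of a Sylow subgroup outside `N` is moved through more than `|Z|` conjugates. -/
theorem mem_of_commutator_mem (P : Sylow p G) (Z : Subgroup (P : Subgroup G))
    (hZ : Nat.card Z < Nat.card N) (z : (P : Subgroup G))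
    (hz : ∀ y : (P : Subgroup G), z * y * z⁻¹ * y⁻¹ ∈ Z) : (z : G) ∈ N := by
  by_contra hzN
  let C := Subgroup.centralizer ({z} : Set (P : Subgroup G))
  have h1 : C.index ≤ Nat.card Z := by
    rw [← ncard_carrier z, ← Nat.card_coe_set_eq]
    refine Nat.card_le_card_of_injective (fun w : (ConjClasses.mk z).carrier =>
      (⟨z * w.1⁻¹, by
        obtain ⟨g, hg⟩ := isConj_iff.1 (ConjClasses.mk_eq_mk_iff_isConj.1
          (ConjClasses.mem_carrier_iff_mk_eq.1 w.2).symm)
        rw [← hg]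
        convert hz g using 1
        group⟩ : Z)) fun u v h => ?_
    exact Subtype.ext (inv_injective (mul_left_cancel (congrArg Subtype.val h)))
  have h2 : Nat.card C * Nat.card N ∣ Nat.card G := by
    refine dvd_trans (Nat.mul_dvd_mul_right ?_ _) (dvd_of_eq N.index_mul_card)
    rw [Subgroup.index_eq_card]
    refine dvd_trans ?_ (Subgroup.card_subgroup_dvd_card
      (Subgroup.centralizer ({((z : G) : G ⧸ N)} : Set (G ⧸ N))))
    rw [← centralizer_quot hG hχ N hN hNp hN1 hzN]
    rw [← Nat.card_congr (Subgroup.equivMapOfInjective C (P : Subgroup G).subtype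
      (Subgroup.subtype_injective _)).toEquiv.symm]
    refine Subgroup.card_dvd_of_le ?_
    rintro _ ⟨y, hy, rfl⟩
    rw [Subgroup.mem_centralizer_singleton_iff]
    exact congrArg Subtype.val (Subgroup.mem_centralizer_singleton_iff.1 hy)
  have h3 : Nat.card C * Nat.card N ≤ Nat.card P := by
    obtain ⟨i, hi⟩ := IsPGroup.iff_card.1 (P.2.to_subgroup C)
    obtain ⟨b, hb⟩ := card_pow N hNp hN1
    rw [hi, hb, ← pow_add, (Fact.out : p.Prime).pow_dvd_iff_le_factorization Nat.card_pos.ne'] at h2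
    rw [hi, hb, ← pow_add, P.card_eq_multiplicity]
    exact Nat.pow_le_pow_right (Fact.out : p.Prime).pos h2
  rw [← C.card_mul_index] at h3
  have := Nat.le_of_mul_le_mul_left h3 Nat.card_pos
  omega

include hG hχ hN hNp hN1 in
theorem exists_upperCentralSeries (P : Sylow p G) :
    ∃ i : ℕ, Subgroup.upperCentralSeries ↥(P : Subgroup G) i =
      N.subgroupOf (P : Subgroup G) := by
  by_contra hne
  push_neg at hne
  have hcN : Nat.card (N.subgroupOf (P : Subgroup G)) = Nat.card N :=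
    Nat.card_congr (Subgroup.subgroupOfEquivOfLe (le_sylow N hNp P)).toEquiv
  have hall : ∀ i, Subgroup.upperCentralSeries ↥(P : Subgroup G) i ≤
      N.subgroupOf (P : Subgroup G) := by
    intro i
    induction i with
    | zero => rw [Subgroup.upperCentralSeries_zero]; exact bot_le
    | succ i ih =>
      intro z hz
      rw [Subgroup.mem_subgroupOf]
      refine mem_of_commutator_mem hG hχ N hN hNp hN1 P _ ?_ z
        (Subgroup.mem_upperCentralSeries_succ_iff.1 hz)
      refine lt_of_le_of_ne (hcN ▸ Nat.card_mono (Set.toFinite _) ih) fun e => hne i ?_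
      exact Subgroup.eq_of_le_of_card_ge ih (hcN.trans e.symm).le
  haveI := P.2.isNilpotent
  obtain ⟨i, hi⟩ := Group.IsNilpotent.nilpotent ↥(P : Subgroup G)
  exact hne i (le_antisymm (hall i) (hi ▸ le_top))

include hG hχ hN hNp hN1 in
theorem center_le (P : Sylow p G) :
    (Subgroup.center ↥(P : Subgroup G)).map (P : Subgroup G).subtype ≤ N := by
  rintro _ ⟨z, hz, rfl⟩
  refine mem_of_commutator_mem hG hχ N hN hNp hN1 P ⊥ ?_ z fun y => ?_
  · rw [Subgroup.card_bot]
    haveI := (Subgroup.nontrivial_iff_ne_bot N).2 hN1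
    exact Finite.one_lt_card
  · rw [Subgroup.mem_bot, ← Subgroup.mem_center_iff.1 hz y]
    group

include hG hχ hN hNp hN1 in
theorem center_eq_iff (P : Sylow p G) :
    (Subgroup.center ↥(P : Subgroup G)).map (P : Subgroup G).subtype = N ↔
      (P : Subgroup G).Normal := by
  set Z := (Subgroup.center ↥(P : Subgroup G)).map (P : Subgroup G).subtype with hZ
  have hle : Z ≤ N := center_le hG hχ N hN hNp hN1 P
  obtain ⟨x, hx, hx1⟩ : ∃ x ∈ N, x ≠ (1 : G) := by
    by_contra h
    push_neg at h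
    exact hN1 ((Subgroup.eq_bot_iff_forall N).2 h)
  constructor
  · intro he
    have hC : ∀ y ∈ N, y ≠ 1 → (P : Subgroup G) = Subgroup.centralizer ({y} : Set G) := by
      intro y hy hy1
      obtain ⟨Q, hQ⟩ := centralizer_sylow hG hχ N hN hNp hN1 hy hy1
      refine Subgroup.eq_of_le_of_card_ge (fun w hw => ?_) (le_of_eq ?_)
      · rw [← he] at hy
        obtain ⟨z, hz, rfl⟩ := hy
        rw [Subgroup.mem_centralizer_singleton_iff]
        exact congrArg Subtype.val (Subgroup.mem_center_iff.1 hz ⟨w, hw⟩)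
      · rw [hQ, P.card_eq_multiplicity, Q.card_eq_multiplicity]
    refine ⟨fun w hw g => ?_⟩
    have hgx : g * x * g⁻¹ ≠ 1 := fun e => hx1 (by
      rw [mul_inv_eq_one] at e
      simpa using mul_left_cancel (e.trans (mul_one g).symm))
    rw [hC _ (hNn.conj_mem x hx g) hgx, Subgroup.mem_centralizer_singleton_iff]
    rw [hC x hx hx1, Subgroup.mem_centralizer_singleton_iff] at hw
    calc g * w * g⁻¹ * (g * x * g⁻¹) = g * (w * x) * g⁻¹ := by group
      _ = g * x * g⁻¹ * (g * w * g⁻¹) := by rw [hw]; group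
  · intro hP
    refine le_antisymm hle fun n hn => ?_
    by_cases hn1 : n = 1
    · rw [hn1]; exact Z.one_mem
    haveI : Nontrivial ↥(P : Subgroup G) := (Subgroup.nontrivial_iff_ne_bot _).2 fun e =>
      hx1 (Subgroup.mem_bot.1 (e ▸ le_sylow N hNp P hx))
    haveI := P.2.center_nontrivial
    obtain ⟨⟨z, hz⟩, hz1⟩ := exists_ne (1 : Subgroup.center ↥(P : Subgroup G))
    have hz1' : (z : G) ≠ 1 := fun e => hz1 (Subtype.ext (Subtype.ext e))
    obtain ⟨g, rfl⟩ := isConj_iff.1
      (conj_of_mem hχ N hN (hle ⟨z, hz, rfl⟩) hz1' hn hn1)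
    refine ⟨⟨g * z * g⁻¹, hP.conj_mem z z.2 g⟩, ?_, rfl⟩
    refine Subgroup.mem_center_iff.2 fun y => Subtype.ext ?_
    have hy := congrArg Subtype.val
      (Subgroup.mem_center_iff.1 hz ⟨g⁻¹ * y * g⁻¹⁻¹, hP.conj_mem y y.2 g⁻¹⟩)
    simp only [Subgroup.coe_mul] at hy ⊢
    calc (y : G) * (g * z * g⁻¹) = g * (g⁻¹ * y * g⁻¹⁻¹ * z) * g⁻¹ := by group
      _ = g * z * g⁻¹ * y := by rw [hy]; group

end CfsgLib.TwoClass
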