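import Cfsg.Agent.Lib.PermZassenhausPSL
import Cfsg.Agent.Lib.PermSharpPGL
import Cfsg.Agent.Lib.CharCN5
import Mathlib.GroupTheory.Transfer
import Mathlib.LinearAlgebra.Matrix.GeneralLinearGroup.Projective

/-!
# Simple groups with transitive commuting (Brauer–Suzuki–Wall)
-/

set_option autoImplicit false
set_option linter.unusedSectionVars false
set_option linter.style.haveILetI false

namespace CfsgLib.CTGroup

open Subgroup MulAction
open scoped Pointwise

universe u

attribute [local instance] _root_.Classical.propDecidable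

variable {G : Type u} [Group G]

/-- Commuting is transitive on nonidentity elements. -/
def CT (G : Type u) [Group G] : Prop :=
  ∀ a b c : G, a ≠ 1 → b ≠ 1 → c ≠ 1 → Commute a b → Commute b c → Commute a c

theorem cent_abelian (hCT : CT G) {x : G} (hx : x ≠ 1) {a b : G} (ha : Commute a x)
    (hb : Commute b x) : Commute a b := by
  by_cases ha1 : a = 1
  · subst ha1; exact Commute.one_left b
  by_cases hb1 : b = 1
  · subst hb1; exact Commute.one_right a
  exact hCT a x b ha1 hx hb1 ha hb.symm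

theorem mem_cent {x y : G} : y ∈ centralizer ({x} : Set G) ↔ Commute y x := by
  rw [mem_centralizer_singleton_iff]; exact Iff.rfl

theorem cent_eq (hCT : CT G) {t x : G} (ht : t ≠ 1) (hx : x ≠ 1) (hxt : Commute x t) :
    centralizer ({x} : Set G) = centralizer ({t} : Set G) := by
  ext y
  rw [mem_cent, mem_cent]
  exact ⟨fun h => cent_abelian hCT hx h hxt.symm, fun h => cent_abelian hCT ht h hxt⟩

theorem map_conj_cent (g t : G) :
    (centralizer ({t} : Set G)).map (MulAut.conj g).toMonoidHom =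
      centralizer ({g * t * g⁻¹} : Set G) := by
  ext y
  rw [Subgroup.mem_map_equiv, mem_cent, mem_cent, MulAut.conj_symm_apply]
  constructor
  · intro h
    have h' := h.map (MulAut.conj g).toMonoidHom
    simpa [mul_assoc] using h'
  · intro h
    have h' := h.map (MulAut.conj g⁻¹).toMonoidHom
    simpa [mul_assoc] using h'

section Simple

variable [Finite G] [IsSimpleGroup G] (hG : ¬ IsMulCommutative G) (hCT : CT G)
include hG

theorem center_bot : Subgroup.center G = ⊥ := by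
  rcases Subgroup.Normal.eq_bot_or_eq_top (inferInstance : (Subgroup.center G).Normal) with h | h
  · exact h
  · exact absurd ⟨⟨fun a b => (Subgroup.mem_center_iff.1 (h ▸ Subgroup.mem_top a :
      a ∈ Subgroup.center G) b).symm⟩⟩ hG

theorem even_card (hCT : CT G) : ∃ t : G, orderOf t = 2 := by
  haveI : Fact (Nat.Prime 2) := ⟨Nat.prime_two⟩
  refine exists_prime_orderOf_dvd_card' 2 ?_
  by_contra hodd
  have hCN : Cfsg.IsCNGroup G := fun g hg => by
    haveI : IsMulCommutative (centralizer ({g} : Set G)) := ⟨⟨fun a b => Subtype.ext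
      (cent_abelian hCT hg (mem_cent.1 a.2) (mem_cent.1 b.2)).eq⟩⟩
    letI : CommGroup (centralizer ({g} : Set G)) := IsMulCommutative.instCommGroup
    exact CommGroup.isNilpotent
  have hs : Group.IsSolvable G :=
    CfsgLib.CN.isSolvable_of_odd _ G rfl (Nat.odd_iff.2 (Nat.two_dvd_ne_zero.1 hodd)) hCN
  exact hG ⟨⟨fun a b => IsSimpleGroup.comm_iff_isSolvable.2 hs a b⟩⟩

end Simple

variable [Finite G]

/-- The standing data: an involution `t`, its centraliser `A` and the normaliser `N`. -/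
structure Data (G : Type u) [Group G] [Finite G] where
  simple : IsSimpleGroup G
  nab : ¬ IsMulCommutative G
  ct : CT G
  t : G
  ht : orderOf t = 2

namespace Data

variable (D : Data G)
include D

/-- The centraliser of the involution. -/
def A : Subgroup G := centralizer ({D.t} : Set G)

/-- Its normaliser. -/
def N : Subgroup G := normalizer (D.A : Set G)

theorem t_ne : D.t ≠ 1 := fun h => by simpa [h] using D.ht

theorem t_mem : D.t ∈ D.A := mem_cent.2 (Commute.refl _)

theorem A_le_N : D.A ≤ D.N := Subgroup.le_normalizer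

theorem comm {a b : G} (ha : a ∈ D.A) (hb : b ∈ D.A) : Commute a b :=
  cent_abelian D.ct D.t_ne (mem_cent.1 ha) (mem_cent.1 hb)

theorem cent_of_mem {x : G} (hx : x ∈ D.A) (hx1 : x ≠ 1) : centralizer ({x} : Set G) = D.A :=
  cent_eq D.ct D.t_ne hx1 (mem_cent.1 hx)

theorem mem_of_commute {x y : G} (hx : x ∈ D.A) (hx1 : x ≠ 1) (h : Commute y x) : y ∈ D.A := by
  rw [← D.cent_of_mem hx hx1]; exact mem_cent.2 h

theorem conj_mem_N_iff {g : G} : g ∈ D.N ↔ D.A.map (MulAut.conj g).toMonoidHom = D.A :=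
  mem_normalizer_iff_map_conj_eq

/-- `A` is a TI subgroup. -/
theorem ti {g x : G} (hx : x ∈ D.A) (hgx : g * x * g⁻¹ ∈ D.A) (hx1 : x ≠ 1) : g ∈ D.N := by
  rw [D.conj_mem_N_iff]
  conv_lhs => rw [← D.cent_of_mem hx hx1, map_conj_cent]
  exact D.cent_of_mem hgx (by simpa using hx1)

theorem conj_mem {n a : G} (hn : n ∈ D.N) (ha : a ∈ D.A) : n * a * n⁻¹ ∈ D.A :=
  (mem_normalizer_iff.1 hn a).1 ha

theorem sylow_le : ∃ S : Sylow 2 G, (S : Subgroup G) ≤ D.A ∧ D.N ≤ normalizer ((S : Subgroup G) : Set G) := by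
  haveI : Fact (Nat.Prime 2) := ⟨Nat.prime_two⟩
  have hp : IsPGroup 2 (zpowers D.t) :=
    IsPGroup.of_card (n := 1) (by rw [Nat.card_zpowers, D.ht, pow_one])
  obtain ⟨S, hS⟩ := hp.exists_le_sylow
  haveI : Nontrivial (S : Subgroup G) := by
    refine (Subgroup.nontrivial_iff_ne_bot _).2 fun h => D.t_ne ?_
    have := hS (mem_zpowers D.t)
    rw [h, Subgroup.mem_bot] at this
    exact this
  haveI := S.2.center_nontrivial
  obtain ⟨z, hz1⟩ := exists_ne (1 : Subgroup.center (S : Subgroup G))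
  have hzS : ∀ y ∈ (S : Subgroup G), Commute y ((z : (S : Subgroup G)) : G) := fun y hy =>
    congrArg Subtype.val (Subgroup.mem_center_iff.1 z.2 ⟨y, hy⟩)
  have hzA : ((z : (S : Subgroup G)) : G) ∈ D.A :=
    mem_cent.2 (hzS D.t (hS (mem_zpowers D.t))).symm
  have hz1' : ((z : (S : Subgroup G)) : G) ≠ 1 := fun h => hz1 (Subtype.ext (Subtype.ext h))
  have hSA : (S : Subgroup G) ≤ D.A := fun y hy => D.mem_of_commute hzA hz1' (hzS y hy)
  refine ⟨S, hSA, fun n hn => ?_⟩
  rw [mem_normalizer_iff_map_conj_eq]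
  set S' := (S : Subgroup G).map (MulAut.conj n).toMonoidHom with hS'
  have hS'A : S' ≤ D.A := by
    rintro _ ⟨s, hs, rfl⟩
    show MulAut.conj n s ∈ D.A
    rw [MulAut.conj_apply]
    exact D.conj_mem hn (hSA hs)
  have hn' : (S : Subgroup G) ≤ normalizer (S' : Set G) := fun s hs =>
    mem_normalizer_iff.2 fun b => by
      constructor
      · intro hb
        rw [(D.comm (hSA hs) (hS'A hb)).eq, mul_inv_cancel_right]; exact hb
      · intro hb
        have hcomm := D.comm (D.A.inv_mem (hSA hs)) (hS'A hb)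
        have e : b = s * b * s⁻¹ := by
          calc b = s⁻¹ * (s * b * s⁻¹) * s := by group
            _ = s * b * s⁻¹ * s⁻¹ * s := by rw [hcomm.eq]
            _ = s * b * s⁻¹ := by group
        rwa [← e] at hb
  have hP : IsPGroup 2 ((S : Subgroup G) ⊔ S' : Subgroup G) :=
    IsPGroup.to_sup_of_normal_right' S.2 (S.2.map _) hn'
  have h := S.3 hP le_sup_left
  have hle : S' ≤ (S : Subgroup G) := le_trans le_sup_right h.le
  exact Subgroup.eq_of_le_of_card_ge hle
    (Subgroup.card_map_of_injective (MulAut.conj n).injective).ge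

theorem invol_mem {n : G} (hn : n ∈ D.N) (h2 : orderOf n = 2) : n ∈ D.A := by
  haveI : Fact (Nat.Prime 2) := ⟨Nat.prime_two⟩
  obtain ⟨S, hSA, hNS⟩ := D.sylow_le
  have hp : IsPGroup 2 (zpowers n) := IsPGroup.of_card (n := 1) (by rw [Nat.card_zpowers, h2, pow_one])
  have hle : zpowers n ≤ normalizer ((S : Subgroup G) : Set G) := by
    rw [zpowers_le]; exact hNS hn
  have hP : IsPGroup 2 (zpowers n ⊔ (S : Subgroup G) : Subgroup G) :=
    IsPGroup.to_sup_of_normal_right' hp S.2 hle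
  have h := S.3 hP le_sup_right
  exact hSA (h.le ((le_sup_left : zpowers n ≤ _) (mem_zpowers n)))

omit D in
theorem inv_of_invol {u : G} (h : orderOf u = 2) : u⁻¹ = u := by
  have := pow_orderOf_eq_one u
  rw [h, pow_two] at this
  exact inv_eq_of_mul_eq_one_right this

theorem exists_invol_not_mem : ∃ w : G, orderOf w = 2 ∧ w ∉ D.A := by
  haveI := D.simple
  by_contra hcon
  push Not at hcon
  have hle : Subgroup.normalClosure ({D.t} : Set G) ≤ D.A := by
    refine (Subgroup.closure_le _).2 fun x hx => ?_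
    obtain ⟨a, ha, hc⟩ := Group.mem_conjugatesOfSet_iff.1 hx
    rw [Set.mem_singleton_iff] at ha
    subst ha
    obtain ⟨g, rfl⟩ := isConj_iff.1 hc
    exact hcon _ (by rw [← MulAut.conj_apply, MulEquiv.orderOf_eq]; exact D.ht)
  rcases Subgroup.Normal.eq_bot_or_eq_top
    (inferInstance : (Subgroup.normalClosure ({D.t} : Set G)).Normal) with h | h
  · have := Subgroup.subset_normalClosure (Set.mem_singleton D.t)
    rw [h, SetLike.mem_coe, Subgroup.mem_bot] at this
    exact D.t_ne this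
  · exact D.nab ⟨⟨fun a b => D.comm (hle (h ▸ Subgroup.mem_top a)) (hle (h ▸ Subgroup.mem_top b))⟩⟩

theorem isConj_of_not_commute {u v : G} (hu : orderOf u = 2) (hv : orderOf v = 2)
    (h : ¬ Commute u v) : IsConj u v := by
  have hu' := inv_of_invol hu
  have hv' := inv_of_invol hv
  have huu : u * u = 1 := by
    have := pow_orderOf_eq_one u; rwa [hu, pow_two] at this
  have hvv : v * v = 1 := by
    have := pow_orderOf_eq_one v; rwa [hv, pow_two] at this
  set d := u * v with hd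
  have hdu : u * d * u⁻¹ = d⁻¹ := by rw [hd, mul_inv_rev, hu', hv', ← mul_assoc, huu, one_mul]
  have hdv : v * d * v⁻¹ = d⁻¹ := by rw [hd, mul_inv_rev, hu', hv']; simp [mul_assoc, hvv]
  have hpow : ∀ k : ℕ, u * d ^ k * u⁻¹ = (d ^ k)⁻¹ ∧ v * d ^ k * v⁻¹ = (d ^ k)⁻¹ := fun k => by
    rw [← conj_pow, ← conj_pow, hdu, hdv, inv_pow]; exact ⟨rfl, rfl⟩
  rcases Nat.even_or_odd (orderOf d) with ⟨m, hm⟩ | ⟨m, hm⟩
  · exfalso
    have hpos := orderOf_pos d
    have hm1 : d ^ m ≠ 1 := pow_ne_one_of_lt_orderOf (by omega) (by omega)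
    have hinv : (d ^ m)⁻¹ = d ^ m := by
      refine inv_eq_of_mul_eq_one_right ?_
      rw [← pow_add, ← hm, pow_orderOf_eq_one]
    have c1 : Commute u (d ^ m) := by
      have := (hpow m).1
      rw [hinv] at this
      exact mul_inv_eq_iff_eq_mul.1 this
    have c2 : Commute v (d ^ m) := by
      have := (hpow m).2
      rw [hinv] at this
      exact mul_inv_eq_iff_eq_mul.1 this
    exact h (cent_abelian D.ct hm1 c1 c2)
  · refine isConj_iff.2 ⟨d ^ m, ?_⟩
    have h1 := (hpow m).1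
    have e : d ^ m * u * (d ^ m)⁻¹ = u * ((d ^ m)⁻¹ * (d ^ m)⁻¹) := by
      have h2 : d ^ m * u = u * (d ^ m)⁻¹ := by
        calc d ^ m * u = (u * u) * (d ^ m * u) := by rw [huu, one_mul]
          _ = u * (u * d ^ m * u⁻¹) := by rw [hu']; simp [mul_assoc]
          _ = u * (d ^ m)⁻¹ := by rw [h1]
      rw [h2, mul_assoc]
    rw [e]
    have hdd : (d ^ m)⁻¹ * (d ^ m)⁻¹ = d := by
      rw [← mul_inv_rev, ← pow_add]
      refine inv_eq_of_mul_eq_one_right ?_
      rw [← pow_succ, show m + m + 1 = orderOf d by omega, pow_orderOf_eq_one]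
    rw [hdd, hd, ← mul_assoc, huu, one_mul]

theorem isConj_invol {u v : G} (hu : orderOf u = 2) (hv : orderOf v = 2) : IsConj u v := by
  have key : ∀ x : G, orderOf x = 2 → IsConj D.t x := by
    intro x hx
    by_cases hc : Commute D.t x
    · obtain ⟨w, hw, hwA⟩ := D.exists_invol_not_mem
      have h1 : ¬ Commute D.t w := fun h => hwA (mem_cent.2 h.symm)
      have h2 : ¬ Commute w x := fun h =>
        hwA (D.mem_of_commute (mem_cent.2 hc.symm) (fun e => by simp [e] at hx) h)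
      exact (D.isConj_of_not_commute D.ht hw h1).trans (D.isConj_of_not_commute hw hx h2)
    · exact D.isConj_of_not_commute D.ht hx hc
  exact (key u hu).symm.trans (key v hv)

/-- The involutions in `A`. -/
def invA : Set G := {x | orderOf x = 2 ∧ x ∈ D.A}

theorem index_A : (D.A.subgroupOf D.N).index = Nat.card D.invA := by
  refine Nat.card_eq_of_bijective (Quotient.lift (fun n : D.N => (⟨(n : G) * D.t * (n : G)⁻¹,
    ⟨by rw [← MulAut.conj_apply, MulEquiv.orderOf_eq]; exact D.ht, D.conj_mem n.2 D.t_mem⟩⟩ : D.invA))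
    ?_) ⟨?_, ?_⟩
  · intro n m h
    have h' : n⁻¹ * m ∈ D.A.subgroupOf D.N := QuotientGroup.leftRel_apply.1 h
    rw [mem_subgroupOf] at h'
    apply Subtype.ext
    have hc : ((n : G)⁻¹ * (m : G)) * D.t = D.t * ((n : G)⁻¹ * (m : G)) := (mem_cent.1 h').eq
    show (n : G) * D.t * (n : G)⁻¹ = (m : G) * D.t * (m : G)⁻¹
    calc (n : G) * D.t * (n : G)⁻¹ = n * (D.t * ((n : G)⁻¹ * m)) * (m : G)⁻¹ := by group
      _ = n * ((n : G)⁻¹ * m * D.t) * (m : G)⁻¹ := by rw [hc]
      _ = m * D.t * (m : G)⁻¹ := by group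
  · intro x y
    refine Quotient.inductionOn₂ x y fun n m h => ?_
    have h' : (n : G) * D.t * (n : G)⁻¹ = (m : G) * D.t * (m : G)⁻¹ := congrArg Subtype.val h
    refine Quotient.sound (QuotientGroup.leftRel_apply.2 ?_)
    rw [mem_subgroupOf]
    show (n : G)⁻¹ * (m : G) ∈ D.A
    refine mem_cent.2 ?_
    show (n : G)⁻¹ * m * D.t = D.t * ((n : G)⁻¹ * m)
    calc (n : G)⁻¹ * m * D.t = (n : G)⁻¹ * (m * D.t * (m : G)⁻¹) * m := by group
      _ = (n : G)⁻¹ * (n * D.t * (n : G)⁻¹) * m := by rw [h']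
      _ = D.t * ((n : G)⁻¹ * m) := by group
  · rintro ⟨x, hx, hxA⟩
    obtain ⟨g, hg⟩ := isConj_iff.1 (D.isConj_invol D.ht hx)
    exact ⟨Quotient.mk _ ⟨g, D.ti D.t_mem (hg.symm ▸ hxA) D.t_ne⟩, Subtype.ext hg⟩

theorem card_N : Nat.card D.N = Nat.card D.A * Nat.card D.invA := by
  rw [← D.index_A, ← Nat.card_congr (subgroupOfEquivOfLe D.A_le_N).toEquiv, card_mul_index]

theorem two_le_invA : 2 ≤ Nat.card D.invA := by
  haveI : Fact (Nat.Prime 2) := ⟨Nat.prime_two⟩
  haveI := D.simple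
  by_contra hlt
  have hpos : 0 < Nat.card D.invA := Nat.card_pos_iff.2 ⟨⟨⟨D.t, D.ht, D.t_mem⟩⟩, inferInstance⟩
  have hNA : D.N = D.A := (Subgroup.eq_of_le_of_card_ge D.A_le_N
    (by rw [D.card_N, show Nat.card D.invA = 1 by omega, mul_one])).symm
  obtain ⟨S, hSA, -⟩ := D.sylow_le
  have htS : D.t ∈ (S : Subgroup G) := by
    have hp : IsPGroup 2 (zpowers D.t) :=
      IsPGroup.of_card (n := 1) (by rw [Nat.card_zpowers, D.ht, pow_one])
    have hle : zpowers D.t ≤ normalizer ((S : Subgroup G) : Set G) := by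
      rw [zpowers_le]
      refine mem_normalizer_iff.2 fun b => ⟨fun hb => ?_, fun hb => ?_⟩
      · rw [(D.comm D.t_mem (hSA hb)).eq, mul_inv_cancel_right]; exact hb
      · have hb' := hSA hb
        have hbA : b ∈ D.A := by
          have := D.A.mul_mem (D.A.mul_mem (D.A.inv_mem D.t_mem) hb') D.t_mem
          simpa [mul_assoc] using this
        rwa [(D.comm D.t_mem hbA).eq, mul_inv_cancel_right] at hb
    have hP : IsPGroup 2 (zpowers D.t ⊔ (S : Subgroup G) : Subgroup G) :=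
      IsPGroup.to_sup_of_normal_right' hp S.2 hle
    exact (S.3 hP le_sup_right).le ((le_sup_left : zpowers D.t ≤ _) (mem_zpowers D.t))
  have hnorm : normalizer ((S : Subgroup G) : Set G) ≤ centralizer ((S : Subgroup G) : Set G) := by
    intro x hx
    have hxN : x ∈ D.N := D.ti D.t_mem (hSA ((mem_normalizer_iff.1 hx D.t).1 htS)) D.t_ne
    rw [hNA] at hxN
    exact mem_centralizer_iff.2 fun y hy => (D.comm (hSA hy) hxN).eq
  have hc := MonoidHom.ker_transferSylow_isComplement' S hnorm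
  rcases Subgroup.Normal.eq_bot_or_eq_top
    (inferInstance : (MonoidHom.transferSylow S hnorm).ker.Normal) with h | h
  · rw [h] at hc
    have hS : (S : Subgroup G) = ⊤ := Subgroup.isComplement'_bot_left.1 hc
    exact D.nab ⟨⟨fun a b => D.comm (hSA (hS ▸ Subgroup.mem_top a)) (hSA (hS ▸ Subgroup.mem_top b))⟩⟩
  · rw [h] at hc
    have hS : (S : Subgroup G) = ⊥ := Subgroup.isComplement'_top_left.1 hc
    rw [hS, Subgroup.mem_bot] at htS
    exact D.t_ne htS

theorem card_invol :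
    Nat.card {x : G // orderOf x = 2} = D.N.index * Nat.card D.invA := by
  haveI : Fintype G := Fintype.ofFinite G
  have h1 : Nat.card {x : G // orderOf x = 2} * Nat.card D.A = Nat.card G := by
    rw [← D.A.card_mul_index, mul_comm]
    congr 1
    symm
    refine Nat.card_eq_of_bijective (Quotient.lift (fun g : G =>
      (⟨g * D.t * g⁻¹, by rw [← MulAut.conj_apply, MulEquiv.orderOf_eq]; exact D.ht⟩ :
        {x : G // orderOf x = 2})) ?_) ⟨?_, ?_⟩
    · intro n m h
      have h' : n⁻¹ * m ∈ D.A := QuotientGroup.leftRel_apply.1 h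
      have hc : n⁻¹ * m * D.t = D.t * (n⁻¹ * m) := (mem_cent.1 h').eq
      apply Subtype.ext
      show n * D.t * n⁻¹ = m * D.t * m⁻¹
      calc n * D.t * n⁻¹ = n * (D.t * (n⁻¹ * m)) * m⁻¹ := by group
        _ = n * (n⁻¹ * m * D.t) * m⁻¹ := by rw [hc]
        _ = m * D.t * m⁻¹ := by group
    · intro x y
      refine Quotient.inductionOn₂ x y fun n m h => ?_
      have h' : n * D.t * n⁻¹ = m * D.t * m⁻¹ := congrArg Subtype.val h
      refine Quotient.sound (QuotientGroup.leftRel_apply.2 (mem_cent.2 ?_))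
      show n⁻¹ * m * D.t = D.t * (n⁻¹ * m)
      calc n⁻¹ * m * D.t = n⁻¹ * (m * D.t * m⁻¹) * m := by group
        _ = n⁻¹ * (n * D.t * n⁻¹) * m := by rw [h']
        _ = D.t * (n⁻¹ * m) := by group
    · rintro ⟨x, hx⟩
      obtain ⟨g, hg⟩ := isConj_iff.1 (D.isConj_invol D.ht hx)
      exact ⟨Quotient.mk _ g, Subtype.ext hg⟩
  have h2 := D.N.card_mul_index
  rw [← h1, D.card_N] at h2
  refine Nat.eq_of_mul_eq_mul_right (Nat.card_pos : 0 < Nat.card D.A) ?_
  rw [← h2]; ring

/-- The base point. -/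
def base : G ⧸ D.N := ((1 : G) : G ⧸ D.N)

theorem smul_base_eq_iff {g : G} : g • D.base = D.base ↔ g ∈ D.N := by
  rw [base, MulAction.Quotient.smul_coe, smul_eq_mul, mul_one, QuotientGroup.eq, mul_one,
    inv_mem_iff]

theorem A_fix_only {a : G} (ha : a ∈ D.A) {p : G ⧸ D.N} (hp : p ≠ D.base) (hap : a • p = p)
    (hu : ∃ u : G, orderOf u = 2 ∧ u • D.base = p) : a = 1 := by
  obtain ⟨u, hu2, hup⟩ := hu
  by_contra ha1
  have hui := inv_of_invol hu2
  have huN : u ∉ D.N := fun h => hp (by rw [← hup]; exact D.smul_base_eq_iff.2 h)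
  set a' := u * a * u⁻¹ with ha'
  have hfix : u • p = D.base := by
    rw [← hup, ← mul_smul]
    have : u * u = 1 := by have := pow_orderOf_eq_one u; rwa [hu2, pow_two] at this
    rw [this, one_smul]
  have hua : u * a * u ∈ D.N := by
    rw [← D.smul_base_eq_iff, mul_smul, mul_smul, hup, hap, hfix]
  have ha'N : a' ∈ D.N := by rw [ha', hui]; exact hua
  -- the commutator lies in both `A` and its conjugate
  set c := a * a' * a⁻¹ * a'⁻¹ with hc
  have hcA : c ∈ D.A := by
    rw [hc, mul_assoc, mul_assoc]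
    exact D.A.mul_mem ha (by rw [← mul_assoc]; exact D.conj_mem ha'N (D.A.inv_mem ha))
  have hcA' : u⁻¹ * c * u ∈ D.A := by
    have e : u⁻¹ * c * u = (u⁻¹ * a * u) * a * (u⁻¹ * a * u)⁻¹ * a⁻¹ := by
      rw [hc, ha']; group
    rw [e]
    exact D.A.mul_mem (D.conj_mem (by rw [hui]; exact hua) ha) (D.A.inv_mem ha)
  have hc1 : c = 1 := by
    by_contra hc1
    apply huN
    have := D.ti hcA (g := u⁻¹) (by rwa [inv_inv]) hc1
    rwa [inv_mem_iff] at this
  have hcomm : Commute a' a := by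
    have h1 : a * a' * a⁻¹ = a' := mul_inv_eq_one.1 hc1
    exact (mul_inv_eq_iff_eq_mul.1 h1).symm
  have ha'A : a' ∈ D.A := D.mem_of_commute ha ha1 hcomm
  exact huN (D.ti ha (by rw [← ha']; exact ha'A) ha1)

/-- Involutions moving the base point to `p`. -/
def swaps (p : G ⧸ D.N) : Set G := {u | orderOf u = 2 ∧ u • D.base = p}

theorem two_point {p : G ⧸ D.N} (hp : p ≠ D.base) {u₀ : G} (hu₀ : u₀ ∈ D.swaps p) :
    Nat.card (D.swaps p) ≤
        Nat.card ↥(stabilizer G D.base ⊓ stabilizer G p) ∧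
      Nat.card ↥(stabilizer G D.base ⊓ stabilizer G p) ≤ Nat.card D.invA ∧
      (Nat.card D.invA ≤ Nat.card (D.swaps p) →
        ∀ d ∈ stabilizer G D.base ⊓ stabilizer G p, u₀ * d * u₀⁻¹ = d⁻¹) := by
  set H := stabilizer G D.base ⊓ stabilizer G p with hH
  have hp' : ∀ u ∈ D.swaps p, u • p = D.base := fun u hu => by
    rw [← hu.2, ← mul_smul]
    have : u * u = 1 := by have := pow_orderOf_eq_one u; rwa [hu.1, pow_two] at this
    rw [this, one_smul]
  let f : D.swaps p → H := fun u => ⟨u₀ * u, mem_stabilizer_iff.2 (by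
    rw [mul_smul, u.2.2, hp' u₀ hu₀]), by
    show (u₀ * (u : G)) • p = p
    rw [mul_smul, hp' u u.2, hu₀.2]⟩
  have hfinj : Function.Injective f := fun a b h =>
    Subtype.ext (mul_left_cancel (congrArg Subtype.val h))
  have h1 := Nat.card_le_card_of_injective f hfinj
  have hHN : H ≤ D.N := fun h hh => D.smul_base_eq_iff.1 (mem_stabilizer_iff.1 hh.1)
  have h2 : Nat.card H ≤ Nat.card D.invA := by
    rw [← D.index_A, Subgroup.index_eq_card]
    refine Nat.card_le_card_of_injective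
      (fun h : H => ((⟨(h : G), hHN h.2⟩ : D.N) : D.N ⧸ D.A.subgroupOf D.N)) fun a b h => ?_
    have h1' := QuotientGroup.eq.1 (show ((⟨(a : G), hHN a.2⟩ : D.N) : D.N ⧸ D.A.subgroupOf D.N) =
      ((⟨(b : G), hHN b.2⟩ : D.N) : D.N ⧸ D.A.subgroupOf D.N) from h)
    have h' : (a : G)⁻¹ * (b : G) ∈ D.A := h1'
    have := D.A_fix_only h' hp (by
      rw [mul_smul, mem_stabilizer_iff.1 b.2.2, inv_smul_eq_iff, mem_stabilizer_iff.1 a.2.2])
      ⟨u₀, hu₀.1, hu₀.2⟩
    exact Subtype.ext (inv_mul_eq_one.1 this)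
  refine ⟨h1, h2, fun hle d hd => ?_⟩
  obtain ⟨⟨u, hu⟩, hfu⟩ := (hfinj.bijective_of_nat_card_le (h2.trans hle)).2 ⟨d, hd⟩
  have hdu : u₀ * u = d := congrArg Subtype.val hfu
  rw [← hdu, mul_inv_rev, inv_of_invol hu₀.1, inv_of_invol hu.1]
  have : u₀ * u₀ = 1 := by have := pow_orderOf_eq_one u₀; rwa [hu₀.1, pow_two] at this
  rw [← mul_assoc, this, one_mul]

theorem swaps_card {p : G ⧸ D.N} (hp : p ≠ D.base) : Nat.card (D.swaps p) = Nat.card D.invA := by
  haveI : Fintype G := Fintype.ofFinite G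
  haveI : Fintype (G ⧸ D.N) := Fintype.ofFinite _
  have hle : ∀ q ∈ Finset.univ.erase D.base, Nat.card (D.swaps q) ≤ Nat.card D.invA := by
    intro q hq
    rcases isEmpty_or_nonempty (D.swaps q) with h | ⟨⟨u, hu⟩⟩
    · rw [Nat.card_of_isEmpty]; exact Nat.zero_le _
    · obtain ⟨h1, h2, -⟩ := D.two_point (Finset.ne_of_mem_erase hq) hu
      exact h1.trans h2
  have hsum : ∑ q : G ⧸ D.N, Nat.card (D.swaps q) = D.N.index * Nat.card D.invA := by
    rw [← D.card_invol, ← Nat.card_sigma]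
    exact Nat.card_congr
      { toFun := fun s => ⟨s.2.1, s.2.2.1⟩
        invFun := fun u => ⟨(u : G) • D.base, ⟨u, u.2, rfl⟩⟩
        left_inv := fun s => by
          obtain ⟨q, u, hu2, rfl⟩ := s
          rfl
        right_inv := fun u => rfl }
  have hbase : Nat.card (D.swaps D.base) = Nat.card D.invA := by
    refine Nat.card_congr (Equiv.setCongr (Set.ext fun u => ?_))
    exact ⟨fun h => ⟨h.1, D.invol_mem (D.smul_base_eq_iff.1 h.2) h.1⟩,
      fun h => ⟨h.1, D.smul_base_eq_iff.2 (D.A_le_N h.2)⟩⟩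
  rw [← Finset.add_sum_erase _ _ (Finset.mem_univ D.base), hbase] at hsum
  have hidx : D.N.index = Fintype.card (G ⧸ D.N) := by
    rw [Subgroup.index_eq_card, Nat.card_eq_fintype_card]
  have hconst : ∑ _q ∈ Finset.univ.erase D.base, Nat.card D.invA =
      (Fintype.card (G ⧸ D.N) - 1) * Nat.card D.invA := by
    rw [Finset.sum_const, smul_eq_mul, Finset.card_erase_of_mem (Finset.mem_univ _),
      Finset.card_univ]
  have hpos : 0 < Fintype.card (G ⧸ D.N) := Fintype.card_pos_iff.2 ⟨D.base⟩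
  have heq : ∑ q ∈ Finset.univ.erase D.base, Nat.card (D.swaps q) =
      ∑ _q ∈ Finset.univ.erase D.base, Nat.card D.invA := by
    rw [hconst, Nat.sub_mul, one_mul, ← hidx]
    omega
  exact (Finset.sum_eq_sum_iff_of_le hle).1 heq p (Finset.mem_erase.2 ⟨hp, Finset.mem_univ _⟩)

theorem exists_swap {p : G ⧸ D.N} (hp : p ≠ D.base) : ∃ u, u ∈ D.swaps p := by
  have h := D.swaps_card hp
  have := D.two_le_invA
  obtain ⟨⟨u, hu⟩⟩ : Nonempty (D.swaps p) := (Nat.card_pos_iff.1 (by omega)).1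
  exact ⟨u, hu⟩

theorem card_two_point {p : G ⧸ D.N} (hp : p ≠ D.base) :
    Nat.card ↥(stabilizer G D.base ⊓ stabilizer G p) = Nat.card D.invA := by
  obtain ⟨u, hu⟩ := D.exists_swap hp
  obtain ⟨h1, h2, -⟩ := D.two_point hp hu
  rw [D.swaps_card hp] at h1
  omega

theorem inverted {p : G ⧸ D.N} (hp : p ≠ D.base) {u : G} (hu : u ∈ D.swaps p) {d : G}
    (hd : d ∈ stabilizer G D.base ⊓ stabilizer G p) : u * d * u⁻¹ = d⁻¹ :=
  (D.two_point hp hu).2.2 (D.swaps_card hp).ge d hd

/-- A nontrivial element fixing two points fixes no other point. -/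
theorem fix_two {p : G ⧸ D.N} (hp : p ≠ D.base) {d : G}
    (hd : d ∈ stabilizer G D.base ⊓ stabilizer G p) (hd1 : d ≠ 1) {q : G ⧸ D.N}
    (hq : d • q = q) : q = D.base ∨ q = p := by
  haveI : Fintype G := Fintype.ofFinite G
  haveI : Fintype (G ⧸ D.N) := Fintype.ofFinite _
  obtain ⟨u₀, hu₀⟩ := D.exists_swap hp
  set H := stabilizer G D.base ⊓ stabilizer G p with hH
  have hHcomm : ∀ x ∈ H, ∀ y ∈ H, Commute x y := by
    intro x hx y hy
    have e1 := D.inverted hp hu₀ hx
    have e2 := D.inverted hp hu₀ hy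
    have e3 := D.inverted hp hu₀ (H.mul_mem hy hx)
    have : u₀ * (y * x) * u₀⁻¹ = (u₀ * y * u₀⁻¹) * (u₀ * x * u₀⁻¹) := by group
    rw [this, e1, e2, mul_inv_rev] at e3
    have := congrArg (·⁻¹) e3
    simpa [Commute, SemiconjBy, mul_inv_rev] using this
  have hdN : d ∈ D.N := D.smul_base_eq_iff.1 (mem_stabilizer_iff.1 hd.1)
  have hdA : d ∉ D.A := fun h => hd1 (D.A_fix_only h hp (mem_stabilizer_iff.1 hd.2) ⟨u₀, hu₀.1, hu₀.2⟩)
  have hno2 : orderOf d ≠ 2 := fun h => hdA (D.invol_mem hdN h)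
  -- `N` is the product of `A` and the two point stabiliser
  have hprod : ∀ n ∈ D.N, ∃ a ∈ D.A, ∃ h ∈ H, n = a * h := by
    have hcard : Nat.card (D.A × H) = Nat.card D.N := by
      rw [Nat.card_prod, D.card_two_point hp, D.card_N]
    have hHN : H ≤ D.N := fun h hh => D.smul_base_eq_iff.1 (mem_stabilizer_iff.1 hh.1)
    let f : D.A × H → D.N := fun x => ⟨(x.1 : G) * x.2, D.N.mul_mem (D.A_le_N x.1.2) (hHN x.2.2)⟩
    have hf : Function.Injective f := by
      rintro ⟨a, h⟩ ⟨a', h'⟩ e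
      have e' : (a : G) * h = (a' : G) * h' := congrArg Subtype.val e
      have h1 : (a' : G)⁻¹ * a = (h' : G) * (h : G)⁻¹ := by
        rw [eq_mul_inv_iff_mul_eq, mul_assoc, e', inv_mul_cancel_left]
      have h2 : (a' : G)⁻¹ * a = 1 := D.A_fix_only (D.A.mul_mem (D.A.inv_mem a'.2) a.2) hp
        (by rw [h1]; exact mem_stabilizer_iff.1 (H.mul_mem h'.2 (H.inv_mem h.2)).2)
        ⟨u₀, hu₀.1, hu₀.2⟩
      have ha : (a' : G) = a := inv_mul_eq_one.1 h2
      rw [ha] at e'
      exact Prod.ext (Subtype.ext ha.symm) (Subtype.ext (mul_left_cancel e'))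
    intro n hn
    obtain ⟨⟨a, h⟩, e⟩ := (hf.bijective_of_nat_card_le hcard.ge).2 ⟨n, hn⟩
    exact ⟨a, a.2, h, h.2, (congrArg Subtype.val e).symm⟩
  set B := centralizer ({d} : Set G) with hB
  have hBN : ∀ x ∈ B, x ∈ D.N → x ∈ H := by
    intro x hx hxN
    obtain ⟨a, ha, h, hh, rfl⟩ := hprod x hxN
    have hac : Commute a d := by
      have h1 := mem_cent.1 hx
      have h2 : Commute h d := hHcomm h hh d hd
      have : a = a * h * h⁻¹ := by group
      rw [this]; exact h1.mul_left h2.inv_left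
    by_cases ha1 : a = 1
    · rw [ha1, one_mul]; exact hh
    · exact absurd (D.mem_of_commute ha ha1 hac.symm) hdA
  have hHB : H ≤ B := fun x hx => mem_cent.2 (hHcomm x hx d hd)
  -- the orbit of `B`
  set r := Nat.card D.invA with hr
  let Fd : Finset (G ⧸ D.N) := Finset.univ.filter fun z => d • z = z
  let O : Finset (G ⧸ D.N) := (Finset.univ.filter fun x : G => x ∈ B).image (· • D.base)
  let O' : Finset (G ⧸ D.N) := O.image (u₀ • ·)
  have hOF : O ⊆ Fd := by
    intro z hz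
    obtain ⟨x, hx, rfl⟩ := Finset.mem_image.1 hz
    refine Finset.mem_filter.2 ⟨Finset.mem_univ _, ?_⟩
    have hxc : x * d = d * x := (mem_cent.1 (Finset.mem_filter.1 hx).2).eq
    rw [← mul_smul, ← hxc, mul_smul, mem_stabilizer_iff.1 hd.1]
  have hu₀d : u₀ * d * u₀⁻¹ = d⁻¹ := D.inverted hp hu₀ hd
  have hO'F : O' ⊆ Fd := by
    intro z hz
    obtain ⟨w, hw, rfl⟩ := Finset.mem_image.1 hz
    refine Finset.mem_filter.2 ⟨Finset.mem_univ _, ?_⟩
    have hw' := (Finset.mem_filter.1 (hOF hw)).2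
    have e : d * u₀ = u₀ * d⁻¹ := by
      calc d * u₀ = (u₀ * d * u₀⁻¹)⁻¹ * u₀ := by rw [hu₀d, inv_inv]
        _ = u₀ * d⁻¹ := by group
    rw [← mul_smul, e, mul_smul, inv_smul_eq_iff.2 hw'.symm]
  have hdisj : Disjoint O O' := by
    refine Finset.disjoint_left.2 fun z hz hz' => ?_
    obtain ⟨x, hx, rfl⟩ := Finset.mem_image.1 hz
    obtain ⟨w, hw, e⟩ := Finset.mem_image.1 hz'
    obtain ⟨y, hy, rfl⟩ := Finset.mem_image.1 hw
    have hxB := (Finset.mem_filter.1 hx).2
    have hyB := (Finset.mem_filter.1 hy).2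
    have e' : u₀ • y • D.base = x • D.base := e
    set n := x⁻¹ * (u₀ * y) with hn
    have hnN : n ∈ D.N := D.smul_base_eq_iff.1 (by
      rw [hn, mul_smul, mul_smul, e', inv_smul_smul])
    have hnd : n * d * n⁻¹ = d⁻¹ := by
      have h1 : y * d * y⁻¹ = d := mul_inv_eq_iff_eq_mul.2 (mem_cent.1 hyB).eq
      have h2 : x * d⁻¹ * x⁻¹ = d⁻¹ := mul_inv_eq_iff_eq_mul.2 (mem_cent.1 hxB).inv_right.eq
      calc n * d * n⁻¹ = x⁻¹ * (u₀ * (y * d * y⁻¹) * u₀⁻¹) * x := by rw [hn]; group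
        _ = x⁻¹ * d⁻¹ * x := by rw [h1, hu₀d]
        _ = x⁻¹ * (x * d⁻¹ * x⁻¹) * x := by rw [h2]
        _ = d⁻¹ := by group
    obtain ⟨a, ha, h, hh, hah⟩ := hprod n hnN
    have h3 : h * d * h⁻¹ = d := mul_inv_eq_iff_eq_mul.2 (hHcomm h hh d hd).eq
    have h4 : a * d * a⁻¹ = d⁻¹ := by
      rw [← hnd, hah]
      calc a * d * a⁻¹ = a * (h * d * h⁻¹) * a⁻¹ := by rw [h3]
        _ = a * h * d * (a * h)⁻¹ := by group
    have h5 : d⁻¹ * d⁻¹ ∈ D.A := by
      have h6 := D.A.mul_mem ha (D.conj_mem hdN (D.A.inv_mem ha))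
      have e6 : a * (d * a⁻¹ * d⁻¹) = d⁻¹ * d⁻¹ := by
        calc a * (d * a⁻¹ * d⁻¹) = a * d * a⁻¹ * d⁻¹ := by group
          _ = d⁻¹ * d⁻¹ := by rw [h4]
      rwa [e6] at h6
    have h7 := D.A_fix_only h5 hp (mem_stabilizer_iff.1 (H.mul_mem (H.inv_mem hd) (H.inv_mem hd)).2)
      ⟨u₀, hu₀.1, hu₀.2⟩
    apply hno2
    refine orderOf_eq_prime ?_ hd1
    have := congrArg (·⁻¹) h7
    simpa [pow_two, mul_inv_rev] using this
  have hOcard : O.card * r = Nat.card B := by
    have hst : stabilizer B D.base = H.subgroupOf B := by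
      ext x
      rw [mem_stabilizer_iff, mem_subgroupOf]
      exact ⟨fun h => hBN x x.2 (D.smul_base_eq_iff.1 h), fun h => mem_stabilizer_iff.1 h.1⟩
    have h1 := (stabilizer B D.base).card_mul_index
    rw [index_stabilizer, hst, Nat.card_congr (subgroupOfEquivOfLe hHB).toEquiv,
      D.card_two_point hp] at h1
    have h2 : (orbit B D.base).ncard = O.card := by
      rw [← Set.ncard_coe_finset]
      congr 1
      ext z
      simp only [O, Finset.coe_image, Set.mem_image, Finset.coe_filter, Finset.mem_univ, true_and,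
        Set.mem_setOf_eq]
      exact ⟨fun ⟨x, hx⟩ => ⟨x, x.2, hx⟩, fun ⟨x, hx, hxz⟩ => ⟨⟨x, hx⟩, hxz⟩⟩
    rw [h2, mul_comm] at h1
    exact h1
  -- involutions inverting `d`
  have hswap : ∀ z ∈ Fd.erase D.base, ∀ w ∈ D.swaps z, u₀ * w ∈ B := by
    intro z hz w hw
    obtain ⟨hz1, hz2⟩ := Finset.mem_erase.1 hz
    have hdz : d ∈ stabilizer G D.base ⊓ stabilizer G z :=
      ⟨hd.1, mem_stabilizer_iff.2 (Finset.mem_filter.1 hz2).2⟩
    have e1 := D.inverted hz1 hw hdz
    have e3 : u₀ * d⁻¹ * u₀⁻¹ = d := by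
      have := congrArg (·⁻¹) hu₀d
      simpa [mul_inv_rev, mul_assoc] using this
    refine mem_cent.2 (mul_inv_eq_iff_eq_mul.1 ?_)
    calc u₀ * w * d * (u₀ * w)⁻¹ = u₀ * (w * d * w⁻¹) * u₀⁻¹ := by group
      _ = d := by rw [e1, e3]
  have hcount : (Fd.card - 1) * r ≤ Nat.card B := by
    let g : (Σ z : ↥(Fd.erase D.base), D.swaps (z : G ⧸ D.N)) → B :=
      fun s => ⟨u₀ * s.2, hswap s.1 s.1.2 s.2 s.2.2⟩
    have hg : Function.Injective g := by
      rintro ⟨z, w⟩ ⟨z', w'⟩ e
      have hw : (w : G) = w' := mul_left_cancel (congrArg Subtype.val e)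
      have hz : z = z' := Subtype.ext (by rw [← w.2.2, ← w'.2.2, hw])
      subst hz
      rw [Subtype.ext hw]
    have h1 := Nat.card_le_card_of_injective g hg
    rw [Nat.card_sigma, Finset.sum_congr rfl fun (z : ↥(Fd.erase D.base)) _ =>
      D.swaps_card (Finset.ne_of_mem_erase z.2), Finset.sum_const, smul_eq_mul, Finset.card_univ,
      Fintype.card_coe] at h1
    have hb0 : D.base ∈ Fd := Finset.mem_filter.2 ⟨Finset.mem_univ _, mem_stabilizer_iff.1 hd.1⟩
    rw [Finset.card_erase_of_mem hb0] at h1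
    exact h1
  have hu₀inj : O'.card = O.card := Finset.card_image_of_injective _ (MulAction.injective u₀)
  have hFge : 2 * O.card ≤ Fd.card := by
    have := Finset.card_le_card (Finset.union_subset hOF hO'F)
    rw [Finset.card_union_of_disjoint hdisj] at this
    omega
  have hr2 : 2 ≤ r := D.two_le_invA
  rw [← hOcard] at hcount
  have hle : Fd.card - 1 ≤ O.card := Nat.le_of_mul_le_mul_right hcount (by omega)
  have hbase : D.base ∈ Fd :=
    Finset.mem_filter.2 ⟨Finset.mem_univ _, mem_stabilizer_iff.1 hd.1⟩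
  have hpF : p ∈ Fd := Finset.mem_filter.2 ⟨Finset.mem_univ _, mem_stabilizer_iff.1 hd.2⟩
  have hqF : q ∈ Fd := Finset.mem_filter.2 ⟨Finset.mem_univ _, hq⟩
  by_contra hcon
  push Not at hcon
  have h3 : ({D.base, p, q} : Finset (G ⧸ D.N)) ⊆ Fd := by
    intro z hz
    simp only [Finset.mem_insert, Finset.mem_singleton] at hz
    rcases hz with rfl | rfl | rfl <;> assumption
  have := Finset.card_le_card h3
  rw [Finset.card_eq_three.2 ⟨D.base, p, q, hp.symm, hcon.1.symm, hcon.2.symm, rfl⟩] at this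
  omega

theorem exists_other : ∃ p : G ⧸ D.N, p ≠ D.base := by
  haveI := D.simple
  by_contra hcon
  push Not at hcon
  have hN : D.N = ⊤ := eq_top_iff.2 fun g _ => D.smul_base_eq_iff.1 (hcon _)
  haveI : D.A.Normal := Subgroup.normalizer_eq_top_iff.1 hN
  rcases Subgroup.Normal.eq_bot_or_eq_top (inferInstance : D.A.Normal) with h | h
  · exact D.t_ne ((Subgroup.mem_bot).1 (h ▸ D.t_mem))
  · exact D.nab ⟨⟨fun a b => D.comm (h ▸ Subgroup.mem_top a) (h ▸ Subgroup.mem_top b)⟩⟩

/-- `A` is regular on the other points. -/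
theorem regular {y z : G ⧸ D.N} (hy : y ≠ D.base) (hz : z ≠ D.base) :
    (∃! a : D.A, (a : G) • y = z) ∧ Nat.card (G ⧸ D.N) = Nat.card D.A + 1 := by
  haveI : Fintype G := Fintype.ofFinite G
  haveI : Fintype (G ⧸ D.N) := Fintype.ofFinite _
  set r := Nat.card D.invA with hr
  have hr2 : 2 ≤ r := D.two_le_invA
  set P := (Finset.univ : Finset (G ⧸ D.N)).erase D.base with hP
  let E : G ⧸ D.N → Finset G := fun q =>
    (Finset.univ.filter fun g : G => g ∈ stabilizer G D.base ⊓ stabilizer G q).erase 1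
  have hEcard : ∀ q ∈ P, (E q).card = r - 1 := by
    intro q hq
    rw [Finset.card_erase_of_mem (by simp), hr, ← D.card_two_point (Finset.ne_of_mem_erase hq),
      Nat.card_eq_fintype_card, Fintype.card_subtype]
  have hEsub : P.biUnion E ⊆ Finset.univ.filter fun g : G => g ∈ D.N ∧ g ∉ D.A := by
    intro g hg
    obtain ⟨q, hq, hgq⟩ := Finset.mem_biUnion.1 hg
    obtain ⟨hg1, hg2⟩ := Finset.mem_erase.1 hgq
    have hg' := (Finset.mem_filter.1 hg2).2
    refine Finset.mem_filter.2 ⟨Finset.mem_univ _, D.smul_base_eq_iff.1 (mem_stabilizer_iff.1 hg'.1),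
      fun hA => hg1 ?_⟩
    obtain ⟨u, hu⟩ := D.exists_swap (Finset.ne_of_mem_erase hq)
    exact D.A_fix_only hA (Finset.ne_of_mem_erase hq) (mem_stabilizer_iff.1 hg'.2) ⟨u, hu.1, hu.2⟩
  have hdis : ∀ q ∈ P, ∀ q' ∈ P, q ≠ q' → Disjoint (E q) (E q') := by
    intro q hq q' hq' hne
    refine Finset.disjoint_left.2 fun g hg hg' => ?_
    obtain ⟨hg1, hg2⟩ := Finset.mem_erase.1 hg
    rcases D.fix_two (Finset.ne_of_mem_erase hq) (Finset.mem_filter.1 hg2).2 hg1
      (mem_stabilizer_iff.1 (Finset.mem_filter.1 (Finset.mem_erase.1 hg').2).2.2) with h | h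
    · exact Finset.ne_of_mem_erase hq' h
    · exact hne h.symm
  have hNA : (Finset.univ.filter fun g : G => g ∈ D.N ∧ g ∉ D.A).card =
      Nat.card D.A * (r - 1) := by
    have h1 : (Finset.univ.filter fun g : G => g ∈ D.N ∧ g ∉ D.A) =
        (Finset.univ.filter fun g : G => g ∈ D.N) \ (Finset.univ.filter fun g : G => g ∈ D.A) := by
      ext g; simp
    rw [h1, Finset.card_sdiff_of_subset (fun g hg => by
      simp only [Finset.mem_filter, Finset.mem_univ, true_and] at hg ⊢; exact D.A_le_N hg),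
      ← Fintype.card_subtype, ← Fintype.card_subtype, ← Nat.card_eq_fintype_card,
      ← Nat.card_eq_fintype_card, Nat.mul_sub, mul_one, hr, ← D.card_N]
  have h1 := Finset.card_le_card hEsub
  rw [Finset.card_biUnion hdis, Finset.sum_congr rfl hEcard, Finset.sum_const, smul_eq_mul, hNA]
    at h1
  have hle : P.card ≤ Nat.card D.A := Nat.le_of_mul_le_mul_right h1 (by omega)
  let f : D.A → P := fun a => ⟨(a : G) • y, Finset.mem_erase.2 ⟨fun h => hy (by
    have h' : y = (a : G)⁻¹ • D.base := eq_inv_smul_iff.2 h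
    rw [h', D.smul_base_eq_iff.2 (D.N.inv_mem (D.A_le_N a.2))]), Finset.mem_univ _⟩⟩
  have hf : Function.Injective f := by
    intro a b h
    have h' : (a : G) • y = (b : G) • y := congrArg Subtype.val h
    obtain ⟨u, hu⟩ := D.exists_swap hy
    have := D.A_fix_only (D.A.mul_mem (D.A.inv_mem b.2) a.2) hy
      (by rw [mul_smul, h', inv_smul_smul]) ⟨u, hu.1, hu.2⟩
    exact Subtype.ext (inv_mul_eq_one.1 this).symm
  have hPc : Nat.card P = P.card := Nat.card_eq_finsetCard P
  have hbij := hf.bijective_of_nat_card_le (by rw [hPc]; exact hle)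
  refine ⟨?_, ?_⟩
  · obtain ⟨a, ha⟩ := hbij.2 ⟨z, Finset.mem_erase.2 ⟨hz, Finset.mem_univ _⟩⟩
    exact ⟨a, congrArg Subtype.val ha, fun b hb =>
      hbij.1 (Subtype.ext (hb.trans (congrArg Subtype.val ha).symm))⟩
  · have := Nat.card_eq_of_bijective f hbij
    rw [this, hPc, hP, Finset.card_erase_of_mem (Finset.mem_univ _), Finset.card_univ,
      Nat.card_eq_fintype_card]
    have : 0 < Fintype.card (G ⧸ D.N) := Fintype.card_pos_iff.2 ⟨D.base⟩
    omega

theorem zassenhaus : Cfsg.IsZassenhausGroup G (G ⧸ D.N) := by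
  haveI := D.simple
  obtain ⟨p, hp⟩ := D.exists_other
  have h2 : ∀ {a b c e : G ⧸ D.N}, a ≠ b → c ≠ e → ∃ g : G, g • a = c ∧ g • b = e := by
    intro a b c e hab hce
    obtain ⟨g₁, hg₁⟩ := exists_smul_eq G a D.base
    obtain ⟨g₂, hg₂⟩ := exists_smul_eq G c D.base
    obtain ⟨⟨x, hxA⟩, hx, -⟩ := (D.regular (y := g₁ • b) (z := g₂ • e)
      (fun h => hab (smul_left_cancel g₁ (hg₁.trans h.symm)))
      (fun h => hce (smul_left_cancel g₂ (hg₂.trans h.symm)))).1
    refine ⟨g₂⁻¹ * x * g₁, ?_, ?_⟩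
    · rw [mul_smul, mul_smul, hg₁, D.smul_base_eq_iff.2 (D.A_le_N hxA), inv_smul_eq_iff, hg₂]
    · rw [mul_smul, mul_smul, show x • g₁ • b = g₂ • e from hx, inv_smul_smul]
  have hfaith : FaithfulSMul G (G ⧸ D.N) := by
    refine ⟨fun {g h} e => ?_⟩
    have hker : (toPermHom G (G ⧸ D.N)).ker = ⊥ := by
      rcases Subgroup.Normal.eq_bot_or_eq_top
        (inferInstance : (toPermHom G (G ⧸ D.N)).ker.Normal) with k | k
      · exact k
      · exfalso
        obtain ⟨x, hx⟩ := exists_smul_eq G D.base p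
        have : toPermHom G (G ⧸ D.N) x = 1 := MonoidHom.mem_ker.1 (k ▸ Subgroup.mem_top x)
        have h' := congrArg (fun σ : Equiv.Perm (G ⧸ D.N) => σ D.base) this
        exact hp (hx.symm.trans h')
    exact (MonoidHom.ker_eq_bot_iff _).1 hker (Equiv.ext e)
  refine ⟨hfaith, is_two_pretransitive_iff.2 h2, ?_, ?_, ?_⟩
  · intro g a b c hab hbc hac ha hb hc
    obtain ⟨x, hx⟩ := exists_smul_eq G a D.base
    by_contra hg
    have hfix : ∀ z : G ⧸ D.N, g • z = z → (x * g * x⁻¹) • x • z = x • z := fun z hz => by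
      rw [mul_smul, inv_smul_smul, mul_smul, hz]
    have hpb : x • b ≠ D.base := fun h => hab (smul_left_cancel x (hx.trans h.symm))
    rcases D.fix_two hpb (d := x * g * x⁻¹)
      ⟨mem_stabilizer_iff.2 (hx ▸ hfix a ha), mem_stabilizer_iff.2 (hfix b hb)⟩
      (fun h => hg (by simpa using h)) (hfix c hc) with h | h
    · exact hac (smul_left_cancel x (h.trans hx.symm)).symm
    · exact hbc (smul_left_cancel x h).symm
  · have h := D.card_two_point hp
    have := D.two_le_invA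
    haveI : Nontrivial ↥(stabilizer G D.base ⊓ stabilizer G p) :=
      Finite.one_lt_card_iff_nontrivial.1 (by omega)
    obtain ⟨g, hg⟩ := exists_ne (1 : ↥(stabilizer G D.base ⊓ stabilizer G p))
    exact ⟨g, fun e => hg (Subtype.ext e), D.base, p, hp.symm, mem_stabilizer_iff.1 g.2.1,
      mem_stabilizer_iff.1 g.2.2⟩
  · intro M hM htr
    refine ⟨D.base, fun h => D.t_ne ?_⟩
    rcases Subgroup.Normal.eq_bot_or_eq_top hM with e | e
    · exfalso
      obtain ⟨g, hg⟩ := htr.exists_smul_eq D.base p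
      have : (g : G) = 1 := Subgroup.mem_bot.1 (e ▸ g.2)
      have hg' : (g : G) • D.base = p := hg
      rw [this, one_smul] at hg'
      exact hp hg'.symm
    · have hm : (⟨D.t, e ▸ Subgroup.mem_top _⟩ : M) ∈ stabilizer M D.base := mem_stabilizer_iff.2
        (D.smul_base_eq_iff.2 (D.A_le_N D.t_mem))
      exact congrArg Subtype.val ((Subgroup.eq_bot_iff_forall _).1 h _ hm)

theorem exists_iso : ∃ (F : Type) (_ : Field F) (_ : Fintype F) (f : ℕ), 2 ≤ f ∧
    Fintype.card F = 2 ^ f ∧ Nonempty (G ≃* Matrix.ProjGenLinGroup (Fin 2) F) := by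
  haveI : Fact (Nat.Prime 2) := ⟨Nat.prime_two⟩
  haveI : Fintype (G ⧸ D.N) := Fintype.ofFinite _
  obtain ⟨p, hp⟩ := D.exists_other
  have hZ := D.zassenhaus
  haveI := hZ.1
  have hA : D.A ≤ stabilizer G D.base := fun a ha =>
    mem_stabilizer_iff.2 (D.smul_base_eq_iff.2 (D.A_le_N ha))
  have hn : (D.A.subgroupOf (stabilizer G D.base)).Normal :=
    ⟨fun a ha g => D.conj_mem (D.smul_base_eq_iff.1 g.2) ha⟩
  have hn' : Fintype.card (G ⧸ D.N) = Nat.card D.A + 1 := by
    rw [← Nat.card_eq_fintype_card]; exact (D.regular hp hp).2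
  have hr : Nat.card ↥(stabilizer G D.base ⊓ stabilizer G p) = Nat.card D.invA :=
    D.card_two_point hp
  have heven : 2 ∣ Nat.card D.A := by
    rw [← D.ht, ← Subgroup.orderOf_mk D.t D.t_mem]; exact orderOf_dvd_natCard _
  rcases CfsgLib.Zassenhaus.abelian_kernel hZ hp.symm D.A hA hn
    ⟨⟨fun a b => Subtype.ext (D.comm a.2 b.2).eq⟩⟩
    (fun y z hy hz => (D.regular hy hz).1) with h | ⟨-, l, f, K, _, _, hl, hl2, -, hcard, -⟩
  · obtain ⟨h3, hsharp⟩ := CfsgLib.Zassenhaus.sharply_three_of_full hZ hp.symm h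
    -- `A` is an elementary abelian 2-group
    haveI : Fintype G := Fintype.ofFinite G
    have hall : ∀ a ∈ D.A, a ≠ 1 → orderOf a = 2 := by
      intro a ha ha1
      by_contra h2a
      have hsub : (Finset.univ.filter fun x : G => x ∈ D.invA) ⊆
          ((Finset.univ.filter fun x : G => x ∈ D.A).erase 1).erase a := by
        intro x hx
        obtain ⟨hx2, hxA⟩ := (Finset.mem_filter.1 hx).2
        exact Finset.mem_erase.2 ⟨fun e => h2a (e ▸ hx2),
          Finset.mem_erase.2 ⟨fun e => by simp [e] at hx2, by simp [hxA]⟩⟩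
      have := Finset.card_le_card hsub
      rw [Finset.card_erase_of_mem (by simp [ha, ha1]), Finset.card_erase_of_mem (by simp),
        ← Fintype.card_subtype, ← Fintype.card_subtype, ← Nat.card_eq_fintype_card,
        ← Nat.card_eq_fintype_card] at this
      rw [h] at hr
      have e1 : Nat.card {x // x ∈ D.invA} = Nat.card D.invA := rfl
      have := D.two_le_invA
      omega
    have hpg : IsPGroup 2 D.A := fun a => by
      by_cases e : a = 1
      · exact ⟨0, by simp [e]⟩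
      · refine ⟨1, Subtype.ext ?_⟩
        rw [pow_one, Subgroup.coe_pow, Subgroup.coe_one,
          ← hall a a.2 (fun e' => e (Subtype.ext e')), pow_orderOf_eq_one]
    obtain ⟨f, hf⟩ := IsPGroup.iff_card.1 hpg
    have hr2 := D.two_le_invA
    rw [h] at hr
    have hf2 : 2 ≤ f := by
      rcases Nat.lt_or_ge f 2 with hlt | hge
      · exfalso; interval_cases f <;> omega
      · exact hge
    let φ : G →* Equiv.Perm (G ⧸ D.N) := toPermHom G _
    have hφ : Function.Injective φ := toPerm_injective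
    have h3' : IsMultiplyPretransitive φ.range (G ⧸ D.N) 3 := by
      refine ⟨fun s t => ?_⟩
      obtain ⟨g, hg⟩ := h3.exists_smul_eq s t
      exact ⟨⟨φ g, g, rfl⟩, hg⟩
    have hsharp' : ∀ t : Fin 3 ↪ G ⧸ D.N, stabilizer φ.range t = ⊥ := fun t => by
      refine (Subgroup.eq_bot_iff_forall _).2 ?_
      rintro ⟨_, g, rfl⟩ hg
      have hg' : g ∈ stabilizer G t := mem_stabilizer_iff.2 (mem_stabilizer_iff.1 hg)
      rw [hsharp t, Subgroup.mem_bot] at hg'
      subst hg'
      exact Subtype.ext (map_one φ)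
    obtain ⟨K, iF, iFt, hK, ⟨e⟩⟩ := CfsgLib.SharpPGL.sharp_three_pgl φ.range Nat.prime_two
      (show f ≠ 0 by omega) (Or.inl rfl) (by rw [hn', hf]) h3' hsharp'
    exact ⟨K, iF, iFt, f, hf2, hK, ⟨(MonoidHom.ofInjective hφ).trans e⟩⟩
  · exfalso
    have h1 : Odd (l ^ f) := (hl.odd_of_ne_two hl2).pow
    rw [show l ^ f = Nat.card D.A by omega] at h1
    exact absurd heven (by obtain ⟨k, hk⟩ := h1; omega)

end Data

end CfsgLib.CTGroup
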