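import Mathlib.LinearAlgebra.Matrix.SpecialLinearGroup
import Mathlib.Tactic.LinearCombination
import Mathlib.FieldTheory.Finite.Basic

/-!
# `PSL(2, 2^f)` has transitive commuting: matrix computations
-/

set_option autoImplicit false
set_option linter.style.haveILetI false

namespace CfsgLib.CTGroup

variable {F : Type*} [Field F]

theorem charTwo [Fintype F] {f : ℕ} (hf : 1 ≤ f) (hF : Fintype.card F = 2 ^ f) : CharP F 2 := by
  obtain ⟨p, hp⟩ := CharP.exists F
  haveI := hp
  obtain ⟨n, hpp, hn⟩ := FiniteField.card F p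
  rw [hF] at hn
  have hdvd : p ∣ 2 ^ f := hn ▸ dvd_pow_self p n.ne_zero
  have : p = 2 := (Nat.prime_dvd_prime_iff_eq hpp Nat.prime_two).1 (hpp.dvd_of_dvd_pow hdvd)
  exact this ▸ hp

theorem sl_two_trans {A B C : Matrix.SpecialLinearGroup (Fin 2) F} (hB : B ≠ 1) [CharP F 2]
    (hAB : A * B = B * A) (hBC : B * C = C * B) : A * C = C * A := by
  have e1 := congrArg Subtype.val hAB
  have e2 := congrArg Subtype.val hBC
  simp only [Matrix.SpecialLinearGroup.coe_mul] at e1 e2
  have a00 := congrFun (congrFun e1 0) 0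
  have a01 := congrFun (congrFun e1 0) 1
  have a10 := congrFun (congrFun e1 1) 0
  have c00 := congrFun (congrFun e2 0) 0
  have c01 := congrFun (congrFun e2 0) 1
  have c10 := congrFun (congrFun e2 1) 0
  simp only [Matrix.mul_apply, Fin.sum_univ_two] at a00 a01 a10 c00 c01 c10
  have hdet := B.2
  rw [Matrix.det_fin_two] at hdet
  apply Subtype.ext
  simp only [Matrix.SpecialLinearGroup.coe_mul]
  ext i j
  simp only [Matrix.mul_apply, Fin.sum_univ_two]
  by_cases hq : (B : Matrix (Fin 2) (Fin 2) F) 0 1 = 0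
  · by_cases hr : (B : Matrix (Fin 2) (Fin 2) F) 1 0 = 0
    · by_cases hd : (B : Matrix (Fin 2) (Fin 2) F) 0 0 = (B : Matrix (Fin 2) (Fin 2) F) 1 1
      · exfalso
        apply hB
        rw [hq, zero_mul, sub_zero, ← hd] at hdet
        have h1 : ((B : Matrix (Fin 2) (Fin 2) F) 0 0 - 1) * ((B : Matrix (Fin 2) (Fin 2) F) 0 0 + 1) = 0 := by
          linear_combination hdet
        have h2 : (B : Matrix (Fin 2) (Fin 2) F) 0 0 = 1 := by
          rcases mul_eq_zero.1 h1 with h | h
          · exact sub_eq_zero.1 h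
          · have : (2 : F) = 0 := CharP.cast_eq_zero F 2
            linear_combination h - this
        apply Subtype.ext
        ext i j
        fin_cases i <;> fin_cases j <;> simp [hq, hr, ← hd, h2]
      · have hd' := sub_ne_zero.2 hd
        fin_cases i <;> fin_cases j <;> refine mul_left_cancel₀ hd' ?_ <;> grind
    · fin_cases i <;> fin_cases j <;> refine mul_left_cancel₀ hr ?_ <;> grind
  · fin_cases i <;> fin_cases j <;> refine mul_left_cancel₀ hq ?_ <;> grind

theorem center_sl_two [CharP F 2] : Subgroup.center (Matrix.SpecialLinearGroup (Fin 2) F) = ⊥ := by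
  rw [Subgroup.eq_bot_iff_forall]
  intro z hz
  obtain ⟨c, hc, hzc⟩ := Matrix.SpecialLinearGroup.mem_center_iff.1 hz
  rw [Fintype.card_fin] at hc
  have h : (c - 1) ^ 2 = 0 := by
    have h2 : (2 : F) = 0 := CharP.cast_eq_zero F 2
    linear_combination hc + (1 - c) * h2
  have hc1 : c = 1 := sub_eq_zero.1 (pow_eq_zero_iff (two_ne_zero) |>.1 h)
  apply Subtype.ext
  rw [← hzc, hc1]
  simp

end CfsgLib.CTGroup
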