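import Mathlib

/-! Two by two matrices up to similarity. -/

set_option autoImplicit false

namespace CfsgLib.CompanionTwo

open Matrix

variable {F : Type*} [Field F]

/-- A matrix is scalar. -/
def IsScalarTwo (M : Matrix (Fin 2) (Fin 2) F) : Prop := M 0 1 = 0 ∧ M 1 0 = 0 ∧ M 0 0 = M 1 1

theorem eq_smul_one {M : Matrix (Fin 2) (Fin 2) F} (h : IsScalarTwo M) :
    M = M 0 0 • (1 : Matrix (Fin 2) (Fin 2) F) := by
  ext i j
  fin_cases i <;> fin_cases j <;> simp [h.1, h.2.1, h.2.2]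

/-- A non-scalar matrix is the companion matrix of its characteristic polynomial in some basis. -/
theorem exists_frame (M : Matrix (Fin 2) (Fin 2) F) (h : ¬ IsScalarTwo M) :
    ∃ P : Matrix (Fin 2) (Fin 2) F, P.det ≠ 0 ∧ M * P = P * !![0, -M.det; 1, M 0 0 + M 1 1] := by
  have key : ∀ x y : F, M * !![x, M 0 0 * x + M 0 1 * y; y, M 1 0 * x + M 1 1 * y] =
      !![x, M 0 0 * x + M 0 1 * y; y, M 1 0 * x + M 1 1 * y] * !![0, -M.det; 1, M 0 0 + M 1 1] := by
    intro x y
    ext i j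
    fin_cases i <;> fin_cases j <;> simp [Matrix.mul_apply, Fin.sum_univ_two, Matrix.det_fin_two] <;> ring
  by_cases h1 : M 1 0 = 0
  · by_cases h2 : M 0 1 = 0
    · refine ⟨_, ?_, key 1 1⟩
      have hne : M 1 1 - M 0 0 ≠ 0 := fun e => h ⟨h2, h1, (sub_eq_zero.1 e).symm⟩
      simpa [Matrix.det_fin_two, h1, h2] using hne
    · exact ⟨_, by simpa [Matrix.det_fin_two] using h2, key 0 1⟩
  · exact ⟨_, by simpa [Matrix.det_fin_two] using h1, key 1 0⟩

end CfsgLib.CompanionTwo
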