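import Cfsg.Agent.S5901

/-! Complemented subgroup lattices from a subgroup in a unique maximal subgroup. -/

set_option autoImplicit false

namespace CfsgLib.Classical.Complemented

variable {G : Type*} [Group G]

lemma interval_of_subgroup {X : Subgroup G} (hK : ComplementedLattice (Subgroup X)) :
    ∀ Y : Subgroup G, ⊥ ≤ Y → Y ≤ X → ∃ C : Subgroup G, ⊥ ≤ C ∧ C ≤ X ∧ Y ⊔ C = X ∧ Y ⊓ C = ⊥ := by
  intro Y _ hY
  obtain ⟨C, hC⟩ := hK.exists_isCompl (Y.subgroupOf X)
  refine ⟨C.map X.subtype, bot_le, Subgroup.map_subtype_le C, ?_, ?_⟩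
  · calc Y ⊔ C.map X.subtype = (Y.subgroupOf X).map X.subtype ⊔ C.map X.subtype := by
          rw [Subgroup.map_subgroupOf_eq_of_le hY]
      _ = X := by rw [← Subgroup.map_sup, hC.sup_eq_top, ← MonoidHom.range_eq_map, Subgroup.range_subtype]
  · calc Y ⊓ C.map X.subtype = (Y.subgroupOf X).map X.subtype ⊓ C.map X.subtype := by
          rw [Subgroup.map_subgroupOf_eq_of_le hY]
      _ = ⊥ := by rw [← Subgroup.map_inf _ _ _ X.subtype_injective, hC.inf_eq_bot, Subgroup.map_bot]

lemma interval_of_quotient {X N : Subgroup G} (hNX : N ≤ X) [(N.subgroupOf X).Normal]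
    (hK : ComplementedLattice (Subgroup (X ⧸ N.subgroupOf X))) :
    ∀ Y : Subgroup G, N ≤ Y → Y ≤ X → ∃ C : Subgroup G, N ≤ C ∧ C ≤ X ∧ Y ⊔ C = X ∧ Y ⊓ C = N := by
  intro Y hNY hY
  set π := QuotientGroup.mk' (N.subgroupOf X) with hπ
  obtain ⟨C, hC⟩ := hK.exists_isCompl ((Y.subgroupOf X).map π)
  have hker : π.ker = N.subgroupOf X := QuotientGroup.ker_mk' _
  have hY' : ((Y.subgroupOf X).map π).comap π = Y.subgroupOf X :=
    Subgroup.comap_map_eq_self (by rw [hker]; exact Subgroup.comap_mono hNY)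
  have hsup : Y.subgroupOf X ⊔ C.comap π = ⊤ := by
    rw [← hY', Subgroup.comap_sup_eq π _ _ (QuotientGroup.mk'_surjective _), hC.sup_eq_top,
      Subgroup.comap_top]
  have hinf : Y.subgroupOf X ⊓ C.comap π = N.subgroupOf X := by
    rw [← hY', ← Subgroup.comap_inf, hC.inf_eq_bot, MonoidHom.comap_bot, hker]
  refine ⟨(C.comap π).map X.subtype, ?_, Subgroup.map_subtype_le _, ?_, ?_⟩
  · calc N = (N.subgroupOf X).map X.subtype := (Subgroup.map_subgroupOf_eq_of_le hNX).symm
      _ ≤ _ := Subgroup.map_mono (hker.symm.le.trans (Subgroup.comap_mono bot_le))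
  · calc Y ⊔ (C.comap π).map X.subtype = (Y.subgroupOf X).map X.subtype ⊔ (C.comap π).map X.subtype := by
          rw [Subgroup.map_subgroupOf_eq_of_le hY]
      _ = X := by rw [← Subgroup.map_sup, hsup, ← MonoidHom.range_eq_map, Subgroup.range_subtype]
  · calc Y ⊓ (C.comap π).map X.subtype = (Y.subgroupOf X).map X.subtype ⊓ (C.comap π).map X.subtype := by
          rw [Subgroup.map_subgroupOf_eq_of_le hY]
      _ = N := by rw [← Subgroup.map_inf _ _ _ X.subtype_injective, hinf, Subgroup.map_subgroupOf_eq_of_le hNX]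

lemma conj_complement {H C : Subgroup G} (g : G) (h1 : H.map (MulAut.conj g).toMonoidHom ⊔ C = ⊤)
    (h2 : H.map (MulAut.conj g).toMonoidHom ⊓ C = ⊥) : ∃ D : Subgroup G, H ⊔ D = ⊤ ∧ H ⊓ D = ⊥ := by
  have hinj : Function.Injective (MulAut.conj g).toMonoidHom := (MulAut.conj g).injective
  have hC : (C.comap (MulAut.conj g).toMonoidHom).map (MulAut.conj g).toMonoidHom = C :=
    Subgroup.map_comap_eq_self_of_surjective (MulAut.conj g).surjective C
  refine ⟨C.comap (MulAut.conj g).toMonoidHom, Subgroup.map_injective hinj ?_, Subgroup.map_injective hinj ?_⟩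
  · rw [Subgroup.map_sup, hC, h1, ← MonoidHom.range_eq_map, MonoidHom.range_eq_top.mpr (MulAut.conj g).surjective]
  · rw [Subgroup.map_inf _ _ _ hinj, hC, h2, Subgroup.map_bot]

theorem compl_of_not_le_core [Finite G] {X M : Subgroup G} (hK : ComplementedLattice (Subgroup X))
    (hM : IsCoatom M) (hXM : X ≤ M) (huniq : ∀ M' : Subgroup G, IsCoatom M' → X ≤ M' → M' = M)
    {H : Subgroup G} (hH : ¬ H ≤ M.normalCore) : ∃ C : Subgroup G, H ⊔ C = ⊤ ∧ H ⊓ C = ⊥ := by
  obtain ⟨x, hx, hxM⟩ := SetLike.not_le_iff_exists.mp hH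
  obtain ⟨g, hg⟩ : ∃ g, g * x * g⁻¹ ∉ M := by by_contra! h; exact hxM h
  have hH' : ¬ H.map (MulAut.conj g).toMonoidHom ≤ M := fun h => hg (h ⟨x, hx, rfl⟩)
  have hX : X ≠ ⊤ := fun h => hM.1 (top_le_iff.mp (h ▸ hXM))
  obtain ⟨C, h1, h2⟩ := Cfsg.Agent.S5901.result ⊥ X M bot_le hX (interval_of_subgroup hK) hM hXM huniq
    _ hH' (inf_bot_eq _)
  exact conj_complement g h1 h2

theorem quotient_core [Finite G] {X M : Subgroup G} (hK : ComplementedLattice (Subgroup X))
    (hM : IsCoatom M) (hXM : X ≤ M) (huniq : ∀ M' : Subgroup G, IsCoatom M' → X ≤ M' → M' = M) :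
    ComplementedLattice (Subgroup (G ⧸ M.normalCore)) := by
  refine ⟨fun K => ?_⟩
  set π := QuotientGroup.mk' M.normalCore with hπ
  have hker : π.ker = M.normalCore := QuotientGroup.ker_mk' _
  have hle : M.normalCore ≤ K.comap π := fun x hx => by rw [← hker, MonoidHom.mem_ker] at hx; rw [Subgroup.mem_comap, hx]; exact K.one_mem
  by_cases h : K.comap π ≤ M.normalCore
  · have : K = ⊥ := by
      rw [← Subgroup.map_comap_eq_self_of_surjective (QuotientGroup.mk'_surjective _) K, Subgroup.map_eq_bot_iff,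
        ← hπ, hker]
      exact h
    exact ⟨⊤, by rw [this]; exact isCompl_bot_top⟩
  obtain ⟨C, h1, h2⟩ := compl_of_not_le_core hK hM hXM huniq h
  refine ⟨C.map π, IsCompl.of_eq (eq_bot_iff.mpr ?_) ?_⟩
  · rintro y ⟨hy, c, hc, rfl⟩
    have : c ∈ (K.comap π) ⊓ C := ⟨hy, hc⟩
    rw [h2, Subgroup.mem_bot] at this
    rw [this, map_one]
    exact Subgroup.one_mem _
  · rw [← Subgroup.map_comap_eq_self_of_surjective (QuotientGroup.mk'_surjective _) K, ← hπ, ← Subgroup.map_sup,
      h1, Subgroup.map_top_of_surjective _ (QuotientGroup.mk'_surjective _)]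

theorem simple_complemented [Finite G] [IsSimpleGroup G] {X M N : Subgroup G}
    (hM : IsCoatom M) (hXM : X ≤ M) (huniq : ∀ M' : Subgroup G, IsCoatom M' → X ≤ M' → M' = M)
    (hNX : N ≤ X) (hN : (Nat.card N).Prime) (hcen : ∀ n ∈ N, ∀ m ∈ M, m * n = n * m)
    [(N.subgroupOf X).Normal] (hK : ComplementedLattice (Subgroup (X ⧸ N.subgroupOf X))) :
    ComplementedLattice (Subgroup G) := by
  classical
  refine ⟨fun H => ?_⟩
  by_cases hb : H = ⊥
  · exact ⟨⊤, hb ▸ isCompl_bot_top⟩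
  by_cases ht : H = ⊤
  · exact ⟨⊥, ht ▸ isCompl_top_bot⟩
  have hX : X ≠ ⊤ := fun h => hM.1 (top_le_iff.mp (h ▸ hXM))
  haveI : Fact (Nat.card N).Prime := ⟨hN⟩
  suffices hex : ∃ g : G, ¬ H.map (MulAut.conj g).toMonoidHom ≤ M ∧
      H.map (MulAut.conj g).toMonoidHom ⊓ N = ⊥ by
    obtain ⟨g, hg1, hg2⟩ := hex
    obtain ⟨C, h1, h2⟩ := Cfsg.Agent.S5901.result N X M hNX hX (interval_of_quotient hNX hK) hM hXM huniq
      _ hg1 hg2
    obtain ⟨D, d1, d2⟩ := conj_complement g h1 h2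
    exact ⟨D, IsCompl.of_eq d2 d1⟩
  by_contra hno
  simp only [not_exists, not_and] at hno
  -- each conjugate of `N` lies in `H` or centralises it
  have key : ∀ g : G, (∀ n ∈ N, g⁻¹ * n * g ∈ H) ∨ (∀ n ∈ N, ∀ h ∈ H, Commute (g⁻¹ * n * g) h) := by
    intro g
    rcases eq_or_ne (H.map (MulAut.conj g).toMonoidHom ⊓ N) ⊥ with h | h
    · right
      intro n hn x hx
      have hle : H.map (MulAut.conj g).toMonoidHom ≤ M := by_contra fun hh => hno g hh h
      have := hcen n hn (g * x * g⁻¹) (hle ⟨x, hx, rfl⟩)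
      show g⁻¹ * n * g * x = x * (g⁻¹ * n * g)
      calc g⁻¹ * n * g * x = g⁻¹ * (n * (g * x * g⁻¹)) * g := by group
        _ = g⁻¹ * ((g * x * g⁻¹) * n) * g := by rw [this]
        _ = x * (g⁻¹ * n * g) := by group
    · left
      intro n hn
      have h' : (H.map (MulAut.conj g).toMonoidHom ⊓ N).subgroupOf N = ⊤ := by
        refine (Subgroup.eq_bot_or_eq_top_of_prime_card _).resolve_left fun hb' => h ?_
        rwa [Subgroup.subgroupOf_eq_bot, disjoint_iff, inf_assoc, inf_idem] at hb'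
      have := Subgroup.subgroupOf_eq_top.mp h' hn
      obtain ⟨x, hx, hxn⟩ := this.1
      rw [show g⁻¹ * n * g = x by
        rw [← hxn]; show g⁻¹ * (g * x * g⁻¹) * g = x; group]
      exact hx
  have hNbot : N ≠ ⊥ := fun h => by rw [h, Subgroup.card_bot] at hN; exact Nat.not_prime_one hN
  have hcn : Subgroup.normalClosure (N : Set G) = ⊤ :=
    ((inferInstance : (Subgroup.normalClosure (N : Set G)).Normal).eq_bot_or_eq_top).resolve_left fun h =>
      hNbot (eq_bot_iff.mpr (h ▸ Subgroup.subset_normalClosure))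
  have hgen : Subgroup.closure {x : G | ∃ g : G, ∃ n ∈ N, g⁻¹ * n * g = x} = ⊤ := by
    rw [eq_top_iff, ← hcn, Subgroup.normalClosure]
    refine (Subgroup.closure_le _).mpr fun x hx => Subgroup.subset_closure ?_
    obtain ⟨n, hn, hc⟩ := Group.mem_conjugatesOfSet_iff.mp hx
    obtain ⟨c, hc⟩ := isConj_iff.mp hc
    exact ⟨c⁻¹, n, hn, by rw [inv_inv, hc]⟩
  set S2 : Set G := {x | ∃ g : G, (∀ n ∈ N, ∀ h ∈ H, Commute (g⁻¹ * n * g) h) ∧ ∃ n ∈ N, g⁻¹ * n * g = x} with hS2
  set T := Subgroup.closure S2 with hT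
  have hTcen : T ≤ Subgroup.centralizer (H : Set G) := by
    refine (Subgroup.closure_le _).mpr ?_
    rintro x ⟨g, hg, n, hn, rfl⟩
    exact Subgroup.mem_centralizer_iff.mpr fun h hh => (hg n hn h hh).eq.symm
  have hTn : T.Normal := by
    rw [← Subgroup.normalizer_eq_top_iff, eq_top_iff, ← hgen]
    refine (Subgroup.closure_le _).mpr ?_
    rintro x ⟨g, n, hn, rfl⟩
    rcases key g with h | h
    · -- it centralises `T`
      rw [SetLike.mem_coe, Subgroup.mem_normalizer_iff]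
      intro t
      have hcomm : ∀ t ∈ T, (g⁻¹ * n * g) * t * (g⁻¹ * n * g)⁻¹ = t := fun t ht' => by
        rw [Subgroup.mem_centralizer_iff.mp (hTcen ht') _ (h n hn), mul_inv_cancel_right]
      refine ⟨fun ht' => by rw [hcomm t ht']; exact ht', fun ht' => ?_⟩
      have h2 := hcomm _ ht'
      have h3 : (g⁻¹ * n * g) * t * (g⁻¹ * n * g)⁻¹ = t := by
        have := congrArg (fun z => (g⁻¹ * n * g)⁻¹ * z * (g⁻¹ * n * g)) h2
        group at this ⊢
        exact this
      rwa [h3] at ht'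
    · exact Subgroup.le_normalizer (Subgroup.subset_closure ⟨g, h, n, hn, rfl⟩)
  rcases hTn.eq_bot_or_eq_top with hTb | hTt
  · -- every conjugate lies in `H`
    refine ht (eq_top_iff.mpr (hgen ▸ (Subgroup.closure_le _).mpr ?_))
    rintro x ⟨g, n, hn, rfl⟩
    rcases key g with h | h
    · exact h n hn
    · have : g⁻¹ * n * g ∈ T := Subgroup.subset_closure ⟨g, h, n, hn, rfl⟩
      rw [hTb, Subgroup.mem_bot] at this
      rw [this]; exact H.one_mem
  · have hHc : H ≤ Subgroup.center G := fun h hh => Subgroup.mem_center_iff.mpr fun y =>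
      (Subgroup.mem_centralizer_iff.mp (hTcen (hTt ▸ Subgroup.mem_top y)) h hh).symm
    rcases (inferInstance : (Subgroup.center G).Normal).eq_bot_or_eq_top with hc | hc
    · exact hb (eq_bot_iff.mpr (hc ▸ hHc))
    · -- abelian, so `G` has prime order and `H` is trivial or everything
      have hHn : H.Normal := ⟨fun a ha y => by
        rw [(Subgroup.mem_center_iff.mp (hc ▸ Subgroup.mem_top a) y), mul_inv_cancel_right]; exact ha⟩
      rcases hHn.eq_bot_or_eq_top with h | h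
      · exact hb h
      · exact ht h

end CfsgLib.Classical.Complemented
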