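import Mathlib

/-! The stabiliser of a partition into blocks of equal size inside the alternating group. -/

set_option autoImplicit false

namespace CfsgLib.ImprimAlt

attribute [local instance] _root_.Classical.propDecidable

open Equiv Equiv.Perm MulAction
open scoped Pointwise

variable {Ω ι : Type*}

/-- permutations preserving the partition given by `f` -/
def W (f : Ω → ι) : Subgroup (Equiv.Perm Ω) where
  carrier := {g | ∀ x y, f x = f y ↔ f (g x) = f (g y)}
  one_mem' := fun x y => Iff.rfl
  mul_mem' := fun {g h} hg hh x y => (hh x y).trans (hg (h x) (h y))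
  inv_mem' := fun {g} hg x y => by simpa using (hg (g⁻¹ x) (g⁻¹ y)).symm

lemma closure_eq (f : Ω → ι) :
    Subgroup.closure {g : Equiv.Perm Ω | ∀ x y : Ω, f x = f y ↔ f (g x) = f (g y)} = W f :=
  (W f).closure_eq

variable [DecidableEq Ω]

lemma swap_mem (f : Ω → ι) {x y : Ω} (h : f x = f y) : swap x y ∈ W f := by
  have key : ∀ w, f (swap x y w) = f w := fun w => by
    rcases eq_or_ne w x with rfl | h1
    · rw [swap_apply_left, h]
    rcases eq_or_ne w y with rfl | h2
    · rw [swap_apply_right, h]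
    rw [swap_apply_of_ne_of_ne h1 h2]
  intro u v
  rw [key, key]

variable [Fintype Ω] {a b : ℕ} {f : Ω → Fin b} (ha : 2 ≤ a) (hb : 2 ≤ b)
  (hf : ∀ i : Fin b, Nat.card {x : Ω // f x = i} = a)

include ha hf in
lemma fiber_two (i : Fin b) : ∃ x y : Ω, f x = i ∧ f y = i ∧ x ≠ y := by
  have h1 : 1 < Nat.card {x : Ω // f x = i} := by rw [hf i]; omega
  rw [Nat.card_eq_fintype_card, Fintype.one_lt_card_iff] at h1
  obtain ⟨x, y, hxy⟩ := h1
  exact ⟨x, y, x.2, y.2, fun h => hxy (Subtype.ext h)⟩

include hf in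
lemma card_eq : Fintype.card Ω = a * b := by
  rw [← Fintype.card_congr (Equiv.sigmaFiberEquiv f), Fintype.card_sigma,
    Finset.sum_congr rfl (fun i _ => (Nat.card_eq_fintype_card).symm.trans (hf i)), Finset.sum_const,
    Finset.card_univ, Fintype.card_fin, smul_eq_mul, mul_comm]

include hf in
lemma block_lift (σ : Equiv.Perm (Fin b)) : ∃ w ∈ W f, ∀ z, f (w z) = σ (f z) := by
  have hequiv : ∀ i j : Fin b, Nonempty ({x : Ω // f x = i} ≃ {x : Ω // f x = j}) := fun i j =>
    ⟨Fintype.equivOfCardEq (by rw [← Nat.card_eq_fintype_card, ← Nat.card_eq_fintype_card, hf, hf])⟩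
  let e := fun i j => Classical.choice (hequiv i j)
  let fn : Ω → Ω := fun z => (e (f z) (σ (f z)) ⟨z, rfl⟩).1
  have hfn : ∀ z, f (fn z) = σ (f z) := fun z => (e (f z) (σ (f z)) ⟨z, rfl⟩).2
  have key : ∀ (i : Fin b) (z : {x : Ω // f x = i}), fn z.1 = (e i (σ i) z).1 := by
    rintro i ⟨z, rfl⟩
    rfl
  have hinj : Function.Injective fn := by
    intro z z' h
    have hf' : f z = f z' := σ.injective (by rw [← hfn, ← hfn, h])
    rw [key (f z) ⟨z, rfl⟩, key (f z) ⟨z', hf'.symm⟩] at h
    exact congrArg Subtype.val ((e _ _).injective (Subtype.ext h))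
  refine ⟨Equiv.ofBijective fn ⟨hinj, Finite.surjective_of_injective hinj⟩, fun z z' => ?_, hfn⟩
  show f z = f z' ↔ f (fn z) = f (fn z')
  rw [hfn, hfn, σ.injective.eq_iff]

lemma even_fix {w : Equiv.Perm Ω} (hw : w ∈ W f) {p p' : Ω} (hp : f p = f p') (hne : p ≠ p') :
    ∃ w' ∈ W f ⊓ alternatingGroup Ω, ∀ z, w z ≠ p → w z ≠ p' → w' z = w z := by
  rcases Int.units_eq_one_or (sign w) with h | h
  · exact ⟨w, ⟨hw, mem_alternatingGroup.mpr h⟩, fun z _ _ => rfl⟩
  · exact ⟨swap p p' * w, ⟨(W f).mul_mem (swap_mem f hp) hw,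
      mem_alternatingGroup.mpr (by rw [Perm.sign_mul, sign_swap hne, h]; rfl)⟩,
      fun z h1 h2 => swap_apply_of_ne_of_ne h1 h2⟩

include ha hb hf

lemma ne_block (x : Ω) : ∃ p p' : Ω, f p = f p' ∧ p ≠ p' ∧ f p ≠ f x := by
  haveI : Nontrivial (Fin b) := Fin.nontrivial_iff_two_le.mpr hb
  obtain ⟨i, hi⟩ := exists_ne (f x)
  obtain ⟨p, p', hp, hp', hne⟩ := fiber_two ha hf i
  exact ⟨p, p', hp.trans hp'.symm, hne, hp ▸ hi⟩

lemma transitive (x y : Ω) : ∃ w ∈ W f ⊓ alternatingGroup Ω, w x = y := by
  obtain ⟨w, hw, hwf⟩ := block_lift hf (swap (f x) (f y))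
  have h1 : f (w x) = f y := by rw [hwf, swap_apply_left]
  have h2 : swap (w x) y * w ∈ W f := (W f).mul_mem (swap_mem f h1) hw
  obtain ⟨p, p', hp, hne, hpy⟩ := ne_block ha hb hf y
  obtain ⟨w', hw', hz⟩ := even_fix h2 hp hne
  have h3 : (swap (w x) y * w) x = y := swap_apply_left _ _
  refine ⟨w', hw', ?_⟩
  rw [hz x (by rw [h3]; exact fun e => hpy (by rw [e])) (by rw [h3]; exact fun e => hpy (by rw [e, hp])), h3]

lemma stab_in (x y z : Ω) (hy : f y = f x) (hz : f z = f x) (hyx : y ≠ x) (hzx : z ≠ x) :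
    ∃ w ∈ W f ⊓ alternatingGroup Ω, w x = x ∧ w y = z := by
  obtain ⟨p, p', hp, hne, hpx⟩ := ne_block ha hb hf x
  obtain ⟨w', hw', hv⟩ := even_fix (swap_mem f (hy.trans hz.symm)) hp hne
  have h1 : swap y z x = x := swap_apply_of_ne_of_ne hyx.symm hzx.symm
  have h2 : swap y z y = z := swap_apply_left _ _
  refine ⟨w', hw', ?_, ?_⟩
  · rw [hv x (by rw [h1]; exact fun e => hpx (by rw [e])) (by rw [h1]; exact fun e => hpx (by rw [hp, e])), h1]
  · rw [hv y (by rw [h2]; exact fun e => hpx (by rw [← e, hz])) (by rw [h2]; exact fun e => hpx (by rw [hp, ← e, hz])), h2]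

lemma stab_out (hab : 3 ≤ a ∨ 3 ≤ b) (x u v : Ω) (hu : f u ≠ f x) (hv : f v ≠ f x) :
    ∃ w ∈ W f ⊓ alternatingGroup Ω, w x = x ∧ w u = v := by
  obtain ⟨w, hw, hwf⟩ := block_lift hf (swap (f u) (f v))
  have hfx : f (w x) = f x := by rw [hwf, swap_apply_of_ne_of_ne hu.symm hv.symm]
  have hfu : f (w u) = f v := by rw [hwf, swap_apply_left]
  set w₁ := swap (w u) v * (swap (w x) x * w) with hw₁
  have hw₁W : w₁ ∈ W f := (W f).mul_mem (swap_mem f hfu) ((W f).mul_mem (swap_mem f hfx) hw)
  have hx1 : w₁ x = x := by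
    rw [hw₁, Perm.mul_apply, Perm.mul_apply, swap_apply_left,
      swap_apply_of_ne_of_ne (fun e => hv (by rw [e, hfu])) (fun e => hv (by rw [e]))]
  have hu1 : w₁ u = v := by
    rw [hw₁, Perm.mul_apply, Perm.mul_apply,
      swap_apply_of_ne_of_ne (a := w x) (b := x) (fun e => hv (by rw [← hfu, e, hfx]))
        (fun e => hv (by rw [← hfu, e])), swap_apply_left]
  obtain ⟨p, p', hp, hne, hpx, hpv, hp'x, hp'v⟩ :
      ∃ p p' : Ω, f p = f p' ∧ p ≠ p' ∧ p ≠ x ∧ p ≠ v ∧ p' ≠ x ∧ p' ≠ v := by
    rcases hab with h3 | h3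
    · have hc : 2 < Fintype.card {t : Ω // f t = f v} := by
        rw [← Nat.card_eq_fintype_card, hf]; omega
      rw [Fintype.two_lt_card_iff] at hc
      obtain ⟨p, q, r, hpq, hpr, hqr⟩ := hc
      have hnx : ∀ t : {t : Ω // f t = f v}, t.1 ≠ x := fun t e => hv (by rw [← t.2, e])
      have hs : ∀ {s t : {t : Ω // f t = f v}}, s ≠ t → s.1 ≠ t.1 := fun h e => h (Subtype.ext e)
      by_cases e1 : p.1 = v
      · exact ⟨q, r, q.2.trans r.2.symm, hs hqr, hnx _, fun e => hs hpq (e1.trans e.symm), hnx _,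
          fun e => hs hpr (e1.trans e.symm)⟩
      · by_cases e2 : q.1 = v
        · exact ⟨p, r, p.2.trans r.2.symm, hs hpr, hnx _, e1, hnx _, fun e => hs hqr (e2.trans e.symm)⟩
        · exact ⟨p, q, p.2.trans q.2.symm, hs hpq, hnx _, e1, hnx _, e2⟩
    · obtain ⟨i, hi⟩ : ∃ i : Fin b, i ∉ ({f x, f v} : Finset (Fin b)) := by
        by_contra! hall
        have := (Finset.card_le_two (a := f x) (b := f v))
        rw [Finset.eq_univ_iff_forall.mpr hall, Finset.card_univ, Fintype.card_fin] at this
        omega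
      simp only [Finset.mem_insert, Finset.mem_singleton, not_or] at hi
      obtain ⟨p, p', hp, hp', hne⟩ := fiber_two ha hf i
      exact ⟨p, p', hp.trans hp'.symm, hne, fun e => hi.1 (by rw [← hp, e]), fun e => hi.2 (by rw [← hp, e]),
        fun e => hi.1 (by rw [← hp', e]), fun e => hi.2 (by rw [← hp', e])⟩
  obtain ⟨w', hw', hz⟩ := even_fix hw₁W hp hne
  refine ⟨w', hw', ?_, ?_⟩
  · rw [hz x (by rw [hx1]; exact hpx.symm) (by rw [hx1]; exact hp'x.symm), hx1]
  · rw [hz u (by rw [hu1]; exact hpv.symm) (by rw [hu1]; exact hp'v.symm), hu1]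

theorem preprimitive (hab : 3 ≤ a ∨ 3 ≤ b) (G : Subgroup (Equiv.Perm Ω))
    (hG : W f ⊓ alternatingGroup Ω ≤ G) (hGW : ¬ G ≤ W f) : IsPreprimitive G Ω := by
  have hne : Nonempty Ω := by
    obtain ⟨x, -⟩ := fiber_two ha hf ⟨0, by omega⟩
    exact ⟨x⟩
  obtain ⟨x⟩ := hne
  haveI : IsPretransitive G Ω := ⟨fun u v => by
    obtain ⟨w, hw, he⟩ := transitive ha hb hf u v
    exact ⟨⟨w, hG hw⟩, he⟩⟩
  refine IsPreprimitive.of_isTrivialBlock_base x fun {B} hxB hB => ?_
  have hfix : ∀ (w : Equiv.Perm Ω), w ∈ W f ⊓ alternatingGroup Ω → w x = x → ∀ y ∈ B, w y ∈ B := by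
    intro w hw hwx y hy
    have h := hB.smul_eq_of_mem (g := (⟨w, hG hw⟩ : G)) (a := x) hxB (by show w x ∈ B; rwa [hwx])
    rw [← h]
    exact ⟨y, hy, rfl⟩
  by_cases hout : ∃ u ∈ B, f u ≠ f x
  · obtain ⟨u, huB, hu⟩ := hout
    refine Or.inr (hB.eq_univ_of_card_lt ?_)
    have hsub : insert x {v | f v ≠ f x} ⊆ B := by
      rintro v (rfl | hv)
      · exact hxB
      · obtain ⟨w, hw, hwx, hwu⟩ := stab_out ha hb hf hab x u v hu hv
        rw [← hwu]; exact hfix w hw hwx u huB
    have hin : ({v | f v = f x} : Set Ω).ncard = a := by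
      rw [← Nat.card_coe_set_eq]; exact hf (f x)
    have hout' : ({v | f v ≠ f x} : Set Ω).ncard = a * b - a := by
      rw [show {v | f v ≠ f x} = ({v | f v = f x} : Set Ω)ᶜ from rfl, Set.ncard_compl, hin,
        Nat.card_eq_fintype_card, card_eq hf]
    have h1 := Set.ncard_le_ncard hsub
    rw [Set.ncard_insert_of_notMem (by simp), hout'] at h1
    rw [Nat.card_eq_fintype_card, card_eq hf]
    have h2 : a * 2 ≤ a * b := Nat.mul_le_mul_left a hb
    omega
  · push Not at hout
    by_cases hin : ∃ y ∈ B, y ≠ x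
    · exfalso
      obtain ⟨y, hyB, hyx⟩ := hin
      have hBeq : B = {v | f v = f x} := by
        refine Set.Subset.antisymm (fun v hv => hout v hv) fun v (hv : f v = f x) => ?_
        by_cases hvx : v = x
        · rwa [hvx]
        · obtain ⟨w, hw, hwx, hwy⟩ := stab_in ha hb hf x y v (hout y hyB) hv hyx hvx
          rw [← hwy]; exact hfix w hw hwx y hyB
      have hfwd : ∀ g ∈ G, ∀ u v, f u = f v → f (g u) = f (g v) := by
        intro g hg u v huv
        obtain ⟨h, hh, hhu⟩ := transitive ha hb hf x u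
        obtain ⟨k, hk, hkg⟩ := transitive ha hb hf x (g u)
        have hval : (k⁻¹ * g * h) x = x := by
          simp only [Perm.mul_apply, hhu]
          rw [← hkg, Perm.inv_def, Equiv.symm_apply_apply]
        obtain ⟨v', rfl⟩ := h.surjective v
        have hv' : v' ∈ B := by
          rw [hBeq]
          show f v' = f x
          refine (hh.1 v' x).mpr ?_
          rw [hhu]; exact huv.symm
        have hmem : k⁻¹ * g * h ∈ G :=
          G.mul_mem (G.mul_mem (G.inv_mem (hG hk)) hg) (hG hh)
        have hBmap := hB.smul_eq_of_mem (g := (⟨_, hmem⟩ : G)) (a := x) hxB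
          (by show (k⁻¹ * g * h) x ∈ B; rwa [hval])
        have h5 : (k⁻¹ * g * h) v' ∈ B := by rw [← hBmap]; exact ⟨v', hv', rfl⟩
        rw [hBeq] at h5
        have h6 : f ((k⁻¹ * g * h) v') = f x := h5
        have h7 := (hk.1 _ x).mp h6
        rw [hkg] at h7
        simpa using h7.symm
      refine hGW fun g hg u v => ⟨hfwd g hg u v, fun e => ?_⟩
      simpa using hfwd g⁻¹ (G.inv_mem hg) _ _ e
    · push Not at hin
      exact Or.inl fun s hs t ht => (hin s hs).trans (hin t ht).symm

omit ha hb hf in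
lemma three_cycle_pairs {x y z : Ω} (h1 : y ≠ x) (h2 : y ≠ z) (h3 : x ≠ z) :
    IsThreeCycle (swap x y * swap x z) := isThreeCycle_swap_mul_swap_same h1.symm h3 h2

omit hb in
theorem exists_three_cycle_two (hb3 : 3 ≤ b) (hb4 : b ≠ 4) (ha2 : a = 2) (G : Subgroup (Equiv.Perm Ω))
    (hG : W f ⊓ alternatingGroup Ω ≤ G) (g : Equiv.Perm Ω) (hg : g ∈ G) (hgW : g ∉ W f) :
    ∃ c ∈ G, IsThreeCycle c := by
  subst ha2
  have hmate : ∀ x : Ω, ∃ y, f y = f x ∧ y ≠ x := fun x => by
    obtain ⟨p, p', hp, hp', hne⟩ := fiber_two ha hf (f x)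
    by_cases hpx : p = x
    · exact ⟨p', hp', fun e => hne (hpx.trans e.symm)⟩
    · exact ⟨p, hp, hpx⟩
  choose π hπf hπne using hmate
  have huniq : ∀ x y, f y = f x → y = x ∨ y = π x := by
    intro x y hy
    by_contra! h
    have hc : 2 < Fintype.card {t : Ω // f t = f x} :=
      Fintype.two_lt_card_iff.mpr ⟨⟨x, rfl⟩, ⟨π x, hπf x⟩, ⟨y, hy⟩,
        fun e => hπne x (congrArg Subtype.val e).symm, fun e => h.1 (congrArg Subtype.val e).symm,
        fun e => h.2 (congrArg Subtype.val e).symm⟩
    rw [← Nat.card_eq_fintype_card, hf] at hc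
    omega
  have hππ : ∀ x, π (π x) = x := fun x =>
    ((huniq (π x) x (hπf x).symm).resolve_left (hπne x).symm).symm
  have hπinj : Function.Injective π := fun u v e => by rw [← hππ u, e, hππ]
  let τ : Ω → Ω := fun x => g (π (g⁻¹ x))
  have hττ : ∀ x, τ (τ x) = x := fun x => by
    show g (π (g⁻¹ (g (π (g⁻¹ x))))) = x
    simp [hππ]
  have hτne : ∀ x, τ x ≠ x := fun x e => hπne (g⁻¹ x) (g.injective (e.trans (by simp)))
  have hτinj : Function.Injective τ := fun u v e => by rw [← hττ u, e, hττ]
  have hnot : ∃ x, τ x ≠ π x := by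
    by_contra! hall
    have hgπ : ∀ x, g (π x) = π (g x) := fun x => by
      have h := hall (g x)
      simp only [τ, Perm.inv_def, Equiv.symm_apply_apply] at h
      exact h
    refine hgW fun u v => ⟨fun e => ?_, fun e => ?_⟩
    · rcases huniq u v e.symm with rfl | rfl
      · rfl
      · rw [hgπ]; exact (hπf _).symm
    · rcases huniq (g u) (g v) e.symm with h | h
      · rw [g.injective h]
      · rw [← hgπ] at h; rw [g.injective h]; exact (hπf _).symm
  have hA : ∀ p r : Ω, r ≠ p → r ≠ π p → swap p (π p) * swap r (π r) ∈ W f ⊓ alternatingGroup Ω :=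
    fun p r h1 h2 => ⟨(W f).mul_mem (swap_mem f (hπf p).symm) (swap_mem f (hπf r).symm),
      mem_alternatingGroup.mpr (by rw [Perm.sign_mul, sign_swap (hπne p).symm, sign_swap (hπne r).symm]; rfl)⟩
  have hT : ∀ u c : Ω, c ≠ u → c ≠ τ u → swap u (τ u) * swap c (τ c) ∈ G := by
    intro u c h1 h2
    have hconj : ∀ t, swap t (τ t) = g * swap (g⁻¹ t) (π (g⁻¹ t)) * g⁻¹ := fun t => by
      rw [← swap_apply_apply]; simp [τ]
    rw [hconj, hconj]
    have h' : g⁻¹ c ≠ g⁻¹ u := fun e => h1 (g⁻¹.injective e)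
    have h'' : g⁻¹ c ≠ π (g⁻¹ u) := fun e => h2 (by
      show c = g (π (g⁻¹ u))
      rw [← e]; simp)
    have := G.mul_mem (G.mul_mem hg (hG (hA _ _ h' h''))) (G.inv_mem hg)
    convert this using 1
    group
  by_cases hshare : ∃ c, τ c = π c
  · obtain ⟨c, hc⟩ := hshare
    obtain ⟨x, hx⟩ := hnot
    have hxc : c ≠ x := fun e => hx (e ▸ hc)
    have hxc2 : c ≠ τ x := fun e => hx (by
      have h1 : π c = x := by rw [← hc, e, hττ]
      rw [← e, ← h1, hππ])
    have hxc3 : x ≠ π c := fun e => hxc2 (by rw [e, ← hc, hττ])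
    have hpr := hA x c hxc (fun e => hxc3 (by rw [e, hππ]))
    refine ⟨_, G.mul_mem (hT x c hxc hxc2) (hG hpr), ?_⟩
    have e : swap x (τ x) * swap c (τ c) * (swap x (π x) * swap c (π c)) = swap x (τ x) * swap x (π x) := by
      rw [hc]
      have hd : Equiv.Perm.Disjoint (swap x (π x)) (swap c (π c)) := by
        intro t
        by_cases ht : t = c ∨ t = π c
        · left
          refine swap_apply_of_ne_of_ne ?_ ?_
          · rcases ht with rfl | rfl
            · exact hxc
            · exact hxc3.symm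
          · rcases ht with rfl | rfl
            · exact fun e => hxc3 (by rw [e, hππ])
            · exact fun e => hxc (hπinj e)
        · push Not at ht
          exact Or.inr (swap_apply_of_ne_of_ne ht.1 ht.2)
      rw [hd.commute.eq, ← mul_assoc, mul_assoc _ (swap c (π c)) (swap c (π c)), swap_mul_self, mul_one]
    rw [e]
    exact three_cycle_pairs (hτne x) hx (hπne x).symm
  · push Not at hshare
    by_cases hcom : ∀ x, τ (π x) = π (τ x)
    · -- commuting matchings: orbits of size four
      obtain ⟨c, -⟩ := hnot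
      have hb5 : 5 ≤ b ∨ b = 3 := by omega
      rcases hb5 with hb5 | hb3'
      · set S : Finset Ω := {c, π c, τ c, π (τ c)} with hS
        have hS4 : S.card ≤ 4 := Finset.card_le_four
        obtain ⟨u, hu⟩ : ∃ u, u ∉ S := by
          by_contra! hall
          rw [Finset.eq_univ_iff_forall.mpr hall, Finset.card_univ, card_eq hf] at hS4
          omega
        obtain ⟨s, hs⟩ : ∃ s, s ∉ S ∪ {u, π u, τ u, π (τ u)} := by
          by_contra! hall
          have h8 := (Finset.card_union_le S {u, π u, τ u, π (τ u)}).trans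
            (Nat.add_le_add hS4 Finset.card_le_four)
          rw [Finset.eq_univ_iff_forall.mpr hall, Finset.card_univ, card_eq hf] at h8
          omega
        simp only [hS, Finset.mem_union, Finset.mem_insert, Finset.mem_singleton, not_or] at hu hs
        obtain ⟨⟨hs1, hs2, hs3, hs4⟩, hs5, hs6, hs7, hs8⟩ := hs
        obtain ⟨hu1, hu2, hu3, hu4⟩ := hu
        -- `[A₁ D₁] = 3-cycle` after squaring
        have hm1 := hT c u hu1 hu3
        have hm2 := hG (hA c s hs1 hs2)
        refine ⟨(swap c (τ c) * swap u (τ u) * (swap c (π c) * swap s (π s))) *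
          (swap c (τ c) * swap u (τ u) * (swap c (π c) * swap s (π s))),
          G.mul_mem (G.mul_mem hm1 hm2) (G.mul_mem hm1 hm2), ?_⟩
        have hdis : ∀ p p' r r' : Ω, p ≠ r → p ≠ r' → p' ≠ r → p' ≠ r' →
            Commute (swap p p') (swap r r') := by
          intro p p' r r' h1 h2 h3 h4
          refine Equiv.Perm.Disjoint.commute fun t => ?_
          by_cases ht : t = p ∨ t = p'
          · right
            rcases ht with rfl | rfl
            · exact swap_apply_of_ne_of_ne h1 h2
            · exact swap_apply_of_ne_of_ne h3 h4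
          · push Not at ht
            exact Or.inl (swap_apply_of_ne_of_ne ht.1 ht.2)
        have k1 : Commute (swap u (τ u)) (swap c (π c)) := hdis _ _ _ _ hu1 hu2
          (fun e => hu3 (by rw [← e, hττ])) (fun e => hu4 (by rw [← hcom, ← e, hττ]))
        have k2 : Commute (swap u (τ u)) (swap s (π s)) := hdis _ _ _ _ (Ne.symm hs5)
          (fun e => hs6 (by rw [e, hππ])) (fun e => hs7 e.symm) (fun e => hs8 (by rw [e, hππ]))
        have k3 : Commute (swap c (τ c)) (swap s (π s)) := hdis _ _ _ _ (Ne.symm hs1)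
          (fun e => hs2 (by rw [e, hππ])) (fun e => hs3 e.symm) (fun e => hs4 (by rw [e, hππ]))
        have k4 : Commute (swap c (τ c)) (swap u (τ u)) := hdis _ _ _ _ (Ne.symm hu1)
          (fun e => hu3 (by rw [e, hττ])) (fun e => hu3 e.symm) (fun e => hu1 (hτinj e).symm)
        have k5 : Commute (swap c (π c)) (swap s (π s)) := hdis _ _ _ _ (Ne.symm hs1)
          (fun e => hs2 (by rw [e, hππ])) (fun e => hs2 e.symm) (fun e => hs1 (hπinj e).symm)
        generalize hA' : swap c (τ c) = A at k3 k4 ⊢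
        generalize hB' : swap u (τ u) = B at k1 k2 k4 ⊢
        generalize hC' : swap c (π c) = C at k1 k5 ⊢
        generalize hD' : swap s (π s) = D at k2 k3 k5 ⊢
        have hBB : B * B = 1 := by rw [← hB', swap_mul_self]
        have hDD : D * D = 1 := by rw [← hD', swap_mul_self]
        have hA2 : Commute (A * C) (B * D) :=
          (((k4.mul_left k1.symm)).mul_right (k3.mul_left k5))
        have e1 : A * B * (C * D) = (A * C) * (B * D) := by
          rw [mul_assoc, ← mul_assoc B, k1.eq, mul_assoc C, ← mul_assoc]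
        have e2 : (B * D) * (B * D) = 1 := by
          rw [mul_assoc, ← mul_assoc D, ← k2.eq, mul_assoc B, hDD, mul_one, hBB]
        rw [e1, mul_assoc (A * C), ← mul_assoc (B * D), ← hA2.eq, mul_assoc (A * C) (B * D), e2, mul_one]
        rw [← hA', ← hC']
        exact (three_cycle_pairs (hτne c) (hshare c) (hπne c).symm).isThreeCycle_sq
      · -- six points cannot be covered by orbits of size four
        exfalso
        subst hb3'
        set S : Finset Ω := {c, π c, τ c, π (τ c)} with hS
        obtain ⟨u, hu⟩ : ∃ u, u ∉ S := by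
          by_contra! hall
          have hS4 : S.card ≤ 4 := Finset.card_le_four
          rw [Finset.eq_univ_iff_forall.mpr hall, Finset.card_univ, card_eq hf] at hS4
          omega
        simp only [hS, Finset.mem_insert, Finset.mem_singleton, not_or] at hu
        obtain ⟨hu1, hu2, hu3, hu4⟩ := hu
        have n : ∀ t, t ≠ π t ∧ t ≠ τ t ∧ π t ≠ τ t ∧ t ≠ π (τ t) ∧ π t ≠ π (τ t) ∧ τ t ≠ π (τ t) := fun t =>
          ⟨(hπne t).symm, (hτne t).symm, (hshare t).symm,
            fun e => hshare t (hπinj (by rw [← e, hππ])), fun e => hτne t (hπinj e).symm, (hπne _).symm⟩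
        obtain ⟨n1, n2, n3, n4, n5, n6⟩ := n c
        obtain ⟨m1, m2, m3, m4, m5, m6⟩ := n u
        have a1 : π u ≠ c := fun e => hu2 (by rw [← e, hππ])
        have a2 : π u ≠ π c := fun e => hu1 (hπinj e)
        have a3 : π u ≠ τ c := fun e => hu4 (by rw [← e, hππ])
        have a4 : π u ≠ π (τ c) := fun e => hu3 (hπinj e)
        have b1 : τ u ≠ c := fun e => hu3 (by rw [← e, hττ])
        have b2 : τ u ≠ π c := fun e => hu4 (by rw [← hcom, ← e, hττ])
        have b3 : τ u ≠ τ c := fun e => hu1 (hτinj e)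
        have b4 : τ u ≠ π (τ c) := fun e => hu2 (by rw [← hττ u, e, hcom, hττ])
        have h7 : ({c, π c, τ c, π (τ c), u, π u, τ u} : Finset Ω).card = 7 := by
          rw [Finset.card_insert_of_notMem, Finset.card_insert_of_notMem, Finset.card_insert_of_notMem,
            Finset.card_insert_of_notMem, Finset.card_insert_of_notMem, Finset.card_insert_of_notMem,
            Finset.card_singleton]
          all_goals simp only [Finset.mem_insert, Finset.mem_singleton, not_or]
          · exact m3
          · exact ⟨m1, m2⟩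
          · exact ⟨(Ne.symm hu4), a4.symm, b4.symm⟩
          · exact ⟨n6, (Ne.symm hu3), a3.symm, b3.symm⟩
          · exact ⟨n3, n5, (Ne.symm hu2), a2.symm, b2.symm⟩
          · exact ⟨n1, n2, n4, (Ne.symm hu1), a1.symm, b1.symm⟩
        have h6 := Finset.card_le_univ ({c, π c, τ c, π (τ c), u, π u, τ u} : Finset Ω)
        rw [h7, card_eq hf] at h6
        omega
    · push Not at hcom
      obtain ⟨c, hc⟩ := hcom
      -- `d = τ c`, `a = π c`, `b = τ a`
      have hdc := hτne c
      have hca : c ≠ π c := (hπne c).symm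
      have hda : τ c ≠ π c := hshare c
      have hdd : π c ≠ π (τ c) := fun e => hdc (hπinj e).symm
      have hba : τ (π c) ≠ π c := hτne _
      have hbd : τ (π c) ≠ π (τ c) := hc
      have hcd : π (τ c) ≠ c := fun e => hda (by rw [← hππ (τ c), e])
      -- the even element swapping the blocks of `c` and `d`
      have hw : swap c (τ c) * swap (π c) (π (τ c)) ∈ W f ⊓ alternatingGroup Ω := by
        refine ⟨?_, mem_alternatingGroup.mpr (by rw [Perm.sign_mul, sign_swap hdc.symm, sign_swap hdd]; rfl)⟩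
        have hcommπ : ∀ t, (swap c (τ c) * swap (π c) (π (τ c))) (π t) =
            π ((swap c (τ c) * swap (π c) (π (τ c))) t) := by
          have hmap : ∀ p q t, π (swap p q t) = swap (π p) (π q) (π t) := fun p q t => hπinj.swap_apply p q t |>.symm
          intro t
          simp only [Perm.mul_apply]
          rw [hmap, hmap, hππ, hππ]
          have hd : Equiv.Perm.Disjoint (swap c (τ c)) (swap (π c) (π (τ c))) := by
            intro s
            by_cases hs : s = c ∨ s = τ c
            · right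
              rcases hs with rfl | rfl
              · exact swap_apply_of_ne_of_ne hca hcd.symm
              · exact swap_apply_of_ne_of_ne hda (hπne _).symm
            · push Not at hs
              exact Or.inl (swap_apply_of_ne_of_ne hs.1 hs.2)
          exact DFunLike.congr_fun hd.commute.eq (π t)
        intro u v
        constructor
        · intro e
          rcases huniq u v e.symm with rfl | rfl
          · rfl
          · rw [hcommπ]; exact (hπf _).symm
        · intro e
          rcases huniq _ _ e.symm with h | h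
          · rw [(swap c (τ c) * swap (π c) (π (τ c))).injective h]
          · rw [← hcommπ] at h
            rw [(swap c (τ c) * swap (π c) (π (τ c))).injective h]
            exact (hπf _).symm
      have ht := hT (π c) c hca (fun e => hda ((congrArg τ e).trans (hττ _)))
      refine ⟨_, G.mul_mem ht (hG hw), ?_⟩
      rw [show swap (π c) (τ (π c)) * swap c (τ c) * (swap c (τ c) * swap (π c) (π (τ c))) =
          swap (π c) (τ (π c)) * swap (π c) (π (τ c)) by
        rw [mul_assoc, ← mul_assoc (swap c (τ c)), swap_mul_self, one_mul]]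
      exact three_cycle_pairs hba hbd hdd

theorem isCoatom_alt (h8 : Fintype.card Ω ≠ 8) :
    IsCoatom ((W f ⊓ alternatingGroup Ω).subgroupOf (alternatingGroup Ω)) := by
  constructor
  · intro htop
    obtain ⟨x, x', hx, hx', hxx⟩ := fiber_two ha hf ⟨0, by omega⟩
    obtain ⟨y, y', hy, hy', hyy⟩ := fiber_two ha hf ⟨1, by omega⟩
    have hxy : f x ≠ f y := by rw [hx, hy]; simp
    have hmem : swap x y * swap y y' ∈ W f := by
      have hA : swap x y * swap y y' ∈ alternatingGroup Ω := mem_alternatingGroup.mpr (by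
        rw [Perm.sign_mul, sign_swap (fun e => hxy (by rw [e])), sign_swap hyy]; rfl)
      have := Subgroup.eq_top_iff' _ |>.mp htop ⟨_, hA⟩
      exact (Subgroup.mem_subgroupOf.mp this).1
    have h := (hmem x x').1 (hx.trans hx'.symm)
    have e1 : (swap x y * swap y y') x = y := by
      rw [Perm.mul_apply, swap_apply_of_ne_of_ne (a := y) (fun e => hxy (by rw [e]))
        (fun e => hxy (by rw [e, hy', hy])), swap_apply_left]
    have e2 : (swap x y * swap y y') x' = x' := by
      rw [Perm.mul_apply, swap_apply_of_ne_of_ne (a := y) (fun e => hxy (by rw [hx, ← hx', e]))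
        (fun e => hxy (by rw [hx, ← hx', e, hy', hy])),
        swap_apply_of_ne_of_ne hxx.symm (fun e => hxy (by rw [hx, ← hx', e]))]
    rw [e1, e2] at h
    exact hxy (hx.trans (hx'.symm.trans h.symm))
  · intro K hK
    set G := K.map (alternatingGroup Ω).subtype with hGdef
    have hWG : W f ⊓ alternatingGroup Ω ≤ G := fun w hw =>
      ⟨⟨w, hw.2⟩, hK.le (Subgroup.mem_subgroupOf.mpr hw), rfl⟩
    obtain ⟨k, hk, hkW⟩ := SetLike.exists_of_lt hK
    have hkW' : k.1 ∉ W f := fun h => hkW (Subgroup.mem_subgroupOf.mpr ⟨h, k.2⟩)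
    have hkG : k.1 ∈ G := ⟨k, hk, rfl⟩
    suffices alternatingGroup Ω ≤ G by
      refine (Subgroup.eq_top_iff' _).mpr fun z => ?_
      obtain ⟨z', hz', he⟩ := this z.2
      rwa [← Subtype.ext he]
    by_cases hab : 3 ≤ a ∨ 3 ≤ b
    · have hprim := preprimitive ha hb hf hab G hWG (fun h => hkW' (h hkG))
      rcases Nat.lt_or_ge a 3 with ha3 | ha3
      · obtain rfl : a = 2 := by omega
        have hb4 : b ≠ 4 := fun e => h8 (by rw [card_eq hf, e])
        obtain ⟨c, hc, h3c⟩ := exists_three_cycle_two ha hf (by omega) hb4 rfl G hWG k.1 hkG hkW'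
        exact alternatingGroup_le_of_isPreprimitive_of_isThreeCycle_mem hprim h3c hc
      · have hc : 2 < Fintype.card {t : Ω // f t = ⟨0, by omega⟩} := by
          rw [← Nat.card_eq_fintype_card, hf]; omega
        rw [Fintype.two_lt_card_iff] at hc
        obtain ⟨p, q, r, hpq, hpr, hqr⟩ := hc
        have h3c : IsThreeCycle (swap p.1 q.1 * swap p.1 r.1) := isThreeCycle_swap_mul_swap_same
          (fun e => hpq (Subtype.ext e)) (fun e => hpr (Subtype.ext e)) (fun e => hqr (Subtype.ext e))
        exact alternatingGroup_le_of_isPreprimitive_of_isThreeCycle_mem hprim h3c (hWG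
          ⟨(W f).mul_mem (swap_mem f (p.2.trans q.2.symm)) (swap_mem f (p.2.trans r.2.symm)),
            h3c.mem_alternatingGroup⟩)
    · obtain ⟨rfl, rfl⟩ : a = 2 ∧ b = 2 := by omega
      have hn : Nat.card Ω = 4 := by rw [Nat.card_eq_fintype_card, card_eq hf]
      obtain ⟨x, -⟩ := fiber_two ha hf 0
      haveI : IsPretransitive G Ω := ⟨fun u v => by
        obtain ⟨w, hw, he⟩ := transitive ha hb hf u v
        exact ⟨⟨w, hWG hw⟩, he⟩⟩
      have h4 : 4 ∣ Nat.card G := by
        rw [← hn, ← MulAction.index_stabilizer_of_transitive (G := G) x]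
        exact Subgroup.index_dvd_card _
      let e : Ω ≃ Fin 4 := Fintype.equivFinOfCardEq (by rw [card_eq hf])
      have hsmall : ∀ s : Equiv.Perm (Fin 4), Perm.sign s = 1 → s * s = 1 ∨ s * (s * s) = 1 := by
        decide +kernel
      have hk2 : k.1 * k.1 = 1 → False := by
        intro h2
        have hcomm : ∀ s t : Equiv.Perm (Fin 4), s * s = 1 → t * t = 1 → Perm.sign s = 1 →
            (∀ i, t i ≠ i) → s * t = t * s := by decide +kernel
        have hmate : ∀ x : Ω, ∃ y, f y = f x ∧ y ≠ x := fun x => by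
          obtain ⟨p, p', hp, hp', hne⟩ := fiber_two ha hf (f x)
          by_cases hpx : p = x
          · exact ⟨p', hp', fun e => hne (hpx.trans e.symm)⟩
          · exact ⟨p, hp, hpx⟩
        choose π hπf hπne using hmate
        have huniq : ∀ x y, f y = f x → y = x ∨ y = π x := by
          intro x y hy
          by_contra! h
          have hc : 2 < Fintype.card {t : Ω // f t = f x} :=
            Fintype.two_lt_card_iff.mpr ⟨⟨x, rfl⟩, ⟨π x, hπf x⟩, ⟨y, hy⟩,
              fun e => hπne x (congrArg Subtype.val e).symm, fun e => h.1 (congrArg Subtype.val e).symm,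
              fun e => h.2 (congrArg Subtype.val e).symm⟩
          rw [← Nat.card_eq_fintype_card, hf] at hc
          omega
        have hππ : Function.Involutive π := fun x =>
          ((huniq (π x) x (hπf x).symm).resolve_left (hπne x).symm).symm
        let P : Equiv.Perm Ω := hππ.toPerm
        have h := hcomm (e.permCongrHom k.1) (e.permCongrHom P) (by rw [← map_mul, h2, map_one])
          (by rw [← map_mul, show P * P = 1 from Equiv.ext hππ, map_one])
          (by show Perm.sign (e.permCongr k.1) = 1; rw [sign_permCongr]; exact mem_alternatingGroup.mp k.2)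
          (fun i hi => hπne (e.symm i) (e.injective (by
            have : e (π (e.symm i)) = i := hi
            rw [this, Equiv.apply_symm_apply])))
        rw [← map_mul, ← map_mul] at h
        have hgπ : ∀ t, k.1 (π t) = π (k.1 t) := fun t => DFunLike.congr_fun (e.permCongrHom.injective h) t
        refine hkW' fun u v => ⟨fun e' => ?_, fun e' => ?_⟩
        · rcases huniq u v e'.symm with rfl | rfl
          · rfl
          · rw [hgπ]; exact (hπf _).symm
        · rcases huniq (k.1 u) (k.1 v) e'.symm with h' | h'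
          · rw [k.1.injective h']
          · rw [← hgπ] at h'; rw [k.1.injective h']; exact (hπf _).symm
      have hk3 : k.1 ^ 3 = 1 := by
        rcases hsmall (e.permCongrHom k.1) (by
          show Perm.sign (e.permCongr k.1) = 1; rw [sign_permCongr]; exact mem_alternatingGroup.mp k.2) with h | h
        · rw [← map_mul, ← map_one e.permCongrHom] at h
          exact absurd (e.permCongrHom.injective h) hk2
        · rw [← map_mul, ← map_mul, ← map_one e.permCongrHom] at h
          rw [pow_succ', pow_two]; exact e.permCongrHom.injective h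
      have h3 : 3 ∣ Nat.card G := by
        haveI : Fact (Nat.Prime 3) := ⟨Nat.prime_three⟩
        have ho : orderOf k.1 = 3 := orderOf_eq_prime hk3 (fun e' => hkW' (e' ▸ (W f).one_mem))
        rw [← ho, ← Subgroup.orderOf_mk k.1 hkG]
        exact orderOf_dvd_natCard _
      have h12 : 12 ∣ Nat.card G := Nat.Coprime.mul_dvd_of_dvd_of_dvd (by norm_num : Nat.Coprime 4 3) h4 h3
      refine alternatingGroup_le_of_index_le_two ?_
      have hprod := Subgroup.index_mul_card G
      rw [Nat.card_perm, hn] at hprod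
      have := Nat.le_of_dvd Nat.card_pos h12
      rw [show Nat.factorial 4 = 24 by rfl] at hprod
      nlinarith

end CfsgLib.ImprimAlt
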