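import Cfsg.Agent.Lib.ClassicalSLTwoClasses

/-! The possible class sizes of `PSL₂`, with witnesses. -/

set_option autoImplicit false
set_option linter.style.haveILetI false

universe u

namespace CfsgLib.SLTwoClasses

open Matrix CfsgLib.Dickson

variable {F : Type u} [Field F] [Fintype F]

/-- The index of the centraliser of the image. -/
noncomputable def cIdx (g : SL F) : ℕ := (Subgroup.centralizer ({mkP g} : Set (PSL F))).index

theorem cIdx_eq {g : SL F} {k v : ℕ} (hk : 0 < k) (hg : Nat.card (liftCent g) = k)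
    (h : v * k = Fintype.card F * (Fintype.card F - 1) * (Fintype.card F + 1)) : cIdx g = v := by
  have := index_mkP g
  rw [hg, ← h] at this
  exact Nat.eq_of_mul_eq_mul_right hk this

theorem cIdx_scal {g : SL F} (hg : IsScal g) : cIdx g = 1 := by
  rw [cIdx, mkP_eq_one.2 hg, Subgroup.index_eq_one, Subgroup.eq_top_iff']
  intro x
  simp [Subgroup.mem_centralizer_singleton_iff]

theorem sq_sub_one (q : ℕ) : q ^ 2 - 1 = (q + 1) * (q - 1) := by
  simpa using Nat.sq_sub_sq q 1

theorem range_eq : (Set.range fun x : PSL F => (Subgroup.centralizer ({x} : Set (PSL F))).index) = Set.range (cIdx (F := F)) := by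
  ext n
  constructor
  · rintro ⟨x, rfl⟩
    obtain ⟨g, rfl⟩ := mkP_surjective x
    exact ⟨g, rfl⟩
  · rintro ⟨g, rfl⟩
    exact ⟨mkP g, rfl⟩

theorem liftCent_upperU_one : Nat.card (liftCent (upperU (1 : F))) = Nat.card {a : F // a * a = 1} * Fintype.card F := by
  rw [card_liftCent ?_, card_cent_upperU one_ne_zero]
  rcases eq_or_ne (2 : F) 0 with h | h
  · exact Or.inl h
  · right
    rw [coe_upperU_val]
    simpa [one_add_one_eq_two] using h

theorem exists_semisimple {p : ℕ} [Fact p.Prime] [CharP F p] {e : ℕ} (h4 : 4 ≤ Fintype.card F)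
    (he : e = Fintype.card F - 1 ∨ e = Fintype.card F + 1) (hbig : (2 : F) = 0 ∨ 5 ≤ e) :
    ∃ g : SL F, Nat.card (liftCent g) = e := by
  obtain ⟨C, hC, hord, hcard⟩ := exists_torus (p := p) rfl h4 e he
  rcases hbig with h2 | h5
  · exact ⟨C, by rw [card_liftCent (Or.inl h2), hcard]⟩
  · obtain ⟨hcyc, -⟩ := torus_data (p := p) rfl h4 hC hord
    haveI := hcyc
    obtain ⟨c, hc⟩ := IsCyclic.exists_ofOrder_eq_natCard (α := Subgroup.centralizer ({C} : Set (SL F)))
    have hc' : orderOf (c : SL F) = e := by rw [Subgroup.orderOf_coe, hc, hcard]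
    have hns : ¬ IsScal (c : SL F) := by
      intro hs
      rcases CfsgLib.Classical.eq_one_or_neg_one_of_isScal hs with h | h
      · rw [h, orderOf_one] at hc'; omega
      · have : orderOf (c : SL F) ≤ 2 := orderOf_le_of_pow_eq_one two_pos (by rw [h, pow_two]; simp)
        omega
    refine ⟨c, ?_⟩
    rw [card_liftCent (Or.inr fun ht => ?_), cent_eq_of_commute hns hC (Subgroup.mem_centralizer_singleton_iff.1 c.2), hcard]
    have h4' : (c : SL F) ^ 4 = 1 := by
      rw [show 4 = 2 * 2 from rfl, pow_mul, pow_two, pow_two, mul_self_eq_neg_one ht]; simp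
    have := orderOf_le_of_pow_eq_one (by norm_num) h4'
    omega

/-- The element of order four. -/
def wElt : SL F := ⟨!![0, 1; -1, 0], by simp [Matrix.det_fin_two]⟩

theorem wElt_spec : ¬ IsScal (wElt : SL F) ∧ (wElt : SL F) * wElt = -1 := by
  refine ⟨fun h => one_ne_zero (α := F) (by simpa [wElt] using h.1), mul_self_eq_neg_one (by simp [wElt])⟩

end CfsgLib.SLTwoClasses
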