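import Mathlib
import Cfsg.Agent.Lib.LocalZsigmondy

/-!
Abelian subgroups of `GL_n(q)` containing an element of primitive prime order are inside a Singer group.
-/

namespace CfsgLib.Singer

open Polynomial Module

variable {F : Type*} [Field F] [Fintype F] {V : Type*} [AddCommGroup V] [Module F V]
  [FiniteDimensional F V]

/-- An irreducible factor other than `X - 1` of `X ^ r - 1`, for a prime `r` primitive for `q ^ n - 1`,
has degree at least `n`. -/
theorem le_natDegree_of_dvd (r n : ℕ) [Fact r.Prime]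
    (hprim : ∀ k : ℕ, 0 < k → k < n → ¬ r ∣ Fintype.card F ^ k - 1) (f : F[X]) (hf : Irreducible f)
    (hdvd : f ∣ X ^ r - 1) (hne : ¬ f ∣ X - 1) : n ≤ f.natDegree := by
  classical
  by_contra hlt
  push Not at hlt
  haveI := Fact.mk hf
  let a := AdjoinRoot.root f
  have har : a ^ r = 1 := by
    obtain ⟨g, hg⟩ := hdvd
    have := congrArg (AdjoinRoot.mk f) hg
    simp only [map_sub, map_pow, map_one, map_mul, AdjoinRoot.mk_self, zero_mul,
      AdjoinRoot.mk_X] at this
    exact sub_eq_zero.mp this
  have ha1 : a ≠ 1 := by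
    intro h
    apply hne
    rw [← AdjoinRoot.mk_eq_zero, map_sub, map_one, AdjoinRoot.mk_X]
    exact sub_eq_zero.mpr h
  have hord : orderOf a = r := orderOf_eq_prime har ha1
  let B := AdjoinRoot.powerBasis hf.ne_zero
  haveI : FiniteDimensional F (AdjoinRoot f) := B.finite
  haveI : Finite (AdjoinRoot f) := Module.finite_of_finite F
  letI := Fintype.ofFinite (AdjoinRoot f)
  have hcard : Fintype.card (AdjoinRoot f) = Fintype.card F ^ f.natDegree := by
    rw [Module.card_eq_pow_finrank (K := F) (V := AdjoinRoot f), B.finrank,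
      AdjoinRoot.powerBasis_dim]
  have ha0 : a ≠ 0 := by
    intro h
    rw [h, zero_pow (Fact.out : r.Prime).ne_zero] at har
    exact zero_ne_one har
  have : r ∣ Fintype.card F ^ f.natDegree - 1 := by
    rw [← hord, ← hcard]
    exact orderOf_dvd_of_pow_eq_one (FiniteField.pow_card_sub_one_eq_one a ha0)
  exact hprim _ hf.natDegree_pos hlt this

/-- An abelian subgroup of order `q ^ n - 1` of `GL(V)` consists of the non-zero elements of a field
of endomorphisms of degree `n`. -/
theorem exists_field (n : ℕ) (hdim : finrank F V = n) (r : ℕ) [Fact r.Prime]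
    (hr : r ∣ Fintype.card F ^ n - 1)
    (hprim : ∀ k : ℕ, 0 < k → k < n → ¬ r ∣ Fintype.card F ^ k - 1)
    (U : Subgroup (Module.End F V)ˣ) (hU : IsMulCommutative U)
    (hcard : Nat.card U = Fintype.card F ^ n - 1) :
    ∃ (f : F[X]) (_ : Fact (Irreducible f)) (ι : AdjoinRoot f →ₐ[F] Module.End F V),
      finrank F (AdjoinRoot f) = n ∧
      U = (Units.map (ι : AdjoinRoot f →* Module.End F V)).range := by
  classical
  haveI : Finite V := Module.finite_of_finite F
  haveI : Finite (Module.End F V) := Finite.of_injective (fun T => (T : V → V))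
    DFunLike.coe_injective
  obtain ⟨u, hu⟩ := exists_prime_orderOf_dvd_card' (G := U) r (hcard ▸ hr)
  let T : Module.End F V := ((u : (Module.End F V)ˣ) : Module.End F V)
  have hTr : T ^ r = 1 := by
    have h : u ^ r = 1 := hu ▸ pow_orderOf_eq_one u
    have h' := congrArg (fun z : U => ((z : (Module.End F V)ˣ) : Module.End F V)) h
    simpa [T] using h'
  have hT1 : T ≠ 1 := by
    intro h
    have : u = 1 := Subtype.ext (Units.ext h)
    rw [this, orderOf_one] at hu
    exact (Fact.out : r.Prime).ne_one hu.symm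
  have hm : minpoly F T ∣ X ^ r - 1 := minpoly.dvd F T (by simp [hTr])
  have hqn : 1 < Fintype.card F := Fintype.one_lt_card
  have hn : 0 < n := by
    rcases Nat.eq_zero_or_pos n with h | h
    · exfalso
      subst h
      haveI : Subsingleton V := Module.finrank_zero_iff.mp hdim
      exact hT1 (LinearMap.ext fun v => Subsingleton.elim _ _)
    · exact h
  obtain ⟨p, hp⟩ := CharP.exists F
  haveI := hp
  haveI : Fact p.Prime := ⟨CharP.char_is_prime F p⟩
  have hrp : (r : F) ≠ 0 := by
    intro h
    have hpr : p = r :=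
      (Nat.prime_dvd_prime_iff_eq Fact.out Fact.out).mp ((CharP.cast_eq_zero_iff F p r).mp h)
    obtain ⟨k, -, hk⟩ := FiniteField.card F p
    rw [hk, ← hpr] at hr
    have h1 : p ∣ (p ^ (k : ℕ)) ^ n := dvd_pow (dvd_pow_self p k.ne_zero) hn.ne'
    have h2 : 1 ≤ (p ^ (k : ℕ)) ^ n := Nat.one_le_pow _ _ (pow_pos (Fact.out : p.Prime).pos _)
    have h3 : p ∣ 1 := by
      have := Nat.dvd_sub h1 hr
      rwa [Nat.sub_sub_self h2] at this
    exact (Fact.out : p.Prime).ne_one (Nat.dvd_one.mp h3)
  have hsq : Squarefree (minpoly F T) :=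
    ((Polynomial.X_pow_sub_one_separable_iff).mpr hrp).squarefree.squarefree_of_dvd hm
  have hint : IsIntegral F T := IsIntegral.of_finite F T
  -- some irreducible factor is not `X - 1`
  have hex : ∃ f, Irreducible f ∧ f ∣ minpoly F T ∧ ¬ f ∣ X - 1 := by
    by_contra hne
    push Not at hne
    apply hT1
    have hd : minpoly F T ∣ X - 1 := by
      have hX : Irreducible (X - 1 : F[X]) := by
        simpa using irreducible_X_sub_C (1 : F)
      rcases em (IsUnit (minpoly F T)) with hu' | hu'
      · exact hu'.dvd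
      obtain ⟨h, hh, hhm⟩ := WfDvdMonoid.exists_irreducible_factor hu' (minpoly.ne_zero hint)
      have hX1 : X - 1 ∣ minpoly F T := ((hh.associated_of_dvd hX (hne h hh hhm)).symm.dvd).trans hhm
      obtain ⟨g, hg⟩ := hX1
      have hgu : IsUnit g := by
        by_contra hgu
        obtain ⟨k, hk, hkg⟩ := WfDvdMonoid.exists_irreducible_factor hgu
          (right_ne_zero_of_mul (hg ▸ minpoly.ne_zero hint))
        have hkX := hne k hk (hkg.trans (hg ▸ dvd_mul_left g _))
        have : (X - 1) * (X - 1) ∣ minpoly F T := by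
          rw [hg]
          exact mul_dvd_mul_left _ ((hk.associated_of_dvd hX hkX).symm.dvd.trans hkg)
        exact hX.not_isUnit (hsq _ this)
      rw [hg]
      exact (mul_dvd_mul_left _ hgu.dvd).trans (mul_one (X - 1 : F[X])).dvd
    obtain ⟨g, hg⟩ := hd
    have := congrArg (Polynomial.aeval T) hg
    simpa [sub_eq_zero] using this
  obtain ⟨f, hf, hfm, hf1⟩ := hex
  haveI := Fact.mk hf
  have hdeg : n ≤ f.natDegree := le_natDegree_of_dvd r n hprim f hf (hfm.trans hm) hf1
  have hch : (minpoly F T).natDegree ≤ n := by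
    rw [← hdim, ← LinearMap.charpoly_natDegree T]
    exact natDegree_le_of_dvd (LinearMap.minpoly_dvd_charpoly T) (LinearMap.charpoly_monic T).ne_zero
  have hass : Associated f (minpoly F T) := by
    refine associated_of_dvd_of_natDegree_le hfm (minpoly.ne_zero hint) ?_
    omega
  have hroot : Polynomial.aeval T f = 0 := by
    obtain ⟨g, hg⟩ := hass.symm.dvd
    rw [hg, map_mul, minpoly.aeval, zero_mul]
  have hfn : f.natDegree = n := by
    have := natDegree_le_of_dvd hfm (minpoly.ne_zero hint)
    omega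
  let B := AdjoinRoot.powerBasis hf.ne_zero
  haveI : FiniteDimensional F (AdjoinRoot f) := B.finite
  have hfin : finrank F (AdjoinRoot f) = n := by rw [B.finrank, AdjoinRoot.powerBasis_dim, hfn]
  let ι : AdjoinRoot f →ₐ[F] Module.End F V :=
    Ideal.Quotient.liftₐ (Ideal.span {f}) (Polynomial.aeval T) (fun a ha => by
      obtain ⟨g, rfl⟩ := Ideal.mem_span_singleton.mp ha
      rw [map_mul, hroot, zero_mul])
  have hιT : ι (AdjoinRoot.root f) = T := (Ideal.Quotient.liftₐ_apply _ _ _ _).trans
    ((Ideal.Quotient.lift_mk _ _ _).trans (Polynomial.aeval_X T))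
  refine ⟨f, inferInstance, ι, hfin, ?_⟩
  haveI : Nontrivial V := Module.nontrivial_of_finrank_pos (R := F) (by omega)
  obtain ⟨v, hv⟩ := exists_ne (0 : V)
  haveI : Nontrivial (Module.End F V) := ⟨⟨1, 0, fun h => hv (LinearMap.congr_fun h v)⟩⟩
  let φ : AdjoinRoot f →ₗ[F] V := (LinearMap.applyₗ v).comp ι.toLinearMap
  have hφ : Function.Injective φ := by
    rw [injective_iff_map_eq_zero]
    intro a ha
    by_contra ha0
    apply hv
    have : ι (a⁻¹) (ι a v) = v := by
      rw [← Module.End.mul_apply, ← map_mul, inv_mul_cancel₀ ha0, map_one]; rfl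
    rw [← this, show ι a v = 0 from ha, map_zero]
  have hφs : Function.Surjective φ :=
    (LinearMap.injective_iff_surjective_of_finrank_eq_finrank (hfin.trans hdim.symm)).mp hφ
  have hcomm : ∀ S : Module.End F V, Commute S T → ∀ a, Commute S (ι a) := by
    intro S hS a
    induction a using AdjoinRoot.induction_on with
    | ih g =>
      rw [← AdjoinRoot.aeval_eq, ← Polynomial.aeval_algHom_apply, hιT]
      exact Algebra.commute_of_mem_adjoin_singleton_of_commute
        (Polynomial.aeval_mem_adjoin_singleton F T) hS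
  have hle : U ≤ (Units.map (ι : AdjoinRoot f →* Module.End F V)).range := by
    intro x hx
    have hxT : Commute (x : Module.End F V) T := by
      have h := congrArg (fun z : U => ((z : (Module.End F V)ˣ) : Module.End F V))
        (hU.is_comm.comm ⟨x, hx⟩ u)
      simpa [Commute, SemiconjBy, T] using h
    obtain ⟨b, hb⟩ := hφs ((x : Module.End F V) v)
    have hxb : (x : Module.End F V) = ι b := by
      ext w
      obtain ⟨a, rfl⟩ := hφs w
      change (x : Module.End F V) (ι a v) = ι b (ι a v)
      rw [← Module.End.mul_apply, (hcomm _ hxT a).eq, Module.End.mul_apply, ← hb]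
      change ι a (ι b v) = ι b (ι a v)
      rw [← Module.End.mul_apply, ← map_mul, mul_comm, map_mul, Module.End.mul_apply]
    have hb0 : b ≠ 0 := by
      rintro rfl
      rw [map_zero] at hxb
      exact x.ne_zero hxb
    exact ⟨Units.mk0 b hb0, Units.ext hxb.symm⟩
  haveI : Finite (AdjoinRoot f) := Module.finite_of_finite F
  letI := Fintype.ofFinite (AdjoinRoot f)
  refine Subgroup.eq_of_le_of_card_ge hle ?_
  refine le_of_le_of_eq (Nat.card_le_card_of_surjective _ (MonoidHom.rangeRestrict_surjective _)) ?_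
  rw [hcard, Nat.card_eq_fintype_card, Fintype.card_units,
    Module.card_eq_pow_finrank (K := F) (V := AdjoinRoot f), hfin]

end CfsgLib.Singer

namespace CfsgLib.Singer

open Polynomial Module

/-- If `q + 1` is a power of two for a prime power `q` then `q` is prime. -/
theorem prime_of_succ_eq_two_pow (F : Type*) [Field F] [Fintype F] (m : ℕ)
    (hm : Fintype.card F + 1 = 2 ^ m) : (Fintype.card F).Prime := by
  classical
  obtain ⟨p, hp⟩ := CharP.exists F
  haveI := hp
  haveI : Fact p.Prime := ⟨CharP.char_is_prime F p⟩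
  obtain ⟨k, hpp, hk⟩ := FiniteField.card F p
  have hk1 : (k : ℕ) = 1 := by
    by_contra hne
    have hk2 : 1 < (k : ℕ) := by
      have := k.pos; omega
    rw [hk] at hm
    have hm2 : 2 ≤ m := by
      by_contra h
      have h1 : 2 ^ m ≤ 2 := by
        calc 2 ^ m ≤ 2 ^ 1 := Nat.pow_le_pow_right (by norm_num) (by omega)
          _ = 2 := rfl
      have : 2 ≤ p ^ (k : ℕ) := hpp.two_le.trans (Nat.le_self_pow (by omega) p)
      omega
    have hpodd : Odd p := by
      rcases hpp.eq_two_or_odd' with h | h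
      · exfalso
        subst h
        have : 2 ∣ 2 ^ m := dvd_pow_self 2 (by omega)
        have : 2 ∣ 2 ^ (k : ℕ) := dvd_pow_self 2 (by omega)
        omega
      · exact h
    have h4 : 4 ∣ 2 ^ m := (show 4 = 2 ^ 2 by norm_num) ▸ pow_dvd_pow 2 hm2
    rcases Nat.even_or_odd (k : ℕ) with ⟨j, hj⟩ | hko
    · have : Odd (p ^ j) := hpodd.pow
      obtain ⟨i, hi⟩ := this
      rw [hj, pow_add, hi] at hm
      ring_nf at hm
      omega
    · -- p + 1 ∣ p ^ k + 1 with odd cofactor
      have hgeom : ((∑ i ∈ Finset.range (k : ℕ), (-(p : ℤ)) ^ i)) * ((p : ℤ) + 1) = (2 : ℤ) ^ m := by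
        have h := geom_sum_mul (-(p : ℤ)) (k : ℕ)
        rw [hko.neg_pow] at h
        have hm' : ((p : ℤ) ^ (k : ℕ)) + 1 = (2 : ℤ) ^ m := by exact_mod_cast hm
        linarith
      have hodd : Odd (∑ i ∈ Finset.range (k : ℕ), (-(p : ℤ)) ^ i) := by
        have h : ∀ j : ℕ, Odd (∑ i ∈ Finset.range j, (-(p : ℤ)) ^ i) ↔ Odd j := by
          intro j
          induction j with
          | zero => simp
          | succ j ih =>
            have hpo : Odd ((-(p : ℤ)) ^ j) := (((Int.odd_coe_nat p).mpr hpodd).neg).pow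
            rw [Finset.sum_range_succ, Int.odd_add, ih, Nat.odd_add_one]
            simp [← Int.not_odd_iff_even, hpo]
        exact (h _).mpr hko
      have hdvd : (∑ i ∈ Finset.range (k : ℕ), (-(p : ℤ)) ^ i).natAbs ∣ 2 ^ m := by
        have := congrArg Int.natAbs hgeom
        rw [Int.natAbs_mul, Int.natAbs_pow] at this
        exact Dvd.intro _ this
      obtain ⟨e, -, he⟩ := (Nat.dvd_prime_pow Nat.prime_two).mp hdvd
      have he0 : e = 0 := by
        by_contra h
        have h2 : Even (∑ i ∈ Finset.range (k : ℕ), (-(p : ℤ)) ^ i).natAbs :=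
          he ▸ (Nat.even_pow.mpr ⟨even_two, h⟩)
        exact (Nat.not_even_iff_odd.mpr (Int.natAbs_odd.mpr hodd)) h2
      rw [he0, pow_zero] at he
      have heq := congrArg Int.natAbs hgeom
      rw [Int.natAbs_mul, he, one_mul, Int.natAbs_pow] at heq
      have : p + 1 = 2 ^ m := by
        rw [show ((p : ℤ) + 1).natAbs = p + 1 from by omega] at heq
        simpa using heq
      have h2 : p < p ^ (k : ℕ) := by
        calc p = p ^ 1 := (pow_one p).symm
          _ < p ^ (k : ℕ) := Nat.pow_lt_pow_right hpp.one_lt hk2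
      omega
  rw [hk, hk1, pow_one]
  exact hpp

variable {F : Type*} [Field F] [Fintype F]

theorem conj_range {K : Type*} [Field K] [Fintype K] [Algebra F K] (n : ℕ) (hn : 0 < n) (p : ℕ)
    [Fact p.Prime] [CharP F p] (hdim : finrank F K = n) {f : F[X]} [Fact (Irreducible f)]
    (ι : AdjoinRoot f →ₐ[F] Module.End F K) (hfin : finrank F (AdjoinRoot f) = n)
    (U : Subgroup (Module.End F K)ˣ)
    (hU : U = (Units.map (ι : AdjoinRoot f →* Module.End F K)).range) :
    ∃ g : (Module.End F K)ˣ, U.map (MulAut.conj g).toMonoidHom =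
      (Units.map ((Algebra.lmul F K : K →ₐ[F] Module.End F K) : K →* Module.End F K)).range := by
  haveI : NeZero n := ⟨hn.ne'⟩
  haveI : FiniteDimensional F K := Module.Finite.of_finite
  haveI : FiniteDimensional F (AdjoinRoot f) := Module.finite_of_finrank_pos (hfin.symm ▸ hn)
  haveI : Finite (AdjoinRoot f) := Module.finite_of_finite F
  let e : AdjoinRoot f ≃ₐ[F] K := (FiniteField.algEquivExtension F p n (AdjoinRoot f) hfin).trans
    (FiniteField.algEquivExtension F p n K hdim).symm
  obtain ⟨v, hv⟩ := exists_ne (0 : K)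
  let φ : AdjoinRoot f →ₗ[F] K := (LinearMap.applyₗ v).comp ι.toLinearMap
  have hφ : Function.Injective φ := by
    rw [injective_iff_map_eq_zero]
    intro a ha
    by_contra ha0
    apply hv
    have : ι (a⁻¹) (ι a v) = v := by
      rw [← Module.End.mul_apply, ← map_mul, inv_mul_cancel₀ ha0, map_one]; rfl
    rw [← this, show ι a v = 0 from ha, map_zero]
  let ψ : AdjoinRoot f ≃ₗ[F] K :=
    LinearEquiv.ofInjectiveOfFinrankEq φ hφ (hfin.trans hdim.symm)
  let g : (Module.End F K)ˣ :=
    (LinearMap.GeneralLinearGroup.generalLinearEquiv F K).symm (ψ.symm.trans e.toLinearEquiv)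
  have key : ∀ a : AdjoinRoot f, (g : Module.End F K) * ι a = Algebra.lmul F K (e a) * g := by
    intro a
    ext w
    obtain ⟨b, rfl⟩ := ψ.surjective w
    have h1 : ι a (ψ b) = ψ (a * b) := by
      change ι a (ι b v) = ι (a * b) v
      rw [map_mul]; rfl
    change e (ψ.symm (ι a (ψ b))) = e a * e (ψ.symm (ψ b))
    rw [h1, LinearEquiv.symm_apply_apply, LinearEquiv.symm_apply_apply, map_mul]
  refine ⟨g, ?_⟩
  subst hU
  ext x
  simp only [Subgroup.mem_map, MonoidHom.mem_range]
  constructor
  · rintro ⟨_, ⟨a, rfl⟩, rfl⟩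
    refine ⟨Units.map (e : AdjoinRoot f →* K) a, Units.ext ?_⟩
    change Algebra.lmul F K (e a) = (g : Module.End F K) * ι a * (g⁻¹ : (Module.End F K)ˣ)
    rw [key, mul_assoc, Units.mul_inv, mul_one]
  · rintro ⟨c, rfl⟩
    refine ⟨_, ⟨Units.map (e.symm : K →* AdjoinRoot f) c, rfl⟩, Units.ext ?_⟩
    change (g : Module.End F K) * ι (e.symm c) * (g⁻¹ : (Module.End F K)ˣ) = Algebra.lmul F K c
    rw [key, mul_assoc, Units.mul_inv, mul_one, AlgEquiv.apply_symm_apply]

end CfsgLib.Singer
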