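import Cfsg.Agent.Lib.ClassicalOrders
import Mathlib.LinearAlgebra.SymplecticGroup

/-! Counting with totally isotropic frames of the symplectic space. -/

set_option autoImplicit false

namespace CfsgLib.SpPar

attribute [local instance] _root_.Classical.propDecidable

open Matrix CfsgLib.Classical

variable {F : Type*} [Field F] {m k : ℕ}

local notation "VV" => Fin m ⊕ Fin m → F

/-- linearly independent tuples spanning a totally isotropic subspace -/
abbrev Frame (F : Type*) [Field F] (m k : ℕ) :=
  {v : Fin k → Fin m ⊕ Fin m → F // LinearIndependent F v ∧ ∀ i j, Cfsg.sympForm m F (v i) (v j) = 0}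

variable [Fintype F]

instance : Finite (Frame F m k) := Subtype.finite

/-- the elements fixing every member of a frame -/
def fixer (e : Frame F m k) : Subgroup (Matrix.symplecticGroup (Fin m) F) where
  carrier := {g | ∀ i, g.1 *ᵥ e.1 i = e.1 i}
  one_mem' i := one_mulVec _
  mul_mem' {a b} ha hb i := by
    show (a.1 * b.1) *ᵥ e.1 i = _
    rw [← mulVec_mulVec, hb, ha]
  inv_mem' {a} ha i := by
    have h : (a⁻¹.1 * a.1) = 1 := congrArg Subtype.val (inv_mul_cancel a)
    conv_lhs => rw [← ha i, mulVec_mulVec, h, one_mulVec]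

lemma apply_form (g : Matrix.symplecticGroup (Fin m) F) (u v : VV) :
    Cfsg.sympForm m F (g.1 *ᵥ u) (g.1 *ᵥ v) = Cfsg.sympForm m F u v :=
  mem_symplecticGroup_iff.1 g.2 u v

lemma mulVec_injective (g : Matrix.symplecticGroup (Fin m) F) :
    Function.Injective (g.1 *ᵥ · : VV → VV) := fun u v h => by
  have h' : g⁻¹.1 *ᵥ (g.1 *ᵥ u) = g⁻¹.1 *ᵥ (g.1 *ᵥ v) := congrArg _ h
  have e : (g⁻¹.1 * g.1) = 1 := congrArg Subtype.val (inv_mul_cancel g)
  rwa [mulVec_mulVec, mulVec_mulVec, e, one_mulVec, one_mulVec] at h'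

/-- the action on frames -/
def move (g : Matrix.symplecticGroup (Fin m) F) (e : Frame F m k) : Frame F m k :=
  ⟨fun i => g.1 *ᵥ e.1 i,
    e.2.1.map' (Matrix.mulVecLin g.1) (LinearMap.ker_eq_bot.mpr (mulVec_injective g)),
    fun i j => by rw [apply_form]; exact e.2.2 i j⟩

theorem exists_move (e v : Frame F m k) : ∃ g, move g e = v := by
  classical
  let B := toBil (isSymplecticForm_sympForm (F := F) (m := m)).bilinear
  have hB : B.Nondegenerate := by
    constructor <;> intro x hx <;> by_contra h0
    · obtain ⟨-, y, hy⟩ := isSymplecticForm_sympForm.nondegenerate x h0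
      first
        | exact hy (hx y)
        | exact hy (by
            have : Cfsg.sympForm m F x y = 0 := hx y
            rw [show Cfsg.sympForm m F y x = B y x from rfl,
              ← LinearMap.IsAlt.neg (toBil_isAlt isSymplecticForm_sympForm)]
            exact neg_eq_zero.mpr this)
    · obtain ⟨⟨y, hy⟩, -⟩ := isSymplecticForm_sympForm.nondegenerate x h0
      first
        | exact hy (hx y)
        | exact hy (by
            rw [show Cfsg.sympForm m F x y = B x y from rfl,
              ← LinearMap.IsAlt.neg (toBil_isAlt isSymplecticForm_sympForm)]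
            exact neg_eq_zero.mpr (hx y))
  let φ : Submodule.span F (Set.range e.1) ≃ₗ[F] Submodule.span F (Set.range v.1) :=
    (Module.Basis.span e.2.1).equiv (Module.Basis.span v.2.1) (Equiv.refl _)
  have hzero : ∀ (w : Frame F m k), ∀ x ∈ Submodule.span F (Set.range w.1),
      ∀ y ∈ Submodule.span F (Set.range w.1), B x y = 0 := by
    intro w x hx y hy
    induction hx using Submodule.span_induction with
    | mem x hx =>
      obtain ⟨i, rfl⟩ := hx
      induction hy using Submodule.span_induction with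
      | mem y hy => obtain ⟨j, rfl⟩ := hy; exact w.2.2 i j
      | zero => simp
      | add a b _ _ ha hb => simp only [map_add, ha, hb, add_zero]
      | smul c a _ ha => simp only [map_smul, ha, smul_zero]
    | zero => simp
    | add a b _ _ ha hb => simp only [map_add, LinearMap.add_apply, ha, hb, add_zero]
    | smul c a _ ha => simp only [map_smul, LinearMap.smul_apply, ha, smul_zero]
  obtain ⟨g, hg, hgX⟩ := Witt.witt_alt B hB (toBil_isAlt isSymplecticForm_sympForm) _ _ φ
    (fun x x' => by rw [hzero v _ (φ x).2 _ (φ x').2, hzero e _ x.2 _ x'.2])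
  have hgm : LinearMap.toMatrix' (g : VV →ₗ[F] VV) ∈ Matrix.symplecticGroup (Fin m) F :=
    mem_symplecticGroup_iff.2 fun a b => by
      rw [LinearMap.toMatrix'_mulVec, LinearMap.toMatrix'_mulVec]; exact hg a b
  refine ⟨⟨_, hgm⟩, Subtype.ext (funext fun i => ?_)⟩
  show LinearMap.toMatrix' (g : VV →ₗ[F] VV) *ᵥ e.1 i = v.1 i
  rw [LinearMap.toMatrix'_mulVec]
  have h := hgX (Module.Basis.span e.2.1 i)
  rw [Module.Basis.equiv_apply] at h
  simpa [Module.Basis.span_apply] using h

/-- the set of group elements sending `e` into `A` has `#A * |fixer e|` members -/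
theorem card_move_mem (e : Frame F m k) (A : Frame F m k → Prop) :
    Nat.card {g : Matrix.symplecticGroup (Fin m) F // A (move g e)} =
      Nat.card {v : Frame F m k // A v} * Nat.card (fixer e) := by
  classical
  choose σ hσ using exists_move e
  have hpt : ∀ (g h : Matrix.symplecticGroup (Fin m) F) (i : Fin k),
      (move (g * h) e).1 i = g.1 *ᵥ (h.1 *ᵥ e.1 i) := fun g h i => by
    show (g.1 * h.1) *ᵥ e.1 i = _
    rw [mulVec_mulVec]
  rw [← Nat.card_prod]
  refine Nat.card_congr
    { toFun := fun g => (⟨move g.1 e, g.2⟩, ⟨(σ (move g.1 e))⁻¹ * g.1, fun i => ?_⟩)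
      invFun := fun p => ⟨σ p.1.1 * p.2.1, ?_⟩
      left_inv := fun g => Subtype.ext (mul_inv_cancel_left _ _)
      right_inv := fun p => ?_ }
  · have h1 : (σ (move g.1 e)).1 *ᵥ e.1 i = g.1.1 *ᵥ e.1 i :=
      congrFun (congrArg Subtype.val (hσ (move g.1 e))) i
    have h2 := hpt (σ (move g.1 e))⁻¹ g.1 i
    have h3 : ((σ (move g.1 e))⁻¹.1 * (σ (move g.1 e)).1) = 1 :=
      congrArg Subtype.val (inv_mul_cancel (σ (move g.1 e)))
    rw [← h1, mulVec_mulVec, h3, one_mulVec] at h2
    exact h2
  · have : move (σ p.1.1 * p.2.1) e = p.1.1 := by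
      refine Subtype.ext (funext fun i => ?_)
      rw [hpt, p.2.2 i]
      exact congrFun (congrArg Subtype.val (hσ p.1.1)) i
    rw [this]; exact p.1.2
  · have hmv : move (σ p.1.1 * p.2.1) e = p.1.1 := by
      refine Subtype.ext (funext fun i => ?_)
      rw [hpt, p.2.2 i]
      exact congrFun (congrArg Subtype.val (hσ p.1.1)) i
    refine Prod.ext (Subtype.ext hmv) (Subtype.ext ?_)
    show (σ (move (σ p.1.1 * p.2.1) e))⁻¹ * (σ p.1.1 * p.2.1) = p.2.1
    rw [hmv, inv_mul_cancel_left]

theorem card_frame (q : ℕ) (hF : Fintype.card F = q) : ∀ k, k ≤ m →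
    Nat.card (Frame F m k) = ∏ j ∈ Finset.range k, (q ^ (2 * m - j) - q ^ j)
  | 0, _ => by
    rw [Finset.range_zero, Finset.prod_empty, Nat.card_eq_one_iff_unique]
    exact ⟨⟨fun a b => Subtype.ext (funext fun i => i.elim0)⟩,
      ⟨⟨fun i => i.elim0, linearIndependent_empty_type, fun i => i.elim0⟩⟩⟩
  | k + 1, hk => by
    classical
    let B := toBil (isSymplecticForm_sympForm (F := F) (m := m)).bilinear
    haveI : Fintype (Frame F m k) := Fintype.ofFinite _
    let L : Frame F m k → (VV →ₗ[F] (Fin k → F)) := fun f => LinearMap.pi fun i => B (f.1 i)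
    have hneg : ∀ x y, Cfsg.sympForm m F y x = - Cfsg.sympForm m F x y := fun x y =>
      (LinearMap.IsAlt.neg (toBil_isAlt (isSymplecticForm_sympForm (F := F) (m := m))) x y).symm
    have hcard : ∀ f : Frame F m k,
        Nat.card {x : VV // x ∈ LinearMap.ker (L f) ∧ x ∉ Submodule.span F (Set.range f.1)} =
          q ^ (2 * m - k) - q ^ k := by
      intro f
      have hle : Submodule.span F (Set.range f.1) ≤ LinearMap.ker (L f) := by
        rw [Submodule.span_le]
        rintro _ ⟨j, rfl⟩
        exact LinearMap.mem_ker.mpr (funext fun i => f.2.2 i j)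
      have hsurj : LinearMap.range (L f) = ⊤ := by
        by_contra hne
        obtain ⟨φ, hφ, hφ'⟩ := Submodule.exists_le_ker_of_lt_top _ (lt_top_iff_ne_top.mpr hne)
        have hsum : ∀ x, Cfsg.sympForm m F (∑ i, φ (Pi.single i 1) • f.1 i) x = 0 := fun x => by
          have h := hφ' (LinearMap.mem_range_self (L f) x)
          have he : L f x = ∑ i, (L f x i) • (Pi.single i 1 : Fin k → F) := by
            funext j; simp [Finset.sum_apply, Pi.single_apply]
          rw [LinearMap.mem_ker, he, map_sum] at h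
          rw [show Cfsg.sympForm m F (∑ i, φ (Pi.single i 1) • f.1 i) x =
            B (∑ i, φ (Pi.single i 1) • f.1 i) x from rfl, map_sum, LinearMap.sum_apply]
          refine (Finset.sum_congr rfl fun i _ => ?_).trans h
          rw [map_smul, map_smul, LinearMap.smul_apply, smul_eq_mul, smul_eq_mul, mul_comm]
          rfl
        have h0 : ∑ i, φ (Pi.single i 1) • f.1 i = 0 := by
          by_contra h
          obtain ⟨y, hy⟩ := (isSymplecticForm_sympForm.nondegenerate _ h).2
          first
            | exact hy (hsum y)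
            | exact hy (by rw [hneg, hsum y, neg_zero])
        exact hφ (LinearMap.pi_ext' fun i => LinearMap.ext_ring (by
          simpa using Fintype.linearIndependent_iff.mp f.2.1 _ h0 i))
      have hker : Module.finrank F (LinearMap.ker (L f)) = 2 * m - k := by
        have h := LinearMap.finrank_range_add_finrank_ker (L f)
        rw [hsurj, finrank_top, Module.finrank_pi, Module.finrank_pi, Fintype.card_fin] at h
        simp at h
        omega
      rw [← Set.coe_setOf, Nat.card_coe_set_eq,
        show {x : VV | x ∈ LinearMap.ker (L f) ∧ x ∉ Submodule.span F (Set.range f.1)} =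
          (LinearMap.ker (L f) : Set VV) \ (Submodule.span F (Set.range f.1) : Set VV) from rfl,
        Set.ncard_sdiff (fun x hx => hle hx), ← Nat.card_coe_set_eq, ← Nat.card_coe_set_eq,
        SetLike.coe_sort_coe, SetLike.coe_sort_coe, Module.natCard_eq_pow_finrank (K := F),
        Module.natCard_eq_pow_finrank (K := F) (V := Submodule.span F (Set.range f.1)), hker,
        finrank_span_eq_card f.2.1, Fintype.card_fin, Nat.card_eq_fintype_card, hF]
    have hinit : ∀ v : Frame F m (k + 1), LinearIndependent F (Fin.init v.1) ∧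
        ∀ i j, Cfsg.sympForm m F (Fin.init v.1 i) (Fin.init v.1 j) = 0 := fun v =>
      ⟨v.2.1.comp _ (Fin.castSucc_injective _), fun i j => v.2.2 _ _⟩
    have hsnoc : ∀ (f : Frame F m k) (x : VV), x ∈ LinearMap.ker (L f) →
        x ∉ Submodule.span F (Set.range f.1) →
        LinearIndependent F (Fin.snoc f.1 x : Fin (k + 1) → VV) ∧
          ∀ i j, Cfsg.sympForm m F ((Fin.snoc f.1 x : Fin (k + 1) → VV) i)
            ((Fin.snoc f.1 x : Fin (k + 1) → VV) j) = 0 := by
      intro f x hx hx'
      have hx0 : ∀ i, Cfsg.sympForm m F (f.1 i) x = 0 := fun i => congrFun (LinearMap.mem_ker.mp hx) i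
      refine ⟨linearIndependent_fin_snoc.mpr ⟨f.2.1, hx'⟩, fun i j => ?_⟩
      induction i using Fin.lastCases <;> induction j using Fin.lastCases
      · simp [isSymplecticForm_sympForm.alternating]
      · simp only [Fin.snoc_last, Fin.snoc_castSucc]; rw [hneg, hx0, neg_zero]
      · simp only [Fin.snoc_last, Fin.snoc_castSucc]; exact hx0 _
      · simp only [Fin.snoc_castSucc]; exact f.2.2 _ _
    let e : Frame F m (k + 1) ≃
        Σ f : Frame F m k, {x : VV // x ∈ LinearMap.ker (L f) ∧ x ∉ Submodule.span F (Set.range f.1)} :=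
      { toFun := fun v => ⟨⟨Fin.init v.1, hinit v⟩, v.1 (Fin.last k),
          LinearMap.mem_ker.mpr (funext fun i => v.2.2 _ _),
          (linearIndependent_fin_snoc.mp (by rw [Fin.snoc_init_self]; exact v.2.1)).2⟩
        invFun := fun p => ⟨Fin.snoc p.1.1 p.2.1, hsnoc p.1 p.2.1 p.2.2.1 p.2.2.2⟩
        left_inv := fun v => Subtype.ext (Fin.snoc_init_self v.1)
        right_inv := fun p => by
          obtain ⟨f, x, hx⟩ := p
          exact Sigma.subtype_ext (Subtype.ext (Fin.init_snoc (α := fun _ => VV) _ _)) (Fin.snoc_last (α := fun _ => VV) _ _) }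
    rw [Nat.card_congr e, Nat.card_sigma, Finset.sum_congr rfl (fun f _ => hcard f), Finset.sum_const,
      Finset.card_univ, smul_eq_mul, ← Nat.card_eq_fintype_card, card_frame q hF k (by omega),
      Finset.prod_range_succ]

theorem card_symplectic (q : ℕ) (hF : Fintype.card F = q) :
    Nat.card (Matrix.symplecticGroup (Fin m) F) =
      q ^ (m ^ 2) * ∏ i ∈ Finset.range m, (q ^ (2 * (i + 1)) - 1) := by
  rw [Nat.card_congr (CfsgLib.Classical.spToGL m F).toEquiv]
  exact (CfsgLib.Classical.IsoCard.card_preserving _).trans (by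
    rw [CfsgLib.Classical.Orders.card_sp m, hF])

theorem frame_mul_fixer (q : ℕ) (hF : Fintype.card F = q) (e : Frame F m k) :
    Nat.card (Frame F m k) * Nat.card (fixer e) =
      q ^ (m ^ 2) * ∏ i ∈ Finset.range m, (q ^ (2 * (i + 1)) - 1) := by
  have h := card_move_mem e (fun _ => True)
  rw [Nat.card_congr (Equiv.subtypeUnivEquiv fun _ => trivial),
    Nat.card_congr (Equiv.subtypeUnivEquiv fun _ => trivial), card_symplectic q hF] at h
  exact h.symm

theorem card_fixer (q : ℕ) (hF : Fintype.card F = q) (hk : k ≤ m) (e : Frame F m k) :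
    Nat.card (fixer e) =
      q ^ (k * (k + 1) / 2 + 2 * k * (m - k)) *
        (q ^ ((m - k) ^ 2) * ∏ i ∈ Finset.range (m - k), (q ^ (2 * (i + 1)) - 1)) := by
  have hq : 2 ≤ q := hF ▸ Fintype.one_lt_card
  have h := frame_mul_fixer q hF e
  rw [card_frame q hF k hk] at h
  have hfac : ∀ j ∈ Finset.range k, q ^ (2 * m - j) - q ^ j = q ^ j * (q ^ (2 * (m - j)) - 1) := by
    intro j hj
    rw [Finset.mem_range] at hj
    rw [Nat.mul_sub, mul_one, ← pow_add]
    congr 2; omega
  rw [Finset.prod_congr rfl hfac, Finset.prod_mul_distrib, Finset.prod_pow_eq_pow_sum] at h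
  have hsplit : ∏ i ∈ Finset.range m, (q ^ (2 * (i + 1)) - 1) =
      (∏ i ∈ Finset.range (m - k), (q ^ (2 * (i + 1)) - 1)) *
        ∏ j ∈ Finset.range k, (q ^ (2 * (m - j)) - 1) := by
    conv_lhs => rw [show m = (m - k) + k by omega, Finset.prod_range_add]
    congr 1
    rw [← Finset.prod_range_reflect]
    refine Finset.prod_congr rfl fun j hj => ?_
    rw [Finset.mem_range] at hj
    congr 3; omega
  rw [hsplit] at h
  have hexp : ∑ j ∈ Finset.range k, j + (k * (k + 1) / 2 + 2 * k * (m - k) + (m - k) ^ 2) = m ^ 2 := by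
    obtain ⟨d, rfl⟩ := Nat.exists_eq_add_of_le hk
    rw [Nat.add_sub_cancel_left, Finset.sum_range_id]
    have h1 : k * (k - 1) / 2 + k * (k + 1) / 2 = k ^ 2 := by
      rcases k with _ | k
      · simp
      · rw [Nat.add_sub_cancel, ← Nat.add_div_of_dvd_left (Nat.even_mul_succ_self (k + 1)).two_dvd,
          show (k + 1) * k + (k + 1) * (k + 1 + 1) = 2 * (k + 1) ^ 2 by ring,
          Nat.mul_div_cancel_left _ two_pos]
    linarith [show (k + d) ^ 2 = k ^ 2 + 2 * k * d + d ^ 2 by ring]
  have hP : 0 < ∏ j ∈ Finset.range k, (q ^ (2 * (m - j)) - 1) :=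
    Finset.prod_pos fun j hj => Nat.sub_pos_of_lt (Nat.one_lt_pow (by
      rw [Finset.mem_range] at hj; omega) (by omega))
  refine Nat.eq_of_mul_eq_mul_left (Nat.mul_pos (pow_pos (by omega : 0 < q)
    (∑ j ∈ Finset.range k, j)) hP) (h.trans ?_)
  rw [← hexp, pow_add, pow_add]
  ring

end CfsgLib.SpPar
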