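import Mathlib

/-! Subgroups of small index in the symmetric group. -/

set_option autoImplicit false

namespace CfsgLib.Classical

open Equiv Equiv.Perm MulAction
open scoped Pointwise

variable {Ω : Type*} [Fintype Ω] [DecidableEq Ω]

/-- a subgroup of index less than the degree contains the alternating group -/
theorem alternating_le_of_index_lt (h5 : 5 ≤ Fintype.card Ω) (H : Subgroup (Perm Ω))
    (hH : H.index < Fintype.card Ω) : alternatingGroup Ω ≤ H := by
  classical
  by_cases hK : Nontrivial H.normalCore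
  · exact (alternatingGroup_le_of_normal (by rwa [Nat.card_eq_fintype_card]) hK).trans
      (Subgroup.normalCore_le H)
  exfalso
  have hbot : (MulAction.toPermHom (Perm Ω) (Perm Ω ⧸ H)).ker = ⊥ := by
    rw [← Subgroup.normalCore_eq_ker]
    by_contra h
    exact hK ((Subgroup.nontrivial_iff_ne_bot _).mpr h)
  have := Nat.card_le_card_of_injective _ ((MonoidHom.ker_eq_bot_iff _).mp hbot)
  rw [Nat.card_perm, Nat.card_perm, Nat.card_eq_fintype_card, ← Subgroup.index_eq_card] at this
  exact absurd this (not_le.mpr ((Nat.factorial_lt (Nat.pos_of_ne_zero Subgroup.index_ne_zero_of_finite)).mpr hH))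

/-- the subgroups above the alternating group -/
theorem eq_of_alternating_le [Nontrivial Ω] (H : Subgroup (Perm Ω)) (hH : alternatingGroup Ω ≤ H) :
    H = alternatingGroup Ω ∨ H = ⊤ := by
  have h := Subgroup.index_dvd_of_le hH
  rw [alternatingGroup.index_eq_two] at h
  rcases (Nat.prime_two.eq_one_or_self_of_dvd _ h) with h1 | h2
  · exact Or.inr (Subgroup.index_eq_one.mp h1)
  · exact Or.inl (eq_alternatingGroup_of_index_eq_two h2)

theorem card_le_index (h4 : Fintype.card Ω ≠ 4) (H : Subgroup (Perm Ω)) (hH : H ≠ ⊤)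
    (hA : H ≠ alternatingGroup Ω) : Fintype.card Ω ≤ H.index := by
  by_contra! hlt
  have h1 : 1 < H.index := by
    have := Nat.pos_of_ne_zero (Subgroup.index_ne_zero_of_finite (H := H))
    rcases Nat.lt_or_ge 1 H.index with h | h
    · exact h
    · exact absurd (Subgroup.index_eq_one.mp (by omega)) hH
  rcases Nat.lt_or_ge (Fintype.card Ω) 5 with h5 | h5
  · exact hA (eq_alternatingGroup_of_index_eq_two (by omega))
  · have : Nontrivial Ω := Fintype.one_lt_card_iff_nontrivial.mp (by omega)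
    rcases eq_of_alternating_le H (alternating_le_of_index_lt h5 H hlt) with h | h
    · exact hA h
    · exact hH h

/-- index `n` gives an automorphism carrying the subgroup onto a point stabiliser -/
theorem exists_aut_of_index_eq (h5 : 5 ≤ Fintype.card Ω) (H : Subgroup (Perm Ω))
    (hH : H.index = Fintype.card Ω) :
    ∃ (φ : Perm Ω ≃* Perm Ω) (a : Ω), ∀ g, g ∈ H ↔ φ g a = a := by
  classical
  have hbot : (MulAction.toPermHom (Perm Ω) (Perm Ω ⧸ H)).ker = ⊥ := by
    rw [← Subgroup.normalCore_eq_ker]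
    by_contra hne
    have hA : alternatingGroup Ω ≤ H := (alternatingGroup_le_of_normal (by rwa [Nat.card_eq_fintype_card])
      ((Subgroup.nontrivial_iff_ne_bot _).mpr hne)).trans (Subgroup.normalCore_le H)
    have : Nontrivial Ω := Fintype.one_lt_card_iff_nontrivial.mp (by omega)
    have h := Subgroup.index_dvd_of_le hA
    rw [alternatingGroup.index_eq_two, hH] at h
    exact absurd (Nat.le_of_dvd two_pos h) (by omega)
  obtain ⟨e⟩ : Nonempty ((Perm Ω ⧸ H) ≃ Ω) := ⟨(Finite.equivFinOfCardEq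
    (by rw [← Subgroup.index_eq_card, hH] : Nat.card (Perm Ω ⧸ H) = Fintype.card Ω)).trans (Fintype.equivFin Ω).symm⟩
  let f : Perm Ω →* Perm Ω := e.permCongrHom.toMonoidHom.comp (MulAction.toPermHom (Perm Ω) (Perm Ω ⧸ H))
  have hf : Function.Injective f := e.permCongrHom.injective.comp ((MonoidHom.ker_eq_bot_iff _).mp hbot)
  refine ⟨MulEquiv.ofBijective f (Finite.injective_iff_bijective.mp hf), e ((1 : Perm Ω) : Perm Ω ⧸ H), fun g => ?_⟩
  show g ∈ H ↔ e ((MulAction.toPermHom (Perm Ω) (Perm Ω ⧸ H) g) (e.symm (e _))) = e _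
  rw [e.symm_apply_apply, e.apply_eq_iff_eq]
  show g ∈ H ↔ g • ((1 : Perm Ω) : Perm Ω ⧸ H) = ((1 : Perm Ω) : Perm Ω ⧸ H)
  rw [MulAction.Quotient.smul_coe, smul_eq_mul, mul_one, QuotientGroup.eq]
  simp

lemma choose_gt : ∀ {n k : ℕ}, 4 ≤ n → 2 ≤ k → k + 2 ≤ n → n < n.choose k := by
  intro n
  induction n with
  | zero => intros; omega
  | succ n ih =>
    intro k h4 hk hkn
    rcases Nat.lt_or_ge n 4 with hn | hn
    · obtain rfl : n = 3 := by omega
      obtain rfl : k = 2 := by omega
      decide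
    obtain ⟨j, rfl⟩ : ∃ j, k = j + 1 := ⟨k - 1, by omega⟩
    rw [Nat.choose_succ_succ]
    rcases eq_or_ne j 1 with rfl | hj
    · have := ih hn le_rfl (by omega : 2 + 2 ≤ n)
      rw [Nat.choose_one_right]
      show n + 1 < n + n.choose 2
      omega
    rcases eq_or_ne (j + 2) n with hjn | hjn
    · have := ih hn (by omega : 2 ≤ j) (by omega)
      have h1 : n.choose (j + 1) = n := by
        rw [← hjn, Nat.choose_symm_add (a := j + 1) (b := 1), Nat.choose_one_right]
      show n + 1 < n.choose j + n.choose (j + 1)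
      omega
    · have := ih hn (by omega : 2 ≤ j) (by omega)
      have := ih hn (by omega : 2 ≤ j + 1) (by omega)
      show n + 1 < n.choose j + n.choose (j + 1)
      omega

lemma centralizer_arith {n k : ℕ} (hn : 5 ≤ n) (hk : 2 ≤ k) (hkn : 2 * k ≤ n) (h6 : n ≠ 6) :
    (n - 2 * k).factorial * 2 ^ k * k.factorial ≠ (n - 2).factorial * 2 := by
  obtain ⟨m, rfl⟩ : ∃ m, n = 2 * k + m := ⟨n - 2 * k, by omega⟩
  rw [show 2 * k + m - 2 * k = m by omega, show 2 * k + m - 2 = (2 * k - 2) + m by omega]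
  rcases Nat.lt_or_ge k 4 with h | h
  · interval_cases k
    · obtain ⟨j, rfl⟩ : ∃ j, m = j + 1 := ⟨m - 1, by omega⟩
      intro he
      rw [show (2 * 2 - 2) + (j + 1) = (j + 2) + 1 by omega, Nat.factorial_succ (j + 2),
        Nat.factorial_succ (j + 1)] at he
      norm_num at he
      have hpos := Nat.factorial_pos (j + 1)
      have : (j + 1).factorial * 8 < (j + 2 + 1) * ((j + 1 + 1) * (j + 1).factorial) * 2 := by
        have h1 : 6 ≤ (j + 2 + 1) * (j + 1 + 1) := by
          calc 6 = 3 * 2 := rfl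
            _ ≤ _ := Nat.mul_le_mul (by omega) (by omega)
        nlinarith
      omega
    · obtain ⟨j, rfl⟩ : ∃ j, m = j + 1 := ⟨m - 1, by omega⟩
      intro he
      rw [show (2 * 3 - 2) + (j + 1) = (j + 1) + 1 + 1 + 1 + 1 by omega, Nat.factorial_succ ((j + 1) + 1 + 1 + 1),
        Nat.factorial_succ ((j + 1) + 1 + 1), Nat.factorial_succ ((j + 1) + 1),
        Nat.factorial_succ (j + 1)] at he
      norm_num [Nat.factorial_succ 2] at he
      have hpos := Nat.factorial_pos (j + 1)
      have h1 : 120 ≤ (j + 1 + 1 + 1 + 1 + 1) * ((j + 1 + 1 + 1 + 1) * ((j + 1 + 1 + 1) * (j + 1 + 1))) := by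
        calc 120 = 5 * (4 * (3 * 2)) := rfl
          _ ≤ _ := Nat.mul_le_mul (by omega) (Nat.mul_le_mul (by omega) (Nat.mul_le_mul (by omega) (by omega)))
      nlinarith
  · have key : ∀ t, 2 ^ (t + 4) * (t + 4).factorial < (2 * t + 6).factorial * 2 := by
      intro t
      induction t with
      | zero => decide
      | succ t ih =>
        rw [show 2 * (t + 1) + 6 = (2 * t + 6) + 1 + 1 by omega, Nat.factorial_succ (2 * t + 6 + 1),
          Nat.factorial_succ (2 * t + 6), show t + 1 + 4 = (t + 4) + 1 by omega, pow_succ, Nat.factorial_succ (t + 4)]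
        calc 2 ^ (t + 4) * 2 * ((t + 4 + 1) * (t + 4).factorial)
            = (2 * (t + 5)) * (2 ^ (t + 4) * (t + 4).factorial) := by ring
          _ < (2 * (t + 5)) * ((2 * t + 6).factorial * 2) := Nat.mul_lt_mul_of_pos_left ih (by omega)
          _ ≤ ((2 * t + 6 + 1 + 1) * (2 * t + 6 + 1)) * ((2 * t + 6).factorial * 2) := by
              refine Nat.mul_le_mul_right _ ?_
              calc 2 * (t + 5) ≤ (2 * t + 6 + 1 + 1) * 2 := by omega
                _ ≤ _ := Nat.mul_le_mul_left _ (by omega)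
          _ = _ := by ring
    obtain ⟨t, rfl⟩ : ∃ t, k = t + 4 := ⟨k - 4, by omega⟩
    have h1 := Nat.le_of_dvd (Nat.factorial_pos _) (Nat.factorial_mul_factorial_dvd_factorial_add (2 * (t + 4) - 2) m)
    have h2 := key t
    rw [show 2 * (t + 4) - 2 = 2 * t + 6 by omega] at h1 ⊢
    have hpos := Nat.factorial_pos m
    intro he
    nlinarith

/-- automorphisms map transpositions to transpositions outside degree 6 -/
theorem isSwap_map (h5 : 5 ≤ Fintype.card Ω) (h6 : Fintype.card Ω ≠ 6) (φ : Perm Ω ≃* Perm Ω)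
    {s : Perm Ω} (hs : s.IsSwap) : (φ s).IsSwap := by
  classical
  have hord : orderOf (φ s) = 2 := by
    rw [φ.orderOf_eq]; exact hs.orderOf
  obtain ⟨r, hr⟩ := cycleType_prime_order (hord ▸ Nat.prime_two)
  rw [hord] at hr
  have hc : Nat.card (Subgroup.centralizer ({φ s} : Set (Perm Ω))) = Nat.card (Subgroup.centralizer ({s} : Set (Perm Ω))) := by
    refine (Nat.card_congr (φ.toEquiv.subtypeEquiv fun g => ?_)).symm
    simp only [Subgroup.mem_centralizer_singleton_iff, MulEquiv.toEquiv_eq_coe, MulEquiv.coe_toEquiv,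
      ← map_mul, φ.injective.eq_iff]
  rw [nat_card_centralizer, nat_card_centralizer, hr, isSwap_iff_cycleType.mp hs] at hc
  have hsum : (Multiset.replicate (r + 1) 2).sum ≤ Fintype.card Ω := by
    rw [← hr, sum_cycleType]; exact Finset.card_le_univ _
  simp only [Multiset.sum_replicate, smul_eq_mul, Multiset.prod_replicate,
    Multiset.toFinset_replicate, if_neg (Nat.succ_ne_zero r), Finset.prod_singleton,
    Multiset.count_replicate_self, Multiset.sum_singleton, Multiset.prod_singleton,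
    Multiset.toFinset_singleton, Multiset.count_singleton_self, Nat.factorial_one, mul_one] at hc hsum
  rcases Nat.eq_zero_or_pos r with rfl | hr0
  · exact isSwap_iff_cycleType.mpr (by rw [hr]; rfl)
  · exact absurd (by rw [mul_comm 2 (r + 1)]; exact hc) (centralizer_arith h5 (by omega : 2 ≤ r + 1) (by omega) h6)

lemma stabilizer_eq_closure_swap (a : Ω) :
    stabilizer (Perm Ω) a = Subgroup.closure {s : Perm Ω | s.IsSwap ∧ s a = a} := by
  refine le_antisymm (fun f hf => ?_) ((Subgroup.closure_le _).mpr fun s hs => hs.2)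
  rw [mem_closure_isSwap (fun s hs => hs.1)]
  refine ⟨Set.toFinite _, fun x => ?_⟩
  by_cases hx : f x = x
  · rw [hx]; exact mem_orbit_self x
  have hfa : f a = a := hf
  have hxa : x ≠ a := fun h => hx (by rw [h, hfa])
  have hfxa : f x ≠ a := fun h => hxa (f.injective (by rw [h, hfa]))
  exact ⟨⟨swap x (f x), Subgroup.subset_closure ⟨⟨x, f x, Ne.symm hx, rfl⟩,
    swap_apply_of_ne_of_ne hxa.symm hfxa.symm⟩⟩, swap_apply_left x (f x)⟩

theorem exists_stabilizer_of_aut (h5 : 5 ≤ Fintype.card Ω) (H : Subgroup (Perm Ω))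
    (hH : H.index = Fintype.card Ω) (φ : Perm Ω ≃* Perm Ω) (a : Ω) (hφ : ∀ g, g ∈ H ↔ φ g a = a)
    (hsw : ∀ s : Perm Ω, s.IsSwap → (φ.symm s).IsSwap) :
    ∃ x : Ω, H = stabilizer (Perm Ω) x := by
  classical
  obtain ⟨S, hSdef⟩ : ∃ S : Set (Perm Ω), S = φ.symm '' {s : Perm Ω | s.IsSwap ∧ s a = a} := ⟨_, rfl⟩
  have hS : ∀ f ∈ S, f.IsSwap := by
    rw [hSdef]; rintro f ⟨s, hs, rfl⟩; exact hsw s hs.1
  have hgen : H = Subgroup.closure S := by
    rw [hSdef, ← MulEquiv.coe_toMonoidHom, ← MonoidHom.map_closure, ← stabilizer_eq_closure_swap]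
    ext g
    rw [hφ g, Subgroup.mem_map_equiv]
    rfl
  have hstab : ∀ x, (∀ h ∈ H, h x = x) → H = stabilizer (Perm Ω) x := fun x hx =>
    Subgroup.eq_of_le_of_card_ge (fun h hh => hx h hh) (le_of_eq (by
      have e1 := H.index_mul_card
      have e2 := (stabilizer (Perm Ω) x).index_mul_card
      rw [index_stabilizer_of_transitive, Nat.card_eq_fintype_card] at e2
      rw [hH] at e1
      exact Nat.eq_of_mul_eq_mul_left (by omega : 0 < Fintype.card Ω) (e2.trans e1.symm)))
  obtain ⟨x, hx⟩ : ∃ x, orbit H x ≠ Set.univ := by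
    by_contra! h
    have htop : H = ⊤ := by
      rw [eq_top_iff]
      intro f _
      rw [hgen, mem_closure_isSwap hS, ← hgen]
      exact ⟨Set.toFinite _, fun x => by rw [h x]; trivial⟩
    rw [htop, Subgroup.index_top] at hH
    omega
  obtain ⟨O, hO⟩ : ∃ O, O = orbit H x := ⟨_, rfl⟩
  have hinv : ∀ h ∈ H, ∀ z, z ∈ O → h z ∈ O := fun h hh z hz => by
    rw [hO] at hz ⊢; exact mem_orbit_of_mem_orbit (⟨h, hh⟩ : H) hz
  have hle : H ≤ stabilizer (Perm Ω) O := fun h hh =>
    mem_stabilizer_set_iff_smul_set_subset (Set.toFinite O) |>.mpr (by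
      rintro _ ⟨z, hz, rfl⟩; exact hinv h hh z hz)
  have hcount : (Fintype.card Ω).choose O.ncard ≤ Fintype.card Ω := by
    have h1 := Nat.le_of_dvd (by omega) (hH ▸ Subgroup.index_dvd_of_le hle)
    rw [index_stabilizer] at h1
    refine le_trans ?_ h1
    have hsub : {t : Set Ω | t.ncard = O.ncard} ⊆ orbit (Perm Ω) O := fun t ht => by
      obtain ⟨σ, hσ⟩ : ∃ σ : Perm Ω, σ '' O = t := by
        have e : {z // z ∈ O} ≃ {z // z ∈ t} := Fintype.equivOfCardEq (by
          rw [← Nat.card_eq_fintype_card, ← Nat.card_eq_fintype_card, Nat.card_coe_set_eq, Nat.card_coe_set_eq]; exact ht.symm)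
        refine ⟨e.extendSubtype, Set.eq_of_subset_of_ncard_le ?_ (le_of_eq ?_) (Set.toFinite _)⟩
        · rintro _ ⟨z, hz, rfl⟩; exact e.extendSubtype_mem z hz
        · rw [Set.ncard_image_of_injective _ (Equiv.injective _)]; exact ht
      exact ⟨σ, hσ⟩
    refine le_trans (le_of_eq ?_) (Set.ncard_le_ncard hsub (Set.toFinite _))
    rw [← Finset.card_univ, ← Finset.card_powersetCard O.ncard (Finset.univ : Finset Ω), ← Set.ncard_coe_finset,
      ← Set.ncard_image_of_injective _ (Finset.coe_injective (α := Ω))]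
    congr 1
    ext t
    simp only [Set.mem_image, Finset.mem_coe, Finset.mem_powersetCard, Finset.subset_univ, true_and, Set.mem_setOf_eq]
    constructor
    · rintro ⟨u, hu, rfl⟩; rw [Set.ncard_coe_finset, hu]
    · intro ht; exact ⟨t.toFinset, by rw [← Set.ncard_eq_toFinset_card', ht], Set.coe_toFinset t⟩
  have hO1 : 1 ≤ O.ncard := (Set.ncard_pos (Set.toFinite _)).mpr ⟨x, hO ▸ mem_orbit_self x⟩
  have hO2 : O.ncard < Fintype.card Ω := by
    rw [← Nat.card_eq_fintype_card, ← Set.ncard_univ]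
    exact Set.ncard_lt_ncard ((Set.ssubset_univ_iff).mpr (hO ▸ hx)) (Set.toFinite _)
  rcases (show O.ncard = 1 ∨ O.ncard + 1 = Fintype.card Ω ∨ (2 ≤ O.ncard ∧ O.ncard + 2 ≤ Fintype.card Ω) by omega)
    with h | h | ⟨h, h'⟩
  · obtain ⟨z, hz⟩ := Set.ncard_eq_one.mp h
    exact ⟨z, hstab z fun g hg => by
      have := hinv g hg z (by rw [hz]; rfl)
      rw [hz] at this; exact this⟩
  · have hc : Oᶜ.ncard = 1 := by
      have := Set.ncard_add_ncard_compl O
      rw [Nat.card_eq_fintype_card] at this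
      omega
    obtain ⟨z, hz⟩ := Set.ncard_eq_one.mp hc
    refine ⟨z, hstab z fun g hg => ?_⟩
    have hzO : z ∉ O := show z ∈ Oᶜ by rw [hz]; rfl
    have : g z ∈ Oᶜ := fun hgz => hzO (by simpa using hinv g⁻¹ (H.inv_mem hg) _ hgz)
    rw [hz] at this; exact this
  · exact absurd (choose_gt (by omega) h h') (by omega)

theorem exists_stabilizer_of_five_le (h5 : 5 ≤ Fintype.card Ω) (h6 : Fintype.card Ω ≠ 6)
    (H : Subgroup (Perm Ω)) (hH : H.index = Fintype.card Ω) :
    ∃ x : Ω, H = stabilizer (Perm Ω) x := by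
  obtain ⟨φ, a, hφ⟩ := exists_aut_of_index_eq h5 H hH
  exact exists_stabilizer_of_aut h5 H hH φ a hφ fun s hs => isSwap_map h5 h6 φ.symm hs

theorem exists_stabilizer_of_index_eq (h6 : Fintype.card Ω ≠ 6) (H : Subgroup (Perm Ω))
    (hH : H.index = Fintype.card Ω) : ∃ x : Ω, H = stabilizer (Perm Ω) x := by
  classical
  rcases Nat.lt_or_ge (Fintype.card Ω) 5 with h5 | h5
  swap
  · exact exists_stabilizer_of_five_le h5 h6 H hH
  have hpos : 0 < Fintype.card Ω := hH ▸ Nat.pos_of_ne_zero Subgroup.index_ne_zero_of_finite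
  obtain ⟨x0⟩ : Nonempty Ω := Fintype.card_pos_iff.mp hpos
  have hcard : ∀ x : Ω, Nat.card H = Nat.card (stabilizer (Perm Ω) x) := fun x => by
    have e1 := H.index_mul_card
    have e2 := (stabilizer (Perm Ω) x).index_mul_card
    rw [index_stabilizer_of_transitive, Nat.card_eq_fintype_card] at e2
    rw [hH] at e1
    exact Nat.eq_of_mul_eq_mul_left hpos (e1.trans e2.symm)
  have hn : Fintype.card Ω * Nat.card H = (Fintype.card Ω).factorial := by
    have := H.index_mul_card
    rwa [hH, Nat.card_perm, Nat.card_eq_fintype_card (α := Ω)] at this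
  rcases Nat.lt_or_ge (Fintype.card Ω) 3 with h3 | h3
  · have h1 : Nat.card H = 1 := by
      interval_cases hc : Fintype.card Ω <;> simp_all [Nat.factorial]
    refine ⟨x0, ?_⟩
    rw [Subgroup.card_eq_one.mp h1, eq_comm, ← Subgroup.card_eq_one, ← hcard]
    exact h1
  -- degree 3 or 4: the subgroup normalises an element with a single fixed point
  obtain ⟨r, hr, hrn, hrH⟩ : ∃ r, r.Prime ∧ r + 1 = Fintype.card Ω ∧ (Nat.card H = r ∨ Nat.card H = 2 * r) := by
    interval_cases hc : Fintype.card Ω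
    · exact ⟨2, Nat.prime_two, rfl, Or.inl (by rw [show Nat.factorial 3 = 6 from rfl] at hn; omega)⟩
    · exact ⟨3, Nat.prime_three, rfl, Or.inr (by rw [show Nat.factorial 4 = 24 from rfl] at hn; omega)⟩
  have : Fact r.Prime := ⟨hr⟩
  obtain ⟨⟨c, hcH⟩, hc⟩ := exists_prime_orderOf_dvd_card' (G := H) r (hrH.elim (fun h => dvd_of_eq h.symm) (fun h => Dvd.intro_left 2 h.symm))
  rw [Subgroup.orderOf_mk] at hc
  obtain ⟨k, hk⟩ := cycleType_prime_order (hc ▸ hr)
  rw [hc] at hk
  have hk0 : k = 0 := by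
    have h1 : (Multiset.replicate (k + 1) r).sum ≤ Fintype.card Ω := by
      rw [← hk, sum_cycleType]; exact Finset.card_le_univ _
    rw [Multiset.sum_replicate, smul_eq_mul] at h1
    by_contra hne
    have := Nat.mul_le_mul_right r (show 2 ≤ k + 1 by omega)
    have := hr.two_le
    omega
  have hsupp : c.support.card = r := by rw [← sum_cycleType, hk, hk0]; simp
  obtain ⟨x, hx⟩ : ∃ x, c.supportᶜ = {x} := Finset.card_eq_one.mp (by rw [Finset.card_compl, hsupp]; omega)
  have hfix : ∀ y, c y = y → y = x := fun y hy => by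
    rw [← Finset.mem_singleton, ← hx, Finset.mem_compl, mem_support, not_not]; exact hy
  have hcx : c x = x := by
    have : x ∈ c.supportᶜ := by rw [hx]; exact Finset.mem_singleton_self x
    simpa using this
  refine ⟨x, Subgroup.eq_of_le_of_card_ge (fun h hh => ?_) (hcard x).ge⟩
  have hle : Subgroup.zpowers c ≤ H := Subgroup.zpowers_le.mpr hcH
  have hnorm : ((Subgroup.zpowers c).subgroupOf H).Normal := by
    have hN : ((Subgroup.zpowers c).subgroupOf H).index * r = Nat.card H := by
      rw [← Subgroup.index_mul_card ((Subgroup.zpowers c).subgroupOf H),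
        Nat.card_congr (Subgroup.subgroupOfEquivOfLe hle).toEquiv, Nat.card_zpowers, hc]
    rcases hrH with h | h
    · rw [h] at hN
      rw [Subgroup.index_eq_one.mp ((Nat.mul_eq_right hr.ne_zero).mp hN)]
      infer_instance
    · rw [h] at hN
      exact Subgroup.normal_of_index_eq_two (Nat.eq_of_mul_eq_mul_right hr.pos hN)
  have hmem : h⁻¹ * c * h ∈ Subgroup.zpowers c := by
    have := hnorm.conj_mem ⟨c, hcH⟩ (Subgroup.mem_zpowers c) ⟨h⁻¹, H.inv_mem hh⟩
    simpa [Subgroup.mem_subgroupOf] using this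
  obtain ⟨m, hm⟩ := hmem
  have hfx : (c ^ m) x = x := zpow_apply_eq_self_of_apply_eq_self hcx m
  show h x = x
  refine hfix _ ?_
  have := congrArg (fun g : Perm Ω => h (g x)) hm
  simp only [hfx, Perm.mul_apply, Perm.coe_inv, Equiv.apply_symm_apply] at this
  exact this.symm

end CfsgLib.Classical
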