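import Cfsg.Agent.Lib.ClassicalSymIndex

/-! The exotic subgroups of index six in the symmetric group of degree six. -/

set_option autoImplicit false

namespace CfsgLib.Classical

open Equiv Equiv.Perm MulAction

variable {Ω : Type*} [Fintype Ω] [DecidableEq Ω]

lemma isSwap_conj_iff {s : Perm Ω} (g : Perm Ω) : (g * s * g⁻¹).IsSwap ↔ s.IsSwap := by
  rw [isSwap_iff_cycleType, isSwap_iff_cycleType, cycleType_conj]

/-- an automorphism of the symmetric group of degree six maps a transposition to a transposition or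
to a product of three transpositions -/
theorem isSwap_or_triple (h6 : Fintype.card Ω = 6) (φ : Perm Ω ≃* Perm Ω)
    {s : Perm Ω} (hs : s.IsSwap) : (φ s).IsSwap ∨ (φ s).cycleType = Multiset.replicate 3 2 := by
  classical
  have hord : orderOf (φ s) = 2 := by
    rw [φ.orderOf_eq]; exact hs.orderOf
  obtain ⟨r, hr⟩ := cycleType_prime_order (hord ▸ Nat.prime_two)
  rw [hord] at hr
  have hc : Nat.card (Subgroup.centralizer ({φ s} : Set (Perm Ω))) = Nat.card (Subgroup.centralizer ({s} : Set (Perm Ω))) := by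
    refine (Nat.card_congr (φ.toEquiv.subtypeEquiv fun g => ?_)).symm
    simp only [Subgroup.mem_centralizer_singleton_iff, MulEquiv.toEquiv_eq_coe, MulEquiv.coe_toEquiv,
      ← map_mul, φ.injective.eq_iff]
  rw [nat_card_centralizer, nat_card_centralizer, hr, isSwap_iff_cycleType.mp hs] at hc
  have hsum : (Multiset.replicate (r + 1) 2).sum ≤ Fintype.card Ω := by
    rw [← hr, sum_cycleType]; exact Finset.card_le_univ _
  rw [Multiset.sum_replicate, smul_eq_mul, h6] at hsum
  rw [h6] at hc
  have : r = 0 ∨ r = 1 ∨ r = 2 := by omega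
  rcases this with rfl | rfl | rfl
  · exact Or.inl (isSwap_iff_cycleType.mpr (by rw [hr]; rfl))
  · exact absurd hc (by decide)
  · exact Or.inr hr

/-- an automorphism either preserves the transpositions or sends none to a transposition -/
theorem isSwap_map_of_one {φ : Perm Ω ≃* Perm Ω} {s t : Perm Ω} (hs : s.IsSwap) (ht : t.IsSwap)
    (h : (φ s).IsSwap) : (φ t).IsSwap := by
  obtain ⟨a, b, hab, rfl⟩ := hs
  obtain ⟨c, d, hcd, rfl⟩ := ht
  obtain ⟨g, hg⟩ := isConj_iff.mp (isConj_swap hab hcd)
  rw [← hg, map_mul, map_mul, map_inv, isSwap_conj_iff]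
  exact h

theorem isSwap_symm_of_one {φ : Perm Ω ≃* Perm Ω} {s t : Perm Ω} (hs : s.IsSwap) (ht : t.IsSwap)
    (h : (φ s).IsSwap) : (φ.symm t).IsSwap :=
  isSwap_map_of_one h ht (by rwa [MulEquiv.symm_apply_apply])

theorem exists_exotic (h6 : Fintype.card Ω = 6) :
    ∃ H : Subgroup (Perm Ω), H.index = 6 ∧ ∀ a : Ω, H ≠ stabilizer (Perm Ω) a := by
  classical
  have : Fact (Nat.Prime 5) := ⟨Nat.prime_five⟩
  have hG : Nat.card (Perm (Fin 5)) = 120 := by rw [Nat.card_perm, Nat.card_fin]; rfl
  have h5 : 5 ≤ Nat.card (Fin 5) := by rw [Nat.card_fin]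
  obtain ⟨P⟩ : Nonempty (Sylow 5 (Perm (Fin 5))) := inferInstance
  have hP : Nat.card P = 5 := by
    rw [P.card_eq_multiplicity, hG, show (120 : ℕ) = 5 * 24 from rfl,
      Nat.factorization_mul (by norm_num) (by norm_num), Finsupp.add_apply, Nat.Prime.factorization_self (by norm_num),
      Nat.factorization_eq_zero_of_not_dvd (by norm_num : ¬ 5 ∣ 24)]
    rfl
  have hidx : (P : Subgroup (Perm (Fin 5))).index = 24 := by
    have := (P : Subgroup (Perm (Fin 5))).index_mul_card
    rw [hG, hP] at this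
    omega
  have hn : Nat.card (Sylow 5 (Perm (Fin 5))) = 6 := by
    have hd := P.card_dvd_index
    have hm := card_sylow_modEq_one 5 (Perm (Fin 5))
    rw [hidx] at hd
    have hle := Nat.le_of_dvd (by norm_num) hd
    have hne : Nat.card (Sylow 5 (Perm (Fin 5))) ≠ 1 := fun h => by
      have : Subsingleton (Sylow 5 (Perm (Fin 5))) := (Nat.card_eq_one_iff_unique.mp h).1
      have hN : (P : Subgroup (Perm (Fin 5))).Normal := P.normal_of_subsingleton
      have hA := Subgroup.card_le_of_le (alternatingGroup_le_of_normal h5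
        (N := (P : Subgroup (Perm (Fin 5)))) (Finite.one_lt_card_iff_nontrivial.mp (by omega)))
      rw [nat_card_alternatingGroup, Nat.card_fin, show Nat.factorial 5 / 2 = 60 from rfl] at hA
      omega
    unfold Nat.ModEq at hm
    generalize Nat.card (Sylow 5 (Perm (Fin 5))) = m at hd hm hle hne ⊢
    interval_cases m <;> simp_all
  obtain ⟨e⟩ : Nonempty (Sylow 5 (Perm (Fin 5)) ≃ Ω) := by
    rw [← Fintype.card_eq, h6, ← Nat.card_eq_fintype_card, hn]
  let f : Perm (Fin 5) →* Perm Ω := e.permCongrHom.toMonoidHom.comp (MulAction.toPermHom (Perm (Fin 5)) (Sylow 5 (Perm (Fin 5))))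
  have hf : Function.Injective f := by
    refine e.permCongrHom.injective.comp ((MonoidHom.ker_eq_bot_iff _).mp ?_)
    by_contra hne
    have hA := alternatingGroup_le_of_normal h5 ((Subgroup.nontrivial_iff_ne_bot _).mpr hne)
    have h1 : alternatingGroup (Fin 5) ≤ stabilizer (Perm (Fin 5)) P := fun g hg =>
      congrArg (fun σ : Perm (Sylow 5 (Perm (Fin 5))) => σ P) (hA hg)
    have h2 := Subgroup.index_dvd_of_le h1
    rw [alternatingGroup.index_eq_two, index_stabilizer_of_transitive, hn] at h2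
    norm_num at h2
  refine ⟨f.range, ?_, fun a ha => ?_⟩
  · have := f.range.index_mul_card
    rw [← Nat.card_congr (MonoidHom.ofInjective hf).toEquiv, hG, Nat.card_perm, Nat.card_eq_fintype_card, h6,
      show Nat.factorial 6 = 720 from rfl] at this
    omega
  · obtain ⟨b, hb⟩ : ∃ b, b ≠ a := Fintype.exists_ne_of_one_lt_card (by omega) a
    obtain ⟨g, hg⟩ := exists_smul_eq (Perm (Fin 5)) (e.symm a) (e.symm b)
    have hga : f g a = a := show f g ∈ stabilizer (Perm Ω) a from ha ▸ MonoidHom.mem_range.mpr ⟨g, rfl⟩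
    refine hb ?_
    rw [← e.apply_symm_apply b, ← hg]
    exact hga

/-- the subgroups of index six: the point stabilisers and their images under one automorphism -/
theorem index_six_dichotomy (h6 : Fintype.card Ω = 6) :
    ∃ φ : Perm Ω ≃* Perm Ω,
      (∀ x y : Ω, stabilizer (Perm Ω) x ≠ (stabilizer (Perm Ω) y).comap φ.toMonoidHom) ∧
      ∀ H : Subgroup (Perm Ω), H.index = 6 →
        (∃ x : Ω, H = stabilizer (Perm Ω) x) ∨ ∃ y : Ω, H = (stabilizer (Perm Ω) y).comap φ.toMonoidHom := by
  classical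
  obtain ⟨H₀, hH₀, hne⟩ := exists_exotic (Ω := Ω) h6
  obtain ⟨φ, a, hφ⟩ := exists_aut_of_index_eq (by omega) H₀ (by omega)
  have hnone : ∀ s : Perm Ω, s.IsSwap → ¬ (φ.symm s).IsSwap := fun s hs h => by
    obtain ⟨x, hx⟩ := exists_stabilizer_of_aut (by omega) H₀ (by omega) φ a hφ
      fun t ht => isSwap_map_of_one hs ht h
    exact hne x hx
  have htrip : ∀ s : Perm Ω, s.IsSwap → (φ s).cycleType = Multiset.replicate 3 2 := fun s hs =>
    (isSwap_or_triple h6 φ hs).resolve_left fun h => hnone s hs (isSwap_symm_of_one hs hs h)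
  refine ⟨φ, fun x y h => ?_, fun H hH => ?_⟩
  · obtain ⟨u, hu, v, hv, huv⟩ : ∃ u, u ≠ x ∧ ∃ v, v ≠ x ∧ u ≠ v := by
      obtain ⟨u, hu⟩ := Fintype.exists_ne_of_one_lt_card (by omega) x
      obtain ⟨v, hv⟩ : ∃ v, v ∉ ({x, u} : Finset Ω) := by
        by_contra! hall
        have h1 := Finset.card_le_card (show (Finset.univ : Finset Ω) ⊆ {x, u} from fun z _ => hall z)
        have h2 : ({x, u} : Finset Ω).card ≤ 2 := Finset.card_le_two
        rw [Finset.card_univ, h6] at h1
        omega
      simp only [Finset.mem_insert, Finset.mem_singleton, not_or] at hv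
      exact ⟨u, hu, v, hv.1, Ne.symm hv.2⟩
    have hmem : swap u v ∈ stabilizer (Perm Ω) x := swap_apply_of_ne_of_ne hu.symm hv.symm
    rw [h] at hmem
    have hfix : φ (swap u v) y = y := hmem
    have ht := htrip _ ⟨u, v, huv, rfl⟩
    have hy : y ∈ (φ (swap u v)).support := by
      have : (φ (swap u v)).support = Finset.univ := Finset.eq_univ_of_card _ (by
        rw [← sum_cycleType, ht, h6]; rfl)
      rw [this]; exact Finset.mem_univ y
    exact (mem_support.mp hy) hfix
  · obtain ⟨ψ, b, hψ⟩ := exists_aut_of_index_eq (by omega) H (by omega)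
    by_cases hs : ∃ s : Perm Ω, s.IsSwap ∧ (ψ.symm s).IsSwap
    · obtain ⟨s, hs1, hs2⟩ := hs
      exact Or.inl (exists_stabilizer_of_aut (by omega) H (by omega) ψ b hψ
        fun t ht => isSwap_map_of_one hs1 ht hs2)
    · push Not at hs
      have key : ∀ s : Perm Ω, s.IsSwap → (φ (ψ.symm s)).IsSwap := fun s hs' => by
        have h1 := (isSwap_or_triple h6 ψ.symm hs').resolve_left (hs s hs')
        have h2 := (isSwap_or_triple h6 φ.symm hs').resolve_left (hnone s hs')
        obtain ⟨g, hg⟩ := isConj_iff.mp (isConj_iff_cycleType_eq.mpr (h2.trans h1.symm))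
        rw [← hg, map_mul, map_mul, map_inv, isSwap_conj_iff, MulEquiv.apply_symm_apply]
        exact hs'
      obtain ⟨y, hy⟩ := exists_stabilizer_of_aut (by omega) (H.comap φ.symm.toMonoidHom)
        (by rw [Subgroup.index_comap_of_surjective _ φ.symm.surjective]; omega)
        (φ.symm.trans ψ) b (fun g => hψ (φ.symm g)) (fun s hs' => key s hs')
      refine Or.inr ⟨y, ?_⟩
      rw [← hy]
      ext g
      simp

end CfsgLib.Classical
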