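import Cfsg.Agent.Lib.CoreTransfer
import Cfsg.Agent.Lib.CoreThree
import Mathlib.GroupTheory.GroupAction.CardCommute

/-!
Counting conjugacy classes of `σ`-elements.
-/

set_option autoImplicit false

namespace CfsgLib.Core

open Subgroup
open scoped IsMulCommutative

universe u

/-- The number of classes of `σ`-elements. -/
noncomputable def classCount (σ : Finset ℕ) (G : Type u) [Group G] : ℕ :=
  Nat.card {c : ConjClasses G // ∀ x ∈ c.carrier, ∀ r : ℕ, r.Prime → r ∣ orderOf x → r ∈ σ}

variable {G : Type u} [Group G]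

theorem mem_classCount_iff (σ : Finset ℕ) (x : G) :
    (∀ y ∈ (ConjClasses.mk x).carrier, ∀ r : ℕ, r.Prime → r ∣ orderOf y → r ∈ σ) ↔
      ∀ r : ℕ, r.Prime → r ∣ orderOf x → r ∈ σ := by
  refine ⟨fun h => h x ConjClasses.mem_carrier_mk, fun h y hy => ?_⟩
  rw [ConjClasses.mem_carrier_iff_mk_eq, ConjClasses.mk_eq_mk_iff_isConj, isConj_iff] at hy
  obtain ⟨c, hc⟩ := hy
  have : orderOf y = orderOf x := by
    rw [← hc, ← MulAut.conj_apply, MulEquiv.orderOf_eq]
  rwa [this]

/-- A group in which all element orders are trivial on `σ = ∅` has one class of them. -/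
theorem classCount_empty [Finite G] : classCount ∅ G ≤ 1 := by
  haveI : Subsingleton {c : ConjClasses G //
      ∀ x ∈ c.carrier, ∀ r : ℕ, r.Prime → r ∣ orderOf x → r ∈ (∅ : Finset ℕ)} := by
    constructor
    intro a b
    obtain ⟨a, ha⟩ := a
    obtain ⟨b, hb⟩ := b
    obtain ⟨x, rfl⟩ := ConjClasses.mk_surjective a
    obtain ⟨y, rfl⟩ := ConjClasses.mk_surjective b
    have h : ∀ z : G, (∀ r : ℕ, r.Prime → r ∣ orderOf z → r ∈ (∅ : Finset ℕ)) → z = 1 := by
      intro z hz
      rw [← orderOf_eq_one_iff]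
      by_contra hne
      obtain ⟨r, hr, hd⟩ := Nat.exists_prime_and_dvd hne
      exact absurd (hz r hr hd) (Finset.notMem_empty r)
    rw [mem_classCount_iff] at ha hb
    exact Subtype.ext (congrArg ConjClasses.mk ((h x ha).trans (h y hb).symm))
  exact Finite.card_le_one_iff_subsingleton.mpr inferInstance

/-- Classes of `p`-elements are images of classes of a Sylow subgroup. -/
theorem exists_conj_mem_sylow [Finite G] {p : ℕ} [hp : Fact p.Prime] (P : Sylow p G) {x : G}
    (hx : ∀ r : ℕ, r.Prime → r ∣ orderOf x → r ∈ ({p} : Finset ℕ)) :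
    ∃ y ∈ (P : Subgroup G), IsConj x y := by
  have hpx : IsPGroup p (zpowers x) := by
    rw [← isPiNat_card_iff_isPGroup]
    intro r hr hd
    rw [Nat.card_zpowers] at hd
    simpa using hx r hr hd
  obtain ⟨S, hS⟩ := hpx.exists_le_sylow
  obtain ⟨g, hg⟩ := MulAction.exists_smul_eq G S P
  refine ⟨g * x * g⁻¹, ?_, isConj_iff.mpr ⟨g, rfl⟩⟩
  rw [← hg]
  exact ⟨x, hS (mem_zpowers x), rfl⟩

/-- A non-abelian `p`-group has few classes. -/
theorem card_conjClasses_nonabelian [Finite G] {p : ℕ} [hp : Fact p.Prime] (hG : IsPGroup p G)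
    (hna : ¬ IsMulCommutative G) :
    p ^ 3 * Nat.card (ConjClasses G) ≤ (p ^ 2 + p - 1) * Nat.card G := by
  classical
  letI := Fintype.ofFinite G
  have h1 := card_comm_eq_card_conjClasses_mul_card G
  let e : {q : G × G // Commute q.1 q.2} ≃ Σ x : G, centralizer ({x} : Set G) :=
    { toFun := fun q => ⟨q.1.1, q.1.2, mem_centralizer_singleton_iff.mpr q.2.eq.symm⟩
      invFun := fun s => ⟨(s.1, s.2.1), (mem_centralizer_singleton_iff.mp s.2.2).symm⟩
      left_inv := fun q => rfl
      right_inv := fun s => rfl }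
  rw [Nat.card_congr e, Nat.card_sigma] at h1
  set Z := center G with hZ
  obtain ⟨n, hn⟩ := hG.exists_card_eq
  -- the centre has index at least `p ^ 2`
  have hZi : p ^ 2 * Nat.card Z ≤ Nat.card G := by
    obtain ⟨k, hk⟩ := hG.index Z
    have h2 : 2 ≤ k := by
      by_contra h2
      have hk1 : k = 0 ∨ k = 1 := by omega
      haveI : IsCyclic (G ⧸ center G) := by
        rcases hk1 with rfl | rfl
        · haveI : Subsingleton (G ⧸ center G) := by
            rw [pow_zero, Subgroup.index] at hk
            exact (Nat.card_eq_one_iff_unique.mp hk).1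
          exact inferInstance
        · rw [pow_one, Subgroup.index] at hk
          exact isCyclic_of_prime_card hk
      exact hna (MonoidHom.isMulCommutative_of_isCyclic_of_ker_le_center (QuotientGroup.mk' (center G))
        (by simp))
    rw [← Z.card_mul_index, hk, mul_comm (Nat.card Z)]
    exact Nat.mul_le_mul_right _ (Nat.pow_le_pow_right hp.out.pos h2)
  -- centralisers of non-central elements
  have hC : ∀ x : G, p * Nat.card (centralizer ({x} : Set G)) ≤
      Nat.card G + if x ∈ Z then (p - 1) * Nat.card G else 0 := by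
    intro x
    split_ifs with hx
    · have hle : Nat.card (centralizer ({x} : Set G)) ≤ Nat.card G :=
        Nat.le_of_dvd Nat.card_pos (card_subgroup_dvd_card _)
      calc p * Nat.card (centralizer ({x} : Set G)) ≤ p * Nat.card G := Nat.mul_le_mul_left _ hle
        _ = Nat.card G + (p - 1) * Nat.card G := by
          conv_lhs => rw [show p = 1 + (p - 1) from (Nat.add_sub_cancel' hp.out.one_le).symm]
          rw [add_mul, one_mul]
    · rw [add_zero]
      obtain ⟨k, hk⟩ := hG.index (centralizer ({x} : Set G))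
      have hk0 : k ≠ 0 := by
        rintro rfl
        rw [pow_zero, index_eq_one] at hk
        apply hx
        rw [hZ, mem_center_iff]
        intro g
        exact mem_centralizer_singleton_iff.mp (hk ▸ mem_top g)
      rw [← (centralizer ({x} : Set G)).card_mul_index, hk, mul_comm p]
      exact Nat.mul_le_mul_left _ (Nat.le_self_pow hk0 p)
  have h2 : p * (Nat.card (ConjClasses G) * Nat.card G) ≤
      (Nat.card G + (p - 1) * Nat.card Z) * Nat.card G := by
    rw [← h1, Finset.mul_sum]
    refine (Finset.sum_le_sum fun x _ => hC x).trans ?_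
    rw [Finset.sum_add_distrib, Finset.sum_const, Finset.sum_ite, Finset.sum_const,
      Finset.sum_const_zero, add_zero, smul_eq_mul, smul_eq_mul, Finset.card_univ,
      ← Nat.card_eq_fintype_card]
    have hcard : (Finset.univ.filter fun x => x ∈ Z).card = Nat.card Z := by
      rw [Nat.card_eq_fintype_card, Fintype.card_subtype]
    rw [hcard]
    exact le_of_eq (by ring)
  have h3 : p * Nat.card (ConjClasses G) ≤ Nat.card G + (p - 1) * Nat.card Z :=
    Nat.le_of_mul_le_mul_right (by rw [mul_assoc]; exact h2) Nat.card_pos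
  obtain ⟨q, hq⟩ : ∃ q, p = q + 1 := ⟨p - 1, (Nat.sub_add_cancel hp.out.one_le).symm⟩
  have h4 := Nat.mul_le_mul_left (p ^ 2) h3
  have h5 := Nat.mul_le_mul_left q hZi
  rw [hq] at h4 h5 ⊢
  rw [show q + 1 - 1 = q from rfl] at h4
  rw [show (q + 1) ^ 2 + (q + 1) - 1 = (q + 1) ^ 2 + q from rfl]
  nlinarith

/-- Many classes of `p`-elements force a normal `p`-complement and an abelian Sylow subgroup. -/
theorem npc_of_many_classes [Finite G] {p : ℕ} [hp : Fact p.Prime] (P : Sylow p G)
    (h : (p + 1) * Nat.card (P : Subgroup G) < 2 * p * classCount {p} G) :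
    Cfsg.HasNormalPComplement p G ∧ IsMulCommutative (P : Subgroup G) := by
  classical
  let C := {c : ConjClasses G // ∀ x ∈ c.carrier, ∀ r : ℕ, r.Prime → r ∣ orderOf x → r ∈ ({p} : Finset ℕ)}
  have hmemP : ∀ y : (P : Subgroup G), ∀ r : ℕ, r.Prime → r ∣ orderOf (y : G) → r ∈ ({p} : Finset ℕ) := by
    intro y r hr hd
    obtain ⟨k, hk⟩ := IsPGroup.iff_orderOf.mp P.2 y
    rw [orderOf_coe, hk] at hd
    simpa using (Nat.prime_dvd_prime_iff_eq hr hp.out).mp (hr.dvd_of_dvd_pow hd)
  let f : ↥(P : Subgroup G) → C := fun y =>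
    ⟨ConjClasses.mk (y : G), (mem_classCount_iff _ _).mpr (hmemP y)⟩
  have hf : Function.Surjective f := by
    rintro ⟨c, hc⟩
    obtain ⟨x, rfl⟩ := ConjClasses.mk_surjective c
    obtain ⟨y, hy, hxy⟩ := exists_conj_mem_sylow P ((mem_classCount_iff _ x).mp hc)
    exact ⟨⟨y, hy⟩, Subtype.ext (ConjClasses.mk_eq_mk_iff_isConj.mpr hxy.symm)⟩
  have hk : classCount {p} G = Nat.card C := rfl
  have hab : IsMulCommutative (P : Subgroup G) := by
    by_contra hna
    have h1 := card_conjClasses_nonabelian P.2 hna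
    have h2 : Nat.card C ≤ Nat.card (ConjClasses (P : Subgroup G)) := by
      refine Nat.card_le_card_of_surjective (Quotient.lift f fun a b hab => ?_) ?_
      · obtain ⟨c, hc⟩ := isConj_iff.mp hab
        exact Subtype.ext (ConjClasses.mk_eq_mk_iff_isConj.mpr
          (isConj_iff.mpr ⟨(c : G), congrArg Subtype.val hc⟩))
      · intro c
        obtain ⟨y, rfl⟩ := hf c
        exact ⟨ConjClasses.mk y, rfl⟩
    rw [hk] at h
    have hp2 := hp.out.two_le
    have h3 : p ^ 3 * Nat.card C ≤ (p ^ 2 + p - 1) * Nat.card (P : Subgroup G) :=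
      (Nat.mul_le_mul_left _ h2).trans h1
    have h4 : p ^ 2 * ((p + 1) * Nat.card (P : Subgroup G)) < p ^ 2 * (2 * p * Nat.card C) :=
      Nat.mul_lt_mul_of_pos_left h (pow_pos hp.out.pos 2)
    have h5 : 2 * (p ^ 2 + p - 1) ≤ p ^ 2 * (p + 1) := by
      have : p ^ 2 + p - 1 ≤ p ^ 2 + p := Nat.sub_le _ _
      nlinarith
    have h6 := Nat.mul_le_mul_right (Nat.card (P : Subgroup G)) h5
    nlinarith
  refine ⟨?_, hab⟩
  haveI := hab
  -- the normaliser centralises
  have hN : normalizer ((P : Subgroup G) : Set G) ≤ centralizer ((P : Subgroup G) : Set G) := by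
    intro g hg
    by_contra hgc
    rw [mem_centralizer_iff] at hgc
    let c : (P : Subgroup G) ≃* (P : Subgroup G) :=
      (P : Subgroup G).normalizerMonoidHom ⟨g, hg⟩
    let Cf : Subgroup (P : Subgroup G) := c.toMonoidHom.eqLocus (MonoidHom.id _)
    have hCf : Cf ≠ ⊤ := by
      intro e
      apply hgc
      intro y hy
      have h1 : c ⟨y, hy⟩ = ⟨y, hy⟩ := (e ▸ mem_top (⟨y, hy⟩ : (P : Subgroup G)) : _ ∈ Cf)
      have h2 : g * y * g⁻¹ = y := congrArg Subtype.val h1
      calc y * g = g * y * g⁻¹ * g := by rw [h2]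
        _ = g * y := by group
    have hCfc : p * Nat.card Cf ≤ Nat.card (P : Subgroup G) := by
      obtain ⟨k, hk⟩ := P.2.index Cf
      have hk0 : k ≠ 0 := by
        rintro rfl
        exact hCf (index_eq_one.mp (by rw [hk, pow_zero]))
      rw [← Cf.card_mul_index, hk, mul_comm p]
      exact Nat.mul_le_mul_left _ (Nat.le_self_pow hk0 p)
    choose s hs using hf
    let φ : C × Bool → (P : Subgroup G) ⊕ Cf := fun q =>
      if q.2 = false then Sum.inl (s q.1)
      else if hm : s q.1 ∈ Cf then Sum.inr ⟨s q.1, hm⟩ else Sum.inl (c (s q.1))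
    have hfc : ∀ y, f (c y) = f y := fun y => Subtype.ext
      (ConjClasses.mk_eq_mk_iff_isConj.mpr (isConj_iff.mpr ⟨g, rfl⟩).symm)
    have hmix : ∀ q q' : C, s q' ∉ Cf → s q = c (s q') → False := by
      intro q q' hm e
      have : q = q' := by rw [← hs q, e, hfc, hs]
      subst this
      exact hm e.symm
    have hφ : Function.Injective φ := by
      rintro ⟨q, b⟩ ⟨q', b'⟩ e
      simp only [φ] at e
      cases b <;> cases b' <;> simp only [Bool.true_eq_false, if_false, if_true] at e
      · rw [Sum.inl.injEq] at e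
        rw [← hs q, e, hs]
      · split_ifs at e with hm
        exact (hmix q q' hm (Sum.inl.injEq _ _ ▸ e)).elim
      · split_ifs at e with hm
        exact (hmix q' q hm (Sum.inl.injEq _ _ ▸ e).symm).elim
      · split_ifs at e with hm hm' <;> simp only [Sum.inr.injEq, Sum.inl.injEq, Subtype.mk.injEq] at e
        · rw [← hs q, e, hs]
        · rw [← hs q, c.injective e, hs]
    have h1 := Nat.card_le_card_of_injective φ hφ
    rw [Nat.card_prod, Nat.card_sum, Nat.card_eq_fintype_card (α := Bool), Fintype.card_bool] at h1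
    rw [hk] at h
    have := Nat.mul_le_mul_left p h1
    nlinarith
  exact ⟨P, (MonoidHom.transferSylow P hN).ker, inferInstance,
    MonoidHom.ker_transferSylow_isComplement' P hN⟩

/-- With a normal `p`-complement and an abelian Sylow subgroup every `p`-element of `P` gives its
own class. -/
theorem card_sylow_le_classCount [Finite G] {p : ℕ} [hp : Fact p.Prime] (P : Sylow p G)
    (hnpc : Cfsg.HasNormalPComplement p G) [hab : IsMulCommutative (P : Subgroup G)] :
    Nat.card (P : Subgroup G) ≤ classCount {p} G := by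
  obtain ⟨N, hN, hcop, k, hk⟩ := hasNormalPComplement_iff.mp hnpc
  haveI := hN
  have hmemP : ∀ y : (P : Subgroup G), ∀ r : ℕ, r.Prime → r ∣ orderOf (y : G) → r ∈ ({p} : Finset ℕ) := by
    intro y r hr hd
    obtain ⟨j, hj⟩ := IsPGroup.iff_orderOf.mp P.2 y
    rw [orderOf_coe, hj] at hd
    simpa using (Nat.prime_dvd_prime_iff_eq hr hp.out).mp (hr.dvd_of_dvd_pow hd)
  refine Nat.card_le_card_of_injective
    (fun y : (P : Subgroup G) => (⟨ConjClasses.mk (y : G), (mem_classCount_iff _ _).mpr (hmemP y)⟩ :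
      {c : ConjClasses G // ∀ x ∈ c.carrier, ∀ r : ℕ, r.Prime → r ∣ orderOf x → r ∈ ({p} : Finset ℕ)}))
    fun a b e => ?_
  obtain ⟨g, hg⟩ := isConj_iff.mp (ConjClasses.mk_eq_mk_iff_isConj.mp (congrArg Subtype.val e))
  have hcomm : ∀ u v : G ⧸ N, u * v = v * u := by
    have hsur : ∀ u : G ⧸ N, ∃ y : (P : Subgroup G), QuotientGroup.mk' N (y : G) = u := by
      intro u
      have htop : ((P : Subgroup G).map (QuotientGroup.mk' N)) = ⊤ := by
        refine eq_top_of_card_ge ?_
        rw [← index_eq_card, hk]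
        have h1 := card_map_mk' (N := N) (P : Subgroup G)
        have hbot : (P : Subgroup G) ⊓ N = ⊥ := by
          apply inf_eq_bot_of_coprime
          obtain ⟨i, hi⟩ := IsPGroup.iff_card.mp P.2
          rw [hi]; exact (hcop.symm).pow_left i
        rw [inf_comm, hbot, card_bot, mul_one] at h1
        rw [h1, P.card_eq_multiplicity, ← N.card_mul_index, hk,
          Nat.factorization_mul Nat.card_pos.ne' (pow_ne_zero _ hp.out.ne_zero), Finsupp.add_apply,
          hp.out.factorization_pow, Finsupp.single_eq_same]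
        exact Nat.pow_le_pow_right hp.out.pos le_add_self
      obtain ⟨y, hy, rfl⟩ := htop.ge (mem_top u)
      exact ⟨⟨y, hy⟩, rfl⟩
    intro u v
    obtain ⟨a, rfl⟩ := hsur u
    obtain ⟨b, rfl⟩ := hsur v
    rw [← map_mul, ← map_mul, ← coe_mul, ← coe_mul, mul_comm' a b]
  have h1 : QuotientGroup.mk' N (b : G) = QuotientGroup.mk' N (a : G) := by
    rw [← hg, map_mul, map_mul, map_inv, hcomm (QuotientGroup.mk' N g), mul_inv_cancel_right]
  have h2 : (b : G)⁻¹ * a ∈ (P : Subgroup G) ⊓ N :=
    ⟨(P : Subgroup G).mul_mem ((P : Subgroup G).inv_mem b.2) a.2, QuotientGroup.eq.mp h1⟩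
  rw [inf_eq_bot_of_coprime (show (Nat.card (P : Subgroup G)).Coprime (Nat.card N) by
    obtain ⟨i, hi⟩ := IsPGroup.iff_card.mp P.2
    rw [hi]; exact (hcop.symm).pow_left i), mem_bot] at h2
  exact Subtype.ext (inv_mul_eq_one.mp h2).symm

/-- `k_σ(G) ≤ k_p(G) * |G|_{σ - p}` and `k_σ(G) ≤ |G|_σ`. -/
theorem classCount_le : ∀ (σ : Finset ℕ), (∀ r ∈ σ, r.Prime) → ∀ (G : Type u) [Group G] [Finite G],
    classCount σ G ≤ ∏ r ∈ σ, r ^ (Nat.card G).factorization r ∧
    ∀ p ∈ σ, classCount σ G ≤
      classCount {p} G * ∏ r ∈ σ.erase p, r ^ (Nat.card G).factorization r := by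
  intro σ
  induction σ using Finset.strongInductionOn with
  | _ σ ih =>
    intro hσ G _ _
    classical
    have key : ∀ p ∈ σ, classCount σ G ≤
        classCount {p} G * ∏ r ∈ σ.erase p, r ^ (Nat.card G).factorization r := by
      intro p hp
      have hpp := hσ p hp
      letI := Fintype.ofFinite G
      let Cp := {c : ConjClasses G // ∀ x ∈ c.carrier, ∀ r : ℕ, r.Prime → r ∣ orderOf x → r ∈ ({p} : Finset ℕ)}
      have hout : ∀ c : Cp, ∃ a : G, ConjClasses.mk a = c.1 := fun c => ConjClasses.mk_surjective c.1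
      choose rep hrep using hout
      let F : (c : Cp) → Type u := fun c =>
        {d : ConjClasses (centralizer ({rep c} : Set G)) //
          ∀ x ∈ d.carrier, ∀ r : ℕ, r.Prime → r ∣ orderOf x → r ∈ σ.erase p}
      let g₀ : (c : Cp) → ConjClasses (centralizer ({rep c} : Set G)) → ConjClasses G := fun c =>
        Quotient.lift (fun b : centralizer ({rep c} : Set G) => ConjClasses.mk (rep c * (b : G))) (by
          intro b b' hb
          obtain ⟨u, hu⟩ := isConj_iff.mp hb
          refine ConjClasses.mk_eq_mk_iff_isConj.mpr (isConj_iff.mpr ⟨(u : G), ?_⟩)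
          have hu' : (u : G) * b * (u : G)⁻¹ = b' := congrArg Subtype.val hu
          have hcomm := mem_centralizer_singleton_iff.mp u.2
          calc (u : G) * (rep c * b) * (u : G)⁻¹ = ((u : G) * rep c) * b * (u : G)⁻¹ := by group
            _ = rep c * ((u : G) * b * (u : G)⁻¹) := by rw [hcomm]; group
            _ = rep c * b' := by rw [hu'])
      have hsurj : ∀ C : {c : ConjClasses G // ∀ x ∈ c.carrier, ∀ r : ℕ, r.Prime → r ∣ orderOf x → r ∈ σ},
          ∃ (c : Cp) (d : F c), g₀ c d.1 = C.1 := by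
        rintro ⟨C, hC⟩
        obtain ⟨x, rfl⟩ := ConjClasses.mk_surjective C
        rw [mem_classCount_iff] at hC
        set n := orderOf x with hn
        have hn0 : n ≠ 0 := (orderOf_pos x).ne'
        set i := n.factorization p
        set m := n / p ^ i with hm
        have hnm : p ^ i * m = n := Nat.ordProj_mul_ordCompl_eq_self n p
        have hcop : Nat.Coprime (p ^ i) m := (Nat.coprime_ordCompl hpp hn0).pow_left i
        obtain ⟨u, v, huv⟩ : IsCoprime ((p ^ i : ℕ) : ℤ) (m : ℤ) := Nat.isCoprime_iff_coprime.mpr hcop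
        set a := x ^ (v * (m : ℤ)) with ha
        set b := x ^ (u * ((p ^ i : ℕ) : ℤ)) with hb
        have hab : a * b = x := by rw [ha, hb, ← zpow_add, add_comm, huv, zpow_one]
        have hxn : x ^ ((n : ℕ) : ℤ) = 1 := by rw [zpow_natCast, hn, pow_orderOf_eq_one]
        have hao : orderOf a ∣ p ^ i := by
          rw [orderOf_dvd_iff_pow_eq_one, ← zpow_natCast, ha, ← zpow_mul, mul_assoc,
            ← Nat.cast_mul, mul_comm m, hnm, mul_comm, zpow_mul, hxn, one_zpow]
        have hbo : orderOf b ∣ m := by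
          rw [orderOf_dvd_iff_pow_eq_one, ← zpow_natCast, hb, ← zpow_mul, mul_assoc,
            ← Nat.cast_mul, hnm, mul_comm, zpow_mul, hxn, one_zpow]
        have hap : ∀ r : ℕ, r.Prime → r ∣ orderOf a → r ∈ ({p} : Finset ℕ) := fun r hr hd =>
          Finset.mem_singleton.mpr ((Nat.prime_dvd_prime_iff_eq hr hpp).mp
            (hr.dvd_of_dvd_pow (hd.trans hao)))
        have hbp : ∀ r : ℕ, r.Prime → r ∣ orderOf b → r ∈ σ.erase p := fun r hr hd => by
          refine Finset.mem_erase.mpr ⟨?_, hC r hr ((hd.trans hbo).trans ⟨p ^ i, by rw [← hnm, mul_comm]⟩)⟩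
          rintro rfl
          exact Nat.not_dvd_ordCompl hpp hn0 (hd.trans hbo)
        let c : Cp := ⟨ConjClasses.mk a, (mem_classCount_iff _ a).mpr hap⟩
        obtain ⟨t, ht⟩ := isConj_iff.mp
          (ConjClasses.mk_eq_mk_iff_isConj.mp (hrep c).symm : IsConj a (rep c))
        have hbc : t * b * t⁻¹ ∈ centralizer ({rep c} : Set G) := by
          rw [mem_centralizer_singleton_iff, ← ht]
          have hcab : b * a = a * b := by rw [ha, hb, ← zpow_add, ← zpow_add, add_comm]
          calc t * b * t⁻¹ * (t * a * t⁻¹) = t * (b * a) * t⁻¹ := by group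
            _ = t * a * t⁻¹ * (t * b * t⁻¹) := by rw [hcab]; group
        refine ⟨c, ⟨ConjClasses.mk ⟨t * b * t⁻¹, hbc⟩, (mem_classCount_iff _ _).mpr ?_⟩, ?_⟩
        · have : orderOf (⟨t * b * t⁻¹, hbc⟩ : centralizer ({rep c} : Set G)) = orderOf b := by
            rw [← orderOf_coe]
            exact MulEquiv.orderOf_eq (MulAut.conj t) b
          rw [this]; exact hbp
        · show ConjClasses.mk (rep c * (t * b * t⁻¹)) = ConjClasses.mk x
          rw [← ht]
          refine ConjClasses.mk_eq_mk_iff_isConj.mpr (isConj_iff.mpr ⟨t⁻¹, ?_⟩)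
          calc t⁻¹ * (t * a * t⁻¹ * (t * b * t⁻¹)) * t⁻¹⁻¹ = a * b := by group
            _ = x := hab
      choose sc sd hsd using hsurj
      have h1 : classCount σ G ≤ Nat.card (Σ c : Cp, F c) := by
        refine Nat.card_le_card_of_injective (fun C => ⟨sc C, sd C⟩) fun A B e => ?_
        refine Subtype.ext ?_
        rw [← hsd A, ← hsd B]
        exact congrArg (fun q : Σ c : Cp, F c => g₀ q.1 q.2.1) e
      rw [Nat.card_sigma] at h1
      refine h1.trans ((Finset.sum_le_card_nsmul _ _
        (∏ r ∈ σ.erase p, r ^ (Nat.card G).factorization r) fun c _ => ?_).trans ?_)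
      · refine ((ih (σ.erase p) (Finset.erase_ssubset hp)
          (fun r hr => hσ r (Finset.mem_of_mem_erase hr)) _).1).trans ?_
        refine Finset.prod_le_prod' fun r hr => ?_
        exact Nat.pow_le_pow_right (hσ r (Finset.mem_of_mem_erase hr)).pos
          ((Nat.factorization_le_iff_dvd Nat.card_pos.ne' Nat.card_pos.ne').mpr
            (card_subgroup_dvd_card _) r)
      · rw [Finset.card_univ, smul_eq_mul, ← Nat.card_eq_fintype_card]
        exact le_rfl
    refine ⟨?_, key⟩
    rcases σ.eq_empty_or_nonempty with rfl | ⟨p, hp⟩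
    · simpa using classCount_empty (G := G)
    · haveI := Fact.mk (hσ p hp)
      obtain ⟨P⟩ : Nonempty (Sylow p G) := inferInstance
      refine (key p hp).trans ?_
      rw [← Finset.mul_prod_erase σ _ hp]
      refine Nat.mul_le_mul_right _ ?_
      rw [← P.card_eq_multiplicity]
      refine Nat.card_le_card_of_surjective
        (fun y : (P : Subgroup G) => (⟨ConjClasses.mk (y : G), (mem_classCount_iff _ _).mpr
          fun r hr hd => by
            obtain ⟨j, hj⟩ := IsPGroup.iff_orderOf.mp P.2 y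
            rw [orderOf_coe, hj] at hd
            simpa using (Nat.prime_dvd_prime_iff_eq hr (hσ p hp)).mp (hr.dvd_of_dvd_pow hd)⟩ :
          {c : ConjClasses G // ∀ x ∈ c.carrier, ∀ r : ℕ, r.Prime → r ∣ orderOf x → r ∈ ({p} : Finset ℕ)}))
        ?_
      rintro ⟨c, hc⟩
      obtain ⟨x, rfl⟩ := ConjClasses.mk_surjective c
      obtain ⟨y, hy, hxy⟩ := exists_conj_mem_sylow P ((mem_classCount_iff _ x).mp hc)
      exact ⟨⟨y, hy⟩, Subtype.ext (ConjClasses.mk_eq_mk_iff_isConj.mpr hxy.symm)⟩

end CfsgLib.Core
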