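import Mathlib
import Cfsg.Agent.Lib.CoreTransfer

/-!
A normal `p`-complement criterion for Sylow subgroups of nilpotency class at most two.
-/

set_option autoImplicit false

namespace CfsgLib.Core

open scoped Pointwise commutatorElement
open Subgroup

variable {G : Type*} [Group G] [Finite G] {p : ℕ} [hp : Fact p.Prime]

/-- If a Sylow subgroup `P` has class at most two and the `p'`-elements normalising a subgroup
normal in `P` centralise it, then the same holds for every `p`-subgroup. -/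
theorem centralizes_of_class_two (P : Sylow p G)
    (hcl : ∀ a ∈ (P : Subgroup G), ∀ b ∈ (P : Subgroup G), ∀ x ∈ (P : Subgroup G),
      Commute ⁅a, b⁆ x)
    (h : ∀ Q : Subgroup G, Q ≤ (P : Subgroup G) → Q ≠ ⊥ →
      (P : Subgroup G) ≤ normalizer (Q : Set G) →
      ∀ g ∈ normalizer (Q : Set G), (orderOf g).Coprime p → g ∈ centralizer (Q : Set G)) :
    ∀ (n : ℕ) (Q : Subgroup G), IsPGroup p Q → Nat.card G - Nat.card Q = n →
      ∀ g ∈ normalizer (Q : Set G), (orderOf g).Coprime p → g ∈ centralizer (Q : Set G) := by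
  intro n
  induction n using Nat.strong_induction_on with
  | _ n ih =>
  intro Q hQ hn g hg hgo
  by_cases hQ1 : Q = ⊥
  · rw [hQ1, mem_centralizer_iff]
    intro q hq
    rw [coe_bot, Set.mem_singleton_iff] at hq
    rw [hq, one_mul, mul_one]
  obtain ⟨S₀, hS₀⟩ := hQ.exists_le_sylow
  obtain ⟨c, hc⟩ := MulAction.exists_smul_eq G S₀ P
  have hmap : ∀ x, x ∈ (S₀ : Subgroup G) → c * x * c⁻¹ ∈ (P : Subgroup G) := fun x hx => by
    rw [← hc]
    exact ⟨x, hx, rfl⟩
  have hmap' : ∀ y, y ∈ (P : Subgroup G) → ∃ x ∈ (S₀ : Subgroup G), c * x * c⁻¹ = y := by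
    intro y hy
    rw [← hc] at hy
    obtain ⟨x, hx, rfl⟩ := hy
    exact ⟨x, hx, rfl⟩
  set Z : Subgroup G := (S₀ : Subgroup G) ⊓ centralizer ((S₀ : Subgroup G) : Set G) with hZ
  by_cases hZQ : Z ≤ Q
  · -- then `Q` is normal in `S₀`
    have hnorm : ∀ s ∈ (S₀ : Subgroup G), ∀ q ∈ Q, s * q * s⁻¹ ∈ Q := by
      intro s hs q hq
      have hmem : ⁅s, q⁆ ∈ Z := by
        refine mem_inf.2 ⟨?_, mem_centralizer_iff.2 fun x hx => ?_⟩
        · rw [commutatorElement_def]
          exact mul_mem (mul_mem (mul_mem hs (hS₀ hq)) (inv_mem hs)) (inv_mem (hS₀ hq))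
        · have h1 := hcl _ (hmap s hs) _ (hmap q (hS₀ hq)) _ (hmap x hx)
          have h2 : c * (x * ⁅s, q⁆) * c⁻¹ = c * (⁅s, q⁆ * x) * c⁻¹ := by
            have e : ⁅c * s * c⁻¹, c * q * c⁻¹⁆ = c * ⁅s, q⁆ * c⁻¹ := by
              simp only [commutatorElement_def]; group
            rw [e] at h1
            calc c * (x * ⁅s, q⁆) * c⁻¹ = (c * x * c⁻¹) * (c * ⁅s, q⁆ * c⁻¹) := by group
              _ = (c * ⁅s, q⁆ * c⁻¹) * (c * x * c⁻¹) := h1.eq.symm
              _ = c * (⁅s, q⁆ * x) * c⁻¹ := by group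
          exact mul_left_cancel (mul_right_cancel h2)
      have e : s * q * s⁻¹ = ⁅s, q⁆ * q := by rw [commutatorElement_def]; group
      rw [e]
      exact mul_mem (hZQ hmem) hq
    set Q' := Q.map (MulAut.conj c).toMonoidHom with hQ'
    have h1 : Q' ≤ (P : Subgroup G) := by
      rintro _ ⟨q, hq, rfl⟩
      exact hmap q (hS₀ hq)
    have h2 : Q' ≠ ⊥ := fun e =>
      hQ1 ((map_eq_bot_iff_of_injective _ (MulAut.conj c).injective).1 e)
    have h3 : (P : Subgroup G) ≤ normalizer (Q' : Set G) := by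
      intro y hy
      obtain ⟨s, hs, rfl⟩ := hmap' y hy
      refine Subgroup.mem_normalizer_fintype ?_
      rintro _ ⟨q, hq, rfl⟩
      refine ⟨s * q * s⁻¹, hnorm s hs q hq, ?_⟩
      show c * (s * q * s⁻¹) * c⁻¹ = c * s * c⁻¹ * (c * q * c⁻¹) * (c * s * c⁻¹)⁻¹
      group
    have h4 : c * g * c⁻¹ ∈ normalizer (Q' : Set G) := by
      rw [← map_equiv_normalizer_eq]
      exact ⟨g, hg, rfl⟩
    have h5 := h Q' h1 h2 h3 _ h4
      (by rwa [show c * g * c⁻¹ = MulAut.conj c g from rfl, MulEquiv.orderOf_eq])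
    rw [mem_centralizer_iff] at h5 ⊢
    intro q hq
    have h6 := h5 (c * q * c⁻¹) ⟨q, hq, rfl⟩
    have h7 : c * (q * g) * c⁻¹ = c * (g * q) * c⁻¹ := by
      calc c * (q * g) * c⁻¹ = (c * q * c⁻¹) * (c * g * c⁻¹) := by group
        _ = (c * g * c⁻¹) * (c * q * c⁻¹) := h6
        _ = c * (g * q) * c⁻¹ := by group
    exact mul_left_cancel (mul_right_cancel h7)
  · -- otherwise enlarge `Q` by a Sylow subgroup of its centraliser
    set C := centralizer (Q : Set G) with hC
    set N := normalizer (Q : Set G) with hN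
    have hCN : C ≤ N := fun x hx => by
      rw [hN, mem_normalizer_iff]
      intro q
      constructor
      · intro hq
        rwa [← mem_centralizer_iff.1 hx q hq, mul_inv_cancel_right]
      · intro hq
        have := mem_centralizer_iff.1 hx _ hq
        have e : q = x * q * x⁻¹ := by
          calc q = x⁻¹ * (x * q * x⁻¹ * x) := by group
            _ = x⁻¹ * (x * (x * q * x⁻¹)) := by rw [this]
            _ = x * q * x⁻¹ := by group
        exact e.symm ▸ hq
    have hZC : Z ≤ C := fun z hz => mem_centralizer_iff.2 fun q hq =>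
      mem_centralizer_iff.1 (mem_inf.1 hz).2 q (hS₀ hq)
    obtain ⟨W₀, hW₀⟩ := ((S₀.2.to_le (inf_le_left : Z ≤ _)).comap_of_injective
      C.subtype C.subtype_injective : IsPGroup p (Z.subgroupOf C)).exists_le_sylow
    set W := (W₀ : Subgroup C).map C.subtype with hW
    have hWC : W ≤ C := map_subtype_le _
    have hT : IsPGroup p ↥(Q ⊔ W) := IsPGroup.to_sup_of_normal_left' hQ (W₀.2.map _) (hWC.trans hCN)
    have hlt : Nat.card Q < Nat.card ↥(Q ⊔ W) := by
      refine lt_of_le_of_ne (card_le_of_le le_sup_left) fun e => hZQ fun z hz => ?_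
      have hTQ : Q = Q ⊔ W := eq_of_le_of_card_ge le_sup_left e.ge
      have hzW : z ∈ W := ⟨⟨z, hZC hz⟩, hW₀ hz, rfl⟩
      exact hTQ.symm ▸ mem_sup_right hzW
    have hTle : Nat.card ↥(Q ⊔ W) ≤ Nat.card G := card_le_card_group _
    haveI : (C.subgroupOf N).Normal := by
      refine (normal_subgroupOf_iff_le_normalizer hCN).2 fun n hn => ?_
      refine Subgroup.mem_normalizer_fintype fun x hx => ?_
      refine mem_centralizer_iff.2 fun q hq => ?_
      have hq' : n⁻¹ * q * n ∈ Q := by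
        have := (mem_normalizer_iff''.1 hn q).1 hq
        simpa using this
      have := mem_centralizer_iff.1 hx _ hq'
      calc q * (n * x * n⁻¹) = n * ((n⁻¹ * q * n) * x) * n⁻¹ := by group
        _ = n * (x * (n⁻¹ * q * n)) * n⁻¹ := by rw [this]
        _ = n * x * n⁻¹ * q := by group
    -- Frattini: `g = x h` with `x` in `C` and `h` normalising `W`
    obtain ⟨x, hx, k, hk, hkW⟩ : ∃ x ∈ C, ∃ k ∈ N, g = x * k ∧ k ∈ normalizer (W : Set G) := by
      have hWg : IsPGroup p ↥((W.map (MulAut.conj g).toMonoidHom).subgroupOf C) :=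
        ((W₀.2.map _).map _).comap_of_injective C.subtype C.subtype_injective
      have hle : W.map (MulAut.conj g).toMonoidHom ≤ C := by
        rintro _ ⟨w, hw, rfl⟩
        exact (inferInstance : (C.subgroupOf N).Normal).conj_mem ⟨w, hCN (hWC hw)⟩ (hWC hw) ⟨g, hg⟩
      have hcardW : Nat.card ↥((W.map (MulAut.conj g).toMonoidHom).subgroupOf C) =
          p ^ (Nat.card C).factorization p := by
        rw [Nat.card_congr (subgroupOfEquivOfLe hle).toEquiv,
          card_map_of_injective (MulAut.conj g).injective, hW, card_subtype, W₀.card_eq_multiplicity]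
      obtain ⟨x, hx⟩ := MulAction.exists_smul_eq C W₀ (Sylow.ofCard _ hcardW)
      have hx' : MulAut.conj (x : G) • W = W.map (MulAut.conj g).toMonoidHom := by
        have h1 := congrArg (fun S : Sylow p C => ((S : Subgroup C).map C.subtype)) hx
        simp only [Sylow.coe_subgroup_smul, Sylow.coe_ofCard] at h1
        rw [map_subgroupOf_eq_of_le hle] at h1
        rw [← h1, map_conj_smul]
        rfl
      refine ⟨x, x.2, (x : G)⁻¹ * g, mul_mem (inv_mem (hCN x.2)) hg, by group,
        conj_smul_eq_self_iff.1 ?_⟩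
      rw [← conj_smul_conj_smul, conj_smul_eq_map g W, ← hx', conj_smul_conj_smul, inv_mul_cancel,
        map_one, one_smul]
    obtain ⟨hgk, hkW⟩ := hkW
    have hkT : k ∈ normalizer ((Q ⊔ W : Subgroup G) : Set G) := by
      refine conj_smul_eq_self_iff.1 ?_
      rw [smul_sup, conj_smul_eq_self_iff.2 hk, conj_smul_eq_self_iff.2 hkW]
    obtain ⟨a, m, hm, he⟩ :=
      Nat.exists_eq_pow_mul_and_not_dvd (orderOf_pos k).ne' p hp.out.ne_one
    have hko : (orderOf (k ^ p ^ a)).Coprime p := by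
      rw [orderOf_pow' _ (pow_ne_zero _ hp.out.ne_zero), he, Nat.gcd_eq_right (Dvd.intro m rfl),
        Nat.mul_div_cancel_left _ (pow_pos hp.out.pos a)]
      exact (hp.out.coprime_iff_not_dvd.2 hm).symm
    have hkT' := ih _ (by omega) (Q ⊔ W) hT rfl _ (pow_mem hkT _) hko
    -- the automorphism of `Q` induced by `g` has order dividing `p ^ a`
    set φ := normalizerMonoidHom Q with hφ
    have hφker : ∀ y (hy : y ∈ N), y ∈ C → φ ⟨y, hy⟩ = 1 := fun y hy hyC => by
      rw [← MonoidHom.mem_ker, hφ, normalizerMonoidHom_ker, mem_subgroupOf]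
      exact hyC
    have hφg : φ ⟨g, hg⟩ = φ ⟨k, hk⟩ := by
      have e : (⟨g, hg⟩ : N) = ⟨x, hCN hx⟩ * ⟨k, hk⟩ := Subtype.ext hgk
      rw [e, map_mul, hφker x _ hx, one_mul]
    have h1 : orderOf (φ ⟨g, hg⟩) ∣ p ^ a := by
      refine orderOf_dvd_of_pow_eq_one ?_
      rw [hφg, ← map_pow]
      exact hφker _ (pow_mem hk _) (centralizer_le (le_sup_left : Q ≤ Q ⊔ W) hkT')
    have h2 : orderOf (φ ⟨g, hg⟩) ∣ orderOf g :=
      (orderOf_map_dvd φ _).trans (orderOf_mk g hg).dvd
    have h3 : φ ⟨g, hg⟩ = 1 :=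
      orderOf_eq_one_iff.1 (Nat.eq_one_of_dvd_coprimes (hgo.pow_right a) h2 h1)
    rw [← MonoidHom.mem_ker, hφ, normalizerMonoidHom_ker, mem_subgroupOf] at h3
    exact h3

/-- The normal `p`-complement criterion for a Sylow subgroup of class at most two. -/
theorem hasNormalPComplement_of_class_two (P : Sylow p G)
    (hcl : ∀ a ∈ (P : Subgroup G), ∀ b ∈ (P : Subgroup G), ∀ x ∈ (P : Subgroup G),
      Commute ⁅a, b⁆ x)
    (h : ∀ Q : Subgroup G, Q ≤ (P : Subgroup G) → Q ≠ ⊥ →
      (P : Subgroup G) ≤ normalizer (Q : Set G) →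
      ∀ g ∈ normalizer (Q : Set G), (orderOf g).Coprime p → g ∈ centralizer (Q : Set G)) :
    Cfsg.HasNormalPComplement p G :=
  hasNormalPComplement_of_local fun Q hQ g hg hgo =>
    centralizes_of_class_two P hcl h _ Q hQ rfl g hg hgo

end CfsgLib.Core
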