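import Cfsg.Agent.Lib.TwoFusionDihedral

/-!
# Classes of involutions with a dihedral Sylow `2`-subgroup
-/

set_option autoImplicit false

universe u

namespace CfsgLib.Core.DihClasses

open Subgroup DihedralGroup CfsgLib.TwoFusion CfsgLib.TwoFusion.Dihedral

variable {G : Type u} [Group G] [Finite G] {S : Sylow 2 G} {k : ℕ}
  (e : (S : Subgroup G) ≃* DihedralGroup (2 ^ (k + 1)))

theorem sr_parity (i : ZMod (2 ^ (k + 1))) :
    IsConj (emb e (sr i)) (emb e (sr 0)) ∨ IsConj (emb e (sr i)) (emb e (sr 1)) := by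
  haveI : NeZero (2 ^ (k + 1)) := ⟨by positivity⟩
  have key : ∀ l j : ZMod (2 ^ (k + 1)), i = j + l + l → IsConj (emb e (sr i)) (emb e (sr j)) := by
    intro l j h
    refine isConj_iff.2 ⟨emb e (r l), ?_⟩
    rw [← map_inv, ← map_mul, ← map_mul, r_conj_sr, h, add_sub_cancel_right, add_sub_cancel_right]
  rcases Nat.even_or_odd i.val with ⟨d, hd⟩ | ⟨d, hd⟩
  · refine Or.inl (key (d : ZMod (2 ^ (k + 1))) 0 ?_)
    rw [zero_add, ← Nat.cast_add, ← hd, ZMod.natCast_zmod_val]
  · refine Or.inr (key (d : ZMod (2 ^ (k + 1))) 1 ?_)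
    have he : ((2 * d + 1 : ℕ) : ZMod (2 ^ (k + 1))) = i := by rw [← hd, ZMod.natCast_zmod_val]
    rw [← he]; push_cast; ring

theorem classes_eq : {C : ConjClasses G | ∃ g : G, ConjClasses.mk g = C ∧ orderOf g = 2} =
    {ConjClasses.mk (z e), ConjClasses.mk (emb e (sr 0)), ConjClasses.mk (emb e (sr 1))} := by
  ext C
  constructor
  · rintro ⟨g, rfl, hg⟩
    obtain ⟨c, hc⟩ := exists_conj_mem_sylow S (k := 1) (hg.trans (pow_one 2).symm)
    have h1 : ConjClasses.mk g = ConjClasses.mk (c * g * c⁻¹) :=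
      ConjClasses.mk_eq_mk_iff_isConj.2 (isConj_iff.2 ⟨c, rfl⟩)
    rcases involution_sylow e hc (by rw [CfsgLib.Invol.orderOf_conj]; exact hg) with h | ⟨i, h⟩
    · exact Or.inl (by rw [h1, h])
    · rcases sr_parity e i with h2 | h2
      · exact Or.inr (Or.inl (by rw [h1, h]; exact ConjClasses.mk_eq_mk_iff_isConj.2 h2))
      · exact Or.inr (Or.inr (by rw [h1, h]; exact ConjClasses.mk_eq_mk_iff_isConj.2 h2))
  · rintro (rfl | rfl | rfl)
    · exact ⟨_, rfl, orderOf_z' e⟩
    · exact ⟨_, rfl, orderOf_emb_sr e 0⟩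
    · exact ⟨_, rfl, orderOf_emb_sr e 1⟩

theorem not_index_four (hk : 1 ≤ k) (N : Subgroup G) [N.Normal] (hN : N.index = 4) :
    ¬ IsConj (z e) (emb e (sr 0)) ∧ ¬ IsConj (z e) (emb e (sr 1)) ∧
      ¬ IsConj (emb e (sr 0)) (emb e (sr 1)) := by
  haveI : Fact (Nat.Prime 2) := ⟨Nat.prime_two⟩
  set q := QuotientGroup.mk' N with hq
  have hcard : Nat.card (G ⧸ N) = 2 ^ 2 := by rw [← Subgroup.index_eq_card, hN]; norm_num
  haveI hcomm : IsMulCommutative (G ⧸ N) :=
    ⟨⟨IsPGroup.commutative_of_card_eq_prime_sq (p := 2) hcard⟩⟩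
  have hsurj : Function.Surjective (q.comp (emb e)) := by
    have hqs := QuotientGroup.mk'_surjective N
    have htop : (S : Subgroup G).map q = ⊤ := by
          refine eq_top_of_card_eq _ ?_
          have h1 := (S.mapSurjective hqs).card_eq_multiplicity
          rw [show ((S.mapSurjective hqs : Sylow 2 (G ⧸ N)) : Subgroup (G ⧸ N)) = (S : Subgroup G).map q
            from rfl, hcard, Nat.Prime.factorization_pow Nat.prime_two, Finsupp.single_eq_same] at h1
          rw [h1, hcard]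
    intro w
    obtain ⟨s, hs, rfl⟩ := htop.ge (mem_top w)
    obtain ⟨d, rfl⟩ := emb_surj e hs
    exact ⟨d, rfl⟩
  set ψ := q.comp (emb e) with hψ
  have hψc : ∀ a b, ψ a * ψ b = ψ b * ψ a := fun a b => hcomm.is_comm.comm _ _
  have hsr2 : ∀ i, ψ (sr i) * ψ (sr i) = 1 := fun i => by rw [← map_mul, sr_mul_self, map_one]
  have hr2 : ∀ l, ψ (r (l + l)) = 1 := fun l => by
    have h1 : ψ (r l) = ψ (sr 0) * ψ (sr l) := by rw [← map_mul, sr_mul_sr, sub_zero]
    rw [← r_mul_r, map_mul, h1, hψc (sr 0) (sr l), mul_assoc, ← mul_assoc (ψ (sr 0)), hψc (sr 0) (sr l),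
      mul_assoc, hsr2, mul_one, hsr2]
  have hz : ψ (r (half k)) = 1 := by
    have : half k = ((2 ^ (k - 1) : ℕ) : ZMod (2 ^ (k + 1))) + ((2 ^ (k - 1) : ℕ) : ZMod (2 ^ (k + 1))) := by
      rw [← Nat.cast_add, show 2 ^ (k - 1) + 2 ^ (k - 1) = 2 ^ k by
        rw [← two_mul, ← pow_succ', Nat.sub_add_cancel hk]]
      rfl
    rw [this]; exact hr2 _
  have hsr : ∀ i, ψ (sr i) = ψ (sr 0) ∨ ψ (sr i) = ψ (sr 1) := fun i => by
    haveI : NeZero (2 ^ (k + 1)) := ⟨by positivity⟩
    have key : ∀ l j, i = j + l + l → ψ (sr i) = ψ (sr j) := fun l j h => by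
      rw [h, add_assoc, show sr (j + (l + l)) = sr j * r (l + l) by rw [sr_mul_r], map_mul, hr2, mul_one]
    rcases Nat.even_or_odd i.val with ⟨d, hd⟩ | ⟨d, hd⟩
    · refine Or.inl (key (d : ZMod (2 ^ (k + 1))) 0 ?_)
      rw [zero_add, ← Nat.cast_add, ← hd, ZMod.natCast_zmod_val]
    · refine Or.inr (key (d : ZMod (2 ^ (k + 1))) 1 ?_)
      have he : ((2 * d + 1 : ℕ) : ZMod (2 ^ (k + 1))) = i := by rw [← hd, ZMod.natCast_zmod_val]
      rw [← he]; push_cast; ring
  set a := ψ (sr 0)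
  set b := ψ (sr 1)
  classical
  have hrange : ∀ w : G ⧸ N, w ∈ ({1, a, b, a * b} : Finset (G ⧸ N)) := fun w => by
    obtain ⟨d, rfl⟩ := hsurj w
    rcases d with l | l
    · have h1 : ψ (r l) = a * ψ (sr l) := by rw [← map_mul, sr_mul_sr, sub_zero]
      show ψ (r l) ∈ _
      rw [h1]
      rcases hsr l with h | h <;> rw [h]
      · simp [a, hsr2]
      · simp
    · show ψ (sr l) ∈ _
      rcases hsr l with h | h <;> rw [h] <;> simp
  have hbig : 4 ≤ ({1, a, b, a * b} : Finset (G ⧸ N)).card := by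
    haveI := Fintype.ofFinite (G ⧸ N)
    have := Finset.card_le_card (s := (Finset.univ : Finset (G ⧸ N))) (t := {1, a, b, a * b})
      fun w _ => hrange w
    rw [Finset.card_univ, ← Nat.card_eq_fintype_card, hcard] at this
    exact this
  have hconj : ∀ x y : G, IsConj x y → q x = q y := fun x y h => by
    obtain ⟨c, rfl⟩ := isConj_iff.1 h
    rw [map_mul, map_mul, hcomm.is_comm.comm (q c) (q x), mul_assoc, ← map_mul, mul_inv_cancel,
      map_one, mul_one]
  have hzq : q (z e) = 1 := hz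
  refine ⟨fun h => ?_, fun h => ?_, fun h => ?_⟩
  · have h' : a = 1 := ((hconj _ _ h).symm.trans hzq)
    rw [h', one_mul] at hbig
    have : ({1, 1, b, b} : Finset (G ⧸ N)) ⊆ {1, b} := by intro w hw; simp at hw ⊢; tauto
    have := hbig.trans ((Finset.card_le_card this).trans Finset.card_le_two)
    omega
  · have h' : b = 1 := ((hconj _ _ h).symm.trans hzq)
    rw [h', mul_one] at hbig
    have : ({1, a, 1, a} : Finset (G ⧸ N)) ⊆ {1, a} := by intro w hw; simp at hw ⊢; tauto
    have := hbig.trans ((Finset.card_le_card this).trans Finset.card_le_two)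
    omega
  · have h' : a = b := hconj _ _ h
    rw [h', show b * b = 1 from hsr2 1] at hbig
    have : ({1, b, b, 1} : Finset (G ⧸ N)) ⊆ {1, b} := by intro w hw; simp at hw ⊢; tauto
    have := hbig.trans ((Finset.card_le_card this).trans Finset.card_le_two)
    omega

include e in
theorem main (hk : 1 ≤ k) :
    (Nat.card {C : ConjClasses G // ∃ g : G, ConjClasses.mk g = C ∧ orderOf g = 2} = 1 ∧
      ∀ N : Subgroup G, N.Normal → N.index ≠ 2) ∨
    (Nat.card {C : ConjClasses G // ∃ g : G, ConjClasses.mk g = C ∧ orderOf g = 2} = 2 ∧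
      (∃ N : Subgroup G, N.Normal ∧ N.index = 2) ∧ ∀ N : Subgroup G, N.Normal → N.index ≠ 4) ∨
    (Nat.card {C : ConjClasses G // ∃ g : G, ConjClasses.mk g = C ∧ orderOf g = 2} = 3 ∧
      Cfsg.HasNormalPComplement 2 G) := by
  classical
  have hcard : Nat.card {C : ConjClasses G // ∃ g : G, ConjClasses.mk g = C ∧ orderOf g = 2} =
      ({ConjClasses.mk (z e), ConjClasses.mk (emb e (sr 0)), ConjClasses.mk (emb e (sr 1))} :
        Finset (ConjClasses G)).card := by
    rw [← Nat.card_eq_finsetCard]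
    refine Nat.card_congr (Equiv.subtypeEquivRight fun C => ?_)
    have := Set.ext_iff.1 (classes_eq e) C
    simpa using this
  by_cases hA : IsConj (z e) (emb e (sr 0)) ∧ IsConj (z e) (emb e (sr 1))
  · refine Or.inl ⟨?_, fun N _ => no_index_two_of_conj e (fun a b ha hb =>
      all_conj_of e (fun i => ?_) ha hb) N⟩
    · rw [hcard, ConjClasses.mk_eq_mk_iff_isConj.2 hA.1.symm, ConjClasses.mk_eq_mk_iff_isConj.2 hA.2.symm]
      simp
    · rcases sr_parity e i with h | h
      · exact hA.1.trans h.symm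
      · exact hA.2.trans h.symm
  by_cases hB : ¬ IsConj (z e) (emb e (sr 0)) ∧ ¬ IsConj (z e) (emb e (sr 1)) ∧
      ¬ IsConj (emb e (sr 0)) (emb e (sr 1))
  · refine Or.inr (Or.inr ⟨?_, npc_of_klein e fun U hUS hU g hg hodd => ?_⟩)
    · rw [hcard, Finset.card_insert_of_notMem, Finset.card_pair]
      · simpa [ConjClasses.mk_eq_mk_iff_isConj] using hB.2.2
      · simp only [Finset.mem_insert, Finset.mem_singleton, ConjClasses.mk_eq_mk_iff_isConj, not_or]
        exact ⟨hB.1, hB.2.1⟩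
    · refine centralizes_of_fix_z e hUS hU hg hodd ?_
      obtain ⟨i, rfl⟩ := klein_eq e hUS hU
      have hno : ∀ j, ¬ IsConj (z e) (emb e (sr j)) := fun j h => by
        rcases sr_parity e j with h' | h'
        · exact hB.1 (h.trans h')
        · exact hB.2.1 (h.trans h')
      rcases four_all e i _ ((mem_normalizer_iff.1 hg (z e)).1 (mem_map_of_mem _ (mem_four.2 (by tauto))))
        with h1 | h1 | h1 | h1
      · exfalso
        have h2 := orderOf_z' e
        rw [conj_eq_one_iff.1 h1, orderOf_one] at h2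
        omega
      · exact h1
      · exact absurd (isConj_iff.2 ⟨g, h1⟩) (hno i)
      · refine absurd (isConj_iff.2 ⟨g, ?_⟩) (hno (i - half k))
        rw [h1, z, ← map_mul, r_mul_sr]
  refine Or.inr (Or.inl ⟨?_, ?_, fun N hN h4 => hB ?_⟩)
  · rw [hcard]
    by_cases h0 : IsConj (z e) (emb e (sr 0))
    · rw [← ConjClasses.mk_eq_mk_iff_isConj.2 h0]
      have h1 : ¬ IsConj (z e) (emb e (sr 1)) := fun h => hA ⟨h0, h⟩
      rw [Finset.insert_eq_of_mem (by simp), Finset.card_pair]
      simpa [ConjClasses.mk_eq_mk_iff_isConj] using h1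
    · by_cases h1 : IsConj (z e) (emb e (sr 1))
      · rw [← ConjClasses.mk_eq_mk_iff_isConj.2 h1, Finset.pair_comm,
          Finset.insert_eq_of_mem (by simp), Finset.card_pair]
        simpa [ConjClasses.mk_eq_mk_iff_isConj] using h0
      · have h2 : IsConj (emb e (sr 0)) (emb e (sr 1)) := by
          by_contra h
          exact hB ⟨h0, h1, h⟩
        rw [← ConjClasses.mk_eq_mk_iff_isConj.2 h2, Finset.pair_eq_singleton, Finset.card_pair]
        simpa [ConjClasses.mk_eq_mk_iff_isConj] using h0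
  · by_contra hno
    push Not at hno
    refine hA ⟨?_, ?_⟩ <;>
      exact conj_of_no_index_two e (fun H hH => hno H (normal_of_index_eq_two hH) hH) _
  · haveI := hN
    exact not_index_four e hk N h4

end CfsgLib.Core.DihClasses
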