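import Cfsg.Agent.Lib.CoreOrderType
import Cfsg.Agent.Lib.CoreCoprime2
import Cfsg.Agent.Lib.CorePGroup
import Cfsg.Agent.Lib.CoreFitting
import Cfsg.Agent.Lib.CoreLayer
import Cfsg.Agent.Lib.CharBurnside

/-!
# Soluble groups with almost cyclic Sylow subgroups and order types
-/

set_option autoImplicit false

open Subgroup

namespace CfsgLib.Core

universe u v

/-- Every primary subgroup has a cyclic subgroup of index at most two. -/
def SylSmall (G : Type u) [Group G] : Prop :=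
  ∀ q : ℕ, q.Prime → ∀ Q : Subgroup G, IsPGroup q Q → ∃ a : Q, (zpowers a).index ∣ 2

theorem SylSmall.quotient {G : Type u} [Group G] [Finite G] (h : SylSmall G) (N : Subgroup G) [N.Normal] :
    SylSmall (G ⧸ N) := by
  intro q hq Q hQ
  haveI := Fact.mk hq
  set f := QuotientGroup.mk' N with hf
  set T := Q.comap f
  let g : T →* Q := (f.comp T.subtype).codRestrict Q fun x => x.2
  have hg : Function.Surjective g := by
    rintro ⟨y, hy⟩
    obtain ⟨x, rfl⟩ := QuotientGroup.mk'_surjective N y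
    exact ⟨⟨x, hy⟩, rfl⟩
  obtain ⟨P⟩ : Nonempty (Sylow q T) := inferInstance
  have htop : (P.mapSurjective hg : Subgroup Q) = ⊤ :=
    ((P.mapSurjective hg).is_maximal' (Q := ⊤) (hQ.of_equiv Subgroup.topEquiv.symm) le_top).symm
  let e : ↥(P : Subgroup T) ≃* ↥((P : Subgroup T).map T.subtype) :=
    (P : Subgroup T).equivMapOfInjective T.subtype T.subtype_injective
  obtain ⟨a, ha⟩ := h q hq ((P : Subgroup T).map T.subtype) (P.isPGroup'.map T.subtype)
  let k : ↥(P : Subgroup T) →* ↥Q := g.comp (P : Subgroup T).subtype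
  let k' : ↥((P : Subgroup T).map T.subtype) →* ↥Q := k.comp e.symm.toMonoidHom
  have hk' : Function.Surjective k' := by
    intro y
    have hy : y ∈ (P : Subgroup T).map g := by
      rw [← Sylow.coe_mapSurjective hg, htop]; trivial
    obtain ⟨x, hx, rfl⟩ := hy
    exact ⟨e ⟨x, hx⟩, by simp [k', k]⟩
  refine ⟨k' a, dvd_trans ?_ ha⟩
  rw [← MonoidHom.map_zpowers]
  exact index_map_dvd _ hk'

variable {G : Type u} [Group G]

theorem SylSmall.isCyclic [Finite G] (h : SylSmall G) {q : ℕ} (hq : q.Prime) (hq2 : q ≠ 2)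
    {Q : Subgroup G} (hQ : IsPGroup q Q) : IsCyclic Q := by
  obtain ⟨a, ha⟩ := h q hq Q hQ
  haveI := Fact.mk hq
  obtain ⟨n, hn⟩ := hQ.exists_card_eq
  have h1 : (zpowers a).index ∣ q ^ n := hn ▸ Subgroup.index_dvd_card _
  have h2 : (zpowers a).index = 1 := Nat.eq_one_of_dvd_coprimes
    (Nat.Coprime.pow_left n ((Nat.coprime_primes hq Nat.prime_two).2 hq2)) h1 ha
  exact ⟨a, fun x => (by rw [Subgroup.index_eq_one.1 h2]; trivial : x ∈ zpowers a)⟩

theorem SylSmall.frattini_index_le [Finite G] (h : SylSmall G) {q : ℕ} (hq : q.Prime)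
    {Q : Subgroup G} (hQ : IsPGroup q Q) : (frattini Q).index ≤ max q 4 := by
  obtain ⟨a, ha⟩ := h q hq Q hQ
  haveI := Fact.mk hq
  have h1 : zpowers (a ^ q) ≤ frattini Q :=
    zpowers_le.2 (pgroup_pow_mem_frattini hQ a)
  have h2 := Nat.le_of_dvd (Nat.pos_of_ne_zero index_ne_zero_of_finite) (index_dvd_of_le h1)
  refine h2.trans ?_
  have h3 : orderOf a ∣ q * orderOf (a ^ q) :=
    orderOf_dvd_of_pow_eq_one (by rw [pow_mul, pow_orderOf_eq_one])
  have h4 := (zpowers a).index_mul_card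
  have h5 := (zpowers (a ^ q)).index_mul_card
  rw [Nat.card_zpowers] at h4 h5
  have h6 : (zpowers (a ^ q)).index ∣ (zpowers a).index * q := by
    refine Nat.dvd_of_mul_dvd_mul_right (orderOf_pos (a ^ q)) ?_
    rw [h5, ← h4, mul_assoc]
    exact Nat.mul_dvd_mul_left _ h3
  rcases eq_or_ne q 2 with rfl | hq2
  · exact (Nat.le_of_dvd (by norm_num) (h6.trans (Nat.mul_dvd_mul_right ha 2))).trans (le_max_right _ _)
  · obtain ⟨n, hn⟩ := hQ.exists_card_eq
    have hd : (zpowers a).index ∣ q ^ n := hn ▸ Subgroup.index_dvd_card _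
    have h7 : (zpowers a).index = 1 := Nat.eq_one_of_dvd_coprimes
      (Nat.Coprime.pow_left n ((Nat.coprime_primes hq Nat.prime_two).2 hq2)) hd ha
    rw [h7, one_mul] at h6
    exact (Nat.le_of_dvd hq.pos h6).trans (le_max_left _ _)

/-- The action on the Frattini quotient. -/
noncomputable def permModFrattini (Q : Type u) [Group Q] : MulAut Q →* Equiv.Perm (Q ⧸ frattini Q) where
  toFun φ := (QuotientGroup.congr (frattini Q) (frattini Q) φ
    (Subgroup.characteristic_iff_map_eq.1 inferInstance φ)).toEquiv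
  map_one' := by
    ext x
    induction x using QuotientGroup.induction_on
    rfl
  map_mul' φ ψ := by
    ext x
    induction x using QuotientGroup.induction_on
    rfl

theorem SylSmall.le_centralizer [Finite G] (h : SylSmall G) {q r : ℕ} (hq : q.Prime) (hr : r.Prime)
    (hr5 : 5 ≤ r) (hqr : q < r) {R Q : Subgroup G} (hR : IsPGroup r R) (hQ : IsPGroup q Q)
    (hRQ : R ≤ normalizer (Q : Set G)) : R ≤ centralizer (Q : Set G) := by
  classical
  haveI := Fact.mk hr
  haveI := Fact.mk hq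
  have hn : Nat.card (↥Q ⧸ frattini ↥Q) < r := by
    have : (frattini ↥Q).index ≤ max q 4 := h.frattini_index_le hq hQ
    rw [Subgroup.index] at this
    omega
  refine le_centralizer_of_trivial_mod_frattini hRQ ?_ fun a ha k hk => ?_
  · obtain ⟨i, hi⟩ := hR.exists_card_eq
    obtain ⟨j, hj⟩ := (hQ.to_subgroup (frattini ↥Q)).exists_card_eq
    rw [hi, hj]
    exact Nat.Coprime.pow i j ((Nat.coprime_primes hr hq).2 (ne_of_gt hqr))
  · set φ : Equiv.Perm (↥Q ⧸ frattini ↥Q) :=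
      permModFrattini ↥Q (Q.normalizerMonoidHom ⟨a, hRQ ha⟩) with hφ
    obtain ⟨i, hi⟩ := hR ⟨a, ha⟩
    have hai : a ^ r ^ i = 1 := congrArg Subtype.val hi
    have h1 : orderOf φ ∣ r ^ i := orderOf_dvd_of_pow_eq_one (by
      rw [hφ, ← map_pow, ← map_pow,
        show (⟨a, hRQ ha⟩ : normalizer (Q : Set G)) ^ r ^ i = 1 from Subtype.ext hai, map_one, map_one])
    have h2 : orderOf φ ∣ (Nat.card (↥Q ⧸ frattini ↥Q)).factorial :=
      Nat.card_perm (α := ↥Q ⧸ frattini ↥Q) ▸ orderOf_dvd_natCard φ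
    have h3 : φ = 1 := orderOf_eq_one_iff.1 (Nat.eq_one_of_dvd_coprimes
      (Nat.Coprime.pow_left i (hr.coprime_iff_not_dvd.2 fun hd => by
        have := hr.dvd_factorial.1 hd
        omega)) h1 h2)
    have h4 := congrArg (fun e : Equiv.Perm (↥Q ⧸ frattini ↥Q) => e ((⟨k, hk⟩ : ↥Q) : ↥Q ⧸ frattini ↥Q)) h3
    have h5 : ((Q.normalizerMonoidHom ⟨a, hRQ ha⟩ ⟨k, hk⟩ : ↥Q) : ↥Q ⧸ frattini ↥Q)
        = ((⟨k, hk⟩ : ↥Q) : ↥Q ⧸ frattini ↥Q) := h4
    rw [← QuotientGroup.mk'_apply, ← QuotientGroup.mk'_apply, QuotientGroup.mk'_eq_mk'] at h5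
    obtain ⟨z, hz, hzk⟩ := h5
    have hn' : (frattini ↥Q).Normal := inferInstance
    refine ⟨Q.normalizerMonoidHom ⟨a, hRQ ha⟩ ⟨k, hk⟩ * ⟨k, hk⟩⁻¹, ?_, rfl⟩
    have hrw : Q.normalizerMonoidHom ⟨a, hRQ ha⟩ ⟨k, hk⟩ * (⟨k, hk⟩ : ↥Q)⁻¹
        = Q.normalizerMonoidHom ⟨a, hRQ ha⟩ ⟨k, hk⟩ * z⁻¹ * (Q.normalizerMonoidHom ⟨a, hRQ ha⟩ ⟨k, hk⟩)⁻¹ := by
      rw [show (⟨k, hk⟩ : ↥Q)⁻¹ = z⁻¹ * (Q.normalizerMonoidHom ⟨a, hRQ ha⟩ ⟨k, hk⟩)⁻¹ from by
        rw [← mul_inv_rev, hzk], mul_assoc]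
    rw [hrw]
    exact hn'.conj_mem _ (inv_mem hz) _

/-- The largest prime, if at least five, has a normal Sylow subgroup. -/
theorem SylSmall.sylow_normal [Finite G] [Group.IsSolvable G] (h : SylSmall G) {r : ℕ} [Fact r.Prime]
    (hr5 : 5 ≤ r) (hmax : ∀ q : ℕ, q.Prime → q ∣ Nat.card G → q ≤ r) (R : Sylow r G) :
    (R : Subgroup G).Normal := by
  classical
  have hr : r.Prime := Fact.out
  have hcen : (R : Subgroup G) ≤ centralizer (Cfsg.fittingSubgroup G : Set G) := by
    rw [Subgroup.le_centralizer_iff, fittingSubgroup_eq_iSup_pCore]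
    refine iSup_le fun q => ?_
    rw [← Subgroup.le_centralizer_iff]
    haveI := Fact.mk q.2
    haveI := normal_pCore (G := G) (q : ℕ)
    rcases eq_or_ne (q : ℕ) r with hqr | hqr
    · have hc := h.isCyclic hr (by omega) R.isPGroup'
      have hle : Cfsg.pCore (q : ℕ) G ≤ (R : Subgroup G) := by
        rw [hqr]; exact pCore_le_sylow R
      intro x hx
      rw [mem_centralizer_iff]
      intro y hy
      haveI := hc
      exact congrArg Subtype.val (mul_comm' (⟨y, hle hy⟩ : ↥(R : Subgroup G)) ⟨x, hx⟩)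
    · by_cases hb : Cfsg.pCore (q : ℕ) G = ⊥
      · intro x _
        rw [hb, mem_centralizer_iff]
        intro y hy
        rw [Subgroup.mem_bot.1 hy, one_mul, mul_one]
      · have hd : (q : ℕ) ∣ Nat.card G := by
          obtain ⟨i, hi⟩ := (isPGroup_pCore (G := G) (q : ℕ)).exists_card_eq
          rcases i with _ | i
          · exact absurd (Subgroup.eq_bot_of_card_eq _ (by rw [hi, pow_zero])) hb
          · exact (dvd_pow_self _ i.succ_ne_zero).trans (hi ▸ card_subgroup_dvd_card _)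
        exact h.le_centralizer q.2 hr hr5 (lt_of_le_of_ne (hmax _ q.2 hd) hqr) R.isPGroup'
          (isPGroup_pCore _) (by rw [Subgroup.normalizer_eq_top]; exact le_top)
  have hF : (R : Subgroup G) ≤ Cfsg.fittingSubgroup G := hcen.trans centralizer_fitting_le
  haveI hFn : Group.IsNilpotent (Cfsg.fittingSubgroup G) := isNilpotent_fittingSubgroup
  haveI hFN : (Cfsg.fittingSubgroup G).Normal := normal_fittingSubgroup
  let RF : Sylow r (Cfsg.fittingSubgroup G) := R.subtype hF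
  haveI : (RF : Subgroup (Cfsg.fittingSubgroup G)).Normal :=
    (isNilpotent_iff_sylow_normal.1 hFn) r inferInstance RF
  haveI hch := RF.characteristic_of_normal inferInstance
  have hnm := map_subtype_normal_of_characteristic hFN (K := (RF : Subgroup _))
  have heq : (RF : Subgroup (Cfsg.fittingSubgroup G)).map (Cfsg.fittingSubgroup G).subtype = (R : Subgroup G) := by
    show ((R : Subgroup G).subgroupOf _).map _ = _
    rw [Subgroup.map_subgroupOf_eq_of_le hF]
  exact heq ▸ hnm hch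

/-- Normal Hall subgroups for the primes above a bound. -/
theorem SylSmall.exists_upper_hall {t : ℕ} (ht : 5 ≤ t) :
    ∀ (n : ℕ) (G : Type u) [Group G] [Finite G] [Group.IsSolvable G], Nat.card G = n → SylSmall G →
      ∃ N : Subgroup G, N.Normal ∧ (∀ p : ℕ, p.Prime → p ∣ Nat.card N → t ≤ p) ∧
        ∀ p : ℕ, p.Prime → p ∣ N.index → p < t := by
  intro n
  induction n using Nat.strong_induction_on with
  | _ n ih =>
  intro G _ _ _ hn h
  classical
  subst hn
  by_cases hex : ∃ p : ℕ, p.Prime ∧ p ∣ Nat.card G ∧ t ≤ p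
  swap
  · push Not at hex
    exact ⟨⊥, inferInstance, fun p hp hd => absurd hd (by simp [hp.ne_one]),
      fun p hp hd => hex p hp (by simpa using hd)⟩
  have hne : (Nat.card G).primeFactors.Nonempty := by
    obtain ⟨p, hp, hpd, -⟩ := hex
    exact ⟨p, Nat.mem_primeFactors.2 ⟨hp, hpd, Nat.card_pos.ne'⟩⟩
  set r := (Nat.card G).primeFactors.max' hne with hr'
  obtain ⟨hr, hrd, -⟩ := Nat.mem_primeFactors.1 ((Nat.card G).primeFactors.max'_mem hne)
  rw [← hr'] at hr hrd
  have hmax : ∀ q : ℕ, q.Prime → q ∣ Nat.card G → q ≤ r := fun q hq hqd =>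
    Finset.le_max' _ _ (Nat.mem_primeFactors.2 ⟨hq, hqd, Nat.card_pos.ne'⟩)
  have hrt : t ≤ r := by
    obtain ⟨p, hp, hpd, hpt⟩ := hex
    exact hpt.trans (hmax p hp hpd)
  haveI := Fact.mk hr
  obtain ⟨R⟩ : Nonempty (Sylow r G) := inferInstance
  haveI hRn : (R : Subgroup G).Normal := h.sylow_normal (ht.trans hrt) hmax R
  have hR : (R : Subgroup G) ≠ ⊥ := by
    intro e
    have h1 := R.dvd_card_of_dvd_card hrd
    rw [e] at h1
    simp at h1
    exact hr.ne_one h1
  obtain ⟨N, hNn, hN1, hN2⟩ := ih _ (card_quotient_lt hR) (G ⧸ (R : Subgroup G)) rfl (h.quotient _)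
  set f := QuotientGroup.mk' (R : Subgroup G)
  have hsurj := QuotientGroup.mk'_surjective (R : Subgroup G)
  refine ⟨N.comap f, hNn.comap f, fun p hp hd => ?_, fun p hp hd => ?_⟩
  · have hle : (R : Subgroup G) ≤ N.comap f := fun x hx => by
      show f x ∈ N
      rw [show f x = 1 from (QuotientGroup.eq_one_iff x).2 hx]
      exact one_mem _
    rw [← Subgroup.map_comap_eq_self_of_surjective hsurj N] at hN1
    rw [← card_mul_relIndex hle] at hd
    rcases hp.dvd_mul.1 hd with h1 | h1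
    · rw [Sylow.card_eq_multiplicity] at h1
      exact hrt.trans (((Nat.prime_dvd_prime_iff_eq hp hr).1 (hp.dvd_of_dvd_pow h1)).ge)
    · refine hN1 p hp ?_
      rw [← Subgroup.relIndex_ker, QuotientGroup.ker_mk']
      exact h1
  · rw [index_comap_of_surjective N hsurj] at hd
    exact hN2 p hp hd

end CfsgLib.Core
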