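import Mathlib
import Cfsg.Agent.Lib.CoreMetacyclicSub

/-!
Centralizers of elements in metacyclic `p`-groups, `p` odd.
-/

set_option maxHeartbeats 400000
set_option linter.unusedSectionVars false

namespace CfsgLib.Core.Metacyclic

namespace MC

variable {G : Type*} [Group G] [Finite G] {p : ℕ} (M : MC G p)

theorem centralizer_singleton (g : G) : Subgroup.centralizer ({g} : Set G) =
    M.pre (M.perp (AddSubgroup.zmultiples (M.w g))) := by
  ext x
  rw [Subgroup.mem_centralizer_singleton_iff, mem_pre, mem_perp]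
  constructor
  · rintro h _ ⟨k, rfl⟩
    have h1 : M.det (M.w x) (M.w g) = 0 := (M.commute_iff x g).mp h
    show M.detHom (M.w x) (k • M.w g) = 0
    rw [map_zsmul]
    show k • M.det (M.w x) (M.w g) = 0
    rw [h1, smul_zero]
  · intro h
    exact (M.commute_iff x g).mpr (h _ (AddSubgroup.mem_zmultiples _))

theorem index_centralizer (g : G) :
    (Subgroup.centralizer ({g} : Set G)).index = addOrderOf (M.w g) := by
  haveI := M.finiteV
  have h := (Subgroup.centralizer ({g} : Set G)).card_mul_index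
  have h1 := M.card_perp (AddSubgroup.zmultiples (M.w g))
  rw [Nat.card_zmultiples] at h1
  have h2 : Nat.card ↥(Subgroup.centralizer ({g} : Set G)) =
      Nat.card ↥(M.perp (AddSubgroup.zmultiples (M.w g))) * Nat.card ↥(Subgroup.center G) := by
    rw [M.centralizer_singleton, M.card_pre]
  rw [M.card_G, ← h1, h2] at h
  refine mul_left_cancel₀ (mul_pos (Nat.card_pos (α := ↥(M.perp (AddSubgroup.zmultiples (M.w g)))))
    (Nat.card_pos (α := ↥(Subgroup.center G)))).ne' (h.trans ?_)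
  ring

theorem addOrderOf_dvd (x : M.V) : addOrderOf x ∣ p ^ M.n := by
  rw [addOrderOf_dvd_iff_nsmul_eq_zero]
  ext
  · rw [Prod.smul_fst, nsmul_eq_mul, ZMod.natCast_self, zero_mul]; rfl
  · rw [Prod.smul_snd, nsmul_eq_mul, ZMod.natCast_self, zero_mul]; rfl

theorem addOrderOf_eq_pow (x : M.V) : ∃ i ≤ M.n, addOrderOf x = p ^ i :=
  (Nat.dvd_prime_pow M.hp).mp (M.addOrderOf_dvd x)

theorem addOrderOf_le_iff (x : M.V) (e : ℕ) : addOrderOf x ≤ p ^ e ↔ p ^ e • x = 0 := by
  obtain ⟨i, -, hi⟩ := M.addOrderOf_eq_pow x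
  rw [← addOrderOf_dvd_iff_nsmul_eq_zero, hi, Nat.pow_le_pow_iff_right M.hp.one_lt,
    Nat.pow_dvd_pow_iff_le_right M.hp.one_lt]

/-- The vectors killed by `p^e`. -/
def tor (e : ℕ) : AddSubgroup M.V := (nsmulAddMonoidHom (α := M.V) (p ^ e)).ker

theorem mem_tor {e : ℕ} {x : M.V} : x ∈ M.tor e ↔ p ^ e • x = 0 := Iff.rfl

theorem card_tor {e : ℕ} (he : e ≤ M.n) : Nat.card ↥(M.tor e) = p ^ (2 * e) := by
  haveI := M.neZero
  set P := AddSubgroup.zmultiples ((p ^ (M.n - e) : ℕ) : ZMod (p ^ M.n))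
  have hP : Nat.card ↥P = p ^ e := by
    rw [Nat.card_zmultiples, ZMod.addOrderOf_coe _ (pow_ne_zero _ M.hp.ne_zero),
      Nat.gcd_eq_right (pow_dvd_pow p (Nat.sub_le _ _))]
    exact Nat.div_eq_of_eq_mul_left (pow_pos M.hp.pos _) (by rw [← pow_add]; congr 1; omega)
  have hmem : ∀ z : ZMod (p ^ M.n), z ∈ P ↔ p ^ e • z = 0 := by
    intro z
    rw [nsmul_eq_mul]
    constructor
    · rintro ⟨k, rfl⟩
      show ((p ^ e : ℕ) : ZMod (p ^ M.n)) * (k • ((p ^ (M.n - e) : ℕ) : ZMod (p ^ M.n))) = 0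
      rw [mul_smul_comm, ← Nat.cast_mul, ← pow_add, Nat.add_sub_cancel' he, ZMod.natCast_self,
        smul_zero]
    · intro h
      rw [← ZMod.natCast_zmod_val z, ← Nat.cast_mul, ZMod.natCast_eq_zero_iff,
        ] at h
      have h' : p ^ e * p ^ (M.n - e) ∣ p ^ e * z.val := by
        rwa [← pow_add, Nat.add_sub_cancel' he]
      replace h := (Nat.mul_dvd_mul_iff_left (pow_pos M.hp.pos e)).mp h'
      obtain ⟨t, ht⟩ := h
      refine ⟨(t : ℤ), ?_⟩
      show (t : ℤ) • ((p ^ (M.n - e) : ℕ) : ZMod (p ^ M.n)) = z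
      rw [natCast_zsmul, nsmul_eq_mul, ← Nat.cast_mul, mul_comm, ← ht, ZMod.natCast_zmod_val]
  have heq : M.tor e = P.prod P := by
    ext x
    rw [mem_tor, AddSubgroup.mem_prod, hmem, hmem, Prod.ext_iff]
    rfl
  rw [heq, Nat.card_congr (AddSubgroup.prodEquiv P P).toEquiv, Nat.card_prod, hP, two_mul, pow_add]

end MC

end CfsgLib.Core.Metacyclic
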