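import Cfsg.Agent.Lib.ZStarTwoGroup
import Cfsg.Agent.S0016
import Cfsg.Agent.Lib.FgsRestrictedPCyclic
import Cfsg.Prelude.Def_CaseTheorems
import Mathlib.GroupTheory.SpecificGroups.Quaternion

/-!
`p`-groups with a self-centralizing cyclic normal subgroup and no normal subgroup `C_p × C_p`.
-/

set_option autoImplicit false

namespace CfsgLib.NormalCyclic

variable {G : Type*} [Group G] [Finite G] {p : ℕ} [hp : Fact p.Prime]

/-- A witness for a noncyclic normal elementary abelian subgroup of order `p ^ 2`. -/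
def HasPair (G : Type*) [Group G] (p : ℕ) : Prop :=
  ∃ z e : G, z ^ p = 1 ∧ z ≠ 1 ∧ z ∈ Subgroup.center G ∧ e ^ p = 1 ∧ e ∉ Subgroup.zpowers z ∧
    ∀ g : G, e⁻¹ * (g * e * g⁻¹) ∈ Subgroup.zpowers z

omit hp in
theorem quaternion_iso {a v : G} {n : ℕ} [NeZero n] (ha : orderOf a = 2 * n) (hv : v * v = a ^ n)
    (hinv : v * a * v⁻¹ = a⁻¹) (hcard : Nat.card G = 4 * n)
    (hgen : ∀ g : G, ∃ i : ℕ, g = a ^ i ∨ g = v * a ^ i) : Nonempty (G ≃* QuaternionGroup n) := by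
  classical
  let f : ZMod (2 * n) → G := fun i => a ^ i.val
  have hg : ∀ i j, f (i + j) = f i * f j := fun i j => by
    show a ^ (i + j).val = a ^ i.val * a ^ j.val
    rw [← pow_add, ZMod.val_add, ← pow_mod_orderOf a (i.val + j.val), ha]
  have hg0 : f 0 = 1 := by simp [f]
  have hgn : ∀ i, f (-i) = (f i)⁻¹ := fun i => by
    rw [eq_inv_iff_mul_eq_one, ← hg, neg_add_cancel, hg0]
  have hfn : ∀ k : ℕ, f (k : ZMod (2 * n)) = a ^ k := fun k => by
    show a ^ (k : ZMod (2 * n)).val = a ^ k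
    rw [ZMod.val_natCast, ← ha, pow_mod_orderOf]
  have hgv : ∀ i, f i * v = v * (f i)⁻¹ := by
    intro i
    have h1 : v * (f i)⁻¹ * v⁻¹ = f i := by
      show v * (a ^ i.val)⁻¹ * v⁻¹ = a ^ i.val
      rw [← inv_pow, ← conj_pow, ← inv_inv (v * a⁻¹ * v⁻¹)]
      rw [show (v * a⁻¹ * v⁻¹)⁻¹ = v * a * v⁻¹ from by group, hinv, inv_inv]
    calc f i * v = v * (f i)⁻¹ * v⁻¹ * v := by rw [h1]
      _ = v * (f i)⁻¹ := by group
  let φ : QuaternionGroup n →* G := MonoidHom.mk'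
    (fun x => match x with
      | .a i => f i
      | .xa i => v * f i) (by
    rintro (i | i) (j | j)
    · exact hg i j
    · rw [QuaternionGroup.a_mul_xa]
      show v * f (j - i) = f i * (v * f j)
      rw [sub_eq_neg_add, hg, hgn, ← mul_assoc, ← mul_assoc, hgv]
    · rw [QuaternionGroup.xa_mul_a]
      show v * f (i + j) = v * f i * f j
      rw [hg, mul_assoc]
    · rw [QuaternionGroup.xa_mul_xa]
      show f ((n : ZMod (2 * n)) + j - i) = v * f i * (v * f j)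
      rw [show (n : ZMod (2 * n)) + j - i = (n : ZMod (2 * n)) + (-i + j) from by ring, hg, hg, hgn, hfn, ← hv]
      calc v * v * ((f i)⁻¹ * f j) = v * (v * (f i)⁻¹) * f j := by group
        _ = v * (f i * v) * f j := by rw [hgv]
        _ = v * f i * (v * f j) := by group)
  have hsurj : Function.Surjective φ := by
    intro g
    obtain ⟨i, rfl | rfl⟩ := hgen g
    · exact ⟨.a (i : ZMod (2 * n)), hfn i⟩
    · exact ⟨.xa (i : ZMod (2 * n)), by show v * f _ = _; rw [hfn]⟩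
  have hbij : Function.Bijective φ := by
    rw [Nat.bijective_iff_surjective_and_card]
    exact ⟨hsurj, by rw [hcard, Nat.card_eq_fintype_card, QuaternionGroup.card]⟩
  exact ⟨(MulEquiv.ofBijective φ hbij).symm⟩

omit [Finite G] hp in
theorem sum_factor (hp2 : p ≠ 2) (hp : p.Prime) (t : ℕ) : p ∣ t * (∑ m ∈ Finset.range p, m) := by
  have h := Finset.sum_range_id_mul_two p
  have : p ∣ (∑ m ∈ Finset.range p, m) * 2 := ⟨p - 1, h⟩
  exact Dvd.dvd.mul_left ((hp.dvd_mul.1 this).resolve_right fun h2 => hp2 ((Nat.prime_dvd_prime_iff_eq hp Nat.prime_two).1 h2)) t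

omit [Finite G] hp in
theorem conj_mul_pow {u w : G} {k : ℕ} (hw : w * u * w⁻¹ = u ^ k) (j : ℕ) :
    ∀ m : ℕ, (u ^ j * w) ^ m = u ^ (j * ∑ l ∈ Finset.range m, k ^ l) * w ^ m := by
  have hwm : ∀ (m i : ℕ), w ^ m * u ^ i = u ^ (k ^ m * i) * w ^ m := by
    intro m
    induction m with
    | zero => intro i; simp
    | succ m ih =>
      intro i
      have h1 : w * u ^ i = u ^ (k * i) * w := by
        rw [pow_mul, ← hw, conj_pow]; group
      rw [pow_succ, mul_assoc, h1, ← mul_assoc, ih, ← mul_assoc (k ^ m), mul_assoc (u ^ _), ← pow_succ]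
  intro m
  induction m with
  | zero => simp
  | succ m ih =>
    rw [pow_succ, ih, mul_assoc, ← mul_assoc (w ^ m), hwm, ← mul_assoc, ← mul_assoc, ← pow_add, mul_assoc, ← pow_succ,
      Finset.sum_range_succ, mul_add, mul_comm (k ^ m) j]

/-- The subgroup of order `p` of a normal cyclic subgroup of a `p`-group is central. -/
theorem center_of_normal_prime {u z : G} {n : ℕ} [hG : Fact (IsPGroup p G)] (hu : orderOf u = p ^ n)
    (hUn : (Subgroup.zpowers u).Normal) (hp' : p.Prime) (hn : 1 ≤ n) (hz : z = u ^ p ^ (n - 1)) :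
    z ∈ Subgroup.center G := by
  subst hz
  rw [Subgroup.mem_center_iff]
  intro g
  have h := hUn.conj_mem u (Subgroup.mem_zpowers u) g
  rw [← mem_powers_iff_mem_zpowers, Submonoid.mem_powers_iff] at h
  obtain ⟨c, hc⟩ := h
  set z := u ^ p ^ (n - 1)
  have hz1 : orderOf z = p := by
    rw [orderOf_pow' _ (pow_ne_zero _ hp'.ne_zero), hu, Nat.gcd_eq_right (pow_dvd_pow p (by omega)),
      Nat.pow_div (by omega) hp'.pos, show n - (n - 1) = 1 by omega, pow_one]
  have hconj : g * z * g⁻¹ = z ^ c := by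
    rw [← conj_pow, ← hc, ← pow_mul, mul_comm, pow_mul]
  have hit : ∀ m : ℕ, g ^ m * z * (g ^ m)⁻¹ = z ^ c ^ m := by
    intro m
    induction m with
    | zero => simp
    | succ m ih =>
      calc g ^ (m + 1) * z * (g ^ (m + 1))⁻¹ = g * (g ^ m * z * (g ^ m)⁻¹) * g⁻¹ := by rw [pow_succ']; group
        _ = z ^ c ^ (m + 1) := by rw [ih, ← conj_pow, hconj, ← pow_mul, ← pow_succ']
  obtain ⟨N, hN⟩ := hG.out g
  have h1 := hit (p ^ N)
  rw [hN, one_mul, inv_one, mul_one] at h1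
  nth_rewrite 1 [← pow_one z] at h1
  rw [pow_eq_pow_iff_modEq, hz1, ← ZMod.natCast_eq_natCast_iff] at h1
  haveI := Fact.mk hp'
  rw [Nat.cast_pow, ZMod.pow_card_pow, ZMod.natCast_eq_natCast_iff, ← hz1, ← pow_eq_pow_iff_modEq, pow_one, ← hconj] at h1
  exact (mul_inv_eq_iff_eq_mul.1 h1.symm)

/-- An element inducing `u ↦ u ^ (1 + p ^ (n - 1))` gives a normal `C_p × C_p`. -/
theorem hasPair_of_one_add [Fact (IsPGroup p G)] {u w : G} {n : ℕ} (hn : 2 ≤ n) (hn3 : p = 2 → 3 ≤ n) (hu : orderOf u = p ^ n)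
    [hUn : (Subgroup.zpowers u).Normal] (hC : Subgroup.centralizer (Subgroup.zpowers u : Set G) ≤ Subgroup.zpowers u)
    (hab : ∀ a b : G, a⁻¹ * (b * a * b⁻¹) ∈ Subgroup.zpowers u)
    (hwu : w * u * w⁻¹ = u ^ (1 + p ^ (n - 1))) : HasPair G p := by
  classical
  have hp' : p.Prime := hp.out
  obtain ⟨n', rfl⟩ : ∃ n', n = n' + 2 := ⟨n - 2, by omega⟩
  simp only [show n' + 2 - 1 = n' + 1 from rfl] at hwu
  set k := 1 + p ^ (n' + 1) with hk
  set U := Subgroup.zpowers u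
  have hmemU : ∀ x ∈ U, ∃ j : ℕ, x = u ^ j := by
    intro x hx
    rw [← mem_powers_iff_mem_zpowers, Submonoid.mem_powers_iff] at hx
    obtain ⟨j, hj⟩ := hx
    exact ⟨j, hj.symm⟩
  -- w ^ p centralizes u
  have hkm : ∀ m : ℕ, ∃ c, k ^ m = 1 + m * p ^ (n' + 1) + c * p ^ (n' + 2) := by
    intro m
    induction m with
    | zero => exact ⟨0, by simp⟩
    | succ m ih =>
      obtain ⟨c, hc⟩ := ih
      refine ⟨c + c * p ^ (n' + 1) + m * p ^ n', ?_⟩
      rw [pow_succ, hc, hk]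
      ring
  have hwm : ∀ m : ℕ, w ^ m * u * (w ^ m)⁻¹ = u ^ (k ^ m) := by
    intro m
    induction m with
    | zero => simp
    | succ m ih =>
      rw [pow_succ', mul_inv_rev, show w * w ^ m * u * ((w ^ m)⁻¹ * w⁻¹) = w * (w ^ m * u * (w ^ m)⁻¹) * w⁻¹ from by group,
        ih, ← conj_pow, hwu, ← pow_mul, ← pow_succ']
  have hun : ∀ i, u ^ (i * p ^ (n' + 2)) = 1 := by
    intro i; rw [mul_comm, pow_mul, ← hu, pow_orderOf_eq_one, one_pow]
  have hwpC : w ^ p ∈ U := by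
    apply hC
    rw [Subgroup.mem_centralizer_iff]
    intro x hx
    obtain ⟨j, rfl⟩ := hmemU x hx
    obtain ⟨c, hc⟩ := hkm p
    have h1 : w ^ p * u * (w ^ p)⁻¹ = u := by
      rw [hwm, hc, show 1 + p * p ^ (n' + 1) + c * p ^ (n' + 2) = 1 + (1 + c) * p ^ (n' + 2) from by ring,
        pow_add, pow_one, hun, mul_one]
    have h2 : Commute (w ^ p) u := mul_inv_eq_iff_eq_mul.1 h1
    exact ((h2.pow_right j).eq).symm
  obtain ⟨j, hj⟩ := hmemU _ hwpC
  have hcomm : w * u ^ j * w⁻¹ = u ^ j := by rw [← hj]; group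
  have hpj : p ∣ j := by
    rw [← conj_pow, hwu, ← pow_mul] at hcomm
    have h1 : p ^ (n' + 2) ∣ j * p ^ (n' + 1) := by
      rw [← hu]
      refine orderOf_dvd_of_pow_eq_one ?_
      have : u ^ (j + j * p ^ (n' + 1)) = u ^ j := by
        rw [← hcomm, hk]; congr 1; ring
      rwa [pow_add, mul_eq_left] at this
    rw [pow_succ' p (n' + 1)] at h1
    exact Nat.dvd_of_mul_dvd_mul_right (pow_pos hp'.pos _) h1
  -- the sum of powers of k is p times a unit
  obtain ⟨σ, hσ, hσp⟩ : ∃ σ, (∑ l ∈ Finset.range p, k ^ l) = p * σ ∧ ¬ p ∣ σ := by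
    choose c hc using hkm
    have hsum : (∑ l ∈ Finset.range p, k ^ l) =
        p + (∑ l ∈ Finset.range p, l) * p ^ (n' + 1) + (∑ l ∈ Finset.range p, c l) * p ^ (n' + 2) := by
      rw [Finset.sum_congr rfl (fun l _ => hc l), Finset.sum_add_distrib, Finset.sum_add_distrib,
        Finset.sum_mul, Finset.sum_mul]
      simp
    refine ⟨1 + (∑ l ∈ Finset.range p, l) * p ^ n' + (∑ l ∈ Finset.range p, c l) * p ^ (n' + 1), ?_, ?_⟩
    · rw [hsum]; ring
    · have h1 : p ∣ (∑ l ∈ Finset.range p, l) * p ^ n' := by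
        by_cases h2 : p = 2
        · exact Dvd.dvd.mul_left (dvd_pow_self p (by have := hn3 h2; omega)) _
        · rw [mul_comm]; exact sum_factor h2 hp' _
      have h2 : p ∣ (∑ l ∈ Finset.range p, c l) * p ^ (n' + 1) := Dvd.dvd.mul_left (dvd_pow_self p (by omega)) _
      intro h
      have h3 : p ∣ 1 := (Nat.dvd_add_left h1).1 ((Nat.dvd_add_left h2).1 h)
      exact hp'.ne_one (Nat.dvd_one.1 h3)
  -- adjust w
  obtain ⟨j', rfl⟩ := hpj
  have hσcop : Nat.Coprime σ (p ^ (n' + 2)) := ((hp'.coprime_iff_not_dvd.2 hσp).symm).pow_right _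
  obtain ⟨i0, hi0⟩ : ∃ i0 : ℕ, (u ^ σ) ^ i0 = u := by
    obtain ⟨m, hm⟩ := exists_pow_eq_self_of_coprime (x := u) (n := σ) (by rw [hu]; exact hσcop)
    exact ⟨m, hm⟩
  set i := i0 * (j' * (p ^ (n' + 2) - 1))
  set e := u ^ i * w with he
  have hpw : ∀ (a : ℕ), (u ^ a * w) ^ p = u ^ (a * (p * σ) + p * j') := by
    intro a
    rw [conj_mul_pow hwu, hσ, hj, ← pow_add]
  have hep : e ^ p = 1 := by
    rw [he, hpw, show i * (p * σ) + p * j' = σ * i0 * (p * (j' * (p ^ (n' + 2) - 1))) + p * j' from by ring,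
      pow_add, pow_mul, pow_mul u σ i0, hi0, ← pow_add,
      show p * (j' * (p ^ (n' + 2) - 1)) + p * j' = p * j' * (p ^ (n' + 2) - 1 + 1) from by ring,
      Nat.sub_add_cancel (Nat.one_le_pow _ _ hp'.pos)]
    exact hun _
  set z := u ^ p ^ (n' + 1) with hz
  have hz1 : z ≠ 1 := by
    intro h
    have := orderOf_dvd_of_pow_eq_one h
    rw [hu, Nat.pow_dvd_pow_iff_le_right hp'.one_lt] at this
    omega
  have hzp : z ^ p = 1 := by rw [hz, ← pow_mul, ← pow_succ, ← hu, pow_orderOf_eq_one]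
  have hzu : ∀ a : ℕ, u ^ (p * a) = 1 → u ^ a ∈ Subgroup.zpowers z := by
    intro a ha
    have h1 := orderOf_dvd_of_pow_eq_one ha
    rw [hu, pow_succ' p (n' + 1)] at h1
    obtain ⟨c, rfl⟩ := Nat.dvd_of_mul_dvd_mul_left hp'.pos h1
    rw [pow_mul, ← hz]
    exact Subgroup.pow_mem _ (Subgroup.mem_zpowers z) c
  have hzc : z ∈ Subgroup.center G := center_of_normal_prime hu hUn hp.out (by omega) (by rw [show n' + 2 - 1 = n' + 1 from rfl])
  refine ⟨z, e, hzp, hz1, hzc, hep, ?_, ?_⟩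
  · intro h
    obtain ⟨a, ha⟩ := h
    have hwU : w ∈ U := by
      have : w = (u ^ i)⁻¹ * e := by rw [he]; group
      rw [this, ← show z ^ a = e from ha]
      exact U.mul_mem (U.inv_mem (U.pow_mem (Subgroup.mem_zpowers u) _)) (U.zpow_mem (U.pow_mem (Subgroup.mem_zpowers u) _) a)
    obtain ⟨b, hb⟩ := hmemU w hwU
    have h1 : w * u * w⁻¹ = u := by rw [hb]; group
    rw [hwu, hk, pow_add, pow_one, mul_eq_left] at h1
    exact hz1 h1
  · intro g
    obtain ⟨a, ha⟩ := hmemU _ (hab e g)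
    rw [ha]
    refine hzu a ?_
    have hge : g * e * g⁻¹ = e * u ^ a := by rw [← ha]; group
    have h2 : (e * u ^ a) ^ p = 1 := by rw [← hge, conj_pow, hep, mul_one, mul_inv_cancel]
    have h3 : e * u ^ a = u ^ (i + k * a) * w := by
      have h4 : w * u ^ a * w⁻¹ = u ^ (k * a) := by rw [← conj_pow, hwu, ← pow_mul]
      rw [he, pow_add, mul_assoc, mul_assoc (u ^ i), ← h4]; group
    rw [h3, hpw] at h2
    have h5 : u ^ (i * (p * σ) + p * j') = 1 := by rw [← hpw, ← he, hep]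
    rw [show (i + k * a) * (p * σ) + p * j' = (i * (p * σ) + p * j') + k * a * (p * σ) from by ring,
      pow_add, h5, one_mul] at h2
    have hkσ : Nat.Coprime (k * σ) (p ^ (n' + 2)) := by
      refine Nat.Coprime.mul_left ?_ hσcop
      refine ((hp'.coprime_iff_not_dvd.2 fun h => ?_).symm).pow_right _
      exact hp'.ne_one (Nat.dvd_one.1 ((Nat.dvd_add_left (dvd_pow_self p (by omega))).1 h))
    refine orderOf_dvd_iff_pow_eq_one.1 ?_
    rw [hu]
    have h6 := orderOf_dvd_of_pow_eq_one h2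
    rw [hu, show k * a * (p * σ) = (p * a) * (k * σ) from by ring] at h6
    exact hkσ.symm.dvd_of_dvd_mul_right h6

/-- A nontrivial normal subgroup of a `p`-group meets the centre. -/
theorem exists_central (hG : IsPGroup p G) (N : Subgroup G) [hN : N.Normal] (hne : N ≠ ⊥) :
    ∃ z ∈ N, z ≠ 1 ∧ z ∈ Subgroup.center G := by
  letI : MulAction G N := MulAction.compHom N (MulAut.conjNormal : G →* MulAut N)
  have hdvd : p ∣ Nat.card N := by
    obtain ⟨k, hk⟩ := IsPGroup.iff_card.1 (hG.to_subgroup N)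
    rcases k with _ | k
    · exact absurd (Subgroup.eq_bot_of_card_eq _ (by rw [hk, pow_zero])) hne
    · rw [hk]; exact dvd_pow_self p (Nat.succ_ne_zero k)
  have h1 : (1 : N) ∈ MulAction.fixedPoints G N := fun g => map_one (MulAut.conjNormal g)
  obtain ⟨b, hb, hb1⟩ := hG.exists_fixed_point_of_prime_dvd_card_of_fixed_point N hdvd h1
  refine ⟨b, b.2, fun e => hb1 (Subtype.ext e.symm), Subgroup.mem_center_iff.2 fun g => ?_⟩
  have h := congrArg Subtype.val (hb g)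
  exact mul_inv_eq_iff_eq_mul.1 h

/-- A noncyclic abelian normal subgroup gives a pair. -/
theorem hasPair_of_abelian (hG : IsPGroup p G) (A : Subgroup G) [hA : A.Normal]
    (hc : ∀ x ∈ A, ∀ y ∈ A, x * y = y * x) (hnc : ¬ IsCyclic A) : HasPair G p := by
  classical
  have hp' : p.Prime := hp.out
  let E : Subgroup G :=
    { carrier := {x | x ∈ A ∧ x ^ p = 1}
      one_mem' := ⟨A.one_mem, one_pow p⟩
      mul_mem' := fun {x y} hx hy => ⟨A.mul_mem hx.1 hy.1, by
        rw [(show Commute x y from hc x hx.1 y hy.1).mul_pow, hx.2, hy.2, one_mul]⟩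
      inv_mem' := fun {x} hx => ⟨A.inv_mem hx.1, by rw [inv_pow, hx.2, inv_one]⟩ }
  haveI hE : E.Normal := ⟨fun x hx g => ⟨hA.conj_mem x hx.1 g, by rw [conj_pow, hx.2, mul_one, mul_inv_cancel]⟩⟩
  have hEne : E ≠ ⊥ := by
    intro h
    apply hnc
    obtain ⟨k, hk⟩ := IsPGroup.iff_card.1 (hG.to_subgroup A)
    rcases k with _ | k
    · haveI := (Nat.card_eq_one_iff_unique.1 (hk.trans (pow_zero p))).1
      exact isCyclic_of_subsingleton
    · obtain ⟨x, hx⟩ := exists_prime_orderOf_dvd_card' (G := A) p (hk ▸ dvd_pow_self p (Nat.succ_ne_zero k))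
      have hm : (x : G) ∈ E := ⟨x.2, by
        have := pow_orderOf_eq_one x
        rw [hx] at this
        exact congrArg Subtype.val this⟩
      rw [h, Subgroup.mem_bot] at hm
      have : x = 1 := Subtype.ext hm
      rw [this, orderOf_one] at hx
      exact absurd hx.symm hp'.ne_one
  obtain ⟨z, hzE, hz1, hzc⟩ := exists_central hG E hEne
  set Z := Subgroup.zpowers z
  haveI hZ : Z.Normal := ⟨fun x hx g => by
    have hxc : x ∈ Subgroup.center G := Subgroup.zpowers_le.2 hzc hx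
    rw [Subgroup.mem_center_iff.1 hxc g, mul_inv_cancel_right]; exact hx⟩
  have hnle : ¬ E ≤ Z := by
    intro hle
    apply hnc
    refine (Cfsg.Agent.S0016.result p (hG.to_subgroup A) ?_).resolve_right ?_
    · intro H K hH hK
      have hu : ∀ L : Subgroup A, Nat.card L = p → L.map A.subtype = Z := by
        intro L hL
        refine Subgroup.eq_of_le_of_card_ge ?_ ?_
        · rintro _ ⟨x, hx, rfl⟩
          apply hle
          refine ⟨x.2, ?_⟩
          have := orderOf_dvd_iff_pow_eq_one.1 (hL ▸ Subgroup.orderOf_dvd_natCard L hx)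
          exact congrArg Subtype.val this
        · rw [Subgroup.card_map_of_injective A.subtype_injective, hL, Nat.card_zpowers, orderOf_eq_prime hzE.2 hz1]
      exact Subgroup.map_injective A.subtype_injective ((hu H hH).trans (hu K hK).symm)
    · rintro ⟨-, n, ⟨e⟩⟩
      apply hnc
      rcases n with _ | n
      · haveI : IsCyclic (QuaternionGroup (2 ^ 0)) := QuaternionGroup.quaternionGroup_one_isCyclic
        exact isCyclic_of_surjective e.symm.toMonoidHom e.symm.surjective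
      · exfalso
        have h := Subtype.ext_iff.2 (hc _ (e.symm (QuaternionGroup.a 1)).2 _ (e.symm (QuaternionGroup.xa 0)).2)
          |> fun (h : e.symm (QuaternionGroup.a 1) * e.symm (QuaternionGroup.xa 0) = e.symm (QuaternionGroup.xa 0) * e.symm (QuaternionGroup.a 1)) => h
        rw [← map_mul, ← map_mul] at h
        have h2 := e.symm.injective h
        simp only [QuaternionGroup.a_mul_xa, QuaternionGroup.xa_mul_a, QuaternionGroup.xa.injEq] at h2
        have h3 : ((2 : ℕ) : ZMod (2 * 2 ^ (n + 1))) = 0 := by push_cast; linear_combination -h2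
        rw [ZMod.natCast_eq_zero_iff] at h3
        have h4 := Nat.le_of_dvd two_pos h3
        have : 1 ≤ 2 ^ n := Nat.one_le_two_pow
        rw [pow_succ] at h4; omega
  have hne : E.map (QuotientGroup.mk' Z) ≠ ⊥ := by
    rw [Ne, Subgroup.map_eq_bot_iff, QuotientGroup.ker_mk']; exact hnle
  haveI := hE.map (QuotientGroup.mk' Z) (QuotientGroup.mk'_surjective Z)
  obtain ⟨_, ⟨e, heE, rfl⟩, he1, hec⟩ := exists_central (hG.to_quotient Z) _ hne
  refine ⟨z, e, hzE.2, hz1, hzc, heE.2, fun h => he1 ((QuotientGroup.eq_one_iff e).2 h), fun g => ?_⟩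
  rw [← QuotientGroup.eq]
  have h := Subgroup.mem_center_iff.1 hec (g : G ⧸ Z)
  show (e : G ⧸ Z) = ((g * e * g⁻¹ : G) : G ⧸ Z)
  rw [QuotientGroup.mk_mul, QuotientGroup.mk_mul, QuotientGroup.mk_inv]
  exact eq_mul_inv_iff_mul_eq.2 h.symm

omit [Finite G] hp in
theorem odd_root {p c n : ℕ} (hp : p.Prime) (hp2 : p ≠ 2) (hn : 2 ≤ n) (h : c ^ p ≡ 1 [MOD p ^ n])
    (hc : ¬ c ≡ 1 [MOD p ^ n]) : ∃ t, t = t ∧ c ^ t ≡ 1 + p ^ (n - 1) [MOD p ^ n] := by
  haveI := Fact.mk hp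
  have h2p := hp.two_le
  have hc1 : c ≡ 1 [MOD p] := by
    have h1 := h.of_dvd (dvd_pow_self p (by omega))
    rw [← ZMod.natCast_eq_natCast_iff] at h1 ⊢
    rwa [Nat.cast_pow, ZMod.pow_card] at h1
  have hcpos : 1 ≤ c := by
    rcases Nat.eq_zero_or_pos c with rfl | h0
    · exfalso
      have := Nat.ModEq.symm hc1
      rw [Nat.modEq_zero_iff_dvd, Nat.dvd_one] at this
      omega
    · exact h0
  have hex : ∃ r, ¬ p ^ (r + 1) ∣ c - 1 := ⟨n - 1, fun hd => hc (Nat.ModEq.symm ((Nat.modEq_iff_dvd' hcpos).2 (by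
    rwa [Nat.sub_add_cancel (by omega : 1 ≤ n)] at hd)))⟩
  set r := Nat.find hex
  have hr0 : r ≠ 0 := by
    intro e
    have := Nat.find_spec hex
    rw [show Nat.find hex = r from rfl, e, zero_add, pow_one] at this
    exact this ((Nat.modEq_iff_dvd' hcpos).1 hc1.symm)
  have hrn : r ≤ n - 1 := Nat.find_le (fun hd => hc (Nat.ModEq.symm ((Nat.modEq_iff_dvd' hcpos).2 (by
    rwa [Nat.sub_add_cancel (by omega : 1 ≤ n)] at hd))))
  obtain ⟨r', hr'⟩ : ∃ r', r = r' + 1 := Nat.exists_eq_succ_of_ne_zero hr0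
  have hdiv : p ^ r ∣ c - 1 := by
    have := Nat.find_min hex (show r' < r by omega)
    rw [not_not, ← hr'] at this
    exact this
  obtain ⟨a, ha⟩ := hdiv
  have hpa : ¬ p ∣ a := by
    rintro ⟨b, rfl⟩
    exact Nat.find_spec hex ⟨b, ha.trans (by rw [pow_succ, mul_assoc])⟩
  have hca : c = 1 + p ^ r * a := by omega
  have hexp : ∀ m : ℕ, ∃ R, c ^ m = 1 + m * (p ^ r * a) + m.choose 2 * (p ^ r * a) ^ 2 + R * (p ^ r * a) ^ 3 := by
    intro m
    induction m with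
    | zero => exact ⟨0, by simp⟩
    | succ m ih =>
      obtain ⟨R, hR⟩ := ih
      refine ⟨R + m.choose 2 + R * (p ^ r * a), ?_⟩
      rw [pow_succ, hR, hca, Nat.choose_succ_succ' m 1, Nat.choose_one_right]
      ring
  have hrn' : r = n - 1 := by
    by_contra hne
    obtain ⟨d, hd⟩ : ∃ d, n = r + 2 + d := ⟨n - (r + 2), by omega⟩
    obtain ⟨R, hR⟩ := hexp p
    obtain ⟨b, hb⟩ : p ∣ p.choose 2 := hp.dvd_choose_self two_ne_zero (by omega)
    have h1 := h.of_dvd (show p ^ (r + 2) ∣ p ^ n from pow_dvd_pow p (by omega))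
    have h2 : c ^ p = 1 + p ^ (r + 1) * a + p ^ (r + 2) * (b * p ^ r' * a ^ 2 + R * p ^ (2 * r') * a ^ 3) := by
      rw [hR, hb, hr']; ring
    have h3 : p ^ (r + 2) ∣ p ^ (r + 1) * a := by
      have h4 : p ^ (r + 2) ∣ c ^ p - 1 := (Nat.modEq_iff_dvd' (Nat.one_le_pow _ _ hcpos)).1 h1.symm
      rw [h2, add_assoc, Nat.add_sub_cancel_left] at h4
      exact (Nat.dvd_add_left (Dvd.intro _ rfl)).1 h4
    rw [pow_succ] at h3
    exact hpa (Nat.dvd_of_mul_dvd_mul_left (pow_pos hp.pos _) h3)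
  -- invert a modulo p
  obtain ⟨t, ht⟩ : ∃ t : ℕ, t * a ≡ 1 [MOD p] := by
    refine ⟨((a : ZMod p)⁻¹).val, ?_⟩
    rw [← ZMod.natCast_eq_natCast_iff]
    push_cast
    rw [ZMod.natCast_val, ZMod.cast_id, inv_mul_cancel₀]
    rwa [Ne, ZMod.natCast_eq_zero_iff]
  refine ⟨t, rfl, ?_⟩
  obtain ⟨R, hR⟩ := hexp t
  obtain ⟨d, hd⟩ : ∃ d, 2 * r = n + d := ⟨2 * r - n, by omega⟩
  have h1 : c ^ t ≡ 1 + p ^ r * (t * a) [MOD p ^ n] := by
    have e : c ^ t = 1 + p ^ r * (t * a) + p ^ n * (p ^ d * (t.choose 2 * a ^ 2 + R * p ^ r * a ^ 3)) := by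
      rw [hR, show p ^ n * (p ^ d * (t.choose 2 * a ^ 2 + R * p ^ r * a ^ 3))
        = p ^ (2 * r) * (t.choose 2 * a ^ 2 + R * p ^ r * a ^ 3) from by rw [hd, pow_add]; ring]
      ring
    rw [e]
    exact Nat.ModEq.trans (Nat.ModEq.add_left _ ((Nat.modEq_zero_iff_dvd).2 (Dvd.intro _ rfl))) (by rw [add_zero])
  refine h1.trans ?_
  have h2 := Nat.ModEq.mul_left' (p ^ r) ht
  rw [mul_one, ← pow_succ, hrn', Nat.sub_add_cancel (by omega : 1 ≤ n)] at h2
  rw [hrn']
  exact Nat.ModEq.add_left 1 h2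

omit [Finite G] hp in
theorem sqrt_one {c n : ℕ} (hn : 2 ≤ n) (h : c ^ 2 ≡ 1 [MOD 2 ^ n]) :
    c ≡ 1 [MOD 2 ^ n] ∨ c ≡ 2 ^ n - 1 [MOD 2 ^ n] ∨
    (3 ≤ n ∧ c ≡ 1 + 2 ^ (n - 1) [MOD 2 ^ n]) ∨ (3 ≤ n ∧ c ≡ 2 ^ (n - 1) - 1 [MOD 2 ^ n]) := by
  obtain ⟨m, rfl⟩ : ∃ m, n = m + 2 := ⟨n - 2, by omega⟩
  obtain ⟨d, rfl⟩ : Odd c := by
    by_contra he
    obtain ⟨d, rfl⟩ := Nat.not_odd_iff_even.1 he
    have h2 := h.of_dvd (dvd_pow_self 2 (show m + 2 ≠ 0 by omega))
    rw [Nat.ModEq, Nat.pow_mod, show (d + d) % 2 = 0 by omega] at h2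
    norm_num at h2
  have h1 : 2 ^ m ∣ d * (d + 1) := by
    have h3 := (Nat.modEq_iff_dvd' (Nat.one_le_pow _ _ (by omega))).1 h.symm
    rw [show (2 * d + 1) ^ 2 = 1 + d * (d + 1) * 4 from by ring, Nat.add_sub_cancel_left,
      show 2 ^ (m + 2) = 2 ^ m * 4 from by rw [pow_add]; norm_num] at h3
    exact Nat.dvd_of_mul_dvd_mul_right (by norm_num) h3
  have hh : 2 ^ (m + 2 - 1) = 2 * 2 ^ m := by rw [show m + 2 - 1 = m + 1 from rfl, pow_succ']
  have hM : 2 ^ (m + 2) = 4 * 2 ^ m := by rw [pow_add]; ring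
  rw [hh, hM]
  have hm1 : 1 ≤ 2 ^ m := Nat.one_le_two_pow
  have hm3 : 3 ≤ m + 2 ∨ (2 : ℕ) ^ m = 1 := by
    rcases m with _ | m
    · right; rfl
    · left; omega
  rcases Nat.even_or_odd d with hd | hd
  · have hdd : 2 ^ m ∣ d := (Nat.Coprime.pow_left m (Nat.coprime_two_left.2 hd.add_one)).dvd_of_dvd_mul_right h1
    obtain ⟨e, rfl⟩ := hdd
    rcases Nat.even_or_odd e with ⟨f, rfl⟩ | ⟨f, rfl⟩
    · left
      exact (Nat.modEq_iff_dvd' (by omega)).2 ⟨f, by rw [Nat.add_sub_cancel]; ring⟩ |>.symm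
    · rcases hm3 with h3 | h3
      · right; right; left
        refine ⟨h3, Nat.ModEq.symm ?_⟩
        refine (Nat.modEq_iff_dvd' (by nlinarith)).2 ⟨f, Nat.sub_eq_of_eq_add (by ring)⟩
      · right; left
        rw [h3]
        show (2 * (1 * (2 * f + 1)) + 1) % (4 * 1) = (4 * 1 - 1) % (4 * 1)
        omega
  · have hdd : 2 ^ m ∣ d + 1 := (Nat.Coprime.pow_left m (Nat.coprime_two_left.2 hd)).dvd_of_dvd_mul_left h1
    obtain ⟨e, he⟩ := hdd
    rcases Nat.even_or_odd e with ⟨f, rfl⟩ | ⟨f, rfl⟩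
    · right; left
      rcases f with _ | f
      · simp at he
      have : 2 ^ m * (f + 1 + (f + 1)) = 2 ^ m * f + 2 ^ m * f + (2 ^ m + 2 ^ m) := by ring
      have : 4 * 2 ^ m * f = 2 ^ m * f + 2 ^ m * f + (2 ^ m * f + 2 ^ m * f) := by ring
      refine Nat.ModEq.symm ((Nat.modEq_iff_dvd' (by omega)).2 ⟨f, Nat.sub_eq_of_eq_add ?_⟩)
      omega
    · rcases hm3 with h3 | h3
      · right; right; right
        refine ⟨h3, Nat.ModEq.symm ((Nat.modEq_iff_dvd' ?_).2 ⟨f, Nat.sub_eq_of_eq_add ?_⟩)⟩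
        · have : 2 ^ m * (2 * f + 1) = 2 * (2 ^ m * f) + 2 ^ m := by ring
          omega
        · have : 2 ^ m * (2 * f + 1) = 2 * (2 ^ m * f) + 2 ^ m := by ring
          have : 4 * 2 ^ m * f = 4 * (2 ^ m * f) := by ring
          omega
      · left
        rw [h3] at he ⊢
        show (2 * d + 1) % (4 * 1) = 1 % (4 * 1)
        omega

/-- The three shapes over a cyclic subgroup of index two. -/
theorem shape {u g : G} {n c : ℕ} (hn : orderOf u = 2 ^ n) (hn2 : 2 ≤ n) (hgU : g ∉ Subgroup.zpowers u)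
    (hgen : ∀ x : G, ∃ i : ℕ, x = u ^ i ∨ x = g * u ^ i) (hg2 : g * g ∈ Subgroup.zpowers u)
    (hc : g * u * g⁻¹ = u ^ c)
    (hopt : c ≡ 2 ^ n - 1 [MOD 2 ^ n] ∨ (3 ≤ n ∧ c ≡ 2 ^ (n - 1) - 1 [MOD 2 ^ n])) :
    Nat.card G = 2 ^ (n + 1) ∧ ((∃ n : ℕ, Nonempty (G ≃* QuaternionGroup n)) ∨
      (∃ n : ℕ, (8 ≤ n ∨ HasPair G 2) ∧ Nonempty (G ≃* DihedralGroup n)) ∨ Cfsg.IsQuasiDihedral G) := by
  classical
  set U := Subgroup.zpowers u
  have hidx : U.index = 2 := by
    rw [Subgroup.index_eq_two_iff]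
    refine ⟨g, fun b => ?_⟩
    obtain ⟨i, rfl | rfl⟩ := hgen b
    · refine Or.inr ⟨U.pow_mem (Subgroup.mem_zpowers u) i, fun e => hgU ?_⟩
      exact (U.mul_mem_cancel_left (U.pow_mem (Subgroup.mem_zpowers u) i)).1 e
    · refine Or.inl ⟨?_, fun e => hgU ((U.mul_mem_cancel_right (U.pow_mem (Subgroup.mem_zpowers u) i)).1 e)⟩
      have e : g * u ^ i * g = (g * u ^ i * g⁻¹) * (g * g) := by group
      rw [e, ← conj_pow, hc]
      exact U.mul_mem (U.pow_mem (U.pow_mem (Subgroup.mem_zpowers u) c) i) hg2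
  have hcard : Nat.card G = 2 ^ n * 2 := by
    rw [← U.card_mul_index, hidx, Nat.card_zpowers, hn]
  refine ⟨by rw [hcard, ← pow_succ], ?_⟩
  obtain ⟨j, hj⟩ : ∃ j : ℕ, g * g = u ^ j := by
    have hg2' := hg2
    rw [← mem_powers_iff_mem_zpowers, Submonoid.mem_powers_iff] at hg2'
    obtain ⟨j, hj⟩ := hg2'
    exact ⟨j, hj.symm⟩
  obtain ⟨m, rfl⟩ : ∃ m, n = m + 2 := ⟨n - 2, by omega⟩
  have hfix : u ^ (c * j) = u ^ j := by
    rw [pow_mul, ← hc, conj_pow, ← hj]; group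
  have h4 : 2 ^ (m + 2) = 4 * 2 ^ m := by rw [pow_add]; ring
  have hu1 : u ^ (4 * 2 ^ m) = 1 := by rw [← h4, ← hn, pow_orderOf_eq_one]
  have hz2 : u ^ (2 * 2 ^ m) * u ^ (2 * 2 ^ m) = 1 := by rw [← pow_add, ← two_mul, ← mul_assoc]; exact hu1
  have hcu : ∀ e, c ≡ e [MOD 2 ^ (m + 2)] → u ^ c = u ^ e := fun e he => by
    rw [pow_eq_pow_iff_modEq, hn]; exact he
  have hjval : g * g = 1 ∨ g * g = u ^ (2 * 2 ^ m) := by
    rw [pow_eq_pow_iff_modEq, hn] at hfix
    have h1 : 2 ^ (m + 2) ∣ 2 * j := by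
      rcases hopt with e | ⟨h3, e⟩
      · have := ((e.mul_right j).symm.trans hfix).add_right j
        rw [← Nat.add_one_mul, Nat.sub_add_cancel Nat.one_le_two_pow, ← two_mul] at this
        exact Nat.modEq_zero_iff_dvd.1 (this.symm.trans (Nat.modEq_zero_iff_dvd.2 (Dvd.intro _ rfl)))
      · obtain ⟨l, rfl⟩ : ∃ l, m = l + 1 := ⟨m - 1, by omega⟩
        have := ((e.mul_right j).symm.trans hfix).add_right j
        rw [← Nat.add_one_mul, Nat.sub_add_cancel Nat.one_le_two_pow, ← two_mul] at this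
        have h5 := (Nat.modEq_iff_dvd.1 this)
        push_cast at h5
        rw [show (2 : ℤ) * j - 2 ^ (l + 2) * j = (2 * j) * (1 - 2 ^ (l + 1)) from by ring] at h5
        have hco : IsCoprime ((2 : ℤ) ^ (l + 1 + 2)) (1 - 2 ^ (l + 1)) :=
          IsCoprime.pow_left (show IsCoprime (2 : ℤ) (1 - 2 ^ (l + 1)) from ⟨2 ^ l, 1, by ring⟩)
        exact_mod_cast hco.dvd_of_dvd_mul_right h5
    obtain ⟨q, hq⟩ : 2 * 2 ^ m ∣ j := Nat.dvd_of_mul_dvd_mul_left two_pos (by rwa [← mul_assoc, show 2 * 2 * 2 ^ m = 2 ^ (m + 2) by rw [h4]])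
    subst hq
    rw [hj, pow_mul]
    rcases Nat.even_or_odd q with ⟨r, rfl⟩ | ⟨r, rfl⟩
    · left; rw [← two_mul, pow_mul, pow_two, hz2, one_pow]
    · right; rw [pow_succ, pow_mul, pow_two, hz2, one_pow, one_mul]
  rcases hopt with e | ⟨h3, e⟩
  · have hinv : g * u * g⁻¹ = u⁻¹ := by
      rw [hc, hcu _ e]
      refine eq_inv_of_mul_eq_one_right ?_
      rw [← pow_succ', Nat.sub_add_cancel Nat.one_le_two_pow, ← hn, pow_orderOf_eq_one]
    rcases hjval with e2 | e2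
    · rcases m with _ | m
      · right; left
        haveI : NeZero (2 ^ (0 + 2)) := ⟨pow_ne_zero _ two_ne_zero⟩
        obtain ⟨φ⟩ := CfsgLib.Restricted.dihedral_iso (H := (⊤ : Subgroup G)) hn e2 hinv (Subgroup.mem_top u) (Subgroup.mem_top g)
          (by rw [Subgroup.card_top, hcard, mul_comm]) (fun x _ => by
            obtain ⟨i, rfl | rfl⟩ := hgen x
            · exact Subgroup.mem_sup_right (Subgroup.pow_mem _ (Subgroup.mem_zpowers u) i)
            · exact Subgroup.mul_mem_sup (Subgroup.mem_zpowers g) (Subgroup.pow_mem _ (Subgroup.mem_zpowers u) i))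
        refine ⟨2 ^ (0 + 2), Or.inr ?_, ⟨Subgroup.topEquiv.symm.trans φ⟩⟩
        have hne : u ^ 2 ≠ 1 := by
          intro e'
          have := Nat.le_of_dvd two_pos (orderOf_dvd_of_pow_eq_one e')
          rw [hn] at this; norm_num at this
        have h4' : u ^ 4 = 1 := by simpa using hu1
        have hgu : u * g = g * u⁻¹ := by
          have h1 : g⁻¹ = g := inv_eq_of_mul_eq_one_right e2
          calc u * g = g * (g * u * g⁻¹) := by rw [h1]; calc u * g = (g * g) * (u * g) := by rw [e2, one_mul]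
              _ = g * (g * u * g) := by simp only [mul_assoc]
            _ = g * u⁻¹ := by rw [hinv]
        have hgi : ∀ i : ℕ, u ^ i * g = g * (u ^ i)⁻¹ := by
          intro i
          induction i with
          | zero => simp
          | succ i ih => rw [pow_succ, mul_assoc, hgu, ← mul_assoc, ih, mul_assoc]; group
        refine ⟨u ^ 2, g, ?_, hne, ?_, by rw [pow_two, e2], ?_, ?_⟩
        · rw [← pow_mul]; exact h4'
        · rw [Subgroup.mem_center_iff]
          intro x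
          have hc2 : Commute g (u ^ 2) := by
            have h9 : (u ^ 2)⁻¹ = u ^ 2 := inv_eq_of_mul_eq_one_right (by rw [← pow_add]; exact h4')
            show g * u ^ 2 = u ^ 2 * g
            rw [hgi, h9]
          obtain ⟨i, rfl | rfl⟩ := hgen x
          · exact (Commute.pow_pow_self u i 2).eq
          · exact (hc2.mul_left (Commute.pow_pow_self u i 2)).eq
        · intro hg
          exact hgU ((Subgroup.zpowers_le.2 (U.pow_mem (Subgroup.mem_zpowers u) 2)) hg)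
        · intro x
          obtain ⟨i, rfl | rfl⟩ := hgen x
          · refine ⟨-(i : ℤ), ?_⟩
            show (u ^ 2) ^ (-(i : ℤ)) = _
            rw [hgi i, zpow_neg, zpow_natCast, ← pow_mul, mul_comm, pow_mul, pow_two]; group
          · refine ⟨(i : ℤ), ?_⟩
            show (u ^ 2) ^ (i : ℤ) = _
            rw [zpow_natCast, show g⁻¹ * (g * u ^ i * g * (g * u ^ i)⁻¹) = u ^ i * g * (u ^ i)⁻¹ * g⁻¹ from by group, hgi i,
              ← inv_pow, show g * u⁻¹ ^ i * u⁻¹ ^ i * g⁻¹ = (g * u⁻¹ * g⁻¹) ^ i * (g * u⁻¹ * g⁻¹) ^ i from by rw [conj_pow]; group,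
              show g * u⁻¹ * g⁻¹ = u from by rw [show g * u⁻¹ * g⁻¹ = (g * u * g⁻¹)⁻¹ from by group, hinv, inv_inv], ← pow_add, ← two_mul, pow_mul]
      · right; left
        refine ⟨2 ^ (m + 1 + 2), Or.inl ?_, ?_⟩
        · calc 8 = 2 ^ 3 := rfl
            _ ≤ 2 ^ (m + 1 + 2) := Nat.pow_le_pow_right two_pos (by omega)
        · haveI : NeZero (2 ^ (m + 1 + 2)) := ⟨pow_ne_zero _ two_ne_zero⟩
          obtain ⟨φ⟩ := CfsgLib.Restricted.dihedral_iso (H := (⊤ : Subgroup G)) hn e2 hinv (Subgroup.mem_top u) (Subgroup.mem_top g)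
            (by rw [Subgroup.card_top, hcard, mul_comm]) (fun x _ => by
              obtain ⟨i, rfl | rfl⟩ := hgen x
              · exact Subgroup.mem_sup_right (Subgroup.pow_mem _ (Subgroup.mem_zpowers u) i)
              · exact Subgroup.mul_mem_sup (Subgroup.mem_zpowers g) (Subgroup.pow_mem _ (Subgroup.mem_zpowers u) i))
          exact ⟨Subgroup.topEquiv.symm.trans φ⟩
    · left
      haveI : NeZero (2 * 2 ^ m) := ⟨mul_ne_zero two_ne_zero (pow_ne_zero _ two_ne_zero)⟩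
      exact ⟨2 * 2 ^ m, quaternion_iso (by rw [hn, h4]; ring) e2 hinv (by rw [hcard, h4]; ring) hgen⟩
  · right; right
    have hpow : m + 2 - 1 = m + 1 := rfl
    have hinv : g * u * g⁻¹ = u ^ (2 ^ (m + 2 - 1) - 1) := by rw [hc, hcu _ e]
    have hg1 : g ≠ 1 := fun e' => hgU (e' ▸ U.one_mem)
    have hone : 1 ≤ 2 ^ (m + 1) := Nat.one_le_two_pow
    refine ⟨m + 2, h3, by rw [hcard, ← pow_succ], u, ?_⟩
    rcases hjval with e2 | e2
    · exact ⟨g, hn, orderOf_eq_prime (by rw [pow_two, e2]) hg1, hinv⟩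
    · refine ⟨g * u, hn, orderOf_eq_prime ?_ ?_, ?_⟩
      · rw [pow_two, show g * u * (g * u) = (g * u * g⁻¹) * (g * g) * u from by group, hinv, e2, ← pow_add, ← pow_succ, hpow]
        rw [show 2 ^ (m + 1) - 1 + 2 * 2 ^ m + 1 = 4 * 2 ^ m from by rw [pow_succ'] at hone ⊢; omega]
        exact hu1
      · intro e'
        apply hgU
        rw [eq_inv_of_mul_eq_one_left e']
        exact U.inv_mem (Subgroup.mem_zpowers u)
      · rw [← hinv]; group

/-- A cyclic self-centralizing proper normal subgroup: either some element induces `u ↦ u ^ (1 + p ^ (n - 1))`,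
or the group has one of the three shapes. -/
theorem alternatives (hG : IsPGroup p G) {u : G} {n : ℕ} (hn : orderOf u = p ^ n) [hAn : (Subgroup.zpowers u).Normal]
    (hAC : Subgroup.centralizer (Subgroup.zpowers u : Set G) ≤ Subgroup.zpowers u)
    (htop : Subgroup.zpowers u ≠ ⊤) :
    (∃ w, w * u * w⁻¹ = u ^ (1 + p ^ (n - 1)) ∧ 2 ≤ n ∧ (p = 2 → 3 ≤ n)) ∨
    (p = 2 ∧ Nat.card G = 2 ^ (n + 1) ∧ ((∃ n : ℕ, Nonempty (G ≃* QuaternionGroup n)) ∨
      (∃ n : ℕ, (8 ≤ n ∨ HasPair G 2) ∧ Nonempty (G ≃* DihedralGroup n)) ∨ Cfsg.IsQuasiDihedral G)) := by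
  classical
  haveI := Fact.mk hG
  have hp' : p.Prime := hp.out
  set U := Subgroup.zpowers u
  have hmemU : ∀ x ∈ U, ∃ j : ℕ, x = u ^ j := by
    intro x hx
    rw [← mem_powers_iff_mem_zpowers, Submonoid.mem_powers_iff] at hx
    obtain ⟨j, hj⟩ := hx
    exact ⟨j, hj.symm⟩
  choose χ hχ using fun g : G => hmemU _ (hAn.conj_mem u (Subgroup.mem_zpowers u) g)
  have hUcent : ∀ g, g * u * g⁻¹ = u → g ∈ U := by
    intro g hg
    refine hAC (Subgroup.mem_centralizer_iff.2 fun x hx => ?_)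
    obtain ⟨j, rfl⟩ := hmemU x hx
    exact ((show Commute g u from mul_inv_eq_iff_eq_mul.1 hg).pow_right j).eq.symm
  have hcomp : ∀ g g' : G, (g * g') * u * (g * g')⁻¹ = u ^ (χ g * χ g') := by
    intro g g'
    rw [show (g * g') * u * (g * g')⁻¹ = g * (g' * u * g'⁻¹) * g⁻¹ from by group, hχ g', ← conj_pow, hχ g, ← pow_mul]
  have hab : ∀ a b : G, a⁻¹ * (b * a * b⁻¹) ∈ U := by
    intro a b
    apply hUcent
    have h1 : b * a * u * (b * a)⁻¹ = a * b * u * (a * b)⁻¹ := by rw [hcomp, hcomp, mul_comm]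
    calc a⁻¹ * (b * a * b⁻¹) * u * (a⁻¹ * (b * a * b⁻¹))⁻¹
        = a⁻¹ * ((b * a) * (b⁻¹ * u * b) * (b * a)⁻¹) * a := by group
      _ = u := by
        obtain ⟨j, hj⟩ := hmemU _ (hAn.conj_mem u (Subgroup.mem_zpowers u) b⁻¹)
        rw [inv_inv] at hj
        rw [hj, ← conj_pow, h1, conj_pow, ← hj]; group
  by_cases hno' : ∃ w, w * u * w⁻¹ = u ^ (1 + p ^ (n - 1)) ∧ 2 ≤ n ∧ (p = 2 → 3 ≤ n)
  · exact Or.inl hno'
  have hno : 2 ≤ n → (p = 2 → 3 ≤ n) → ∀ w : G, w * u * w⁻¹ ≠ u ^ (1 + p ^ (n - 1)) := fun h2 h3 w hw =>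
    hno' ⟨w, hw, h2, h3⟩
  obtain ⟨y, hyU⟩ : ∃ y, y ∉ U := by
    by_contra hc
    push Not at hc
    exact htop (eq_top_iff.2 fun x _ => hc x)
  have hmodne : ∀ g, g ∉ U → ¬ χ g ≡ 1 [MOD p ^ n] := by
    intro g hg hm
    apply hg
    apply hUcent
    rw [hχ g]
    conv_rhs => rw [← pow_one u]
    rw [pow_eq_pow_iff_modEq, hn]
    exact hm
  -- n is at least two
  have hn2 : 2 ≤ n := by
    by_contra hc
    apply hmodne y hyU
    rcases n with _ | _ | n
    · rw [pow_zero]; exact Nat.modEq_one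
    · have hzc : u ∈ Subgroup.center G := center_of_normal_prime hn hAn hp' le_rfl (by simp)
      have : u ^ χ y = u ^ 1 := by
        rw [← hχ y, pow_one, (Subgroup.mem_center_iff.1 hzc y), mul_inv_cancel_right]
      rwa [pow_eq_pow_iff_modEq, hn] at this
    · omega
  have hmul : ∀ g g', χ (g * g') ≡ χ g * χ g' [MOD p ^ n] := by
    intro g g'
    rw [← hn, ← pow_eq_pow_iff_modEq, ← hχ, hcomp]
  -- an element of order p modulo U
  obtain ⟨g, hgU, hgp⟩ : ∃ g, g ∉ U ∧ g ^ p ∈ U := by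
    obtain ⟨k, hk⟩ := hG y
    have hex : ∃ i, y ^ p ^ i ∈ U := ⟨k, by rw [hk]; exact U.one_mem⟩
    obtain ⟨i, hi⟩ : ∃ i, Nat.find hex = i + 1 := Nat.exists_eq_succ_of_ne_zero (fun e => hyU (by
      have := Nat.find_spec hex; rwa [e, pow_zero, pow_one] at this))
    refine ⟨y ^ p ^ i, Nat.find_min hex (by omega), ?_⟩
    rw [← pow_mul, ← pow_succ, ← hi]; exact Nat.find_spec hex
  have hχU : ∀ x ∈ U, χ x ≡ 1 [MOD p ^ n] := by
    intro x hx
    rw [← hn, ← pow_eq_pow_iff_modEq, ← hχ, pow_one]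
    obtain ⟨j, rfl⟩ := hmemU x hx
    group
  have hpowχ : ∀ (g : G) (m : ℕ), χ (g ^ m) ≡ χ g ^ m [MOD p ^ n] := by
    intro g m
    induction m with
    | zero => rw [pow_zero, pow_zero]; exact hχU 1 U.one_mem
    | succ m ih => rw [pow_succ, pow_succ]; exact (hmul _ _).trans (ih.mul_right _)
  by_cases hp2 : p = 2
  case neg =>
    exfalso
    obtain ⟨t, ht, hu'⟩ := odd_root hp' hp2 hn2 ((hpowχ g p).symm.trans (hχU _ hgp)) (hmodne g hgU)
    refine hno hn2 (fun e => absurd e hp2) (g ^ t) ?_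
    rw [hχ (g ^ t), pow_eq_pow_iff_modEq, hn]
    exact (hpowχ g t).trans hu'
  subst hp2
  right
  refine ⟨rfl, ?_⟩
  have hsq : ∀ x : G, x ∉ U → x ^ 2 ∈ U →
      χ x ≡ 2 ^ n - 1 [MOD 2 ^ n] ∨ (3 ≤ n ∧ χ x ≡ 2 ^ (n - 1) - 1 [MOD 2 ^ n]) := by
    intro x hx hx2
    rcases sqrt_one hn2 ((hpowχ x 2).symm.trans (hχU _ hx2)) with e | e | ⟨h3, e⟩ | e
    · exact absurd e (hmodne x hx)
    · exact Or.inl e
    · exfalso
      refine hno hn2 (fun _ => h3) x ?_
      rw [hχ x, pow_eq_pow_iff_modEq, hn]; exact e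
    · exact Or.inr e
  have h4 : (4 : ℕ) ∣ 2 ^ n := by rw [show (4 : ℕ) = 2 ^ 2 from rfl]; exact pow_dvd_pow 2 hn2
  have hm4 : ∀ x : G, x ∉ U → x ^ 2 ∈ U → χ x % 4 = 3 := by
    intro x hx hx2
    obtain ⟨m, hm⟩ : ∃ m, n = m + 2 := ⟨n - 2, by omega⟩
    subst hm
    have h5 : 2 ^ (m + 2) = 4 * 2 ^ m := by rw [pow_add]; ring
    have hm1 : 1 ≤ 2 ^ m := Nat.one_le_two_pow
    rcases hsq x hx hx2 with e | ⟨h3, e⟩
    · have := e.of_dvd h4; rw [Nat.ModEq] at this; rw [this, h5]; omega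
    · obtain ⟨l, hl⟩ : ∃ l, m = l + 1 := ⟨m - 1, by omega⟩
      subst hl
      have := e.of_dvd h4; rw [Nat.ModEq] at this
      rw [this, show l + 1 + 2 - 1 = l + 2 from rfl, pow_add]
      have := Nat.one_le_two_pow (n := l)
      omega
  have hall : ∀ x : G, x ^ 2 ∈ U := by
    intro x
    by_contra hx
    have hx1 : x ∉ U := fun e => hx (U.pow_mem e 2)
    obtain ⟨k, hk⟩ := hG x
    have hex : ∃ i, x ^ 2 ^ i ∈ U := ⟨k, by rw [hk]; exact U.one_mem⟩
    obtain ⟨i, hi⟩ : ∃ i, Nat.find hex = i + 1 := Nat.exists_eq_succ_of_ne_zero (fun e => hx1 (by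
      have := Nat.find_spec hex; rwa [e, pow_zero, pow_one] at this))
    rcases i with _ | i
    · have := Nat.find_spec hex; rw [hi] at this; exact hx (by simpa using this)
    have h1 : x ^ 2 ^ (i + 1) ∉ U := Nat.find_min hex (by omega)
    have h2 : (x ^ 2 ^ (i + 1)) ^ 2 ∈ U := by rw [← pow_mul, ← pow_succ, ← hi]; exact Nat.find_spec hex
    have h3 : χ (x ^ 2 ^ (i + 1)) ≡ χ (x ^ 2 ^ i) ^ 2 [MOD 2 ^ n] := by
      rw [pow_succ 2 i, pow_mul]; exact hpowχ _ 2
    have h5 := h3.of_dvd h4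
    rw [Nat.ModEq, hm4 _ h1 h2, Nat.pow_mod] at h5
    have := Nat.mod_lt (χ (x ^ 2 ^ i)) (show 4 > 0 by norm_num)
    interval_cases (χ (x ^ 2 ^ i) % 4) <;> simp at h5
  have hidx : ∀ a b : G, a ∉ U → b ∉ U → a * b ∈ U := by
    intro a b ha hb
    by_contra hab'
    have h5 := (hmul a b).of_dvd h4
    rw [Nat.ModEq, hm4 _ hab' (hall _), Nat.mul_mod, hm4 a ha (hall a), hm4 b hb (hall b)] at h5
    norm_num at h5
  have hgen : ∀ x : G, ∃ i : ℕ, x = u ^ i ∨ x = g * u ^ i := by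
    intro x
    by_cases hx : x ∈ U
    · obtain ⟨i, rfl⟩ := hmemU x hx; exact ⟨i, Or.inl rfl⟩
    · obtain ⟨i, hi⟩ := hmemU _ (hidx g⁻¹ x (fun e => hgU (by simpa using U.inv_mem e)) hx)
      exact ⟨i, Or.inr (by rw [← hi, mul_inv_cancel_left])⟩
  exact shape hn hn2 hgU hgen (by rw [← pow_two]; exact hgp) (hχ g) (hsq g hgU hgp)


/-- The subgroup generated by a self-centralizing element has abelian quotient. -/
theorem quot_comm {u : G} [hUn : (Subgroup.zpowers u).Normal]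
    (hC : Subgroup.centralizer (Subgroup.zpowers u : Set G) ≤ Subgroup.zpowers u) (a b : G) :
    a⁻¹ * (b * a * b⁻¹) ∈ Subgroup.zpowers u := by
  classical
  have hk : ∀ g : G, ∃ k : ℤ, g * u * g⁻¹ = u ^ k := fun g => by
    obtain ⟨k, hk⟩ := hUn.conj_mem u (Subgroup.mem_zpowers u) g
    exact ⟨k, hk.symm⟩
  choose k hk using hk
  have hcomp : ∀ g g' : G, g * g' * u * (g * g')⁻¹ = u ^ (k g * k g') := by
    intro g g'
    rw [show g * g' * u * (g * g')⁻¹ = g * (g' * u * g'⁻¹) * g⁻¹ from by group, hk g', ← conj_zpow, hk g, ← zpow_mul]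
  apply hC
  rw [Subgroup.mem_centralizer_iff]
  intro x hx
  obtain ⟨i, rfl⟩ := hx
  set c := a⁻¹ * (b * a * b⁻¹)
  have h1 : c * u * c⁻¹ = u := by
    obtain ⟨j, hj⟩ := hUn.conj_mem u (Subgroup.mem_zpowers u) b⁻¹
    have hj' : u ^ j = b⁻¹ * u * b := by rw [show u ^ j = b⁻¹ * u * b⁻¹⁻¹ from hj, inv_inv]
    have h2 : b * a * u * (b * a)⁻¹ = a * b * u * (a * b)⁻¹ := by rw [hcomp, hcomp, mul_comm]
    calc c * u * c⁻¹ = a⁻¹ * (b * a * (b⁻¹ * u * b) * (b * a)⁻¹) * a := by show a⁻¹ * (b * a * b⁻¹) * u * (a⁻¹ * (b * a * b⁻¹))⁻¹ = _; group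
      _ = u := by rw [← hj', ← conj_zpow, h2, conj_zpow, hj']; group
  exact ((show Commute c u from mul_inv_eq_iff_eq_mul.1 h1).zpow_right i).eq.symm

/-- Classification of `p`-groups without a normal `C_p × C_p`. -/
theorem structure_of_no_pair (hG : IsPGroup p G) (h : ¬ HasPair G p) :
    IsCyclic G ∨ (p = 2 ∧ ((∃ n : ℕ, Nonempty (G ≃* QuaternionGroup n)) ∨
      (∃ n : ℕ, 8 ≤ n ∧ Nonempty (G ≃* DihedralGroup n)) ∨ Cfsg.IsQuasiDihedral G)) := by
  classical
  haveI := Fact.mk hG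
  obtain ⟨A, hAn, hAc, hAC⟩ := CfsgLib.TwoGroup.exists_self_centralizing hG
  haveI := hAn
  have hcyc : IsCyclic A := by_contra fun hn => h (hasPair_of_abelian hG A hAc hn)
  obtain ⟨u, hAu⟩ : ∃ u : G, A = Subgroup.zpowers u := by
    obtain ⟨u0, hu0⟩ := IsCyclic.exists_generator (α := A)
    refine ⟨u0, le_antisymm (fun x hx => ?_) (Subgroup.zpowers_le.2 u0.2)⟩
    obtain ⟨i, hi⟩ := hu0 ⟨x, hx⟩
    exact ⟨i, congrArg Subtype.val hi⟩
  subst hAu
  by_cases htop : Subgroup.zpowers u = ⊤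
  · left
    exact ⟨⟨u, fun x => htop.ge (Subgroup.mem_top x)⟩⟩
  obtain ⟨n, hn⟩ : ∃ n, orderOf u = p ^ n := by
    obtain ⟨k, hk⟩ := IsPGroup.iff_card.1 (hG.to_subgroup (Subgroup.zpowers u))
    exact ⟨k, by rw [← Nat.card_zpowers]; exact hk⟩
  rcases alternatives hG hn hAC htop with ⟨w, hw, h2, h3⟩ | ⟨rfl, -, h4⟩
  · exact absurd (hasPair_of_one_add h2 h3 hn hAC (quot_comm hAC) hw) h
  · right
    refine ⟨rfl, ?_⟩
    rcases h4 with h4 | ⟨m, hm | hm, he⟩ | h4
    · exact Or.inl h4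
    · exact Or.inr (Or.inl ⟨m, hm, he⟩)
    · exact absurd hm h
    · exact Or.inr (Or.inr h4)

end CfsgLib.NormalCyclic

namespace CfsgLib.NormalCyclic

variable {G : Type*} [Group G] [Finite G] {p : ℕ} [hp : Fact p.Prime]

/-- A pair gives a noncyclic abelian normal subgroup. -/
theorem exists_abelian_of_pair (h : HasPair G p) :
    ∃ A : Subgroup G, A.Normal ∧ IsMulCommutative A ∧ ¬ IsCyclic A := by
  classical
  obtain ⟨z, e, hz, hz1, hzc, he, hne, hconj⟩ := h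
  set A := Subgroup.closure ({z, e} : Set G)
  have hzA : z ∈ A := Subgroup.subset_closure (by simp)
  have heA : e ∈ A := Subgroup.subset_closure (by simp)
  refine ⟨A, ⟨fun x hx g => ?_⟩, ?_, ?_⟩
  · have hg : ∀ y ∈ ({z, e} : Set G), g * y * g⁻¹ ∈ A := by
      rintro y (rfl | rfl)
      · rw [Subgroup.mem_center_iff.1 hzc g, mul_inv_cancel_right]; exact hzA
      · obtain ⟨i, hi⟩ := hconj g
        rw [show g * y * g⁻¹ = y * z ^ i from by rw [show z ^ i = y⁻¹ * (g * y * g⁻¹) from hi]; group]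
        exact A.mul_mem heA (A.zpow_mem hzA i)
    have hle : A ≤ A.comap (MulAut.conj g).toMonoidHom := (Subgroup.closure_le _).2 hg
    exact hle hx
  · refine Subgroup.isMulCommutative_closure ?_
    rintro x (rfl | rfl) y (rfl | rfl)
    · rfl
    · exact (Subgroup.mem_center_iff.1 hzc y).symm
    · exact Subgroup.mem_center_iff.1 hzc x
    · rfl
  · intro hc
    apply hne
    haveI := hc
    haveI : Fintype A := Fintype.ofFinite A
    have h1 : orderOf (⟨z, hzA⟩ : A) = p := by rw [← Subgroup.orderOf_coe]; exact orderOf_eq_prime hz hz1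
    have h2 := IsCyclic.card_pow_eq_one_le (α := A) hp.out.pos
    have hsub : (Finset.range p).image (fun i => (⟨z, hzA⟩ : A) ^ i) ⊆ Finset.univ.filter (fun a : A => a ^ p = 1) := by
      intro a ha
      obtain ⟨i, -, rfl⟩ := Finset.mem_image.1 ha
      refine Finset.mem_filter.2 ⟨Finset.mem_univ _, ?_⟩
      rw [← pow_mul, mul_comm, pow_mul, show (⟨z, hzA⟩ : A) ^ p = 1 from Subtype.ext hz, one_pow]
    have hcard : ((Finset.range p).image (fun i => (⟨z, hzA⟩ : A) ^ i)).card = p := by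
      rw [Finset.card_image_of_injOn, Finset.card_range]
      intro i hi j hj hij
      exact pow_injOn_Iio_orderOf (by rw [Set.mem_Iio, h1]; exact Finset.mem_range.1 hi)
        (by rw [Set.mem_Iio, h1]; exact Finset.mem_range.1 hj) hij
    have heq := Finset.eq_of_subset_of_card_le hsub (by rw [hcard]; exact h2)
    have hm : (⟨e, heA⟩ : A) ∈ Finset.univ.filter (fun a : A => a ^ p = 1) :=
      Finset.mem_filter.2 ⟨Finset.mem_univ _, Subtype.ext he⟩
    rw [← heq] at hm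
    obtain ⟨i, -, hi⟩ := Finset.mem_image.1 hm
    rw [← show z ^ i = e from congrArg Subtype.val hi]
    exact Subgroup.pow_mem _ (Subgroup.mem_zpowers z) i

end CfsgLib.NormalCyclic
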