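import Cfsg.Agent.Lib.CoreBasic

/-!
# Groups with the same order type
-/

set_option autoImplicit false

open Subgroup

namespace CfsgLib.Core

variable {G : Type*} [Group G]

/-- Same order type means: there is an order preserving bijection. -/
theorem exists_orderOf_equiv {F : Type*} [Group F] [Finite F] [Finite G]
    (hT : ∀ m : ℕ, Nat.card {g : F // orderOf g = m} = Nat.card {h : G // orderOf h = m}) :
    ∃ e : F ≃ G, ∀ x, orderOf (e x) = orderOf x := by
  have h : ∀ m, Nonempty ({g : F // orderOf g = m} ≃ {h : G // orderOf h = m}) := fun m =>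
    ⟨(Finite.card_eq.1 (hT m)).some⟩
  let e' := fun m => (h m).some
  exact ⟨Equiv.ofFiberEquiv (f := orderOf) (g := orderOf) e', fun x => Equiv.ofFiberEquiv_map e' x⟩

/-- The order of an element dividing the order of a normal subgroup of coprime index. -/
theorem mem_of_orderOf_dvd [Finite G] {N : Subgroup G} [N.Normal]
    (hc : (Nat.card N).Coprime N.index) {x : G} (hx : orderOf x ∣ Nat.card N) : x ∈ N := by
  rw [← QuotientGroup.eq_one_iff, ← orderOf_eq_one_iff]
  refine Nat.eq_one_of_dvd_coprimes hc ?_ (orderOf_dvd_natCard _)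
  exact (orderOf_map_dvd (QuotientGroup.mk' N) x).trans hx

theorem card_orderOf_dvd [Finite G] {N : Subgroup G} [N.Normal]
    (hc : (Nat.card N).Coprime N.index) :
    Nat.card {x : G // orderOf x ∣ Nat.card N} = Nat.card N :=
  Nat.card_congr (Equiv.subtypeEquivRight fun _ =>
    ⟨mem_of_orderOf_dvd hc, fun h => orderOf_dvd_natCard N h⟩)

/-- A subgroup containing every element whose order divides its order is normal. -/
theorem normal_of_card_orderOf_dvd [Finite G] {M : Subgroup G} {d : ℕ} (hM : Nat.card M = d)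
    (h : Nat.card {x : G // orderOf x ∣ d} = d) :
    M.Normal ∧ ∀ x, orderOf x ∣ d → x ∈ M := by
  let ι : M → {x : G // orderOf x ∣ d} := fun x => ⟨x, hM ▸ orderOf_dvd_natCard M x.2⟩
  have hι : Function.Bijective ι := (Nat.bijective_iff_injective_and_card ι).2
    ⟨fun a b e => Subtype.ext (congrArg (fun z : {x : G // orderOf x ∣ d} => (z : G)) e), hM.trans h.symm⟩
  have hmem : ∀ x, orderOf x ∣ d → x ∈ M := fun x hx => by
    obtain ⟨y, hy⟩ := hι.2 ⟨x, hx⟩
    have : (y : G) = x := congrArg Subtype.val hy
    exact this ▸ y.2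
  refine ⟨⟨fun x hx g => hmem _ ?_⟩, hmem⟩
  rw [show orderOf (g * x * g⁻¹) = orderOf x from orderOf_injective (MulAut.conj g).toMonoidHom (MulAut.conj g).injective x]
  exact hM ▸ orderOf_dvd_natCard M hx

end CfsgLib.Core
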