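import Mathlib
import Cfsg.Agent.Lib.CoreTransfer
import Cfsg.Agent.Lib.CoreSZ
import Cfsg.Agent.Lib.TransferMore

/-!
`p`-nilpotence through normal subgroups inside the Frattini subgroup of a Sylow `p`-subgroup.
-/

set_option autoImplicit false
set_option maxHeartbeats 400000

namespace CfsgLib.Core

open scoped Pointwise commutatorElement
open Subgroup

universe u

variable {G : Type u} [Group G] [Finite G] {p : ℕ} [Fact p.Prime]

/-- A normal `p`-complement lifts over a normal subgroup inside the Frattini subgroup of a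
Sylow `p`-subgroup. -/
theorem hasNormalPComplement_of_frattini_sylow (P : Sylow p G) (Q : Subgroup G) [Q.Normal]
    (hQ : Q ≤ (frattini ↥(P : Subgroup G)).map (P : Subgroup G).subtype)
    (h : Cfsg.HasNormalPComplement p (G ⧸ Q)) : Cfsg.HasNormalPComplement p G := by
  set π := QuotientGroup.mk' Q
  have hQP : Q ≤ (P : Subgroup G) := hQ.trans (Subgroup.map_subtype_le _)
  have hQp : IsPGroup p Q := P.isPGroup'.to_le hQP
  obtain ⟨Lb, hLb, hcop, k, hk⟩ := hasNormalPComplement_iff.mp h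
  haveI := hLb
  set L := Lb.comap π with hL
  haveI : L.Normal := hLb.comap π
  have hQL : Q ≤ L := fun x hx => by
    show π x ∈ Lb
    rw [show π x = 1 from (QuotientGroup.eq_one_iff x).mpr hx]; exact one_mem _
  have hLr : Q.relIndex L = Nat.card Lb := by
    have h := Subgroup.relIndex_ker (K := L) (f := π)
    rw [QuotientGroup.ker_mk', Subgroup.map_comap_eq_self_of_surjective
      (QuotientGroup.mk'_surjective Q) Lb] at h
    exact h
  obtain ⟨m, hm⟩ := IsPGroup.iff_card.mp hQp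
  have hcQ : (Nat.card Q).Coprime (Q.relIndex L) := by
    rw [hm, hLr]; exact hcop.symm.pow_left m
  obtain ⟨K, hKL, hKQ, hdis, hKc⟩ := exists_complement_in hQL (le_normalizer_normal L) hcQ
  rw [hLr] at hKc
  have hfr : ∀ g : G, ∃ x ∈ Q, x⁻¹ * g ∈ Subgroup.normalizer (K : Set G) := by
    intro g
    obtain ⟨x, hx, e⟩ := exists_conj_eq_of_coprime (B := MulAut.conj g • K)
      (le_normalizer_normal K (N := Q)) (by rw [hKc, hm]; exact hcop.pow_right m)
      (Or.inr (by haveI := hQp.isNilpotent; infer_instance))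
      (by
        rw [hKQ, ← conj_smul_of_normal g L]
        exact conj_smul_le_conj_smul.mpr hKL)
      (card_conj_smul g K)
    refine ⟨x, hx, conj_smul_eq_self_iff.mp ?_⟩
    rw [← conj_smul_conj_smul, ← e, conj_smul_conj_smul, inv_mul_cancel, conj_one_smul]
  have hgen : (P : Subgroup G) ≤ Subgroup.normalizer (K : Set G) := by
    set R := (Subgroup.normalizer (K : Set G)).subgroupOf (P : Subgroup G)
    have hR : R ⊔ frattini ↥(P : Subgroup G) = ⊤ := by
      rw [eq_top_iff]
      intro y _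
      obtain ⟨x, hx, hxy⟩ := hfr y.1
      have h1 : (⟨x, hQP hx⟩ : ↥(P : Subgroup G)) ∈ frattini ↥(P : Subgroup G) := by
        obtain ⟨z, hz, hzx⟩ := hQ hx
        exact (Subtype.ext hzx : z = ⟨x, hQP hx⟩) ▸ hz
      have h2 : (⟨x, hQP hx⟩ : ↥(P : Subgroup G))⁻¹ * y ∈ R := hxy
      have := mul_mem (Subgroup.mem_sup_right (S := R) h1) (Subgroup.mem_sup_left h2)
      rwa [mul_inv_cancel_left] at this
    exact Subgroup.subgroupOf_eq_top.mp (frattini_nongenerating hR)
  haveI hKn : K.Normal := by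
    rw [← Subgroup.normalizer_eq_top_iff, eq_top_iff]
    intro g _
    obtain ⟨x, hx, hxg⟩ := hfr g
    have := mul_mem (hgen (hQP hx)) hxg
    rwa [mul_inv_cancel_left] at this
  refine hasNormalPComplement_iff.mpr ⟨K, hKn, hKc ▸ hcop, m + k, ?_⟩
  have h1 := card_mul_relIndex hKL
  rw [← card_mul_relIndex hQL, hKc, hLr, hm, mul_comm (p ^ m)] at h1
  have h2 : L.index = p ^ k := by
    rw [hL, Subgroup.index_comap_of_surjective _ (QuotientGroup.mk'_surjective Q), hk]
  rw [← Subgroup.relIndex_mul_index hKL, h2,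
    mul_left_cancel₀ (Nat.card_pos (α := Lb)).ne' h1, pow_add]

theorem hasNormalPComplement_of_normalizer (P : Sylow p G) (Q : Subgroup G) [Q.Normal]
    (h1 : (commutator ↥(P : Subgroup G)).map (P : Subgroup G).subtype ≤ Q)
    (h2 : Q ≤ (frattini ↥(P : Subgroup G)).map (P : Subgroup G).subtype)
    (hN : Cfsg.HasNormalPComplement p ↥(Subgroup.normalizer ((P : Subgroup G) : Set G))) :
    Cfsg.HasNormalPComplement p G := by
  refine hasNormalPComplement_of_frattini_sylow P Q h2 ?_
  set π := QuotientGroup.mk' Q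
  have hQP : Q ≤ (P : Subgroup G) := h2.trans (Subgroup.map_subtype_le _)
  obtain ⟨Pb, hPb⟩ : ∃ Pb : Sylow p (G ⧸ Q),
      (Pb : Subgroup (G ⧸ Q)) = (P : Subgroup G).map π :=
    ⟨P.mapSurjective (QuotientGroup.mk'_surjective Q), Sylow.coe_mapSurjective _ _⟩
  refine CfsgLib.Transfer.burnside Pb fun y hy => ?_
  obtain ⟨g, rfl⟩ := QuotientGroup.mk'_surjective Q y
  set N := Subgroup.normalizer ((P : Subgroup G) : Set G)
  have hgN : g ∈ N := by
    have hy' : π g ∈ Subgroup.normalizer ((Pb : Subgroup (G ⧸ Q)) : Set (G ⧸ Q)) := hy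
    rw [hPb] at hy'
    have h := (conj_smul_eq_self_iff (H := (P : Subgroup G).map π)).mpr hy'
    rw [← map_conj_smul] at h
    have h3 := congrArg (Subgroup.comap π) h
    rw [comap_mk'_map, comap_mk'_map, sup_eq_left.mpr hQP] at h3
    have h4 : MulAut.conj g • (P : Subgroup G) ≤ (P : Subgroup G) := le_sup_left.trans_eq h3
    exact (conj_smul_eq_self_iff (H := (P : Subgroup G))).mp
      (eq_of_le_of_card_le h4 (card_conj_smul g (P : Subgroup G)).ge)
  obtain ⟨K, hKn, hKc, k, hk⟩ := hasNormalPComplement_iff.mp hN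
  haveI := hKn
  set P' : Sylow p ↥N := P.subtype Subgroup.le_normalizer
  -- N = K P
  have hsup : K ⊔ (P' : Subgroup ↥N) = ⊤ := by
    rw [← Subgroup.index_eq_one]
    refine Nat.eq_one_of_dvd_coprimes ?_
      ((Subgroup.index_dvd_of_le (le_sup_left : K ≤ K ⊔ (P' : Subgroup ↥N))).trans (dvd_of_eq hk))
      (Subgroup.index_dvd_of_le (le_sup_right : (P' : Subgroup ↥N) ≤ K ⊔ (P' : Subgroup ↥N)))
    exact Nat.Coprime.pow_left k (((Fact.out : p.Prime).coprime_iff_not_dvd).mpr P'.not_dvd_index)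
  obtain ⟨a, ha, b, hb, hab⟩ := Subgroup.mem_sup_of_normal_left.mp
    (by rw [hsup]; exact Subgroup.mem_top _ : (⟨g, hgN⟩ : ↥N) ∈ K ⊔ (P' : Subgroup ↥N))
  have hg : g = (a : G) * b := (congrArg Subtype.val hab).symm
  rw [Subgroup.mem_centralizer_iff]
  intro z hz
  have hz' : z ∈ (Pb : Subgroup (G ⧸ Q)) := hz
  rw [hPb] at hz'
  obtain ⟨x, hx, rfl⟩ := hz'
  have hcomm : ∀ u ∈ (P : Subgroup G), ∀ v ∈ (P : Subgroup G), π (u * v) = π (v * u) := by
    intro u hu v hv
    have h3 : ⁅(⟨u, hu⟩ : ↥(P : Subgroup G)), ⟨v, hv⟩⁆ ∈ commutator ↥(P : Subgroup G) :=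
      Subgroup.commutator_mem_commutator (Subgroup.mem_top _) (Subgroup.mem_top _)
    have h4 := h1 (Subgroup.mem_map_of_mem _ h3)
    have h5 : π (u * v * u⁻¹ * v⁻¹) = 1 := (QuotientGroup.eq_one_iff _).mpr h4
    rw [show u * v = u * v * u⁻¹ * v⁻¹ * (v * u) by group, map_mul, h5, one_mul]
  -- a centralizes P
  have hax : (a : G) * x = x * a := by
    have h3 : (⁅a, (⟨x, Subgroup.le_normalizer hx⟩ : ↥N)⁆) ∈ K ⊓ (P' : Subgroup ↥N) := by
      rw [commutatorElement_def]
      constructor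
      · rw [mul_assoc, mul_assoc]
        refine mul_mem ha ?_
        rw [← mul_assoc]
        exact hKn.conj_mem _ (inv_mem ha) _
      · show ((a : G) * x * (a : G)⁻¹ * x⁻¹) ∈ (P : Subgroup G)
        exact mul_mem ((Subgroup.mem_normalizer_iff.mp a.2 x).mp hx) (inv_mem hx)
    rw [sylow_inf_bot_of_coprime P'.isPGroup' hKc, Subgroup.mem_bot,
      commutatorElement_eq_one_iff_mul_comm] at h3
    exact congrArg Subtype.val h3
  show π x * π g = π g * π x
  rw [← map_mul, ← map_mul, hg]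
  calc π (x * (↑a * ↑b)) = π (↑a * (x * ↑b)) := by rw [← mul_assoc, ← hax, mul_assoc]
    _ = π (↑a * (↑b * x)) := by rw [map_mul, hcomm x hx (↑b) hb, ← map_mul]
    _ = π (↑a * ↑b * x) := by rw [mul_assoc]

end CfsgLib.Core
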