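import Cfsg.Agent.Lib.CoreFrobenius
import Cfsg.Agent.Lib.CoreFpfComplement
import Cfsg.Agent.Lib.CoreFitting
import Cfsg.Agent.Lib.CoreLayer
import Cfsg.Agent.Lib.CoreCoprime2
import Cfsg.Agent.Lib.InvolCISylow
import Cfsg.Agent.Lib.ZStarCorollaries

/-!
# Soluble groups with disconnected prime graph
-/

set_option autoImplicit false

universe u v

namespace CfsgLib.Core.PrimeGraph

open scoped Pointwise
open Subgroup

variable {G : Type u} [Group G]

/-- A normal subgroup with a freely acting complement is the Frobenius kernel. -/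
theorem kernel_eq [Finite G] {K C : Subgroup G} [hK : K.Normal] (hc : IsComplement' K C)
    (hK0 : K ≠ ⊥) (hC0 : C ≠ ⊥)
    (hfpf : ∀ h ∈ C, h ≠ 1 → ∀ k ∈ K, h * k = k * h → k = 1) :
    Cfsg.IsFrobeniusComplement C ∧ Cfsg.frobeniusKernel C = (K : Set G) := by
  have hF := isFrobeniusComplement_of_fpf hc hK0 hC0 hfpf
  refine ⟨hF, ?_⟩
  obtain ⟨K', -, hK', -, -, hcard⟩ := exists_kernel hF
  have hle : K ≤ K' := fun x hx => by
    rw [← SetLike.mem_coe, hK']
    by_cases h1 : x = 1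
    · exact Or.inl h1
    refine Or.inr fun g hg => h1 ?_
    have h2 : g⁻¹ * x * g ∈ K ⊓ C := ⟨by simpa using hK.conj_mem x hx g⁻¹, mem_conj_smul.1 hg⟩
    rw [disjoint_iff.1 hc.disjoint, mem_bot] at h2
    calc x = g * (g⁻¹ * x * g) * g⁻¹ := by group
      _ = 1 := by rw [h2]; group
  rw [← hK', CfsgLib.Core.eq_of_le_of_card_le hle (hcard.trans hc.index_eq_card).le]

/-- No element has order `a * b` with `a ∈ A` and `b ∉ A`. -/
def NoEdge (G : Type u) [Group G] (A : Set ℕ) : Prop :=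
  ∀ a ∈ A, ∀ b ∉ A, a.Prime → b.Prime → ∀ g : G, orderOf g ≠ a * b

theorem NoEdge.of_surjective [Finite G] {H : Type v} [Group H] {A : Set ℕ} (h : NoEdge G A)
    (f : G →* H) (hf : Function.Surjective f) : NoEdge H A := by
  intro a ha b hb hap hbp y hy
  obtain ⟨g, rfl⟩ := hf y
  exact h a ha b hb hap hbp _
    (orderOf_pow_orderOf_div (orderOf_pos g).ne' (hy ▸ orderOf_map_dvd f g))

theorem NoEdge.cross [Finite G] {A : Set ℕ} (h : NoEdge G A) {x y : G} (hc : Commute x y)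
    (hx : x ≠ 1) (hy : y ≠ 1) (hxA : IsPiNat A (orderOf x)) (hyA : IsPiNat Aᶜ (orderOf y)) :
    False := by
  obtain ⟨a, ha, had⟩ := Nat.exists_prime_and_dvd (fun e => hx (orderOf_eq_one_iff.1 e))
  obtain ⟨b, hb, hbd⟩ := Nat.exists_prime_and_dvd (fun e => hy (orderOf_eq_one_iff.1 e))
  have hne : a ≠ b := fun e => (hyA b hb hbd) (e ▸ hxA a ha had)
  refine h a (hxA a ha had) b (hyA b hb hbd) ha hb
    (x ^ (orderOf x / a) * y ^ (orderOf y / b)) ?_
  have h1 := orderOf_pow_orderOf_div (orderOf_pos x).ne' had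
  have h2 := orderOf_pow_orderOf_div (orderOf_pos y).ne' hbd
  rw [(hc.pow_pow _ _).orderOf_mul_eq_mul_orderOf_of_coprime, h1, h2]
  rw [h1, h2]
  exact (Nat.coprime_primes ha hb).2 hne

theorem pi_orderOf [Finite G] {π : Set ℕ} {K : Subgroup G} (hK : IsPiNat π (Nat.card K)) {x : G}
    (hx : x ∈ K) : IsPiNat π (orderOf x) :=
  hK.of_dvd (Subgroup.orderOf_dvd_natCard K hx)

/-- The Fitting subgroup is a `π`-group as soon as it involves one prime of `π`. -/
theorem fitting_pi [Finite G] {A : Set ℕ} (h : NoEdge G A) {a : ℕ} (ha : a ∈ A) (hap : a.Prime)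
    (hd : a ∣ Nat.card (Cfsg.fittingSubgroup G)) :
    IsPiNat A (Nat.card (Cfsg.fittingSubgroup G)) := by
  intro b hb hbd
  by_contra hbA
  haveI := isNilpotent_fittingSubgroup (G := G)
  haveI := Fact.mk hap
  haveI := Fact.mk hb
  set F := Cfsg.fittingSubgroup G
  obtain ⟨P⟩ := (inferInstance : Nonempty (Sylow a F))
  obtain ⟨Q⟩ := (inferInstance : Nonempty (Sylow b F))
  have hnorm : ∀ (p : ℕ) [Fact p.Prime] (R : Sylow p F), (R : Subgroup F).Normal :=
    isNilpotent_iff_sylow_normal.1 inferInstance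
  obtain ⟨⟨x, hxP⟩, hx⟩ :=
    exists_prime_orderOf_dvd_card' (G := (P : Subgroup F)) a (P.dvd_card_of_dvd_card hd)
  obtain ⟨⟨y, hyQ⟩, hy⟩ :=
    exists_prime_orderOf_dvd_card' (G := (Q : Subgroup F)) b (Q.dvd_card_of_dvd_card hbd)
  rw [Subgroup.orderOf_mk] at hx hy
  have hc : Commute x y :=
    Subgroup.commute_of_normal_of_disjoint _ _ (hnorm a P) (hnorm b Q)
      (IsPGroup.disjoint_of_ne a b (fun e => hbA (e ▸ ha)) _ _ P.2 Q.2) x y hxP hyQ
  refine h.cross (hc.map F.subtype) ?_ ?_ (fun q hq hqd => ?_) fun q hq hqd => ?_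
  · intro e
    rw [show x = 1 from Subtype.ext e, orderOf_one] at hx
    exact hap.ne_one hx.symm
  · intro e
    rw [show y = 1 from Subtype.ext e, orderOf_one] at hy
    exact hb.ne_one hy.symm
  · rw [Subgroup.coe_subtype, Subgroup.orderOf_coe, hx] at hqd
    rwa [(Nat.prime_dvd_prime_iff_eq hq hap).1 hqd]
  · rw [Subgroup.coe_subtype, Subgroup.orderOf_coe, hy] at hqd
    rwa [(Nat.prime_dvd_prime_iff_eq hq hb).1 hqd]

/-- A soluble group whose prime graph is split by `A`, with Fitting subgroup meeting `A`. -/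
theorem frobenius_or_two_frobenius [Finite G] [Group.IsSolvable G] {A : Set ℕ} (h : NoEdge G A)
    (hA : ∃ a ∈ A, a.Prime ∧ a ∣ Nat.card (Cfsg.fittingSubgroup G))
    (hB : ∃ b ∉ A, b.Prime ∧ b ∣ Nat.card G) :
    (∃ C : Subgroup G, Cfsg.IsFrobeniusComplement C) ∨
    (∃ (H K : Subgroup G) (_ : H.Normal), K.Normal ∧ H < K ∧
      (∃ C : Subgroup ↥K, Cfsg.IsFrobeniusComplement C ∧
        Cfsg.frobeniusKernel C = (H.subgroupOf K : Set ↥K)) ∧
      (∃ C : Subgroup (G ⧸ H), Cfsg.IsFrobeniusComplement C ∧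
        Cfsg.frobeniusKernel C = (K.map (QuotientGroup.mk' H) : Set (G ⧸ H)))) := by
  obtain ⟨a, ha, hap, had⟩ := hA
  obtain ⟨H, ⟨hHn, hHA⟩, hHmax⟩ := (Set.toFinite {H : Subgroup G |
    H.Normal ∧ IsPiNat A (Nat.card H)}).exists_maximal
      ⟨⊥, inferInstance, by rw [Subgroup.card_bot]; exact IsPiNat.one _⟩
  haveI := hHn
  have hmax : ∀ N : Subgroup G, N.Normal → IsPiNat A (Nat.card N) → N ≤ H := fun N hN hNA => by
    haveI := hN
    exact le_sup_right.trans (hHmax (y := H ⊔ N) ⟨inferInstance, (hHA.mul hNA).of_dvd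
      (card_sup_dvd_mul (Subgroup.normalizer_eq_top (H := N) ▸ le_top))⟩ le_sup_left)
  have hFH := hmax _ normal_fittingSubgroup (fitting_pi h ha hap had)
  have hH0 : H ≠ ⊥ := fun e => by
    have := hap.one_lt
    have h1 := Nat.le_of_dvd Nat.card_pos (had.trans (Subgroup.card_dvd_of_le hFH))
    rw [e, Subgroup.card_bot] at h1
    omega
  -- the quotient
  set f := QuotientGroup.mk' H with hf
  have hfs : Function.Surjective f := QuotientGroup.mk'_surjective H
  have h' : NoEdge (G ⧸ H) A := h.of_surjective f hfs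
  haveI : Group.IsSolvable (G ⧸ H) := Group.isSolvable_of_surjective hfs
  have hcore : ∀ N : Subgroup (G ⧸ H), N.Normal → IsPiNat A (Nat.card N) → N = ⊥ := by
    intro N hN hNA
    haveI := hN
    have h1 : IsPiNat A (Nat.card (N.comap f)) := by
      have hHle : H ≤ N.comap f :=
        (QuotientGroup.ker_mk' H).ge.trans (Subgroup.ker_le_comap f N)
      rw [← card_mul_relIndex hHle]
      refine hHA.mul (hNA.of_dvd (dvd_of_eq ?_))
      have h2 := Subgroup.relIndex_ker (f := f) (K := N.comap f)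
      rwa [QuotientGroup.ker_mk', Subgroup.map_comap_eq_self_of_surjective hfs] at h2
    rw [eq_bot_iff, ← Subgroup.map_comap_eq_self_of_surjective hfs N]
    exact (Subgroup.map_mono (hmax _ inferInstance h1)).trans (QuotientGroup.map_mk'_self H).le
  haveI : Nontrivial (G ⧸ H) := by
    obtain ⟨b, hb, hbp, hbd⟩ := hB
    refine QuotientGroup.nontrivial_iff.2 fun e => hb (hHA b hbp ?_)
    rwa [e, Subgroup.card_top]
  set F := Cfsg.fittingSubgroup (G ⧸ H) with hFdef
  haveI hFn : F.Normal := normal_fittingSubgroup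
  haveI := isNilpotent_fittingSubgroup (G := G ⧸ H)
  have hF0 : F ≠ ⊥ := by
    obtain ⟨p, hp, hpc⟩ := exists_pCore_ne_bot (G := G ⧸ H)
    haveI := Fact.mk hp
    exact fun e => hpc (le_bot_iff.1 (e ▸ pCore_le_fittingSubgroup p))
  have hFB : IsPiNat Aᶜ (Nat.card F) := by
    intro p hp hpd hpA
    haveI := Fact.mk hp
    obtain ⟨P⟩ := (inferInstance : Nonempty (Sylow p F))
    haveI : (Cfsg.pCore p F).Characteristic := characteristic_pCore p
    have h0 := hcore ((Cfsg.pCore p F).map F.subtype) (map_subtype_normal_of_characteristic hFn inferInstance) (by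
      intro q hq hqd
      rw [Subgroup.card_map_of_injective F.subtype_injective] at hqd
      rwa [isPiNat_card_iff_isPGroup.2 (isPGroup_pCore p) q hq hqd])
    rw [Subgroup.map_eq_bot_iff_of_injective _ F.subtype_injective,
      pCore_eq_sylow_of_nilpotent P] at h0
    exact Sylow.ne_bot_of_dvd_card P hpd h0
  -- the lower Frobenius group
  set K := F.comap f with hKdef
  haveI hKn : K.Normal := inferInstanceAs (F.comap f).Normal
  have hHK : H ≤ K := (QuotientGroup.ker_mk' H).ge.trans (Subgroup.ker_le_comap f F)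
  have hKmap : K.map f = F := Subgroup.map_comap_eq_self_of_surjective hfs F
  have hrel : H.relIndex K = Nat.card F := by
    have h2 := Subgroup.relIndex_ker (f := f) (K := K)
    rwa [QuotientGroup.ker_mk', hKmap] at h2
  obtain ⟨C, hC⟩ := Subgroup.exists_right_complement'_of_coprime (N := H.subgroupOf K) (by
    rw [card_subgroupOf_of_le hHK, ← Subgroup.relIndex, hrel]
    exact hHA.coprime hFB)
  have hCcard : Nat.card C = Nat.card F := by
    rw [← hC.symm.index_eq_card, ← Subgroup.relIndex, hrel]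
  have hC0 : C ≠ ⊥ := fun e => by
    rw [e, Subgroup.card_bot] at hCcard
    exact hF0 (Subgroup.eq_bot_of_card_eq _ hCcard.symm)
  have hCfpf : ∀ c ∈ C, c ≠ 1 → ∀ k ∈ H.subgroupOf K, c * k = k * c → k = 1 := by
    intro c hc hc1 k hk hck
    by_contra hk1
    refine h.cross (x := (k : G)) (y := (c : G)) (congrArg Subtype.val hck.symm)
      (fun e => hk1 (Subtype.ext e)) (fun e => hc1 (Subtype.ext e)) (pi_orderOf hHA hk) ?_
    rw [Subgroup.orderOf_coe]
    exact pi_orderOf (hCcard ▸ hFB) hc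
  obtain ⟨hCF, hCker⟩ := kernel_eq hC
    (fun e => hH0 (by
      rw [← Subgroup.map_subgroupOf_eq_of_le hHK, e, Subgroup.map_bot])) hC0 hCfpf
  by_cases hcase : IsPiNat Aᶜ (Nat.card (G ⧸ H))
  · -- a Frobenius group
    left
    obtain ⟨D, hD⟩ := Subgroup.exists_right_complement'_of_coprime (N := H)
      (by rw [Subgroup.index_eq_card]; exact hHA.coprime hcase)
    have hDcard : Nat.card D = Nat.card (G ⧸ H) := by
      rw [← hD.symm.index_eq_card, Subgroup.index_eq_card]
    refine ⟨D, isFrobeniusComplement_of_fpf hD hH0 ?_ fun d hd hd1 k hk hdk => ?_⟩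
    · intro e
      rw [e, Subgroup.card_bot] at hDcard
      exact (Finite.one_lt_card (α := G ⧸ H)).ne' hDcard.symm
    · by_contra hk1
      exact h.cross (x := k) (y := d) hdk.symm hk1 hd1 (pi_orderOf hHA hk)
        (pi_orderOf (hDcard ▸ hcase) hd)
  -- an element of prime order in `A`
  right
  obtain ⟨p, hp, hpd, hpA⟩ : ∃ p : ℕ, p.Prime ∧ p ∣ Nat.card (G ⧸ H) ∧ p ∈ A := by
    rw [IsPiNat] at hcase
    push Not at hcase
    obtain ⟨p, hp, hpd, hpA⟩ := hcase
    exact ⟨p, hp, hpd, by simpa using hpA⟩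
  haveI := Fact.mk hp
  obtain ⟨x, hx⟩ := exists_prime_orderOf_dvd_card' (G := G ⧸ H) p hpd
  have hx1 : x ≠ 1 := fun e => hp.ne_one (by rw [← hx, e, orderOf_one])
  have hxA : IsPiNat A (orderOf x) := fun q hq hqd => by
    rwa [(Nat.prime_dvd_prime_iff_eq hq hp).1 (hx ▸ hqd)]
  have hxF : ∀ y ∈ F, x * y = y * x → y = 1 := fun y hy hxy => by
    by_contra hy1
    exact h'.cross hxy hx1 hy1 hxA (pi_orderOf hFB hy)
  -- the complement and the Fitting subgroup
  let π : C →* F := MonoidHom.mk' (fun c => ⟨f ((c : K) : G), (c : K).2⟩)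
    fun a b => Subtype.ext (map_mul f _ _)
  have hπi : Function.Injective π := (injective_iff_map_eq_one π).2 fun c hc => by
    have h1 : (c : K) ∈ H.subgroupOf K ⊓ C :=
      ⟨(QuotientGroup.eq_one_iff (N := H) ((c : K) : G)).1 (by exact congrArg Subtype.val hc), c.2⟩
    rw [disjoint_iff.1 hC.disjoint, mem_bot] at h1
    exact Subtype.ext h1
  have hπ : Function.Bijective π :=
    (Nat.bijective_iff_injective_and_card π).2 ⟨hπi, hCcard⟩
  haveI : Group.IsNilpotent C :=
    Group.nilpotent_of_mulEquiv (MulEquiv.ofBijective π hπ).symm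
  have hHK0 : H.subgroupOf K ≠ ⊥ := fun e => hH0 (by
    rw [← Subgroup.map_subgroupOf_eq_of_le hHK, e, Subgroup.map_bot])
  have hsyl : ∀ (q : ℕ) [Fact q.Prime] (Q : Sylow q C), IsCyclic Q ∨
      (q = 2 ∧ ∃ n : ℕ, Nonempty (Q ≃* QuaternionGroup (2 ^ n))) := by
    intro q _ Q
    have he := (Q : Subgroup C).equivMapOfInjective C.subtype C.subtype_injective
    rcases cyclic_or_quaternion_of_fpf (Q.2.map C.subtype) (le_normalizer_normal _) hHK0
      (fun c hc hc1 k hk hck => hCfpf c (Subgroup.map_subtype_le _ hc) hc1 k hk hck) with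
      h1 | ⟨h2, n, ⟨e⟩⟩
    · exact Or.inl (he.isCyclic.2 h1)
    · exact Or.inr ⟨h2, n, ⟨he.trans e⟩⟩
  haveI : Fact (Nat.Prime 2) := ⟨Nat.prime_two⟩
  have hinv : ∀ s t : C, orderOf s = 2 → orderOf t = 2 → s = t := by
    intro s t hs ht
    obtain ⟨Q⟩ := (inferInstance : Nonempty (Sylow 2 C))
    haveI : (Q : Subgroup C).Normal := isNilpotent_iff_sylow_normal.1 inferInstance 2 inferInstance Q
    have hmem : ∀ r : C, orderOf r = 2 → r ∈ (Q : Subgroup C) := fun r hr => by
      obtain ⟨R, hR⟩ := IsPGroup.exists_le_sylow (G := C)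
        (IsPGroup.of_card (n := 1) (by rw [Nat.card_zpowers, hr, pow_one]) : IsPGroup 2 (zpowers r))
      haveI := Sylow.unique_of_normal Q inferInstance
      have e : R = Q := Subsingleton.elim _ _
      exact e ▸ hR (mem_zpowers r)
    have hs' : orderOf (⟨s, hmem s hs⟩ : Q) = 2 := by rw [Subgroup.orderOf_mk]; exact hs
    have ht' : orderOf (⟨t, hmem t ht⟩ : Q) = 2 := by rw [Subgroup.orderOf_mk]; exact ht
    rcases hsyl 2 Q with hc | ⟨-, n, ⟨e⟩⟩
    · exact congrArg Subtype.val (CfsgLib.DStarCI.involution_unique hs' ht')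
    · refine (congrArg Subtype.val (e.injective (a₁ := ⟨s, hmem s hs⟩) (a₂ := ⟨t, hmem t ht⟩) ?_) :)
      rw [CfsgLib.ZStar.quat_unique_involution (e ⟨s, hmem s hs⟩) (by rw [MulEquiv.orderOf_eq, hs']),
        CfsgLib.ZStar.quat_unique_involution (e ⟨t, hmem t ht⟩) (by rw [MulEquiv.orderOf_eq, ht'])]
  have hodd : ¬ 2 ∣ Nat.card F := by
    intro h2
    obtain ⟨s, hs⟩ := exists_prime_orderOf_dvd_card' (G := F) 2 h2
    set t : F := ⟨x * s * x⁻¹, hFn.conj_mem s s.2 x⟩ with ht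
    have hto : orderOf t = 2 := by
      rw [← Subgroup.orderOf_coe, ht]
      show orderOf (MulAut.conj x (s : G ⧸ H)) = 2
      rw [MulEquiv.orderOf_eq, Subgroup.orderOf_coe, hs]
    obtain ⟨s', rfl⟩ := hπ.2 s
    obtain ⟨t', ht'⟩ := hπ.2 t
    have e : s' = t' := hinv s' t' (by rw [← orderOf_injective π hπi, hs])
      (by rw [← orderOf_injective π hπi, ht', hto])
    have e2 : (π s' : G ⧸ H) = x * π s' * x⁻¹ := by
      conv_lhs => rw [e, ht']
    have h3 : (π s' : G ⧸ H) = 1 := hxF _ (π s').2 (by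
      conv_rhs => rw [e2]
      group)
    rw [← Subgroup.orderOf_coe, h3, orderOf_one] at hs
    exact absurd hs (by norm_num)
  haveI : IsZGroup C := ⟨fun q hq Q => by
    haveI := Fact.mk hq
    rcases hsyl q Q with hc | ⟨rfl, n, ⟨e⟩⟩
    · exact hc
    · exfalso
      refine hodd (hCcard ▸ ?_)
      refine dvd_trans ?_ ((Q : Subgroup C).card_subgroup_dvd_card)
      rw [Nat.card_congr e.toEquiv, Nat.card_eq_fintype_card, QuaternionGroup.card]
      exact Dvd.dvd.mul_right (by norm_num) _⟩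
  haveI : IsCyclic C := inferInstance
  haveI hFc : IsCyclic F := (MulEquiv.ofBijective π hπ).isCyclic.1 inferInstance
  obtain ⟨g₀, hg₀⟩ := IsCyclic.exists_generator (α := F)
  have hab : ∀ g k : G ⧸ H, g * k * g⁻¹ * k⁻¹ ∈ F := by
    intro g k
    refine centralizer_fitting_le (mem_centralizer_iff.2 fun y hy => ?_)
    obtain ⟨j, hj⟩ := Subgroup.mem_zpowers_iff.1 (hg₀ ⟨y, hy⟩)
    have hy' : y = (g₀ : G ⧸ H) ^ j := by rw [← SubgroupClass.coe_zpow, hj]
    have hconj : ∀ u : G ⧸ H, ∃ i : ℤ, u * (g₀ : G ⧸ H) * u⁻¹ = (g₀ : G ⧸ H) ^ i := fun u => by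
      obtain ⟨i, hi⟩ := Subgroup.mem_zpowers_iff.1 (hg₀ ⟨_, hFn.conj_mem _ g₀.2 u⟩)
      exact ⟨i, by rw [← SubgroupClass.coe_zpow, hi]⟩
    obtain ⟨i, hi⟩ := hconj g
    obtain ⟨i', hi'⟩ := hconj k
    have e1 : g * k * (g₀ : G ⧸ H) * (g * k)⁻¹ = k * g * (g₀ : G ⧸ H) * (k * g)⁻¹ := by
      calc g * k * (g₀ : G ⧸ H) * (g * k)⁻¹ = g * (k * g₀ * k⁻¹) * g⁻¹ := by group
        _ = (g₀ : G ⧸ H) ^ (i * i') := by rw [hi', ← conj_zpow, hi, ← zpow_mul]
        _ = k * (g * g₀ * g⁻¹) * k⁻¹ := by rw [hi, ← conj_zpow, hi', ← zpow_mul, mul_comm]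
        _ = _ := by group
    have e2 : Commute ((k * g)⁻¹ * (g * k)) (g₀ : G ⧸ H) := by
      show (k * g)⁻¹ * (g * k) * g₀ = g₀ * ((k * g)⁻¹ * (g * k))
      calc (k * g)⁻¹ * (g * k) * g₀ = (k * g)⁻¹ * (g * k * g₀ * (g * k)⁻¹) * (g * k) := by group
        _ = _ := by rw [e1]; group
    have e3 : g * k * g⁻¹ * k⁻¹ = (k * g) * ((k * g)⁻¹ * (g * k)) * (k * g)⁻¹ := by group
    have e4 : Commute (g * k * g⁻¹ * k⁻¹) (g₀ : G ⧸ H) := by
      obtain ⟨i'', hi''⟩ := hconj (k * g)⁻¹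
      have h5 := (e2.zpow_right i'').map (MulAut.conj (k * g)).toMonoidHom
      rw [← hi''] at h5
      simp only [MulEquiv.coe_toMonoidHom, MulAut.conj_apply] at h5
      rw [← e3] at h5
      rwa [show k * g * ((k * g)⁻¹ * (g₀ : G ⧸ H) * (k * g)⁻¹⁻¹) * (k * g)⁻¹ = (g₀ : G ⧸ H) by
        group] at h5
    rw [hy']
    exact (e4.zpow_right j).symm.eq
  have hBF : ∀ y : G ⧸ H, IsPiNat Aᶜ (orderOf y) → y ∈ F := by
    intro y hy
    set Y := F ⊔ zpowers y with hY
    have hYB : IsPiNat Aᶜ (Nat.card Y) := by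
      rw [hY, sup_comm]
      exact (IsPiNat.mul (by rw [Nat.card_zpowers]; exact hy) hFB).of_dvd
        (card_sup_dvd_mul (le_normalizer_normal _))
    have hle := le_centralizer_sup_of_trivial_mod (A := zpowers x) (K := Y) (N := F) le_sup_left
      (le_normalizer_normal _) (le_normalizer_normal _)
      (by rw [Nat.card_zpowers]; exact hxA.coprime hFB) (Or.inr inferInstance)
      fun w _ k _ => hab w k
    have hb : Y ⊓ Subgroup.centralizer (zpowers x : Set (G ⧸ H)) = ⊥ := by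
      rw [eq_bot_iff]
      rintro w ⟨hw, hwc⟩
      rw [mem_bot]
      by_contra hw1
      exact h'.cross (mem_centralizer_iff.1 hwc x (mem_zpowers x)) hx1 hw1 hxA (pi_orderOf hYB hw)
    rw [hb, bot_sup_eq] at hle
    exact hle (mem_sup_right (mem_zpowers y))
  have hindex : IsPiNat A F.index := by
    intro q hq hqd
    by_contra hqA
    haveI := Fact.mk hq
    obtain ⟨Q⟩ := (inferInstance : Nonempty (Sylow q (G ⧸ H)))
    refine Q.not_dvd_index (hqd.trans (Subgroup.index_dvd_of_le fun y hy => hBF y ?_))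
    intro r hr hrd
    rwa [isPiNat_card_iff_isPGroup.2 Q.2 r hr (hrd.trans (Subgroup.orderOf_dvd_natCard _ hy))]
  obtain ⟨D, hD⟩ := Subgroup.exists_right_complement'_of_coprime (N := F)
    ((hindex.coprime hFB).symm)
  have hDcard : Nat.card D = F.index := hD.symm.index_eq_card.symm
  refine ⟨H, K, hHn, hKn, lt_of_le_of_ne hHK fun e => hF0 ?_, ⟨C, hCF, hCker⟩, D, ?_⟩
  · rw [← hKmap, ← e, QuotientGroup.map_mk'_self]
  rw [hKmap]
  refine kernel_eq hD hF0 (fun e => ?_) fun d hd hd1 k hk hdk => ?_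
  · rw [e, Subgroup.card_bot] at hDcard
    have hFtop : F = ⊤ := Subgroup.index_eq_one.1 hDcard.symm
    exact hFB p hp (by rwa [hFtop, Subgroup.card_top]) hpA
  · by_contra hk1
    exact h'.cross hdk hd1 hk1 (pi_orderOf (hDcard ▸ hindex) hd) (pi_orderOf hFB hk)

end CfsgLib.Core.PrimeGraph
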