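import Mathlib
import Cfsg.Agent.Lib.CharCN5
import Cfsg.Agent.Lib.CoreBasic
import Cfsg.Agent.Lib.CoreFitting
import Cfsg.Agent.Lib.CoreFpf
import Cfsg.Agent.Lib.CoreFpfComplement
import Cfsg.Agent.Lib.CoreThree

/-!
# Groups in which every nonidentity element has prime order
-/

set_option autoImplicit false

namespace CfsgLib.Core.PrimeOrders

open scoped Pointwise IsMulCommutative

universe u

/-- Every nonidentity element has prime order. -/
abbrev PO (G : Type u) [Group G] : Prop := ∀ x : G, x ≠ 1 → (orderOf x).Prime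

variable {G : Type u} [Group G]

theorem eq_of_commute (hG : PO G) {x y : G} (hx : x ≠ 1) (hy : y ≠ 1) (h : Commute x y) :
    orderOf x = orderOf y := by
  by_contra hne
  have hc := (Nat.coprime_primes (hG x hx) (hG y hy)).2 hne
  have ho := h.orderOf_mul_eq_mul_orderOf_of_coprime hc
  have hxy : x * y ≠ 1 := fun e => by
    rw [e, orderOf_one] at ho
    exact (hG x hx).ne_one (Nat.eq_one_of_mul_eq_one_right ho.symm)
  exact Nat.not_prime_mul (hG x hx).ne_one (hG y hy).ne_one (ho ▸ hG _ hxy)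

theorem pow_orderOf_centralizer (hG : PO G) {x y : G} (hx : x ≠ 1)
    (hy : y ∈ Subgroup.centralizer ({x} : Set G)) : y ^ orderOf x = 1 := by
  rcases eq_or_ne y 1 with rfl | hy1
  · exact one_pow _
  rw [eq_of_commute hG hx hy1 (Subgroup.mem_centralizer_singleton_iff.1 hy).symm]
  exact pow_orderOf_eq_one y

theorem isPGroup_centralizer (hG : PO G) {x : G} (hx : x ≠ 1) :
    IsPGroup (orderOf x) (Subgroup.centralizer ({x} : Set G)) := fun y =>
  ⟨1, Subtype.ext (by rw [pow_one]; exact pow_orderOf_centralizer hG hx y.2)⟩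

theorem isCN [Finite G] (hG : PO G) : Cfsg.IsCNGroup G := fun g hg => by
  haveI := Fact.mk (hG g hg)
  exact (isPGroup_centralizer hG hg).isNilpotent

theorem po_quotient (hG : PO G) (N : Subgroup G) [N.Normal] : PO (G ⧸ N) := by
  intro y hy
  obtain ⟨x, rfl⟩ := QuotientGroup.mk_surjective y
  have hx : x ≠ 1 := fun e => hy (by rw [e]; rfl)
  have hd : orderOf (x : G ⧸ N) ∣ orderOf x := orderOf_map_dvd (QuotientGroup.mk' N) x
  rcases (Nat.dvd_prime (hG x hx)).1 hd with h | h
  · exact absurd (orderOf_eq_one_iff.1 h) hy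
  · rw [h]; exact hG x hx

theorem isSolvable_of_odd [Finite G] (hG : PO G) (hodd : Odd (Nat.card G)) : Group.IsSolvable G :=
  CfsgLib.CN.isSolvable_of_odd _ G rfl hodd (isCN hG)

/-- In an elementary abelian centraliser of an involution commuting is transitive. -/
theorem centralizer_comm (hG : PO G) {t : G} (ht : orderOf t = 2) {a b : G}
    (ha : a ∈ Subgroup.centralizer ({t} : Set G)) (hb : b ∈ Subgroup.centralizer ({t} : Set G)) :
    a * b = b * a := by
  have ht1 : t ≠ 1 := fun e => by rw [e, orderOf_one] at ht; omega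
  have hsq : ∀ y ∈ Subgroup.centralizer ({t} : Set G), y⁻¹ = y := fun y hy => by
    have := pow_orderOf_centralizer hG ht1 hy
    rw [ht, sq] at this
    exact inv_eq_of_mul_eq_one_right this
  have h := hsq _ (mul_mem ha hb)
  rw [mul_inv_rev, hsq a ha, hsq b hb] at h
  exact h.symm

theorem centralizer_eq (hG : PO G) {t u : G} (ht : orderOf t = 2)
    (hu : u ∈ Subgroup.centralizer ({t} : Set G)) (hu1 : u ≠ 1) :
    Subgroup.centralizer ({u} : Set G) = Subgroup.centralizer ({t} : Set G) := by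
  have ht1 : t ≠ 1 := fun e => by rw [e, orderOf_one] at ht; omega
  have hut := Subgroup.mem_centralizer_singleton_iff.1 hu
  have hu2 : orderOf u = 2 := by rw [← ht, eq_of_commute hG ht1 hu1 (Eq.symm hut)]
  have htu : t ∈ Subgroup.centralizer ({u} : Set G) :=
    Subgroup.mem_centralizer_singleton_iff.2 hut.symm
  ext y
  refine ⟨fun hy => Subgroup.mem_centralizer_singleton_iff.2 (centralizer_comm hG hu2 hy htu),
    fun hy => Subgroup.mem_centralizer_singleton_iff.2 (centralizer_comm hG ht hy hu)⟩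

/-- Orbit counting for conjugation. -/
theorem card_orbit_mul [Finite G] (H : Subgroup G) (t : G) (T : Set G)
    (hT : ∀ g ∈ H, g * t * g⁻¹ ∈ T) (hsur : ∀ u ∈ T, ∃ g ∈ H, g * t * g⁻¹ = u) :
    Nat.card H = Nat.card T * Nat.card (H ⊓ Subgroup.centralizer ({t} : Set G) : Subgroup G) := by
  choose c hc hce using hsur
  rw [← Nat.card_prod]
  let u : H → T := fun g => ⟨(g : G) * t * (g : G)⁻¹, hT g g.2⟩
  refine Nat.card_congr
    { toFun := fun g => (u g, ⟨(c _ (u g).2)⁻¹ * (g : G), H.mul_mem (H.inv_mem (hc _ _)) g.2,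
        Subgroup.mem_centralizer_singleton_iff.2 ?_⟩)
      invFun := fun p => ⟨c p.1.1 p.1.2 * p.2.1, mul_mem (hc _ _) p.2.2.1⟩
      left_inv := fun g => Subtype.ext (by simp)
      right_inv := fun p => ?_ }
  · have h := hce _ (u g).2
    have h' : c _ (u g).2 * t = (g : G) * t * (g : G)⁻¹ * c _ (u g).2 := mul_inv_eq_iff_eq_mul.1 h
    calc (c _ (u g).2)⁻¹ * (g : G) * t = (c _ (u g).2)⁻¹ * ((g : G) * t * (g : G)⁻¹ * c _ (u g).2) *
          ((c _ (u g).2)⁻¹ * (g : G)) := by group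
      _ = (c _ (u g).2)⁻¹ * (c _ (u g).2 * t) * ((c _ (u g).2)⁻¹ * (g : G)) := by rw [← h']
      _ = t * ((c _ (u g).2)⁻¹ * (g : G)) := by group
  · have hk := Subgroup.mem_centralizer_singleton_iff.1 p.2.2.2
    have e : u ⟨c p.1.1 p.1.2 * p.2.1, mul_mem (hc _ _) p.2.2.1⟩ = p.1 := Subtype.ext (by
      show c p.1.1 p.1.2 * p.2.1 * t * (c p.1.1 p.1.2 * p.2.1)⁻¹ = p.1.1
      rw [show c p.1.1 p.1.2 * p.2.1 * t * (c p.1.1 p.1.2 * p.2.1)⁻¹ =
        c p.1.1 p.1.2 * ((p.2.1 * t) * p.2.1⁻¹) * (c p.1.1 p.1.2)⁻¹ by group, hk,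
        mul_inv_cancel_right, hce])
    refine Prod.ext e (Subtype.ext ?_)
    show (c _ (u ⟨c p.1.1 p.1.2 * p.2.1, _⟩).2)⁻¹ * (c p.1.1 p.1.2 * p.2.1) = p.2.1
    have e2 : ∀ {v w : T}, v = w → c v.1 v.2 = c w.1 w.2 := fun h => by rw [h]
    rw [e2 e, inv_mul_cancel_left]

/-- A centraliser inverted by an involution. -/
theorem real_centralizer (hG : PO G) {t x : G} (ht : orderOf t = 2) (hx : x ≠ 1)
    (hx2 : orderOf x ≠ 2) (hinv : t * x * t⁻¹ = x⁻¹) [Finite G] :
    (∀ y ∈ Subgroup.centralizer ({x} : Set G), t * y * t⁻¹ = y⁻¹) ∧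
      (∀ y ∈ Subgroup.centralizer ({x} : Set G), ∀ z ∈ Subgroup.centralizer ({x} : Set G),
        y * z = z * y) := by
  classical
  set R := Subgroup.centralizer ({x} : Set G) with hR
  have ht1 : t ≠ 1 := fun e => by rw [e, orderOf_one] at ht; omega
  have ht' : t⁻¹ = t := inv_eq_of_mul_eq_one_right (by rw [← sq, ← ht, pow_orderOf_eq_one])
  have hnorm : ∀ y ∈ R, t * y * t⁻¹ ∈ R := by
    intro y hy
    have h : Commute y x := Subgroup.mem_centralizer_singleton_iff.1 hy
    have h2 : Commute (t * y * t⁻¹) (t * x * t⁻¹) := h.map (MulAut.conj t).toMonoidHom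
    rw [hinv] at h2
    refine Subgroup.mem_centralizer_singleton_iff.2 ?_
    simpa using (Commute.inv_right_iff.1 h2).eq
  let f : R → R := fun y => ⟨(y : G)⁻¹ * (t * y * t⁻¹), mul_mem (inv_mem y.2) (hnorm y y.2)⟩
  have hinj : Function.Injective f := by
    intro y z h
    have h' : (y : G)⁻¹ * (t * y * t⁻¹) = (z : G)⁻¹ * (t * z * t⁻¹) := congrArg Subtype.val h
    by_contra hne
    have hw1 : (z : G) * (y : G)⁻¹ ≠ 1 := fun e => hne (Subtype.ext (mul_inv_eq_one.1 e).symm)
    have hwt : Commute ((z : G) * (y : G)⁻¹) t := by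
      show (z : G) * (y : G)⁻¹ * t = t * ((z : G) * (y : G)⁻¹)
      calc (z : G) * (y : G)⁻¹ * t = (z : G) * ((y : G)⁻¹ * (t * y * t⁻¹)) * (t * (y : G)⁻¹) := by group
        _ = (z : G) * ((z : G)⁻¹ * (t * z * t⁻¹)) * (t * (y : G)⁻¹) := by rw [h']
        _ = _ := by group
    have h1 := eq_of_commute hG hw1 ht1 hwt
    have h2 := eq_of_commute hG hw1 hx
      (Subgroup.mem_centralizer_singleton_iff.1 (mul_mem z.2 (inv_mem y.2)))
    exact hx2 (h2 ▸ h1.trans ht)
  have hall : ∀ y ∈ R, t * y * t⁻¹ = y⁻¹ := by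
    intro y hy
    obtain ⟨z, hz⟩ := Finite.injective_iff_surjective.1 hinj ⟨y, hy⟩
    have hz' : (z : G)⁻¹ * (t * z * t⁻¹) = y := congrArg Subtype.val hz
    rw [← hz', ht']
    have htt : t * t = 1 := by rw [← sq, ← ht, pow_orderOf_eq_one]
    calc t * ((z : G)⁻¹ * (t * z * t)) * t = t * (z : G)⁻¹ * t * z * (t * t) := by group
      _ = _ := by rw [htt, mul_one, mul_inv_rev, mul_inv_rev, mul_inv_rev, inv_inv, ht']; group
  refine ⟨hall, fun y hy z hz => ?_⟩
  have h := hall _ (mul_mem hy hz)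
  rw [show t * (y * z) * t⁻¹ = (t * y * t⁻¹) * (t * z * t⁻¹) by group, hall y hy, hall z hz,
    mul_inv_rev] at h
  simpa using congrArg (·⁻¹) h.symm

/-- The data of one odd prime: the number of its elements times the centraliser order. -/
theorem real_prime_data [Finite G] (hG : PO G) {r : ℕ} [Fact r.Prime] (hr2 : r ≠ 2) {t x : G}
    (ht : orderOf t = 2) (hx : orderOf x = r) (hinv : t * x * t⁻¹ = x⁻¹) (P : Sylow r G) :
    (∀ y : G, orderOf y = r →
      Nat.card (Subgroup.centralizer ({y} : Set G)) = Nat.card (P : Subgroup G) ∧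
      ∃ s : G, orderOf s = 2 ∧ s * y * s⁻¹ = y⁻¹) ∧
    2 * (Nat.card {y : G // orderOf y = r} * Nat.card (P : Subgroup G)) =
      Nat.card G * (Nat.card (P : Subgroup G) - 1) := by
  classical
  have hr : r.Prime := Fact.out
  have hx1 : x ≠ 1 := fun e => by rw [e, orderOf_one] at hx; exact hr.ne_one hx.symm
  set R := Subgroup.centralizer ({x} : Set G) with hR
  have ht1 : t ≠ 1 := fun e => by rw [e, orderOf_one] at ht; omega
  obtain ⟨hRinv, hRcomm⟩ := real_centralizer hG ht hx1 (by rw [hx]; exact hr2) hinv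
  have hxR : x ∈ R := Subgroup.mem_centralizer_singleton_iff.2 rfl
  have hRp : IsPGroup r R := hx ▸ isPGroup_centralizer hG hx1
  have hRy : ∀ y ∈ R, y ≠ 1 → Subgroup.centralizer ({y} : Set G) = R := by
    intro y hy hy1
    have hyo : orderOf y = r := by
      rw [eq_of_commute hG hy1 hx1 (Subgroup.mem_centralizer_singleton_iff.1 hy), hx]
    obtain ⟨-, hcy⟩ := real_centralizer hG ht hy1 (by rw [hyo]; exact hr2) (hRinv y hy)
    refine le_antisymm (fun z hz => Subgroup.mem_centralizer_singleton_iff.2 ?_)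
      (fun z hz => Subgroup.mem_centralizer_singleton_iff.2 (hRcomm z hz y hy))
    exact hcy z hz x (Subgroup.mem_centralizer_singleton_iff.2 (hRcomm x hxR y hy))
  -- `R` is a Sylow subgroup
  obtain ⟨P0, hP0⟩ := hRp.exists_le_sylow
  have hRP0 : R = (P0 : Subgroup G) := by
    refine le_antisymm hP0 ?_
    haveI : Nontrivial (P0 : Subgroup G) :=
      ⟨⟨⟨x, hP0 hxR⟩, 1, fun e => hx1 (congrArg Subtype.val e)⟩⟩
    haveI := P0.2.center_nontrivial
    obtain ⟨⟨z, hz⟩, hz1⟩ := exists_ne (1 : Subgroup.center (P0 : Subgroup G))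
    have hzR : (z : G) ∈ R := Subgroup.mem_centralizer_singleton_iff.2
      (congrArg Subtype.val (Subgroup.mem_center_iff.1 hz ⟨x, hP0 hxR⟩)).symm
    have hz1' : (z : G) ≠ 1 := fun e => hz1 (Subtype.ext (Subtype.ext e))
    rw [← hRy _ hzR hz1']
    intro w hw
    exact Subgroup.mem_centralizer_singleton_iff.2
      (congrArg Subtype.val (Subgroup.mem_center_iff.1 hz ⟨w, hw⟩))
  have hSc : ∀ Q : Sylow r G, Nat.card (Q : Subgroup G) = Nat.card R := fun Q => by
    rw [hRP0, Sylow.card_eq_multiplicity, Sylow.card_eq_multiplicity]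
  have hPP : Nat.card (P : Subgroup G) = Nat.card R := hSc P
  -- every element of order `r` is conjugate into `R`
  have hconj : ∀ y : G, orderOf y = r → ∃ g : G, g * y * g⁻¹ ∈ R := by
    intro y hy
    obtain ⟨Q, hQ⟩ := (IsPGroup.of_card (n := 1)
      (by rw [Nat.card_zpowers, hy, pow_one]) : IsPGroup r (Subgroup.zpowers y)).exists_le_sylow
    obtain ⟨g, hg⟩ := MulAction.exists_smul_eq G Q P0
    refine ⟨g, hRP0 ▸ ?_⟩
    rw [← hg, Sylow.coe_subgroup_smul, Subgroup.mem_pointwise_smul_iff_inv_smul_mem]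
    simpa [mul_assoc] using hQ (Subgroup.mem_zpowers y)
  have hfirst : ∀ y : G, orderOf y = r →
      Nat.card (Subgroup.centralizer ({y} : Set G)) = Nat.card (P : Subgroup G) ∧
      ∃ s : G, orderOf s = 2 ∧ s * y * s⁻¹ = y⁻¹ := by
    intro y hy
    obtain ⟨g, hg⟩ := hconj y hy
    have hg1 : g * y * g⁻¹ ≠ 1 := fun e => by
      rw [conj_eq_one_iff] at e
      rw [e, orderOf_one] at hy; exact hr.ne_one hy.symm
    refine ⟨?_, g⁻¹ * t * g, ?_, ?_⟩
    · rw [hPP, ← hRy _ hg hg1]
      refine Nat.card_congr ((MulAut.conj g).toEquiv.subtypeEquiv fun z => ?_)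
      simp only [Subgroup.mem_centralizer_singleton_iff, MulEquiv.toEquiv_eq_coe, EquivLike.coe_coe,
        MulAut.conj_apply]
      constructor
      · intro h
        calc g * z * g⁻¹ * (g * y * g⁻¹) = g * (z * y) * g⁻¹ := by group
          _ = _ := by rw [h]; group
      · intro h
        calc z * y = g⁻¹ * (g * z * g⁻¹ * (g * y * g⁻¹)) * g := by group
          _ = _ := by rw [h]; group
    · rw [← ht]
      simpa using (MulAut.conj g⁻¹).orderOf_eq t
    · have h := hRinv _ hg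
      calc g⁻¹ * t * g * y * (g⁻¹ * t * g)⁻¹ = g⁻¹ * (t * (g * y * g⁻¹) * t⁻¹) * g := by group
        _ = y⁻¹ := by rw [h]; group
  refine ⟨hfirst, ?_⟩
  -- the normaliser
  set Nr := Subgroup.normalizer (R : Set G) with hNr
  have htN : t ∈ Nr := Subgroup.mem_normalizer_fintype fun y hy => by
    show t * y * t⁻¹ ∈ R
    rw [hRinv y hy]; exact inv_mem hy
  have htR : t ∉ R := fun h => hr2 (by
    rw [← hx, ← eq_of_commute hG ht1 hx1 (Subgroup.mem_centralizer_singleton_iff.1 h), ht])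
  let Tt : Set G := {u | t⁻¹ * u ∈ R}
  have hTmem : ∀ g ∈ Nr, g * t * g⁻¹ ∈ Tt := by
    intro g hg
    show t⁻¹ * (g * t * g⁻¹) ∈ R
    refine Subgroup.mem_centralizer_singleton_iff.2 ?_
    have hy : g⁻¹ * x * g ∈ R := by
      simpa using (Subgroup.mem_normalizer_iff.1 (inv_mem hg) x).1 hxR
    have h1 : g * t * g⁻¹ * x * (g * t * g⁻¹)⁻¹ = x⁻¹ := by
      calc g * t * g⁻¹ * x * (g * t * g⁻¹)⁻¹ = g * (t * (g⁻¹ * x * g) * t⁻¹) * g⁻¹ := by group
        _ = x⁻¹ := by rw [hRinv _ hy]; group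
    have h2 : t⁻¹ * x⁻¹ * t = x := by
      rw [← hinv]; group
    calc t⁻¹ * (g * t * g⁻¹) * x = t⁻¹ * (g * t * g⁻¹ * x * (g * t * g⁻¹)⁻¹) * t *
          (t⁻¹ * (g * t * g⁻¹)) := by group
      _ = x * (t⁻¹ * (g * t * g⁻¹)) := by rw [h1, h2]
  have hTsur : ∀ u ∈ Tt, ∃ g ∈ Nr, g * t * g⁻¹ = u := by
    intro u hu
    -- square roots in a group of odd order
    have hodd : (2 : ℕ).Coprime (orderOf (t⁻¹ * u)) := by
      obtain ⟨k, hk⟩ := IsPGroup.iff_orderOf.1 hRp ⟨_, hu⟩
      rw [Subgroup.orderOf_mk] at hk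
      rw [hk]
      exact ((Nat.coprime_primes Nat.prime_two hr).2 hr2.symm).pow_right k
    obtain ⟨k, hk⟩ := exists_pow_eq_self_of_coprime hodd
    set w := (t⁻¹ * u) ^ k with hw
    have hwR : w ∈ R := pow_mem hu k
    refine ⟨w⁻¹, Subgroup.le_normalizer (inv_mem hwR), ?_⟩
    have h1 := hRinv w⁻¹ (inv_mem hwR)
    rw [inv_inv] at h1
    calc w⁻¹ * t * w⁻¹⁻¹ = t * ((t⁻¹ * w⁻¹ * t) * w) := by group
      _ = t * (w * w) := by
        congr 2
        have := hRinv w⁻¹ (inv_mem hwR)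
        rw [inv_inv] at this
        conv_rhs => rw [← this]
        rw [inv_eq_of_mul_eq_one_right (by rw [← sq, ← ht, pow_orderOf_eq_one] : t * t = 1)]
      _ = u := by rw [← sq, hw, ← pow_mul, mul_comm, pow_mul, hk, mul_inv_cancel_left]
  have hT : Nat.card Tt = Nat.card R :=
    Nat.card_congr ((Equiv.mulLeft t⁻¹).subtypeEquiv fun u => Iff.rfl)
  have hstab : Nr ⊓ Subgroup.centralizer ({t} : Set G) = Subgroup.zpowers t := by
    refine le_antisymm (fun g ⟨hg, hgc⟩ => ?_)
      (le_inf (Subgroup.zpowers_le.2 htN) (Subgroup.zpowers_le.2 (Subgroup.mem_centralizer_singleton_iff.2 rfl)))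
    by_cases hg1 : g = 1
    · rw [hg1]; exact one_mem _
    have hgt : Commute g t := Subgroup.mem_centralizer_singleton_iff.1 hgc
    have hg2 : orderOf g = 2 := (eq_of_commute hG hg1 ht1 hgt).trans ht
    -- `g * t` centralises `R`
    by_contra hne
    have hgt1 : g * t ≠ 1 := fun e => hne (by
      rw [eq_inv_of_mul_eq_one_left e]; exact inv_mem (Subgroup.mem_zpowers t))
    have hd : Commute (g * t) t := hgt.mul_left (Commute.refl t)
    -- `g` or `g * t` fixes a nonidentity element of `R`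
    set y := g * x * g⁻¹ with hy
    have hyR : y ∈ R := (Subgroup.mem_normalizer_iff.1 hg x).1 hxR
    have hgy : g * y * g⁻¹ = x := by
      have hgg : g * g = 1 := by rw [← sq, ← hg2, pow_orderOf_eq_one]
      rw [hy, show g * (g * x * g⁻¹) * g⁻¹ = (g * g) * x * (g * g)⁻¹ by group, hgg, one_mul, inv_one,
        mul_one]
    by_cases hxy : x * y = 1
    · -- `g` inverts `x`
      have : Commute (g * t) x := by
        show g * t * x = x * (g * t)
        have h1 : g * t * x = g * (t * x * t⁻¹) * g⁻¹ * (g * t) := by group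
        rw [h1, hinv, show g * x⁻¹ * g⁻¹ = (g * x * g⁻¹)⁻¹ by group, ← hy, ← eq_inv_of_mul_eq_one_left hxy]
      exact hr2 (hx ▸ (eq_of_commute hG hgt1 hx1 this).symm.trans
        ((eq_of_commute hG hgt1 ht1 hd).trans ht))
    · have hc : Commute g (x * y) := by
        show g * (x * y) = x * y * g
        rw [show g * (x * y) = (g * x * g⁻¹) * (g * y * g⁻¹) * g by group, hgy, ← hy, hRcomm y hyR x hxR]
      have h1 := eq_of_commute hG hg1 hxy hc
      have h2 := eq_of_commute hG hxy hx1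
        (Subgroup.mem_centralizer_singleton_iff.1 (mul_mem hxR hyR))
      exact hr2 (hx ▸ h2.symm.trans (h1.symm.trans hg2))
  have hNcard : Nat.card Nr = 2 * Nat.card R := by
    rw [card_orbit_mul Nr t Tt hTmem hTsur, hstab, hT, Nat.card_zpowers, ht, mul_comm]
  -- counting elements of order `r`
  have hsyl : Nat.card {y : G // orderOf y = r} = Nat.card (Sylow r G) * (Nat.card R - 1) := by
    have hQ1 : ∀ (Q : Sylow r G) (y : G), y ∈ (Q : Subgroup G) → y ≠ 1 →
        (Q : Subgroup G) ≤ Subgroup.centralizer ({y} : Set G) := by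
      intro Q y hy hy1 z hz
      obtain ⟨g, hg⟩ := MulAction.exists_smul_eq G P0 Q
      rw [← hg, Sylow.coe_subgroup_smul, Subgroup.mem_pointwise_smul_iff_inv_smul_mem, ← hRP0] at hy hz
      refine Subgroup.mem_centralizer_singleton_iff.2 ((MulAut.conj g)⁻¹.injective ?_)
      rw [map_mul, map_mul]
      exact hRcomm _ hz _ hy
    have hord : ∀ (Q : Sylow r G) (y : G), y ∈ (Q : Subgroup G) → y ≠ 1 → orderOf y = r := by
      intro Q y hy hy1
      obtain ⟨k, hk⟩ := IsPGroup.iff_orderOf.1 Q.2 ⟨y, hy⟩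
      rw [Subgroup.orderOf_mk] at hk
      have := hG y hy1
      rw [hk] at this
      rw [hk, Nat.Prime.eq_one_of_pow this, pow_one]
    let e : (Σ Q : Sylow r G, {y : (Q : Subgroup G) // y ≠ 1}) → {y : G // orderOf y = r} :=
      fun s => ⟨(s.2.1 : G), hord s.1 _ s.2.1.2 fun h => s.2.2 (Subtype.ext h)⟩
    have he : Function.Bijective e := by
      refine ⟨?_, fun y => ?_⟩
      · rintro ⟨Q, ⟨a, ha⟩, ha1⟩ ⟨Q', ⟨b, hb⟩, hb1⟩ h
        obtain rfl : a = b := congrArg Subtype.val h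
        have hne : a ≠ 1 := fun h => ha1 (Subtype.ext h)
        have hle : ∀ Q : Sylow r G, a ∈ (Q : Subgroup G) →
            (Q : Subgroup G) = Subgroup.centralizer ({a} : Set G) := fun Q hQ => by
          refine Subgroup.eq_of_le_of_card_ge (hQ1 Q a hQ hne) ?_
          rw [(hfirst a (hord Q a hQ hne)).1, hSc Q, hPP]
        obtain rfl : Q = Q' := Sylow.ext ((hle Q ha).trans (hle Q' hb).symm)
        rfl
      · obtain ⟨Q, hQ⟩ := (IsPGroup.of_card (n := 1)
          (by rw [Nat.card_zpowers, y.2, pow_one]) : IsPGroup r (Subgroup.zpowers y.1)).exists_le_sylow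
        exact ⟨⟨Q, ⟨y.1, hQ (Subgroup.mem_zpowers _)⟩, fun h => by
          have h' : y.1 = 1 := congrArg Subtype.val h
          have := y.2
          rw [h', orderOf_one] at this
          exact hr.ne_one this.symm⟩, rfl⟩
    haveI := Fintype.ofFinite (Sylow r G)
    have hfib : ∀ Q : Sylow r G, Nat.card {y : (Q : Subgroup G) // y ≠ 1} = Nat.card R - 1 := by
      intro Q
      haveI := Fintype.ofFinite (Q : Subgroup G)
      rw [Nat.card_eq_fintype_card, Fintype.card_subtype_compl, Fintype.card_subtype_eq,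
        ← Nat.card_eq_fintype_card, hSc Q]
    rw [← Nat.card_congr (Equiv.ofBijective e he), Nat.card_sigma,
      Finset.sum_congr rfl (g := fun _ => Nat.card R - 1) (fun Q _ => hfib Q), Finset.sum_const,
      Finset.card_univ, smul_eq_mul, ← Nat.card_eq_fintype_card]
  have hn : Nat.card (Sylow r G) * (2 * Nat.card R) = Nat.card G := by
    rw [← hNcard, P0.card_eq_index_normalizer, mul_comm, hNr, hRP0]
    exact Subgroup.card_mul_index _
  rw [hsyl, hPP, ← hn]
  ring

end CfsgLib.Core.PrimeOrders
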