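import Cfsg.Agent.Lib.CoreRankTwoP

/-!
# `p`-groups with a noncentral normal subgroup of order `p ^ 2`
-/

set_option autoImplicit false

universe u

namespace CfsgLib.Core.RankTwoP

open Subgroup
open scoped commutatorElement

set_option linter.unusedSectionVars false

variable {G : Type u} [Group G] [Finite G] {p : ℕ} [hp : Fact p.Prime]

theorem zpowers_normal {w : G} (S : Set G) (hS : closure S = ⊤)
    (h : ∀ s ∈ S, s * w * s⁻¹ ∈ zpowers w) : (zpowers w).Normal := by
  refine normalizer_eq_top_iff.mp (top_le_iff.mp (hS.ge.trans ((closure_le _).mpr ?_)))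
  intro s hs
  have hle : ∀ v ∈ zpowers w, s * v * s⁻¹ ∈ zpowers w := fun v hv => by
    obtain ⟨k, rfl⟩ := mem_zpowers_iff.mp hv
    rw [← conj_zpow]
    exact zpow_mem (h s hs) k
  have hmap : (zpowers w).map (MulAut.conj s).toMonoidHom = zpowers w :=
    CfsgLib.Core.eq_of_le_of_card_le (by rintro _ ⟨v, hv, rfl⟩; exact hle v hv)
      (by rw [card_map_of_injective (f := (MulAut.conj s).toMonoidHom) (MulAut.conj s).injective])
  refine Subgroup.mem_normalizer_iff.mpr fun v => ⟨hle v, fun hv => ?_⟩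
  rw [← hmap] at hv
  obtain ⟨t, ht, htv⟩ := hv
  have : t = v := (MulAut.conj s).injective htv
  exact this ▸ ht

theorem metacyclic_of_zpowers {b a : G} [hN : (zpowers b).Normal]
    (h : ∀ g : G, ∃ i : ℤ, (a ^ i)⁻¹ * g ∈ zpowers b) : Cfsg.IsMetacyclic G := by
  refine ⟨zpowers b, hN, inferInstance,
    isCyclic_iff_exists_zpowers_eq_top.mpr ⟨QuotientGroup.mk' _ a, eq_top_iff.mpr fun w _ => ?_⟩⟩
  obtain ⟨g, rfl⟩ := QuotientGroup.mk'_surjective _ w
  obtain ⟨i, hi⟩ := h g
  exact mem_zpowers_iff.mpr ⟨i, by rw [← map_zpow]; exact QuotientGroup.eq.mpr hi⟩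

theorem card_le_prime {E H : Subgroup G} (hE : Nat.card E = p ^ 2) (hH : H ≤ E) (hne : H ≠ E) :
    Nat.card H ≤ p := by
  obtain ⟨j, hj, hj'⟩ := (Nat.dvd_prime_pow hp.out).mp (hE ▸ card_dvd_of_le hH)
  rcases Nat.lt_or_ge j 2 with h | h
  · rw [hj']
    calc p ^ j ≤ p ^ 1 := Nat.pow_le_pow_right hp.out.pos (by omega)
      _ = p := pow_one p
  · exact absurd (CfsgLib.Core.eq_of_le_of_card_le hH
      (by rw [hE, hj', show j = 2 by omega])) hne

theorem exists_center_gen (hG : IsPGroup p G) (E : Subgroup G) [E.Normal]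
    (hEc : Nat.card E = p ^ 2) (hEp : ∀ e ∈ E, e ^ p = 1) {s : G}
    (hs : ¬ ∀ e ∈ E, Commute s e) :
    ∃ u : G, u ∈ E ∧ u ∈ center G ∧ orderOf u = p ∧
      (∀ e ∈ E, e ∈ center G → e ∈ zpowers u) ∧ (∀ g : G, ∀ e ∈ E, ⁅g, e⁆ ∈ zpowers u) ∧
      (∀ t e : G, e ∈ E → Commute t e → (¬ ∀ e' ∈ E, Commute t e') → e ∈ zpowers u) := by
  haveI := hG.isNilpotent
  have hE1 : E ≠ ⊥ := fun h => by
    rw [h, card_bot] at hEc
    exact absurd hEc.symm (Nat.one_lt_pow two_ne_zero hp.out.one_lt).ne'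
  set Z := E ⊓ center G with hZ
  have hZE : Z ≠ E := fun h => hs fun e he => by
    have : e ∈ Z := h.ge he
    exact Subgroup.mem_center_iff.mp this.2 s
  obtain ⟨u, huZ, hu1⟩ : ∃ u ∈ Z, u ≠ 1 :=
    (Subgroup.bot_or_exists_ne_one Z).resolve_left (CfsgLib.Core.nilpotent_inf_center_ne_bot hE1)
  have huo : orderOf u = p := orderOf_eq_prime (hEp u huZ.1) hu1
  have key : ∀ H : Subgroup G, H ≤ E → H ≠ E → u ∈ H → H = zpowers u := fun H hH hne hu =>
    (CfsgLib.Core.eq_of_le_of_card_le (zpowers_le.mpr hu)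
      (by rw [Nat.card_zpowers, huo]; exact card_le_prime hEc hH hne)).symm
  have hZu : Z = zpowers u := key Z inf_le_left hZE huZ
  refine ⟨u, huZ.1, huZ.2, huo, fun e he hec => hZu ▸ ⟨he, hec⟩, ?_, ?_⟩
  · have hle : ⁅E, (⊤ : Subgroup G)⁆ ≤ E := commutator_le_of_le_normalizer le_normalizer_of_normal
    have hne : ⁅E, (⊤ : Subgroup G)⁆ ≠ E :=
      CfsgLib.Core.commutator_lt_of_isPGroup (p := p) (hG.to_subgroup E) (hG.to_subgroup ⊤)
        le_normalizer_of_normal hE1
    intro g e he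
    have hmem : ⁅e, g⁆ ∈ ⁅E, (⊤ : Subgroup G)⁆ := commutator_mem_commutator he (mem_top g)
    rw [← commutatorElement_inv]
    refine inv_mem ?_
    by_cases h0 : ⁅E, (⊤ : Subgroup G)⁆ = ⊥
    · rw [h0, mem_bot] at hmem
      rw [hmem]; exact one_mem _
    · obtain ⟨d, hd, hd1⟩ := (Subgroup.bot_or_exists_ne_one _).resolve_left
        (CfsgLib.Core.nilpotent_inf_center_ne_bot h0)
      have hdu : d ∈ zpowers u := hZu ▸ ⟨hle hd.1, hd.2⟩
      have hzd : zpowers d = zpowers u := CfsgLib.Core.eq_of_le_of_card_le (zpowers_le.mpr hdu)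
        (by rw [Nat.card_zpowers, Nat.card_zpowers, huo, orderOf_eq_prime (hEp d (hle hd.1)) hd1])
      have := key _ hle hne (zpowers_le.mp (hzd.ge.trans (zpowers_le.mpr hd.1)))
      exact this.le hmem
  · intro t e he hte hnt
    refine (key (E ⊓ centralizer {t}) inf_le_left (fun h => hnt fun e' he' => ?_) ⟨huZ.1, ?_⟩).le
      ⟨he, mem_centralizer_singleton_iff.mpr hte.eq.symm⟩
    · exact (mem_centralizer_singleton_iff.mp (h.ge he').2).symm
    · exact mem_centralizer_singleton_iff.mpr (Subgroup.mem_center_iff.mp huZ.2 t).symm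

/-- If every element with `p`-th power in `Ω` centralises `Ω`, the group is metacyclic. -/
theorem noncentral_case (hp2 : p ≠ 2) : ∀ (n : ℕ) {G : Type u} [Group G] [Finite G],
    Nat.card G = n → IsPGroup p G → ∀ E : Subgroup G, (∀ x, x ∈ E ↔ x ^ p = 1) →
    Nat.card E ≤ p ^ 2 → (∀ g : G, g ^ p ∈ E → ∀ e ∈ E, Commute g e) →
    Cfsg.IsMetacyclic G := by
  intro n
  induction n using Nat.strong_induction_on with
  | _ n ih =>
  intro G _ _ hn hG E hE hEcard hb
  by_cases hcen : E ≤ center G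
  · exact (central_case hp2 _ hn hG E hE hcen hEcard).1
  haveI hEn : E.Normal := ⟨fun x hx g => by
    rw [hE, conj_pow, (hE x).mp hx, mul_one, mul_inv_cancel]⟩
  obtain ⟨e₀, he₀, hnc⟩ := SetLike.not_le_iff_exists.mp hcen
  obtain ⟨s, hs⟩ : ∃ s : G, ¬ ∀ e ∈ E, Commute s e := by
    by_contra h
    push Not at h
    exact hnc (Subgroup.mem_center_iff.mpr fun g => h g e₀ he₀)
  have hEp : ∀ e ∈ E, e ^ p = 1 := fun e he => (hE e).mp he
  have hEq : Nat.card E = p ^ 2 := by
    refine le_antisymm hEcard (not_lt.mp fun h => hs fun e he => ?_)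
    haveI := isCyclic_of_small hp2 hG E (fun x hx => (hE x).mpr hx) h
    letI : CommGroup G := IsCyclic.commGroup
    exact mul_comm s e
  obtain ⟨u, huE, huc, huo, hZ, hEG, hfix⟩ := exists_center_gen hG E hEq hEp hs
  set Z := zpowers u with hZdef
  have hZE : Z ≤ E := zpowers_le.mpr huE
  have hZc : Z ≤ center G := zpowers_le.mpr huc
  haveI hZn : Z.Normal := ⟨fun x hx g => by
    rwa [Subgroup.mem_center_iff.mp (hZc hx) g, mul_inv_cancel_right]⟩
  have hZgen : ∀ z ∈ Z, z ≠ 1 → u ∈ zpowers z := fun z hz hz1 => by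
    have : zpowers z = Z := CfsgLib.Core.eq_of_le_of_card_le (zpowers_le.mpr hz)
      (by rw [Nat.card_zpowers, Nat.card_zpowers, huo,
        orderOf_eq_prime (hEp z (hZE hz)) hz1])
    exact this.ge (mem_zpowers u)
  haveI hEcomm : IsMulCommutative E := ⟨⟨IsPGroup.commutative_of_card_eq_prime_sq (p := p) hEq⟩⟩
  set C := centralizer (E : Set G) with hC
  have hEC : E ≤ C := le_centralizer_iff_isMulCommutative.mpr hEcomm
  have hCc : ∀ {c e : G}, c ∈ C → e ∈ E → Commute c e := fun {c e} hc he =>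
    (mem_centralizer_iff.mp hc e he).symm
  have hbC : ∀ g : G, g ^ p ∈ E → g ∈ C := fun g hg =>
    mem_centralizer_iff.mpr fun e he => (hb g hg e he).eq.symm
  have hKC : ∀ x ∈ C, x ^ p = 1 → ∀ y ∈ C, Commute x y := fun x _ hx y hy =>
    (hCc hy ((hE x).mpr hx)).symm
  have hVC : ∀ x : G, x ^ p ∈ Z → x ∈ C := fun x hx => hbC x (hZE hx)
  have hZcomm : ∀ z ∈ Z, ∀ g : G, Commute z g := fun z hz g =>
    (Subgroup.mem_center_iff.mp (hZc hz) g).symm
  let V : Subgroup G :=
    { carrier := {x | x ^ p ∈ Z}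
      one_mem' := by show (1 : G) ^ p ∈ Z; rw [one_pow]; exact one_mem Z
      mul_mem' := fun {x y} hx hy => by
        show (x * y) ^ p ∈ Z
        rw [pth_mul hp2 hG hKC (hVC x hx) (hVC y hy) (hZcomm _ hx y)]
        exact mul_mem hx hy
      inv_mem' := fun {x} hx => by
        show x⁻¹ ^ p ∈ Z
        rw [inv_pow]; exact inv_mem hx }
  have hEV : E ≤ V := fun e he => by show e ^ p ∈ Z; rw [hEp e he]; exact one_mem Z
  have hVgen : ∀ w ∈ V, w ∉ E → ∀ v ∈ V, ∃ i : ℤ, (w ^ i)⁻¹ * v ∈ E := by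
    intro w hw hwE v hv
    have hwp : w ^ p ≠ 1 := fun h => hwE ((hE w).mpr h)
    have h1 : zpowers (w ^ p) = Z := CfsgLib.Core.eq_of_le_of_card_le (zpowers_le.mpr hw)
      (by rw [Nat.card_zpowers, Nat.card_zpowers, huo,
        orderOf_eq_prime (hEp _ (hZE hw)) hwp])
    obtain ⟨i, hi⟩ := mem_zpowers_iff.mp (h1.ge hv)
    refine ⟨i, (hE _).mpr (laffey hp2 hG _ C rfl hKC _ (zpow_mem (hVC w hw) i) _ (hVC v hv) ?_)⟩
    rw [← hi, ← zpow_natCast (w ^ i), ← zpow_mul, ← zpow_natCast w p, ← zpow_mul, mul_comm]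
  have hVab : ∀ v ∈ V, ∀ w ∈ V, Commute v w := by
    intro v hv w hw
    by_cases hvE : v ∈ E
    · exact (hCc (hVC w hw) hvE).symm
    obtain ⟨i, hi⟩ := hVgen v hv hvE w hw
    rw [← mul_inv_cancel_left (v ^ i) w]
    exact (Commute.self_zpow v i).mul_right (hCc (hVC v hv) hi)
  set f := QuotientGroup.mk' Z with hf
  have hZV : Z ≤ V := hZE.trans hEV
  have hV' : ∀ w : G ⧸ Z, w ∈ V.map f ↔ w ^ p = 1 := by
    intro w
    obtain ⟨x, rfl⟩ := QuotientGroup.mk'_surjective Z w
    rw [← map_pow, hf, QuotientGroup.mk'_apply Z (x ^ p), QuotientGroup.eq_one_iff]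
    constructor
    · rintro ⟨y, hy, hyx⟩
      have h1 : y⁻¹ * x ∈ V := hZV (QuotientGroup.eq.mp hyx)
      have h2 := mul_mem hy h1
      rwa [mul_inv_cancel_left] at h2
    · exact fun hx => ⟨x, hx, rfl⟩
  let φ : V →* Z :=
    { toFun := fun x => ⟨(x : G) ^ p, x.2⟩
      map_one' := Subtype.ext (by simp)
      map_mul' := fun x y => Subtype.ext
        (pth_mul hp2 hG hKC (hVC x x.2) (hVC y y.2) (hZcomm _ x.2 y)) }
  have hker : φ.ker = E.subgroupOf V := by
    ext x
    rw [MonoidHom.mem_ker, mem_subgroupOf, hE, Subtype.ext_iff]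
    rfl
  have hV'card : Nat.card ↥(V.map f) ≤ p ^ 2 := by
    have h1 := card_mul_index φ.ker
    rw [index_ker, hker, ← card_map_of_injective V.subtype_injective, subgroupOf_map_subtype,
      inf_eq_left.mpr hEV, hEq] at h1
    have h2 := card_inf_mul_relIndex Z V
    rw [inf_eq_left.mpr hZV, hZdef, Nat.card_zpowers, huo, show (zpowers u).relIndex V =
      Nat.card ↥(V.map f) by rw [← relIndex_ker, hf, QuotientGroup.ker_mk', hZdef]] at h2
    have h3 : p * Nat.card ↥(V.map f) ≤ p * p ^ 2 := by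
      rw [h2, ← h1]
      calc p ^ 2 * Nat.card φ.range ≤ p ^ 2 * Nat.card Z :=
            Nat.mul_le_mul_left _ (card_le_card_group _)
        _ = p * p ^ 2 := by rw [hZdef, Nat.card_zpowers, huo, mul_comm]
    exact Nat.le_of_mul_le_mul_left h3 hp.out.pos
  have hbR : ∀ g : G ⧸ Z, g ^ p ∈ V.map f → ∀ e ∈ V.map f, Commute g e := by
    intro w hw e he
    obtain ⟨g, rfl⟩ := QuotientGroup.mk'_surjective Z w
    obtain ⟨v, hv, rfl⟩ := he
    have hgp : g ^ p ∈ V := by
      rw [← map_pow] at hw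
      obtain ⟨y, hy, hyx⟩ := hw
      have := mul_mem hy (hZV (QuotientGroup.eq.mp hyx))
      rwa [mul_inv_cancel_left] at this
    rw [Commute, SemiconjBy, ← commutatorElement_eq_one_iff_mul_comm, hf, ← map_commutatorElement]
    refine (QuotientGroup.eq_one_iff _).mpr ?_
    by_cases hgE : g ^ p ∈ E
    · have hgC := hbC g hgE
      have hcE : ⁅g, v⁆ ∈ E := (hE _).mpr (comm_pow hp2 hG hKC (hVC v hv) hgC (hZcomm _ hv g))
      refine hfix s _ hcE ?_ hs
      set g' := s * g * s⁻¹ with hg'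
      set v' := s * v * s⁻¹ with hv'
      have hcn : ∀ c ∈ C, s * c * s⁻¹ ∈ C := fun c hc => mem_centralizer_iff.mpr fun e he => by
        have h1 : Commute c (s⁻¹ * e * s) := hCc hc (by simpa using hEn.conj_mem e he s⁻¹)
        have h2 : Commute (s * c * s⁻¹) (s * (s⁻¹ * e * s) * s⁻¹) := (Commute.conj_iff s).mpr h1
        rw [show s * (s⁻¹ * e * s) * s⁻¹ = e by group] at h2
        exact h2.eq.symm
      have hd : g⁻¹ * g' ∈ V := by
        show (g⁻¹ * g') ^ p ∈ Z
        have hc1 : Commute (g⁻¹ ^ p) g' := by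
          rw [inv_pow]; exact (hCc (hcn g hgC) (inv_mem hgE)).symm
        rw [pth_mul hp2 hG hKC (inv_mem hgC) (hcn g hgC) hc1, inv_pow, conj_pow,
          show s * g ^ p * s⁻¹ = ⁅s, g ^ p⁆ * g ^ p by rw [commutatorElement_def]; group,
          (hZcomm _ (hEG s _ hgE) (g ^ p)).eq, inv_mul_cancel_left]
        exact hEG s _ hgE
      have hev : v⁻¹ * v' ∈ E := by
        refine (hE _).mpr ?_
        have hc1 : Commute (v⁻¹ ^ p) v' := by rw [inv_pow]; exact hZcomm _ (inv_mem hv) v'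
        rw [pth_mul hp2 hG hKC (inv_mem (hVC v hv)) (hcn v (hVC v hv)) hc1, inv_pow, conj_pow,
          ← (hZcomm _ hv s).eq, mul_inv_cancel_right, inv_mul_cancel]
      set d := g⁻¹ * g' with hddef
      set e := v⁻¹ * v' with hedef
      have hdv : Commute d v := hVab d hd v hv
      have hde : Commute d e := hCc (hVC d hd) hev
      have hge : Commute g e := hCc hgC hev
      have key : s * ⁅g, v⁆ * s⁻¹ = ⁅g, v⁆ := by
        calc s * ⁅g, v⁆ * s⁻¹ = ⁅g * d, v * e⁆ := by
              rw [hddef, hedef, mul_inv_cancel_left, mul_inv_cancel_left, hg', hv',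
                commutatorElement_def, commutatorElement_def]
              group
          _ = g * (d * (v * e) * d⁻¹) * g⁻¹ * (e⁻¹ * v⁻¹) := by
              rw [commutatorElement_def]; group
          _ = g * v * (e * g⁻¹) * e⁻¹ * v⁻¹ := by
              rw [(hdv.mul_right hde).eq, mul_inv_cancel_right]; group
          _ = ⁅g, v⁆ := by rw [← hge.inv_left.eq, commutatorElement_def]; group
      exact show s * ⁅g, v⁆ = ⁅g, v⁆ * s from mul_inv_eq_iff_eq_mul.mp key
    · obtain ⟨i, hi⟩ := hVgen _ hgp hgE v hv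
      set e := ((g ^ p) ^ i)⁻¹ * v with hedef
      have hgw : Commute g ((g ^ p) ^ i) := (Commute.self_pow g p).zpow_right i
      have : ⁅g, v⁆ = ⁅g, e⁆ := by
        rw [show v = (g ^ p) ^ i * e by rw [hedef, mul_inv_cancel_left]]
        calc ⁅g, (g ^ p) ^ i * e⁆ = g * (g ^ p) ^ i * e * g⁻¹ * e⁻¹ * ((g ^ p) ^ i)⁻¹ := by
              rw [commutatorElement_def]; group
          _ = (g ^ p) ^ i * ⁅g, e⁆ * ((g ^ p) ^ i)⁻¹ := by
              rw [hgw.eq, commutatorElement_def]; group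
          _ = ⁅g, e⁆ := by
              rw [← (hZcomm _ (hEG g e hi) ((g ^ p) ^ i)).eq, mul_inv_cancel_right]
      rw [this]
      exact hEG g e hi
  have hlt : Nat.card (G ⧸ Z) < n := by
    rw [← hn, ← Subgroup.index_eq_card, ← card_mul_index Z, hZdef, Nat.card_zpowers, huo]
    exact lt_mul_of_one_lt_left (Nat.pos_of_ne_zero index_ne_zero_of_finite) hp.out.one_lt
  obtain ⟨a, b, ⟨r, hr⟩, hgen⟩ := exists_generators Z
    (ih _ hlt rfl (hG.to_quotient Z) (V.map f) hV' hV'card hbR)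
  have hS : closure ({a, b} ∪ (Z : Set G)) = ⊤ := eq_top_iff.mpr fun g _ => by
    obtain ⟨i, j, hij⟩ := hgen g
    rw [← mul_inv_cancel_left (a ^ i * b ^ j) g]
    exact mul_mem (mul_mem (zpow_mem (subset_closure (by simp)) i)
      (zpow_mem (subset_closure (by simp)) j)) (subset_closure (Or.inr hij))
  set z := (b ^ r)⁻¹ * (a * b * a⁻¹) with hzdef
  by_cases hub : u ∈ zpowers b
  · have hZb : Z ≤ zpowers b := zpowers_le.mpr hub
    haveI : (zpowers b).Normal := by
      refine zpowers_normal _ hS fun t ht => ?_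
      rcases ht with ht | ht
      · rcases ht with rfl | rfl
        · rw [show t * b * t⁻¹ = b ^ r * z by rw [hzdef, mul_inv_cancel_left]]
          exact mul_mem (zpow_mem (mem_zpowers b) r) (hZb hr)
        · rw [mul_inv_cancel_right]; exact mem_zpowers t
      · rw [(hZcomm t ht b).eq, mul_inv_cancel_right]; exact mem_zpowers b
    refine metacyclic_of_zpowers (b := b) (a := a) fun g => ?_
    obtain ⟨i, j, hij⟩ := hgen g
    refine ⟨i, ?_⟩
    rw [show (a ^ i)⁻¹ * g = b ^ j * ((a ^ i * b ^ j)⁻¹ * g) by group]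
    exact mul_mem (zpow_mem (mem_zpowers b) j) (hZb hij)
  have hbp : b ^ p = 1 := by
    by_contra hb1
    obtain ⟨k, hk⟩ := IsPGroup.iff_orderOf.mp hG b
    have hk2 : 2 ≤ k := by
      by_contra h
      exact hb1 (orderOf_dvd_iff_pow_eq_one.mp
        (hk ▸ (pow_dvd_pow p (show k ≤ 1 by omega)).trans (pow_one p).dvd))
    set e := b ^ p ^ (k - 1) with hedef
    have heE : e ∈ E := (hE e).mpr (by
      rw [hedef, ← pow_mul, ← pow_succ, show k - 1 + 1 = k by omega, ← hk, pow_orderOf_eq_one])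
    have he1 : e ≠ 1 := pow_ne_one_of_lt_orderOf (pow_pos hp.out.pos _).ne'
      (hk ▸ Nat.pow_lt_pow_right hp.out.one_lt (by omega))
    have hzp : z ^ p ^ (k - 1) = 1 := by
      rw [show k - 1 = (k - 2) + 1 by omega, pow_succ', pow_mul, hEp z (hZE hr), one_pow]
    have hae : a * e * a⁻¹ = e ^ r := by
      rw [hedef, ← conj_pow, show a * b * a⁻¹ = b ^ r * z by rw [hzdef, mul_inv_cancel_left],
        ((hZcomm z hr (b ^ r)).symm).mul_pow, hzp, mul_one, ← zpow_natCast, ← zpow_mul,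
        ← zpow_natCast b, ← zpow_mul, mul_comm]
    have hcom : ⁅a, e⁆ = 1 := by
      by_contra h1
      refine hub (zpowers_le.mp ((zpowers_le.mpr (hZgen _ (hEG a e heE) h1)).trans ?_))
      rw [zpowers_le, commutatorElement_def, hae]
      exact mul_mem (zpow_mem (npow_mem_zpowers b _) r) (inv_mem (npow_mem_zpowers b _))
    have hec : e ∈ center G := by
      have hle : closure ({a, b} ∪ (Z : Set G)) ≤ centralizer {e} := (closure_le _).mpr fun t ht =>
        mem_centralizer_singleton_iff.mpr (by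
          rcases ht with ht | ht
          · rcases ht with rfl | rfl
            · exact commutatorElement_eq_one_iff_mul_comm.mp hcom
            · exact (Commute.self_pow t _).eq
          · exact (hZcomm t ht e).eq)
      exact Subgroup.mem_center_iff.mpr fun g =>
        mem_centralizer_singleton_iff.mp (hle (hS.ge (mem_top g)))
    exact hub (zpowers_le.mp ((zpowers_le.mpr (hZgen e (hZ e heE hec) he1)).trans
      (zpowers_le.mpr (npow_mem_zpowers b _))))
  have hbE : b ∈ E := (hE b).mpr hbp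
  have hna : ¬ ∀ e ∈ E, Commute a e := fun h => hs fun e he => by
    obtain ⟨i, j, hij⟩ := hgen s
    rw [← mul_inv_cancel_left (a ^ i * b ^ j) s]
    exact (((h e he).zpow_left i).mul_left ((hCc (hEC hbE) he).zpow_left j)).mul_left
      (hZcomm _ hij e)
  obtain ⟨l, hl⟩ := IsPGroup.iff_orderOf.mp hG a
  have hl1 : 1 ≤ l := by
    by_contra h
    rw [show l = 0 by omega, pow_zero, orderOf_eq_one_iff] at hl
    exact hna fun e _ => hl ▸ Commute.one_left e
  set e := a ^ p ^ (l - 1) with hedef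
  have heE : e ∈ E := (hE e).mpr (by
    rw [hedef, ← pow_mul, ← pow_succ, show l - 1 + 1 = l by omega, ← hl, pow_orderOf_eq_one])
  have he1 : e ≠ 1 := pow_ne_one_of_lt_orderOf (pow_pos hp.out.pos _).ne'
    (hl ▸ Nat.pow_lt_pow_right hp.out.one_lt (by omega))
  have hua : u ∈ zpowers a :=
    zpowers_le.mpr (npow_mem_zpowers a _)
      (hZgen e (hfix a e heE (Commute.self_pow a _) hna) he1)
  have hZa : Z ≤ zpowers a := zpowers_le.mpr hua
  haveI : (zpowers a).Normal := by
    refine zpowers_normal _ hS fun t ht => ?_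
    rcases ht with ht | ht
    · rcases ht with rfl | rfl
      · rw [mul_inv_cancel_right]; exact mem_zpowers t
      · rw [show t * a * t⁻¹ = ⁅a, t⁆⁻¹ * a by rw [commutatorElement_def]; group]
        exact mul_mem (inv_mem (hZa (hEG a t hbE))) (mem_zpowers a)
    · rw [(hZcomm t ht a).eq, mul_inv_cancel_right]; exact mem_zpowers a
  refine metacyclic_of_zpowers (b := a) (a := b) fun g => ?_
  obtain ⟨i, j, hij⟩ := hgen g
  refine ⟨j, ?_⟩
  rw [show (b ^ j)⁻¹ * g = ((b ^ j)⁻¹ * a ^ i * b ^ j) * ((a ^ i * b ^ j)⁻¹ * g) by group]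
  refine mul_mem ?_ (hZa hij)
  simpa using ‹(zpowers a).Normal›.conj_mem _ (zpow_mem (mem_zpowers a) i) (b ^ j)⁻¹

end CfsgLib.Core.RankTwoP
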