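import Cfsg.Agent.Lib.CoreRankTwoP2
import Mathlib.NumberTheory.Multiplicity

/-!
# Calculations for an element of order `p` modulo a normal subgroup of order `p ^ 2`
-/

set_option autoImplicit false

universe u

namespace CfsgLib.Core.RankTwoP

open Subgroup
open scoped commutatorElement

set_option linter.unusedSectionVars false

variable {G : Type u} [Group G] [Finite G] {p : ℕ} [hp : Fact p.Prime]

theorem comb {v y u : G} (hvy : Commute v y) (hvu : Commute v u) (hyu : Commute y u)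
    (a₁ b₁ c₁ a₂ b₂ c₂ : ℕ) :
    v ^ a₁ * y ^ b₁ * u ^ c₁ * (v ^ a₂ * y ^ b₂ * u ^ c₂) =
      v ^ (a₁ + a₂) * y ^ (b₁ + b₂) * u ^ (c₁ + c₂) := by
  have h1 := (hvy.pow_pow a₂ b₁).eq
  have h2 := (hvu.pow_pow a₂ c₁).eq
  have h3 := (hyu.pow_pow b₂ c₁).eq
  simp only [pow_add, mul_assoc]
  congr 1
  rw [← mul_assoc (u ^ c₁) (v ^ a₂), ← h2, mul_assoc, ← mul_assoc (u ^ c₁) (y ^ b₂), ← h3,
    ← mul_assoc (y ^ b₁) (v ^ a₂), ← h1]
  simp only [mul_assoc]

theorem tri {v y u : G} {a b c a' b' c' : ℕ} (h₁ : a = a') (h₂ : b = b') (h₃ : c = c') :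
    v ^ a * y ^ b * u ^ c = v ^ a' * y ^ b' * u ^ c' := by rw [h₁, h₂, h₃]

theorem conj_iterate {g a v y u : G} {k γ δ α β : ℕ} (hvy : Commute v y) (hvu : Commute v u)
    (hyu : Commute y u) (hgu : Commute g u) (hgy : g * y * g⁻¹ = y * u)
    (hgv : g * v * g⁻¹ = v * (y ^ α * u ^ β))
    (hga : g * a * g⁻¹ = a * (v ^ k * y ^ γ * u ^ δ)) : ∀ j : ℕ,
    g ^ j * a * (g ^ j)⁻¹ = a * (v ^ (j * k) * y ^ (j * γ + k * α * j.choose 2) *
      u ^ (j * δ + (k * β + γ) * j.choose 2 + k * α * j.choose 3)) := by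
  intro j
  induction j with
  | zero => simp
  | succ j ih =>
    have hcu : g * u * g⁻¹ = u := by rw [hgu.eq, mul_inv_cancel_right]
    have hstep : g * (v ^ (j * k) * y ^ (j * γ + k * α * j.choose 2) *
        u ^ (j * δ + (k * β + γ) * j.choose 2 + k * α * j.choose 3)) * g⁻¹ =
        v ^ (j * k) * y ^ (α * (j * k) + (j * γ + k * α * j.choose 2)) *
        u ^ (β * (j * k) + (j * γ + k * α * j.choose 2) +
          (j * δ + (k * β + γ) * j.choose 2 + k * α * j.choose 3)) := by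
      generalize hA : j * γ + k * α * j.choose 2 = A
      generalize hB : j * δ + (k * β + γ) * j.choose 2 + k * α * j.choose 3 = B
      rw [conj_mul.symm, conj_mul.symm, ← conj_pow, ← conj_pow, ← conj_pow, hgv, hgy, hcu,
        (hvy.pow_right α).mul_right (hvu.pow_right β) |>.mul_pow, hyu.mul_pow,
        (hyu.pow_pow α β).mul_pow, ← pow_mul, ← pow_mul]
      calc v ^ (j * k) * (y ^ (α * (j * k)) * u ^ (β * (j * k))) * (y ^ A * u ^ A) * u ^ B
          = v ^ (j * k) * (v ^ 0 * y ^ (α * (j * k)) * u ^ (β * (j * k)) *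
              (v ^ 0 * y ^ A * u ^ A)) * u ^ B := by simp only [pow_zero, one_mul, mul_assoc]
        _ = _ := by rw [comb hvy hvu hyu]; simp only [Nat.add_zero, pow_zero, one_mul, pow_add, mul_assoc]
    calc g ^ (j + 1) * a * (g ^ (j + 1))⁻¹ = g * (g ^ j * a * (g ^ j)⁻¹) * g⁻¹ := by
          rw [pow_succ']; group
      _ = g * a * g⁻¹ * (g * (v ^ (j * k) * y ^ (j * γ + k * α * j.choose 2) *
            u ^ (j * δ + (k * β + γ) * j.choose 2 + k * α * j.choose 3)) * g⁻¹) := by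
          rw [ih]; exact conj_mul.symm
      _ = a * (v ^ k * y ^ γ * u ^ δ * (v ^ (j * k) * y ^ (α * (j * k) + (j * γ + k * α * j.choose 2)) *
            u ^ (β * (j * k) + (j * γ + k * α * j.choose 2) +
              (j * δ + (k * β + γ) * j.choose 2 + k * α * j.choose 3)))) := by
          rw [hga, hstep, mul_assoc a]
      _ = _ := by
          rw [comb hvy hvu hyu, Nat.choose_succ_succ' j 1, Nat.choose_one_right,
            Nat.choose_succ_succ' j 2]
          exact congrArg (a * ·) (tri (by ring) (by ring) (by ring))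

theorem product_iterate {g v y u : G} {α β : ℕ} (hvy : Commute v y) (hvu : Commute v u)
    (hyu : Commute y u) (hgu : Commute g u) (hgy : g * y * g⁻¹ = y * u)
    (hgv : g * v * g⁻¹ = v * (y ^ α * u ^ β)) : ∀ j : ℕ,
    (v * g) ^ j = v ^ j * y ^ (α * j.choose 2) * u ^ (β * j.choose 2 + α * j.choose 3) * g ^ j := by
  intro j
  induction j with
  | zero => simp
  | succ j ih =>
    have hcu : g * u * g⁻¹ = u := by rw [hgu.eq, mul_inv_cancel_right]
    generalize hA : α * j.choose 2 = A at ih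
    generalize hB : β * j.choose 2 + α * j.choose 3 = B at ih
    have hstep : g * (v ^ j * y ^ A * u ^ B) * g⁻¹ =
        v ^ j * y ^ (α * j + A) * u ^ (β * j + A + B) := by
      rw [conj_mul.symm, conj_mul.symm, ← conj_pow, ← conj_pow, ← conj_pow, hgv, hgy, hcu,
        (hvy.pow_right α).mul_right (hvu.pow_right β) |>.mul_pow, hyu.mul_pow,
        (hyu.pow_pow α β).mul_pow, ← pow_mul, ← pow_mul]
      calc v ^ j * (y ^ (α * j) * u ^ (β * j)) * (y ^ A * u ^ A) * u ^ B
          = v ^ j * (v ^ 0 * y ^ (α * j) * u ^ (β * j) * (v ^ 0 * y ^ A * u ^ A)) * u ^ B := by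
            simp only [pow_zero, one_mul, mul_assoc]
        _ = _ := by rw [comb hvy hvu hyu]; simp only [Nat.add_zero, pow_zero, one_mul, pow_add, mul_assoc]
    calc (v * g) ^ (j + 1) = v * (g * (v ^ j * y ^ A * u ^ B) * g⁻¹) * g ^ (j + 1) := by
          rw [pow_succ', ih, pow_succ' g]; group
      _ = _ := by
          rw [hstep, ← mul_assoc, ← mul_assoc, ← pow_succ', Nat.choose_succ_succ' j 1,
            Nat.choose_one_right, Nat.choose_succ_succ' j 2, ← hA, ← hB]
          exact congrArg (· * g ^ (j + 1)) (tri rfl (by ring) (by ring))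

/-- A `p`-th root of one modulo `p ^ (m + 1)` is congruent to one modulo `p ^ m`. -/
theorem root_one (hp2 : p ≠ 2) {r m : ℕ} (h1 : (p : ℤ) ∣ (r : ℤ) - 1)
    (h : ((p ^ (m + 1) : ℕ) : ℤ) ∣ (r : ℤ) ^ p - 1) : ((p ^ m : ℕ) : ℤ) ∣ (r : ℤ) - 1 := by
  have hx : ¬ (p : ℤ) ∣ (r : ℤ) := fun hd => by
    have := dvd_sub hd h1
    rw [sub_sub_cancel] at this
    exact (Nat.prime_iff_prime_int.mp hp.out).not_dvd_one this
  have h2 := Int.emultiplicity_pow_sub_pow hp.out (hp.out.odd_of_ne_two hp2) (y := 1) h1 hx p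
  rw [one_pow, FiniteMultiplicity.emultiplicity_self
    (Nat.finiteMultiplicity_iff.mpr ⟨hp.out.ne_one, hp.out.pos⟩)] at h2
  push_cast at h ⊢
  rw [pow_dvd_iff_le_emultiplicity] at h ⊢
  rw [h2, Nat.cast_add, Nat.cast_one] at h
  exact (ENat.add_le_add_iff_right ENat.one_ne_top).mp h

/-- `|C(g)| = p ^ 2` gives maximal class. -/
theorem maximal_class {n : ℕ} (hG : Nat.card G = p ^ n) {g : G}
    (hA : Nat.card ↥(centralizer ({g} : Set G)) = p ^ 2) :
    2 ≤ n ∧ (⊤ : Subgroup G).lowerCentralSeries (n - 2) ≠ ⊥ := by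
  have hn : 2 ≤ n := (Nat.pow_dvd_pow_iff_le_right hp.out.one_lt).mp
    (hA ▸ hG ▸ card_subgroup_dvd_card _)
  haveI := (IsPGroup.of_card (p := p) hG).isNilpotent
  have hgA : g ∈ centralizer ({g} : Set G) := mem_centralizer_singleton_iff.mpr rfl
  haveI hc : IsMulCommutative ↥(centralizer ({g} : Set G)) :=
    ⟨⟨IsPGroup.commutative_of_card_eq_prime_sq (p := p) hA⟩⟩
  have hself : centralizer ((centralizer ({g} : Set G) : Subgroup G) : Set G) =
      centralizer ({g} : Set G) := by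
    refine le_antisymm ?_ (le_centralizer_iff_isMulCommutative.mpr hc)
    exact centralizer_le (Set.singleton_subset_iff.mpr hgA)
  have hcl := CfsgLib.Transfer.maximal_class_of_self_centralizing (p := p) n hG _ hA hself
  refine ⟨hn, fun h => ?_⟩
  rw [Subgroup.lowerCentralSeries_eq_bot_iff_nilpotencyClass_le, hcl] at h
  omega

/-- The relations of the split types. -/
theorem types (hp2 : p ≠ 2) {g c y u : G} {m r γ δ l : ℕ} (hm : 1 ≤ m)
    (hyu : Commute y u) (hcy : Commute c y) (hcu : Commute c u) (hgu : Commute g u)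
    (hgy : g * y * g⁻¹ = y * u) (hu : u ^ p = 1) (hy : y ^ p = 1) (huo : orderOf u = p)
    (hgp : g ^ p = 1) (hc : c ^ p ^ m = u ^ l) (hl : ¬ p ∣ l) (hco : orderOf c = p ^ (m + 1))
    (hr : g * c * g⁻¹ = c ^ r * (y ^ γ * u ^ δ)) :
    (∃ x Y z : G, closure ({g, y, c} : Set G) ≤ closure ({x, Y, z} : Set G) ∧ x ^ p = 1 ∧
        Y ^ p = 1 ∧ z ^ p ^ (m + 1) = 1 ∧ x * z = z * x ∧ Y * z = z * Y ∧
        x⁻¹ * Y * x = Y * z ^ p ^ m) ∨
    (∃ (s : ℕ) (x Y z : G), (s = 1 ∨ ¬ IsSquare (s : ZMod p)) ∧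
        closure ({g, y, c} : Set G) ≤ closure ({x, Y, z} : Set G) ∧
        x ^ p = 1 ∧ Y ^ p = 1 ∧ z ^ p ^ (m + 1) = 1 ∧ Y * z = z * Y ∧
        x⁻¹ * Y * x = Y * z ^ (s * p ^ m) ∧ x⁻¹ * z * x = Y * z) := by
  have hcu' : g * u * g⁻¹ = u := by rw [hgu.eq, mul_inv_cancel_right]
  have hupow : ∀ a b : ℕ, (a : ZMod p) = (b : ZMod p) → u ^ a = u ^ b := fun a b h =>
    pow_eq_pow_iff_modEq.mpr (huo.symm ▸ (ZMod.natCast_eq_natCast_iff _ _ _).mp h)
  -- `r` is one modulo `p`
  have hr1 : (p : ℤ) ∣ (r : ℤ) - 1 := by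
    have h1 : g * c ^ p ^ m * g⁻¹ = u ^ (l * r) := by
      rw [← conj_pow, hr, ((hcy.pow_pow r γ).mul_right (hcu.pow_pow r δ)).mul_pow, ← pow_mul,
        mul_comm r, pow_mul, hc, ← pow_mul, (hyu.pow_pow γ δ).mul_pow,
        show p ^ m = p * p ^ (m - 1) by rw [← pow_succ', Nat.sub_add_cancel hm],
        ← pow_mul, ← pow_mul, mul_comm γ, mul_comm δ, mul_assoc, mul_assoc, pow_mul y p, pow_mul u p,
        hy, hu, one_pow, one_pow, mul_one, mul_one]
    rw [hc, ← conj_pow, hcu'] at h1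
    have h2 : ((l : ℕ) : ZMod p) = ((l * r : ℕ) : ZMod p) :=
      (ZMod.natCast_eq_natCast_iff _ _ _).mpr (huo ▸ pow_eq_pow_iff_modEq.mp h1)
    rw [Nat.cast_mul] at h2
    have hl0 : (l : ZMod p) ≠ 0 := fun h => hl ((ZMod.natCast_eq_zero_iff _ _).mp h)
    rw [← ZMod.intCast_zmod_eq_zero_iff_dvd, Int.cast_sub, Int.cast_natCast, Int.cast_one,
      sub_eq_zero]
    exact mul_left_cancel₀ hl0 (by rw [mul_one, ← h2])
  have hone : ∀ R : ℕ, (p : ℤ) ∣ (R : ℤ) - 1 → y ^ R = y ∧ u ^ R = u := by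
    intro R hR
    have h0 : R ≡ 1 [MOD p] := by
      rw [Nat.modEq_iff_dvd]
      have := hR.neg_right
      rwa [neg_sub] at this
    refine ⟨?_, ?_⟩
    · conv_rhs => rw [← pow_one y]
      exact pow_eq_pow_iff_modEq.mpr (h0.of_dvd (orderOf_dvd_of_pow_eq_one hy))
    · conv_rhs => rw [← pow_one u]
      exact pow_eq_pow_iff_modEq.mpr (huo.symm ▸ h0)
  have hrj : ∀ j : ℕ, (p : ℤ) ∣ ((r ^ j : ℕ) : ℤ) - 1 := fun j => by
    push_cast
    exact hr1.trans (by simpa using sub_dvd_pow_sub_pow (r : ℤ) 1 j)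
  have hiter : ∀ j : ℕ, g ^ j * c * (g ^ j)⁻¹ =
      c ^ (r ^ j) * (y ^ (j * γ) * u ^ (j * δ + γ * j.choose 2)) := by
    intro j
    induction j with
    | zero => simp
    | succ j ih =>
      obtain ⟨hy', hu'⟩ := hone _ (hrj j)
      calc g ^ (j + 1) * c * (g ^ (j + 1))⁻¹ = g * (g ^ j * c * (g ^ j)⁻¹) * g⁻¹ := by
            rw [pow_succ']; group
        _ = (c ^ r * (y ^ γ * u ^ δ)) ^ r ^ j *
              ((y * u) ^ (j * γ) * u ^ (j * δ + γ * j.choose 2)) := by
            rw [ih, ← conj_mul, ← conj_mul, ← conj_pow, ← conj_pow, ← conj_pow, hr, hgy, hcu']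
        _ = c ^ r ^ (j + 1) * (y ^ γ * u ^ δ * (y ^ (j * γ) * u ^ (j * γ) *
              u ^ (j * δ + γ * j.choose 2))) := by
            rw [((hcy.pow_pow r γ).mul_right (hcu.pow_pow r δ)).mul_pow, ← pow_mul, hyu.mul_pow,
              (hyu.pow_pow γ δ).mul_pow, ← pow_mul, ← pow_mul, mul_comm γ, mul_comm δ (r ^ j),
              pow_mul y (r ^ j), pow_mul u (r ^ j), hy', hu', pow_succ' r, mul_assoc]
        _ = _ := by
            rw [Nat.choose_succ_succ' j 1, Nat.choose_one_right, add_one_mul j γ, add_one_mul j δ]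
            congr 1
            have h1 := (hyu.pow_pow (j * γ) δ).eq
            simp only [pow_add, mul_assoc, mul_add]
            rw [← mul_assoc (u ^ δ), ← h1]
            simp only [mul_assoc]
            rw [← mul_assoc (y ^ γ), ← pow_add, add_comm γ, pow_add, mul_assoc]
            congr 2
            simp only [← pow_add]
            congr 1
            ring
  have hrp : ((p ^ (m + 1) : ℕ) : ℤ) ∣ (r : ℤ) ^ p - 1 := by
    have h1 := hiter p
    obtain ⟨d, hd⟩ := hp.out.dvd_choose_self (k := 2) two_ne_zero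
      (lt_of_le_of_ne hp.out.two_le (Ne.symm hp2))
    rw [hgp, one_mul, inv_one, mul_one, pow_mul, hy, one_pow, one_mul, hd,
      show p * δ + γ * (p * d) = p * (δ + γ * d) by ring, pow_mul, hu, one_pow, mul_one] at h1
    have h2 : r ^ p ≡ 1 [MOD p ^ (m + 1)] := by
      rw [← hco]
      exact pow_eq_pow_iff_modEq.mp (by rw [pow_one]; exact h1.symm)
    have := (Nat.modEq_iff_dvd.mp h2).neg_right
    push_cast at this ⊢
    rwa [neg_sub] at this
  -- normalise the exponent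
  obtain ⟨t, ht⟩ := root_one hp2 hr1 hrp
  obtain ⟨δ', hrδ⟩ : ∃ δ' : ℕ, g * c * g⁻¹ = c * (y ^ γ * u ^ δ') := by
    refine ⟨((l : ZMod p) * (t : ZMod p)).val + δ, ?_⟩
    have hcr : c ^ r = c * u ^ ((l : ZMod p) * (t : ZMod p)).val := by
      have : c ^ ((r : ℤ) - 1) = u ^ ((l : ZMod p) * (t : ZMod p)).val := by
        rw [ht, zpow_mul, zpow_natCast, hc, ← zpow_natCast u l, ← zpow_mul, ← zpow_natCast,
          zpow_eq_zpow_iff_modEq, huo, ← ZMod.intCast_eq_intCast_iff]
        push_cast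
        rw [ZMod.natCast_zmod_val]
      rw [← this, ← zpow_one_add, show 1 + ((r : ℤ) - 1) = r by ring, zpow_natCast]
    rw [hr, hcr, pow_add, mul_assoc, ← mul_assoc (u ^ _) (y ^ γ), (hyu.symm.pow_pow _ γ).eq,
      mul_assoc]
  clear hiter hrp hr1 hrj hone ht hr
  have hgen : ∀ {x Y z : G}, g ∈ closure ({x, Y, z} : Set G) → y ∈ closure ({x, Y, z} : Set G) →
      c ∈ closure ({x, Y, z} : Set G) → closure ({g, y, c} : Set G) ≤ closure ({x, Y, z} : Set G) :=
    fun {x Y z} h1 h2 h3 => (closure_le _).mpr fun w hw => by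
      rcases hw with rfl | rfl | rfl <;> assumption
  have hux : ∀ (S : Set G), c ∈ closure S → u ∈ closure S := by
    intro S hS
    have h1 : u ^ l ∈ closure S := hc ▸ pow_mem hS _
    have h2 : u = (u ^ l) ^ ((l : ZMod p)⁻¹).val := by
      rw [← pow_mul]
      conv_lhs => rw [← pow_one u]
      refine hupow _ _ ?_
      push_cast
      rw [ZMod.natCast_zmod_val, mul_inv_cancel₀ fun h => hl ((ZMod.natCast_eq_zero_iff _ _).mp h)]
    exact h2 ▸ pow_mem h1 _
  by_cases hγ : p ∣ γ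
  · -- the element `g` fixes a conjugate generator
    left
    obtain ⟨q, rfl⟩ := hγ
    rw [pow_mul, hy, one_pow, one_mul] at hrδ
    set j := (-(δ' : ZMod p)).val with hj
    set z := c * y ^ j with hz
    have hgz : g * z * g⁻¹ = z := by
      rw [hz, ← conj_mul, ← conj_pow, hrδ, hgy, hyu.mul_pow, mul_assoc,
        ← mul_assoc (u ^ δ'), (hyu.symm.pow_pow δ' j).eq, mul_assoc, ← pow_add,
        hupow (δ' + j) 0 (by push_cast [hj]; rw [ZMod.natCast_zmod_val, add_neg_cancel]),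
        pow_zero, mul_one]
    have hzm : z ^ p ^ m = u ^ l := by
      rw [hz, (hcy.pow_right j).mul_pow, hc, ← pow_mul,
        show j * p ^ m = p * (j * p ^ (m - 1)) by
          rw [show p ^ m = p * p ^ (m - 1) by rw [← pow_succ', Nat.sub_add_cancel hm]]; ring,
        pow_mul, hy, one_pow, mul_one]
    refine ⟨g⁻¹, y ^ l, z, ?_, by rw [inv_pow, hgp, inv_one], by rw [← pow_mul, mul_comm, pow_mul,
      hy, one_pow], by rw [pow_succ, pow_mul, hzm, ← pow_mul, mul_comm, pow_mul, hu, one_pow],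
      ?_, ?_, ?_⟩
    · have hyl : y ∈ closure ({g⁻¹, y ^ l, z} : Set G) := by
        have h2 : y = (y ^ l) ^ ((l : ZMod p)⁻¹).val := by
          rw [← pow_mul]
          conv_lhs => rw [← pow_one y]
          refine pow_eq_pow_iff_modEq.mpr (Nat.ModEq.of_dvd (orderOf_dvd_of_pow_eq_one hy) ?_)
          rw [← ZMod.natCast_eq_natCast_iff]
          push_cast
          rw [ZMod.natCast_zmod_val,
            mul_inv_cancel₀ fun h => hl ((ZMod.natCast_eq_zero_iff _ _).mp h)]
        have h3 := pow_mem (subset_closure (show y ^ l ∈ ({g⁻¹, y ^ l, z} : Set G) by simp))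
          ((l : ZMod p)⁻¹).val
        rwa [← h2] at h3
      refine hgen (by simpa using inv_mem (subset_closure (show g⁻¹ ∈ ({g⁻¹, y ^ l, z} : Set G) by simp)))
        hyl ?_
      have : c = z * (y ^ j)⁻¹ := by rw [hz, mul_inv_cancel_right]
      exact this ▸ mul_mem (subset_closure (by simp)) (inv_mem (pow_mem hyl j))
    · rw [eq_comm, eq_inv_mul_iff_mul_eq]
      rw [← mul_assoc, hgz]
    · rw [hz]
      exact (((hcy.symm.pow_left l).mul_right ((Commute.refl y).pow_pow l j))).eq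
    · rw [inv_inv, ← conj_pow, hgy, hyu.mul_pow, hzm]
  · right
    have hγ0 : (γ : ZMod p) ≠ 0 := fun h => hγ ((ZMod.natCast_eq_zero_iff _ _).mp h)
    have hl0 : (l : ZMod p) ≠ 0 := fun h => hl ((ZMod.natCast_eq_zero_iff _ _).mp h)
    obtain ⟨i, s, hi0, hs, his⟩ : ∃ i s : ℕ, (i : ZMod p) ≠ 0 ∧
        (s = 1 ∨ ¬ IsSquare (s : ZMod p)) ∧ (γ : ZMod p) * (i : ZMod p) ^ 2 = (l : ZMod p) * s := by
      by_cases hsq : IsSquare ((γ : ZMod p) / (l : ZMod p))
      · obtain ⟨w, hw⟩ := hsq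
        have hw0 : w ≠ 0 := fun h => div_ne_zero hγ0 hl0 (by rw [hw, h, mul_zero])
        refine ⟨w⁻¹.val, 1, by rw [ZMod.natCast_zmod_val]; exact inv_ne_zero hw0, Or.inl rfl, ?_⟩
        rw [ZMod.natCast_zmod_val, Nat.cast_one, mul_one]
        rw [div_eq_iff hl0] at hw
        rw [hw]
        field_simp
      · refine ⟨1, ((γ : ZMod p) / (l : ZMod p)).val, by simp,
          Or.inr (by rw [ZMod.natCast_zmod_val]; exact hsq), ?_⟩
        rw [ZMod.natCast_zmod_val, Nat.cast_one, one_pow, mul_one, mul_div_cancel₀ _ hl0]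
    have hconj : g ^ i * c * (g ^ i)⁻¹ = c * (y ^ (i * γ) * u ^ (i * δ' + γ * i.choose 2)) := by
      have h := conj_iterate (g := g) (a := c) (v := 1) (y := y) (u := u) (k := 0) (γ := γ)
        (δ := δ') (α := 0) (β := 0) (Commute.one_left _) (Commute.one_left _) hyu hgu hgy
        (by simp) (by simpa using hrδ) i
      simpa using h
    set Y := y ^ (i * γ) * u ^ (i * δ' + γ * i.choose 2) with hY
    have hconjy : g ^ i * Y * (g ^ i)⁻¹ = Y * u ^ (i * (i * γ)) := by
      have h : ∀ k : ℕ, g ^ k * y * (g ^ k)⁻¹ = y * u ^ k := by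
        intro k
        induction k with
        | zero => simp
        | succ k ih =>
          calc g ^ (k + 1) * y * (g ^ (k + 1))⁻¹ = g * (g ^ k * y * (g ^ k)⁻¹) * g⁻¹ := by
                rw [pow_succ']; group
            _ = _ := by rw [ih, ← conj_mul, ← conj_pow, hgy, hcu', mul_assoc, ← pow_succ']
      have hgiu : g ^ i * u * (g ^ i)⁻¹ = u := by
        rw [(hgu.pow_left i).eq, mul_inv_cancel_right]
      rw [hY, ← conj_mul, ← conj_pow, ← conj_pow, h, hgiu, (hyu.pow_right i).mul_pow, ← pow_mul,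
        mul_assoc, mul_assoc, ← pow_add, ← pow_add, add_comm (i * (i * γ))]
    have hYp : Y ^ p = 1 := by
      rw [hY, (hyu.pow_pow _ _).mul_pow, ← pow_mul, ← pow_mul, mul_comm (i * γ), pow_mul, hy,
        one_pow, one_mul, mul_comm, pow_mul, hu, one_pow]
    refine ⟨s, (g ^ i)⁻¹, Y, c, hs, ?_, by rw [inv_pow, ← pow_mul, mul_comm, pow_mul, hgp, one_pow,
      inv_one], hYp, by rw [← hco, pow_orderOf_eq_one], ?_, ?_, ?_⟩
    · set S : Set G := {(g ^ i)⁻¹, Y, c}
      have hcS : c ∈ closure S := subset_closure (by simp [S])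
      have hgS : g ∈ closure S := by
        have h2 : g = (g ^ i) ^ ((i : ZMod p)⁻¹).val := by
          rw [← pow_mul]
          conv_lhs => rw [← pow_one g]
          refine pow_eq_pow_iff_modEq.mpr (Nat.ModEq.of_dvd (orderOf_dvd_of_pow_eq_one hgp) ?_)
          rw [← ZMod.natCast_eq_natCast_iff]
          push_cast
          rw [ZMod.natCast_zmod_val, mul_inv_cancel₀ hi0]
        have h3 := pow_mem (inv_mem (subset_closure (show (g ^ i)⁻¹ ∈ S by simp [S])))
          ((i : ZMod p)⁻¹).val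
        rwa [inv_inv, ← h2] at h3
      refine hgen hgS ?_ hcS
      have hyg : y ^ (i * γ) ∈ closure S := by
        have : y ^ (i * γ) = Y * (u ^ (i * δ' + γ * i.choose 2))⁻¹ := by
          rw [hY, mul_inv_cancel_right]
        exact this ▸ mul_mem (subset_closure (by simp [S])) (inv_mem (pow_mem (hux S hcS) _))
      have h2 : y = (y ^ (i * γ)) ^ (((i * γ : ℕ) : ZMod p)⁻¹).val := by
        rw [← pow_mul]
        conv_lhs => rw [← pow_one y]
        refine pow_eq_pow_iff_modEq.mpr (Nat.ModEq.of_dvd (orderOf_dvd_of_pow_eq_one hy) ?_)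
        rw [← ZMod.natCast_eq_natCast_iff]
        push_cast
        rw [ZMod.natCast_zmod_val, mul_inv_cancel₀ (mul_ne_zero hi0 hγ0)]
      have h3 := pow_mem hyg (((i * γ : ℕ) : ZMod p)⁻¹).val
      rwa [← h2] at h3
    · exact (((hcy.pow_right _).mul_right (hcu.pow_right _)).symm).eq
    · rw [inv_inv, hconjy, mul_comm s, pow_mul c, hc, ← pow_mul]
      congr 1
      refine hupow _ _ ?_
      push_cast
      rw [← his]
      ring
    · rw [inv_inv, hconj]
      exact ((hcy.pow_right _).mul_right (hcu.pow_right _)).eq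

end CfsgLib.Core.RankTwoP
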