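import Cfsg.Agent.Lib.CoreRankTwoP3

/-!
# The `p`-groups of rank at most two, `p` odd
-/

set_option autoImplicit false

universe u

namespace CfsgLib.Core.RankTwoP

open Subgroup
open scoped commutatorElement

set_option linter.unusedSectionVars false

variable {G : Type u} [Group G] [Finite G] {p : ℕ} [hp : Fact p.Prime]

theorem zero_pow_of_dvd {w : G} (hw : w ^ p = 1) {k : ℕ} (h : p ∣ k) : w ^ k = 1 := by
  obtain ⟨d, rfl⟩ := h
  rw [pow_mul, hw, one_pow]

theorem classification (hp2 : p ≠ 2) (n : ℕ) (hG : Nat.card G = p ^ n)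
    (hrk : Cfsg.PRankLE p 2 G) :
    Cfsg.IsMetacyclic G ∨
    (3 ≤ n ∧ ∃ x y z : G, Subgroup.closure ({x, y, z} : Set G) = ⊤ ∧ x ^ p = 1 ∧ y ^ p = 1 ∧
        z ^ p ^ (n - 2) = 1 ∧
        x * z = z * x ∧ y * z = z * y ∧ x⁻¹ * y * x = y * z ^ p ^ (n - 3)) ∨
    (4 ≤ n ∧ ∃ (s : ℕ) (x y z : G), (s = 1 ∨ ¬ IsSquare (s : ZMod p)) ∧
        Subgroup.closure ({x, y, z} : Set G) = ⊤ ∧
        x ^ p = 1 ∧ y ^ p = 1 ∧ z ^ p ^ (n - 2) = 1 ∧ y * z = z * y ∧
        x⁻¹ * y * x = y * z ^ (s * p ^ (n - 3)) ∧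
        x⁻¹ * z * x = y * z) ∨
    (p = 3 ∧ 2 ≤ n ∧ (⊤ : Subgroup G).lowerCentralSeries (n - 2) ≠ ⊥) := by
  have hP : IsPGroup p G := IsPGroup.of_card hG
  have hp3 : 3 ≤ p := by have := hp.out.two_le; omega
  by_cases hcyc : IsCyclic G
  · exact Or.inl ⟨⊥, inferInstance, inferInstance,
      isCyclic_of_surjective _ (QuotientGroup.mk'_surjective (⊥ : Subgroup G))⟩
  obtain ⟨E, hEn, hEel, hEq⟩ := CfsgLib.Transfer.exists_normal_rank_two hp2 hP hcyc
  haveI := hEn
  haveI hEcomm : IsMulCommutative E := ⟨⟨IsPGroup.commutative_of_card_eq_prime_sq (p := p) hEq⟩⟩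
  have hEp : ∀ e ∈ E, e ^ p = 1 := hEel.2
  set C := centralizer (E : Set G) with hC
  have hEC : E ≤ C := le_centralizer_iff_isMulCommutative.mpr hEcomm
  have hCc : ∀ {c e : G}, c ∈ C → e ∈ E → Commute c e := fun {c e} hc he =>
    (mem_centralizer_iff.mp hc e he).symm
  have hCE : ∀ x ∈ C, x ^ p = 1 → x ∈ E := by
    intro x hx hxp
    set A := zpowers x ⊔ E with hA
    have hAC : A ≤ centralizer (A : Set G) := by
      have hEA : E ≤ centralizer (A : Set G) := fun e he => mem_centralizer_iff.mpr fun a ha => by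
        obtain ⟨w, hw, e', he', rfl⟩ := mem_sup_of_normal_right.mp ha
        obtain ⟨i, rfl⟩ := mem_zpowers_iff.mp hw
        exact ((hCc (zpow_mem hx i) he).mul_left (hCc (hEC he') he)).eq
      refine sup_le (zpowers_le.mpr (mem_centralizer_iff.mpr fun a ha => ?_)) hEA
      obtain ⟨w, hw, e', he', rfl⟩ := mem_sup_of_normal_right.mp ha
      obtain ⟨i, rfl⟩ := mem_zpowers_iff.mp hw
      exact ((Commute.zpow_self x i).mul_left (hCc hx he').symm).eq
    have hAcard := hrk A (le_centralizer_iff_isMulCommutative.mp hAC) fun a ha => by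
      obtain ⟨w, hw, e', he', rfl⟩ := mem_sup_of_normal_right.mp ha
      obtain ⟨i, rfl⟩ := mem_zpowers_iff.mp hw
      rw [(hCc (zpow_mem hx i) he').mul_pow, hEp e' he', mul_one, ← zpow_natCast, ← zpow_mul,
        mul_comm, zpow_mul, zpow_natCast, hxp, one_zpow]
    rw [CfsgLib.Core.eq_of_le_of_card_le (le_sup_right : E ≤ A) (hEq ▸ hAcard)]
    exact mem_sup_left (mem_zpowers x)
  have hKC : ∀ x ∈ C, x ^ p = 1 → ∀ y ∈ C, Commute x y := fun x hx hxp y hy =>
    (hCc hy (hCE x hx hxp)).symm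
  by_cases hCtop : C = ⊤
  · have hmem : ∀ x, x ∈ E ↔ x ^ p = 1 := fun x =>
      ⟨hEp x, hCE x (hCtop ▸ mem_top x)⟩
    have hcen : E ≤ center G := fun e he => Subgroup.mem_center_iff.mpr fun g =>
      (hCc (hCtop ▸ mem_top g) he).eq
    exact Or.inl (central_case hp2 _ rfl hP E hmem hcen hEq.le).1
  obtain ⟨g₀, hg₀⟩ : ∃ g, g ∉ C := by
    by_contra h
    push Not at h
    exact hCtop (eq_top_iff.mpr fun g _ => h g)
  have hnc : ∀ {g : G}, g ∉ C → ¬ ∀ e ∈ E, Commute g e := fun {g} hg h =>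
    hg (mem_centralizer_iff.mpr fun e he => (h e he).eq.symm)
  by_cases hb : ∀ g : G, g ^ p ∈ E → ∀ e ∈ E, Commute g e
  · refine Or.inl (noncentral_case hp2 _ rfl hP E (fun x => ⟨hEp x, fun hx => hCE x ?_ hx⟩) hEq.le hb)
    exact mem_centralizer_iff.mpr fun e he => (hb x (hx ▸ one_mem E) e he).eq.symm
  obtain ⟨u₀, hu₀E, hu₀c, hu₀o, hZ, hEG, hfix⟩ := exists_center_gen hP E hEq hEp (hnc hg₀)
  obtain ⟨g, hgC, hgpE, hgx⟩ : ∃ g, g ∉ C ∧ g ^ p ∈ E ∧
      (g ^ p ≠ 1 → ∀ x, x ∉ C → x ^ p ≠ 1) := by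
    by_cases hx : ∃ x, x ∉ C ∧ x ^ p = 1
    · obtain ⟨x, hxC, hxp⟩ := hx
      exact ⟨x, hxC, hxp ▸ one_mem E, fun h => absurd hxp h⟩
    · push Not at hb hx
      obtain ⟨g, hg, e, he, hge⟩ := hb
      exact ⟨g, fun h => hge (hCc h he), hg, fun _ => hx⟩
  -- a basis of `E`
  obtain ⟨y, hyE, hyZ⟩ : ∃ y ∈ E, y ∉ zpowers u₀ := by
    by_contra h
    push Not at h
    have := card_le_of_le (show E ≤ zpowers u₀ from h)
    rw [hEq, Nat.card_zpowers, hu₀o] at this
    nlinarith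
  set u := ⁅g, y⁆ with hudef
  have huZ : u ∈ zpowers u₀ := hEG g y hyE
  have huE : u ∈ E := (zpowers_le.mpr hu₀E) huZ
  have hucen : u ∈ center G := (zpowers_le.mpr hu₀c) huZ
  have hu1 : u ≠ 1 := fun h =>
    hyZ (hfix g y hyE (commutatorElement_eq_one_iff_mul_comm.mp h) (hnc hgC))
  have huo : orderOf u = p := orderOf_eq_prime (hEp u huE) hu1
  have hzu : zpowers u = zpowers u₀ := CfsgLib.Core.eq_of_le_of_card_le (zpowers_le.mpr huZ)
    (by rw [Nat.card_zpowers, Nat.card_zpowers, huo, hu₀o])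
  rw [← hzu] at hZ hfix hEG hyZ
  have hucomm : ∀ w : G, Commute u w := fun w => (Subgroup.mem_center_iff.mp hucen w).symm
  have hgy : g * y * g⁻¹ = y * u := by
    rw [← (hucomm y).eq, hudef, commutatorElement_def, inv_mul_cancel_right]
  have hyu : Commute y u := (hucomm y).symm
  have hgu : Commute g u := (hucomm g).symm
  have hup : u ^ p = 1 := hEp u huE
  have hyp : y ^ p = 1 := hEp y hyE
  have hynat : ∀ e ∈ E, ∃ i j : ℕ, e = y ^ i * u ^ j := by
    intro e he
    haveI : (zpowers u).Normal := ⟨fun x hx w => by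
      rwa [Subgroup.mem_center_iff.mp ((zpowers_le.mpr hucen) hx) w, mul_inv_cancel_right]⟩
    have hEeq : zpowers y ⊔ zpowers u = E := by
      by_contra hne
      have h1 := card_le_prime hEq (sup_le (zpowers_le.mpr hyE) (zpowers_le.mpr huE)) hne
      exact hyZ ((CfsgLib.Core.eq_of_le_of_card_le (le_sup_right : zpowers u ≤ zpowers y ⊔ zpowers u)
        (by rw [Nat.card_zpowers, huo]; exact h1)).ge (mem_sup_left (mem_zpowers y)))
    obtain ⟨w, hw, z, hz, rfl⟩ := mem_sup_of_normal_right.mp (hEeq.ge he)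
    obtain ⟨i, rfl⟩ := mem_powers_iff_mem_zpowers.mpr hw
    obtain ⟨j, rfl⟩ := mem_powers_iff_mem_zpowers.mpr hz
    exact ⟨i, j, rfl⟩
  have hgdec : ∀ w : G, ∃ i : ℕ, (g ^ i)⁻¹ * w ∈ C := by
    intro w
    obtain ⟨i, hi⟩ := mem_powers_iff_mem_zpowers.mpr (hEG w y hyE)
    have hi' : w * y * w⁻¹ = y * u ^ i := by
      have hi2 : u ^ i = ⁅w, y⁆ := hi
      rw [← ((hucomm y).pow_left i).eq, hi2, commutatorElement_def, inv_mul_cancel_right]
    have hgk : ∀ k : ℕ, g ^ k * y * (g ^ k)⁻¹ = y * u ^ k := by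
      intro k
      induction k with
      | zero => simp
      | succ k ih =>
        calc g ^ (k + 1) * y * (g ^ (k + 1))⁻¹ = g * (g ^ k * y * (g ^ k)⁻¹) * g⁻¹ := by
              rw [pow_succ']; group
          _ = _ := by
              rw [ih, ← conj_mul, ← conj_pow, hgy, hgu.eq, mul_inv_cancel_right, mul_assoc,
                ← pow_succ']
    refine ⟨i, ?_⟩
    by_contra hcon
    refine hyZ (hfix _ y hyE ?_ (hnc hcon))
    have h1 : w * y * w⁻¹ = g ^ i * y * (g ^ i)⁻¹ := hi'.trans (hgk i).symm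
    have h2 : (g ^ i)⁻¹ * w * y * ((g ^ i)⁻¹ * w)⁻¹ = y := by
      calc (g ^ i)⁻¹ * w * y * ((g ^ i)⁻¹ * w)⁻¹ = (g ^ i)⁻¹ * (w * y * w⁻¹) * g ^ i := by group
        _ = y := by rw [h1]; group
    exact mul_inv_eq_iff_eq_mul.mp h2
  obtain ⟨l, hl⟩ : ∃ l : ℕ, g ^ p = u ^ l :=
    let ⟨l, hl⟩ := mem_powers_iff_mem_zpowers.mpr
      (hfix g _ hgpE (Commute.self_pow g p) (hnc hgC))
    ⟨l, hl.symm⟩
  have hgpcen : ∀ w : G, Commute (g ^ p) w := fun w => hl ▸ (hucomm w).pow_left l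
  have hCn : ∀ c ∈ C, g * c * g⁻¹ ∈ C := fun c hc => mem_centralizer_iff.mpr fun e he => by
    have h1 : Commute c (g⁻¹ * e * g) := hCc hc (by simpa using hEn.conj_mem e he g⁻¹)
    have h2 : Commute (g * c * g⁻¹) (g * (g⁻¹ * e * g) * g⁻¹) := (Commute.conj_iff g).mpr h1
    rw [show g * (g⁻¹ * e * g) * g⁻¹ = e by group] at h2
    exact h2.eq.symm
  have hgroot : ∀ a ∈ C, ∀ b ∈ C, a ^ p = b ^ p → a⁻¹ * b ∈ E := fun a ha b hb' hab =>
    hCE _ (mul_mem (inv_mem ha) hb') (laffey hp2 hP _ C rfl hKC a ha b hb' hab)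
  have layer : ∀ a ∈ C, a ∉ E → ∃ k : ℕ, a ^ k ∉ E ∧ (a ^ k) ^ p ∈ E := by
    intro a _ haE
    obtain ⟨k, hk⟩ := hP a
    have hex : ∃ j, a ^ p ^ j ∈ E := ⟨k, hk ▸ one_mem E⟩
    classical
    have h0 : Nat.find hex ≠ 0 := fun h0 => by
      have := Nat.find_spec hex
      rw [h0, pow_zero, pow_one] at this
      exact haE this
    refine ⟨p ^ (Nat.find hex - 1), Nat.find_min hex (by omega), ?_⟩
    rw [← pow_mul, ← pow_succ, Nat.sub_add_cancel (Nat.one_le_iff_ne_zero.mpr h0)]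
    exact Nat.find_spec hex
  by_cases hXE : ∀ a ∈ C, a ^ p ∈ E → a ∈ E
  · -- `C = E`
    have hCEq : C = E := le_antisymm (fun a ha => by
      by_contra haE
      obtain ⟨k, hk, hkp⟩ := layer a ha haE
      exact hk (hXE _ (pow_mem ha k) hkp)) hEC
    have hdec : ∀ w : G, ∃ (i : ℕ) (a b : ℕ), w = g ^ i * (y ^ a * u ^ b) := fun w => by
      obtain ⟨i, hi⟩ := hgdec w
      obtain ⟨a, b, hab⟩ := hynat _ (hCEq ▸ hi)
      exact ⟨i, a, b, by rw [← hab, mul_inv_cancel_left]⟩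
    by_cases hgp : g ^ p = 1
    · have hcard : n = 3 := by
        have h1 : Nat.card G ≤ p ^ 3 := by
          calc Nat.card G ≤ Nat.card (Fin p × Fin p × Fin p) := by
                refine Nat.card_le_card_of_surjective (fun t : Fin p × Fin p × Fin p =>
                  g ^ (t.1 : ℕ) * (y ^ (t.2.1 : ℕ) * u ^ (t.2.2 : ℕ))) fun w => ?_
                obtain ⟨i, a, b, rfl⟩ := hdec w
                refine ⟨(⟨i % p, Nat.mod_lt _ hp.out.pos⟩, ⟨a % p, Nat.mod_lt _ hp.out.pos⟩,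
                  ⟨b % p, Nat.mod_lt _ hp.out.pos⟩), ?_⟩
                show g ^ (i % p) * (y ^ (a % p) * u ^ (b % p)) = _
                rw [← pow_eq_pow_mod i hgp, ← pow_eq_pow_mod a hyp, ← pow_eq_pow_mod b hup]
            _ = p ^ 3 := by rw [Nat.card_prod, Nat.card_prod, Nat.card_fin]; ring
        have h3 : 2 < n := by
          have h2 : Nat.card E < Nat.card G := lt_of_le_of_ne (card_le_card_group E) fun h =>
            hgC (hEC ((eq_top_of_card_eq E h).ge (mem_top g)))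
          rw [hEq, hG] at h2
          exact (Nat.pow_lt_pow_iff_right hp.out.one_lt).mp h2
        have := (Nat.pow_le_pow_iff_right hp.out.one_lt).mp (hG ▸ h1)
        omega
      subst hcard
      refine Or.inr (Or.inl ⟨le_rfl, g⁻¹, y, u, eq_top_iff.mpr fun w _ => ?_,
        by rw [inv_pow, hgp, inv_one], hyp, by simpa using hup, (hgu.inv_left).eq, hyu.eq,
        by simpa using hgy⟩)
      obtain ⟨i, a, b, rfl⟩ := hdec w
      refine mul_mem (pow_mem ?_ i) (mul_mem (pow_mem (subset_closure (by simp)) a)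
        (pow_mem (subset_closure (by simp)) b))
      simpa using inv_mem (subset_closure (show g⁻¹ ∈ ({g⁻¹, y, u} : Set G) by simp))
    · left
      have hug : u ∈ zpowers g := by
        have h1 : zpowers (g ^ p) = zpowers u := CfsgLib.Core.eq_of_le_of_card_le
          (zpowers_le.mpr (hl ▸ npow_mem_zpowers u l))
          (by rw [Nat.card_zpowers, Nat.card_zpowers, huo,
            orderOf_eq_prime (hEp _ hgpE) hgp])
        exact (h1.ge.trans (zpowers_le.mpr (npow_mem_zpowers g p))) (mem_zpowers u)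
      haveI : (zpowers g).Normal := by
        refine zpowers_normal Set.univ (by simp) fun w _ => ?_
        obtain ⟨i, a, b, rfl⟩ := hdec w
        have hm : ∀ e ∈ E, e * g * e⁻¹ ∈ zpowers g := fun e he => by
          rw [show e * g * e⁻¹ = ⁅g, e⁆⁻¹ * g by rw [commutatorElement_def]; group]
          exact mul_mem (inv_mem ((zpowers_le.mpr hug) (hEG g e he))) (mem_zpowers g)
        rw [show g ^ i * (y ^ a * u ^ b) * g * (g ^ i * (y ^ a * u ^ b))⁻¹ =
          g ^ i * ((y ^ a * u ^ b) * g * (y ^ a * u ^ b)⁻¹) * (g ^ i)⁻¹ by group]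
        exact mul_mem (mul_mem (npow_mem_zpowers g i)
          (hm _ (mul_mem (pow_mem hyE a) (pow_mem huE b)))) (inv_mem (npow_mem_zpowers g i))
      refine metacyclic_of_zpowers (b := g) (a := y) fun w => ?_
      obtain ⟨i, a, b, rfl⟩ := hdec w
      refine ⟨a, ?_⟩
      rw [zpow_natCast, ← mul_assoc (g ^ i), ← mul_assoc, ← mul_assoc]
      refine mul_mem ?_ (pow_mem hug b)
      simpa using ‹(zpowers g).Normal›.conj_mem _ (npow_mem_zpowers g i) (y ^ a)⁻¹
  -- an element `v` outside `E` with `v ^ p = u`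
  push Not at hXE
  obtain ⟨a₀, ha₀C, ha₀p, ha₀E⟩ := hXE
  obtain ⟨v, hvC, hvp⟩ : ∃ v ∈ C, v ^ p = u := by
    have hpick : ∀ a ∈ C, a ^ p ∈ zpowers u → a ^ p ≠ 1 → ∃ v ∈ C, v ^ p = u := by
      intro a ha haZ ha1
      have h1 : zpowers (a ^ p) = zpowers u := CfsgLib.Core.eq_of_le_of_card_le
        (zpowers_le.mpr haZ) (by rw [Nat.card_zpowers, Nat.card_zpowers, huo,
          orderOf_eq_prime (hEp _ ((zpowers_le.mpr huE) haZ)) ha1])
      obtain ⟨i, hi⟩ := mem_powers_iff_mem_zpowers.mpr (h1.ge (mem_zpowers u))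
      refine ⟨a ^ i, pow_mem ha i, ?_⟩
      rw [← pow_mul, mul_comm, pow_mul]; exact hi
    by_cases hZa : a₀ ^ p ∈ zpowers u
    · exact hpick a₀ ha₀C hZa fun h => ha₀E (hCE a₀ ha₀C h)
    · have hc1 : Commute (a₀⁻¹ ^ p) (g * a₀ * g⁻¹) := by
        rw [inv_pow]; exact (hCc (hCn a₀ ha₀C) (inv_mem ha₀p)).symm
      have hpow : (a₀⁻¹ * (g * a₀ * g⁻¹)) ^ p = ⁅g, a₀ ^ p⁆ := by
        rw [pth_mul hp2 hP hKC (inv_mem ha₀C) (hCn a₀ ha₀C) hc1, inv_pow, conj_pow,
          show g * a₀ ^ p * g⁻¹ = ⁅g, a₀ ^ p⁆ * a₀ ^ p by rw [commutatorElement_def]; group,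
          (Subgroup.mem_center_iff.mp ((zpowers_le.mpr hucen) (hEG g _ ha₀p)) (a₀ ^ p)).symm,
          inv_mul_cancel_left]
      refine hpick _ (mul_mem (inv_mem ha₀C) (hCn a₀ ha₀C)) (hpow ▸ hEG g _ ha₀p) fun h => ?_
      rw [hpow] at h
      exact hZa (hfix g _ ha₀p (commutatorElement_eq_one_iff_mul_comm.mp h) (hnc hgC))
  have hvy : Commute v y := hCc hvC hyE
  have hvu : Commute v u := (hucomm v).symm
  obtain ⟨α, β, hαβ⟩ := hynat _ (hgroot v hvC _ (hCn v hvC)
    (by rw [conj_pow, hvp, hgu.eq, mul_inv_cancel_right]))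
  have hgv : g * v * g⁻¹ = v * (y ^ α * u ^ β) := by rw [← hαβ, mul_inv_cancel_left]
  have hC2 : p ∣ p.choose 2 := hp.out.dvd_choose_self two_ne_zero (by omega)
  -- the exceptional configuration
  have hexc : p ∣ 1 + α * p.choose 3 → p = 3 ∧ 2 ≤ n ∧
      (⊤ : Subgroup G).lowerCentralSeries (n - 2) ≠ ⊥ := by
    intro hdiv
    have hα : ¬ p ∣ α := fun h =>
      hp.out.not_dvd_one ((Nat.dvd_add_left (dvd_mul_of_dvd_left h _)).mp hdiv)
    have hp33 : p = 3 := by
      by_contra h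
      exact hp.out.not_dvd_one ((Nat.dvd_add_left (dvd_mul_of_dvd_right
        (hp.out.dvd_choose_self (by norm_num) (by omega)) _)).mp hdiv)
    have hfixed : ∀ w ∈ C, w ^ p ∈ E → Commute g w → w ∈ zpowers u := by
      intro w hw hwp hgw
      obtain ⟨i, hi⟩ := mem_powers_iff_mem_zpowers.mpr (hfix g _ hwp (hgw.pow_right p) (hnc hgC))
      obtain ⟨a, b, hab⟩ := hynat _ (hgroot (v ^ i) (pow_mem hvC i) w hw
        (by rw [← pow_mul, mul_comm, pow_mul, hvp]; exact hi))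
      have hweq : w = v ^ i * (y ^ a * u ^ b) := by rw [← hab, mul_inv_cancel_left]
      have h1 : g * w * g⁻¹ = w := by rw [hgw.eq, mul_inv_cancel_right]
      rw [hweq, ← conj_mul, ← conj_mul, ← conj_pow, ← conj_pow, ← conj_pow, hgv, hgy,
        hgu.eq, mul_inv_cancel_right,
        ((hvy.pow_right α).mul_right (hvu.pow_right β)).mul_pow, hyu.mul_pow, mul_assoc,
        mul_right_inj, (hyu.pow_pow α β).mul_pow, ← pow_mul, ← pow_mul] at h1
      have h2 : y ^ (α * i) * u ^ (β * i + a) = 1 := by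
        rw [pow_add, ← mul_assoc]
        apply mul_right_cancel (b := y ^ a * u ^ b)
        rw [one_mul]
        conv_rhs => rw [← h1]
        simp only [mul_assoc]
        rw [← mul_assoc (u ^ a) (y ^ a), ← (hyu.pow_pow a a).eq, mul_assoc]
      have h3 : y ^ (α * i) ∈ zpowers u := by
        rw [eq_inv_of_mul_eq_one_left h2]
        exact inv_mem (npow_mem_zpowers u _)
      have h4 : p ∣ α * i := by
        by_contra hnd
        refine hyZ ?_
        have hyo : orderOf y = p := orderOf_eq_prime hyp fun h => hyZ (h ▸ one_mem _)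
        have hcop : Nat.Coprime (α * i) (orderOf y) := by
          rw [hyo]; exact ((Nat.Prime.coprime_iff_not_dvd hp.out).mpr hnd).symm
        obtain ⟨m, hm⟩ := exists_pow_eq_self_of_coprime hcop
        exact hm ▸ pow_mem h3 m
      obtain ⟨d, hd⟩ := ((Nat.Prime.dvd_mul hp.out).mp h4).resolve_left hα
      have hvi : v ^ i ∈ E := by rw [hd, pow_mul, hvp]; exact pow_mem huE d
      exact hfix g w (hweq ▸ mul_mem hvi (mul_mem (pow_mem hyE a) (pow_mem huE b))) hgw (hnc hgC)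
    have hinter : C ⊓ centralizer ({g} : Set G) = zpowers u := by
      refine le_antisymm (fun w ⟨hw, hwg⟩ => ?_) (zpowers_le.mpr
        ⟨hEC huE, mem_centralizer_singleton_iff.mpr (hucomm g).eq⟩)
      have hgw : Commute g w := (mem_centralizer_singleton_iff.mp hwg).symm
      by_cases hwE : w ∈ E
      · exact hfix g w hwE hgw (hnc hgC)
      · obtain ⟨k, hk, hkp⟩ := layer w hw hwE
        exact absurd ((zpowers_le.mpr huE) (hfixed _ (pow_mem hw k) hkp (hgw.pow_right k))) hk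
    have hcard : Nat.card ↥(centralizer ({g} : Set G)) = p ^ 2 := by
      have h := card_inf_mul_relIndex C (centralizer ({g} : Set G))
      rw [hinter, Nat.card_zpowers, huo] at h
      have hrel : C.relIndex (centralizer ({g} : Set G)) ≤ p := by
        haveI : C.Normal := Subgroup.normal_centralizer
        have h1 : C.index ≤ p := by
          rw [Subgroup.index_eq_card, ← Nat.card_fin p]
          refine Nat.card_le_card_of_surjective
            (fun i : Fin p => QuotientGroup.mk' C g ^ (i : ℕ)) fun w => ?_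
          obtain ⟨x, rfl⟩ := QuotientGroup.mk'_surjective C w
          obtain ⟨i, hi⟩ := hgdec x
          refine ⟨⟨i % p, Nat.mod_lt _ hp.out.pos⟩, ?_⟩
          show QuotientGroup.mk' C g ^ (i % p) = _
          have hgC' : QuotientGroup.mk' C g ^ p = 1 := by
            rw [← map_pow]; exact (QuotientGroup.eq_one_iff _).mpr (hEC hgpE)
          rw [← pow_eq_pow_mod i hgC', ← map_pow]
          exact QuotientGroup.eq.mpr hi
        exact (Nat.le_of_dvd (Nat.pos_of_ne_zero index_ne_zero_of_finite)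
          (relIndex_dvd_index_of_normal C _)).trans h1
      obtain ⟨j, hj⟩ := IsPGroup.iff_card.mp (hP.to_subgroup (centralizer ({g} : Set G)))
      have hne : C.relIndex (centralizer ({g} : Set G)) ≠ 1 := fun h1 => hgC
        (relIndex_eq_one.mp h1 (mem_centralizer_singleton_iff.mpr rfl))
      have hne0 : C.relIndex (centralizer ({g} : Set G)) ≠ 0 := fun h0 => by
        rw [h0, mul_zero] at h
        exact absurd h Nat.card_pos.ne
      have hlt : p ^ 1 < p ^ j := by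
        rw [← hj, ← h, pow_one]
        exact lt_mul_of_one_lt_right hp.out.pos (by omega)
      have hle : p ^ j ≤ p ^ 2 := by
        rw [← hj, ← h, sq]
        exact Nat.mul_le_mul_left p hrel
      have h2 := (Nat.pow_lt_pow_iff_right hp.out.one_lt).mp hlt
      have h3 := (Nat.pow_le_pow_iff_right hp.out.one_lt).mp hle
      rw [hj, show j = 2 by omega]
    exact ⟨hp33, maximal_class hG hcard⟩
  by_cases hdiv : p ∣ 1 + α * p.choose 3
  · exact Or.inr (Or.inr (Or.inr (hexc hdiv)))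
  have hM0 : ((1 + α * p.choose 3 : ℕ) : ZMod p) ≠ 0 := fun h =>
    hdiv ((ZMod.natCast_eq_zero_iff _ _).mp h)
  have hgp : g ^ p = 1 := by
    by_contra hne
    set j := (-(l : ZMod p) / ((1 + α * p.choose 3 : ℕ) : ZMod p)).val with hj
    have hgvj : g * v ^ j * g⁻¹ = v ^ j * (y ^ (α * j) * u ^ (β * j)) := by
      rw [← conj_pow, hgv, ((hvy.pow_right α).mul_right (hvu.pow_right β)).mul_pow,
        (hyu.pow_pow α β).mul_pow, ← pow_mul, ← pow_mul]
    have hprod := product_iterate (hvy.pow_left j) (hvu.pow_left j) hyu hgu hgy hgvj p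
    have hx1 : (v ^ j * g) ^ p = 1 := by
      rw [hprod, zero_pow_of_dvd hyp (dvd_mul_of_dvd_right hC2 _), mul_one, pow_add u,
        zero_pow_of_dvd hup (dvd_mul_of_dvd_right hC2 _), one_mul, ← pow_mul, mul_comm j p,
        pow_mul, hvp, hl, ← pow_add, ← pow_add]
      refine zero_pow_of_dvd hup ((ZMod.natCast_eq_zero_iff _ _).mp ?_)
      have h0 : (j : ZMod p) * ((1 + α * p.choose 3 : ℕ) : ZMod p) = -(l : ZMod p) := by
        rw [hj, ZMod.natCast_zmod_val, div_mul_cancel₀ _ hM0]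
      push_cast at h0 ⊢
      linear_combination h0
    refine hgx hne _ (fun hxC => hgC ?_) hx1
    have := mul_mem (inv_mem (pow_mem hvC j)) hxC
    rwa [inv_mul_cancel_left] at this
  -- every element of the layer lies in `⟨v⟩E`
  have hcyc' : ∀ a ∈ C, a ^ p ∈ E → ∃ i : ℕ, (v ^ i)⁻¹ * a ∈ E := by
    intro a ha hap
    have hpickv : ∀ b ∈ C, b ^ p ∈ zpowers u → ∃ i : ℕ, (v ^ i)⁻¹ * b ∈ E := fun b hb' hbZ => by
      obtain ⟨i, hi⟩ := mem_powers_iff_mem_zpowers.mpr hbZ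
      exact ⟨i, hgroot _ (pow_mem hvC i) b hb'
        (by rw [← pow_mul, mul_comm, pow_mul, hvp]; exact hi)⟩
    refine hpickv a ha ?_
    have hc1 : Commute (a⁻¹ ^ p) (g * a * g⁻¹) := by
      rw [inv_pow]; exact (hCc (hCn a ha) (inv_mem hap)).symm
    have hpow : (a⁻¹ * (g * a * g⁻¹)) ^ p = ⁅g, a ^ p⁆ := by
      rw [pth_mul hp2 hP hKC (inv_mem ha) (hCn a ha) hc1, inv_pow, conj_pow,
        show g * a ^ p * g⁻¹ = ⁅g, a ^ p⁆ * a ^ p by rw [commutatorElement_def]; group,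
        (Subgroup.mem_center_iff.mp ((zpowers_le.mpr hucen) (hEG g _ hap)) (a ^ p)).symm,
        inv_mul_cancel_left]
    obtain ⟨k, hk⟩ := hpickv _ (mul_mem (inv_mem ha) (hCn a ha)) (hpow ▸ hEG g _ hap)
    obtain ⟨γ, δ, hγδ⟩ := hynat _ hk
    have hga : g * a * g⁻¹ = a * (v ^ k * y ^ γ * u ^ δ) := by
      rw [mul_assoc (v ^ k), ← hγδ, mul_inv_cancel_left, mul_inv_cancel_left]
    have hit := conj_iterate hvy hvu hyu hgu hgy hgv hga p
    rw [(hgpcen a).eq, mul_inv_cancel_right, left_eq_mul, pow_mul, hvp,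
      zero_pow_of_dvd hyp (dvd_add (dvd_mul_right p γ) (dvd_mul_of_dvd_right hC2 _)), mul_one,
      ← pow_add] at hit
    have hk0 : (k : ZMod p) * ((1 + α * p.choose 3 : ℕ) : ZMod p) = 0 := by
      have h0 := (ZMod.natCast_eq_zero_iff _ p).mpr (huo ▸ orderOf_dvd_of_pow_eq_one hit)
      push_cast at h0 ⊢
      rw [(ZMod.natCast_eq_zero_iff _ _).mpr hC2, ZMod.natCast_self] at h0
      linear_combination h0
    obtain ⟨d, hd⟩ := (ZMod.natCast_eq_zero_iff _ _).mp ((mul_eq_zero.mp hk0).resolve_right hM0)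
    have hE2 : a⁻¹ * (g * a * g⁻¹) ∈ E := by
      rw [hga, inv_mul_cancel_left, hd, pow_mul, hvp]
      exact mul_mem (mul_mem (pow_mem huE d) (pow_mem hyE γ)) (pow_mem huE δ)
    refine hfix g _ hap (commutatorElement_eq_one_iff_mul_comm.mp ?_) (hnc hgC)
    rw [← hpow]
    exact hEp _ hE2
  -- `C / E` is cyclic
  haveI : (E.subgroupOf C).Normal := inferInstance
  set q := QuotientGroup.mk' (E.subgroupOf C) with hq
  have hqeq : ∀ a b : C, q a = q b ↔ (a : G)⁻¹ * b ∈ E := fun a b => by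
    rw [hq, QuotientGroup.mk'_apply, QuotientGroup.mk'_apply, QuotientGroup.eq, mem_subgroupOf]
    rfl
  have hQcyc : IsCyclic (↥C ⧸ E.subgroupOf C) := by
    refine isCyclic_of_small hp2 ((hP.to_subgroup C).to_quotient _) (zpowers (q ⟨v, hvC⟩))
      (fun x hx => ?_) ?_
    · obtain ⟨a, rfl⟩ := QuotientGroup.mk'_surjective _ x
      rw [← map_pow] at hx
      obtain ⟨i, hi⟩ := hcyc' a a.2 ((QuotientGroup.eq_one_iff (a ^ p)).mp hx)
      exact mem_zpowers_iff.mpr ⟨i, by rw [zpow_natCast, ← map_pow, hqeq]; exact hi⟩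
    · rw [Nat.card_zpowers]
      calc orderOf (q ⟨v, hvC⟩) ≤ p := orderOf_le_of_pow_eq_one hp.out.pos (by
            rw [← map_pow]; exact (QuotientGroup.eq_one_iff _).mpr (hvp ▸ huE : (v ^ p : G) ∈ E))
        _ < p ^ 2 := by nlinarith
  obtain ⟨c', hc'⟩ := isCyclic_iff_exists_zpowers_eq_top.mp hQcyc
  obtain ⟨⟨c, hcC⟩, rfl⟩ := QuotientGroup.mk'_surjective _ c'
  have hgenC : ∀ d ∈ C, ∃ i : ℕ, (c ^ i)⁻¹ * d ∈ E := fun d hd => by
    obtain ⟨i, hi⟩ := mem_powers_iff_mem_zpowers.mpr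
      (hc'.ge (mem_top (QuotientGroup.mk' (E.subgroupOf C) ⟨d, hd⟩)))
    refine ⟨i, ?_⟩
    change QuotientGroup.mk' (E.subgroupOf C) ⟨c, hcC⟩ ^ i = _ at hi
    rw [← map_pow, hqeq] at hi
    exact hi
  obtain ⟨m, hm⟩ := IsPGroup.iff_card.mp ((hP.to_subgroup C).to_quotient (E.subgroupOf C))
  have hqo : orderOf (q ⟨c, hcC⟩) = p ^ m := by
    rw [← hm, ← Nat.card_zpowers, hc', card_top]
  have hcm : c ^ p ^ m ∈ E := by
    have := pow_orderOf_eq_one (q ⟨c, hcC⟩)
    rw [hqo, ← map_pow] at this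
    exact (QuotientGroup.eq_one_iff ((⟨c, hcC⟩ : C) ^ p ^ m)).mp this
  have hvE : v ∉ E := fun h => hu1 (hvp ▸ hEp v h)
  have hm1 : 1 ≤ m := by
    by_contra h
    obtain ⟨i, hi⟩ := hgenC v hvC
    rw [show m = 0 by omega, pow_zero, pow_one] at hcm
    have := mul_mem (pow_mem hcm i) hi
    rw [mul_inv_cancel_left] at this
    exact hvE this
  have hcm' : c ^ p ^ (m - 1) ∉ E := fun h => by
    have h1 : q ⟨c, hcC⟩ ^ p ^ (m - 1) = 1 := by
      rw [← map_pow]; exact (QuotientGroup.eq_one_iff _).mpr h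
    have := Nat.le_of_dvd (pow_pos hp.out.pos _) (hqo ▸ orderOf_dvd_of_pow_eq_one h1)
    have := (Nat.pow_le_pow_iff_right hp.out.one_lt).mp this
    omega
  have hsucc : c ^ p ^ m = (c ^ p ^ (m - 1)) ^ p := by
    rw [← pow_mul, ← pow_succ, Nat.sub_add_cancel hm1]
  have hcm1 : c ^ p ^ m ≠ 1 := fun h => hcm' (hCE _ (pow_mem hcC _) (hsucc ▸ h))
  have hco : orderOf c = p ^ (m + 1) := orderOf_eq_prime_pow hcm1
    (by rw [pow_succ, pow_mul]; exact hEp _ hcm)
  obtain ⟨r, hr⟩ := hgenC _ (hCn c hcC)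
  obtain ⟨γ, δ, hγδ⟩ := hynat _ hr
  have hgc : g * c * g⁻¹ = c ^ r * (y ^ γ * u ^ δ) := by rw [← hγδ, mul_inv_cancel_left]
  obtain ⟨l', hl'⟩ : ∃ l' : ℕ, c ^ p ^ m = u ^ l' := by
    -- a generator of the layer is a multiple of `v`
    obtain ⟨i, hi⟩ := hcyc' _ (pow_mem hcC (p ^ (m - 1))) (hsucc ▸ hcm)
    have h1 : ((v ^ i) * ((v ^ i)⁻¹ * c ^ p ^ (m - 1))) ^ p = (v ^ i) ^ p := by
      rw [(hCc (pow_mem hvC i) hi).mul_pow, hEp _ hi, mul_one]
    rw [mul_inv_cancel_left, ← pow_mul v, mul_comm i, pow_mul, hvp, ← hsucc] at h1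
    exact ⟨i, h1⟩
  have hl'p : ¬ p ∣ l' := fun h => hcm1 (by rw [hl', zero_pow_of_dvd hup h])
  have hn : n = m + 3 := by
    have h1 := card_eq_card_quotient_mul_card_subgroup (E.subgroupOf C)
    rw [hm, Nat.card_congr (subgroupOfEquivOfLe hEC).toEquiv, hEq] at h1
    have hidx : C.index = p := by
      haveI : C.Normal := Subgroup.normal_centralizer
      obtain ⟨k, hk⟩ := IsPGroup.iff_card.mp (hP.to_quotient C)
      rw [← Subgroup.index_eq_card] at hk
      have hle : C.index ≤ p := by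
        rw [Subgroup.index_eq_card, ← Nat.card_fin p]
        refine Nat.card_le_card_of_surjective
          (fun i : Fin p => QuotientGroup.mk' C g ^ (i : ℕ)) fun w => ?_
        obtain ⟨x, rfl⟩ := QuotientGroup.mk'_surjective C w
        obtain ⟨i, hi⟩ := hgdec x
        refine ⟨⟨i % p, Nat.mod_lt _ hp.out.pos⟩, ?_⟩
        show QuotientGroup.mk' C g ^ (i % p) = _
        have hgC' : QuotientGroup.mk' C g ^ p = 1 := by rw [← map_pow, hgp, map_one]
        rw [← pow_eq_pow_mod i hgC', ← map_pow]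
        exact QuotientGroup.eq.mpr hi
      have hne : C.index ≠ 1 := fun h => hCtop (index_eq_one.mp h)
      have hk1 : k ≤ 1 := (Nat.pow_le_pow_iff_right hp.out.one_lt).mp (by rw [← hk, pow_one]; exact hle)
      have hk0 : k ≠ 0 := fun h0 => hne (by rw [hk, h0, pow_zero])
      rw [hk, show k = 1 by omega, pow_one]
    have h2 := card_mul_index C
    rw [h1, hidx, hG, ← pow_add, ← pow_succ] at h2
    exact (Nat.pow_right_injective hp.out.two_le h2).symm
  have htop : closure ({g, y, c} : Set G) = ⊤ := eq_top_iff.mpr fun w _ => by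
    obtain ⟨i, hi⟩ := hgdec w
    obtain ⟨k, hk⟩ := hgenC _ hi
    obtain ⟨a, b, hab⟩ := hynat _ hk
    have hcmem : c ∈ closure ({g, y, c} : Set G) := subset_closure (by simp)
    have hymem : y ∈ closure ({g, y, c} : Set G) := subset_closure (by simp)
    have hgmem : g ∈ closure ({g, y, c} : Set G) := subset_closure (by simp)
    have humem : u ∈ closure ({g, y, c} : Set G) := by
      rw [hudef, commutatorElement_def]
      exact mul_mem (mul_mem (mul_mem hgmem hymem) (inv_mem hgmem)) (inv_mem hymem)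
    have : w = g ^ i * (c ^ k * (y ^ a * u ^ b)) := by
      rw [← hab, mul_inv_cancel_left, mul_inv_cancel_left]
    rw [this]
    exact mul_mem (pow_mem hgmem i) (mul_mem (pow_mem hcmem k)
      (mul_mem (pow_mem hymem a) (pow_mem humem b)))
  rcases types hp2 hm1 hyu (hCc hcC hyE) ((hucomm c).symm) hgu hgy hup hyp huo hgp hl' hl'p hco hgc
    with ⟨x, Y, z, hle, h⟩ | ⟨s, x, Y, z, hs, hle, h⟩
  · subst hn
    exact Or.inr (Or.inl ⟨by omega, x, Y, z, top_le_iff.mp (htop.ge.trans hle), by simpa using h⟩)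
  · subst hn
    exact Or.inr (Or.inr (Or.inl ⟨by omega, s, x, Y, z, hs, top_le_iff.mp (htop.ge.trans hle),
      by simpa using h⟩))

end CfsgLib.Core.RankTwoP
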