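import Cfsg.Prelude.Def_TwoFusion
import Cfsg.Agent.Lib.CoreTransfer
import Cfsg.Agent.Lib.LocalFusion
import Cfsg.Agent.Lib.LocalPowerWeak

/-!
# Frobenius's criterion relative to a strongly closed subgroup
-/

set_option autoImplicit false

universe u

namespace CfsgLib.Core.StrClosedFrobenius

open Subgroup

variable {G : Type u} [Group G] [Finite G] {p : ℕ} [hp : Fact p.Prime]

/-- The elements of order prime to `p` normalizing `Q` centralize it. -/
def Triv (p : ℕ) (Q : Subgroup G) : Prop :=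
  ∀ g ∈ normalizer (Q : Set G), (orderOf g).Coprime p → g ∈ centralizer (Q : Set G)

theorem triv_of_npc {Q R : Subgroup G} (hQ : IsPGroup p Q)
    (hle : normalizer (Q : Set G) ≤ normalizer (R : Set G))
    (h : Cfsg.HasNormalPComplement p ↥(normalizer (R : Set G))) (hQR : Q ≤ normalizer (R : Set G)) :
    Triv p Q := by
  intro g hg hcop
  have h1 := CfsgLib.Core.centralizes_of_hasNormalPComplement h
    (hQ.comap_subtype (K := normalizer (R : Set G))) (g := ⟨g, hle hg⟩) ?_ ?_
  · rw [mem_centralizer_iff]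
    intro q hq
    exact congrArg Subtype.val (mem_centralizer_iff.mp h1 ⟨q, hQR hq⟩ hq)
  · rw [mem_normalizer_iff]
    intro x
    exact mem_normalizer_iff.mp hg x
  · rwa [← orderOf_injective _ (normalizer (R : Set G)).subtype_injective ⟨g, hle hg⟩]

theorem triv_conj {Q : Subgroup G} (y : G)
    (h : Triv p (Q.map (MulAut.conj y).toMonoidHom)) : Triv p Q := by
  intro g hg hcop
  have h1 := h (MulAut.conj y g) ?_ ?_
  · rw [mem_centralizer_iff] at h1 ⊢
    intro q hq
    exact (MulAut.conj y).injective (by simpa using h1 _ (mem_map_of_mem _ hq))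
  · rw [← map_equiv_normalizer_eq]
    exact mem_map_of_mem _ hg
  · rwa [MulEquiv.orderOf_eq]

theorem exists_fullyNorm (S : Sylow p G) {Q : Subgroup G} (hQ : IsPGroup p Q) :
    ∃ y : G, Q.map (MulAut.conj y).toMonoidHom ≤ (S : Subgroup G) ∧
      CfsgLib.Local.FullyNorm p (S : Subgroup G) (Q.map (MulAut.conj y).toMonoidHom) := by
  set N := normalizer (Q : Set G) with hN
  haveI hQn : (Q.subgroupOf N).Normal := normal_in_normalizer
  let P : Sylow p ↥N := Classical.arbitrary _
  have hQP : Q.subgroupOf N ≤ (P : Subgroup ↥N) := @IsPGroup.le_sylow_of_normal _ _ _ (Q.subgroupOf N) hQn (hQ.comap_subtype (K := N)) P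
  obtain ⟨S', hS'⟩ := (P.2.map N.subtype).exists_le_sylow
  obtain ⟨y, hy⟩ := MulAction.exists_smul_eq G S' S
  have hle : ((P : Subgroup ↥N).map N.subtype).map (MulAut.conj y).toMonoidHom ≤
      (S : Subgroup G) := by
    rw [← hy]
    exact (map_mono hS').trans (le_of_eq rfl)
  have hQP' : Q ≤ (P : Subgroup ↥N).map N.subtype := by
    refine le_trans ?_ (map_mono hQP)
    rw [map_subgroupOf_eq_of_le le_normalizer]
  refine ⟨y, (map_mono hQP').trans hle, fun hd => P.not_dvd_index ?_⟩
  have he : normalizer ((Q.map (MulAut.conj y).toMonoidHom : Subgroup G) : Set G) =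
      N.map (MulAut.conj y).toMonoidHom := (map_equiv_normalizer_eq _ _).symm
  rw [he] at hd
  refine dvd_trans (hd.trans (relIndex_dvd_of_le_left _ (le_inf hle (map_mono (map_subtype_le _))))) ?_
  rw [relIndex_map_map_of_injective _ _ (MulAut.conj y).injective, relIndex,
    show ((P : Subgroup ↥N).map N.subtype).subgroupOf N = P from
      comap_map_eq_self_of_injective N.subtype_injective _]

/-- The kernel of the action of `N(Q) ∩ N(U)` on the cosets of `U` in `Q`. -/
def kernel (Q U : Subgroup G) : Subgroup G where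
  carrier := {g | g ∈ normalizer (Q : Set G) ∧ g ∈ normalizer (U : Set G) ∧
    ∀ q ∈ Q, q⁻¹ * (g * q * g⁻¹) ∈ U}
  one_mem' := ⟨one_mem _, one_mem _, fun q _ => by simp⟩
  mul_mem' := by
    rintro a b ⟨ha, ha', haq⟩ ⟨hb, hb', hbq⟩
    refine ⟨mul_mem ha hb, mul_mem ha' hb', fun q hq => ?_⟩
    have h1 := haq q hq
    have h2 := (mem_normalizer_iff.mp ha' _).mp (hbq q hq)
    simpa [mul_assoc] using mul_mem h1 h2
  inv_mem' := by
    rintro a ⟨ha, ha', haq⟩
    refine ⟨inv_mem ha, inv_mem ha', fun q hq => ?_⟩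
    have h1 := haq _ ((mem_normalizer_iff''.mp ha q).mp hq)
    have h2 := inv_mem h1
    simpa [mul_assoc] using h2

theorem kernel_le (Q U : Subgroup G) : kernel Q U ≤ normalizer (Q : Set G) := fun _ h => h.1

theorem le_normalizer_kernel {Q U : Subgroup G}
    (hNU : normalizer (Q : Set G) ≤ normalizer (U : Set G)) :
    normalizer (Q : Set G) ≤ normalizer (kernel Q U : Set G) := by
  have key : ∀ h ∈ normalizer (Q : Set G), ∀ g ∈ kernel Q U, h * g * h⁻¹ ∈ kernel Q U := by
    intro h hh g hg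
    refine ⟨mul_mem (mul_mem hh hg.1) (inv_mem hh), mul_mem (mul_mem (hNU hh) hg.2.1)
      (inv_mem (hNU hh)), fun q hq => ?_⟩
    have h1 := hg.2.2 _ ((mem_normalizer_iff''.mp hh q).mp hq)
    have h2 := (mem_normalizer_iff.mp (hNU hh) _).mp h1
    simpa [mul_assoc] using h2
  intro h hh
  rw [mem_normalizer_iff]
  intro x
  refine ⟨key h hh x, fun hx => ?_⟩
  have := key _ (inv_mem hh) _ hx
  simpa [mul_assoc] using this

/-- One step of the downward induction. -/
theorem mem_kernel (S : Sylow p G) {D : Subgroup G} (hD : Cfsg.IsStronglyClosed D (S : Subgroup G))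
    {Q U : Subgroup G} (hQS : Q ≤ (S : Subgroup G))
    (hfn : CfsgLib.Local.FullyNorm p (S : Subgroup G) Q)
    (hNU : normalizer (Q : Set G) ≤ normalizer (U : Set G)) (hR : ¬ D ⊓ kernel Q U ≤ Q)
    (ih : Q < Q ⊔ (D ⊓ kernel Q U) → Triv p (Q ⊔ (D ⊓ kernel Q U))) :
    ∀ g ∈ normalizer (Q : Set G), (orderOf g).Coprime p → g ∈ kernel Q U := by
  intro g hg hcop
  set L := normalizer (Q : Set G) with hL
  set T := (S : Subgroup G) ⊓ L with hT
  obtain ⟨k, hk, n, hnL, hn, rfl⟩ := CfsgLib.Local.PowerWeak.frattini_in (p := p) (H := L) (T := T)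
    (K := kernel Q U) inf_le_right (S.2.to_le inf_le_left) hfn (kernel_le Q U)
    (le_normalizer_kernel hNU) hg
  set R := Q ⊔ (D ⊓ kernel Q U) with hRdef
  have hnR : n ∈ normalizer (R : Set G) := by
    have hstep : ∀ m ∈ L ⊓ normalizer ((kernel Q U ⊓ T : Subgroup G) : Set G),
        R ≤ R.comap (MulAut.conj m).toMonoidHom := by
      rintro m ⟨hmL, hm⟩
      refine sup_le (fun q hq => ?_) fun d hd => ?_
      · exact mem_sup_left ((mem_normalizer_iff.mp hmL q).mp hq)
      · have h1 := (mem_normalizer_iff.mp hm d).mp ⟨hd.2, hD.1 hd.1, kernel_le Q U hd.2⟩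
        exact mem_sup_right ⟨hD.2 d hd.1 m h1.2.1, h1.1⟩
    rw [mem_normalizer_iff]
    intro x
    refine ⟨fun hx => hstep n ⟨hnL, hn⟩ hx, fun hx => ?_⟩
    have := hstep n⁻¹ (inv_mem (s := L ⊓ normalizer ((kernel Q U ⊓ T : Subgroup G) : Set G))
      ⟨hnL, hn⟩) hx
    simpa [mul_assoc] using this
  have htriv : Triv p R := ih (lt_of_le_of_ne le_sup_left fun h =>
    hR (le_sup_right.trans_eq h.symm))
  set a := (orderOf n).factorization p with ha
  have hn' : n ^ p ^ a ∈ kernel Q U := by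
    have hmcop : (orderOf (n ^ p ^ a)).Coprime p := by
      rw [orderOf_pow_of_dvd (pow_ne_zero _ hp.out.ne_zero) (ha ▸ Nat.ordProj_dvd _ _)]
      exact (Nat.coprime_ordCompl hp.out (orderOf_pos n).ne').symm
    have hc := mem_centralizer_iff.mp (htriv (n ^ p ^ a) (Subgroup.pow_mem _ hnR (p ^ a)) hmcop)
    refine ⟨Subgroup.pow_mem _ hnL (p ^ a), Subgroup.pow_mem _ (hNU hnL) (p ^ a), fun q hq => ?_⟩
    have := hc q (mem_sup_left hq)
    rw [← this, mul_inv_cancel_right, inv_mul_cancel]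
    exact one_mem _
  -- pass to the quotient by the kernel
  haveI : ((kernel Q U).subgroupOf L).Normal :=
    (normal_subgroupOf_iff_le_normalizer (kernel_le Q U)).2 (le_normalizer_kernel hNU)
  let π := QuotientGroup.mk' ((kernel Q U).subgroupOf L)
  have h1 : π ⟨k * n, hg⟩ = π ⟨n, hnL⟩ := by
    rw [show (⟨k * n, hg⟩ : L) = ⟨k, kernel_le Q U hk⟩ * ⟨n, hnL⟩ from rfl, map_mul,
      show π ⟨k, kernel_le Q U hk⟩ = 1 from (QuotientGroup.eq_one_iff _).mpr hk, one_mul]
  have h2 : π ⟨k * n, hg⟩ ^ p ^ a = 1 := by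
    rw [h1, ← map_pow]
    exact (QuotientGroup.eq_one_iff _).mpr hn'
  have h3 : π ⟨k * n, hg⟩ ^ orderOf (k * n) = 1 := by
    rw [← map_pow, show (⟨k * n, hg⟩ : L) ^ orderOf (k * n) = 1 from
      Subtype.ext (pow_orderOf_eq_one _), map_one]
  have h4 := Nat.eq_one_of_dvd_coprimes (hcop.pow_right a) (orderOf_dvd_of_pow_eq_one h3)
    (orderOf_dvd_of_pow_eq_one h2)
  exact (QuotientGroup.eq_one_iff (N := (kernel Q U).subgroupOf L) _).mp (orderOf_eq_one_iff.mp h4)

theorem card_conj (Q : Subgroup G) (y : G) :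
    Nat.card ↥(Q.map (MulAut.conj y).toMonoidHom) = Nat.card ↥Q :=
  card_map_of_injective (MulAut.conj y).injective

/-- Elements of order prime to `p` normalizing a subgroup of `D` centralize it. -/
theorem triv_sub (S : Sylow p G) {D : Subgroup G} (hD : Cfsg.IsStronglyClosed D (S : Subgroup G))
    (h : ∀ U : Subgroup G, U ≤ D → D ⊓ centralizer (U : Set G) ≤ U →
      Cfsg.HasNormalPComplement p ↥(normalizer (U : Set G))) :
    ∀ U : Subgroup G, U ≤ D → Triv p U := by
  suffices key : ∀ (m : ℕ) (Q : Subgroup G), Nat.card G - Nat.card Q = m →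
      Q ≤ D → Triv p Q from fun Q hQ => key _ Q rfl hQ
  intro m
  induction m using Nat.strong_induction_on with
  | _ m ih =>
  intro Q hm hQD0
  obtain ⟨y, hy, hfn⟩ := exists_fullyNorm S (S.2.to_le (hQD0.trans hD.1))
  refine triv_conj y ?_
  set Q' := Q.map (MulAut.conj y).toMonoidHom with hQ'
  have hQD : Q' ≤ D := by
    rintro _ ⟨q, hq, rfl⟩
    exact hD.2 q (hQD0 hq) y (hy (mem_map_of_mem _ hq))
  by_cases hC : D ⊓ centralizer (Q' : Set G) ≤ Q'
  · exact triv_of_npc (S.2.to_le hy) le_rfl (h Q' hQD hC) le_normalizer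
  intro g hg hcop
  have hK : centralizer (Q' : Set G) ≤ kernel Q' ⊥ := fun c hc => by
    refine ⟨centralizer_le_normalizer _ hc, ?_, fun q hq => ?_⟩
    · rw [normalizer_eq_top]
      exact mem_top c
    · rw [← mem_centralizer_iff.mp hc q hq, mul_inv_cancel_right, inv_mul_cancel]
      exact one_mem _
  have hmem := mem_kernel S hD hy hfn (by rw [normalizer_eq_top (H := (⊥ : Subgroup G))]; exact le_top)
    (fun h' => hC ((inf_le_inf_left D hK).trans h')) (fun hlt => by
      refine ih _ ?_ _ rfl (sup_le hQD inf_le_left)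
      have h1 := CfsgLib.Local.card_lt_card_of_lt hlt
      rw [card_conj] at h1
      have h2 := card_le_card_group (Q' ⊔ (D ⊓ kernel Q' ⊥))
      omega) g hg hcop
  rw [mem_centralizer_iff]
  intro q hq
  have := hmem.2.2 q hq
  rw [mem_bot, inv_mul_eq_one] at this
  conv_lhs => rw [this]
  group

/-- Frobenius's criterion relative to a strongly closed subgroup. -/
theorem npc (S : Sylow p G) {D : Subgroup G} (hD : Cfsg.IsStronglyClosed D (S : Subgroup G))
    (h : ∀ U : Subgroup G, U ≤ D → D ⊓ centralizer (U : Set G) ≤ U →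
      Cfsg.HasNormalPComplement p ↥(normalizer (U : Set G))) :
    Cfsg.HasNormalPComplement p G := by
  refine CfsgLib.Core.hasNormalPComplement_of_local_le S ?_
  suffices key : ∀ (m : ℕ) (Q : Subgroup G), Nat.card G - Nat.card Q = m →
      Q ≤ (S : Subgroup G) → Triv p Q from fun Q hQ => key _ Q rfl hQ
  intro m
  induction m using Nat.strong_induction_on with
  | _ m ih =>
  intro Q hm hQS
  obtain ⟨y, hy, hfn⟩ := exists_fullyNorm S (S.2.to_le hQS)
  refine triv_conj y ?_
  set Q' := Q.map (MulAut.conj y).toMonoidHom with hQ'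
  have ihR : ∀ R : Subgroup G, R ≤ (S : Subgroup G) → Q' < R → Triv p R := fun R hR hlt => by
    refine ih _ ?_ R rfl hR
    have h1 : Nat.card Q' < Nat.card R := CfsgLib.Local.card_lt_card_of_lt hlt
    rw [card_conj] at h1
    have h2 := card_le_card_group R
    omega
  -- subgroups of `D` first
  have hclosed : ∀ x ∈ D, ∀ z ∈ normalizer (Q' : Set G), x ∈ Q' → z * x * z⁻¹ ∈ D :=
    fun x hx z hz hxQ => hD.2 x hx z (hy ((mem_normalizer_iff.mp hz x).mp hxQ))
  by_cases hDQ : D ≤ Q'
  · have hND : normalizer (Q' : Set G) ≤ normalizer (D : Set G) := by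
      intro z hz
      rw [mem_normalizer_iff]
      refine fun x => ⟨fun hx => hclosed x hx z hz (hDQ hx), fun hx => ?_⟩
      have := hclosed _ hx z⁻¹ (inv_mem hz) (hDQ hx)
      simpa [mul_assoc] using this
    exact triv_of_npc (S.2.to_le hy) hND (h D le_rfl inf_le_left) (le_normalizer.trans hND)
  by_cases hQD : Q' ≤ D
  · exact triv_sub S hD h Q' hQD
  set U := Q' ⊓ D with hU
  have hNU : normalizer (Q' : Set G) ≤ normalizer (U : Set G) := by
    intro z hz
    rw [mem_normalizer_iff]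
    refine fun x => ⟨fun hx => ⟨(mem_normalizer_iff.mp hz x).mp hx.1, hclosed x hx.2 z hz hx.1⟩,
      fun hx => ?_⟩
    have := hclosed _ hx.2 z⁻¹ (inv_mem hz) hx.1
    exact ⟨(mem_normalizer_iff.mp hz x).mpr hx.1, by simpa [mul_assoc] using this⟩
  -- `N_D(Q')` is not inside `Q'` and acts trivially modulo `U`
  obtain ⟨d, ⟨hdQD, hdN⟩, hdQ⟩ := CfsgLib.Local.exists_normalizer_not_mem
    (S.2.to_le (sup_le hy hD.1)) (left_lt_sup.mpr hDQ)
  have hSD : (S : Subgroup G) ≤ normalizer (D : Set G) := by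
    intro s hs
    rw [mem_normalizer_iff]
    refine fun x => ⟨fun hx => hD.2 x hx s (mul_mem (mul_mem hs (hD.1 hx)) (inv_mem hs)), fun hx => ?_⟩
    have h1 : x ∈ (S : Subgroup G) := by
      have := mul_mem (mul_mem (inv_mem hs) (hD.1 hx)) hs
      simpa [mul_assoc] using this
    have := hD.2 _ hx s⁻¹ (by simpa [mul_assoc] using h1)
    simpa [mul_assoc] using this
  have hR : ¬ D ⊓ kernel Q' U ≤ Q' := by
    intro hle
    obtain ⟨q, hq, e, he, rfl⟩ := CfsgLib.Core.mem_sup_iff_of_le_normalizer (hy.trans hSD) |>.mp hdQD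
    refine hdQ (mul_mem hq (hle ⟨he, ?_⟩))
    have heN : e ∈ normalizer (Q' : Set G) := by
      have := (normalizer (Q' : Set G)).mul_mem ((normalizer (Q' : Set G)).inv_mem (le_normalizer hq)) hdN
      simpa using this
    refine ⟨heN, hNU heN, fun r hr => ⟨Q'.mul_mem (Q'.inv_mem hr) ((mem_normalizer_iff.mp heN r).mp hr), ?_⟩⟩
    have := mul_mem ((mem_normalizer_iff.mp (hSD (inv_mem (hy hr))) e).mp he) (inv_mem he)
    simpa [mul_assoc] using this
  intro g hg hcop
  have hmem := mem_kernel S hD hy hfn hNU hR (ihR _ (sup_le hy (inf_le_left.trans hD.1))) g hg hcop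
  have hUtriv : Triv p U := by
    have hlt : U < Q' := lt_of_le_of_ne inf_le_left fun h' => hQD (h' ▸ inf_le_right)
    exact triv_sub S hD h U inf_le_right
  rw [mem_centralizer_iff]
  intro q hq
  have hu := hmem.2.2 q hq
  set u := q⁻¹ * (g * q * g⁻¹) with hudef
  have hgu := mem_centralizer_iff.mp (hUtriv g (hNU hg) hcop) u hu
  have hiter : ∀ i : ℕ, g ^ i * q * (g ^ i)⁻¹ = q * u ^ i := by
    intro i
    induction i with
    | zero => simp
    | succ i ihi =>
      calc g ^ (i + 1) * q * (g ^ (i + 1))⁻¹ = g * (g ^ i * q * (g ^ i)⁻¹) * g⁻¹ := by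
            rw [pow_succ']; group
        _ = g * q * g⁻¹ * (g * u ^ i * g⁻¹) := by rw [ihi]; group
        _ = g * q * g⁻¹ * u ^ i := by
          rw [← (Commute.pow_left hgu i).eq, mul_inv_cancel_right]
        _ = q * u ^ (i + 1) := by rw [pow_succ', ← mul_assoc, hudef, mul_inv_cancel_left]
  have h1 := hiter (orderOf g)
  rw [pow_orderOf_eq_one, one_mul, inv_one, mul_one, left_eq_mul] at h1
  obtain ⟨e, he⟩ := (S.2.to_le hy) ⟨u, hu.1⟩
  have h2 : u = 1 := orderOf_eq_one_iff.mp (Nat.eq_one_of_dvd_coprimes (hcop.pow_right e)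
    (orderOf_dvd_of_pow_eq_one h1) (orderOf_dvd_of_pow_eq_one (congrArg Subtype.val he)))
  rw [hudef, inv_mul_eq_one] at h2
  conv_lhs => rw [h2]
  group

end CfsgLib.Core.StrClosedFrobenius
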