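import Mathlib
import Cfsg.Agent.Lib.CorePGroup

/-!
# Derived length of the Sylow subgroups of symmetric groups
-/

set_option autoImplicit false

namespace CfsgLib.Core.SymSylow

open Subgroup MulAction
open scoped commutatorElement

variable {p : ℕ} [hp : Fact p.Prime]

theorem derived_succ {G : Type*} [Group G] (M : Subgroup G) (hM : commutator G ≤ M) (j : ℕ) :
    derivedSeries G (j + 1) ≤ (derivedSeries M j).map M.subtype := by
  induction j with
  | zero =>
    rw [derivedSeries_one, derivedSeries_zero, ← MonoidHom.range_eq_map, range_subtype]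
    exact hM
  | succ j ih =>
    rw [derivedSeries_succ, derivedSeries_succ M, Subgroup.map_commutator]
    exact commutator_mono ih ih

theorem derived_fixes : ∀ (k : ℕ) {Q Ω : Type} [Group Q] [Finite Q] [Finite Ω] [MulAction Q Ω],
    IsPGroup p Q → Nat.card Ω < p ^ (k + 1) → ∀ g ∈ derivedSeries Q k, ∀ ω : Ω, g • ω = ω := by
  intro k
  induction k with
  | zero =>
    intro Q Ω _ _ _ _ hQ hΩ g _ ω
    obtain ⟨a, ha⟩ := hQ.card_orbit ω
    have h1 : Nat.card (orbit Q ω) ≤ Nat.card Ω :=
      Nat.card_le_card_of_injective _ Subtype.val_injective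
    rw [ha] at h1
    have ha0 : a = 0 := by
      have h3 := (Nat.pow_lt_pow_iff_right hp.out.one_lt).mp (h1.trans_lt hΩ)
      omega
    rw [ha0, pow_zero] at ha
    haveI := (Nat.card_eq_one_iff_unique.mp ha).1
    exact congrArg Subtype.val (Subsingleton.elim (⟨g • ω, ⟨g, rfl⟩⟩ : orbit Q ω) ⟨ω, mem_orbit_self ω⟩)
  | succ k ih =>
    intro Q Ω _ _ _ _ hQ hΩ g hg ω
    by_cases hH : stabilizer Q ω = ⊤
    · exact hH.ge (mem_top g)
    obtain ⟨M, hM, hle⟩ := (eq_top_or_exists_le_coatom _).resolve_left hH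
    obtain ⟨hMn, hMi⟩ := CfsgLib.Core.index_of_coatom_pgroup hQ hM
    haveI := hMn
    have hcomm : commutator Q ≤ M :=
      (CfsgLib.Core.pgroup_commutator_le_frattini hQ).trans (frattini_le_coatom hM)
    obtain ⟨m, hm, hmg⟩ := derived_succ M hcomm k hg
    obtain ⟨a, ha⟩ := hQ.card_orbit ω
    have h2 : Nat.card (orbit M ω) * p = Nat.card (orbit Q ω) := by
      rw [Nat.card_congr (orbitEquivQuotientStabilizer M ω),
        Nat.card_congr (orbitEquivQuotientStabilizer Q ω), ← Subgroup.index_eq_card,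
        ← Subgroup.index_eq_card, ← hMi, ← relIndex_mul_index hle]
      rfl
    have hlt : Nat.card (orbit M ω) < p ^ (k + 1) := by
      have h1 : Nat.card (orbit Q ω) ≤ Nat.card Ω :=
        Nat.card_le_card_of_injective _ Subtype.val_injective
      have h3 := h1.trans_lt hΩ
      rw [← h2, pow_succ] at h3
      exact lt_of_mul_lt_mul_right h3 (Nat.zero_le p)
    have := ih (Q := M) (Ω := orbit M ω) (hQ.to_subgroup M) hlt m hm ⟨ω, mem_orbit_self ω⟩
    have h4 : (m : Q) • ω = ω := congrArg Subtype.val this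
    rwa [show (m : Q) = g from hmg] at h4

theorem derived_eq_bot (n : ℕ) (hn : 1 ≤ n) (P : Subgroup (Equiv.Perm (Fin n))) (hP : IsPGroup p P) :
    derivedSeries P (Nat.log p n) = ⊥ := by
  refine (eq_bot_iff_forall _).mpr fun g hg => Subtype.ext (Equiv.ext fun ω => ?_)
  exact derived_fixes (Nat.log p n) hP (by
    rw [Nat.card_fin]; exact Nat.lt_pow_succ_log_self hp.out.one_lt n) g hg ω

theorem wreath_step {α : Type} [Finite α] (W : Subgroup (Equiv.Perm α)) (hW : IsPGroup p W) {j : ℕ}
    (hd : derivedSeries W j ≠ ⊥) :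
    ∃ W₂ : Subgroup (Equiv.Perm (ZMod p × α)), IsPGroup p W₂ ∧ derivedSeries W₂ (j + 1) ≠ ⊥ := by
  haveI : NeZero p := ⟨hp.out.ne_zero⟩
  let β : (ZMod p → W) →* Equiv.Perm (ZMod p × α) :=
    { toFun := fun f => Equiv.prodCongrRight fun i => (f i : Equiv.Perm α)
      map_one' := Equiv.ext fun x => rfl
      map_mul' := fun f g => Equiv.ext fun x => rfl }
  let s : Equiv.Perm (ZMod p × α) := Equiv.prodCongr (Equiv.addRight (1 : ZMod p)) (Equiv.refl α)
  have hsk : ∀ (k : ℕ) (x : ZMod p × α), (s ^ k) x = (x.1 + (k : ZMod p), x.2) := by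
    intro k
    induction k with
    | zero => intro x; simp
    | succ k ih =>
      intro x
      rw [pow_succ', Equiv.Perm.mul_apply, ih]
      simp [s, add_assoc]
  have hsp : s ^ p = 1 := Equiv.ext fun x => by rw [hsk, ZMod.natCast_self]; simp
  have hconj : ∀ f : ZMod p → W, s * β f * s⁻¹ = β fun i => f (i - 1) := by
    intro f
    rw [mul_inv_eq_iff_eq_mul]
    refine Equiv.ext fun x => ?_
    simp [β, s, Equiv.Perm.mul_apply, Equiv.prodCongrRight]
  have hnorm : zpowers s ≤ normalizer (β.range : Set (Equiv.Perm (ZMod p × α))) := by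
    rw [zpowers_le]
    refine Subgroup.mem_normalizer_iff.mpr fun h => ⟨?_, ?_⟩
    · rintro ⟨f, rfl⟩
      exact ⟨_, (hconj f).symm⟩
    · rintro ⟨f, hf⟩
      refine ⟨fun i => f (i + 1), ?_⟩
      have h1 := hconj fun i => f (i + 1)
      simp only [sub_add_cancel] at h1
      have h2 : s * β (fun i => f (i + 1)) * s⁻¹ = s * h * s⁻¹ := h1.trans hf
      exact mul_left_cancel (mul_right_cancel h2)
  set W₂ := β.range ⊔ zpowers s with hW₂
  have hbase : IsPGroup p (ZMod p → W) := by
    obtain ⟨a, ha⟩ := IsPGroup.iff_card.mp hW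
    refine IsPGroup.of_card (n := a * p) ?_
    rw [Nat.card_fun, ha, Nat.card_zmod, ← pow_mul]
  have hp2 : IsPGroup p W₂ := by
    rw [hW₂, sup_comm]
    exact IsPGroup.to_sup_of_normal_right'
      (fun x => ⟨1, by
        obtain ⟨i, hi⟩ := mem_zpowers_iff.mp x.2
        apply Subtype.ext
        show (x : Equiv.Perm (ZMod p × α)) ^ p ^ 1 = 1
        rw [pow_one, ← hi, ← zpow_natCast, ← zpow_mul, mul_comm, zpow_mul, zpow_natCast, hsp,
          one_zpow]⟩)
      (hbase.of_surjective β.rangeRestrict β.rangeRestrict_surjective) hnorm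
  refine ⟨W₂, hp2, fun h0 => ?_⟩
  classical
  set D : Subgroup (ZMod p → W) := ((commutator W₂).map W₂.subtype).comap β with hD
  let π : D →* W := (Pi.evalMonoidHom (fun _ : ZMod p => W) 0).comp D.subtype
  have hπ : Function.Surjective π := by
    intro w
    set f : ZMod p → W := Pi.mulSingle 0 w⁻¹ with hf
    have hmem : (fun i => f (i - 1)) * f⁻¹ ∈ D := by
      refine ⟨⁅(⟨s, mem_sup_right (mem_zpowers s)⟩ : W₂), ⟨β f, mem_sup_left ⟨f, rfl⟩⟩⁆,
        commutator_mem_commutator (mem_top _) (mem_top _), ?_⟩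
      rw [map_commutatorElement, map_mul, map_inv, ← hconj f, commutatorElement_def]
      rfl
    refine ⟨⟨_, hmem⟩, ?_⟩
    show f (0 - 1) * (f 0)⁻¹ = w
    rw [hf, zero_sub, Pi.mulSingle_eq_of_ne (neg_ne_zero.mpr one_ne_zero), Pi.mulSingle_eq_same,
      one_mul, inv_inv]
  apply hd
  rw [← map_derivedSeries_eq hπ j]
  rw [Subgroup.map_eq_bot_iff]
  intro d hd'
  have hinj : Function.Injective β := fun f g hfg => funext fun i => Subtype.ext (Equiv.ext fun a =>
    (Prod.mk.injEq _ _ _ _ ▸ DFunLike.congr_fun hfg (i, a) : i = i ∧ _).2)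
  let C : Subgroup (Equiv.Perm (ZMod p × α)) := (commutator W₂).map W₂.subtype
  let φ : D →* C := (β.comp D.subtype).codRestrict C fun x => x.2
  have h1 : φ d ∈ derivedSeries C j := map_derivedSeries_le_derivedSeries φ j ⟨d, hd', rfl⟩
  let e : commutator W₂ ≃* C := (commutator W₂).equivMapOfInjective W₂.subtype W₂.subtype_injective
  have h2 : e.symm (φ d) ∈ derivedSeries (commutator W₂) j :=
    map_derivedSeries_le_derivedSeries e.symm.toMonoidHom j ⟨φ d, h1, rfl⟩
  have h3 : derivedSeries W₂ (j + 1) = (derivedSeries (commutator W₂) j).map (commutator W₂).subtype := by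
    clear h0 h1 h2 hd hd'
    induction j with
    | zero => rw [derivedSeries_one, derivedSeries_zero, ← MonoidHom.range_eq_map, range_subtype]
    | succ i ih => rw [derivedSeries_succ, derivedSeries_succ (commutator W₂), Subgroup.map_commutator, ih]
  rw [h0, eq_comm, Subgroup.map_eq_bot_iff, Subgroup.ker_subtype, le_bot_iff] at h3
  rw [h3, Subgroup.mem_bot, MulEquiv.map_eq_one_iff] at h2
  have h4 : (d : ZMod p → W) = 1 := hinj (by rw [map_one]; exact congrArg Subtype.val h2)
  rw [MonoidHom.mem_ker]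
  show (d : ZMod p → W) 0 = 1
  rw [h4, Pi.one_apply]

theorem exists_pgroup (k : ℕ) : ∃ (α : Type) (_ : Finite α) (W : Subgroup (Equiv.Perm α)),
    Nat.card α = p ^ (k + 1) ∧ IsPGroup p W ∧ derivedSeries W k ≠ ⊥ := by
  haveI : NeZero p := ⟨hp.out.ne_zero⟩
  induction k with
  | zero =>
    refine ⟨ZMod p, inferInstance, zpowers (Equiv.addRight (1 : ZMod p)), by simp, ?_, ?_⟩
    · intro x
      refine ⟨1, Subtype.ext ?_⟩
      obtain ⟨i, hi⟩ := mem_zpowers_iff.mp x.2
      show (x : Equiv.Perm (ZMod p)) ^ p ^ 1 = 1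
      have h1 : (Equiv.addRight (1 : ZMod p)) ^ p = 1 := by
        refine Equiv.ext fun z => ?_
        have hk : ∀ k : ℕ, ((Equiv.addRight (1 : ZMod p)) ^ k) z = z + (k : ZMod p) := by
          intro k
          induction k with
          | zero => simp
          | succ k ih => rw [pow_succ', Equiv.Perm.mul_apply, ih]; simp [add_assoc]
        rw [hk, ZMod.natCast_self, add_zero]; rfl
      rw [pow_one, ← hi, ← zpow_natCast, ← zpow_mul, mul_comm, zpow_mul, zpow_natCast, h1, one_zpow]
    · rw [derivedSeries_zero]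
      intro h
      have h2 := (Subgroup.eq_bot_iff_forall _).mp h ⟨_, mem_zpowers _⟩ (mem_top _)
      have h3 := DFunLike.congr_fun (congrArg Subtype.val h2) (0 : ZMod p)
      simp at h3
  | succ k ih =>
    obtain ⟨α, hα, W, hc, hW, hd⟩ := ih
    obtain ⟨W₂, hW₂, hd₂⟩ := wreath_step W hW hd
    exact ⟨ZMod p × α, inferInstance, W₂, by rw [Nat.card_prod, hc, Nat.card_zmod, pow_succ' p (k + 1)],
      hW₂, hd₂⟩

theorem derived_ne_bot (n : ℕ) (hn : 1 ≤ n) (P : Sylow p (Equiv.Perm (Fin n)))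
    (hl : 1 ≤ Nat.log p n) :
    derivedSeries (P : Subgroup (Equiv.Perm (Fin n))) (Nat.log p n - 1) ≠ ⊥ := by
  obtain ⟨α, hα, W, hc, hW, hd⟩ := exists_pgroup (p := p) (Nat.log p n - 1)
  rw [Nat.sub_add_cancel hl] at hc
  have hle : Nat.card α ≤ Nat.card (Fin n) := by
    rw [hc, Nat.card_fin]; exact Nat.pow_log_le_self p (by omega)
  haveI := Fintype.ofFinite α
  obtain ⟨ι⟩ : Nonempty (α ↪ Fin n) := Function.Embedding.nonempty_of_card_le (by
    rwa [← Nat.card_eq_fintype_card, ← Nat.card_eq_fintype_card])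
  classical
  set f : Equiv.Perm α →* Equiv.Perm (Fin n) := Equiv.Perm.viaEmbeddingHom ι with hf
  have hfi : Function.Injective f := Equiv.Perm.viaEmbeddingHom_injective ι
  obtain ⟨Q, hQ⟩ := (hW.map f).exists_le_sylow
  obtain ⟨g, rfl⟩ := MulAction.exists_smul_eq (Equiv.Perm (Fin n)) P Q
  intro h0
  apply hd
  let e := (P : Subgroup (Equiv.Perm (Fin n))).equivSMul (MulAut.conj g)
  let φ : W →* (P : Subgroup (Equiv.Perm (Fin n))) := e.symm.toMonoidHom.comp
    (((f.comp W.subtype).codRestrict _ fun w => hQ ⟨w, w.2, rfl⟩))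
  have hφ : Function.Injective φ := e.symm.injective.comp fun a b hab =>
    Subtype.ext (hfi (congrArg Subtype.val hab))
  have h1 := map_derivedSeries_le_derivedSeries φ (Nat.log p n - 1)
  rw [h0, le_bot_iff, Subgroup.map_eq_bot_iff, (MonoidHom.ker_eq_bot_iff φ).mpr hφ, le_bot_iff] at h1
  exact h1

end CfsgLib.Core.SymSylow
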