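import Mathlib
import Cfsg.Prelude.Def_SolvableStructure
import Cfsg.Agent.Lib.CoreHall
import Cfsg.Agent.Lib.CoreFitting

/-!
Hall complement systems and system normalizers of finite soluble groups.
-/

set_option autoImplicit false
set_option maxHeartbeats 400000

namespace CfsgLib.Core

open scoped Pointwise
open Subgroup

universe u

variable {G : Type u} [Group G] [Finite G]

/-- The prime set `p'`. -/
abbrev co (p : Nat.Primes) : Set ℕ := {(p : ℕ)}ᶜ

theorem isPiNat_index_co (p : Nat.Primes) {n : ℕ} :
    IsPiNat (co p)ᶜ n ↔ IsPiNat {(p : ℕ)} n := by rw [compl_compl]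

theorem system_iff {K : Nat.Primes → Subgroup G} :
    Cfsg.IsComplementSystem K ↔ ∀ p, IsHall (co p) (K p) := by
  refine forall_congr' fun p => ?_
  have hp := p.2
  haveI := Fact.mk hp
  constructor
  · intro h
    refine ⟨(isPiNat_compl_singleton_iff hp).mpr ?_, ?_⟩
    · rw [Nat.coprime_comm, hp.coprime_iff_not_dvd]
      intro hd
      obtain ⟨t, ht⟩ := hd
      have h1 := (K p).card_mul_index
      rw [h, ht] at h1
      refine Nat.pow_succ_factorization_not_dvd (Nat.card_pos (α := G)).ne' hp
        ⟨t, ?_⟩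
      rw [pow_succ]
      exact h1.symm.trans (by ring)
    · rw [isPiNat_index_co, isPiNat_singleton_iff hp Subgroup.index_ne_zero_of_finite]
      exact ⟨_, h⟩
  · rintro ⟨h1, h2⟩
    rw [isPiNat_index_co, isPiNat_singleton_iff hp Subgroup.index_ne_zero_of_finite] at h2
    obtain ⟨k, hk⟩ := h2
    rw [hk]
    congr 1
    rw [isPiNat_compl_singleton_iff hp, Nat.coprime_comm, hp.coprime_iff_not_dvd] at h1
    rw [← (K p).card_mul_index, hk, Nat.factorization_mul (Nat.card_pos).ne'
      (pow_ne_zero _ hp.ne_zero), Finsupp.add_apply, Nat.Prime.factorization_pow hp,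
      Finsupp.single_eq_same, Nat.factorization_eq_zero_of_not_dvd h1, zero_add]

theorem exists_system [Group.IsSolvable G] :
    ∃ K : Nat.Primes → Subgroup G, Cfsg.IsComplementSystem K := by
  choose K hK using fun p : Nat.Primes => exists_isHall (G := G) (co p)
  exact ⟨K, system_iff.mpr hK⟩

theorem system_conj {K : Nat.Primes → Subgroup G} (hK : Cfsg.IsComplementSystem K) (g : G) :
    Cfsg.IsComplementSystem (fun p => MulAut.conj g • K p) :=
  system_iff.mpr fun p => (system_iff.mp hK p).conj_smul g

theorem system_eq_top {K : Nat.Primes → Subgroup G} (hK : Cfsg.IsComplementSystem K)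
    {p : Nat.Primes} (hp : ¬ (p : ℕ) ∣ Nat.card G) : K p = ⊤ := by
  rw [← Subgroup.index_eq_one, hK p, Nat.factorization_eq_zero_of_not_dvd hp, pow_zero]

/-- `G = AB` if the indices of `A` and `B` are coprime. -/
theorem exists_eq_mul_of_index_coprime {A B : Subgroup G} (h : A.index.Coprime B.index) (g : G) :
    ∃ a ∈ A, ∃ b ∈ B, g = a * b := by
  have hc : B.relIndex A = B.index := by
    have h1 : (A ⊓ B).index = B.relIndex A * A.index := by
      rw [← inf_relIndex_left A B, Subgroup.relIndex_mul_index inf_le_left]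
    have h2 : (A ⊓ B).index = A.relIndex B * B.index := by
      rw [← inf_relIndex_right A B, Subgroup.relIndex_mul_index inf_le_right]
    refine le_antisymm ?_ (Nat.le_of_dvd (Nat.pos_of_ne_zero ?_) ?_)
    · exact Nat.le_of_mul_le_mul_right ((h1 ▸ Subgroup.index_inf_le).trans_eq (mul_comm _ _))
        (Nat.pos_of_ne_zero Subgroup.index_ne_zero_of_finite)
    · exact Subgroup.index_ne_zero_of_finite (H := B.subgroupOf A)
    · exact h.symm.dvd_of_dvd_mul_right (h1 ▸ h2 ▸ dvd_mul_left _ _)
  let f : ↥A ⧸ B.subgroupOf A → G ⧸ B := Quotient.map' (fun a => (a : G)) fun x y hxy => by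
    rw [QuotientGroup.leftRel_apply] at hxy ⊢
    exact hxy
  have hinj : Function.Injective f := by
    intro x y
    induction x using QuotientGroup.induction_on with | _ x =>
    induction y using QuotientGroup.induction_on with | _ y =>
    intro hxy
    exact QuotientGroup.eq.mpr (QuotientGroup.eq (s := B).mp hxy :)
  have hbij : Function.Bijective f := by
    haveI := Fintype.ofFinite (↥A ⧸ B.subgroupOf A)
    haveI := Fintype.ofFinite (G ⧸ B)
    exact (Fintype.bijective_iff_injective_and_card f).mpr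
      ⟨hinj, by rw [← Nat.card_eq_fintype_card, ← Nat.card_eq_fintype_card]; exact hc⟩
  obtain ⟨x, hx⟩ := hbij.2 (g : G ⧸ B)
  induction x using QuotientGroup.induction_on with | _ x =>
  have h1 : (x : G)⁻¹ * g ∈ B := QuotientGroup.eq.mp hx
  exact ⟨x, x.2, _, h1, (mul_inv_cancel_left _ _).symm⟩

/-- The intersection of the members of a system over a finite set of primes. -/
def sysInf (K : Nat.Primes → Subgroup G) (σ : Finset Nat.Primes) : Subgroup G :=
  ⨅ q ∈ σ, K q

theorem mem_sysInf {K : Nat.Primes → Subgroup G} {σ : Finset Nat.Primes} {x : G} :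
    x ∈ sysInf K σ ↔ ∀ q ∈ σ, x ∈ K q := by
  simp [sysInf, Subgroup.mem_iInf]

theorem sysInf_index_coprime {K : Nat.Primes → Subgroup G} (hK : Cfsg.IsComplementSystem K) :
    ∀ (σ : Finset Nat.Primes) (p : Nat.Primes), p ∉ σ → ¬ (p : ℕ) ∣ (sysInf K σ).index := by
  intro σ
  induction σ using Finset.induction_on with
  | empty =>
    intro p _ hd
    have : sysInf K ∅ = ⊤ := by ext x; simp [mem_sysInf]
    rw [this, Subgroup.index_top] at hd
    exact p.2.not_dvd_one hd
  | insert q σ hq ih =>
    intro p hp hd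
    rw [Finset.mem_insert, not_or] at hp
    have e : sysInf K (insert q σ) = K q ⊓ sysInf K σ := by
      ext x; simp [mem_sysInf, Subgroup.mem_inf]
    -- the indices are coprime, so the index of the intersection divides their product
    have hco : (K q).index.Coprime (sysInf K σ).index := by
      rw [hK q]
      exact Nat.Coprime.pow_left _ ((q.2.coprime_iff_not_dvd).mpr (ih q hq))
    have h2 : (K q ⊓ sysInf K σ).index = (K q).relIndex (sysInf K σ) * (sysInf K σ).index := by
      rw [← inf_relIndex_right (K q) (sysInf K σ), Subgroup.relIndex_mul_index inf_le_right]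
    have h3 : (K q).index ∣ (K q ⊓ sysInf K σ).index := Subgroup.index_dvd_of_le inf_le_left
    rw [h2] at h3
    have h4 : (K q).relIndex (sysInf K σ) = (K q).index :=
      le_antisymm (Nat.le_of_mul_le_mul_right (h2 ▸ Subgroup.index_inf_le)
        (Nat.pos_of_ne_zero Subgroup.index_ne_zero_of_finite)) (Nat.le_of_dvd
        (Nat.pos_of_ne_zero (Subgroup.index_ne_zero_of_finite (H := (K q).subgroupOf (sysInf K σ))))
        (hco.dvd_of_dvd_mul_right h3))
    rw [e, h2, h4] at hd
    rcases (Nat.Prime.dvd_mul p.2).mp hd with h | h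
    · rw [hK q] at h
      exact hp.1 (Subtype.ext ((Nat.prime_dvd_prime_iff_eq p.2 q.2).mp (p.2.dvd_of_dvd_pow h)))
    · exact ih p hp.2 h

theorem conj_smul_sup_normal (g : G) (A N : Subgroup G) [N.Normal] :
    MulAut.conj g • (A ⊔ N) = MulAut.conj g • A ⊔ N := by
  rw [Subgroup.smul_sup, conj_smul_of_normal g N]

theorem relIndex_dvd_index_right_normal (A N : Subgroup G) [N.Normal] :
    A.relIndex N ∣ A.index := by
  have h : A.relIndex N = A.relIndex (A ⊔ N) := by
    rw [← inf_relIndex_right A N]
    have h1 : Nat.card ↥(A ⊔ N) * Nat.card ↥(A ⊓ N) = Nat.card A * Nat.card N :=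
      card_sup_mul_card_inf (le_normalizer_normal A)
    have h2 := card_mul_relIndex (H := A ⊓ N) (K := N) inf_le_right
    have h3 := card_mul_relIndex (H := A) (K := A ⊔ N) le_sup_left
    refine mul_left_cancel₀ (mul_pos (Nat.card_pos (α := ↥A)) (Nat.card_pos (α := ↥(A ⊓ N)))).ne' ?_
    calc Nat.card ↥A * Nat.card ↥(A ⊓ N) * (A ⊓ N).relIndex N
        = Nat.card ↥A * Nat.card ↥N := by rw [mul_assoc, h2]
      _ = Nat.card ↥(A ⊔ N) * Nat.card ↥(A ⊓ N) := h1.symm
      _ = Nat.card ↥A * Nat.card ↥(A ⊓ N) * A.relIndex (A ⊔ N) := by rw [← h3]; ring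
  rw [h]
  exact Dvd.intro _ (Subgroup.relIndex_mul_index le_sup_left)

/-- Systems with the same images modulo `N` are conjugate under `N`. -/
theorem system_conj_of_sup_eq [Group.IsSolvable G] {K L : Nat.Primes → Subgroup G}
    (hK : Cfsg.IsComplementSystem K) (hL : Cfsg.IsComplementSystem L) (N : Subgroup G) [N.Normal]
    (h : ∀ p, K p ⊔ N = L p ⊔ N) : ∃ g ∈ N, ∀ p, MulAut.conj g • K p = L p := by
  have main : ∀ σ : Finset Nat.Primes, ∃ g ∈ N, ∀ p ∈ σ, MulAut.conj g • K p = L p := by
    intro σ
    induction σ using Finset.induction_on with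
    | empty => exact ⟨1, one_mem N, fun p hp => absurd hp (Finset.notMem_empty p)⟩
    | insert q σ hq ih =>
      obtain ⟨g, hgN, hg⟩ := ih
      set K' := fun p => MulAut.conj g • K p with hK'def
      have hK' : Cfsg.IsComplementSystem K' := system_conj hK g
      have hsup : K' q ⊔ N = L q ⊔ N := by
        rw [hK'def, ← conj_smul_sup_normal, conj_smul_of_mem_normalizer, h]
        exact Subgroup.le_normalizer (Subgroup.mem_sup_right hgN)
      have hin : ∀ J : Nat.Primes → Subgroup G, Cfsg.IsComplementSystem J →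
          IsHallIn (co q) (J q) (J q ⊔ N) := fun J hJ =>
        ⟨le_sup_left, (system_iff.mp hJ q).1,
          (system_iff.mp hJ q).2.of_dvd (Dvd.intro _ (Subgroup.relIndex_mul_index le_sup_left))⟩
      obtain ⟨m, hm, hmc⟩ := isHallIn_conj (M := K' q ⊔ N) inferInstance (hin K' hK')
        (by rw [hsup]; exact hin L hL)
      rw [sup_comm] at hm
      obtain ⟨n, hn, k, hk, rfl⟩ := Subgroup.mem_sup_of_normal_left.mp hm
      rw [← conj_smul_conj_smul,
        conj_smul_of_mem_normalizer (Subgroup.le_normalizer hk)] at hmc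
      have hco : ((sysInf K' σ).subgroupOf N).index.Coprime ((K' q).subgroupOf N).index := by
        refine Nat.Coprime.coprime_dvd_left (relIndex_dvd_index_right_normal (sysInf K' σ) N)
          (Nat.Coprime.coprime_dvd_right (relIndex_dvd_index_right_normal (K' q) N) ?_)
        rw [hK' q]
        exact Nat.Coprime.pow_right _
          ((q.2.coprime_iff_not_dvd).mpr (sysInf_index_coprime hK' σ q hq)).symm
      obtain ⟨a, ha, b, hb, hab⟩ := exists_eq_mul_of_index_coprime hco ⟨n, hn⟩
      have habv : n = (a : G) * b := congrArg Subtype.val hab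
      rw [habv, ← conj_smul_conj_smul,
        conj_smul_of_mem_normalizer (Subgroup.le_normalizer (Subgroup.mem_subgroupOf.mp hb))] at hmc
      refine ⟨a * g, mul_mem a.2 hgN, fun p hp => ?_⟩
      rw [← conj_smul_conj_smul]
      rcases Finset.mem_insert.mp hp with rfl | hp
      · exact hmc
      · rw [show MulAut.conj g • K p = K' p from rfl,
          conj_smul_of_mem_normalizer
            (Subgroup.le_normalizer (mem_sysInf.mp (Subgroup.mem_subgroupOf.mp ha) p hp))]
        exact hg p hp
  obtain ⟨g, hgN, hg⟩ := main ((Nat.card G).primeFactors.subtype Nat.Prime)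
  refine ⟨g, hgN, fun p => ?_⟩
  by_cases hp : (p : ℕ) ∣ Nat.card G
  · exact hg p (Finset.mem_subtype.mpr (Nat.mem_primeFactors.mpr ⟨p.2, hp, Nat.card_pos.ne'⟩))
  · rw [system_eq_top (system_conj hK g) hp, system_eq_top hL hp]

theorem system_conjugate [Group.IsSolvable G] {K L : Nat.Primes → Subgroup G}
    (hK : Cfsg.IsComplementSystem K) (hL : Cfsg.IsComplementSystem L) :
    ∃ g : G, ∀ p, MulAut.conj g • K p = L p := by
  obtain ⟨g, -, hg⟩ := system_conj_of_sup_eq hK hL ⊤ (fun p => by simp)
  exact ⟨g, hg⟩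

theorem mem_systemNormalizer {K : Nat.Primes → Subgroup G} {x : G} :
    x ∈ Cfsg.systemNormalizer K ↔ ∀ p, MulAut.conj x • K p = K p := by
  simp only [Cfsg.systemNormalizer, Subgroup.mem_iInf]
  exact forall_congr' fun p => (conj_smul_eq_self_iff).symm

/-- The system normalizer is nilpotent. -/
theorem isNilpotent_systemNormalizer {K : Nat.Primes → Subgroup G}
    (hK : Cfsg.IsComplementSystem K) : Group.IsNilpotent ↥(Cfsg.systemNormalizer K) := by
  set D := Cfsg.systemNormalizer K
  rw [isNilpotent_iff_sylow_normal]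
  intro r hr S
  set σ := ((Nat.card G).primeFactors.subtype Nat.Prime).erase ⟨r, hr.out⟩
  set P := sysInf K σ
  have hP : IsPGroup r ↥P := by
    rw [← isPiNat_card_iff_isPGroup]
    intro q hq hqd
    by_contra hne
    have hne' : (⟨q, hq⟩ : Nat.Primes) ≠ ⟨r, hr.out⟩ := fun e => hne (congrArg Subtype.val e)
    have hqσ : (⟨q, hq⟩ : Nat.Primes) ∈ σ := Finset.mem_erase.mpr ⟨hne', Finset.mem_subtype.mpr
      (Nat.mem_primeFactors.mpr ⟨hq, hqd.trans P.card_subgroup_dvd_card, Nat.card_pos.ne'⟩)⟩
    have h1 := (system_iff.mp hK ⟨q, hq⟩).1 q hq (hqd.trans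
      (Subgroup.card_dvd_of_le (fun x hx => mem_sysInf.mp hx _ hqσ)))
    exact h1 rfl
  have hDP : D ≤ Subgroup.normalizer (P : Set G) := by
    refine le_normalizer_iff_forall.mpr fun x hx y hy => mem_sysInf.mpr fun q hq => ?_
    have h1 := mem_systemNormalizer.mp hx q
    rw [← h1, mem_conj_smul]
    simpa [mul_assoc] using mem_sysInf.mp hy q hq
  have hPD : P.subgroupOf D = (S : Subgroup D) := by
    have hle : (S : Subgroup D).map D.subtype ≤ P := by
      set U := (S : Subgroup D).map D.subtype
      have hUn : U ≤ Subgroup.normalizer (P : Set G) := (Subgroup.map_subtype_le _).trans hDP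
      have hU : IsPGroup r ↥U := S.isPGroup'.map _
      have h1 : IsPiNat {r} (Nat.card ↥(U ⊔ P)) :=
        ((isPiNat_card_iff_isPGroup.mpr hU).mul (isPiNat_card_iff_isPGroup.mpr hP)).of_dvd
          (card_sup_dvd_mul hUn)
      have h2 : ¬ r ∣ P.index := sysInf_index_coprime hK σ ⟨r, hr.out⟩ (Finset.notMem_erase _ _)
      have h3 : P.relIndex (U ⊔ P) = 1 := by
        refine Nat.eq_one_of_dvd_coprimes ?_
          (Dvd.intro _ (Subgroup.relIndex_mul_index (le_sup_right : P ≤ U ⊔ P)))
          (Dvd.intro_left _ (card_mul_relIndex (le_sup_right : P ≤ U ⊔ P)))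
        refine (h1.coprime ?_).symm
        intro q hq hd hqr
        exact h2 ((Set.mem_singleton_iff.mp hqr) ▸ hd)
      exact le_sup_left.trans (Subgroup.relIndex_eq_one.mp h3)
    refine S.is_maximal' (hP.comap_of_injective D.subtype D.subtype_injective) ?_
    intro x hx
    exact hle (Subgroup.mem_map_of_mem _ hx)
  rw [← hPD]
  exact ⟨fun x hx d => conj_mem_of_le_normalizer hDP d.2 hx⟩

theorem center_le_systemNormalizer (K : Nat.Primes → Subgroup G) :
    Subgroup.center G ≤ Cfsg.systemNormalizer K :=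
  le_iInf fun _ => Subgroup.center_le_normalizer _

theorem system_quotient {K : Nat.Primes → Subgroup G} (hK : Cfsg.IsComplementSystem K)
    (N : Subgroup G) [N.Normal] :
    Cfsg.IsComplementSystem (fun p => (K p).map (QuotientGroup.mk' N)) := by
  rw [system_iff]
  intro p
  obtain ⟨h1, h2⟩ := system_iff.mp hK p
  refine ⟨h1.of_dvd (Subgroup.card_map_dvd _ _), h2.of_dvd ?_⟩
  exact Subgroup.index_map_dvd _ (QuotientGroup.mk'_surjective N)

theorem systemNormalizer_quotient [Group.IsSolvable G] {K : Nat.Primes → Subgroup G}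
    (hK : Cfsg.IsComplementSystem K) (N : Subgroup G) [N.Normal] :
    Cfsg.systemNormalizer (fun p => (K p).map (QuotientGroup.mk' N)) =
      (Cfsg.systemNormalizer K).map (QuotientGroup.mk' N) := by
  refine le_antisymm (fun y hy => ?_) ?_
  · obtain ⟨x, rfl⟩ := QuotientGroup.mk'_surjective N y
    have hx := mem_systemNormalizer.mp hy
    have hsup : ∀ p, K p ⊔ N = MulAut.conj x • K p ⊔ N := fun p => by
      have h1 := hx p
      rw [← map_conj_smul] at h1
      have h2 := congrArg (Subgroup.comap (QuotientGroup.mk' N)) h1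
      rw [Subgroup.comap_map_eq, Subgroup.comap_map_eq, QuotientGroup.ker_mk'] at h2
      exact h2.symm
    obtain ⟨n, hn, hnx⟩ := system_conj_of_sup_eq hK (system_conj hK x) N hsup
    refine ⟨n⁻¹ * x, mem_systemNormalizer.mpr fun p => ?_, ?_⟩
    · rw [← conj_smul_conj_smul, ← hnx p, conj_smul_conj_smul, inv_mul_cancel, conj_one_smul]
    · rw [map_mul, (QuotientGroup.eq_one_iff (N := N) n⁻¹).mpr (inv_mem hn) |> fun h =>
        (show QuotientGroup.mk' N n⁻¹ = 1 from h), one_mul]
  · rintro _ ⟨x, hx, rfl⟩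
    refine mem_systemNormalizer.mpr fun p => ?_
    rw [← map_conj_smul, mem_systemNormalizer.mp hx p]

end CfsgLib.Core
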