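import Mathlib
import Cfsg.Agent.S0536
import Cfsg.Agent.Lib.CoreSZ
import Cfsg.Agent.Lib.CoreThompsonFpf
import Cfsg.Agent.Lib.CoreTransfer

/-!
Wielandt's theorem on nilpotent Hall subgroups.
-/

set_option autoImplicit false
set_option maxHeartbeats 400000

namespace CfsgLib.Core

open scoped Pointwise
open Subgroup

universe u

variable {G : Type u} [Group G] [Finite G]

/-- In a finite nilpotent subgroup the normal `p`-complement commutes with the `p`-subgroups. -/
theorem exists_pPrime_part {p : ℕ} [Fact p.Prime] (H : Subgroup G) [Group.IsNilpotent ↥H] :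
    ∃ H' S : Subgroup G, H' ≤ H ∧ S ≤ H ∧ H' ⊔ S = H ∧ IsPGroup p S ∧ (Nat.card H').Coprime p ∧
      (∀ a ∈ H', ∀ b ∈ S, a * b = b * a) ∧ (∀ U : Subgroup G, U ≤ H → IsPGroup p U → U ≤ S) ∧
      H'.relIndex H = Nat.card S := by
  have hp : p.Prime := Fact.out
  obtain ⟨P, N, hN, hc⟩ := hasNormalPComplement_of_isNilpotent (G := ↥H) (p := p)
  have hPn : (P : Subgroup ↥H).Normal :=
    (isNilpotent_iff_sylow_normal.mp inferInstance) p inferInstance P
  refine ⟨N.map H.subtype, (P : Subgroup ↥H).map H.subtype, Subgroup.map_subtype_le _,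
    Subgroup.map_subtype_le _, ?_, P.isPGroup'.map _, ?_, ?_, ?_, ?_⟩
  · rw [← Subgroup.map_sup, hc.sup_eq_top, ← MonoidHom.range_eq_map, Subgroup.range_subtype]
  · rw [Subgroup.card_subtype, ← hc.index_eq_card]
    exact ((hp.coprime_iff_not_dvd).mpr P.not_dvd_index).symm
  · rintro _ ⟨a, ha, rfl⟩ _ ⟨b, hb, rfl⟩
    have := Subgroup.commute_of_normal_of_disjoint N (P : Subgroup ↥H) hN hPn hc.disjoint a b ha hb
    exact congrArg Subtype.val this.eq
  · intro U hUH hU x hx
    obtain ⟨Q, hQ⟩ := (hU.comap_of_injective H.subtype H.subtype_injective).exists_le_sylow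
    haveI := Sylow.unique_of_normal P hPn
    rw [Subsingleton.elim P Q]
    exact ⟨⟨x, hUH hx⟩, hQ hx, rfl⟩
  · rw [Subgroup.relIndex, Subgroup.subgroupOf,
      Subgroup.comap_map_eq_self_of_injective H.subtype_injective, Subgroup.card_subtype,
      hc.symm.index_eq_card]

theorem wielandt_aux : ∀ (n : ℕ) (G : Type u) [Group G] [Finite G] (H K : Subgroup G),
    Nat.card K ≤ n → Group.IsNilpotent ↥H → (Nat.card H).Coprime H.index →
    (∀ p : ℕ, p.Prime → p ∣ Nat.card K → p ∣ Nat.card H) →
      ∃ x : G, K ≤ MulAut.conj x • H := by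
  intro n
  induction n with
  | zero => intro G _ _ H K h; exact absurd h (by have := Nat.card_pos (α := K); omega)
  | succ n ih =>
    intro G _ _ H K hn hH hHall hK
    haveI := hH
    have hconjnil : ∀ x : G, Group.IsNilpotent ↥(MulAut.conj x • H) := fun x =>
      Group.nilpotent_of_mulEquiv (Subgroup.equivSMul (MulAut.conj x) H)
    have hidx : ∀ x : G, (MulAut.conj x • H).index = H.index := fun x => by
      rw [conj_smul_eq_map, MulEquiv.toMonoidHom_eq_coe, Subgroup.index_map_equiv]
    -- proper subgroups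
    have hlt : ∀ U : Subgroup ↥K, U ≠ ⊤ → ∃ x : G, U.map K.subtype ≤ MulAut.conj x • H := by
      intro U hU
      refine ih G H _ ?_ hH hHall fun p hp hd => hK p hp ?_
      · rw [Subgroup.card_subtype]
        have := card_lt_of_ne_top hU
        omega
      · exact hd.trans (Subgroup.card_dvd_of_le (Subgroup.map_subtype_le U))
    have hKnil : Group.IsNilpotent ↥K := by
      by_contra hnn
      have hmin : Cfsg.IsMinimalNonNilpotent ↥K := by
        refine ⟨hnn, fun U hU => ?_⟩
        obtain ⟨x, hx⟩ := hlt U hU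
        haveI := hconjnil x
        haveI : Group.IsNilpotent ↥(U.map K.subtype) :=
          Group.nilpotent_of_mulEquiv (G := ↥((U.map K.subtype).subgroupOf (MulAut.conj x • H)))
            (Subgroup.subgroupOfEquivOfLe hx)
        exact Group.nilpotent_of_mulEquiv (U.equivMapOfInjective K.subtype K.subtype_injective).symm
      obtain ⟨p, q, hp, hq, hpq, P, Q, y, hP, hQn, -, hy⟩ := Cfsg.Agent.S0536.structure' hmin
      haveI := hp
      haveI := hq
      set QG := (Q : Subgroup ↥K).map K.subtype
      have hyQ : (y : G) ∈ Subgroup.normalizer (QG : Set G) := by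
        rw [← conj_smul_eq_self_iff]
        show MulAut.conj (K.subtype y) • (Q : Subgroup ↥K).map K.subtype = _
        rw [← map_conj_smul, conj_smul_of_normal]
      obtain ⟨k, hk⟩ : ∃ k, orderOf y = p ^ k := by
        have hyP : IsPGroup p ↥(Subgroup.zpowers y) := hP ▸ P.isPGroup'
        obtain ⟨k, hk⟩ := IsPGroup.iff_card.mp hyP
        exact ⟨k, by rwa [Nat.card_zpowers] at hk⟩
      have hQne : (Q : Subgroup ↥K) ≠ ⊤ := by
        intro h
        refine hnn ?_
        have h1 : IsPGroup q ↥(⊤ : Subgroup ↥K) := h ▸ Q.isPGroup'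
        haveI := h1.isNilpotent
        exact Group.nilpotent_of_mulEquiv Subgroup.topEquiv
      obtain ⟨x, hx⟩ := hlt _ hQne
      haveI := hconjnil x
      obtain ⟨H', S, hH'H, hSH, hsup, hS, hH'c, hcomm, hmax, hrel⟩ :=
        exists_pPrime_part (p := p) (MulAut.conj x • H)
      have hQH' : QG ≤ H' := by
        intro z hz
        have hzH := hx hz
        haveI hH'n : (H'.subgroupOf (MulAut.conj x • H)).Normal := by
          rw [Subgroup.normal_subgroupOf_iff_le_normalizer hH'H, ← hsup]
          refine sup_le Subgroup.le_normalizer (fun s hs => Subgroup.centralizer_le_normalizer _ ?_)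
          rw [Subgroup.mem_centralizer_iff]
          exact fun a ha => hcomm a ha s hs
        have h1 : (⟨z, hzH⟩ : ↥(MulAut.conj x • H)) ∈ H'.subgroupOf (MulAut.conj x • H) := by
          obtain ⟨j, hj⟩ := IsPGroup.iff_card.mp hS
          refine mem_of_coprime_of_index_pow (p := p) (k := j) (hrel.trans hj) ?_
          have hzo : orderOf z ∣ Nat.card QG := Subgroup.orderOf_dvd_natCard _ hz
          obtain ⟨l, hl⟩ := IsPGroup.iff_card.mp (Q.isPGroup'.map K.subtype)
          rw [← Subgroup.orderOf_coe]
          exact Nat.Coprime.coprime_dvd_left (hl ▸ hzo)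
            (((Nat.coprime_primes hq.out hp.out).mpr hpq.symm).pow_left l)
        exact h1
      have hpH : p ∣ Nat.card H := by
        refine hK p hp.out ?_
        rcases Nat.eq_zero_or_pos k with rfl | hk0
        · rw [pow_zero, orderOf_eq_one_iff] at hk
          exact absurd (hk ▸ one_mem _) hy
        · exact (hk ▸ dvd_pow_self p hk0.ne').trans (_root_.orderOf_dvd_natCard y)
      set C := Subgroup.centralizer (QG : Set G) with hC
      have hSC : S ≤ C := fun s hs => by
        rw [hC, Subgroup.mem_centralizer_iff]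
        exact fun a ha => hcomm a (hQH' ha) s hs
      have hndvd : ¬ p ∣ S.index := by
        intro hd
        rw [← Subgroup.relIndex_mul_index hSH, hidx x] at hd
        rcases hp.out.dvd_mul.mp hd with h | h
        · have h1 := card_mul_relIndex hSH
          have h2 := card_mul_relIndex hH'H
          rw [← h1, hrel, mul_comm] at h2
          have h3 : S.relIndex (MulAut.conj x • H) = Nat.card H' :=
            (mul_left_cancel₀ (Nat.card_pos (α := S)).ne' h2).symm
          rw [h3] at h
          exact hp.out.not_dvd_one (hH'c.gcd_eq_one ▸ Nat.dvd_gcd h dvd_rfl)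
        · exact hp.out.not_dvd_one (hHall.gcd_eq_one ▸ Nat.dvd_gcd hpH h)
      set N := Subgroup.normalizer (QG : Set G)
      have hCN : C ≤ N := Subgroup.centralizer_le_normalizer _
      haveI : (C.subgroupOf N).Normal := inferInstance
      have hCidx : ¬ p ∣ (C.subgroupOf N).index := fun hd =>
        hndvd ((hd.trans (Dvd.intro _ (Subgroup.relIndex_mul_index hCN))).trans
          (Subgroup.index_dvd_of_le hSC))
      have h1 : (⟨(y : G), hyQ⟩ : ↥N) ∈ C.subgroupOf N := by
        rw [← QuotientGroup.eq_one_iff]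
        refine orderOf_eq_one_iff.mp (Nat.eq_one_of_dvd_coprimes
          (Nat.Coprime.pow_left k ((hp.out.coprime_iff_not_dvd).mpr hCidx)) ?_
          ((_root_.orderOf_dvd_natCard _).trans (dvd_of_eq (Subgroup.index_eq_card (C.subgroupOf N)).symm)))
        refine (orderOf_map_dvd (QuotientGroup.mk' (C.subgroupOf N)) _).trans (dvd_of_eq ?_)
        rw [← Subgroup.orderOf_coe]
        simpa using hk
      refine hy (Subgroup.mem_centralizer_iff.mpr fun z hz => Subtype.ext ?_)
      exact Subgroup.mem_centralizer_iff.mp h1 (z : G) ⟨z, hz, rfl⟩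
    by_cases h1 : Nat.card K = 1
    · exact ⟨1, (Subgroup.card_eq_one.mp h1).le.trans bot_le⟩
    obtain ⟨p, hp, hpK⟩ := Nat.exists_prime_and_dvd h1
    haveI := Fact.mk hp
    haveI := hKnil
    obtain ⟨K', T, hK'K, hTK, hKsup, hT, hK'c, hKcomm, -, hKrel⟩ := exists_pPrime_part (p := p) K
    obtain ⟨S₀⟩ : Nonempty (Sylow p G) := inferInstance
    -- a conjugate of H containing T
    obtain ⟨H', S, hH'H, hSH, hsup, hS, hH'c, hcomm, hmax, hrel⟩ := exists_pPrime_part (p := p) H
    have hpH : p ∣ Nat.card H := hK p hp hpK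
    have hndvd : ¬ p ∣ S.index := by
      intro hd
      rw [← Subgroup.relIndex_mul_index hSH] at hd
      rcases hp.dvd_mul.mp hd with h | h
      · have h1 := card_mul_relIndex hSH
        have h2 := card_mul_relIndex hH'H
        rw [← h1, hrel, mul_comm] at h2
        have h3 : S.relIndex H = Nat.card H' :=
          (mul_left_cancel₀ (Nat.card_pos (α := S)).ne' h2).symm
        rw [h3] at h
        exact hp.not_dvd_one (hH'c.gcd_eq_one ▸ Nat.dvd_gcd h dvd_rfl)
      · exact hp.not_dvd_one (hHall.gcd_eq_one ▸ Nat.dvd_gcd hpH h)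
    obtain ⟨U, hU⟩ := hT.exists_le_sylow
    obtain ⟨x, hx⟩ := MulAction.exists_smul_eq G (hS.toSylow hndvd) U
    have hTS : T ≤ MulAut.conj x • S := by
      refine hU.trans (le_of_eq ?_)
      rw [← hx, Sylow.coe_subgroup_smul]
      rfl
    set C := Subgroup.centralizer (T : Set G) with hC
    set H₁ := MulAut.conj x • H'
    have hH₁C : H₁ ≤ C := fun a ha => by
      rw [hC, Subgroup.mem_centralizer_iff]
      intro t ht
      have h1 := hTS ht
      rw [mem_conj_smul] at h1 ha
      have h2 := congrArg (fun z => x * z * x⁻¹) (hcomm _ ha _ h1)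
      simpa [mul_assoc] using h2.symm
    have hK'C : K' ≤ C := fun a ha => by
      rw [hC, Subgroup.mem_centralizer_iff]
      exact fun t ht => (hKcomm a ha t ht).symm
    haveI : Group.IsNilpotent ↥H' := by
      haveI : Group.IsNilpotent ↥(H'.subgroupOf H) := inferInstance
      exact Group.nilpotent_of_mulEquiv (Subgroup.subgroupOfEquivOfLe hH'H)
    have hH₁nil : Group.IsNilpotent ↥(H₁.subgroupOf C) := by
      haveI : Group.IsNilpotent ↥H₁ :=
        Group.nilpotent_of_mulEquiv (Subgroup.equivSMul (MulAut.conj x) H')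
      exact Group.nilpotent_of_mulEquiv (Subgroup.subgroupOfEquivOfLe hH₁C).symm
    have hH₁hall : (Nat.card (H₁.subgroupOf C)).Coprime (H₁.subgroupOf C).index := by
      rw [card_subgroupOf_of_le hH₁C, card_conj_smul]
      refine Nat.Coprime.coprime_dvd_right (Dvd.intro _ (Subgroup.relIndex_mul_index hH₁C)) ?_
      show (Nat.card ↥H').Coprime (MulAut.conj x • H').index
      rw [conj_smul_eq_map, MulEquiv.toMonoidHom_eq_coe, Subgroup.index_map_equiv,
        ← Subgroup.relIndex_mul_index hH'H, hrel]
      obtain ⟨j, hj⟩ := IsPGroup.iff_card.mp hS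
      exact Nat.Coprime.mul_right (hj ▸ hH'c.pow_right j)
        (hHall.coprime_dvd_left (Subgroup.card_dvd_of_le hH'H))
    obtain ⟨c, hc⟩ := ih ↥C (H₁.subgroupOf C) (K'.subgroupOf C) (by
        rw [card_subgroupOf_of_le hK'C]
        have : K' ≠ K := by
          intro e
          rw [e] at hK'c
          exact hp.not_dvd_one (hK'c.gcd_eq_one ▸ Nat.dvd_gcd hpK dvd_rfl)
        have h2 : Nat.card K' < Nat.card K :=
          lt_of_le_of_ne (Subgroup.card_le_of_le hK'K) fun e =>
            this (Subgroup.eq_of_le_of_card_ge hK'K e.ge)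
        omega) hH₁nil hH₁hall (fun r hr hd => by
        rw [card_subgroupOf_of_le hK'C] at hd
        rw [card_subgroupOf_of_le hH₁C, card_conj_smul]
        have h1 := hK r hr (hd.trans (Subgroup.card_dvd_of_le hK'K))
        rw [← card_mul_relIndex hH'H, hrel] at h1
        rcases hr.dvd_mul.mp h1 with h | h
        · exact h
        · obtain ⟨j, hj⟩ := IsPGroup.iff_card.mp hS
          have := (Nat.prime_dvd_prime_iff_eq hr hp).mp (hr.dvd_of_dvd_pow (hj ▸ h))
          subst this
          exact absurd (Nat.dvd_gcd hd dvd_rfl) (hK'c.gcd_eq_one ▸ hr.not_dvd_one))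
    refine ⟨(c : G) * x, ?_⟩
    rw [← conj_smul_conj_smul, ← hKsup]
    refine sup_le (fun a ha => ?_) (fun t ht => ?_)
    · have h1 := hc (Subgroup.mem_subgroupOf.mpr ha : (⟨a, hK'C ha⟩ : ↥C) ∈ K'.subgroupOf C)
      rw [mem_conj_smul, Subgroup.mem_subgroupOf] at h1
      rw [mem_conj_smul]
      exact conj_smul_le_conj_smul.mpr hH'H h1
    · have hct : MulAut.conj (c : G) • T = T :=
        conj_smul_of_mem_normalizer (Subgroup.centralizer_le_normalizer _ c.2)
      rw [← hct] at ht
      exact conj_smul_le_conj_smul.mpr (hTS.trans (conj_smul_le_conj_smul.mpr hSH)) ht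

end CfsgLib.Core
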