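import Mathlib.GroupTheory.GroupAction.Quotient
import Mathlib.GroupTheory.GroupAction.Jordan
import Mathlib.GroupTheory.Perm.Cycle.Type
import Mathlib.GroupTheory.Perm.Sign
import Mathlib.GroupTheory.Sylow
import Mathlib.GroupTheory.SpecificGroups.Cyclic
import Mathlib.Algebra.Order.Field.Rat
import Mathlib.Algebra.BigOperators.Field
import Mathlib.Tactic.Linarith
import Mathlib.Tactic.FieldSimp
import Mathlib.Tactic.Ring
import Mathlib.Tactic.IntervalCases

/-!
# At least `2|G|/n` derangements, apart from sharply 2-transitive groups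
-/

set_option autoImplicit false
set_option linter.unusedSectionVars false
set_option linter.style.haveILetI false

namespace CfsgLib.DerangeTwo

open Finset MulAction

attribute [local instance] _root_.Classical.propDecidable

variable {G Ω : Type*} [Group G] [Fintype G] [MulAction G Ω] [Fintype Ω]

/-- Fixed points of an element. -/
noncomputable def fix (g : G) : Finset Ω := univ.filter fun c => g • c = c

/-- Number of fixed points. -/
noncomputable def nf (Ω : Type*) [MulAction G Ω] [Fintype Ω] (g : G) : ℕ := (fix (Ω := Ω) g).card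

/-- Elements fixing two points. -/
noncomputable def st2 (G : Type*) [Group G] [Fintype G] [MulAction G Ω] (x y : Ω) : Finset G :=
  univ.filter fun g => g • x = x ∧ g • y = y

/-- Points fixed by all elements fixing two points. -/
noncomputable def line (G : Type*) [Group G] [Fintype G] [MulAction G Ω] (x y : Ω) : Finset Ω :=
  univ.filter fun c => ∀ g ∈ st2 G x y, g • c = c

theorem mem_fix {g : G} {c : Ω} : c ∈ fix g ↔ g • c = c := by simp [fix]

theorem mem_st2 {g : G} {x y : Ω} : g ∈ st2 G x y ↔ g • x = x ∧ g • y = y := by simp [st2]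

theorem mem_line {x y c : Ω} : c ∈ line G x y ↔ ∀ g ∈ st2 G x y, g • c = c := by simp [line]

theorem nf_one : nf Ω (1 : G) = Fintype.card Ω := by simp [nf, fix]

theorem nf_le (g : G) : nf Ω g ≤ Fintype.card Ω := card_le_univ _

theorem nf_conj (x g : G) : nf Ω (x * g * x⁻¹) = nf Ω g := by
  refine card_nbij' (fun c => x⁻¹ • c) (fun c => x • c) ?_ ?_ ?_ ?_
  · intro c hc
    rw [mem_coe, mem_fix] at hc ⊢
    rw [mul_smul, mul_smul] at hc
    exact (inv_smul_eq_iff.2 hc.symm).symm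
  · intro c hc
    rw [mem_coe, mem_fix] at hc ⊢
    rw [mul_smul, mul_smul, inv_smul_smul, hc]
  · intro c _; simp
  · intro c _; simp

theorem line_self {x y : Ω} : x ∈ line G x y ∧ y ∈ line G x y :=
  ⟨mem_line.2 fun _ hg => (mem_st2.1 hg).1, mem_line.2 fun _ hg => (mem_st2.1 hg).2⟩

theorem card_st2_conj (x : G) (a b : Ω) : (st2 G (x • a) (x • b)).card = (st2 G a b).card := by
  refine card_nbij' (fun g => x⁻¹ * g * x) (fun g => x * g * x⁻¹) ?_ ?_ ?_ ?_
  · intro g hg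
    rw [mem_coe, mem_st2] at hg ⊢
    simp [mul_smul, hg.1, hg.2]
  · intro g hg
    rw [mem_coe, mem_st2] at hg ⊢
    simp [mul_smul, hg.1, hg.2]
  · intro g _; simp [mul_assoc]
  · intro g _; simp [mul_assoc]

theorem card_line_conj (x : G) (a b : Ω) : (line G (x • a) (x • b)).card = (line G a b).card := by
  refine card_nbij' (fun c => x⁻¹ • c) (fun c => x • c) ?_ ?_ ?_ ?_
  · intro c hc
    rw [mem_coe, mem_line] at hc ⊢
    intro g hg
    have h : (x * g * x⁻¹) • c = c := hc _ (by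
      rw [mem_st2] at hg ⊢; simp [mul_smul, hg.1, hg.2])
    rw [mul_smul, mul_smul] at h
    exact (inv_smul_eq_iff.2 h.symm).symm
  · intro c hc
    rw [mem_coe, mem_line] at hc ⊢
    intro g hg
    have h : (x⁻¹ * g * x) • c = c := hc _ (by
      rw [mem_st2] at hg ⊢; simp [mul_smul, hg.1, hg.2])
    rw [mul_smul, mul_smul] at h
    exact inv_smul_eq_iff.1 h
  · intro c _; simp
  · intro c _; simp

/-- Double counting of fixed points against a class function. -/
theorem sum_nf_mul (φ : G → ℚ) :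
    ∑ g : G, (nf Ω g : ℚ) * φ g = ∑ c : Ω, ∑ g ∈ univ.filter (fun g : G => g • c = c), φ g := by
  simp only [Finset.sum_filter]
  rw [Finset.sum_comm]
  refine Finset.sum_congr rfl fun g _ => ?_
  rw [← Finset.sum_filter, Finset.sum_const, nsmul_eq_mul]
  rfl

theorem sum_st_conj (φ : G → ℚ) (hφ : ∀ x g : G, φ (x * g * x⁻¹) = φ g) (x : G) (a : Ω) :
    ∑ g ∈ univ.filter (fun g : G => g • (x • a) = x • a), φ g =
      ∑ g ∈ univ.filter (fun g : G => g • a = a), φ g := by
  refine (Finset.sum_nbij' (fun g => x * g * x⁻¹) (fun g => x⁻¹ * g * x) ?_ ?_ ?_ ?_ ?_).symm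
  · intro g hg; simp at hg ⊢; simp [mul_smul, hg]
  · intro g hg; simp at hg ⊢; simp [mul_smul, hg]
  · intro g _; simp [mul_assoc]
  · intro g _; simp [mul_assoc]
  · intro g _; rw [hφ]

variable [IsPretransitive G Ω]

theorem sum_nf (a : Ω) : ∑ g : G, (nf Ω g : ℚ) = Fintype.card G := by
  haveI : Subsingleton (Quotient (orbitRel G Ω)) :=
    ⟨fun p q => Quotient.inductionOn₂ p q fun b c => Quotient.sound (exists_smul_eq G c b)⟩
  haveI : Nonempty (Quotient (orbitRel G Ω)) := ⟨Quotient.mk _ a⟩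
  haveI : Fintype (Quotient (orbitRel G Ω)) := Fintype.ofFinite _
  have h := MulAction.sum_card_fixedBy_eq_card_orbits_mul_card_group G Ω
  have h1 : Fintype.card (Quotient (orbitRel G Ω)) = 1 :=
    le_antisymm (Fintype.card_le_one_iff_subsingleton.2 inferInstance) Fintype.card_pos
  rw [h1, one_mul] at h
  rw [← h, Nat.cast_sum]
  refine Finset.sum_congr rfl fun g _ => ?_
  simp [nf, fix, Fintype.card_subtype]

theorem sum_nf_sq (a : Ω) : ∃ r : ℕ, ∑ g : G, (nf Ω g : ℚ) * nf Ω g = r * Fintype.card G ∧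
    r = Nat.card (Quotient (orbitRel (stabilizer G a) Ω)) := by
  refine ⟨_, ?_, rfl⟩
  rw [sum_nf_mul]
  have hall : ∀ c : Ω, ∑ g ∈ univ.filter (fun g : G => g • c = c), (nf Ω g : ℚ) =
      ∑ g ∈ univ.filter (fun g : G => g • a = a), (nf Ω g : ℚ) := by
    intro c
    obtain ⟨x, rfl⟩ := exists_smul_eq G a c
    exact sum_st_conj (fun g => (nf Ω g : ℚ)) (fun x g => by simp only [nf_conj]) x a
  rw [Finset.sum_congr rfl fun c _ => hall c, Finset.sum_const, nsmul_eq_mul]
  haveI : Fintype (Quotient (orbitRel (stabilizer G a) Ω)) := Fintype.ofFinite _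
  haveI : Fintype (stabilizer G a) := Fintype.ofFinite _
  have h := MulAction.sum_card_fixedBy_eq_card_orbits_mul_card_group (stabilizer G a) Ω
  have h2 : ∑ g ∈ univ.filter (fun g : G => g • a = a), (nf Ω g : ℚ) =
      ∑ g : stabilizer G a, (Fintype.card (fixedBy Ω g) : ℚ) := by
    rw [Finset.sum_subtype (univ.filter fun g : G => g • a = a)
      (p := fun g => g ∈ stabilizer G a) (fun g => by simp [mem_stabilizer_iff])]
    refine Finset.sum_congr rfl fun g _ => ?_
    simp [nf, fix, Fintype.card_subtype, Subgroup.smul_def]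
  rw [h2, ← Nat.cast_sum, h, Finset.card_univ]
  have h3 : Fintype.card Ω * Fintype.card (stabilizer G a) = Fintype.card G := by
    have h4 := (stabilizer G a).card_mul_index
    rw [MulAction.index_stabilizer_of_transitive] at h4
    simp only [Nat.card_eq_fintype_card] at h4
    rw [mul_comm]; exact h4
  rw [← h3, Nat.card_eq_fintype_card]
  push_cast
  ring

/-- The weight used for the count of derangements. -/
noncomputable def wt (Ω : Type*) [MulAction G Ω] [Fintype Ω] (g : G) : ℚ :=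
  ((Fintype.card Ω : ℚ) - nf Ω g) / nf Ω g

theorem derangement_formula (a : Ω) (r : ℕ)
    (hr : ∑ g : G, (nf Ω g : ℚ) * nf Ω g = r * Fintype.card G) :
    (Fintype.card Ω : ℚ) * (univ.filter fun g : G => nf Ω g = 0).card =
      ((r : ℚ) - 1) * Fintype.card G +
        ∑ g : G, (nf Ω g : ℚ) * ((nf Ω g : ℚ) - 1) * wt Ω g := by
  have h : ∀ g : G, (if nf Ω g = 0 then (Fintype.card Ω : ℚ) else 0) =
      ((nf Ω g : ℚ) - 1) * ((nf Ω g : ℚ) - Fintype.card Ω) +
        (nf Ω g : ℚ) * ((nf Ω g : ℚ) - 1) * wt Ω g := by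
    intro g
    by_cases h0 : nf Ω g = 0
    · simp [h0, wt]
    · have hne : (nf Ω g : ℚ) ≠ 0 := by exact_mod_cast h0
      rw [if_neg h0, wt]; field_simp; ring
  have h1 := Finset.sum_congr (s₁ := (univ : Finset G)) rfl fun g _ => h g
  rw [Finset.sum_add_distrib, ← Finset.sum_filter, Finset.sum_const, nsmul_eq_mul] at h1
  rw [mul_comm, h1]
  congr 1
  have h2 : ∑ g : G, ((nf Ω g : ℚ) - 1) * ((nf Ω g : ℚ) - Fintype.card Ω) =
      ∑ g : G, ((nf Ω g : ℚ) * nf Ω g) - ((Fintype.card Ω : ℚ) + 1) * ∑ g : G, (nf Ω g : ℚ) +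
        ∑ _g : G, (Fintype.card Ω : ℚ) := by
    rw [Finset.mul_sum, ← Finset.sum_sub_distrib, ← Finset.sum_add_distrib]
    exact Finset.sum_congr rfl fun g _ => by ring
  rw [h2, hr, sum_nf a, Finset.sum_const, nsmul_eq_mul, Finset.card_univ]
  ring

theorem two_trans_of_rank (a : Ω)
    (hr : Nat.card (Quotient (orbitRel (stabilizer G a) Ω)) ≤ 2) {x y u v : Ω} (hxy : x ≠ y)
    (huv : u ≠ v) : ∃ g : G, g • x = u ∧ g • y = v := by
  have key : ∀ b c : Ω, b ≠ a → c ≠ a → ∃ g : G, g • a = a ∧ g • b = c := by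
    intro b c hb hc
    by_contra hcon
    push Not at hcon
    set q : Ω → Quotient (orbitRel (stabilizer G a) Ω) := fun z => Quotient.mk _ z with hq
    have hne : ∀ z, z ≠ a → q z ≠ q a := by
      intro z hz e
      obtain ⟨g, hg⟩ := Quotient.exact e
      exact hz (hg.symm.trans g.2)
    have hbc : q c ≠ q b := by
      intro e
      obtain ⟨g, hg⟩ := Quotient.exact e
      exact hcon (g : G) g.2 hg
    haveI : Fintype (Quotient (orbitRel (stabilizer G a) Ω)) := Fintype.ofFinite _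
    have h3 : ({q a, q b, q c} : Finset _).card = 3 :=
      Finset.card_eq_three.2 ⟨_, _, _, (hne b hb).symm, (hne c hc).symm, hbc.symm, rfl⟩
    have h4 := Finset.card_le_univ ({q a, q b, q c} : Finset _)
    rw [Nat.card_eq_fintype_card] at hr
    omega
  obtain ⟨g₁, hg₁⟩ := exists_smul_eq G x a
  obtain ⟨g₂, hg₂⟩ := exists_smul_eq G u a
  obtain ⟨g, hga, hgb⟩ := key (g₁ • y) (g₂ • v)
    (fun e => hxy (smul_left_cancel g₁ (hg₁.trans e.symm)))
    (fun e => huv (smul_left_cancel g₂ (hg₂.trans e.symm)))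
  refine ⟨g₂⁻¹ * g * g₁, ?_, ?_⟩
  · rw [mul_smul, mul_smul, hg₁, hga, inv_smul_eq_iff, hg₂]
  · rw [mul_smul, mul_smul, hgb, inv_smul_smul]

section TwoTrans

variable (h2t : ∀ {x y u v : Ω}, x ≠ y → u ≠ v → ∃ g : G, g • x = u ∧ g • y = v)
include h2t

theorem sum_pairs (φ : G → ℚ) (hφ : ∀ x g : G, φ (x * g * x⁻¹) = φ g) {a b : Ω} (hab : a ≠ b) :
    ∑ g : G, (nf Ω g : ℚ) * ((nf Ω g : ℚ) - 1) * φ g =
      (Fintype.card Ω : ℚ) * ((Fintype.card Ω : ℚ) - 1) * ∑ g ∈ st2 G a b, φ g := by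
  have h1 : ∀ g : G, (nf Ω g : ℚ) * ((nf Ω g : ℚ) - 1) * φ g =
      ∑ p ∈ (univ : Finset Ω).offDiag, (if g • p.1 = p.1 ∧ g • p.2 = p.2 then φ g else 0) := by
    intro g
    have e : (univ : Finset Ω).offDiag.filter (fun p => g • p.1 = p.1 ∧ g • p.2 = p.2) =
        (fix g).offDiag := by
      ext p; simp [mem_fix]; tauto
    rw [← Finset.sum_filter, e, Finset.sum_const, nsmul_eq_mul, Finset.offDiag_card]
    have : nf Ω g ≤ nf Ω g * nf Ω g := Nat.le_mul_self _
    show _ = (((nf Ω g * nf Ω g - nf Ω g : ℕ)) : ℚ) * φ g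
    rw [Nat.cast_sub this]; push_cast; ring
  rw [Finset.sum_congr rfl fun g _ => h1 g, Finset.sum_comm]
  have h2 : ∀ p ∈ (univ : Finset Ω).offDiag,
      ∑ g : G, (if g • p.1 = p.1 ∧ g • p.2 = p.2 then φ g else 0) = ∑ g ∈ st2 G a b, φ g := by
    intro p hp
    obtain ⟨x, hx1, hx2⟩ := h2t hab (Finset.mem_offDiag.1 hp).2.2
    rw [← Finset.sum_filter]
    refine (Finset.sum_nbij' (fun g => x * g * x⁻¹) (fun g => x⁻¹ * g * x) ?_ ?_ ?_ ?_ ?_).symm
    · intro g hg; simp [mem_st2] at hg ⊢; simp [mul_smul, ← hx1, ← hx2, hg.1, hg.2]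
    · intro g hg; simp [mem_st2] at hg ⊢
      simp [mul_smul, hx1, hx2, hg.1, hg.2, inv_smul_eq_iff]
    · intro g _; simp [mul_assoc]
    · intro g _; simp [mul_assoc]
    · intro g _; rw [hφ]
  rw [Finset.sum_congr rfl h2, Finset.sum_const, nsmul_eq_mul, Finset.offDiag_card,
    Finset.card_univ]
  rw [Nat.cast_sub (Nat.le_mul_self _)]; push_cast; ring

theorem card_line_eq {x y a b : Ω} (hxy : x ≠ y) (hab : a ≠ b) :
    (line G x y).card = (line G a b).card := by
  obtain ⟨g, hx, hy⟩ := h2t hab hxy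
  rw [← hx, ← hy]; exact card_line_conj g a b

theorem card_st2_eq {x y a b : Ω} (hxy : x ≠ y) (hab : a ≠ b) :
    (st2 G x y).card = (st2 G a b).card := by
  obtain ⟨g, hx, hy⟩ := h2t hab hxy
  rw [← hx, ← hy]; exact card_st2_conj g a b

theorem st2_eq_of_mem_line {x y z : Ω} (hxy : x ≠ y) (hxz : x ≠ z) (hz : z ∈ line G x y) :
    st2 G x z = st2 G x y := by
  refine (Finset.eq_of_subset_of_card_le (fun g hg => mem_st2.2
    ⟨(mem_st2.1 hg).1, mem_line.1 hz g hg⟩) ?_).symm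
  exact (card_st2_eq h2t hxz hxy).le

theorem fix_mul_le {g : G} (hg : g ≠ 1) [FaithfulSMul G Ω] {a b : Ω} (hab : a ≠ b) :
    nf Ω g * ((line G a b).card - 1) ≤ Fintype.card Ω - 1 := by
  obtain ⟨c, hc⟩ : ∃ c : Ω, g • c ≠ c := by
    by_contra h
    push Not at h
    exact hg (eq_of_smul_eq_smul fun w : Ω => by rw [h w, one_smul])
  have hcp : ∀ p ∈ fix (Ω := Ω) g, c ≠ p := fun p hp e => hc (e ▸ mem_fix.1 hp)
  have hsig : ((fix (Ω := Ω) g).sigma fun p => (line G c p).erase c).card =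
      nf Ω g * ((line G a b).card - 1) := by
    rw [Finset.card_sigma, Finset.sum_congr rfl fun p hp => by
      rw [Finset.card_erase_of_mem line_self.1, card_line_eq h2t (hcp p hp) hab],
      Finset.sum_const, smul_eq_mul]
    rfl
  rw [← hsig, show Fintype.card Ω - 1 = (univ.erase c).card from by
    rw [Finset.card_erase_of_mem (mem_univ c), Finset.card_univ]]
  refine Finset.card_le_card_of_injOn (fun s => s.2) (fun s hs => ?_) ?_
  · simp only [mem_coe, Finset.mem_sigma, Finset.mem_erase] at hs ⊢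
    exact ⟨hs.2.1, mem_univ _⟩
  · rintro ⟨p, q⟩ hs ⟨p', q'⟩ hs' (rfl : q = q')
    simp only [mem_coe, Finset.mem_sigma, Finset.mem_erase] at hs hs'
    have e1 := st2_eq_of_mem_line h2t (hcp p hs.1) hs.2.1.symm hs.2.2
    have e2 := st2_eq_of_mem_line h2t (hcp p' hs'.1) hs'.2.1.symm hs'.2.2
    by_contra hne
    have hpp : p ≠ p' := fun e => hne (by subst e; rfl)
    have hp' : p' ∈ line G c p := mem_line.2 fun k hk => by
      rw [← e1, e2] at hk; exact (mem_st2.1 hk).2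
    have hsub : st2 G c p ⊆ st2 G p p' := fun k hk =>
      mem_st2.2 ⟨(mem_st2.1 hk).2, mem_line.1 hp' k hk⟩
    have heq := Finset.eq_of_subset_of_card_le hsub (card_st2_eq h2t hpp (hcp p hs.1)).le
    have hgm : g ∈ st2 G c p := heq ▸ mem_st2.2 ⟨mem_fix.1 hs.1, mem_fix.1 hs'.1⟩
    exact hc (mem_st2.1 hgm).1

theorem line_le_fix {g : G} {a b : Ω} (hg : g ∈ st2 G a b) :
    (line G a b).card ≤ nf Ω g :=
  Finset.card_le_card fun _ hc => mem_fix.2 (mem_line.1 hc g hg)

end TwoTrans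

/-- The orbit of a point under the elements fixing two points. -/
noncomputable def orb (G : Type*) [Group G] [Fintype G] [MulAction G Ω] (a b c : Ω) : Finset Ω :=
  (st2 G a b).image (· • c)

theorem mem_orb_self {a b c : Ω} : c ∈ orb G a b c :=
  Finset.mem_image.2 ⟨1, mem_st2.2 ⟨one_smul _ _, one_smul _ _⟩, one_smul _ _⟩

theorem orb_eq_of_mem {a b c d : Ω} (hd : d ∈ orb G a b c) : orb G a b d = orb G a b c := by
  obtain ⟨g, hg, rfl⟩ := Finset.mem_image.1 hd
  rw [mem_st2] at hg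
  ext e
  simp only [orb, Finset.mem_image, mem_st2]
  constructor
  · rintro ⟨k, hk, rfl⟩
    exact ⟨k * g, by simp [mul_smul, hg.1, hg.2, hk.1, hk.2], mul_smul k g c⟩
  · rintro ⟨k, hk, rfl⟩
    refine ⟨k * g⁻¹, ?_, by rw [mul_smul, inv_smul_smul]⟩
    have h1 : g⁻¹ • a = a := inv_smul_eq_iff.2 hg.1.symm
    have h2 : g⁻¹ • b = b := inv_smul_eq_iff.2 hg.2.symm
    simp [mul_smul, h1, h2, hk.1, hk.2]

theorem orb_mul {a b c : Ω} :
    (orb G a b c).card * ((st2 G a b).filter (fun g => g • c = c)).card = (st2 G a b).card := by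
  rw [Finset.card_eq_sum_card_image (· • c) (st2 G a b)]
  refine (Finset.sum_const_nat fun d hd => ?_).symm
  obtain ⟨x, hx, rfl⟩ := Finset.mem_image.1 hd
  rw [mem_st2] at hx
  have h1 : x⁻¹ • a = a := inv_smul_eq_iff.2 hx.1.symm
  have h2 : x⁻¹ • b = b := inv_smul_eq_iff.2 hx.2.symm
  refine card_nbij' (fun g => x⁻¹ * g) (fun g => x * g) ?_ ?_ ?_ ?_
  · intro g hg
    simp only [mem_coe, mem_filter, mem_st2] at hg ⊢
    simp [mul_smul, hg.1.1, hg.1.2, hg.2, h1, h2]
  · intro g hg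
    simp only [mem_coe, mem_filter, mem_st2] at hg ⊢
    simp [mul_smul, hg.1.1, hg.1.2, hg.2, hx.1, hx.2]
  · intro g _; simp
  · intro g _; simp

theorem line_iff_orb {a b c : Ω} : c ∈ line G a b ↔ (orb G a b c).card = 1 := by
  rw [mem_line, Finset.card_eq_one]
  constructor
  · intro h
    refine ⟨c, Finset.eq_singleton_iff_unique_mem.2 ⟨mem_orb_self, fun d hd => ?_⟩⟩
    obtain ⟨g, hg, rfl⟩ := Finset.mem_image.1 hd
    exact h g hg
  · rintro ⟨d, hd⟩ g hg
    have h1 : g • c ∈ orb G a b c := Finset.mem_image.2 ⟨g, hg, rfl⟩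
    have h2 : c ∈ orb G a b c := mem_orb_self
    rw [hd, mem_singleton] at h1 h2
    rw [h1, ← h2]

section Count

variable [FaithfulSMul G Ω]

theorem sum_st2_nf (a b : Ω) : ∑ g ∈ st2 G a b, nf Ω g =
    ∑ c : Ω, ((st2 G a b).filter (fun g => g • c = c)).card := by
  simp only [nf, fix, Finset.card_filter]
  rw [Finset.sum_comm]

theorem wt_one : wt Ω (1 : G) = 0 := by simp [wt, nf_one]

theorem sum_wt_erase (a b : Ω) :
    ∑ g ∈ (st2 G a b).erase 1, wt Ω g = ∑ g ∈ st2 G a b, wt Ω g :=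
  Finset.sum_erase _ (wt_one (Ω := Ω))

/-- Cauchy-type criterion. -/
theorem crit_mean {a b : Ω} (h2 : 2 ≤ (st2 G a b).card)
    (hle : (∑ g ∈ st2 G a b, nf Ω g) * (2 * (st2 G a b).card - 1) ≤
      Fintype.card Ω * (st2 G a b).card * (st2 G a b).card) :
    ((st2 G a b).card : ℚ) ≤ ∑ g ∈ st2 G a b, wt Ω g := by
  rw [← sum_wt_erase a b]
  set H := (st2 G a b).erase 1 with hH
  set h := (st2 G a b).card with hh
  set n := Fintype.card Ω with hn
  have h1mem : (1 : G) ∈ st2 G a b := mem_st2.2 ⟨one_smul _ _, one_smul _ _⟩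
  have hcard : H.card + 1 = h := Finset.card_erase_add_one h1mem
  have hsum : ∑ g ∈ H, (nf Ω g : ℚ) + n = ((∑ g ∈ st2 G a b, nf Ω g : ℕ) : ℚ) := by
    rw [Nat.cast_sum, ← Finset.sum_erase_add _ _ h1mem, nf_one]
  have hpos : ∀ g ∈ H, (1 : ℚ) ≤ nf Ω g := fun g hg => by
    have : 0 < nf Ω g := Finset.card_pos.2
      ⟨a, mem_fix.2 (mem_st2.1 (Finset.mem_of_mem_erase hg)).1⟩
    exact_mod_cast this
  have hleq : ((∑ g ∈ st2 G a b, nf Ω g : ℕ) : ℚ) * (2 * (h : ℚ) - 1) ≤ n * h * h := by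
    have h' : ((((∑ g ∈ st2 G a b, nf Ω g) * (2 * h - 1) : ℕ)) : ℚ) ≤ ((n * h * h : ℕ) : ℚ) := by
      exact_mod_cast hle
    rw [Nat.cast_mul, Nat.cast_sub (by omega)] at h'
    push_cast at h' ⊢
    exact h'
  set S := ∑ g ∈ H, (nf Ω g : ℚ) with hS
  rw [← hsum] at hleq
  have hhc : (H.card : ℚ) + 1 = h := by exact_mod_cast hcard
  have hH1 : (1 : ℚ) ≤ H.card := by
    have : 1 ≤ H.card := by omega
    exact_mod_cast this
  have hSpos : 0 < S := by
    have := Finset.card_nsmul_le_sum H _ 1 hpos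
    rw [nsmul_eq_mul, mul_one] at this
    linarith
  set c : ℚ := S / H.card with hc
  have hcpos : 0 < c := div_pos hSpos (by linarith)
  have hterm : ∀ g ∈ H, (n : ℚ) * (2 * c - nf Ω g) / c ^ 2 - 1 ≤ wt Ω g := by
    intro g hg
    have hf : 0 < (nf Ω g : ℚ) := by linarith [hpos g hg]
    have hnn : (0 : ℚ) ≤ n := Nat.cast_nonneg n
    rw [wt, ← hn, sub_div, div_self hf.ne', sub_le_sub_iff_right, div_le_div_iff₀ (by positivity) hf]
    nlinarith [mul_nonneg hnn (sq_nonneg (c - nf Ω g))]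
  refine le_trans ?_ (Finset.sum_le_sum hterm)
  rw [Finset.sum_sub_distrib, Finset.sum_const, ← Finset.sum_div, ← Finset.mul_sum,
    Finset.sum_sub_distrib, Finset.sum_const, ← hS, nsmul_eq_mul, nsmul_eq_mul, mul_one, hc]
  have e : (n : ℚ) * (H.card * (2 * (S / H.card)) - S) / (S / H.card) ^ 2 =
      n * (H.card : ℚ) ^ 2 / S := by
    field_simp
    ring
  rw [e, le_sub_iff_add_le, le_div_iff₀ hSpos]
  rw [← hhc] at hleq ⊢
  nlinarith

/-- Maximum criterion. -/
theorem crit_max {a b : Ω} (M : ℕ) (hex : ∃ g ∈ st2 G a b, g ≠ 1) (hM : ∀ g ∈ st2 G a b, g ≠ 1 → nf Ω g ≤ M)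
    (hle : (∑ g ∈ st2 G a b, nf Ω g) + (st2 G a b).card * M ≤
      (st2 G a b).card * Fintype.card Ω) :
    ((st2 G a b).card : ℚ) ≤ ∑ g ∈ st2 G a b, wt Ω g := by
  obtain ⟨g₀, hg₀, hg₁⟩ := hex
  have h0 : 0 < M := lt_of_lt_of_le
    (Finset.card_pos.2 ⟨a, mem_fix.2 (mem_st2.1 hg₀).1⟩) (hM g₀ hg₀ hg₁)
  have hterm : ∀ g ∈ st2 G a b,
      ((Fintype.card Ω : ℚ) - nf Ω g) / M ≤ wt Ω g := by
    intro g hg
    have hnn : (0 : ℚ) ≤ (Fintype.card Ω : ℚ) - nf Ω g :=
      sub_nonneg.2 (Nat.cast_le.2 (nf_le g))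
    by_cases h1 : g = 1
    · subst h1; simp [wt_one, nf_one]
    · have hf : 0 < nf Ω g := Finset.card_pos.2 ⟨a, mem_fix.2 (mem_st2.1 hg).1⟩
      exact div_le_div_of_nonneg_left hnn (Nat.cast_pos.2 hf) (Nat.cast_le.2 (hM g hg h1))
  refine le_trans ?_ (Finset.sum_le_sum hterm)
  rw [← Finset.sum_div, le_div_iff₀ (Nat.cast_pos.2 h0), Finset.sum_sub_distrib, Finset.sum_const,
    nsmul_eq_mul]
  have h' : ((∑ g ∈ st2 G a b, nf Ω g : ℕ) : ℚ) + ((st2 G a b).card : ℚ) * M ≤
      ((st2 G a b).card : ℚ) * Fintype.card Ω := by exact_mod_cast hle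
  rw [Nat.cast_sum] at h'
  linarith

end Count

end CfsgLib.DerangeTwo
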