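import Cfsg.Agent.Lib.DerangeTwo
import Mathlib.GroupTheory.GroupAction.MultipleTransitivity
import Mathlib.GroupTheory.Perm.Fin
import Mathlib.Tactic.NormNum.GCD

/-!
# Derangements of 2-transitive groups
-/

set_option autoImplicit false
set_option linter.unusedSectionVars false
set_option linter.style.haveILetI false

namespace CfsgLib.DerangeTwo

open Finset MulAction

attribute [local instance] _root_.Classical.propDecidable

variable {G Ω : Type*} [Group G] [Fintype G] [MulAction G Ω] [Fintype Ω] [FaithfulSMul G Ω]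
  [IsPretransitive G Ω]
  (h2t : ∀ {x y u v : Ω}, x ≠ y → u ≠ v → ∃ g : G, g • x = u ∧ g • y = v)
include h2t

theorem no_three_cycle {a b : Ω} (hab : a ≠ b) (hn : 7 ≤ Fintype.card Ω) (σ : G)
    (h3 : (univ.filter fun c : Ω => σ • c ≠ c).card = 3) (c : Ω) (hca : c ≠ a) (hcb : c ≠ b) :
    Fintype.card Ω - 2 ≤ (orb G a b c).card := by
  set R : Subgroup (Equiv.Perm Ω) := (toPermHom G Ω).range with hR
  haveI hpre : IsMultiplyPretransitive R Ω 2 := is_two_pretransitive_iff.2 fun {x y u v} hxy huv => by
    obtain ⟨g, hx, hy⟩ := h2t hxy huv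
    exact ⟨⟨toPermHom G Ω g, ⟨g, rfl⟩⟩, hx, hy⟩
  have hprim : IsPreprimitive R Ω := isPreprimitive_of_is_two_pretransitive hpre
  have hcyc : (toPermHom G Ω σ).IsThreeCycle := by
    rw [← card_support_eq_three_iff, ← h3]
    congr 1
  have hAlt := Equiv.Perm.alternatingGroup_le_of_isPreprimitive_of_isThreeCycle_mem hprim hcyc
    ⟨σ, rfl⟩
  have hsub : (univ.erase a).erase b ⊆ orb G a b c := by
    intro d hd
    simp only [Finset.mem_erase, mem_univ, and_true] at hd
    by_cases hdc : d = c
    · rw [hdc]; exact mem_orb_self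
    obtain ⟨e, he⟩ : ∃ e, e ∈ ((((univ : Finset Ω).erase a).erase b).erase c).erase d := by
      refine Finset.Nonempty.exists_mem (Finset.card_pos.1 ?_)
      have := Finset.pred_card_le_card_erase (s := (univ : Finset Ω)) (a := a)
      have := Finset.pred_card_le_card_erase (s := (univ : Finset Ω).erase a) (a := b)
      have := Finset.pred_card_le_card_erase (s := ((univ : Finset Ω).erase a).erase b) (a := c)
      have := Finset.pred_card_le_card_erase
        (s := (((univ : Finset Ω).erase a).erase b).erase c) (a := d)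
      rw [Finset.card_univ] at *
      omega
    simp only [Finset.mem_erase, mem_univ, and_true] at he
    obtain ⟨hed, hec, heb, hea⟩ := he
    set τ : Equiv.Perm Ω := Equiv.swap c e * Equiv.swap c d with hτ
    have hτA : τ ∈ alternatingGroup Ω := by
      rw [Equiv.Perm.mem_alternatingGroup, hτ, Equiv.Perm.sign_mul,
        Equiv.Perm.sign_swap (Ne.symm hec), Equiv.Perm.sign_swap (Ne.symm hdc)]
      rfl
    obtain ⟨g, hg⟩ := hAlt hτA
    have hev : ∀ x, g • x = τ x := fun x => congrArg (fun f : Equiv.Perm Ω => f x) hg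
    have h1 : g • c = d := by
      rw [hev, hτ, Equiv.Perm.mul_apply, Equiv.swap_apply_left,
        Equiv.swap_apply_of_ne_of_ne hdc (Ne.symm hed)]
    refine Finset.mem_image.2 ⟨g, mem_st2.2 ⟨?_, ?_⟩, h1⟩
    · rw [hev, hτ, Equiv.Perm.mul_apply, Equiv.swap_apply_of_ne_of_ne hca.symm hd.2.symm,
        Equiv.swap_apply_of_ne_of_ne hca.symm hea.symm]
    · rw [hev, hτ, Equiv.Perm.mul_apply, Equiv.swap_apply_of_ne_of_ne hcb.symm hd.1.symm,
        Equiv.swap_apply_of_ne_of_ne hcb.symm heb.symm]
  have := Finset.card_le_card hsub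
  rw [Finset.card_erase_of_mem (by simp [hab.symm]), Finset.card_erase_of_mem (mem_univ a),
    Finset.card_univ] at this
  omega

/-- Pairs of orbits of size two force `|G_ab| = 2`. -/
theorem small_stab {a b : Ω} (hab : a ≠ b)
    (hall : ∀ c : Ω, (orb G a b c).card ≤ 2) (hk : (line G a b).card ≤ 3)
    (hmov : ∃ c : Ω, c ∉ line G a b) : (st2 G a b).card ≤ 2 := by
  -- exponent two
  have hsq : ∀ x y : Ω, x ≠ y → ∀ g ∈ st2 G x y, g * g = 1 := by
    intro x y hxy g hg
    refine eq_of_smul_eq_smul fun c : Ω => ?_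
    rw [mul_smul, one_smul]
    obtain ⟨u, hu1, hu2⟩ := h2t hxy hab
    have hg' : u * g * u⁻¹ ∈ st2 G a b := by
      rw [mem_st2] at hg ⊢
      simp [mul_smul, ← hu1, ← hu2, hg.1, hg.2]
    have hsub : ({u • c, (u * g * u⁻¹) • (u • c), (u * g * u⁻¹) • (u * g * u⁻¹) • (u • c)} :
        Finset Ω) ⊆ orb G a b (u • c) := by
      intro d hd
      simp only [Finset.mem_insert, Finset.mem_singleton] at hd
      rcases hd with rfl | rfl | rfl
      · exact mem_orb_self
      · exact Finset.mem_image.2 ⟨_, hg', rfl⟩
      · refine Finset.mem_image.2 ⟨u * g * u⁻¹ * (u * g * u⁻¹), ?_, mul_smul _ _ _⟩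
        rw [mem_st2] at hg' ⊢
        rw [mul_smul (u * g * u⁻¹) (u * g * u⁻¹) a, mul_smul (u * g * u⁻¹) (u * g * u⁻¹) b, hg'.1,
          hg'.1, hg'.2, hg'.2]
        exact ⟨rfl, rfl⟩
    have hc := (Finset.card_le_card hsub).trans (hall (u • c))
    by_contra hne
    have h1 : g • c ≠ c := fun h => hne (by rw [h, h])
    have e1 : (u * g * u⁻¹) • (u • c) = u • g • c := by simp [mul_smul]
    have e2 : (u * g * u⁻¹) • (u • g • c) = u • g • g • c := by simp [mul_smul]
    rw [e1, e2, Finset.card_eq_three.2 ⟨u • c, u • g • c, u • g • g • c,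
      fun h => h1 (smul_left_cancel u h).symm,
      fun h => hne (smul_left_cancel u h).symm,
      fun h => h1 (smul_left_cancel g (smul_left_cancel u h)).symm, rfl⟩] at hc
    omega
  have hcomm : ∀ x y : Ω, x ≠ y → ∀ g ∈ st2 G x y, ∀ k ∈ st2 G x y, g * k = k * g := by
    intro x y hxy g hg k hk
    have hgk : g * k ∈ st2 G x y := by
      rw [mem_st2] at hg hk ⊢
      simp [mul_smul, hg.1, hg.2, hk.1, hk.2]
    have e := hsq x y hxy _ hgk
    have hg2 := hsq x y hxy g hg
    have hk2 := hsq x y hxy k hk
    calc g * k = g * 1 * k := by rw [mul_one]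
      _ = g * (g * k * (g * k)) * k := by rw [e]
      _ = g * g * (k * g) * (k * k) := by simp only [mul_assoc]
      _ = k * g := by rw [hg2, hk2, one_mul, mul_one]
  by_contra hh
  push Not at hh
  obtain ⟨c₀, hc₀⟩ := hmov
  -- neighbours in `G_a`
  set H := st2 G a b with hH
  have hne : ∀ c, c ∉ line G a b → c ≠ a ∧ c ≠ b := fun c hc =>
    ⟨fun e => hc (e ▸ line_self.1), fun e => hc (e ▸ line_self.2)⟩
  have horb2 : ∀ c, c ∉ line G a b → (orb G a b c).card = 2 := fun c hc => by
    have h1 := hall c
    have h2 : (orb G a b c).card ≠ 1 := fun e => hc (line_iff_orb.2 e)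
    have h3 : 0 < (orb G a b c).card := Finset.card_pos.2 ⟨c, mem_orb_self⟩
    omega
  have hhalf : ∀ c, c ∉ line G a b → 2 * (H.filter fun g => g • c = c).card = H.card := fun c hc => by
    have := orb_mul (G := G) (a := a) (b := b) (c := c)
    rw [horb2 c hc] at this
    exact this
  have hcardc : ∀ c, c ∉ line G a b → (st2 G a c).card = H.card := fun c hc =>
    card_st2_eq h2t (hne c hc).1.symm hab
  -- commuting with all neighbours
  have hgen : ∀ c, c ∉ line G a b → ∀ e, e ∉ line G a b →
      ∀ w ∈ H.filter (fun g => g • c = c), w • e ≠ e →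
      ∀ x ∈ H, ∃ u ∈ H.filter (fun g => g • e = e), x = u ∨ x = w * u := by
    intro c _ e he w hw hwe x hx
    by_cases hxe : x • e = e
    · exact ⟨x, Finset.mem_filter.2 ⟨hx, hxe⟩, Or.inl rfl⟩
    have hw' := (Finset.mem_filter.1 hw).1
    refine ⟨w * x, Finset.mem_filter.2 ⟨?_, ?_⟩, Or.inr ?_⟩
    · rw [hH, mem_st2] at hx hw' ⊢
      simp [mul_smul, hx.1, hx.2, hw'.1, hw'.2]
    · have h1 : x • e ∈ orb G a b e := Finset.mem_image.2 ⟨x, hx, rfl⟩
      have h2 : w • e ∈ orb G a b e := Finset.mem_image.2 ⟨w, hw', rfl⟩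
      have h4 : x • e = w • e := by
        by_contra h5
        have : ({e, x • e, w • e} : Finset Ω) ⊆ orb G a b e := by
          intro d hd
          simp only [Finset.mem_insert, Finset.mem_singleton] at hd
          rcases hd with rfl | rfl | rfl
          exacts [mem_orb_self, h1, h2]
        have := Finset.card_le_card this
        rw [Finset.card_eq_three.2 ⟨e, x • e, w • e, Ne.symm hxe, Ne.symm hwe, h5, rfl⟩,
          horb2 e he] at this
        omega
      rw [mul_smul, h4, ← mul_smul, hsq a b hab w hw', one_smul]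
    · rw [← mul_assoc, hsq a b hab w hw', one_mul]
  have hcomm2 : ∀ c, c ∉ line G a b → ∀ y ∈ st2 G a c, ∀ x ∈ H, x * y = y * x := by
    intro c hc
    have hac := (hne c hc).1.symm
    set W := H.filter (fun g => g • c = c) with hW
    have hW2 : ∀ w ∈ W, w ∈ st2 G a c := fun w hw => mem_st2.2
      ⟨(mem_st2.1 (Finset.mem_filter.1 hw).1).1, (Finset.mem_filter.1 hw).2⟩
    -- a nontrivial element of `W` moves some point
    obtain ⟨w, hw, hw1⟩ : ∃ w ∈ W, w ≠ 1 := by
      by_contra hcon
      push Not at hcon
      have : W ⊆ {1} := fun w hw => Finset.mem_singleton.2 (hcon w hw)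
      have := Finset.card_le_card this
      rw [Finset.card_singleton] at this
      have h2 : 2 * W.card = H.card := hhalf c hc
      omega
    obtain ⟨e, he⟩ : ∃ e : Ω, w • e ≠ e := by
      by_contra h
      push Not at h
      exact hw1 (eq_of_smul_eq_smul fun z : Ω => by rw [h z, one_smul])
    have hwH := (Finset.mem_filter.1 hw).1
    have hel : e ∉ line G a b := fun h => he (mem_line.1 h w hwH)
    have hec : e ∉ line G a c := fun h => he (mem_line.1 h w (hW2 w hw))
    have hae : a ≠ e := (hne e hel).1.symm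
    intro y hy x hx
    obtain ⟨u, hu, hxu⟩ := hgen c hc e hel w hw he x hx
    obtain ⟨huH, hue⟩ := Finset.mem_filter.1 hu
    have huE : u ∈ st2 G a e := mem_st2.2 ⟨(mem_st2.1 huH).1, hue⟩
    -- `y` commutes with `w` and with `u`
    have hyw : w * y = y * w := hcomm a c hac w (hW2 w hw) y hy
    have hyu : u * y = y * u := by
      by_cases hye : y • e = e
      · exact hcomm a e hae u huE y (mem_st2.2 ⟨(mem_st2.1 hy).1, hye⟩)
      -- otherwise `y = w * v` with `v` fixing `e`
      obtain ⟨g, hga, hgc⟩ := h2t hab hac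
      have hyv : w * y ∈ st2 G a e := by
        refine mem_st2.2 ⟨by rw [mul_smul, (mem_st2.1 hy).1, (mem_st2.1 hwH).1], ?_⟩
        have hS : ∀ z, (orb G a c z).card ≤ 2 := fun z => by
          have hz : orb G a c z = (orb G a b (g⁻¹ • z)).image (g • ·) := by
            ext d
            simp only [orb, Finset.mem_image, mem_st2]
            constructor
            · rintro ⟨k, hk, rfl⟩
              refine ⟨_, ⟨g⁻¹ * k * g, ?_, rfl⟩, by simp [mul_smul]⟩
              rw [mul_smul, mul_smul, mul_smul, mul_smul, hga, hgc, hk.1, hk.2, inv_smul_eq_iff,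
                inv_smul_eq_iff, hga, hgc]
              exact ⟨rfl, rfl⟩
            · rintro ⟨_, ⟨k, hk, rfl⟩, rfl⟩
              refine ⟨g * k * g⁻¹, ?_, by simp [mul_smul]⟩
              have i1 : g⁻¹ • a = a := inv_smul_eq_iff.2 hga.symm
              have i2 : g⁻¹ • c = b := inv_smul_eq_iff.2 hgc.symm
              rw [mul_smul, mul_smul, mul_smul, mul_smul, i1, i2, hk.1, hk.2, hga, hgc]
              exact ⟨rfl, rfl⟩
          rw [hz]; exact (Finset.card_image_le).trans (hall _)
        have h4 : y • e = w • e := by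
          by_contra h5
          have hs : ({e, y • e, w • e} : Finset Ω) ⊆ orb G a c e := by
            intro d hd
            simp only [Finset.mem_insert, Finset.mem_singleton] at hd
            rcases hd with rfl | rfl | rfl
            exacts [mem_orb_self, Finset.mem_image.2 ⟨y, hy, rfl⟩,
              Finset.mem_image.2 ⟨w, hW2 w hw, rfl⟩]
          have := (Finset.card_le_card hs).trans (hS e)
          rw [Finset.card_eq_three.2 ⟨e, y • e, w • e, Ne.symm hye, Ne.symm he, h5, rfl⟩] at this
          omega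
        rw [mul_smul, h4, ← mul_smul, hsq a b hab w hwH, one_smul]
      have e1 := hcomm a e hae u huE _ hyv
      have e2 : u * w = w * u := hcomm a b hab u huH w hwH
      calc u * y = u * (w * (w * y)) := by rw [← mul_assoc w, hsq a b hab w hwH, one_mul]
        _ = w * (u * (w * y)) := by rw [← mul_assoc, e2, mul_assoc]
        _ = w * (w * y * u) := by rw [e1]
        _ = y * u := by rw [← mul_assoc, ← mul_assoc, hsq a b hab w hwH, one_mul]
    rcases hxu with rfl | rfl
    · exact hyu
    · rw [mul_assoc, hyu, ← mul_assoc, hyw, mul_assoc]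
  -- `G_ac` permutes the line through `a, b`
  have hperm : ∀ c, c ∉ line G a b → ∀ y ∈ st2 G a c, y • b ∈ line G a b := by
    intro c hc y hy
    refine mem_line.2 fun x hx => ?_
    rw [← mul_smul, hcomm2 c hc y hy x hx, mul_smul, (mem_st2.1 hx).2]
  -- the orbit of `b` under `G_ac` contains a third point of that line
  obtain ⟨y, hy, hyb⟩ : ∃ y ∈ st2 G a c₀, y • b ≠ b := by
    by_contra hcon
    push Not at hcon
    have hs : st2 G a c₀ ⊆ H.filter (fun g => g • c₀ = c₀) := fun y hy => Finset.mem_filter.2
      ⟨mem_st2.2 ⟨(mem_st2.1 hy).1, hcon y hy⟩, (mem_st2.1 hy).2⟩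
    have h1 := Finset.card_le_card hs
    have h2 := hhalf c₀ hc₀
    have h3 := hcardc c₀ hc₀
    omega
  have hd := hperm c₀ hc₀ y hy
  have hda : y • b ≠ a := fun e => hab
    ((smul_left_cancel y (e.trans (mem_st2.1 hy).1.symm)).symm)
  set d := y • b with hdd
  have hlineabd : line G a b = {a, b, d} := by
    refine (Finset.eq_of_subset_of_card_le ?_ ?_).symm
    · intro z hz
      simp only [Finset.mem_insert, Finset.mem_singleton] at hz
      rcases hz with rfl | rfl | rfl
      exacts [line_self.1, line_self.2, hd]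
    · rw [Finset.card_eq_three.2 ⟨a, b, d, hab, hda.symm, hyb.symm, rfl⟩]
      exact hk
  -- in `G_ac`, the partner of `b` lies on the line through `a` and `b`
  have hline : ∀ c, c ∉ line G a b → ∀ x ∈ st2 G a c, x • b = b ∨ x • b = d := by
    intro c hc x hx
    have h1 := hperm c hc x hx
    rw [hlineabd] at h1
    simp only [Finset.mem_insert, Finset.mem_singleton] at h1
    rcases h1 with h1 | h1 | h1
    · exact absurd (smul_left_cancel x (h1.trans (mem_st2.1 hx).1.symm)).symm hab
    · exact Or.inl h1
    · exact Or.inr h1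
  -- translate: the partner of `c₀` under `G_ab` lies on the lines `a c₀` and `b c₀`
  obtain ⟨x, hx, hxc⟩ : ∃ x ∈ H, x • c₀ ≠ c₀ := by
    by_contra hcon
    push Not at hcon
    exact hc₀ (mem_line.2 hcon)
  set c₁ := x • c₀ with hc1
  have hpartner : ∀ p q : Ω, ({p, q} : Finset Ω) = {a, b} → c₁ ∈ line G p c₀ := by
    intro p q hpq
    have hpq' : p ≠ q := by
      intro e
      subst e
      have := congrArg Finset.card hpq
      rw [Finset.card_pair hab] at this
      simp at this
    have hp : p = a ∨ p = b := by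
      have : p ∈ ({p, q} : Finset Ω) := by simp
      rw [hpq] at this; simpa using this
    have hq : q = a ∨ q = b := by
      have : q ∈ ({p, q} : Finset Ω) := by simp
      rw [hpq] at this; simpa using this
    have hpc : p ≠ c₀ := by
      rcases hp with rfl | rfl
      exacts [(hne c₀ hc₀).1.symm, (hne c₀ hc₀).2.symm]
    obtain ⟨g, hga, hgb⟩ := h2t hpc hab
    -- `(p, c₀) ↦ (a, b)`, so `q` goes off the line
    have hqx : x • q = q := by
      rcases hq with rfl | rfl
      exacts [(mem_st2.1 hx).1, (mem_st2.1 hx).2]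
    have hpx : x • p = p := by
      rcases hp with rfl | rfl
      exacts [(mem_st2.1 hx).1, (mem_st2.1 hx).2]
    have hq' : g • q ∉ line G a b := by
      intro h
      have h' : q ∈ line G p c₀ := mem_line.2 fun k hk => by
        have := mem_line.1 h (g * k * g⁻¹) (by
          rw [mem_st2] at hk ⊢
          simp [mul_smul, ← hga, ← hgb, hk.1, hk.2])
        simpa [mul_smul] using this
      have e := st2_eq_of_mem_line h2t hpc hpq' h'
      have hxm : x ∈ st2 G p q := mem_st2.2 ⟨hpx, hqx⟩
      rw [e] at hxm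
      exact hxc (mem_st2.1 hxm).2
    have hgx : g * x * g⁻¹ ∈ st2 G a (g • q) := by
      rw [mem_st2]
      simp [mul_smul, ← hga, hpx, hqx]
    rcases hline (g • q) hq' _ hgx with h1 | h1
    · exfalso
      apply hxc
      have : (g * x * g⁻¹) • (g • c₀) = g • c₀ := by rw [hgb]; exact h1
      simpa [mul_smul] using this
    · refine mem_line.2 fun k hk => ?_
      have : (g * k * g⁻¹) • d = d := mem_line.1 hd _ (by
        rw [mem_st2] at hk ⊢
        simp [mul_smul, ← hga, ← hgb, hk.1, hk.2])
      rw [← h1, ← hgb] at this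
      simpa [mul_smul, hc1] using this
  have hA := hpartner a b rfl
  have hB := hpartner b a (Finset.pair_comm b a)
  have hca := (hne c₀ hc₀).1
  have hcb := (hne c₀ hc₀).2
  have hc1a : a ≠ c₁ := fun e => hca (smul_left_cancel x (e.symm.trans (mem_st2.1 hx).1.symm))
  have hc1b : b ≠ c₁ := fun e => hcb (smul_left_cancel x (e.symm.trans (mem_st2.1 hx).2.symm))
  have e1 := st2_eq_of_mem_line h2t hca.symm hc1a hA
  have e2 := st2_eq_of_mem_line h2t hcb.symm hc1b hB
  have hs1 : st2 G a c₀ ⊆ st2 G c₀ c₁ := fun k hk =>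
    mem_st2.2 ⟨(mem_st2.1 hk).2, (mem_st2.1 (e1 ▸ hk : k ∈ st2 G a c₁)).2⟩
  have hs2 : st2 G b c₀ ⊆ st2 G c₀ c₁ := fun k hk =>
    mem_st2.2 ⟨(mem_st2.1 hk).2, (mem_st2.1 (e2 ▸ hk : k ∈ st2 G b c₁)).2⟩
  have f1 := Finset.eq_of_subset_of_card_le hs1 (card_st2_eq h2t (Ne.symm hxc) hca.symm).le
  have f2 := Finset.eq_of_subset_of_card_le hs2 (card_st2_eq h2t (Ne.symm hxc) hcb.symm).le
  have hsub : st2 G a c₀ ⊆ H.filter (fun g => g • c₀ = c₀) := fun k hk => by
    have hk' : k ∈ st2 G b c₀ := f2.symm ▸ (f1 ▸ hk)
    exact Finset.mem_filter.2 ⟨mem_st2.2 ⟨(mem_st2.1 hk).1, (mem_st2.1 hk').1⟩, (mem_st2.1 hk).2⟩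
  have h1 := Finset.card_le_card hsub
  have h2 := hhalf c₀ hc₀
  have h3 := hcardc c₀ hc₀
  omega

omit h2t in
theorem not_order_eightyfour (hn : Fintype.card Ω = 7) : Fintype.card G ≠ 84 := by
  intro hG
  haveI : Fact (Nat.Prime 7) := ⟨by decide⟩
  obtain ⟨P⟩ : Nonempty (Sylow 7 G) := inferInstance
  have hdvd := Sylow.card_dvd_index P
  have hmod : Nat.card (Sylow 7 G) ≡ 1 [MOD 7] := card_sylow_modEq_one 7 G
  have hPc : Nat.card (P : Subgroup G) = 7 := by
    rw [Sylow.card_eq_multiplicity, Nat.card_eq_fintype_card, hG]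
    have h84 : (84 : ℕ).factorization 7 = 1 := by
      rw [show (84 : ℕ) = 7 * 12 from rfl, Nat.factorization_mul (by decide) (by decide),
        Finsupp.add_apply, Nat.Prime.factorization_self (by decide),
        Nat.factorization_eq_zero_of_not_dvd (by decide)]
    rw [h84, pow_one]
  have hidx : (P : Subgroup G).index = 12 := by
    have := (P : Subgroup G).card_mul_index
    rw [hPc, Nat.card_eq_fintype_card, hG] at this
    omega
  rw [hidx] at hdvd
  have hone : Nat.card (Sylow 7 G) = 1 := by
    have hle := Nat.le_of_dvd (by norm_num) hdvd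
    unfold Nat.ModEq at hmod
    interval_cases h : Nat.card (Sylow 7 G) <;> omega
  haveI : Subsingleton (Sylow 7 G) := (Finite.card_le_one_iff_subsingleton).1 hone.le
  haveI hPn : (P : Subgroup G).Normal := inferInstance
  obtain ⟨a⟩ : Nonempty Ω := Fintype.card_pos_iff.1 (by omega)
  haveI : IsCyclic (P : Subgroup G) := isCyclic_of_prime_card hPc
  have hstab : Nat.card (stabilizer G a) = 12 := by
    have h := (stabilizer G a).card_mul_index
    rw [MulAction.index_stabilizer_of_transitive, Nat.card_eq_fintype_card (α := Ω), hn,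
      Nat.card_eq_fintype_card (α := G), hG] at h
    omega
  -- the normal subgroup is transitive
  have hPt : ∀ c : Ω, ∃ p ∈ (P : Subgroup G), p • a = c := by
    have hbij : Function.Bijective (fun p : (P : Subgroup G) => (p : G) • a) := by
      rw [Fintype.bijective_iff_injective_and_card]
      refine ⟨fun p q h => ?_, by rw [← Nat.card_eq_fintype_card, hPc, hn]⟩
      by_contra hne
      have hm : (p : G)⁻¹ * q ∈ stabilizer G a := by
        rw [mem_stabilizer_iff, mul_smul, inv_smul_eq_iff]; exact h.symm
      set r : (P : Subgroup G) := p⁻¹ * q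
      have hr1 : r ≠ 1 := fun e => hne (inv_mul_eq_one.1 e)
      have ho : orderOf (r : G) = 7 := by
        rw [Subgroup.orderOf_coe]
        have hdr := orderOf_dvd_natCard r
        rw [hPc] at hdr
        exact ((show Nat.Prime 7 by decide).eq_one_or_self_of_dvd _ hdr).resolve_left
          (fun e => hr1 (orderOf_eq_one_iff.1 e))
      have := orderOf_dvd_natCard (⟨(r : G), hm⟩ : stabilizer G a)
      rw [← Subgroup.orderOf_coe, hstab] at this
      rw [ho] at this
      omega
    intro c
    obtain ⟨p, hp⟩ := hbij.2 c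
    exact ⟨p, p.2, hp⟩
  have hinj : Function.Injective
      ((MulAut.conjNormal (H := (P : Subgroup G))).comp (stabilizer G a).subtype) := by
    rw [injective_iff_map_eq_one]
    intro s hs
    refine Subtype.ext (eq_of_smul_eq_smul fun c : Ω => ?_)
    obtain ⟨p, hp, rfl⟩ := hPt c
    have h1 := congrArg Subtype.val (DFunLike.congr_fun hs ⟨p, hp⟩)
    simp only [MonoidHom.comp_apply, MulAut.conjNormal_apply, Subgroup.coe_subtype,
      MulAut.one_apply] at h1
    show (s : G) • p • a = (1 : G) • p • a
    have hsa : (s : G) • a = a := s.2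
    rw [one_smul]
    calc (s : G) • p • a = ((s : G) * p * (s : G)⁻¹) • (s : G) • a := by simp [mul_smul]
      _ = p • a := by rw [h1, hsa]
  have h6 : Nat.card (MulAut (P : Subgroup G)) = 6 := by
    rw [IsCyclic.card_mulAut, hPc, Nat.totient_prime (by decide)]
  have := Nat.card_le_card_of_injective _ hinj
  omega

theorem derange_main (hn : 7 ≤ Fintype.card Ω) {a b : Ω} (hab : a ≠ b)
    (hh : 2 ≤ (st2 G a b).card)
    (hG : Fintype.card G = Fintype.card Ω * (Fintype.card Ω - 1) * (st2 G a b).card) :
    ((st2 G a b).card : ℚ) ≤ ∑ g ∈ st2 G a b, wt Ω g := by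
  set n := Fintype.card Ω with hndef
  set H := st2 G a b with hH
  set h := H.card with hhdef
  set k := (line G a b).card with hkdef
  set Φ := ∑ g ∈ H, nf Ω g with hΦ
  obtain ⟨g₀, hg₀, hg₁⟩ : ∃ g ∈ H, g ≠ 1 := by
    by_contra hcon
    push Not at hcon
    have : H ⊆ {1} := fun g hg => Finset.mem_singleton.2 (hcon g hg)
    have := Finset.card_le_card this
    rw [Finset.card_singleton] at this
    omega
  have hk2 : 2 ≤ k := by
    have : ({a, b} : Finset Ω) ⊆ line G a b := by
      intro z hz
      simp only [Finset.mem_insert, Finset.mem_singleton] at hz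
      rcases hz with rfl | rfl
      exacts [line_self.1, line_self.2]
    calc 2 = ({a, b} : Finset Ω).card := (Finset.card_pair hab).symm
      _ ≤ k := Finset.card_le_card this
  -- classify points
  set B₂ := univ.filter (fun c : Ω => (orb G a b c).card = 2) with hB2
  set B₃ := univ.filter (fun c : Ω => (orb G a b c).card = 3) with hB3
  set B₄ := univ.filter (fun c : Ω => 4 ≤ (orb G a b c).card) with hB4
  have hpos : ∀ c : Ω, 1 ≤ (orb G a b c).card := fun c => Finset.card_pos.2 ⟨c, mem_orb_self⟩
  have hnsum : k + B₂.card + B₃.card + B₄.card = n := by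
    rw [hkdef, hB2, hB3, hB4, hndef]
    rw [show line G a b = univ.filter (fun c : Ω => (orb G a b c).card = 1) from by
      ext c; simp [line_iff_orb]]
    simp only [Finset.card_filter]
    rw [← Finset.sum_add_distrib, ← Finset.sum_add_distrib, ← Finset.sum_add_distrib,
      ← Finset.card_univ, Finset.card_eq_sum_ones]
    refine Finset.sum_congr rfl fun c _ => ?_
    have := hpos c
    split_ifs <;> omega
  have hPhi : 12 * Φ ≤ h * (12 * k + 6 * B₂.card + 4 * B₃.card + 3 * B₄.card) := by
    rw [hΦ, sum_st2_nf, Finset.mul_sum]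
    have hpt : ∀ c : Ω, 12 * (H.filter (fun g => g • c = c)).card ≤
        h * ((if (orb G a b c).card = 1 then 12 else 0) + (if (orb G a b c).card = 2 then 6 else 0) +
          (if (orb G a b c).card = 3 then 4 else 0) + (if 4 ≤ (orb G a b c).card then 3 else 0)) := by
      intro c
      have h1 := orb_mul (G := G) (a := a) (b := b) (c := c)
      have h2 := hpos c
      rw [hhdef, hH, ← h1]
      set s := (orb G a b c).card
      set f := ((st2 G a b).filter (fun g => g • c = c)).card
      rcases Nat.lt_or_ge s 4 with h4 | h4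
      · rw [if_neg (show ¬ 4 ≤ s by omega)]
        interval_cases s <;> norm_num <;> omega
      · rw [if_neg (show s ≠ 1 by omega), if_neg (show s ≠ 2 by omega),
          if_neg (show s ≠ 3 by omega), if_pos h4]
        nlinarith
    refine (Finset.sum_le_sum fun c _ => hpt c).trans (le_of_eq ?_)
    rw [← Finset.mul_sum, Finset.sum_add_distrib, Finset.sum_add_distrib, Finset.sum_add_distrib]
    congr 1
    rw [hkdef, hB2, hB3, hB4, show line G a b = univ.filter (fun c : Ω => (orb G a b c).card = 1)
      from by ext c; simp [line_iff_orb]]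
    simp only [Finset.card_filter, Finset.mul_sum, mul_ite, mul_one, mul_zero]
  have hM : ∀ M : ℕ, (∀ f : ℕ, f * (k - 1) ≤ n - 1 → f ≤ M) →
      ∀ g ∈ H, g ≠ 1 → nf Ω g ≤ M := fun M hM g _ hg1 => hM _ (fix_mul_le h2t hg1 hab)
  have hkn : k * (k - 1) ≤ n - 1 := le_trans (Nat.mul_le_mul_right _ (line_le_fix h2t hg₀))
    (fix_mul_le h2t hg₁ hab)
  -- big lines
  rcases Nat.lt_or_ge 3 k with hk4 | hk4
  · have h3k : 3 * k ≤ n + 2 := by
      have : 3 * k ≤ k * (k - 1) := by
        rw [mul_comm 3 k]; exact Nat.mul_le_mul_left k (by omega)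
      omega
    refine crit_max ((n - 1) / 3) ⟨g₀, hg₀, hg₁⟩ (hM _ fun f hf => ?_) ?_
    · rw [Nat.le_div_iff_mul_le (by norm_num)]
      exact le_trans (Nat.mul_le_mul_left f (by omega)) hf
    · have : 12 * k + 6 * B₂.card + 4 * B₃.card + 3 * B₄.card + 12 * ((n - 1) / 3) ≤ 12 * n := by
        omega
      have h' := Nat.mul_le_mul_left h this
      rw [Nat.mul_add] at h'
      rw [← hΦ]
      nlinarith
  -- enough orbits of size at least three
  have hfin : 6 * k ≤ 2 * B₃.card + 3 * B₄.card ∨ (k = 3 ∧ 12 ≤ 2 * B₃.card + 3 * B₄.card) →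
      (h : ℚ) ≤ ∑ g ∈ H, wt Ω g := by
    rintro (hb | ⟨hk3, hb⟩)
    · refine crit_mean hh ?_
      have h1 : 12 * Φ ≤ h * (6 * n) := hPhi.trans (Nat.mul_le_mul_left h (by omega))
      have h2 : 2 * h - 1 ≤ 2 * h := Nat.sub_le _ _
      rw [← hΦ, ← hhdef, ← hndef]
      calc Φ * (2 * h - 1) ≤ Φ * (2 * h) := Nat.mul_le_mul_left Φ h2
        _ ≤ n * h * h := by nlinarith
    · refine crit_max ((n - 1) / 2) ⟨g₀, hg₀, hg₁⟩ (hM _ fun f hf => ?_) ?_
      · rw [Nat.le_div_iff_mul_le (by norm_num)]
        rw [hk3] at hf; omega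
      · have : 12 * k + 6 * B₂.card + 4 * B₃.card + 3 * B₄.card + 12 * ((n - 1) / 2) ≤ 12 * n := by
          omega
        have h' := Nat.mul_le_mul_left h this
        rw [Nat.mul_add] at h'
        rw [← hΦ]
        nlinarith
  have horbB : ∀ c : Ω, ∀ d ∈ orb G a b c, (orb G a b d).card = (orb G a b c).card := fun c d hd =>
    congrArg Finset.card (orb_eq_of_mem hd)
  by_cases h4 : B₄.Nonempty
  · obtain ⟨c, hc⟩ := h4
    rw [hB4, Finset.mem_filter] at hc
    have hsub : orb G a b c ⊆ B₄ := fun d hd => by
      rw [hB4, Finset.mem_filter]; exact ⟨mem_univ _, by rw [horbB c d hd]; exact hc.2⟩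
    have := Finset.card_le_card hsub
    exact hfin (by omega)
  rw [Finset.not_nonempty_iff_eq_empty] at h4
  have h4' : B₄.card = 0 := by rw [h4, Finset.card_empty]
  by_cases h3 : B₃.Nonempty
  · obtain ⟨c, hc⟩ := h3
    rw [hB3, Finset.mem_filter] at hc
    have hsub : orb G a b c ⊆ B₃ := fun d hd => by
      rw [hB3, Finset.mem_filter]; exact ⟨mem_univ _, by rw [horbB c d hd]; exact hc.2⟩
    by_cases hsingle : B₃ ⊆ orb G a b c
    · -- a single orbit of size three gives a 3-cycle
      exfalso
      have hB : B₃ = orb G a b c := Finset.Subset.antisymm hsingle hsub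
      have hca : c ≠ a := fun e => by
        have := (line_iff_orb (G := G)).1 (e ▸ line_self.1 : c ∈ line G a b); omega
      have hcb : c ≠ b := fun e => by
        have := (line_iff_orb (G := G)).1 (e ▸ line_self.2 : c ∈ line G a b); omega
      let K : Subgroup G := stabilizer G a ⊓ stabilizer G b
      have hKcard : Nat.card K = h := by
        rw [hhdef, hH, Nat.card_eq_fintype_card, Fintype.card_subtype]
        exact congrArg Finset.card (by ext g; simp [K, mem_st2, mem_stabilizer_iff])
      obtain ⟨σ, hσ⟩ : ∃ σ : K, orderOf σ = 3 := by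
        haveI : Fact (Nat.Prime 3) := ⟨by decide⟩
        refine exists_prime_orderOf_dvd_card' 3 ?_
        rw [hKcard]
        exact ⟨_, by rw [← hc.2, hhdef, hH]; exact (orb_mul).symm⟩
      have hσ' : orderOf (σ : G) = 3 := by rw [Subgroup.orderOf_coe]; exact hσ
      have hσmem : (σ : G) ∈ st2 G a b := mem_st2.2 ⟨σ.2.1, σ.2.2⟩
      have hσfix : ∀ d : Ω, d ∉ B₃ → (σ : G) • d = d := by
        intro d hd
        have hd2 : (orb G a b d).card ≤ 2 := by
          have : d ∉ B₄ := by rw [h4]; exact Finset.notMem_empty d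
          rw [hB4, Finset.mem_filter] at this
          rw [hB3, Finset.mem_filter] at hd
          simp only [mem_univ, true_and] at this hd
          omega
        by_contra hne
        have hsq : (σ : G) • (σ : G) • d = d := by
          by_contra hne2
          have hss : ({d, (σ : G) • d, (σ : G) • (σ : G) • d} : Finset Ω) ⊆ orb G a b d := by
            intro z hz
            simp only [Finset.mem_insert, Finset.mem_singleton] at hz
            rcases hz with rfl | rfl | rfl
            · exact mem_orb_self
            · exact Finset.mem_image.2 ⟨_, hσmem, rfl⟩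
            · refine Finset.mem_image.2 ⟨(σ : G) * σ, mem_st2.2 ?_, mul_smul _ _ _⟩
              rw [mul_smul, mul_smul, (mem_st2.1 hσmem).1, (mem_st2.1 hσmem).1,
                (mem_st2.1 hσmem).2, (mem_st2.1 hσmem).2]
              exact ⟨rfl, rfl⟩
          have := (Finset.card_le_card hss).trans hd2
          rw [Finset.card_eq_three.2 ⟨d, (σ : G) • d, (σ : G) • (σ : G) • d, Ne.symm hne,
            Ne.symm hne2, fun e => hne (smul_left_cancel (σ : G) e).symm, rfl⟩] at this
          omega
        have hcube : (σ : G) ^ 3 = 1 := hσ' ▸ pow_orderOf_eq_one (σ : G)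
        have h' : ((σ : G) ^ 3) • d = d := by rw [hcube, one_smul]
        rw [pow_succ, pow_two, mul_smul, mul_smul] at h'
        apply hne
        calc (σ : G) • d = (σ : G) • (σ : G) • (σ : G) • d := (congrArg ((σ : G) • ·) hsq).symm
          _ = d := h'
      have hsupp : (univ.filter fun d : Ω => (σ : G) • d ≠ d).card = 3 := by
        have h1 : (univ.filter fun d : Ω => (σ : G) • d ≠ d).card ≤ 3 := by
          refine (Finset.card_le_card (t := B₃) fun d hd => ?_).trans (by rw [hB]; exact hc.2.le)
          by_contra hd'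
          exact (Finset.mem_filter.1 hd).2 (hσfix d hd')
        obtain ⟨d, hd⟩ : ∃ d : Ω, (σ : G) • d ≠ d := by
          by_contra hcon
          push Not at hcon
          have : (σ : G) = 1 := eq_of_smul_eq_smul fun z : Ω => by rw [hcon z, one_smul]
          rw [this, orderOf_one] at hσ'
          omega
        have hsub3 : ({d, (σ : G) • d, (σ : G) • (σ : G) • d} : Finset Ω) ⊆
            univ.filter fun z : Ω => (σ : G) • z ≠ z := by
          intro z hz
          simp only [Finset.mem_insert, Finset.mem_singleton] at hz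
          refine Finset.mem_filter.2 ⟨mem_univ _, ?_⟩
          rcases hz with rfl | rfl | rfl
          · exact hd
          · exact fun e => hd (smul_left_cancel (σ : G) e)
          · exact fun e => hd (smul_left_cancel (σ : G) (smul_left_cancel (σ : G) e))
        have hne2 : (σ : G) • (σ : G) • d ≠ d := by
          intro e
          have hcube : (σ : G) ^ 3 = 1 := hσ' ▸ pow_orderOf_eq_one (σ : G)
          have h' : ((σ : G) ^ 3) • d = d := by rw [hcube, one_smul]
          rw [pow_succ, pow_two, mul_smul, mul_smul] at h'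
          apply hd
          calc (σ : G) • d = (σ : G) • (σ : G) • (σ : G) • d := (congrArg ((σ : G) • ·) e).symm
            _ = d := h'
        have h2 := Finset.card_le_card hsub3
        rw [Finset.card_eq_three.2 ⟨d, (σ : G) • d, (σ : G) • (σ : G) • d, Ne.symm hd,
          Ne.symm hne2, fun e => hd (smul_left_cancel (σ : G) e).symm, rfl⟩] at h2
        omega
      have := no_three_cycle h2t hab hn (σ : G) hsupp c hca hcb
      omega
    · obtain ⟨d, hd, hdc⟩ := Finset.not_subset.1 hsingle
      have hd' := hd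
      rw [hB3, Finset.mem_filter] at hd'
      have hsub' : orb G a b d ⊆ B₃ := fun z hz => by
        rw [hB3, Finset.mem_filter]; exact ⟨mem_univ _, by rw [horbB d z hz]; exact hd'.2⟩
      have hdis : Disjoint (orb G a b c) (orb G a b d) := Finset.disjoint_left.2 fun z hz hz' =>
        hdc (by
          have e : orb G a b d = orb G a b c := (orb_eq_of_mem hz').symm.trans (orb_eq_of_mem hz)
          exact e ▸ mem_orb_self)
      have := Finset.card_le_card (Finset.union_subset hsub hsub')
      rw [Finset.card_union_of_disjoint hdis] at this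
      exact hfin (by omega)
  rw [Finset.not_nonempty_iff_eq_empty] at h3
  have h3' : B₃.card = 0 := by rw [h3, Finset.card_empty]
  -- all nontrivial orbits have two points
  have hall : ∀ c : Ω, (orb G a b c).card ≤ 2 := fun c => by
    by_contra hc
    rcases Nat.lt_or_ge (orb G a b c).card 4 with h | h
    · have : c ∈ B₃ := by rw [hB3, Finset.mem_filter]; exact ⟨mem_univ _, by omega⟩
      rw [h3] at this; exact absurd this (Finset.notMem_empty c)
    · have : c ∈ B₄ := by rw [hB4, Finset.mem_filter]; exact ⟨mem_univ _, h⟩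
      rw [h4] at this; exact absurd this (Finset.notMem_empty c)
  have hmov : ∃ c : Ω, c ∉ line G a b := by
    by_contra hcon
    push Not at hcon
    refine hg₁ (eq_of_smul_eq_smul fun z : Ω => ?_)
    rw [one_smul]; exact mem_line.1 (hcon z) g₀ hg₀
  have hh2 : h = 2 := le_antisymm (small_stab h2t hab hall (by omega) hmov) hh
  rcases Nat.lt_or_ge n (3 * k) with hsmall | hbig
  · exfalso
    -- parity and the exceptional order
    have hk3 : k = 3 := by omega
    have heven : 2 ∣ B₂.card := by
      haveI : Fact (Nat.Prime 2) := ⟨Nat.prime_two⟩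
      set σ : Equiv.Perm Ω := toPerm g₀ with hσdef
      have hH2 : H = {1, g₀} := (Finset.eq_of_subset_of_card_le (fun z hz => by
        simp only [Finset.mem_insert, Finset.mem_singleton] at hz
        rcases hz with rfl | rfl
        exacts [mem_st2.2 ⟨one_smul _ _, one_smul _ _⟩, hg₀])
        (by rw [Finset.card_pair (Ne.symm hg₁)]; omega)).symm
      have hσ2 : σ ^ 2 ^ 1 = 1 := by
        ext z
        have hgg : g₀ * g₀ ∈ H := by
          have := mem_st2.1 hg₀
          exact mem_st2.2 (by simp [mul_smul, this.1, this.2])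
        rw [hH2] at hgg
        simp only [Finset.mem_insert, Finset.mem_singleton] at hgg
        have hgg' : g₀ * g₀ = 1 := hgg.resolve_right fun e => hg₁ (mul_eq_left.1 e)
        simp [hσdef, pow_two, ← mul_smul, hgg']
      have hmod := Equiv.Perm.card_compl_support_modEq (p := 2) (n := 1) hσ2
      have e1 : σ.supportᶜ = line G a b := by
        ext z
        simp only [Finset.mem_compl, Equiv.Perm.mem_support, not_not, hσdef, toPerm_apply]
        rw [mem_line]
        refine ⟨fun hz g hg => ?_, fun hz => hz g₀ hg₀⟩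
        have hg' : g ∈ H := hg
        rw [hH2] at hg'
        simp only [Finset.mem_insert, Finset.mem_singleton] at hg'
        rcases hg' with rfl | rfl
        exacts [one_smul _ _, hz]
      rw [e1] at hmod
      have hmod' : k % 2 = n % 2 := hmod
      omega
    have hn7 : n = 7 := by omega
    exact not_order_eightyfour hn7 (by rw [hG, hn7, hh2])
  · refine crit_mean hh ?_
    rw [← hΦ, ← hhdef, ← hndef, hh2]
    rw [hh2] at hPhi
    omega

end CfsgLib.DerangeTwo
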