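import Cfsg.Agent.Lib.DicksonMaxSmall

/-! Involutions and four-groups of `PSL₂(q)`, `q` odd. -/

set_option autoImplicit false
set_option linter.style.haveILetI false

universe u

namespace CfsgLib.Dickson

open Matrix

theorem card_circle_three : Nat.card {x : ZMod 3 × ZMod 3 // x.1 * x.1 + x.2 * x.2 = 1} = 3 + 1 := by
  rw [Nat.card_eq_fintype_card]; decide +kernel

attribute [local instance] _root_.Classical.propDecidable

variable {F : Type u} [Field F]

/-- The centraliser of the standard element of order four. -/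
def centI (F : Type u) [Field F] : Subgroup (SL F) := Subgroup.centralizer ({stdI} : Set (SL F))

theorem mem_centI {g : SL F} : g ∈ centI F ↔ g.1 1 1 = g.1 0 0 ∧ g.1 0 1 = -g.1 1 0 := by
  rw [centI, Subgroup.mem_centralizer_singleton_iff]
  constructor
  · intro h
    have h' := congrArg Subtype.val h
    rw [Matrix.SpecialLinearGroup.coe_mul, Matrix.SpecialLinearGroup.coe_mul] at h'
    have e00 := congrFun (congrFun h' 0) 0
    have e10 := congrFun (congrFun h' 1) 0
    simp [stdI, Matrix.mul_apply, Fin.sum_univ_two] at e00 e10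
    exact ⟨e10, e00⟩
  · rintro ⟨h1, h2⟩
    apply Subtype.ext
    rw [Matrix.SpecialLinearGroup.coe_mul, Matrix.SpecialLinearGroup.coe_mul]
    ext i j
    fin_cases i <;> fin_cases j <;> simp [stdI, Matrix.mul_apply, Fin.sum_univ_two, h1, h2]

theorem stdI_not_isScal : ¬ IsScal (stdI : SL F) := fun h => by
  have := h.2.1
  simp [stdI] at this

theorem coe_stdI : (stdI : SL F).1 = !![0, -1; 1, 0] := rfl

theorem mkP_stdI_ne : mkP (stdI : SL F) ≠ 1 := fun h => stdI_not_isScal (mkP_eq_one.1 h)

theorem stdI_mul_self : (stdI : SL F) * stdI = -1 := by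
  apply Subtype.ext
  rw [Matrix.SpecialLinearGroup.coe_mul, Matrix.SpecialLinearGroup.coe_neg, Matrix.SpecialLinearGroup.coe_one]
  ext i j
  fin_cases i <;> fin_cases j <;> simp [stdI, Matrix.mul_apply, Fin.sum_univ_two]

theorem mkP_stdI_sq : mkP (stdI : SL F) * mkP stdI = 1 := by
  rw [← map_mul, stdI_mul_self, mkP_eq_one]; exact neg_one_isScal

variable [Fintype F]

theorem exists_norm (hodd : Odd (Fintype.card F)) (c : F) : ∃ a b : F, a * a + b * b = c := by
  obtain ⟨a, b, h⟩ := FiniteField.exists_root_sum_quadratic (R := F)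
    (f := Polynomial.X ^ 2 - Polynomial.C c) (g := Polynomial.X ^ 2)
    (Polynomial.degree_X_pow_sub_C two_pos c) (Polynomial.degree_X_pow 2) (Nat.odd_iff.1 hodd)
  simp at h
  exact ⟨a, b, by linear_combination h⟩

/-- Elements of trace zero are conjugate in `SL₂`. -/
theorem exists_conj_stdI (hodd : Odd (Fintype.card F)) {g : SL F} (hg : ¬ IsScal g) (ht : tr g = 0) :
    ∃ P : SL F, P * stdI * P⁻¹ = g := by
  obtain ⟨x, y, hxy⟩ : ∃ x y : F, x * (g.1 1 0 * x + g.1 1 1 * y) - y * (g.1 0 0 * x + g.1 0 1 * y) ≠ 0 := by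
    by_contra! hall
    have h1 := hall 1 0
    have h2 := hall 0 1
    have h3 := hall 1 1
    simp at h1 h2 h3
    rw [h1, h2] at h3
    exact hg ⟨h2, h1, by linear_combination -h3⟩
  set d := x * (g.1 1 0 * x + g.1 1 1 * y) - y * (g.1 0 0 * x + g.1 0 1 * y) with hd
  obtain ⟨a, b, hab⟩ := exists_norm hodd d⁻¹
  set A : Matrix (Fin 2) (Fin 2) F := !![x, g.1 0 0 * x + g.1 0 1 * y; y, g.1 1 0 * x + g.1 1 1 * y] with hA
  set B : Matrix (Fin 2) (Fin 2) F := !![a, -b; b, a] with hB
  have hdet : (A * B).det = 1 := by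
    rw [Matrix.det_mul, hA, hB, Matrix.det_fin_two_of, Matrix.det_fin_two_of,
      show a * a - -b * b = d⁻¹ by linear_combination hab,
      show x * (g.1 1 0 * x + g.1 1 1 * y) - (g.1 0 0 * x + g.1 0 1 * y) * y = d by rw [hd]; ring]
    exact mul_inv_cancel₀ hxy
  have hdg := det_eq g
  have t' : g.1 0 0 + g.1 1 1 = 0 := ht
  have e1 : g.1 * A = A * !![0, -1; 1, 0] := by
    ext i j
    fin_cases i <;> fin_cases j <;> simp [hA, Matrix.mul_apply, Fin.sum_univ_two]
    · linear_combination (g.1 0 0 * x + g.1 0 1 * y) * t' - x * hdg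
    · linear_combination (g.1 1 0 * x + g.1 1 1 * y) * t' - y * hdg
  have e2 : !![0, -1; 1, 0] * B = B * !![0, -1; 1, 0] := by
    ext i j
    fin_cases i <;> fin_cases j <;> simp [hB, Matrix.mul_apply, Fin.sum_univ_two]
  refine ⟨⟨A * B, hdet⟩, ?_⟩
  refine mul_inv_eq_iff_eq_mul.2 (Subtype.ext ?_)
  show A * B * !![0, -1; 1, 0] = g.1 * (A * B)
  rw [← mul_assoc, e1, mul_assoc, mul_assoc, e2]

theorem invol_lift {u : PSL F} (h : u * u = 1) (h1 : u ≠ 1) :
    ∃ g : SL F, mkP g = u ∧ ¬ IsScal g ∧ tr g = 0 := by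
  obtain ⟨g, rfl⟩ := mkP_surjective u
  have hg : ¬ IsScal g := fun e => h1 (mkP_eq_one.2 e)
  exact ⟨g, rfl, hg, tr_of_sq hg (mkP_eq_one.1 (by rw [map_mul, h]))⟩

/-- Involutions are conjugate. -/
theorem invol_conj (hodd : Odd (Fintype.card F)) {u : PSL F} (h : u * u = 1) (h1 : u ≠ 1) :
    ∃ x : PSL F, x * mkP stdI * x⁻¹ = u := by
  obtain ⟨g, rfl, hg, ht⟩ := invol_lift h h1
  obtain ⟨P, rfl⟩ := exists_conj_stdI hodd hg ht
  exact ⟨mkP P, by rw [map_mul, map_mul, map_inv]⟩

/-- The order of the centraliser of the standard element of order four. -/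
theorem card_centI (hodd : Odd (Fintype.card F)) :
    (Fintype.card F % 4 = 1 → Nat.card (centI F) = Fintype.card F - 1) ∧
    (Fintype.card F % 4 = 3 → Nat.card (centI F) = Fintype.card F + 1) := by
  have h2 := CfsgLib.Classical.two_ne_zero_of_odd hodd
  refine ⟨fun h4 => ?_, fun h4 => ?_⟩
  · obtain ⟨i, hi⟩ := (FiniteField.isSquare_neg_one_iff (F := F)).2 (by omega)
    rw [← Nat.card_eq_fintype_card, ← Nat.card_units F]
    refine Nat.card_congr
      { toFun := fun g => ⟨g.1.1 0 0 + g.1.1 1 0 * i, g.1.1 0 0 - g.1.1 1 0 * i, ?_, ?_⟩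
        invFun := fun w => ⟨⟨!![(w.1 + (w⁻¹).1) / 2, -((w.1 - (w⁻¹).1) / (2 * i)); (w.1 - (w⁻¹).1) / (2 * i), (w.1 + (w⁻¹).1) / 2], ?_⟩,
          mem_centI.2 ⟨by simp, by simp⟩⟩
        left_inv := fun g => ?_
        right_inv := fun w => ?_ }
    · obtain ⟨e1, e2⟩ := mem_centI.1 g.2
      have hd := det_eq g.1
      rw [e1, e2] at hd
      linear_combination hd + g.1.1 1 0 ^ 2 * hi
    · obtain ⟨e1, e2⟩ := mem_centI.1 g.2
      have hd := det_eq g.1
      rw [e1, e2] at hd
      linear_combination hd + g.1.1 1 0 ^ 2 * hi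
    · have hi0 : i ≠ 0 := fun e => by rw [e, mul_zero] at hi; exact neg_ne_zero.2 one_ne_zero hi
      rw [Matrix.det_fin_two_of, Units.val_inv_eq_inv_val]
      have := w.ne_zero
      field_simp
      linear_combination (-(w.1 ^ 2 - 1) ^ 2) * hi
    · obtain ⟨e1, e2⟩ := mem_centI.1 g.2
      have hi0 : i ≠ 0 := fun e => by rw [e, mul_zero] at hi; exact neg_ne_zero.2 one_ne_zero hi
      apply Subtype.ext
      refine sl_ext ?_ ?_ ?_ ?_ <;> simp [e1, e2] <;> field_simp <;> ring
    · have hi0 : i ≠ 0 := fun e => by rw [e, mul_zero] at hi; exact neg_ne_zero.2 one_ne_zero hi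
      apply Units.ext
      simp
      field_simp
      ring
  · rcases Nat.lt_or_ge (Fintype.card F) 4 with hq | hq
    · have h3 : Fintype.card F = 3 := by omega
      obtain ⟨n, hp, hn⟩ := FiniteField.card F (ringChar F)
      have hp3 : ringChar F = 3 := by
        rw [h3] at hn
        exact ((Nat.prime_dvd_prime_iff_eq hp Nat.prime_three).1 (hn ▸ dvd_pow_self _ n.ne_zero))
      haveI := Fact.mk Nat.prime_three
      haveI : CharP F 3 := hp3 ▸ ringChar.charP F
      rw [h3]
      have hbij : Function.Bijective (ZMod.castHom dvd_rfl F : ZMod 3 → F) :=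
        (Fintype.bijective_iff_injective_and_card _).2 ⟨RingHom.injective _, by rw [ZMod.card, h3]⟩
      let e := RingEquiv.ofBijective (ZMod.castHom dvd_rfl F) hbij
      rw [← card_circle_three]
      refine Nat.card_congr
        { toFun := fun g => ⟨(e.symm (g.1.1 0 0), e.symm (g.1.1 1 0)), ?_⟩
          invFun := fun x => ⟨⟨!![e x.1.1, -(e x.1.2); e x.1.2, e x.1.1], ?_⟩, mem_centI.2 ⟨by simp, by simp⟩⟩
          left_inv := fun g => ?_
          right_inv := fun x => by simp }
      · obtain ⟨e1, e2⟩ := mem_centI.1 g.2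
        have hd := det_eq g.1
        rw [e1, e2] at hd
        apply e.injective
        rw [map_add, map_mul, map_mul, map_one, e.apply_symm_apply, e.apply_symm_apply]
        linear_combination hd
      · have h := congrArg e x.2
        rw [map_add, map_mul, map_mul, map_one] at h
        rw [Matrix.det_fin_two_of]
        linear_combination h
      · obtain ⟨e1, e2⟩ := mem_centI.1 g.2
        apply Subtype.ext
        refine sl_ext ?_ ?_ ?_ ?_ <;> simp [e1, e2]
    · obtain ⟨p, hchar⟩ := CharP.exists F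
      obtain ⟨n, hp, hn⟩ := FiniteField.card F p
      haveI := Fact.mk hp
      have hord : ¬ p ∣ orderOf (stdI : SL F) := fun h => by
        have h4' : orderOf (stdI : SL F) ∣ 2 ^ 2 := orderOf_dvd_of_pow_eq_one (by
          rw [show (2 : ℕ) ^ 2 = 2 * 2 from rfl, pow_mul, pow_two (stdI : SL F), stdI_mul_self, pow_two]
          exact Subtype.ext (by simp))
        have hp2 := (Nat.prime_dvd_prime_iff_eq hp Nat.prime_two).1 (hp.dvd_of_dvd_pow (h.trans h4'))
        rw [hn, hp2] at hodd
        exact Nat.not_even_iff_odd.2 hodd (Nat.even_pow.2 ⟨even_two, n.ne_zero⟩)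
      refine (torus_data (p := p) rfl hq stdI_not_isScal hord).2.2.1 fun r hr => ?_
      have hsq : IsSquare (-1 : F) := ⟨r, by
        simp [stdI] at hr
        linear_combination -hr⟩
      have := FiniteField.isSquare_neg_one_iff.1 hsq
      omega

theorem card_comap_mkP (hodd : Odd (Fintype.card F)) (K : Subgroup (PSL F)) :
    Nat.card (K.comap mkP) = 2 * Nat.card K := by
  obtain ⟨p, hchar⟩ := CharP.exists F
  obtain ⟨n, hp, -⟩ := FiniteField.card F p
  haveI := Fact.mk hp
  have hd : Nat.gcd 2 (Fintype.card F - 1) = 2 := Nat.gcd_eq_left (by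
    obtain ⟨c, hc⟩ := hodd; omega)
  have hz := card_center (F := F) rfl (p := p)
  rw [hd] at hz
  have h := (Subgroup.center (SL F)).card_mul_index
  have h1 := Subgroup.index_comap_of_surjective K (f := (mkP : SL F →* PSL F)) mkP_surjective
  have h2 := K.card_mul_index
  have h3 := (K.comap mkP).card_mul_index
  rw [h1] at h3
  rw [← h, hz, Subgroup.index_eq_card] at h3
  change _ = 2 * Nat.card (PSL F) at h3
  rw [← h2, ← mul_assoc] at h3
  exact Nat.eq_of_mul_eq_mul_right (Nat.pos_of_ne_zero Subgroup.index_ne_zero_of_finite) h3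

/-- The centraliser of the standard involution. -/
def centU (F : Type u) [Field F] : Subgroup (PSL F) := Subgroup.centralizer ({mkP stdI} : Set (PSL F))

omit [Fintype F] in
theorem mem_comap_centU {g : SL F} :
    g ∈ (centU F).comap mkP ↔ g * stdI = stdI * g ∨ g * stdI = -(stdI * g) := by
  rw [Subgroup.mem_comap, centU, Subgroup.mem_centralizer_singleton_iff, ← map_mul, ← map_mul, mkP_eq_iff]

omit [Fintype F] in
theorem anti_entries {g : SL F} (h : g * stdI = -(stdI * g)) : g.1 1 1 = -g.1 0 0 ∧ g.1 0 1 = g.1 1 0 := by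
  have h' := congrArg Subtype.val h
  rw [Matrix.SpecialLinearGroup.coe_neg, Matrix.SpecialLinearGroup.coe_mul, Matrix.SpecialLinearGroup.coe_mul] at h'
  have e00 := congrFun (congrFun h' 0) 0
  have e10 := congrFun (congrFun h' 1) 0
  simp [stdI, Matrix.mul_apply, Matrix.vecMul, dotProduct, Fin.sum_univ_two] at e00 e10
  exact ⟨e10, e00⟩

omit [Fintype F] in
theorem anti_of_entries {g : SL F} (h1 : g.1 1 1 = -g.1 0 0) (h2 : g.1 0 1 = g.1 1 0) :
    g * stdI = -(stdI * g) := by
  apply Subtype.ext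
  rw [Matrix.SpecialLinearGroup.coe_neg, Matrix.SpecialLinearGroup.coe_mul, Matrix.SpecialLinearGroup.coe_mul]
  ext i j
  fin_cases i <;> fin_cases j <;> simp [stdI, Matrix.mul_apply, Matrix.vecMul, dotProduct, Fin.sum_univ_two, h1, h2]

omit [Fintype F] in
theorem mkP_mem_map_centI {g : SL F} (h : mkP g ∈ (centI F).map mkP) : g ∈ centI F := by
  rwa [← Subgroup.mem_comap, Subgroup.comap_map_eq_self] at h
  rw [QuotientGroup.ker_mk']
  exact fun z hz => Subgroup.mem_centralizer_singleton_iff.2 (Subgroup.mem_center_iff.1 hz stdI).symm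

omit [Fintype F] in
theorem map_centI_le : (centI F).map mkP ≤ centU F := by
  rintro _ ⟨g, hg, rfl⟩
  exact (Subgroup.mem_comap.1 (mem_comap_centU.2 (Or.inl (Subgroup.mem_centralizer_singleton_iff.1 hg))))

/-- The centraliser of an involution has the order of the torus. -/
theorem card_centU (hodd : Odd (Fintype.card F)) : Nat.card (centU F) = Nat.card (centI F) := by
  have h2 := CfsgLib.Classical.two_ne_zero_of_odd hodd
  obtain ⟨a, b, hab⟩ := exists_norm hodd (-1 : F)
  have hJ : stdJ a b hab * stdI = -(stdI * stdJ a b hab) := anti_of_entries (by simp [stdJ]) (by simp [stdJ])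
  have hJn : stdJ a b hab ∉ centI F := fun h => by
    obtain ⟨e1, e2⟩ := mem_centI.1 h
    simp [stdJ] at e1 e2
    have ha : a = 0 := mul_left_cancel₀ h2 (by linear_combination -e1)
    have hb : b = 0 := mul_left_cancel₀ h2 (by linear_combination e2)
    rw [ha, hb] at hab
    exact neg_ne_zero.2 (one_ne_zero (α := F)) (by linear_combination -hab)
  set S := (centU F).comap mkP with hS
  have hmem : ∀ g, g ∈ S ↔ g ∈ centI F ∨ (stdJ a b hab)⁻¹ * g ∈ centI F := by
    intro g
    constructor
    · intro hg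
      rcases mem_comap_centU.1 hg with h | h
      · exact Or.inl (Subgroup.mem_centralizer_singleton_iff.2 h)
      · right
        obtain ⟨g1, g2⟩ := anti_entries h
        rw [mem_centI, Matrix.SpecialLinearGroup.coe_mul, Matrix.SpecialLinearGroup.coe_inv, Matrix.adjugate_fin_two]
        constructor <;> simp [stdJ, Matrix.mul_apply, Fin.sum_univ_two, g1, g2] <;> ring
    · have hJS : stdJ a b hab ∈ S := mem_comap_centU.2 (Or.inr hJ)
      have hle : centI F ≤ S := fun g hg => mem_comap_centU.2 (Or.inl (Subgroup.mem_centralizer_singleton_iff.1 hg))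
      rintro (h | h)
      · exact hle h
      · have := S.mul_mem hJS (hle h)
        rwa [mul_inv_cancel_left] at this
  have hcard : Nat.card S = 2 * Nat.card (centI F) := by
    have h : ((centI F).subgroupOf S).index = 2 := by
      have hJS : stdJ a b hab ∈ S := mem_comap_centU.2 (Or.inr hJ)
      rw [Subgroup.index_eq_two_iff]
      refine ⟨⟨(stdJ a b hab)⁻¹, inv_mem hJS⟩, fun g => ?_⟩
      rw [Subgroup.mem_subgroupOf, Subgroup.mem_subgroupOf]
      show Xor' ((g : SL F) * (stdJ a b hab)⁻¹ ∈ centI F) ((g : SL F) ∈ centI F)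
      rcases (hmem _).1 g.2 with hg | hg
      · refine Or.inr ⟨hg, fun h => hJn ?_⟩
        have := (centI F).mul_mem ((centI F).inv_mem hg) h
        rw [inv_mul_cancel_left] at this
        exact inv_mem_iff.1 this
      · have hng : (g : SL F) ∉ centI F := fun h => hJn (by
          have := (centI F).mul_mem hg ((centI F).inv_mem h)
          rw [mul_inv_cancel_right] at this
          exact inv_mem_iff.1 this)
        refine Or.inl ⟨?_, hng⟩
        -- both are anticommuting
        rcases mem_comap_centU.1 g.2 with e | e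
        · exact absurd (Subgroup.mem_centralizer_singleton_iff.2 e) hng
        obtain ⟨g1, g2⟩ := anti_entries e
        rw [mem_centI, Matrix.SpecialLinearGroup.coe_mul, Matrix.SpecialLinearGroup.coe_inv, Matrix.adjugate_fin_two]
        constructor <;> simp [stdJ, Matrix.mul_apply, Fin.sum_univ_two, g1, g2] <;> ring
    have hle : centI F ≤ S := fun g hg => (hmem g).2 (Or.inl hg)
    have h' := ((centI F).subgroupOf S).card_mul_index
    rw [h, Nat.card_congr (Subgroup.subgroupOfEquivOfLe hle).toEquiv] at h'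
    omega
  have := card_comap_mkP hodd (centU F)
  rw [← hS, hcard] at this
  omega

theorem card_map_centI (hodd : Odd (Fintype.card F)) :
    2 * Nat.card ((centI F).map mkP) = Nat.card (centI F) := by
  rw [← card_comap_mkP hodd, Subgroup.comap_map_eq_self]
  rw [QuotientGroup.ker_mk']
  exact fun z hz => Subgroup.mem_centralizer_singleton_iff.2 (Subgroup.mem_center_iff.1 hz stdI).symm

/-- The elements forming a four-group with the standard involution. -/
theorem kpair_stdI_iff (hodd : Odd (Fintype.card F)) {v : PSL F} :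
    KPair (mkP stdI) v ↔ v ∈ centU F ∧ v ∉ (centI F).map mkP := by
  have h2 := CfsgLib.Classical.two_ne_zero_of_odd hodd
  have hU1 : mkP (stdI : SL F) ∈ (centI F).map mkP :=
    Subgroup.mem_map_of_mem _ (Subgroup.mem_centralizer_singleton_iff.2 rfl)
  constructor
  · rintro ⟨-, hv, -, hv1, hne, hc⟩
    refine ⟨Subgroup.mem_centralizer_singleton_iff.2 hc.symm, ?_⟩
    rintro ⟨g, hg, rfl⟩
    have hgs : ¬ IsScal g := fun e => hv1 (mkP_eq_one.2 e)
    obtain ⟨e1, e2⟩ := mem_centI.1 hg
    have ht : g.1 0 0 + g.1 1 1 = 0 := tr_of_sq hgs (mkP_eq_one.1 (by rw [map_mul, hv]))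
    rw [e1] at ht
    have h0 : g.1 0 0 = 0 := mul_left_cancel₀ h2 (by linear_combination ht)
    have hd := det_eq g
    rw [e1, e2, h0] at hd
    rcases mul_eq_zero.1 (show (g.1 1 0 - 1) * (g.1 1 0 + 1) = 0 by linear_combination hd) with e | e
    · exact hne (congrArg mkP (sl_ext (by simp [stdI, h0]) (by simp [stdI, e2, sub_eq_zero.1 e])
        (by simp [stdI, sub_eq_zero.1 e]) (by simp [stdI, e1, h0])))
    · exact hne (mkP_eq_iff.2 (Or.inr (sl_ext (by simp [stdI, h0]) (by simp [stdI, e2, eq_neg_of_add_eq_zero_left e])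
        (by simp [stdI, eq_neg_of_add_eq_zero_left e]) (by simp [stdI, e1, h0]))))
  · rintro ⟨hv, hnv⟩
    obtain ⟨g, rfl⟩ := mkP_surjective v
    rcases mem_comap_centU.1 (Subgroup.mem_comap.2 hv) with e | e
    · exact absurd (Subgroup.mem_map_of_mem _ (Subgroup.mem_centralizer_singleton_iff.2 e)) hnv
    obtain ⟨e1, e2⟩ := anti_entries e
    refine ⟨mkP_stdI_sq, ?_, mkP_stdI_ne, fun h => hnv (h ▸ one_mem _), fun h => hnv (h ▸ hU1),
      (Subgroup.mem_centralizer_singleton_iff.1 hv).symm⟩
    rw [← map_mul, mkP_eq_one]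
    have hd := det_eq g
    have : g * g = -1 := Subtype.ext (by
      rw [Matrix.SpecialLinearGroup.coe_mul, mul_self_eq, show tr g = 0 by simp [tr, e1], zero_smul, zero_sub,
        Matrix.SpecialLinearGroup.coe_neg, Matrix.SpecialLinearGroup.coe_one])
    rw [this]
    exact neg_one_isScal

/-- The number of four-group partners of the standard involution. -/
theorem card_partners (hodd : Odd (Fintype.card F)) :
    2 * Nat.card {v : PSL F // KPair (mkP stdI) v} = Nat.card (centU F) := by
  have h1 := card_map_centI (F := F) hodd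
  have h2 := card_centU (F := F) hodd
  have e : {v : PSL F // KPair (mkP stdI) v} ≃ {v : centU F // v ∉ ((centI F).map mkP).subgroupOf (centU F)} :=
    { toFun := fun v => ⟨⟨v.1, ((kpair_stdI_iff hodd).1 v.2).1⟩, ((kpair_stdI_iff hodd).1 v.2).2⟩
      invFun := fun v => ⟨v.1.1, (kpair_stdI_iff hodd).2 ⟨v.1.2, v.2⟩⟩
      left_inv := fun v => rfl
      right_inv := fun v => rfl }
  have h3 := Nat.card_congr (Subgroup.subgroupOfEquivOfLe (map_centI_le (F := F))).toEquiv
  rw [Nat.card_congr e, Nat.card_eq_fintype_card, Fintype.card_subtype_compl, ← Nat.card_eq_fintype_card,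
    ← Nat.card_eq_fintype_card (α := {v : centU F // v ∈ _})]
  omega

/-- The centraliser of a generating pair of a four-group. -/
theorem centralizer_kpair (hodd : Odd (Fintype.card F)) {v z : PSL F} (h : KPair (mkP stdI) v)
    (hz : z * mkP stdI = mkP stdI * z) (hz' : z * v = v * z) :
    z = 1 ∨ z = mkP stdI ∨ z = v ∨ z = mkP stdI * v := by
  have h2 := CfsgLib.Classical.two_ne_zero_of_odd hodd
  obtain ⟨hvU, hvA⟩ := (kpair_stdI_iff hodd).1 h
  have key : ∀ y : PSL F, y ∈ (centI F).map mkP → y * v = v * y → y = 1 ∨ y = mkP stdI := by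
    intro y hy hyv
    obtain ⟨g, hg, rfl⟩ := hy
    obtain ⟨k, rfl⟩ := mkP_surjective v
    rcases mem_comap_centU.1 (Subgroup.mem_comap.2 hvU) with e | e
    · exact absurd (Subgroup.mem_map_of_mem _ (Subgroup.mem_centralizer_singleton_iff.2 e)) hvA
    obtain ⟨k1, k2⟩ := anti_entries e
    obtain ⟨g1, g2⟩ := mem_centI.1 hg
    have hd := det_eq g
    rw [g1, g2] at hd
    have hk := det_eq k
    rw [k1, k2] at hk
    rw [← map_mul, ← map_mul, mkP_eq_iff] at hyv
    have hab : g.1 0 0 = 0 ∨ g.1 1 0 = 0 := by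
      rcases hyv with e | e <;> have e' := congrArg Subtype.val e <;>
        (try rw [Matrix.SpecialLinearGroup.coe_neg] at e') <;>
        rw [Matrix.SpecialLinearGroup.coe_mul, Matrix.SpecialLinearGroup.coe_mul] at e' <;>
        have e00 := congrFun (congrFun e' 0) 0 <;> have e01 := congrFun (congrFun e' 0) 1 <;>
        simp [Matrix.mul_apply, Fin.sum_univ_two, g1, g2, k1, k2] at e00 e01
      · have p1 : 2 * (g.1 1 0 * k.1 1 0) = 0 := by
          first
          | linear_combination e00
          | linear_combination -e00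
        have p2 : 2 * (g.1 1 0 * k.1 0 0) = 0 := by
          first
          | linear_combination e01
          | linear_combination -e01
        refine Or.inr (mul_left_cancel₀ h2 ?_)
        linear_combination -k.1 1 0 * p1 - k.1 0 0 * p2 - 2 * g.1 1 0 * hk
      · have p1 : 2 * (g.1 0 0 * k.1 0 0) = 0 := by
          first
          | linear_combination e00
          | linear_combination -e00
        have p2 : 2 * (g.1 0 0 * k.1 1 0) = 0 := by
          first
          | linear_combination e01
          | linear_combination -e01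
        refine Or.inl (mul_left_cancel₀ h2 ?_)
        linear_combination -k.1 0 0 * p1 - k.1 1 0 * p2 - 2 * g.1 0 0 * hk
    rcases hab with h0 | h0
    · right
      rcases mul_eq_zero.1 (show (g.1 1 0 - 1) * (g.1 1 0 + 1) = 0 by rw [h0] at hd; linear_combination hd) with e | e
      · exact congrArg mkP (sl_ext (by simp [stdI, h0]) (by simp [stdI, g2, sub_eq_zero.1 e])
          (by simp [stdI, sub_eq_zero.1 e]) (by simp [stdI, g1, h0]))
      · exact mkP_eq_iff.2 (Or.inr (sl_ext (by simp [coe_stdI, h0]) (by simp [coe_stdI, g2, eq_neg_of_add_eq_zero_left e])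
          (by simp [coe_stdI, eq_neg_of_add_eq_zero_left e]) (by simp [coe_stdI, g1, h0])))
    · exact Or.inl (mkP_eq_one.2 ⟨by rw [g2, h0, neg_zero], h0, g1.symm⟩)
  by_cases hzA : z ∈ (centI F).map mkP
  · rcases key z hzA hz' with e | e
    · exact Or.inl e
    · exact Or.inr (Or.inl e)
  · have hzv : z * v ∈ (centI F).map mkP := by
      by_contra hn
      have hzU : z ∈ centU F := Subgroup.mem_centralizer_singleton_iff.2 hz
      -- the complement is a single coset
      have hidx : (((centI F).map mkP).subgroupOf (centU F)).index = 2 := by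
        have hc := (((centI F).map mkP).subgroupOf (centU F)).card_mul_index
        rw [Nat.card_congr (Subgroup.subgroupOfEquivOfLe (map_centI_le (F := F))).toEquiv, card_centU hodd,
          ← card_map_centI hodd, mul_comm 2] at hc
        exact Nat.eq_of_mul_eq_mul_left Nat.card_pos hc
      exact hn ((Subgroup.mul_mem_iff_of_index_two hidx (a := ⟨z, hzU⟩) (b := ⟨v, hvU⟩)).2
        (iff_of_false hzA hvA))
    obtain ⟨-, hvv, -, -, -, huv⟩ := h
    have hzvv : z * v * v = v * (z * v) := by rw [← mul_assoc v z v, ← hz']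
    rcases key _ hzv hzvv with e | e
    · exact Or.inr (Or.inr (Or.inl (by rw [← mul_one z, ← hvv, ← mul_assoc, e, one_mul])))
    · exact Or.inr (Or.inr (Or.inr (by rw [← mul_one z, ← hvv, ← mul_assoc, e])))

/-- Ordered generating pairs of four-groups: twice as many as half the group. -/
theorem card_kpairs (hodd : Odd (Fintype.card F)) :
    2 * Nat.card {x : PSL F × PSL F // KPair x.1 x.2} = Nat.card (PSL F) := by
  choose c hc using fun u : {u : PSL F // u * u = 1 ∧ u ≠ 1} => invol_conj hodd u.2.1 u.2.2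
  have hk : ∀ x u v : PSL F, KPair u v → KPair (x * u * x⁻¹) (x * v * x⁻¹) := fun x u v h =>
    h.map (MulAut.conj x).toMonoidHom (MulAut.conj x).injective
  have e : {x : PSL F × PSL F // KPair x.1 x.2} × centU F ≃ PSL F × {v : PSL F // KPair (mkP stdI) v} :=
    { toFun := fun x => ⟨c ⟨x.1.1.1, x.1.2.1, x.1.2.2.2.1⟩ * x.2.1,
        ⟨(c ⟨x.1.1.1, x.1.2.1, x.1.2.2.2.1⟩ * x.2.1)⁻¹ * x.1.1.2 * (c ⟨x.1.1.1, x.1.2.1, x.1.2.2.2.1⟩ * x.2.1), by
          have hcu := hc ⟨x.1.1.1, x.1.2.1, x.1.2.2.2.1⟩
          generalize c ⟨x.1.1.1, x.1.2.1, x.1.2.2.2.1⟩ = y at hcu ⊢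
          have hcu' : x.1.1.1 = y * mkP stdI * y⁻¹ := hcu.symm
          have h := hk (y * x.2.1)⁻¹ _ _ x.1.2
          rw [inv_inv, hcu'] at h
          have h2 := Subgroup.mem_centralizer_singleton_iff.1 x.2.2
          rwa [show (y * x.2.1)⁻¹ * (y * mkP stdI * y⁻¹) * (y * x.2.1) = mkP stdI by
            rw [_root_.mul_inv_rev]; simp only [mul_assoc, inv_mul_cancel_left]
            rw [← h2, inv_mul_cancel_left]] at h⟩⟩
      invFun := fun y => ⟨⟨(y.1 * mkP stdI * y.1⁻¹, y.1 * y.2.1 * y.1⁻¹), hk _ _ _ y.2.2⟩,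
        ⟨(c ⟨y.1 * mkP stdI * y.1⁻¹, (hk _ _ _ y.2.2).1, (hk _ _ _ y.2.2).2.2.1⟩)⁻¹ * y.1, by
          have hcu := hc ⟨y.1 * mkP stdI * y.1⁻¹, (hk _ _ _ y.2.2).1, (hk _ _ _ y.2.2).2.2.1⟩
          generalize c ⟨y.1 * mkP stdI * y.1⁻¹, (hk _ _ _ y.2.2).1, (hk _ _ _ y.2.2).2.2.1⟩ = d at hcu ⊢
          simp only at hcu
          refine Subgroup.mem_centralizer_singleton_iff.2 ?_
          rw [eq_comm, eq_mul_inv_iff_mul_eq] at hcu
          rw [mul_assoc, show d⁻¹ * (y.1 * mkP stdI) = d⁻¹ * (y.1 * mkP stdI * y.1⁻¹ * d) * (d⁻¹ * y.1) by group, hcu]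
          group⟩⟩
      left_inv := fun x => by
        have hcu := hc ⟨x.1.1.1, x.1.2.1, x.1.2.2.2.1⟩
        have h2 := Subgroup.mem_centralizer_singleton_iff.1 x.2.2
        have he : c ⟨x.1.1.1, x.1.2.1, x.1.2.2.2.1⟩ * x.2.1 * mkP stdI *
            (c ⟨x.1.1.1, x.1.2.1, x.1.2.2.2.1⟩ * x.2.1)⁻¹ = x.1.1.1 := by
          conv_rhs => rw [← show _ = x.1.1.1 from hcu]
          rw [mul_assoc _ x.2.1 (mkP stdI), h2]; group
        refine Prod.ext (Subtype.ext (Prod.ext he ?_)) (Subtype.ext ?_)
        · simp [mul_assoc]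
        · simp only [he]; simp
      right_inv := fun y => by
        refine Prod.ext (by simp) (Subtype.ext ?_)
        simp [mul_assoc] }
  have h := Nat.card_congr e
  rw [Nat.card_prod, Nat.card_prod, ← card_partners hodd] at h
  have hpos : 0 < Nat.card {v : PSL F // KPair (mkP stdI) v} := by
    have := card_partners (F := F) hodd
    have := Nat.card_pos (α := centU F)
    omega
  refine Nat.eq_of_mul_eq_mul_right hpos ?_
  linarith

end CfsgLib.Dickson
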