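import Mathlib.GroupTheory.Nilpotent
import Cfsg.Agent.Lib.CoreFrobenius
import Cfsg.Agent.Lib.CoreThompsonFpf

/-!
A solvable subgroup central in every solvable overgroup is central.
-/

set_option autoImplicit false

namespace CfsgLib.CentralSolv

open Subgroup
open scoped Pointwise

universe u

theorem sup_solvable {G : Type*} [Group G] {N A : Subgroup G} [N.Normal] (hN : Group.IsSolvable N)
    (hA : Group.IsSolvable A) : Group.IsSolvable ↥(N ⊔ A) := by
  haveI := hN
  haveI := hA
  haveI : Group.IsSolvable ↥(A.map (QuotientGroup.mk' N)) :=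
    Group.isSolvable_of_surjective ((QuotientGroup.mk' N).subgroupMap_surjective A)
  let g : ↥(N ⊔ A) →* ↥(A.map (QuotientGroup.mk' N)) :=
    ((QuotientGroup.mk' N).comp (N ⊔ A).subtype).codRestrict _ fun x => by
      obtain ⟨n, hn, a, ha, he⟩ := Subgroup.mem_sup_of_normal_left.mp x.2
      refine ⟨a, ha, ?_⟩
      show (a : G ⧸ N) = ((x : G) : G ⧸ N)
      rw [← he, QuotientGroup.mk_mul, (QuotientGroup.eq_one_iff n).mpr hn, one_mul]
  exact Group.isSolvable_of_ker_le_range (Subgroup.inclusion (le_sup_left : N ≤ N ⊔ A)) g fun x hx =>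
    ⟨⟨x, (QuotientGroup.eq_one_iff _).mp (congrArg Subtype.val hx)⟩, rfl⟩

theorem aux : ∀ (n : ℕ) {G : Type u} [Group G] [Finite G], Nat.card G ≤ n → ∀ A : Subgroup G,
    Group.IsSolvable A →
    (∀ S : Subgroup G, A ≤ S → Group.IsSolvable S → ∀ a ∈ A, ∀ s ∈ S, a * s = s * a) →
    A ≤ center G := by
  intro n
  induction n with
  | zero => intro G _ _ h; exact absurd h (by simp [Nat.card_pos.ne'])
  | succ n ih =>
    intro G _ _ hn A hA hc
    by_contra hAZ
    set C := centralizer (A : Set G) with hCd
    have hCmem : ∀ x, x ∈ C ↔ ∀ a ∈ A, a * x = x * a := fun x => mem_centralizer_iff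
    have hAC : A ≤ C := fun x hx => (hCmem x).2 fun a ha => hc A le_rfl hA a ha x hx
    have hCtop : C ≠ ⊤ := fun h => hAZ fun a ha => mem_center_iff.2 fun x =>
      ((hCmem x).1 (h ▸ mem_top x) a ha).symm
    have hM : ∀ M : Subgroup G, A ≤ M → M ≠ ⊤ → M ≤ C := by
      intro M hAM hMtop
      have hlt := CfsgLib.Core.card_lt_of_ne_top hMtop
      haveI := hA
      have := ih (G := M) (by omega) (A.subgroupOf M)
        (Group.isSolvable_of_surjective (f := (subgroupOfEquivOfLe hAM).symm.toMonoidHom)
          (subgroupOfEquivOfLe hAM).symm.surjective)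
        fun S hS hSs a ha s hs => by
          haveI := hSs
          refine Subtype.ext (hc (S.map M.subtype) ?_
            (Group.isSolvable_of_surjective (M.subtype.subgroupMap_surjective S)) a.1 ha s.1 ⟨s, hs, rfl⟩)
          intro x hx
          exact ⟨⟨x, hAM hx⟩, hS hx, rfl⟩
      intro x hx
      exact (hCmem x).2 fun a ha =>
        (congrArg Subtype.val (mem_center_iff.1 (this (show (⟨a, hAM ha⟩ : M) ∈ A.subgroupOf M from ha)) ⟨x, hx⟩)).symm
    have hsol : ∀ N : Subgroup G, N.Normal → Group.IsSolvable N → N ≤ C := by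
      intro N hN hNs x hx
      haveI := hN
      exact (hCmem x).2 fun a ha =>
        hc (N ⊔ A) le_sup_right (sup_solvable hNs hA) a ha x (mem_sup_left hx)
    have hNC : normalizer (C : Set G) ≠ ⊤ := by
      intro htop
      haveI hCn : C.Normal := normalizer_eq_top_iff.mp htop
      haveI : (normalClosure (A : Set G)).Normal := normalClosure_normal
      set B := normalClosure (A : Set G)
      have hBC : B ≤ C := normalClosure_le_normal hAC
      have hAab : ∀ y ∈ B, ∀ c ∈ C, c * y = y * c := by
        have : B ≤ centralizer (C : Set G) := normalClosure_le_normal fun a ha =>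
          mem_centralizer_iff.2 fun c hc' => ((hCmem c).1 hc' a ha).symm
        exact fun y hy c hc' => mem_centralizer_iff.1 (this hy) c hc'
      have hBs : Group.IsSolvable B :=
        Group.isSolvable_of_comm fun a b => Subtype.ext (hAab b b.2 a (hBC a.2))
      refine hAZ fun a ha => mem_center_iff.2 fun x => ?_
      have hS : Group.IsSolvable ↥(B ⊔ zpowers x) :=
        sup_solvable hBs (Group.isSolvable_of_comm fun a b => by
          obtain ⟨_, i, rfl⟩ := a; obtain ⟨_, j, rfl⟩ := b
          exact Subtype.ext (zpow_mul_comm x i j))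
      exact (hc _ ((SetLike.coe_subset_coe.1 (subset_normalClosure (s := (A : Set G)))).trans le_sup_left) hS a ha x
        (mem_sup_right (mem_zpowers x))).symm
    have hTI : ∀ g, g ∉ C → ∀ x ∈ C, g * x * g⁻¹ ∈ C → g * x * g⁻¹ ∈ center G := by
      intro g hg x hx hgx
      by_cases hAg : ∀ a ∈ A, g * a * g⁻¹ ∈ C
      · exfalso
        have hle : MulAut.conj g • C ≤ C := by
          refine hM _ (fun a ha => CfsgLib.Core.mem_conj_smul.mpr ((hCmem _).2 fun b hb => ?_)) ?_
          · have e := (hCmem _).1 (hAg b hb) a ha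
            calc b * (g⁻¹ * a * g) = g⁻¹ * ((g * b * g⁻¹) * a) * g := by group
              _ = g⁻¹ * (a * (g * b * g⁻¹)) * g := by rw [e]
              _ = g⁻¹ * a * g * b := by group
          · intro h
            apply hCtop
            rw [eq_top_iff]
            intro y _
            have := CfsgLib.Core.mem_conj_smul.mp (h.ge (mem_top (g * y * g⁻¹)))
            simpa [mul_assoc] using this
        have hgN : g ∈ normalizer (C : Set G) := by
          refine mem_normalizer_fintype ?_
          intro y hy
          exact hle (CfsgLib.Core.mem_conj_smul.mpr (by simpa [mul_assoc] using hy))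
        exact hg (hM _ (hAC.trans le_normalizer) hNC hgN)
      · push Not at hAg
        obtain ⟨a₀, ha₀, hga₀⟩ := hAg
        have htop : A ⊔ A.map (MulAut.conj g).toMonoidHom = ⊤ := by
          by_contra h
          exact hga₀ (hM _ le_sup_left h (mem_sup_right ⟨a₀, ha₀, rfl⟩))
        refine mem_center_iff.2 fun y => ?_
        have hle : A ⊔ A.map (MulAut.conj g).toMonoidHom ≤ centralizer ({g * x * g⁻¹} : Set G) := by
          refine sup_le (fun a ha => mem_centralizer_singleton_iff.2 ((hCmem _).1 hgx a ha)) ?_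
          rintro _ ⟨a, ha, rfl⟩
          refine mem_centralizer_singleton_iff.2 ?_
          show g * a * g⁻¹ * (g * x * g⁻¹) = g * x * g⁻¹ * (g * a * g⁻¹)
          calc _ = g * (a * x) * g⁻¹ := by group
            _ = g * (x * a) * g⁻¹ := by rw [(hCmem _).1 hx a ha]
            _ = _ := by group
        exact mem_centralizer_singleton_iff.1 (hle (htop ▸ mem_top y))
    set Z := center G with hZd
    have hZC : Z ≤ C := fun z hz => (hCmem z).2 fun a _ => mem_center_iff.1 hz a
    set π := QuotientGroup.mk' Z with hπ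
    set H := C.map π with hH
    have hcom : H.comap π = C := by
      rw [hH, comap_map_eq, hπ, QuotientGroup.ker_mk', sup_eq_left.2 hZC]
    have hH0 : H ≠ ⊥ := by
      intro h
      refine hAZ fun a ha => ?_
      have := h.le ⟨a, hAC ha, rfl⟩
      exact (QuotientGroup.eq_one_iff a).mp (mem_bot.1 this)
    have hH1 : H ≠ ⊤ := fun h => hCtop (by rw [← hcom, h, comap_top])
    have hFC : Cfsg.IsFrobeniusComplement H := by
      refine CfsgLib.Core.isFrobeniusComplement_of_malnormal hH0 hH1 fun g hg x hx hgx => ?_
      obtain ⟨g, rfl⟩ := QuotientGroup.mk'_surjective Z g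
      obtain ⟨c, hcC, rfl⟩ := hx
      have hg' : g ∉ C := fun h => hg ⟨g, h, rfl⟩
      have hgc : g * c * g⁻¹ ∈ C := by
        rw [← hcom]; exact hgx
      have := hTI g hg' c hcC hgc
      refine (QuotientGroup.eq_one_iff c).mpr ?_
      have h2 := mem_center_iff.1 this g
      rwa [show c = g * c * g⁻¹ from by
        calc c = g⁻¹ * (g * c * g⁻¹ * g) := by group
          _ = g⁻¹ * (g * (g * c * g⁻¹)) := by rw [← h2]
          _ = g * c * g⁻¹ := by group]
    obtain ⟨K, hKn, -, hKH, hKsup, -⟩ := CfsgLib.Core.exists_kernel hFC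
    haveI := Fact.mk (Nat.minFac_prime (show Nat.card H ≠ 1 from fun e => hH0 (eq_bot_of_card_eq H e)))
    obtain ⟨h, hh⟩ := exists_prime_orderOf_dvd_card' (G := H) _ (Nat.minFac_dvd (Nat.card H))
    have hh1 : (h : G ⧸ Z) ≠ 1 := fun e => by
      have e' : h = 1 := Subtype.ext e
      rw [e', orderOf_one] at hh
      exact (Nat.minFac_prime (show Nat.card H ≠ 1 from fun e => hH0 (eq_bot_of_card_eq H e))).ne_one hh.symm
    have hnil : Group.IsNilpotent K := by
      refine CfsgLib.Core.isNilpotent_of_fpf_prime (Fact.out : (Nat.card H).minFac.Prime) _ K le_rfl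
        (MulAut.conjNormal (h : G ⧸ Z)) ?_ fun k hk => ?_
      · rw [← map_pow, ← SubgroupClass.coe_pow, ← hh, pow_orderOf_eq_one]
        simp
      · refine Subtype.ext (CfsgLib.Core.eq_one_of_commute_kernel hFC hKH h.2 hh1 k.2 ?_)
        have := congrArg Subtype.val hk
        rw [MulAut.conjNormal_apply] at this
        exact mul_inv_eq_iff_eq_mul.mp this
    haveI := hnil
    haveI : Group.IsSolvable K := inferInstance
    have hKs : Group.IsSolvable (K.comap π) := by
      haveI : Group.IsSolvable Z := Group.isSolvable_of_comm fun a b =>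
        Subtype.ext (mem_center_iff.1 b.2 a)
      have hZK : Z ≤ K.comap π := fun z hz => by
        show π z ∈ K
        rw [show π z = 1 from (QuotientGroup.eq_one_iff z).mpr hz]; exact K.one_mem
      refine Group.isSolvable_of_ker_le_range (Subgroup.inclusion hZK) (π.subgroupComap K) fun x hx =>
        ⟨⟨x, (QuotientGroup.eq_one_iff _).mp (congrArg Subtype.val hx)⟩, rfl⟩
    have hKC := hsol _ (hKn.comap π) hKs
    apply hH1
    have hK0 : K ≤ H := by
      intro k hk
      obtain ⟨y, rfl⟩ := QuotientGroup.mk'_surjective Z k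
      exact ⟨y, hKC hk, rfl⟩
    rw [← hKsup]; exact (sup_eq_right.2 hK0).symm

end CfsgLib.CentralSolv
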