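import Mathlib.GroupTheory.Transfer
import Mathlib.GroupTheory.Sylow
import Mathlib.GroupTheory.Complement
import Cfsg.Prelude

/-!
Counting the elements centralized by a Sylow subgroup: if no class size is divisible by `pq`, some Sylow subgroup is central in its normalizer.
-/

set_option autoImplicit false

namespace CfsgLib.ClassGraph

open Subgroup

universe u
variable {G : Type u} [Group G] [Finite G]

/-- The elements centralized by a conjugate of `P`. -/
def cover (P : Subgroup G) : Set G := {x | ∃ g, g⁻¹ * x * g ∈ centralizer (P : Set G)}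

theorem mem_cover_of_not_dvd {p : ℕ} [Fact p.Prime] (P : Sylow p G) {x : G}
    (hx : ¬ p ∣ (centralizer ({x} : Set G)).index) : x ∈ cover (P : Subgroup G) := by
  classical
  set C := centralizer ({x} : Set G) with hC
  let R : Sylow p C := Classical.arbitrary _
  have hmap : IsPGroup p ((R : Subgroup C).map C.subtype) := R.2.map _
  obtain ⟨S, hS⟩ := hmap.exists_le_sylow
  have hcard : Nat.card ((R : Subgroup C).map C.subtype) = Nat.card S := by
    rw [card_map_of_injective C.subtype_injective, R.card_eq_multiplicity, S.card_eq_multiplicity,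
      ← C.index_mul_card, Nat.factorization_mul index_ne_zero_of_finite Nat.card_pos.ne',
      Finsupp.add_apply, Nat.factorization_eq_zero_of_not_dvd hx, zero_add]
  have hSC : (S : Subgroup G) ≤ C := by
    have := eq_of_le_of_card_ge hS hcard.ge
    rw [← this]; exact map_subtype_le _
  obtain ⟨g, hg⟩ := MulAction.exists_smul_eq G P S
  refine ⟨g, mem_centralizer_iff.2 fun y hy => ?_⟩
  have : g * y * g⁻¹ ∈ C := hSC (by
    rw [← hg, Sylow.coe_subgroup_smul]
    exact ⟨y, hy, rfl⟩)
  have e := mem_centralizer_singleton_iff.1 this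
  calc y * (g⁻¹ * x * g) = g⁻¹ * ((g * y * g⁻¹) * x) * g := by group
    _ = g⁻¹ * (x * (g * y * g⁻¹)) * g := by rw [e]
    _ = g⁻¹ * x * g * y := by group

theorem cover_card (P : Subgroup G) :
    (cover P \ {1}).ncard + (normalizer (P : Set G)).index ≤
      (normalizer (P : Set G)).index * Nat.card (centralizer (P : Set G)) := by
  classical
  set N := normalizer (P : Set G)
  set C := centralizer (P : Set G)
  let f : (G ⧸ N) × {c : C // c ≠ 1} → G := fun t => t.1.out * (t.2.1 : G) * t.1.out⁻¹
  have hsub : cover P \ {1} ⊆ Set.range f := by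
    rintro x ⟨⟨g, hg⟩, hx1⟩
    set n := ((g : G ⧸ N).out)⁻¹ * g with hn
    have hnN : n ∈ N := by
      rw [hn, ← QuotientGroup.eq]
      exact QuotientGroup.out_eq' _
    have hc : n * (g⁻¹ * x * g) * n⁻¹ ∈ C := mem_centralizer_iff.2 fun y hy => by
      have h1 : n⁻¹ * y * n ∈ P := by
        have := (mem_normalizer_iff.1 (inv_mem hnN) y).1 hy
        rwa [inv_inv] at this
      have e := mem_centralizer_iff.1 hg _ h1
      calc y * (n * (g⁻¹ * x * g) * n⁻¹) = n * ((n⁻¹ * y * n) * (g⁻¹ * x * g)) * n⁻¹ := by group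
        _ = n * ((g⁻¹ * x * g) * (n⁻¹ * y * n)) * n⁻¹ := by rw [e]
        _ = n * (g⁻¹ * x * g) * n⁻¹ * y := by group
    refine ⟨((g : G ⧸ N), ⟨⟨_, hc⟩, fun h => hx1 ?_⟩), ?_⟩
    · have := congrArg Subtype.val h
      simp only [OneMemClass.coe_one] at this
      calc x = g * (n⁻¹ * (n * (g⁻¹ * x * g) * n⁻¹) * n) * g⁻¹ := by group
        _ = 1 := by rw [this]; group
    · show (g : G ⧸ N).out * (n * (g⁻¹ * x * g) * n⁻¹) * ((g : G ⧸ N).out)⁻¹ = x
      rw [hn]; group
  have h1 : (cover P \ {1}).ncard ≤ Nat.card ((G ⧸ N) × {c : C // c ≠ 1}) :=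
    (Set.ncard_le_ncard hsub (Set.toFinite _)).trans (by
      rw [← Set.image_univ]
      exact (Set.ncard_image_le (Set.toFinite _)).trans (by rw [Set.ncard_univ]))
  have h2 : Nat.card {c : C // c ≠ 1} + 1 = Nat.card C := by
    have := Set.ncard_add_ncard_compl ({1} : Set C)
    rw [Set.ncard_singleton] at this
    rw [← this, add_comm]
    rfl
  rw [Nat.card_prod] at h1
  rw [← h2, mul_add, mul_one]
  exact Nat.add_le_add_right h1 _

/-- If every element is centralized by a conjugate of `P` or of `Q`, one of them is central in its normalizer. -/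
theorem self_central_or (P Q : Subgroup G) (h : ∀ x : G, x ∈ cover P ∨ x ∈ cover Q) :
    normalizer (P : Set G) ≤ centralizer (P : Set G) ∨ normalizer (Q : Set G) ≤ centralizer (Q : Set G) := by
  classical
  by_contra hn
  push Not at hn
  have key : ∀ R : Subgroup G, ¬ normalizer (R : Set G) ≤ centralizer (R : Set G) →
      2 * ((cover R \ {1}).ncard + 1) ≤ Nat.card G := by
    intro R hR
    set N := normalizer (R : Set G)
    set C := centralizer (R : Set G)
    have hCN : C ≤ N := centralizer_le_normalizer _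
    have h2 : 2 * Nat.card C ≤ Nat.card N := by
      obtain ⟨t, ht⟩ := card_dvd_of_le hCN
      rw [ht, mul_comm 2]
      refine Nat.mul_le_mul_left _ ?_
      rcases t with _ | _ | t
      · exact absurd ht (by simp [Nat.card_pos.ne'])
      · exact absurd (eq_of_le_of_card_ge hCN (by rw [ht]; simp)).ge hR
      · omega
    have h3 : (cover R \ {1}).ncard + N.index ≤ N.index * Nat.card C := cover_card R
    have hi : 1 ≤ N.index := Nat.one_le_iff_ne_zero.2 index_ne_zero_of_finite
    calc 2 * ((cover R \ {1}).ncard + 1) ≤ 2 * (N.index * Nat.card C) := by omega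
      _ = N.index * (2 * Nat.card C) := by ring
      _ ≤ N.index * Nat.card N := Nat.mul_le_mul_left _ h2
      _ = Nat.card G := N.index_mul_card
  have hu : (Set.univ : Set G) ⊆ insert 1 ((cover P \ {1}) ∪ (cover Q \ {1})) := by
    intro x _
    by_cases hx : x = 1
    · exact Or.inl hx
    · exact Or.inr ((h x).imp (fun hh => ⟨hh, hx⟩) fun hh => ⟨hh, hx⟩)
  have h4 := Set.ncard_le_ncard hu (Set.toFinite _)
  rw [Set.ncard_univ] at h4
  have h5 := Set.ncard_insert_le (1 : G) ((cover P \ {1}) ∪ (cover Q \ {1}))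
  have h6 := Set.ncard_union_le (cover P \ {1}) (cover Q \ {1})
  have := key P hn.1
  have := key Q hn.2
  omega

theorem main (p q : ℕ) (hp : p.Prime) (hq : q.Prime) (hpq : p ≠ q)
    (h : ∀ x : G, ¬ p * q ∣ (centralizer ({x} : Set G)).index) :
    Cfsg.HasNormalPComplement p G ∨ Cfsg.HasNormalPComplement q G := by
  haveI := Fact.mk hp
  haveI := Fact.mk hq
  let P : Sylow p G := Classical.arbitrary _
  let Q : Sylow q G := Classical.arbitrary _
  rcases self_central_or (P : Subgroup G) Q fun x => by
      by_cases hx : p ∣ (centralizer ({x} : Set G)).index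
      · exact Or.inr (mem_cover_of_not_dvd Q fun hxq =>
          h x (Nat.Coprime.mul_dvd_of_dvd_of_dvd ((Nat.coprime_primes hp hq).2 hpq) hx hxq))
      · exact Or.inl (mem_cover_of_not_dvd P hx) with e | e
  · exact Or.inl ⟨P, _, (MonoidHom.transferSylow P e).normal_ker,
      MonoidHom.ker_transferSylow_isComplement' P e⟩
  · exact Or.inr ⟨Q, _, (MonoidHom.transferSylow Q e).normal_ker,
      MonoidHom.ker_transferSylow_isComplement' Q e⟩

end CfsgLib.ClassGraph
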