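import Cfsg.Agent.Lib.CoreLayer
import Cfsg.Agent.Lib.CoreSubnormal
import Cfsg.Agent.Lib.TransferApps
import Cfsg.Agent.Lib.LocalComponent
import Cfsg.Agent.Lib.FgsTIHall
import Mathlib.RingTheory.ZMod.UnitsCyclic
import Mathlib.NumberTheory.Basic
import Mathlib.GroupTheory.Transfer

/-!
Groups with a cyclic Sylow `p`-subgroup and trivial `p'`-core.
-/

set_option autoImplicit false

namespace CfsgLib.CyclicFStar

open Subgroup
open scoped Pointwise commutatorElement

variable {K : Type*} [Group K] [Finite K] {p : ℕ} [hp : Fact p.Prime]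

/-- Every `p`-subgroup is cyclic. -/
theorem isCyclic_pSubgroup (P : Sylow p K) (hP : IsCyclic (P : Subgroup K)) (R : Subgroup K)
    (hR : IsPGroup p R) : IsCyclic R := by
  obtain ⟨S, hS⟩ := hR.exists_le_sylow
  haveI : IsCyclic (S : Subgroup K) := isCyclic_of_surjective (P.equiv S) (P.equiv S).surjective
  exact isCyclic_of_injective (Subgroup.inclusion hS) (Subgroup.inclusion_injective hS)

/-- Commuting elements of order `p` generate the same subgroup. -/
theorem zpowers_eq_of_commute (P : Sylow p K) (hP : IsCyclic (P : Subgroup K)) {x y : K}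
    (hx : orderOf x = p) (hy : orderOf y = p) (hc : Commute x y) :
    zpowers x = zpowers y := by
  have h1 : IsPGroup p (zpowers x) := IsPGroup.of_card (n := 1) (by rw [Nat.card_zpowers, hx, pow_one])
  have h2 : IsPGroup p (zpowers y) := IsPGroup.of_card (n := 1) (by rw [Nat.card_zpowers, hy, pow_one])
  have h3 : zpowers x ≤ Subgroup.normalizer ((zpowers y : Subgroup K) : Set K) := by
    refine zpowers_le.2 (Subgroup.centralizer_le_normalizer _ ?_)
    rw [Subgroup.mem_centralizer_iff]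
    rintro _ ⟨i, rfl⟩
    exact (hc.symm.zpow_left i).eq
  haveI := isCyclic_pSubgroup P hP _ (IsPGroup.to_sup_of_normal_right' h1 h2 h3)
  set B := zpowers x ⊔ zpowers y
  have e : (zpowers x).subgroupOf B = (zpowers y).subgroupOf B :=
    CfsgLib.TIHall.cyclic_eq_of_card (by
      rw [Nat.card_congr (Subgroup.subgroupOfEquivOfLe (le_sup_left : zpowers x ≤ B)).toEquiv,
        Nat.card_congr (Subgroup.subgroupOfEquivOfLe (le_sup_right : zpowers y ≤ B)).toEquiv,
        Nat.card_zpowers, Nat.card_zpowers, hx, hy])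
  rw [← Subgroup.map_subgroupOf_eq_of_le (le_sup_left : zpowers x ≤ B), e,
    Subgroup.map_subgroupOf_eq_of_le (le_sup_right : zpowers y ≤ B)]

/-- A component contains an element of order `p` and no central one. -/
theorem component_facts (hO : Cfsg.pPrimeCore p K = ⊥) (P : Sylow p K)
    (hP : IsCyclic (P : Subgroup K)) {C : Subgroup K} (hC : Cfsg.IsComponent C) :
    (∃ y ∈ C, orderOf y = p) ∧ ∀ y ∈ C, orderOf y = p → ¬ ∀ c ∈ C, y * c = c * y := by
  constructor
  · have hd : p ∣ Nat.card C := by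
      by_contra hd
      obtain ⟨N, hN, hCN, hNc⟩ := CfsgLib.Core.exists_normal_isPiNat_of_isSubnormal hC.1
        (π := {p}ᶜ) ((CfsgLib.Core.isPiNat_compl_singleton_iff hp.out).mpr
          ((hp.out.coprime_iff_not_dvd.mpr hd).symm))
      refine CfsgLib.Core.component_ne_bot hC (le_bot_iff.1 (hCN.trans (hO ▸ ?_)))
      exact CfsgLib.Core.le_pPrimeCore hN
        ((CfsgLib.Core.isPiNat_compl_singleton_iff hp.out).mp hNc)
    obtain ⟨y, hy⟩ := exists_prime_orderOf_dvd_card' (G := C) p hd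
    exact ⟨y, y.2, by rwa [Subgroup.orderOf_coe]⟩
  · intro y hyC hy hcen
    have hcyc : ∀ R : Sylow p (C ⧸ Subgroup.center C), IsCyclic R := by
      intro R
      obtain ⟨S, hS⟩ := Sylow.mapSurjective_surjective
        (f := QuotientGroup.mk' (Subgroup.center C)) (QuotientGroup.mk'_surjective _) p R
      subst hS
      haveI : IsCyclic ((S : Subgroup C).map C.subtype) :=
        isCyclic_pSubgroup P hP _ (S.2.map _)
      haveI : IsCyclic (S : Subgroup C) :=
        isCyclic_of_surjective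
          ((S : Subgroup C).equivMapOfInjective _ C.subtype_injective).symm
          (MulEquiv.surjective _)
      exact isCyclic_of_surjective
        ((QuotientGroup.mk' (Subgroup.center C)).subgroupMap (S : Subgroup C))
        (MonoidHom.subgroupMap_surjective _ _)
    have h := CfsgLib.Transfer.no_schur_of_cyclic_sylow hcyc
      (QuotientGroup.mk' (Subgroup.center C)) (QuotientGroup.ker_mk' _).le hC.2.1.1
    rw [QuotientGroup.ker_mk'] at h
    apply h
    have hz : (⟨y, hyC⟩ : C) ∈ Subgroup.center C :=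
      Subgroup.mem_center_iff.2 fun c => Subtype.ext (hcen c c.2).symm
    have h2 := Subgroup.orderOf_dvd_natCard (Subgroup.center C) hz
    rwa [Subgroup.orderOf_mk y hyC, hy] at h2

theorem normal_sylow_case (hO : Cfsg.pPrimeCore p K = ⊥) (P : Sylow p K)
    (hP : IsCyclic (P : Subgroup K)) (hQ : Cfsg.pCore p K ≠ ⊥) :
    (P : Subgroup K).Normal ∧ Subgroup.centralizer ((P : Subgroup K) : Set K) = (P : Subgroup K) := by
  haveI hQn : (Cfsg.pCore p K).Normal := CfsgLib.Core.normal_pCore p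
  have hQp : IsPGroup p (Cfsg.pCore p K) := CfsgLib.Core.isPGroup_pCore p
  obtain ⟨k, hk⟩ := IsPGroup.iff_card.mp hQp
  have hk0 : k ≠ 0 := fun h => hQ (Subgroup.card_eq_one.1 (by rw [hk, h, pow_zero]))
  obtain ⟨z, hz⟩ := exists_prime_orderOf_dvd_card' (G := Cfsg.pCore p K) p
    (hk ▸ dvd_pow_self p hk0)
  rw [← Subgroup.orderOf_coe] at hz
  have hnc : ∀ C : Subgroup K, ¬ Cfsg.IsComponent C := by
    intro C hC
    obtain ⟨⟨y, hyC, hy⟩, hncen⟩ := component_facts hO P hP hC
    haveI := hQp.isNilpotent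
    have hcomm : ∀ c ∈ C, ∀ q ∈ Cfsg.pCore p K, q * c = c * q := fun c hc q hq =>
      Subgroup.mem_centralizer_iff.1
        (CfsgLib.Local.Comp.component_centralizes_nilpotent hC hQn.isSubnormal hc) q hq
    have he := zpowers_eq_of_commute P hP hy hz (hcomm y hyC z z.2).symm
    have hyQ : y ∈ Cfsg.pCore p K :=
      Subgroup.zpowers_le.2 z.2 (he ▸ Subgroup.mem_zpowers y)
    exact hncen y hyC hy fun c hc => hcomm c hc y hyQ
  have hL : Cfsg.layer K = ⊥ := sSup_eq_bot.2 fun C hC => absurd hC (hnc C)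
  have hF : Cfsg.generalizedFittingSubgroup K = Cfsg.pCore p K := by
    rw [Cfsg.generalizedFittingSubgroup, hL, bot_sup_eq,
      CfsgLib.Core.fittingSubgroup_eq_pCore_of_pPrimeCore_eq_bot hO]
  have hc := CfsgLib.Core.centralizer_generalizedFitting_le (G := K)
  rw [hF] at hc
  have hQP : Cfsg.pCore p K ≤ (P : Subgroup K) := hQp.le_sylow_of_normal P
  letI := hP.commGroup
  have hPc : (P : Subgroup K) ≤ Subgroup.centralizer ((P : Subgroup K) : Set K) := fun a ha =>
    Subgroup.mem_centralizer_iff.2 fun b hb =>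
      congrArg Subtype.val (mul_comm (⟨b, hb⟩ : (P : Subgroup K)) ⟨a, ha⟩)
  have hPQ : Cfsg.pCore p K = (P : Subgroup K) :=
    le_antisymm hQP ((hPc.trans (Subgroup.centralizer_le (show ((Cfsg.pCore p K : Subgroup K) : Set K) ⊆ _ from hQP))).trans hc)
  rw [hPQ] at hc
  exact ⟨hPQ ▸ hQn, le_antisymm hc hPc⟩

theorem normal_sylow_quotient (P : Sylow p K) (hP : IsCyclic (P : Subgroup K))
    (hn : (P : Subgroup K).Normal)
    (hc : Subgroup.centralizer ((P : Subgroup K) : Set K) = (P : Subgroup K)) :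
    IsCyclic (K ⧸ (P : Subgroup K)) ∧ (P : Subgroup K).index ∣ p - 1 := by
  haveI := hn
  haveI := hP
  let φ : K →* MulAut (P : Subgroup K) := MulAut.conjNormal
  have hker : φ.ker = (P : Subgroup K) := by
    refine le_antisymm (fun k hk => hc.le (Subgroup.mem_centralizer_iff.2 fun a ha => ?_)) ?_
    · have h1 : φ k ⟨a, ha⟩ = ⟨a, ha⟩ := by rw [MonoidHom.mem_ker.1 hk]; rfl
      have h2 : k * a * k⁻¹ = a := by simpa [φ] using congrArg Subtype.val h1
      exact (mul_inv_eq_iff_eq_mul.1 h2).symm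
    · intro k hk
      refine MonoidHom.mem_ker.2 (MulEquiv.ext fun a => Subtype.ext ?_)
      have h2 := Subgroup.mem_centralizer_iff.1 (hc.ge hk) a a.2
      simp [φ, ← h2, mul_assoc]
  obtain ⟨n, hn'⟩ := IsPGroup.iff_card.mp P.2
  have hA : Nat.card (MulAut (P : Subgroup K)) = (p ^ n).totient := by
    haveI : NeZero (p ^ n) := ⟨pow_ne_zero _ hp.out.ne_zero⟩
    rw [Nat.card_congr (IsCyclic.mulAutMulEquiv (P : Subgroup K)).toEquiv, hn',
      Nat.card_eq_fintype_card, ZMod.card_units_eq_totient]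
  have hidx : (P : Subgroup K).index ∣ (p ^ n).totient := by
    rw [← hA]
    conv_lhs => rw [← hker, Subgroup.index_ker]
    exact Subgroup.card_subgroup_dvd_card _
  have hcop : (P : Subgroup K).index.Coprime p :=
    (hp.out.coprime_iff_not_dvd.2 P.not_dvd_index).symm
  have hdvd : (P : Subgroup K).index ∣ p - 1 := by
    rcases Nat.eq_zero_or_pos n with hn0 | hn0
    · subst hn0
      rw [pow_zero, Nat.totient_one, Nat.dvd_one] at hidx
      rw [hidx]
      exact one_dvd _
    · rw [Nat.totient_prime_pow hp.out hn0] at hidx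
      exact (hcop.pow_right _).dvd_of_dvd_mul_left hidx
  refine ⟨?_, hdvd⟩
  by_cases h2 : p = 2
  · subst h2
    haveI : Subsingleton (K ⧸ (P : Subgroup K)) :=
      Finite.card_le_one_iff_subsingleton.mp (by
        have := Nat.le_of_dvd (by norm_num) hdvd
        rw [← Subgroup.index_eq_card]; exact this)
    infer_instance
  · haveI : IsCyclic (ZMod (Nat.card (P : Subgroup K)))ˣ := by
      rw [hn']
      exact ZMod.isCyclic_units_of_prime_pow p hp.out h2 n
    haveI : IsCyclic (MulAut (P : Subgroup K)) :=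
      isCyclic_of_surjective (IsCyclic.mulAutMulEquiv (P : Subgroup K)).symm (MulEquiv.surjective _)
    exact isCyclic_of_surjective
      ((QuotientGroup.quotientKerEquivRange φ).symm.trans
        (QuotientGroup.quotientMulEquivOfEq hker))
      (MulEquiv.surjective _)

theorem simple_case (hp' : p ∣ Nat.card K) (hO : Cfsg.pPrimeCore p K = ⊥) (P : Sylow p K)
    (hP : IsCyclic (P : Subgroup K)) (hQ : Cfsg.pCore p K = ⊥) :
    IsSimpleGroup (Cfsg.generalizedFittingSubgroup K) ∧
      ¬ IsMulCommutative (Cfsg.generalizedFittingSubgroup K) ∧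
      ¬ p ∣ (Cfsg.generalizedFittingSubgroup K).index := by
  haveI : Nontrivial K := by
    refine Finite.one_lt_card_iff_nontrivial.mp ?_
    exact lt_of_lt_of_le hp.out.one_lt (Nat.le_of_dvd Nat.card_pos hp')
  have hfit : Cfsg.fittingSubgroup K = ⊥ := by
    rw [CfsgLib.Core.fittingSubgroup_eq_pCore_of_pPrimeCore_eq_bot hO, hQ]
  have hne := CfsgLib.Core.generalizedFitting_ne_bot (G := K)
  have hF : Cfsg.generalizedFittingSubgroup K = Cfsg.layer K := by
    rw [Cfsg.generalizedFittingSubgroup, hfit, sup_bot_eq]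
  rw [hF] at hne
  obtain ⟨C, hC⟩ : ∃ C : Subgroup K, Cfsg.IsComponent C := by
    by_contra h
    push Not at h
    exact hne (sSup_eq_bot.2 fun C hC => absurd hC (h C))
  obtain ⟨⟨y, hyC, hy⟩, hncen⟩ := component_facts hO P hP hC
  have huniq : ∀ D, Cfsg.IsComponent D → D = C := by
    intro D hD
    by_contra hne'
    obtain ⟨⟨z, hzD, hz⟩, -⟩ := component_facts hO P hP hD
    have hcomm : ∀ c ∈ C, ∀ d ∈ D, d * c = c * d := fun c hc d hd =>
      Subgroup.mem_centralizer_iff.1 (Subgroup.commutator_eq_bot_iff_le_centralizer.mp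
        (CfsgLib.Core.components_commute hC hD (Ne.symm hne')) hc) d hd
    have he := zpowers_eq_of_commute P hP hy hz (hcomm y hyC z hzD).symm
    have hyD : y ∈ D := Subgroup.zpowers_le.2 hzD (he ▸ Subgroup.mem_zpowers y)
    exact hncen y hyC hy fun c hc => hcomm c hc y hyD
  have hLC : Cfsg.layer K = C :=
    le_antisymm (sSup_le fun D hD => (huniq D hD).le) (CfsgLib.Core.component_le_layer hC)
  haveI hCn : C.Normal := hLC ▸ CfsgLib.Core.normal_layer
  have hZn : ((Subgroup.center C).map C.subtype).Normal := by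
    constructor
    rintro _ ⟨z, hz, rfl⟩ g
    refine ⟨⟨g * z * g⁻¹, hCn.conj_mem _ z.2 g⟩, Subgroup.mem_center_iff.2 fun c => ?_, rfl⟩
    have hc' : g⁻¹ * (c : K) * g ∈ C := by simpa using hCn.conj_mem _ c.2 g⁻¹
    have h1 : g⁻¹ * (c : K) * g * z = z * (g⁻¹ * (c : K) * g) := by
      simpa using congrArg Subtype.val (Subgroup.mem_center_iff.1 hz ⟨_, hc'⟩)
    apply Subtype.ext
    show (c : K) * (g * z * g⁻¹) = g * z * g⁻¹ * c
    calc (c : K) * (g * z * g⁻¹) = g * (g⁻¹ * c * g * z) * g⁻¹ := by group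
      _ = g * (z * (g⁻¹ * c * g)) * g⁻¹ := by rw [h1]
      _ = g * z * g⁻¹ * c := by group
  have hZ : Subgroup.center C = ⊥ := by
    rw [← Subgroup.map_eq_bot_iff_of_injective _ C.subtype_injective, eq_bot_iff, ← hO]
    refine CfsgLib.Core.le_pPrimeCore hZn ?_
    rw [Subgroup.card_map_of_injective C.subtype_injective]
    refine (hp.out.coprime_iff_not_dvd.2 fun hd => ?_).symm
    obtain ⟨z, hz⟩ := exists_prime_orderOf_dvd_card' (G := Subgroup.center C) p hd
    refine hncen ((z : C) : K) (z : C).2 (by rw [Subgroup.orderOf_coe, Subgroup.orderOf_coe, hz])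
      fun c hc => ?_
    exact congrArg Subtype.val (Subgroup.mem_center_iff.1 z.2 ⟨c, hc⟩).symm
  have hnab : ¬ IsMulCommutative C := by
    intro h
    apply CfsgLib.Core.quasisimple_center_ne_top hC.2
    rw [eq_top_iff]
    exact fun c _ => Subgroup.mem_center_iff.2 fun d => h.1.1 d c
  have hsimple : IsSimpleGroup C := by
    haveI := hC.2.2
    exact MulEquiv.isSimpleGroup ((QuotientGroup.quotientBot (G := C)).symm.trans
      (QuotientGroup.quotientMulEquivOfEq hZ.symm))
  rw [hF, hLC]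
  refine ⟨hsimple, hnab, fun hidx => ?_⟩
  have hPC : ¬ (P : Subgroup K) ≤ C := fun h =>
    P.not_dvd_index (hidx.trans (Subgroup.index_dvd_of_le h))
  set L := C ⊔ (P : Subgroup K) with hL
  let PL : Sylow p L := P.subtype le_sup_right
  have hPLc : (PL : Subgroup L) = (P : Subgroup K).subgroupOf L := Sylow.coe_subtype _ _
  haveI : IsCyclic (PL : Subgroup L) := by
    rw [hPLc]
    exact isCyclic_of_surjective
      (Subgroup.subgroupOfEquivOfLe (le_sup_right : (P : Subgroup K) ≤ L)).symm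
      (MulEquiv.surjective _)
  have hnorm : ¬ Subgroup.normalizer ((PL : Subgroup L) : Set L) ≤
      Subgroup.centralizer ((PL : Subgroup L) : Set L) := by
    intro h
    let τ := MonoidHom.transferSylow PL h
    have hker : (⁅C.subgroupOf L, C.subgroupOf L⁆ : Subgroup L) ≤ τ.ker := by
      refine Subgroup.commutator_le.2 fun a _ b _ => ?_
      letI := (inferInstance : IsCyclic (PL : Subgroup L)).commGroup
      rw [MonoidHom.mem_ker, map_commutatorElement]
      exact commutatorElement_eq_one_iff_mul_comm.2 (mul_comm _ _)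
    have hperf : C.subgroupOf L ≤ (⁅C.subgroupOf L, C.subgroupOf L⁆ : Subgroup L) := by
      intro c hc
      have : (c : K) ∈ (⁅C.subgroupOf L, C.subgroupOf L⁆ : Subgroup L).map L.subtype := by
        rw [Subgroup.map_commutator, Subgroup.map_subgroupOf_eq_of_le le_sup_left,
          CfsgLib.Core.isPerfect_of_component hC]
        exact hc
      obtain ⟨c', h1, h2⟩ := this
      rwa [← Subtype.ext h2]
    refine (MonoidHom.not_dvd_card_ker_transferSylow PL h) (dvd_trans ?_
      (Subgroup.card_dvd_of_le (hperf.trans hker)))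
    rw [Nat.card_congr (Subgroup.subgroupOfEquivOfLe (le_sup_left : C ≤ L)).toEquiv, ← hy,
      ← Subgroup.orderOf_mk y hyC]
    exact orderOf_dvd_natCard _
  obtain ⟨k, hkN, hkC⟩ := SetLike.not_le_iff_exists.mp hnorm
  apply hkC
  obtain ⟨⟨a, haP⟩, ha⟩ := hP.exists_generator
  have hgen : ∀ b ∈ (P : Subgroup K), b ∈ zpowers a := fun b hb => by
    obtain ⟨i, hi⟩ := ha ⟨b, hb⟩
    exact ⟨i, by simpa using congrArg Subtype.val hi⟩
  have hkN' : ∀ b : K, b ∈ (P : Subgroup K) ↔ (k : K) * b * (k : K)⁻¹ ∈ (P : Subgroup K) := by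
    intro b
    by_cases hb : b ∈ L
    · have h1 := Subgroup.mem_normalizer_iff.1 hkN ⟨b, hb⟩
      rw [hPLc] at h1
      simpa [Subgroup.mem_subgroupOf] using h1
    · refine iff_of_false (fun h => hb (le_sup_right (a := C) h)) fun h => hb ?_
      have := L.mul_mem (L.mul_mem (L.inv_mem k.2) (le_sup_right (a := C) h)) k.2
      simpa [mul_assoc] using this
  obtain ⟨r, hr⟩ := hgen _ ((hkN' a).1 haP)
  simp only at hr
  have hcom : (k : K) * a * (k : K)⁻¹ * a⁻¹ ∈ C := by
    obtain ⟨c, hc, b, hb, hcb⟩ := Subgroup.mem_sup_of_normal_left.1 k.2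
    letI := hP.commGroup
    have hba : b * a = a * b := congrArg Subtype.val (mul_comm (⟨b, hb⟩ : (P : Subgroup K)) ⟨a, haP⟩)
    have : (k : K) * a * (k : K)⁻¹ * a⁻¹ = c * (a * c⁻¹ * a⁻¹) := by
      rw [← hcb]
      calc c * b * a * (c * b)⁻¹ * a⁻¹ = c * (b * a) * b⁻¹ * c⁻¹ * a⁻¹ := by group
        _ = c * (a * b) * b⁻¹ * c⁻¹ * a⁻¹ := by rw [hba]
        _ = c * (a * c⁻¹ * a⁻¹) := by group
    rw [this]
    exact C.mul_mem hc (hCn.conj_mem _ (C.inv_mem hc) a)
  rw [← hr] at hcom
  have hr1 : (p : ℤ) ∣ r - 1 := by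
    by_contra hd
    apply hPC
    obtain ⟨n, hn⟩ := IsPGroup.iff_card.mp P.2
    have hord : orderOf a ∣ p ^ n := by
      rw [← hn, ← Subgroup.orderOf_mk a haP]
      exact orderOf_dvd_natCard _
    obtain ⟨u, v, huv⟩ : IsCoprime (r - 1) ((p : ℤ) ^ n) :=
      ((Int.prime_iff_natAbs_prime.2 (by simpa using hp.out) : Prime (p : ℤ)).coprime_iff_not_dvd.2 hd).symm.pow_right
    have haC : a ∈ C := by
      have h1 : a ^ ((p : ℤ) ^ n) = 1 := by
        rw [← Nat.cast_pow, zpow_natCast]
        exact orderOf_dvd_iff_pow_eq_one.1 hord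
      have h2 : a ^ (r - 1) ∈ C := by rwa [zpow_sub_one]
      have h3 : a = (a ^ (r - 1)) ^ u * (a ^ ((p : ℤ) ^ n)) ^ v := by
        rw [← zpow_mul, ← zpow_mul, ← zpow_add, mul_comm (r - 1), mul_comm ((p : ℤ) ^ n), huv,
          zpow_one]
      rw [h3, h1, one_zpow, mul_one]
      exact C.zpow_mem h2 u
    exact fun b hb => Subgroup.zpowers_le.2 haC (hgen b hb)
  have hiter : ∀ i : ℕ, (k : K) ^ i * a * ((k : K) ^ i)⁻¹ = a ^ (r ^ i) := by
    intro i
    induction i with
    | zero => simp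
    | succ i ih =>
      calc (k : K) ^ (i + 1) * a * ((k : K) ^ (i + 1))⁻¹
          = (k : K) * ((k : K) ^ i * a * ((k : K) ^ i)⁻¹) * (k : K)⁻¹ := by
            rw [pow_succ']; group
        _ = MulAut.conj (k : K) (a ^ (r ^ i)) := by rw [ih, MulAut.conj_apply]
        _ = (MulAut.conj (k : K) a) ^ (r ^ i) := map_zpow _ _ _
        _ = a ^ (r ^ (i + 1)) := by
            rw [MulAut.conj_apply, ← hr, ← zpow_mul, pow_succ']
  obtain ⟨n, hn⟩ := IsPGroup.iff_card.mp P.2
  have h1 : Commute ((k : K) ^ (p ^ n)) a := by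
    have hd : ((p : ℤ) ^ n) ∣ r ^ (p ^ n) - 1 := by
      have := dvd_sub_pow_of_dvd_sub (R := ℤ) (a := r) (b := 1) hr1 n
      rw [one_pow] at this
      exact (pow_dvd_pow _ (Nat.le_succ n)).trans this
    obtain ⟨t, ht⟩ := hd
    have := hiter (p ^ n)
    rw [show r ^ (p ^ n) = (p : ℤ) ^ n * t + 1 by rw [← ht]; ring, zpow_add_one, zpow_mul,
      ← Nat.cast_pow, zpow_natCast,
      (orderOf_dvd_iff_pow_eq_one (x := a)).1 (by
        rw [← hn, ← Subgroup.orderOf_mk a haP]; exact orderOf_dvd_natCard _),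
      one_zpow, one_mul] at this
    exact mul_inv_eq_iff_eq_mul.1 this
  obtain ⟨s, b, hb, hord⟩ :=
    Nat.exists_eq_pow_mul_and_not_dvd (orderOf_pos (k : K)).ne' p hp.out.ne_one
  have h2 : Commute ((k : K) ^ b) a := by
    have hkb : (k : K) ^ b ∈ (P : Subgroup K) := by
      have hk' : IsPGroup p (zpowers ((k : K) ^ b)) :=
        IsPGroup.of_card (n := s) (by
          rw [Nat.card_zpowers, orderOf_pow, hord, Nat.gcd_mul_left_left,
            Nat.mul_div_cancel _ (Nat.pos_of_ne_zero fun h => hb (by rw [h]; exact dvd_zero p))])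
      have hle : zpowers ((k : K) ^ b) ≤ Subgroup.normalizer ((P : Subgroup K) : Set K) :=
        zpowers_le.2 (pow_mem (Subgroup.mem_normalizer_iff.2 hkN') b)
      have := P.3 (IsPGroup.to_sup_of_normal_right' hk' P.2 hle) le_sup_right
      exact this ▸ (le_sup_left : zpowers ((k : K) ^ b) ≤ _) (Subgroup.mem_zpowers _)
    letI := hP.commGroup
    exact congrArg Subtype.val (mul_comm (⟨_, hkb⟩ : (P : Subgroup K)) ⟨a, haP⟩)
  have hka : Commute (k : K) a := by
    have hg : Nat.gcd (p ^ n) b = 1 := ((hp.out.coprime_iff_not_dvd.2 hb).pow_left n)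
    have e : (k : K) = ((k : K) ^ (p ^ n)) ^ Nat.gcdA (p ^ n) b *
        ((k : K) ^ b) ^ Nat.gcdB (p ^ n) b := by
      rw [← zpow_natCast (k : K) (p ^ n), ← zpow_natCast (k : K) b, ← zpow_mul, ← zpow_mul,
        ← zpow_add, ← Nat.gcd_eq_gcd_ab, hg, Nat.cast_one, zpow_one]
    rw [e]
    exact (h1.zpow_left _).mul_left (h2.zpow_left _)
  rw [Subgroup.mem_centralizer_iff]
  intro x hx
  rw [hPLc] at hx
  obtain ⟨i, hi⟩ := hgen _ (show (x : K) ∈ (P : Subgroup K) from hx)
  apply Subtype.ext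
  show (x : K) * k = k * x
  rw [← hi]
  exact (hka.zpow_right i).eq.symm

end CfsgLib.CyclicFStar
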