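import Mathlib
import Cfsg.Agent.Lib.CoreTransfer
import Cfsg.Agent.Lib.CorePSolvable

/-!
# Normal subgroups meeting a cyclic Sylow subgroup properly
-/

set_option autoImplicit false

namespace CfsgLib.Fgs.CyclicSylow

open Subgroup
open scoped Pointwise commutatorElement

variable {G : Type*} [Group G] [Finite G] {p : ℕ} [hp : Fact p.Prime]

theorem commute_of_congr_one (P : Sylow p G) {u n : G} (hu : zpowers u = (P : Subgroup G)) {k : ℤ}
    (hn : n ∈ normalizer ((P : Subgroup G) : Set G)) (hk : n * u * n⁻¹ = u ^ k)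
    (hk1 : (p : ℤ) ∣ k - 1) : n * u = u * n := by
  obtain ⟨m, hm⟩ := P.isPGroup'.exists_card_eq
  have hpow : ∀ j : ℕ, n ^ j * u * (n ^ j)⁻¹ = u ^ (k ^ j) := by
    intro j
    induction j with
    | zero => simp
    | succ j ih =>
      calc n ^ (j + 1) * u * (n ^ (j + 1))⁻¹ = n ^ j * (n * u * n⁻¹) * (n ^ j)⁻¹ := by
            rw [pow_succ]; group
        _ = (n ^ j * u * (n ^ j)⁻¹) ^ k := by rw [hk, conj_zpow]
        _ = u ^ (k ^ (j + 1)) := by rw [ih, ← zpow_mul, pow_succ]
  set C := centralizer ({u} : Set G) with hC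
  have hmem : ∀ g : G, g ∈ C ↔ g * u = u * g := fun g => by
    rw [hC, mem_centralizer_singleton_iff]
  have huord : (orderOf u : ℤ) = (p : ℤ) ^ m := by
    rw [← Nat.card_zpowers, hu]; exact_mod_cast hm
  have h1 : n ^ (p ^ m) ∈ C := by
    rw [hmem, ← mul_inv_eq_iff_eq_mul, hpow]
    have hd := dvd_sub_pow_of_dvd_sub (b := (1 : ℤ)) hk1 m
    rw [one_pow] at hd
    nth_rw 2 [← zpow_one u]
    rw [zpow_eq_zpow_iff_modEq, huord]
    exact ((Int.modEq_iff_dvd.mpr ((pow_dvd_pow _ (Nat.le_succ m)).trans hd))).symm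
  obtain ⟨a, r, hr, hord⟩ := Nat.exists_eq_pow_mul_and_not_dvd (orderOf_pos n).ne' p hp.out.ne_one
  have h2 : n ^ r ∈ C := by
    have hpg : IsPGroup p (zpowers (n ^ r)) := by
      refine IsPGroup.of_card (n := a) ?_
      rw [Nat.card_zpowers, orderOf_pow_of_dvd (fun e => hr (by rw [e]; exact dvd_zero p)) (hord ▸ dvd_mul_left _ _), hord,
        Nat.mul_div_cancel _ (Nat.pos_of_ne_zero fun e => hr (by rw [e]; exact dvd_zero p))]
    have hmemP : n ^ r ∈ (P : Subgroup G) := by
      exact ((hpg.inf_normalizer_sylow P).le ⟨mem_zpowers _, pow_mem hn r⟩).2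
    rw [← hu] at hmemP
    obtain ⟨i, hi⟩ := hmemP
    rw [hmem, ← hi]
    exact (Commute.refl u).zpow_left i |>.eq
  have hcop : Int.gcd ((p : ℤ) ^ m) (r : ℤ) = 1 := by
    rw [← Nat.cast_pow, Int.gcd_natCast_natCast]
    exact ((hp.out.coprime_iff_not_dvd).mpr hr).pow_left m
  obtain ⟨x, y, hxy⟩ := Int.isCoprime_iff_gcd_eq_one.mpr hcop
  have hn' : n ∈ C := by
    have := mul_mem (C.zpow_mem h1 x) (C.zpow_mem h2 y)
    rwa [← zpow_natCast, ← zpow_natCast, ← zpow_mul, ← zpow_mul, ← zpow_add, Nat.cast_pow,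
      mul_comm _ x, mul_comm _ y, hxy, zpow_one] at this
  exact (hmem n).mp hn'

theorem mem_centralizer_of_normalizes (P : Sylow p G) {u n : G}
    (hu : zpowers u = (P : Subgroup G)) (hn : n ∈ normalizer ((P : Subgroup G) : Set G))
    (h : (∃ Q : Subgroup G, u ∉ Q ∧ ⁅n, u⁆ ∈ Q) ∨ ∃ q ∈ (P : Subgroup G), q ≠ 1 ∧ n * q = q * n) :
    n ∈ centralizer ((P : Subgroup G) : Set G) := by
  obtain ⟨m, hm⟩ := P.isPGroup'.exists_card_eq
  have huord : (orderOf u : ℤ) = (p : ℤ) ^ m := by
    rw [← Nat.card_zpowers, hu]; exact_mod_cast hm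
  obtain ⟨k, hk⟩ : ∃ k : ℤ, u ^ k = n * u * n⁻¹ := by
    have : n * u * n⁻¹ ∈ (P : Subgroup G) := (mem_normalizer_iff.mp hn u).mp (hu ▸ mem_zpowers u)
    rw [← hu] at this
    exact this
  have hk1 : (p : ℤ) ∣ k - 1 := by
    by_contra hnd
    have hcop : IsCoprime (k - 1) ((p : ℤ) ^ m) :=
      ((Nat.prime_iff_prime_int.mp hp.out).coprime_iff_not_dvd.mpr hnd).symm.pow_right
    rcases h with ⟨Q, huQ, hcQ⟩ | ⟨q, hq, hq1, hnq⟩
    · apply huQ
      obtain ⟨x, y, hxy⟩ := hcop
      have he : ⁅n, u⁆ = u ^ (k - 1) := by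
        rw [commutatorElement_def, ← hk, zpow_sub, zpow_one]
      have : u = (u ^ (k - 1)) ^ x * (u ^ ((p : ℤ) ^ m)) ^ y := by
        rw [← zpow_mul, ← zpow_mul, ← zpow_add, mul_comm (k - 1) x, mul_comm _ y, hxy, zpow_one]
      rw [this, ← huord, zpow_natCast, pow_orderOf_eq_one, one_zpow, mul_one, ← he]
      exact Q.zpow_mem hcQ x
    · apply hq1
      rw [← hu] at hq
      obtain ⟨e, he⟩ := hq
      have he' : u ^ e = q := he
      have h1 : n * q * n⁻¹ = q := by rw [hnq, mul_inv_cancel_right]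
      rw [← he', ← conj_zpow, ← hk, ← zpow_mul, zpow_eq_zpow_iff_modEq, huord, Int.modEq_iff_dvd] at h1
      have h2 : (p : ℤ) ^ m ∣ e * (k - 1) := by
        have := dvd_neg.mpr h1
        rw [neg_sub] at this
        exact this.trans (dvd_of_eq (by ring))
      rw [← he']
      exact orderOf_dvd_iff_zpow_eq_one.mp (huord ▸ hcop.symm.dvd_of_dvd_mul_right h2)
  have hc := commute_of_congr_one P hu hn hk.symm hk1
  rw [mem_centralizer_iff]
  intro y hy
  rw [SetLike.mem_coe, ← hu] at hy
  obtain ⟨i, rfl⟩ := hy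
  exact (Commute.zpow_right (show Commute n u from hc) i).eq.symm

theorem mem_of_coprime {X : Type*} [Group X] [Finite X] (N : Subgroup X) [N.Normal]
    {j : ℕ} (hj : N.index = p ^ j) {x : X} (hx : (orderOf x).Coprime p) : x ∈ N := by
  rw [← QuotientGroup.eq_one_iff, ← orderOf_eq_one_iff]
  refine Nat.eq_one_of_dvd_coprimes (hx.pow_right j) (orderOf_map_dvd (QuotientGroup.mk' N) x) ?_
  rw [← hj]
  exact orderOf_dvd_natCard _

theorem conj_mem_map {C : Subgroup G} (M : Subgroup C) [M.Normal] {j : ℕ}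
    (hj : M.index = p ^ j) (hM : (Nat.card M).Coprime p) {g : G}
    (hg : ∀ c ∈ C, g * c * g⁻¹ ∈ C) {x : G} (hx : x ∈ M.map C.subtype) :
    g * x * g⁻¹ ∈ M.map C.subtype := by
  obtain ⟨m, hm, rfl⟩ := hx
  refine ⟨⟨g * (m : G) * g⁻¹, hg _ m.2⟩, ?_, rfl⟩
  refine mem_of_coprime M hj ?_
  have h : orderOf (g * (m : G) * g⁻¹) = orderOf m :=
    (MulEquiv.orderOf_eq (MulAut.conj g) (m : G)).trans (Subgroup.orderOf_coe m)
  rw [← Subgroup.orderOf_coe, h]
  refine hM.coprime_dvd_left ?_
  have := orderOf_dvd_natCard (⟨m, hm⟩ : M)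
  rwa [← Subgroup.orderOf_coe] at this

theorem normalPComplement_and_pSolvable (P : Sylow p G) (hP : IsCyclic (P : Subgroup G))
    (H : Subgroup G) [hH : H.Normal] (h1 : p ∣ Nat.card H) (h2 : p ∣ H.index) :
    Cfsg.HasNormalPComplement p H ∧ Cfsg.IsPSolvable p G := by
  classical
  obtain ⟨u₀, hu₀⟩ := hP.exists_generator
  set u : G := (u₀ : G) with hudef
  have hu : zpowers u = (P : Subgroup G) := by
    refine le_antisymm (zpowers_le.mpr u₀.2) fun y hy => ?_
    obtain ⟨i, hi⟩ := hu₀ ⟨y, hy⟩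
    exact ⟨i, congrArg Subtype.val hi⟩
  have huH : u ∉ H := fun h => P.not_dvd_index (h2.trans (index_dvd_of_le (hu ▸ zpowers_le.mpr h)))
  set Q : Subgroup G := (P : Subgroup G) ⊓ H with hQ
  have hconjH : ∀ g x : G, x ∈ H → g * x * g⁻¹ ∈ H := fun g x hx => hH.conj_mem x hx g
  -- `Q` is a Sylow subgroup of `H`
  obtain ⟨R⟩ := (inferInstance : Nonempty (Sylow p H))
  obtain ⟨P', hP'⟩ := (R.isPGroup'.map H.subtype).exists_le_sylow
  obtain ⟨g, rfl⟩ := MulAction.exists_smul_eq G P P'
  have hRQ : ((R : Subgroup H).map H.subtype).map (MulAut.conj g⁻¹).toMonoidHom ≤ Q := by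
    rintro _ ⟨y, hy, rfl⟩
    obtain ⟨r, -, rfl⟩ := id hy
    refine ⟨?_, hconjH g⁻¹ r r.2⟩
    have h : (r : G) ∈ MulAut.conj g • (P : Subgroup G) := hP' hy
    rw [mem_pointwise_smul_iff_inv_smul_mem] at h
    simp [mul_assoc] at h ⊢
    exact h
  have hQp : IsPGroup p (Q.subgroupOf H) :=
    (P.isPGroup'.to_le inf_le_left).of_equiv (subgroupOfEquivOfLe inf_le_right).symm
  have hcardQ : Nat.card (Q.subgroupOf H) = p ^ (Nat.card H).factorization p := by
    refine le_antisymm ?_ ?_
    · obtain ⟨j, hj⟩ := hQp.exists_card_eq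
      rw [hj]
      refine Nat.pow_le_pow_right hp.out.pos ?_
      rw [← hp.out.pow_dvd_iff_le_factorization Nat.card_pos.ne', ← hj]
      exact card_subgroup_dvd_card _
    · rw [← R.card_eq_multiplicity, Nat.card_congr (subgroupOfEquivOfLe (inf_le_right : Q ≤ H)).toEquiv,
        ← card_map_of_injective (K := (R : Subgroup H)) H.subtype_injective,
        ← card_map_of_injective (K := (R : Subgroup H).map H.subtype) (f := (MulAut.conj g⁻¹).toMonoidHom) (MulAut.conj g⁻¹).injective]
      exact card_le_of_le hRQ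
  let T : Sylow p H := Sylow.ofCard (Q.subgroupOf H) hcardQ
  have hTQ : (T : Subgroup H).map H.subtype = Q := map_subgroupOf_eq_of_le inf_le_right
  have hQ0 : ∃ q ∈ Q, q ≠ 1 := by
    by_contra hcon
    push Not at hcon
    have hbot : Q.subgroupOf H = ⊥ := by
      rw [eq_bot_iff]; intro y hy; exact Subtype.ext (hcon _ hy)
    rw [hbot, card_bot] at hcardQ
    have := (hp.out.dvd_iff_one_le_factorization Nat.card_pos.ne').mp h1
    exact (Nat.one_lt_pow (by omega) hp.out.one_lt).ne hcardQ
  obtain ⟨q₀, hq₀, hq₀1⟩ := hQ0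
  -- the centralizer of `Q`
  set C := centralizer (Q : Set G) with hC
  have hPC : (P : Subgroup G) ≤ C := by
    intro y hy
    rw [hC, mem_centralizer_iff]
    intro z hz
    have hy' := hy
    have hz' : z ∈ (P : Subgroup G) := (inf_le_left : Q ≤ _) hz
    rw [← hu] at hy' hz'
    obtain ⟨i, rfl⟩ := hy'
    obtain ⟨j, rfl⟩ := hz'
    exact (Commute.refl u).zpow_zpow j i
  have hCn : ∀ x ∈ normalizer (Q : Set G), ∀ c ∈ C, x * c * x⁻¹ ∈ C := by
    intro x hx c hc
    rw [hC, mem_centralizer_iff]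
    intro z hz
    have hz' : x⁻¹ * z * x ∈ Q := by
      have := (mem_normalizer_iff.mp (inv_mem hx) z).mp hz
      rwa [inv_inv] at this
    have h := mem_centralizer_iff.mp hc _ hz'
    calc z * (x * c * x⁻¹) = x * ((x⁻¹ * z * x) * c) * x⁻¹ := by group
      _ = x * c * x⁻¹ * z := by rw [h]; group
  have hNH : ∀ x ∈ H, x ∈ normalizer (Q : Set G) → x ∈ C := by
    intro x hxH hxN
    -- conjugate back inside `C`
    have hle : (P : Subgroup G).map (MulAut.conj x).toMonoidHom ≤ C := by
      rintro _ ⟨y, hy, rfl⟩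
      exact hCn x hxN y (hPC hy)
    have hle' : ((x • P : Sylow p G) : Subgroup G) ≤ C := by
      intro y hy
      change y ∈ MulAut.conj x • (P : Subgroup G) at hy
      exact hle hy
    obtain ⟨c, hc⟩ := MulAction.exists_smul_eq C ((x • P).subtype hle') (P.subtype hPC)
    rw [Sylow.smul_subtype] at hc
    have hcP : (c : G) • x • P = P := Sylow.subtype_injective hc
    rw [← mul_smul] at hcP
    have hn : (c : G) * x ∈ normalizer ((P : Subgroup G) : Set G) := Sylow.smul_eq_iff_mem_normalizer.mp hcP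
    -- pass to `PH`
    set W := ((P : Subgroup G) ⊔ H) ⊓ C with hW
    have hPW : (P : Subgroup G) ≤ W := le_inf le_sup_left hPC
    have hcW : ((((c : G) • P : Sylow p G)) : Subgroup G) ≤ W := by
      intro y hy
      change y ∈ MulAut.conj (c : G) • (P : Subgroup G) at hy
      rw [mem_pointwise_smul_iff_inv_smul_mem] at hy
      have hy' : (c : G)⁻¹ * y * c ∈ (P : Subgroup G) := by simpa [mul_assoc] using hy
      refine ⟨?_, ?_⟩
      · have e : y = ((c : G) * x) * (x⁻¹ * ((c : G)⁻¹ * y * c) * x) * ((c : G) * x)⁻¹ := by group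
        rw [e]
        have hyx : x⁻¹ * ((c : G)⁻¹ * y * c) * x ∈ (P : Subgroup G) ⊔ H := by
          have hx' : x ∈ (P : Subgroup G) ⊔ H := mem_sup_right hxH
          exact mul_mem (mul_mem (inv_mem hx') (mem_sup_left hy')) hx'
        have hnn : (c : G) * x ∈ normalizer (((P : Subgroup G) ⊔ H : Subgroup G) : Set G) := by
          have hmap : ((P : Subgroup G) ⊔ H).map (MulAut.conj ((c : G) * x)).toMonoidHom = (P : Subgroup G) ⊔ H := by
            rw [Subgroup.map_sup]
            congr 1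
            · have h' := congrArg (fun S : Sylow p G => (S : Subgroup G)) hcP
              exact h'
            · refine le_antisymm ?_ fun z hz => ⟨((c : G) * x)⁻¹ * z * ((c : G) * x), ?_, by simp [mul_assoc]⟩
              · rintro _ ⟨z, hz, rfl⟩; exact hconjH _ z hz
              · have := hconjH ((c : G) * x)⁻¹ z hz
                rwa [inv_inv] at this
          rw [mem_normalizer_iff]
          intro z
          refine ⟨fun hz => hmap.le ⟨z, hz, rfl⟩, fun hz => ?_⟩
          obtain ⟨w, hw, hwz⟩ := hmap.ge hz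
          exact mul_left_cancel (mul_right_cancel hwz) ▸ hw
        exact (mem_normalizer_iff.mp hnn _).mp hyx
      · have := mul_mem (mul_mem c.2 (hPC hy')) (inv_mem c.2)
        simpa [mul_assoc] using this
    obtain ⟨w, hw⟩ := MulAction.exists_smul_eq W (((c : G) • P).subtype hcW) (P.subtype hPW)
    rw [Sylow.smul_subtype] at hw
    have hwP : (w : G) • (c : G) • P = P := Sylow.subtype_injective hw
    have hwmem : (w : G) ∈ ((P : Subgroup G) ⊔ H) := w.2.1
    rw [← SetLike.mem_coe, mul_normal] at hwmem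
    obtain ⟨a, ha, h, hh, hah⟩ := hwmem
    replace hah : a * h = (w : G) := hah
    have hhC : h ∈ C := by
      have : h = a⁻¹ * (w : G) := by rw [← hah]; group
      rw [this]
      exact mul_mem (inv_mem (hPC ha)) w.2.2
    have hhP : h • (c : G) • P = P := by
      have e : (a * h) • (c : G) • P = P := by rw [hah]; exact hwP
      rw [mul_smul] at e
      have ha' : a • P = P := Sylow.smul_eq_iff_mem_normalizer.mpr (le_normalizer ha)
      exact MulAction.injective a (e.trans ha'.symm)
    rw [← mul_smul] at hhP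
    set c' := h * (c : G) with hc'
    have hc'C : c' ∈ C := mul_mem hhC c.2
    set t := c'⁻¹ * ((c : G) * x) with ht
    have htN : t ∈ normalizer ((P : Subgroup G) : Set G) :=
      mul_mem (inv_mem (Sylow.smul_eq_iff_mem_normalizer.mp hhP)) hn
    have htH : t ∈ H := by
      have e : t = ((c : G)⁻¹ * h⁻¹ * c) * x := by rw [ht, hc']; group
      rw [e]
      refine mul_mem ?_ hxH
      have := hconjH (c : G)⁻¹ _ (inv_mem hh)
      rwa [inv_inv] at this
    have htC : t ∈ C := by
      refine centralizer_le (inf_le_left : Q ≤ (P : Subgroup G)) (mem_centralizer_of_normalizes P hu htN (Or.inl ⟨H, huH, ?_⟩))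
      rw [commutatorElement_def]
      have := mul_mem htH (hconjH u _ (inv_mem htH))
      simpa [mul_assoc] using this
    have e : x = (c : G)⁻¹ * c' * t := by rw [ht]; group
    rw [e]
    exact mul_mem (mul_mem (inv_mem c.2) hc'C) htC
  -- the complement in `H`
  have hTN : normalizer ((T : Subgroup H) : Set H) ≤ centralizer ((T : Subgroup H) : Set H) := by
    intro x hx
    have hxQ : (x : G) ∈ normalizer (Q : Set G) := by
      rw [mem_normalizer_iff]
      intro y
      constructor
      · intro hy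
        have := (mem_normalizer_iff.mp hx ⟨y, hy.2⟩).mp hy
        exact this
      · intro hy
        have hyH : y ∈ H := by
          have := hconjH (x : G)⁻¹ _ hy.2
          simpa [mul_assoc] using this
        exact (mem_normalizer_iff.mp hx ⟨y, hyH⟩).mpr hy
    rw [mem_centralizer_iff]
    intro y hy
    exact Subtype.ext (mem_centralizer_iff.mp (hNH x x.2 hxQ) (y : G) hy)
  set K := (MonoidHom.transferSylow T hTN).ker with hK
  have hKc : IsComplement' K (T : Subgroup H) := MonoidHom.ker_transferSylow_isComplement' T hTN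
  refine ⟨⟨T, K, inferInstance, hKc⟩, ?_⟩
  obtain ⟨j, hj⟩ := T.isPGroup'.exists_card_eq
  have hKi : K.index = p ^ j := by rw [hKc.symm.index_eq_card, hj]
  have hKcop : (Nat.card K).Coprime p := by
    rw [← hKc.index_eq_card]
    exact ((hp.out.coprime_iff_not_dvd).mpr T.not_dvd_index).symm
  set Kg := K.map H.subtype with hKg
  haveI hKgn : Kg.Normal := ⟨fun y hy a => conj_mem_map K hKi hKcop (fun c hc => hconjH a c hc) hy⟩
  -- the complement in the centralizer
  set TC := P.subtype hPC with hTC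
  have hTCN : normalizer ((TC : Subgroup C) : Set C) ≤ centralizer ((TC : Subgroup C) : Set C) := by
    intro x hx
    have hxN : (x : G) ∈ normalizer ((P : Subgroup G) : Set G) := by
      rw [mem_normalizer_iff]
      intro y
      constructor
      · intro hy
        exact (mem_normalizer_iff.mp hx ⟨y, hPC hy⟩).mp hy
      · intro hy
        have hyC : y ∈ C := by
          have := mul_mem (mul_mem (inv_mem x.2) (hPC hy)) x.2
          simpa [mul_assoc] using this
        exact (mem_normalizer_iff.mp hx ⟨y, hyC⟩).mpr hy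
    have hxc := mem_centralizer_of_normalizes P hu hxN
      (Or.inr ⟨q₀, hq₀.1, hq₀1, (mem_centralizer_iff.mp x.2 q₀ hq₀).symm⟩)
    rw [mem_centralizer_iff]
    intro y hy
    exact Subtype.ext (mem_centralizer_iff.mp hxc (y : G) hy)
  set M := (MonoidHom.transferSylow TC hTCN).ker with hM
  have hMc : IsComplement' M (TC : Subgroup C) := MonoidHom.ker_transferSylow_isComplement' TC hTCN
  obtain ⟨i, hi⟩ := TC.isPGroup'.exists_card_eq
  have hMi : M.index = p ^ i := by rw [hMc.symm.index_eq_card, hi]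
  have hMcop : (Nat.card M).Coprime p := by
    rw [← hMc.index_eq_card]
    exact ((hp.out.coprime_iff_not_dvd).mpr TC.not_dvd_index).symm
  set Mg := M.map C.subtype with hMg
  have htop : normalizer (Q : Set G) ⊔ H = ⊤ := by
    have := Sylow.normalizer_sup_eq_top T
    rwa [hTQ] at this
  have hnorm : ∀ X : Subgroup G, (∀ n ∈ normalizer (Q : Set G), ∀ y ∈ X, n * y * n⁻¹ ∈ X) → (H ⊔ X).Normal := by
    intro X hX
    refine ⟨fun y hy a => ?_⟩
    have ha : a ∈ normalizer (Q : Set G) ⊔ H := htop ▸ mem_top a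
    rw [← SetLike.mem_coe, mul_normal] at ha
    obtain ⟨n, hn, h, hh, rfl⟩ := ha
    have h1 : h * y * h⁻¹ ∈ H ⊔ X :=
      mul_mem (mul_mem (mem_sup_left hh) hy) (inv_mem (mem_sup_left hh))
    have hmap : (H ⊔ X).map (MulAut.conj n).toMonoidHom ≤ H ⊔ X := by
      rw [Subgroup.map_sup]
      refine sup_le ?_ ?_
      · rintro _ ⟨z, hz, rfl⟩; exact mem_sup_left (hconjH n z hz)
      · rintro _ ⟨z, hz, rfl⟩; exact mem_sup_right (hX n hn z hz)
    have := hmap ⟨_, h1, rfl⟩
    simpa [mul_assoc] using this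
  haveI hn3 : (H ⊔ Mg).Normal := hnorm Mg fun n hn y hy => conj_mem_map M hMi hMcop (hCn n hn) hy
  haveI hn4 : (H ⊔ C).Normal := hnorm C fun n hn y hy => hCn n hn y hy
  have hMgC : Mg ≤ C := map_subtype_le M
  have hKgH : Kg ≤ H := map_subtype_le K
  refine ⟨5, ![⊥, Kg, H, H ⊔ Mg, H ⊔ C, ⊤], rfl, rfl, ?_, ?_, ?_⟩
  · refine Fin.monotone_iff_le_succ.mpr fun k => ?_
    fin_cases k
    · exact bot_le
    · exact hKgH
    · exact le_sup_left
    · exact sup_le_sup_left hMgC H
    · exact le_top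
  · intro k
    fin_cases k
    · exact inferInstanceAs (⊥ : Subgroup G).Normal
    · exact hKgn
    · exact hH
    · exact hn3
    · exact hn4
    · exact inferInstanceAs (⊤ : Subgroup G).Normal
  · intro k
    fin_cases k
    · right
      show ((⊥ : Subgroup G).relIndex Kg).Coprime p
      rw [relIndex_bot_left, hKg, card_map_of_injective H.subtype_injective]
      exact hKcop
    · left
      refine ⟨j, ?_⟩
      show Kg.relIndex H = p ^ j
      rw [hKg, ← hKi]
      exact congrArg Subgroup.index (comap_map_eq_self_of_injective H.subtype_injective K)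
    · right
      show (H.relIndex (H ⊔ Mg)).Coprime p
      rw [sup_comm, relIndex_sup_right]
      refine Nat.Coprime.coprime_dvd_left (relIndex_dvd_card H Mg) ?_
      rw [hMg, card_map_of_injective C.subtype_injective]
      exact hMcop
    · left
      show ∃ m : ℕ, (H ⊔ Mg).relIndex (H ⊔ C) = p ^ m
      have e : H ⊔ C = C ⊔ (H ⊔ Mg) :=
        le_antisymm (sup_le (le_sup_of_le_right le_sup_left) le_sup_left)
          (sup_le le_sup_right (sup_le le_sup_left (hMgC.trans le_sup_right)))
      rw [e, relIndex_sup_right]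
      have hd : (H ⊔ Mg).relIndex C ∣ Mg.relIndex C := relIndex_dvd_of_le_left C le_sup_right
      have hMr : Mg.relIndex C = p ^ i := by
        rw [hMg, ← hMi]
        exact congrArg Subgroup.index (comap_map_eq_self_of_injective C.subtype_injective M)
      rw [hMr] at hd
      obtain ⟨m, -, hm⟩ := (Nat.dvd_prime_pow hp.out).mp hd
      exact ⟨m, hm⟩
    · right
      show ((H ⊔ C).relIndex ⊤).Coprime p
      rw [relIndex_top_right]
      refine ((hp.out.coprime_iff_not_dvd).mpr fun hd => P.not_dvd_index (hd.trans ?_)).symm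
      exact index_dvd_of_le (hPC.trans le_sup_right)

end CfsgLib.Fgs.CyclicSylow
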