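import Mathlib
import Cfsg.Agent.Lib.PermJordanCycle
import Cfsg.Agent.Lib.PermSylow
/-! A primitive group of even permutations of degree 13 containing an 11-cycle. -/

namespace CfsgLib.TwoPrime

open MulAction Equiv Equiv.Perm

theorem no_group_132 {H : Type*} [Group H] [Finite H] [Fact (Nat.Prime 11)] (hH : Nat.card H = 132)
    (h11 : Nat.card (Sylow 11 H) ≠ 1) : False := by
  classical
  haveI : Fact (Nat.Prime 3) := ⟨Nat.prime_three⟩
  haveI := Fintype.ofFinite H
  obtain ⟨P⟩ : Nonempty (Sylow 11 H) := inferInstance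
  obtain ⟨R⟩ : Nonempty (Sylow 3 H) := inferInstance
  have hP : Nat.card P = 11 :=
    (CfsgLib.Perm.sylow_card P (k := 1) (m := 12) (by rw [hH]; norm_num) (by norm_num)).trans (pow_one 11)
  have hR : Nat.card R = 3 :=
    (CfsgLib.Perm.sylow_card R (k := 1) (m := 44) (by rw [hH]; norm_num) (by norm_num)).trans (pow_one 3)
  have hPi : (P : Subgroup H).index = 12 := by
    have := (P : Subgroup H).index_mul_card
    rw [hH, hP] at this
    omega
  have hRi : (R : Subgroup H).index = 44 := by
    have := (R : Subgroup H).index_mul_card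
    rw [hH, hR] at this
    omega
  have hn11 : Nat.card (Sylow 11 H) = 12 := by
    have h1 : Nat.card (Sylow 11 H) ∈ Nat.divisors 12 :=
      Nat.mem_divisors.mpr ⟨hPi ▸ P.card_dvd_index, by norm_num⟩
    rw [show Nat.divisors 12 = {1, 2, 3, 4, 6, 12} by decide] at h1
    simp only [Finset.mem_insert, Finset.mem_singleton] at h1
    have h2 := card_sylow_modEq_one 11 H
    rw [Nat.ModEq] at h2
    rcases h1 with h | h | h | h | h | h <;> first | exact absurd h h11 | exact h | (rw [h] at h2; norm_num at h2)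
  have hn3 : Nat.card (Sylow 3 H) = 1 ∨ Nat.card (Sylow 3 H) = 4 ∨ Nat.card (Sylow 3 H) = 22 := by
    have h1 : Nat.card (Sylow 3 H) ∈ Nat.divisors 44 :=
      Nat.mem_divisors.mpr ⟨hRi ▸ R.card_dvd_index, by norm_num⟩
    rw [show Nat.divisors 44 = {1, 2, 4, 11, 22, 44} by decide] at h1
    simp only [Finset.mem_insert, Finset.mem_singleton] at h1
    have h2 := card_sylow_modEq_one 3 H
    rw [Nat.ModEq] at h2
    rcases h1 with h | h | h | h | h | h <;>
      first | (exact Or.inl h) | (exact Or.inr (Or.inl h)) | (exact Or.inr (Or.inr h)) | (rw [h] at h2; norm_num at h2)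
  by_cases h22 : Nat.card (Sylow 3 H) = 22
  · have e1 := CfsgLib.Perm.card_orderOf_prime hP
    have e2 := CfsgLib.Perm.card_orderOf_prime hR
    rw [hn11] at e1
    rw [h22] at e2
    rw [Nat.card_eq_fintype_card, Fintype.card_subtype] at e1 e2
    have hd : Disjoint (Finset.univ.filter fun g : H => orderOf g = 11) (Finset.univ.filter fun g : H => orderOf g = 3) := by
      rw [Finset.disjoint_left]
      intro g hg hg'
      rw [Finset.mem_filter] at hg hg'
      rw [hg.2] at hg'
      exact absurd hg'.2 (by norm_num)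
    have := Finset.card_le_univ ((Finset.univ.filter fun g : H => orderOf g = 11) ∪ (Finset.univ.filter fun g : H => orderOf g = 3))
    rw [Finset.card_union_of_disjoint hd, e1, e2, ← Nat.card_eq_fintype_card, hH] at this
    omega
  · -- an element of order eleven normalises, hence centralises, the Sylow 3-subgroup
    have hdvd : 11 ∣ Nat.card (Subgroup.normalizer ((R : Subgroup H) : Set H)) := by
      have := CfsgLib.Perm.card_sylow_mul_card_normalizer R
      rw [hH] at this
      rcases hn3 with h | h | h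
      · rw [h] at this; omega
      · rw [h] at this; omega
      · exact absurd h h22
    obtain ⟨x, hx⟩ := exists_prime_orderOf_dvd_card' (G := Subgroup.normalizer ((R : Subgroup H) : Set H)) 11 hdvd
    have hox : orderOf (x : H) = 11 := by rw [orderOf_submonoid]; exact hx
    haveI : IsCyclic (R : Subgroup H) := isCyclic_of_prime_card hR
    have hcent : Subgroup.normalizerMonoidHom (R : Subgroup H) x = 1 := by
      have h1 : orderOf (Subgroup.normalizerMonoidHom (R : Subgroup H) x) ∣ 2 := by
        have := orderOf_dvd_natCard (Subgroup.normalizerMonoidHom (R : Subgroup H) x)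
        rwa [IsCyclic.card_mulAut, hR] at this
      have h2 := orderOf_map_dvd (Subgroup.normalizerMonoidHom (R : Subgroup H)) x
      rw [hx] at h2
      exact orderOf_eq_one_iff.mp (Nat.eq_one_of_dvd_coprimes (by norm_num : Nat.Coprime 2 11) h1 h2)
    obtain ⟨Q, hQ⟩ := CfsgLib.Perm.exists_sylow_eq_zpowers hP hox
    have hle : (R : Subgroup H) ≤ Subgroup.normalizer ((Q : Subgroup H) : Set H) := by
      intro r hr
      have he : (x : H) * r * (x : H)⁻¹ = r :=
        congrArg Subtype.val (DFunLike.congr_fun hcent (⟨r, hr⟩ : (R : Subgroup H)))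
      refine Subgroup.centralizer_le_normalizer _ (Subgroup.mem_centralizer_iff.mpr ?_)
      intro z hz
      rw [hQ] at hz
      obtain ⟨i, rfl⟩ := hz
      exact (show Commute (x : H) r from mul_inv_eq_iff_eq_mul.mp he).zpow_left i |>.eq
    have h33 := CfsgLib.Perm.card_sylow_mul_card_normalizer Q
    rw [hn11, hH] at h33
    have h3 := Subgroup.card_dvd_of_le hle
    rw [hR, show Nat.card (Subgroup.normalizer ((Q : Subgroup H) : Set H)) = 11 by omega] at h3
    exact absurd h3 (by norm_num)

variable {β : Type*} [Fintype β] [DecidableEq β]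

theorem fixes_support {x : Equiv.Perm β} {z : β} : z ∈ ((x.support : Set β)ᶜ) ↔ x z = z := by simp

theorem alternatingGroup_le_of_five_five (K : Subgroup (Equiv.Perm β)) (h13 : Fintype.card β = 13)
    (hprim : IsPreprimitive K β) (hmt : IsMultiplyPretransitive K β 3) {u : Equiv.Perm β} (hu : u ∈ K)
    (hou : orderOf u = 5) (hsupp : u.support.card = 10) : alternatingGroup β ≤ K := by
  classical
  haveI : Fact (Nat.Prime 5) := ⟨by norm_num⟩
  set F : Set β := (u.support : Set β)ᶜ with hF
  have hF3 : F.ncard = 3 := by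
    have := Set.ncard_add_ncard_compl (u.support : Set β)
    rw [Set.ncard_coe_finset, hsupp, ← hF, Nat.card_eq_fintype_card, h13] at this
    omega
  set L : Subgroup (Equiv.Perm β) := K ⊓ fixingSubgroup (Equiv.Perm β) F with hL
  have huL : u ∈ L := ⟨hu, (mem_fixingSubgroup_iff _).mpr fun y hy => fixes_support.mp hy⟩
  -- orbits of u
  have horbit : ∀ z ∈ u.support, ∀ w ∈ u.support, ∀ v ∈ u.support,
      u.SameCycle z w ∨ u.SameCycle z v ∨ u.SameCycle w v := by
    intro z hz w hw v hv
    by_contra hcon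
    push_neg at hcon
    obtain ⟨h1, h2, h3⟩ := hcon
    obtain ⟨k, hk⟩ := Equiv.Perm.cycleType_prime_order (σ := u) (by rw [hou]; norm_num)
    rw [hou] at hk
    have hc : ∀ a ∈ u.support, (u.cycleOf a).support.card = 5 := by
      intro a ha
      have hdj := (Equiv.Perm.disjoint_mul_inv_of_mem_cycleFactorsFinset (cycleOf_mem_cycleFactorsFinset_iff.mpr ha)).symm
      have h : (u.cycleOf a).support.card ∈ u.cycleType := Equiv.Perm.mem_cycleType_iff.mpr ⟨u.cycleOf a, u * (u.cycleOf a)⁻¹,
        by rw [hdj.commute.eq, inv_mul_cancel_right], hdj, isCycle_cycleOf _ (mem_support.mp ha), rfl⟩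
      rw [hk] at h; exact (Multiset.mem_replicate.mp h).2
    have hd : ∀ a b, a ∈ u.support → ¬ u.SameCycle a b → Disjoint (u.cycleOf a).support (u.cycleOf b).support := by
      intro a b ha hab
      rw [Finset.disjoint_left]
      intro t h1 h2
      exact hab ((mem_support_cycleOf_iff.mp h1).1.trans (mem_support_cycleOf_iff.mp h2).1.symm)
    have hsub : (u.cycleOf z).support ∪ (u.cycleOf w).support ∪ (u.cycleOf v).support ⊆ u.support := by
      intro t ht
      simp only [Finset.mem_union] at ht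
      rcases ht with (h | h) | h <;> exact support_cycleOf_le u _ h
    have := Finset.card_le_card hsub
    rw [Finset.card_union_of_disjoint (by rw [Finset.disjoint_union_left]; exact ⟨hd z v hz h2, hd w v hw h3⟩),
      Finset.card_union_of_disjoint (hd z w hz h1), hc z hz, hc w hw, hc v hv, hsupp] at this
    omega
  have hfixpow : ∀ (i : ℤ) (z : β), (u ^ (5 * i)) z = z := fun i z => by
    rw [zpow_mul, show (5 : ℤ) = ((5 : ℕ) : ℤ) from rfl, zpow_natCast, ← hou, pow_orderOf_eq_one, one_zpow, Perm.one_apply]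
  by_cases h25 : 25 ∣ Nat.card L
  · -- a five-cycle exists
    obtain ⟨R, hR⟩ := (IsPGroup.of_card (p := 5) (n := 1) (G := Subgroup.zpowers (⟨u, huL⟩ : L))
      (by rw [Nat.card_zpowers, Subgroup.orderOf_mk, hou, pow_one])).exists_le_sylow
    have hR25 : 25 ≤ Nat.card R := by
      rw [R.card_eq_multiplicity]
      have h := (Nat.Prime.pow_dvd_iff_le_factorization (by norm_num : Nat.Prime 5) Nat.card_pos.ne').mp
        (show 5 ^ 2 ∣ Nat.card L by simpa using h25)
      calc 25 = 5 ^ 2 := by norm_num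
        _ ≤ _ := Nat.pow_le_pow_right (by norm_num) h
    obtain ⟨j, hj⟩ := R.isPGroup'.exists_card_eq
    haveI : Nontrivial (R : Subgroup L) := Finite.one_lt_card_iff_nontrivial.mp (by omega)
    haveI := R.isPGroup'.center_nontrivial
    -- an element of R outside the powers of u, commuting with u
    obtain ⟨v, hvR, hvu, hvne⟩ : ∃ v : L, v ∈ (R : Subgroup L) ∧ Commute (v : Equiv.Perm β) u ∧ (v : Equiv.Perm β) ∉ Subgroup.zpowers u := by
      set U : Subgroup (R : Subgroup L) := Subgroup.zpowers ⟨⟨u, huL⟩, hR (Subgroup.mem_zpowers _)⟩ with hU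
      by_cases hc : Subgroup.center (R : Subgroup L) ≤ U
      · obtain ⟨z, hz⟩ := exists_ne (1 : Subgroup.center (R : Subgroup L))
        have hU5 : Nat.card U = 5 := by rw [hU, Nat.card_zpowers, Subgroup.orderOf_mk, Subgroup.orderOf_mk, hou]
        have hUc : U ≤ Subgroup.center (R : Subgroup L) := by
          have h1 : Subgroup.center (R : Subgroup L) = U := by
            refine Subgroup.eq_of_le_of_card_ge hc ?_
            rw [hU5]
            have hd := Subgroup.card_dvd_of_le hc
            rw [hU5] at hd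
            rcases (Nat.dvd_prime (by norm_num : Nat.Prime 5)).mp hd with h | h
            · exact absurd (Subgroup.card_eq_one.mp h) (fun hb => hz (Subtype.ext (Subgroup.mem_bot.mp (hb ▸ z.2))))
            · exact h.ge
          exact h1.ge
        obtain ⟨w, hw⟩ : ∃ w : (R : Subgroup L), w ∉ U := by
          by_contra hcon
          push_neg at hcon
          have : U = ⊤ := eq_top_iff.mpr fun w _ => hcon w
          rw [this, Subgroup.card_top] at hU5
          omega
        refine ⟨w.1, w.2, ?_, fun hmem => ?_⟩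
        · exact congrArg (fun t : (R : Subgroup L) => (((t : L) : Equiv.Perm β)))
            (Subgroup.mem_center_iff.mp (hUc (Subgroup.mem_zpowers _)) w)
        · obtain ⟨i, hi⟩ := hmem
          exact hw ⟨i, Subtype.ext (Subtype.ext (by simpa using hi))⟩
      · obtain ⟨w, hwc, hwU⟩ := SetLike.not_le_iff_exists.mp hc
        refine ⟨w.1, w.2, ?_, fun hmem => ?_⟩
        · exact (congrArg (fun t : (R : Subgroup L) => (((t : L) : Equiv.Perm β)))
            (Subgroup.mem_center_iff.mp hwc ⟨⟨u, huL⟩, hR (Subgroup.mem_zpowers _)⟩)).symm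
        · obtain ⟨i, hi⟩ := hmem
          exact hwU ⟨i, Subtype.ext (Subtype.ext (by simpa using hi))⟩
    set vv : Equiv.Perm β := (v : Equiv.Perm β) with hvv
    have hvF : ∀ z ∈ F, vv z = z := fun z hz => (mem_fixingSubgroup_iff (Equiv.Perm β)).mp v.2.2 z hz
    have hv5 : ∃ k, orderOf vv = 5 ^ k := by
      obtain ⟨k, hk⟩ := IsPGroup.iff_orderOf.mp R.isPGroup' ⟨v, hvR⟩
      exact ⟨k, by rw [hvv, Subgroup.orderOf_coe, ← Subgroup.orderOf_mk (H := (R : Subgroup L)) v hvR]; exact hk⟩
    have hpres : ∀ z ∈ u.support, vv z ∈ u.support := by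
      intro z hz
      rw [mem_support] at hz ⊢
      intro h
      apply hz
      apply vv.injective
      rw [show vv (u z) = u (vv z) from Equiv.Perm.ext_iff.mp hvu.eq z, h]
    have hkeep : ∀ z ∈ u.support, u.SameCycle z (vv z) := by
      intro z hz
      by_contra hns
      obtain ⟨k, hk⟩ := hv5
      -- the square of vv stabilises the orbit of z, and it generates
      have h2 : u.SameCycle z (vv (vv z)) := by
        rcases horbit z hz (vv z) (hpres z hz) (vv (vv z)) (hpres _ (hpres z hz)) with h | h | h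
        · exact absurd h hns
        · exact h
        · exfalso
          apply hns
          obtain ⟨i, hi⟩ := h
          refine ⟨i, vv.injective ?_⟩
          rw [show vv ((u ^ i) z) = (u ^ i) (vv z) from Equiv.Perm.ext_iff.mp (hvu.zpow_right i).eq z]
          exact hi
      obtain ⟨i, hi⟩ := h2
      have hpow : ∀ m : ℕ, u.SameCycle z ((vv ^ (2 * m)) z) := by
        intro m
        induction m with
        | zero => exact ⟨0, rfl⟩
        | succ m ih =>
          obtain ⟨l, hl⟩ := ih
          refine ⟨l + i, ?_⟩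
          rw [Nat.mul_succ, pow_add, Perm.mul_apply, show (vv ^ 2) z = (u ^ i) z from hi.symm,
            show (vv ^ (2 * m)) ((u ^ i) z) = (u ^ i) ((vv ^ (2 * m)) z) from
              Equiv.Perm.ext_iff.mp ((hvu.pow_left _).zpow_right i).eq z, ← hl, ← Perm.mul_apply, ← zpow_add,
            add_comm l i]
      obtain ⟨m, hm⟩ : ∃ m, orderOf vv + 1 = 2 * m :=
        ⟨(5 ^ k + 1) / 2, by rw [hk]; have : Odd (5 ^ k) := Odd.pow (by decide); rw [Nat.odd_iff] at this; omega⟩
      apply hns
      have h1 := hpow m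
      rwa [← hm, pow_succ, pow_orderOf_eq_one, one_mul] at h1
    obtain ⟨z, hz⟩ : u.support.Nonempty := Finset.card_pos.mp (by omega)
    obtain ⟨i, hi⟩ := hkeep z hz
    set c := u ^ (-i) * vv with hc
    have hcF : ∀ t ∈ F, c t = t := by
      intro t ht
      rw [hc, Perm.mul_apply, hvF t ht]
      exact zpow_apply_eq_self_of_apply_eq_self (fixes_support.mp ht) _
    have hcu : Commute c u := ((Commute.refl u).zpow_left (-i)).mul_left hvu
    have hcz : ∀ l : ℤ, c ((u ^ l) z) = (u ^ l) z := by
      intro l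
      rw [show c ((u ^ l) z) = (u ^ l) (c z) from Equiv.Perm.ext_iff.mp (hcu.zpow_right l).eq z, hc, Perm.mul_apply,
        ← hi, ← Perm.mul_apply (u ^ (-i)), ← zpow_add, neg_add_cancel, zpow_zero, Perm.one_apply]
    have hcne : c ≠ 1 := fun h => hvne ⟨i, by
      have := congrArg (u ^ i * ·) h
      simp only [hc, ← mul_assoc, ← zpow_add, add_neg_cancel, zpow_zero, one_mul, mul_one] at this
      exact this.symm⟩
    obtain ⟨w, hw⟩ : ∃ w, c w ≠ w := by
      by_contra hcon
      push_neg at hcon
      exact hcne (Equiv.Perm.ext hcon)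
    have hwS : w ∈ u.support := by
      by_contra h
      exact hw (hcF w (by simpa [hF] using h))
    have hzw : ¬ u.SameCycle z w := fun ⟨l, hl⟩ => hw (by rw [← hl]; exact hcz l)
    have hsupp5 : c.support ⊆ u.support \ (u.cycleOf z).support := by
      intro t ht
      rw [Finset.mem_sdiff, mem_support_cycleOf_iff]
      refine ⟨?_, fun hs => ?_⟩
      · by_contra h
        exact (mem_support.mp ht) (hcF t (by simpa [hF] using h))
      · obtain ⟨l, hl⟩ := hs.1
        exact (mem_support.mp ht) (hl ▸ hcz l)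
    have hzc : (u.cycleOf z).support.card = 5 := by
      obtain ⟨k, hk⟩ := Equiv.Perm.cycleType_prime_order (σ := u) (by rw [hou]; norm_num)
      rw [hou] at hk
      have hdj := (Equiv.Perm.disjoint_mul_inv_of_mem_cycleFactorsFinset (cycleOf_mem_cycleFactorsFinset_iff.mpr hz)).symm
      have h : (u.cycleOf z).support.card ∈ u.cycleType := Equiv.Perm.mem_cycleType_iff.mpr ⟨u.cycleOf z, u * (u.cycleOf z)⁻¹,
        by rw [hdj.commute.eq, inv_mul_cancel_right], hdj,
        isCycle_cycleOf _ (mem_support.mp hz), rfl⟩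
      rw [hk] at h
      exact (Multiset.mem_replicate.mp h).2
    have hle5 : c.support.card ≤ 5 := by
      refine (Finset.card_le_card hsupp5).trans ?_
      rw [Finset.card_sdiff, Finset.inter_eq_left.mpr (support_cycleOf_le u z), hsupp, hzc]
    have hc5 : orderOf c = 5 := by
      have hcR : (⟨u, huL⟩ : L) ^ (-i) * v ∈ (R : Subgroup L) :=
        mul_mem (zpow_mem (hR (Subgroup.mem_zpowers _)) _) hvR
      obtain ⟨k, hk⟩ := IsPGroup.iff_orderOf.mp R.isPGroup' ⟨_, hcR⟩
      rw [Subgroup.orderOf_mk, ← Subgroup.orderOf_coe, Subgroup.coe_mul, Subgroup.coe_zpow, ← hvv, ← hc] at hk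
      have hdvd : orderOf c ∣ c.support.card.factorial := by
        have h1 := Equiv.Perm.lcm_cycleType c
        rw [← h1]
        apply Multiset.lcm_dvd.mpr
        intro b hb
        exact Nat.dvd_factorial (Nat.pos_of_ne_zero fun h0 => by
          have := Equiv.Perm.two_le_of_mem_cycleType hb; omega)
          ((Multiset.le_sum_of_mem hb).trans_eq c.sum_cycleType)
      rw [hk]
      rcases (show k = 0 ∨ k = 1 ∨ 2 ≤ k by omega) with rfl | rfl | h2
      · exact absurd (orderOf_eq_one_iff.mp (by rw [hk, pow_zero])) hcne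
      · rfl
      · exfalso
        rw [hk] at hdvd
        have := ((pow_dvd_pow 5 h2).trans hdvd).trans (Nat.factorial_dvd_factorial hle5)
        norm_num [Nat.factorial] at this
    obtain ⟨k, hk⟩ := Equiv.Perm.cycleType_prime_order (σ := c) (by rw [hc5]; norm_num)
    rw [hc5] at hk
    have hsum := c.sum_cycleType
    rw [hk, Multiset.sum_replicate, smul_eq_mul] at hsum
    have hcyc : c.IsCycle := by
      rw [← card_cycleType_eq_one, hk, Multiset.card_replicate]
      omega
    have hcK : c ∈ K := K.mul_mem (K.zpow_mem hu _) v.2.1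
    exact CfsgLib.Perm.alternatingGroup_le_of_prime_cycle hprim (p := 5) (by norm_num)
      (by rw [Nat.card_eq_fintype_card, h13]; norm_num) hcyc (by omega) hcK
  -- otherwise the Sylow subgroup is generated by u: Frattini
  have lift : ∀ σ : Equiv.Perm β, (∀ x, x ∈ F ↔ σ x ∈ F) →
      ∃ h ∈ K, (∀ x ∈ F, h x = σ x) ∧ h * u * h⁻¹ ∈ Subgroup.zpowers u := by
    intro σ hσ
    haveI := Fintype.ofFinite F
    have hcard : Fintype.card F = 3 := by rw [← Nat.card_eq_fintype_card, Nat.card_coe_set_eq, hF3]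
    let e : Fin 3 ≃ F := (Fintype.equivFinOfCardEq hcard).symm
    let a : Fin 3 ↪ β := ⟨fun i => (e i : β), fun i j h => e.injective (Subtype.ext h)⟩
    let b : Fin 3 ↪ β := ⟨fun i => σ (e i : β), fun i j h => e.injective (Subtype.ext (σ.injective h))⟩
    obtain ⟨⟨h, hh⟩, hhu⟩ := MulAction.exists_smul_eq K a b
    have hhF : ∀ x ∈ F, h x = σ x := by
      intro x hx
      have h1 := DFunLike.congr_fun hhu (e.symm ⟨x, hx⟩)
      change h ((e (e.symm ⟨x, hx⟩) : F) : β) = σ ((e (e.symm ⟨x, hx⟩) : F) : β) at h1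
      rw [Equiv.apply_symm_apply] at h1
      exact h1
    have hu'L : h * u * h⁻¹ ∈ L := by
      refine ⟨K.mul_mem (K.mul_mem hh hu) (K.inv_mem hh), (mem_fixingSubgroup_iff _).mpr fun y hy => ?_⟩
      have hy' : σ⁻¹ y ∈ F := (hσ _).mpr (by rw [show σ (σ⁻¹ y) = y from σ.apply_symm_apply y]; exact hy)
      have h1 := hhF _ hy'
      rw [show σ (σ⁻¹ y) = y from σ.apply_symm_apply y] at h1
      change h (u (h⁻¹ y)) = y
      rw [show h⁻¹ y = σ⁻¹ y by rw [Perm.inv_eq_iff_eq]; exact h1.symm, fixes_support.mp hy', h1]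
    have hsyl : ∀ x : L, orderOf x = 5 → ∃ P : Sylow 5 L, (P : Subgroup L) = Subgroup.zpowers x := by
      intro x hx
      obtain ⟨P, hP⟩ := (IsPGroup.of_card (p := 5) (n := 1) (G := Subgroup.zpowers x)
        (by rw [Nat.card_zpowers, hx, pow_one])).exists_le_sylow
      refine ⟨P, (Subgroup.eq_of_le_of_card_ge hP ?_).symm⟩
      obtain ⟨j, hj⟩ := P.isPGroup'.exists_card_eq
      rw [Nat.card_zpowers, hx, hj]
      rcases Nat.lt_or_ge j 2 with h2 | h2
      · calc 5 ^ j ≤ 5 ^ 1 := Nat.pow_le_pow_right (by norm_num) (by omega)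
          _ = 5 := pow_one 5
      · exfalso
        exact h25 ((pow_dvd_pow 5 h2).trans (hj ▸ Subgroup.card_subgroup_dvd_card (P : Subgroup L)))
    obtain ⟨P₁, hP₁⟩ := hsyl ⟨u, huL⟩ (by rw [Subgroup.orderOf_mk, hou])
    obtain ⟨P₂, hP₂⟩ := hsyl ⟨h * u * h⁻¹, hu'L⟩ (by
      rw [Subgroup.orderOf_mk, ← hou]
      exact orderOf_injective (MulAut.conj h).toMonoidHom (MulAut.conj h).injective u)
    obtain ⟨w, hw⟩ := MulAction.exists_smul_eq L P₂ P₁
    refine ⟨w.1 * h, K.mul_mem w.2.1 hh, fun x hx => ?_, ?_⟩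
    · rw [Perm.mul_apply, hhF x hx]
      exact (mem_fixingSubgroup_iff (Equiv.Perm β)).mp w.2.2 _ ((hσ x).mp hx)
    · have hm : w * ⟨h * u * h⁻¹, hu'L⟩ * w⁻¹ ∈ (P₁ : Subgroup L) := by
        rw [← hw]
        exact ⟨⟨h * u * h⁻¹, hu'L⟩, by rw [hP₂]; exact Subgroup.mem_zpowers _, rfl⟩
      rw [hP₁] at hm
      obtain ⟨i, hi⟩ := hm
      refine ⟨i, ?_⟩
      change u ^ i = _
      have := congrArg Subtype.val hi
      simp only [SubgroupClass.coe_zpow, Subgroup.coe_mul, Subgroup.coe_inv] at this
      rw [this]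
      group
  obtain ⟨a, b, c, ha, hb, hc, hab, hac, hbc⟩ := (Set.two_lt_ncard_iff (Set.toFinite F)).mp (by omega : 2 < F.ncard)
  have hswap : ∀ x y : β, x ∈ F → y ∈ F → ∀ z, z ∈ F ↔ Equiv.swap x y z ∈ F := by
    intro x y hx hy z
    by_cases h1 : z = x
    · subst h1; rw [Equiv.swap_apply_left]; exact iff_of_true hx hy
    by_cases h2 : z = y
    · subst h2; rw [Equiv.swap_apply_right]; exact iff_of_true hy hx
    · rw [Equiv.swap_apply_of_ne_of_ne h1 h2]
  obtain ⟨h₁, h₁G, h₁F, r, hr⟩ := lift (Equiv.swap a b) (hswap a b ha hb)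
  obtain ⟨h₂, h₂G, h₂F, s, hs⟩ := lift (Equiv.swap b c) (hswap b c hb hc)
  simp only at hr hs
  have e1 : (h₁ * h₂) * u * (h₁ * h₂)⁻¹ = u ^ (r * s) := by
    calc (h₁ * h₂) * u * (h₁ * h₂)⁻¹ = h₁ * (h₂ * u * h₂⁻¹) * h₁⁻¹ := by group
      _ = (h₁ * u * h₁⁻¹) ^ s := by rw [← hs, conj_zpow]
      _ = u ^ (r * s) := by rw [← hr, ← zpow_mul]
  have e2 : (h₂ * h₁) * u * (h₂ * h₁)⁻¹ = u ^ (r * s) := by
    calc (h₂ * h₁) * u * (h₂ * h₁)⁻¹ = h₂ * (h₁ * u * h₁⁻¹) * h₂⁻¹ := by group
      _ = (h₂ * u * h₂⁻¹) ^ r := by rw [← hr, conj_zpow]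
      _ = u ^ (r * s) := by rw [← hs, ← zpow_mul, mul_comm]
  set d := (h₂ * h₁)⁻¹ * (h₁ * h₂) with hd
  have hdK : d ∈ K := K.mul_mem (K.inv_mem (K.mul_mem h₂G h₁G)) (K.mul_mem h₁G h₂G)
  have hcomm : Commute d u := by
    have : d * u * d⁻¹ = u := by
      rw [hd]
      calc (h₂ * h₁)⁻¹ * (h₁ * h₂) * u * ((h₂ * h₁)⁻¹ * (h₁ * h₂))⁻¹
          = (h₂ * h₁)⁻¹ * ((h₁ * h₂) * u * (h₁ * h₂)⁻¹) * (h₂ * h₁) := by group
        _ = (h₂ * h₁)⁻¹ * ((h₂ * h₁) * u * (h₂ * h₁)⁻¹) * (h₂ * h₁) := by rw [e1, e2]
        _ = u := by group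
    exact mul_inv_eq_iff_eq_mul.mp this
  set w := Equiv.swap a b * Equiv.swap b c * Equiv.swap a b * Equiv.swap b c with hw
  have hdF : ∀ x ∈ F, d x = w x := by
    intro x hx
    have x1 := (hswap b c hb hc x).mp hx
    have x2 := (hswap a b ha hb _).mp x1
    rw [hd, Perm.mul_apply, Perm.mul_apply, h₂F x hx, h₁F _ x1]
    have hinv : ∀ y ∈ F, (h₂ * h₁)⁻¹ y = Equiv.swap a b (Equiv.swap b c y) := by
      intro y hy
      rw [Perm.inv_eq_iff_eq, Perm.mul_apply]
      have y1 := (hswap b c hb hc y).mp hy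
      have y2 := (hswap a b ha hb _).mp y1
      rw [h₁F _ y2, Equiv.swap_apply_self, h₂F _ y1, Equiv.swap_apply_self]
    rw [hinv _ x2]
    rfl
  have hwF : ∀ x ∈ F, w x ∈ F := by
    intro x hx
    simp only [hw, Perm.mul_apply]
    exact (hswap a b ha hb _).mp ((hswap b c hb hc _).mp ((hswap a b ha hb _).mp ((hswap b c hb hc _).mp hx)))
  have h3 : (Equiv.swap a b * Equiv.swap b c).IsThreeCycle := by
    rw [Equiv.swap_comm a b]
    exact isThreeCycle_swap_mul_swap_same hab.symm hbc hac
  have hw3 : w.IsThreeCycle := by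
    have := h3.isThreeCycle_sq
    rw [hw]
    simpa [mul_assoc] using this
  have hfin : d ^ 10 = w := by
    apply Equiv.Perm.ext
    intro x
    by_cases hx : x ∈ F
    · have hit : ∀ n : ℕ, (d ^ n) x = (w ^ n) x ∧ (w ^ n) x ∈ F := by
        intro n
        induction n with
        | zero => exact ⟨rfl, hx⟩
        | succ n ih =>
          rw [pow_succ', pow_succ', Perm.mul_apply, Perm.mul_apply, ih.1]
          exact ⟨hdF _ ih.2, hwF _ ih.2⟩
      rw [(hit 10).1, show w ^ 10 = w ^ (orderOf w * 3 + 1) by rw [hw3.orderOf], pow_succ, pow_mul,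
        pow_orderOf_eq_one, one_pow, one_mul]
    · have hxs : x ∈ u.support := by simpa [hF] using hx
      have ne : ∀ y ∈ F, x ≠ y := fun y hy h => hx (h ▸ hy)
      have hwx : w x = x := by
        simp only [hw, Perm.mul_apply, Equiv.swap_apply_of_ne_of_ne (ne b hb) (ne c hc),
          Equiv.swap_apply_of_ne_of_ne (ne a ha) (ne b hb)]
      rw [hwx]
      have hpres : ∀ z ∈ u.support, d z ∈ u.support := by
        intro z hz
        rw [mem_support] at hz ⊢
        intro h
        apply hz
        apply d.injective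
        rw [show d (u z) = u (d z) from Equiv.Perm.ext_iff.mp hcomm.eq z, h]
      have hiter : ∀ (m : ℕ) (i : ℤ), (d ^ m) x = (u ^ i) x → ∀ n : ℕ, ((d ^ m) ^ n) x = (u ^ (i * n)) x := by
        intro m i h n
        induction n with
        | zero => simp
        | succ n ih =>
          rw [pow_succ', Perm.mul_apply, ih,
            show (d ^ m) ((u ^ (i * n)) x) = (u ^ (i * n)) ((d ^ m) x) from
              Equiv.Perm.ext_iff.mp ((hcomm.pow_left m).zpow_right _).eq x, h, ← Perm.mul_apply, ← zpow_add]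
          congr 2
          push_cast
          ring
      rcases horbit x hxs (d x) (hpres x hxs) (d (d x)) (hpres _ (hpres x hxs)) with ⟨i, hi⟩ | ⟨i, hi⟩ | ⟨i, hi⟩
      · have := hiter 1 i (by rw [pow_one]; exact hi.symm) 10
        rw [pow_one] at this
        rw [this, show i * ((10 : ℕ) : ℤ) = 5 * (2 * i) by push_cast; ring, hfixpow]
      · have := hiter 2 i (by rw [pow_two, Perm.mul_apply]; exact hi.symm) 5
        rw [← pow_mul] at this
        rw [this, show i * ((5 : ℕ) : ℤ) = 5 * i by push_cast; ring, hfixpow]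
      · have h1 : d x = (u ^ i) x := d.injective (by
          rw [show d ((u ^ i) x) = (u ^ i) (d x) from Equiv.Perm.ext_iff.mp (hcomm.zpow_right i).eq x]
          exact hi.symm)
        have := hiter 1 i (by rw [pow_one]; exact h1) 10
        rw [pow_one] at this
        rw [this, show i * ((10 : ℕ) : ℤ) = 5 * (2 * i) by push_cast; ring, hfixpow]
  exact alternatingGroup_le_of_isPreprimitive_of_isThreeCycle_mem hprim hw3 (hfin ▸ K.pow_mem hdK 10)

/-- A primitive group of even permutations of degree 13 with an 11-cycle contains all even permutations. -/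
theorem alternatingGroup_le_degree13 (K : Subgroup (Equiv.Perm β)) (h13 : Fintype.card β = 13)
    (hprim : IsPreprimitive K β) (heven : K ≤ alternatingGroup β) {g : Equiv.Perm β} (hg : g ∈ K)
    (hgc : g.IsCycle) (hgs : g.support.card = 11) : alternatingGroup β ≤ K := by
  classical
  haveI : Fact (Nat.Prime 11) := ⟨by norm_num⟩
  by_contra hcon
  set F : Set β := (g.support : Set β)ᶜ with hF
  have hF2 : F.ncard = 2 := by
    have := Set.ncard_add_ncard_compl (g.support : Set β)
    rw [Set.ncard_coe_finset, hgs, ← hF, Nat.card_eq_fintype_card, h13] at this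
    omega
  have hpre : IsMultiplyPreprimitive K β 3 := by
    refine hprim.isMultiplyPreprimitive (s := F) (n := 1) hF2 (by rw [Nat.card_eq_fintype_card, h13]; norm_num) ?_
    have := isPretransitive_of_isCycle_mem hgc hg
    apply IsPreprimitive.of_prime_card
    convert! (by norm_num : Nat.Prime 11)
    rw [Nat.card_eq_fintype_card, Fintype.card_subtype, ← hgs]
    apply congr_arg
    ext x
    simp [hF, SubMulAction.mem_ofFixingSubgroup_iff]
  haveI hmt : IsMultiplyPretransitive K β 3 := IsMultiplyPreprimitive.isMultiplyPretransitive ..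
  have hno55 : ∀ u ∈ K, orderOf u = 5 → u.support.card ≠ 10 := fun u hu ho hs =>
    hcon (alternatingGroup_le_of_five_five K h13 hprim hmt hu ho hs)
  obtain ⟨a, b, hab, hFab⟩ := Set.ncard_eq_two.mp hF2
  have ha : g a = a := fixes_support.mp (hFab ▸ Set.mem_insert a _ : a ∈ F)
  have hb : g b = b := fixes_support.mp (hFab ▸ Set.mem_insert_of_mem a rfl : b ∈ F)
  set Kab : Subgroup K := stabilizer K a ⊓ stabilizer K b with hKab
  set gg : K := ⟨g, hg⟩ with hgg
  have hggab : gg ∈ Kab := ⟨ha, hb⟩
  have hsupp : ∀ z, z ∈ g.support ↔ z ≠ a ∧ z ≠ b := by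
    intro z
    have : z ∈ F ↔ z = a ∨ z = b := by rw [hFab]; simp
    rw [← not_or, ← this, hF]
    simp
  have hKabS : ∀ h : Kab, ∀ z ∈ g.support, ((h : K) : Equiv.Perm β) z ∈ g.support := by
    intro h z hz
    rw [hsupp] at hz ⊢
    refine ⟨fun e => hz.1 ?_, fun e => hz.2 ?_⟩
    · exact ((h : K) : Equiv.Perm β).injective (e.trans h.2.1.symm)
    · exact ((h : K) : Equiv.Perm β).injective (e.trans h.2.2.symm)
  have hog : orderOf g = 11 := by rw [hgc.orderOf, hgs]
  obtain ⟨c, hc⟩ : g.support.Nonempty := Finset.card_pos.mp (by omega)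
  -- g generates a Sylow subgroup of Kab
  let r : Kab →* Equiv.Perm {z // z ∈ g.support} :=
    { toFun := fun h => Perm.subtypePerm ((h : K) : Equiv.Perm β) (fun z => by
        refine ⟨fun hz => ?_, hKabS h z⟩
        have h1 := hKabS h⁻¹ _ hz
        simpa using h1)
      map_one' := by ext; rfl
      map_mul' := fun u v => by ext; rfl }
  have hr : Function.Injective r := by
    intro u v huv
    apply Subtype.ext
    apply Subtype.ext
    apply Equiv.Perm.ext
    intro z
    by_cases hz : z ∈ g.support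
    · exact congrArg Subtype.val (Equiv.Perm.ext_iff.mp huv ⟨z, hz⟩)
    · rw [hsupp, not_and_or, not_not, not_not] at hz
      rcases hz with rfl | rfl
      · exact u.2.1.trans v.2.1.symm
      · exact u.2.2.trans v.2.2.symm
  have hdvd : Nat.card Kab ∣ Nat.factorial 11 := by
    have := Subgroup.card_dvd_of_injective r hr
    rwa [Nat.card_perm, Nat.card_eq_fintype_card (α := {z // z ∈ g.support}), Fintype.card_coe, hgs] at this
  have hogg : orderOf (⟨gg, hggab⟩ : Kab) = 11 := by
    rw [Subgroup.orderOf_mk, hgg, Subgroup.orderOf_mk]; exact hog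
  obtain ⟨P, hP⟩ := (IsPGroup.of_card (p := 11) (n := 1) (G := Subgroup.zpowers (⟨gg, hggab⟩ : Kab))
    (by rw [Nat.card_zpowers, hogg, pow_one])).exists_le_sylow
  have hPeq : (P : Subgroup Kab) = Subgroup.zpowers (⟨gg, hggab⟩ : Kab) := by
    refine (Subgroup.eq_of_le_of_card_ge hP ?_).symm
    obtain ⟨j, hj⟩ := P.isPGroup'.exists_card_eq
    rw [Nat.card_zpowers, hogg, hj]
    rcases Nat.lt_or_ge j 2 with h2 | h2
    · calc 11 ^ j ≤ 11 ^ 1 := Nat.pow_le_pow_right (by norm_num) (by omega)
        _ = 11 := pow_one 11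
    · exfalso
      have := ((pow_dvd_pow 11 h2).trans (hj ▸ Subgroup.card_subgroup_dvd_card (P : Subgroup Kab))).trans hdvd
      norm_num [Nat.factorial] at this
  -- the normaliser of g in Kab is generated by g
  have hNP : Subgroup.normalizer ((P : Subgroup Kab) : Set Kab) = P := by
    refine le_antisymm (fun h hh => ?_) Subgroup.le_normalizer
    rw [hPeq] at hh ⊢
    obtain ⟨rr, hrr⟩ := (Subgroup.mem_normalizer_iff.mp hh ⟨gg, hggab⟩).mp (Subgroup.mem_zpowers _)
    set hp : Equiv.Perm β := ((h : K) : Equiv.Perm β) with hhp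
    have hrel : hp * g * hp⁻¹ = g ^ rr := by
      have := congrArg (fun t : Kab => ((t : K) : Equiv.Perm β)) hrr
      simpa [hhp, hgg] using this.symm
    obtain ⟨i, hi⟩ := hgc.sameCycle (mem_support.mp hc) (mem_support.mp (hKabS h c hc))
    set k := g ^ (-i) * hp with hk
    have hkK : k ∈ K := K.mul_mem (K.zpow_mem hg _) (h : K).2
    have hka : k a = a := by
      rw [hk, Perm.mul_apply, show hp a = a from h.2.1]
      exact zpow_apply_eq_self_of_apply_eq_self ha _
    have hkb : k b = b := by
      rw [hk, Perm.mul_apply, show hp b = b from h.2.2]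
      exact zpow_apply_eq_self_of_apply_eq_self hb _
    have hkc : k c = c := by
      rw [hk, Perm.mul_apply, ← hi, ← Perm.mul_apply, ← zpow_add, neg_add_cancel, zpow_zero, Perm.one_apply]
    have hkg : ∀ n : ℤ, k * g ^ n = g ^ (rr * n) * k := by
      intro n
      have h1 : k * g * k⁻¹ = g ^ rr := by
        rw [hk]
        calc g ^ (-i) * hp * g * (g ^ (-i) * hp)⁻¹ = g ^ (-i) * (hp * g * hp⁻¹) * g ^ i := by group
          _ = g ^ rr := by rw [hrel]; group
      have h2 : (k * g * k⁻¹) ^ n = k * g ^ n * k⁻¹ := conj_zpow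
      rw [h1, ← zpow_mul] at h2
      rw [h2]; group
    have hkn : ∀ (m : ℕ) (n : ℤ), (k ^ m) ((g ^ n) c) = (g ^ (rr ^ m * n)) c := by
      intro m
      induction m with
      | zero => intro n; simp
      | succ m ih =>
        intro n
        rw [pow_succ', Perm.mul_apply, ih, ← Perm.mul_apply, hkg, Perm.mul_apply, hkc]
        congr 2
        ring
    have hdvd' : ∀ n : ℤ, (g ^ n) c = c ↔ (11 : ℤ) ∣ n := by
      intro n
      constructor
      · intro hn
        by_contra hd
        have hco : IsCoprime (11 : ℤ) n := (Int.prime_iff_natAbs_prime.mpr (by norm_num)).coprime_iff_not_dvd.mpr hd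
        obtain ⟨u, v, huv⟩ := hco
        apply mem_support.mp hc
        have h1 : (g ^ (u * 11 + v * n)) c = c := by
          rw [zpow_add, Perm.mul_apply, mul_comm v n, zpow_mul g n v, zpow_apply_eq_self_of_apply_eq_self hn,
            mul_comm u 11, zpow_mul g 11 u, show (11 : ℤ) = ((11 : ℕ) : ℤ) from rfl, zpow_natCast, ← hog,
            pow_orderOf_eq_one, one_zpow, Perm.one_apply]
        rwa [huv, zpow_one] at h1
      · rintro ⟨d, rfl⟩
        rw [zpow_mul, show (11 : ℤ) = ((11 : ℕ) : ℤ) from rfl, zpow_natCast, ← hog, pow_orderOf_eq_one, one_zpow,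
          Perm.one_apply]
    have hfixiff : ∀ (m : ℕ) (n : ℤ), (k ^ m) ((g ^ n) c) = (g ^ n) c ↔ (11 : ℤ) ∣ (rr ^ m - 1) * n := by
      intro m n
      rw [hkn, ← hdvd', sub_mul, one_mul, sub_eq_neg_add, zpow_add, Perm.mul_apply]
      constructor
      · intro e; rw [e, ← Perm.mul_apply, ← zpow_add, neg_add_cancel, zpow_zero, Perm.one_apply]
      · intro e
        have := congrArg (g ^ n) e
        rwa [← Perm.mul_apply, ← Perm.mul_apply, mul_assoc, ← zpow_add, ← zpow_add, add_neg_cancel_left] at this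
    have hpowfix : ∀ m : ℕ, (11 : ℤ) ∣ rr ^ m - 1 → k ^ m = 1 := by
      intro m hm
      apply Equiv.Perm.ext
      intro z
      rw [Perm.one_apply]
      by_cases hz : z ∈ g.support
      · obtain ⟨n, rfl⟩ := hgc.sameCycle (mem_support.mp hc) (mem_support.mp hz)
        exact (hfixiff m n).mpr (hm.mul_right n)
      · rw [hsupp, not_and_or, not_not, not_not] at hz
        rcases hz with rfl | rfl
        · exact pow_apply_eq_self_of_apply_eq_self hka m
        · exact pow_apply_eq_self_of_apply_eq_self hkb m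
    have hsupp10 : ∀ m : ℕ, ¬ (11 : ℤ) ∣ rr ^ m - 1 → (k ^ m).support.card = 10 := by
      intro m hm
      have : (k ^ m).support = g.support.erase c := by
        ext z
        rw [mem_support, Finset.mem_erase]
        constructor
        · intro hz
          have hzS : z ∈ g.support := by
            by_contra hzS
            rw [hsupp, not_and_or, not_not, not_not] at hzS
            rcases hzS with rfl | rfl
            · exact hz (pow_apply_eq_self_of_apply_eq_self hka m)
            · exact hz (pow_apply_eq_self_of_apply_eq_self hkb m)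
          exact ⟨fun e => hz (e ▸ pow_apply_eq_self_of_apply_eq_self hkc m), hzS⟩
        · rintro ⟨hzc, hzS⟩
          obtain ⟨n, rfl⟩ := hgc.sameCycle (mem_support.mp hc) (mem_support.mp hzS)
          intro e
          rw [hfixiff] at e
          rcases (Int.prime_iff_natAbs_prime.mpr (by norm_num : Nat.Prime (Int.natAbs 11))).dvd_mul.mp e with h1 | h1
          · exact hm h1
          · exact hzc ((hdvd' n).mpr h1)
      rw [this, Finset.card_erase_of_mem hc, hgs]
    have hrr0 : ¬ (11 : ℤ) ∣ rr := by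
      intro hd
      obtain ⟨d, hd⟩ := hd
      have : hp * g * hp⁻¹ = 1 := by
        rw [hrel, hd, zpow_mul, show (11 : ℤ) = ((11 : ℕ) : ℤ) from rfl, zpow_natCast, ← hog, pow_orderOf_eq_one, one_zpow]
      rw [conj_eq_one_iff] at this
      exact hgc.ne_one this
    have h10 : (11 : ℤ) ∣ rr ^ 10 - 1 := by
      have h := Int.ModEq.pow_card_sub_one_eq_one (by norm_num : Nat.Prime 11)
        ((Int.prime_iff_natAbs_prime.mpr (by norm_num : Nat.Prime (Int.natAbs 11))).coprime_iff_not_dvd.mpr hrr0).symm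
      have := Int.ModEq.dvd h.symm
      norm_num at this
      exact this
    by_cases h1 : (11 : ℤ) ∣ rr ^ 1 - 1
    · have := hpowfix 1 h1
      rw [pow_one, hk] at this
      refine ⟨i, Subtype.ext (Subtype.ext ?_)⟩
      have h2 := congrArg (g ^ i * ·) this
      simp only [← mul_assoc, ← zpow_add, add_neg_cancel, zpow_zero, one_mul, mul_one] at h2
      simp only [hgg, Subgroup.coe_zpow]
      exact h2.symm
    exfalso
    by_cases h2 : (11 : ℤ) ∣ rr ^ 2 - 1
    · have hk2 := hpowfix 2 h2
      have hs := hsupp10 1 h1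
      rw [pow_one] at hs
      have ho : orderOf k = 2 := by
        refine orderOf_eq_prime hk2 fun e => ?_
        rw [e, support_one, Finset.card_empty] at hs
        omega
      obtain ⟨n, hn⟩ := Equiv.Perm.cycleType_prime_order (σ := k) (by rw [ho]; norm_num)
      rw [ho] at hn
      have hsum := k.sum_cycleType
      rw [hn, Multiset.sum_replicate, smul_eq_mul, hs] at hsum
      have hsg : Equiv.Perm.sign k = 1 := Equiv.Perm.mem_alternatingGroup.mp (heven hkK)
      rw [Equiv.Perm.sign_of_cycleType, hn, Multiset.sum_replicate, Multiset.card_replicate,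
        show n + 1 = 5 by omega] at hsg
      exact absurd hsg (by decide)
    · have hs := hsupp10 2 h2
      refine hno55 (k ^ 2) (K.pow_mem hkK 2) ?_ hs
      haveI : Fact (Nat.Prime 5) := ⟨by norm_num⟩
      refine orderOf_eq_prime (by rw [← pow_mul]; exact hpowfix 10 h10) fun e => ?_
      rw [e, support_one, Finset.card_empty] at hs
      omega
  -- Burnside transfer forces |Kab| = 11
  have hP11 : Nat.card P = 11 := by rw [hPeq, Nat.card_zpowers, hogg]
  have hle : Subgroup.normalizer ((P : Subgroup Kab) : Set Kab) ≤ Subgroup.centralizer ((P : Subgroup Kab) : Set Kab) := by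
    rw [hNP]
    haveI : IsCyclic (P : Subgroup Kab) := isCyclic_of_prime_card hP11
    exact (P : Subgroup Kab).le_centralizer
  have hcompl := MonoidHom.ker_transferSylow_isComplement' P hle
  set M := (MonoidHom.transferSylow P hle).ker with hM
  set S := stabilizer Kab c with hS
  have horbc : Nat.card (orbit Kab c) = 11 := by
    have he : orbit Kab c = (g.support : Set β) := by
      ext z
      constructor
      · rintro ⟨h, rfl⟩
        exact hKabS h c hc
      · intro hz
        obtain ⟨n, hn⟩ := hgc.sameCycle (mem_support.mp hc) (mem_support.mp hz)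
        exact ⟨⟨gg, hggab⟩ ^ n, hn⟩
    rw [he, Nat.card_coe_set_eq, Set.ncard_coe_finset, hgs]
  have hScard : Nat.card S * 11 = Nat.card Kab := by
    rw [← horbc, Nat.card_congr (orbitEquivQuotientStabilizer Kab c), mul_comm]
    exact S.index_mul_card
  have hMcard : Nat.card M * 11 = Nat.card Kab := by rw [← hP11]; exact hcompl.card_mul
  have hS11 : ¬ 11 ∣ Nat.card S := by
    intro hd
    have := ((Nat.mul_dvd_mul_right hd 11).trans (dvd_of_eq hScard)).trans hdvd
    norm_num [Nat.factorial] at this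
  have hSM : S ≤ M := by
    intro s hs
    have hi : orderOf (QuotientGroup.mk' M s) ∣ 11 := by
      have := orderOf_dvd_natCard (QuotientGroup.mk' M s)
      rwa [show Nat.card (Kab ⧸ M) = 11 from Nat.eq_of_mul_eq_mul_right (Nat.card_pos (α := M))
        (by rw [mul_comm 11, hMcard]; exact M.index_mul_card)] at this
    have hj : orderOf (QuotientGroup.mk' M s) ∣ Nat.card S :=
      (orderOf_map_dvd _ s).trans (Subgroup.orderOf_dvd_natCard S hs)
    have := Nat.eq_one_of_dvd_coprimes ((Nat.Prime.coprime_iff_not_dvd (by norm_num : Nat.Prime 11)).mpr hS11) hi hj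
    exact (QuotientGroup.eq_one_iff s).mp (orderOf_eq_one_iff.mp this)
  have hSeq : S = M := Subgroup.eq_of_le_of_card_ge hSM (by omega)
  have hS1 : S = ⊥ := by
    rw [eq_bot_iff]
    intro s hs
    rw [Subgroup.mem_bot]
    apply hr
    rw [map_one]
    ext ⟨z, hz⟩
    obtain ⟨n, hn⟩ := hgc.sameCycle (mem_support.mp hc) (mem_support.mp hz)
    have hconj : ((⟨gg, hggab⟩ : Kab) ^ n)⁻¹ * s * (⟨gg, hggab⟩ : Kab) ^ n ∈ S := by
      rw [hSeq] at hs ⊢
      have := (MonoidHom.normal_ker (MonoidHom.transferSylow P hle)).conj_mem s hs ((⟨gg, hggab⟩ : Kab) ^ n)⁻¹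
      rwa [inv_inv] at this
    have h1 : (((⟨gg, hggab⟩ : Kab) ^ n)⁻¹ * s * (⟨gg, hggab⟩ : Kab) ^ n) • c = c := hconj
    have hz' : ((⟨gg, hggab⟩ : Kab) ^ n) • c = z := hn
    rw [mul_smul, hz', mul_smul, inv_smul_eq_iff, hz'] at h1
    exact h1
  have hKab11 : Nat.card Kab = 11 := by rw [← hScard, hS1, Subgroup.card_bot]
  -- the stabiliser of a point has order 132
  haveI := isPretransitive_of_is_two_pretransitive (h2 := isMultiplyPretransitive_of_le' (n := 3) (by norm_num)
    (by rw [ENat.card_eq_coe_natCard, Nat.card_eq_fintype_card, h13]; norm_num)) (G := K) (α := β)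
  set Ka := stabilizer K a with hKa
  have horbb : Nat.card (orbit Ka b) = 12 := by
    have he : orbit Ka b = ({a} : Set β)ᶜ := by
      ext z
      simp only [Set.mem_compl_iff, Set.mem_singleton_iff]
      constructor
      · rintro ⟨h, rfl⟩ e
        apply hab
        have := ((h : K) : Equiv.Perm β).injective (h.2.trans e.symm)
        exact this
      · intro hz
        haveI h2t : IsMultiplyPretransitive K β 2 := isMultiplyPretransitive_of_le' (n := 3) (by norm_num)
          (by rw [ENat.card_eq_coe_natCard, Nat.card_eq_fintype_card, h13]; norm_num)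
        obtain ⟨h, ha', hb'⟩ := is_two_pretransitive_iff.mp h2t hab (Ne.symm hz)
        exact ⟨⟨h, ha'⟩, hb'⟩
    rw [he, Nat.card_coe_set_eq, Set.ncard_compl, Set.ncard_singleton, Nat.card_eq_fintype_card, h13]
  have hKacard : Nat.card Ka = 132 := by
    have h1 : Nat.card (stabilizer Ka b) = Nat.card Kab := Nat.card_congr
      { toFun := fun h => ⟨h.1.1, h.1.2, h.2⟩
        invFun := fun h => ⟨⟨h.1, h.2.1⟩, h.2.2⟩
        left_inv := fun _ => rfl
        right_inv := fun _ => rfl }
    have h2 := (stabilizer Ka b).index_mul_card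
    rw [show (stabilizer Ka b).index = 12 by
      rw [← horbb, Nat.card_congr (orbitEquivQuotientStabilizer Ka b)]; rfl, h1, hKab11] at h2
    omega
  refine no_group_132 hKacard fun h1 => ?_
  haveI := (Nat.card_eq_one_iff_unique.mp h1).1
  set gk : Ka := ⟨gg, (show gg ∈ Ka from ha)⟩ with hgk
  obtain ⟨Q, hQ⟩ := (IsPGroup.of_card (p := 11) (n := 1) (G := Subgroup.zpowers gk)
    (by rw [Nat.card_zpowers, hgk, Subgroup.orderOf_mk, hgg, Subgroup.orderOf_mk, hog, pow_one])).exists_le_sylow
  have hQn : (Q : Subgroup Ka).Normal := Sylow.normal_of_subsingleton Q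
  have hQeq : (Q : Subgroup Ka) = Subgroup.zpowers gk := by
    refine (Subgroup.eq_of_le_of_card_ge hQ ?_).symm
    rw [Nat.card_zpowers, hgk, Subgroup.orderOf_mk, hgg, Subgroup.orderOf_mk, hog,
      CfsgLib.Perm.sylow_card Q (k := 1) (m := 12) (by rw [hKacard]; norm_num) (by norm_num), pow_one]
  obtain ⟨⟨h, hh⟩, hhc⟩ : c ∈ orbit Ka b := by
    have : c ∈ ({a} : Set β)ᶜ := by simpa using ((hsupp c).mp hc).1
    haveI h2t : IsMultiplyPretransitive K β 2 := isMultiplyPretransitive_of_le' (n := 3) (by norm_num)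
      (by rw [ENat.card_eq_coe_natCard, Nat.card_eq_fintype_card, h13]; norm_num)
    obtain ⟨h, ha', hb'⟩ := is_two_pretransitive_iff.mp h2t hab (Ne.symm ((hsupp c).mp hc).1)
    exact ⟨⟨h, ha'⟩, hb'⟩
  have hm : (⟨h, hh⟩ : Ka)⁻¹ * gk * (⟨h, hh⟩ : Ka)⁻¹⁻¹ ∈ (Q : Subgroup Ka) :=
    hQn.conj_mem gk (hQeq ▸ Subgroup.mem_zpowers gk) _
  rw [hQeq] at hm
  obtain ⟨n, hn⟩ := hm
  apply mem_support.mp hc
  have h2 : ((⟨h, hh⟩ : Ka)⁻¹ * gk * (⟨h, hh⟩ : Ka)) • b = b := by
    rw [inv_inv] at hn
    rw [← hn]
    change ((gk ^ n : Ka) : K).1 b = b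
    simp only [hgk, hgg, Subgroup.coe_zpow]
    exact zpow_apply_eq_self_of_apply_eq_self hb n
  rw [mul_smul, mul_smul, show (⟨h, hh⟩ : Ka) • b = c from hhc, inv_smul_eq_iff,
    show (⟨h, hh⟩ : Ka) • b = c from hhc] at h2
  exact h2

end CfsgLib.TwoPrime
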