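import Cfsg.Prelude.Def_Transfer
import Cfsg.Agent.Lib.CoreGen
import Cfsg.Agent.Lib.CoreCoprime2
import Cfsg.Agent.Lib.CharCN3
import Cfsg.Agent.Lib.CoreOmega

/-!
# Cyclic eigen-subgroups for an elementary abelian 2-group acting on a nilpotent group
-/

set_option autoImplicit false

universe u

namespace CfsgLib.EigenChain

variable {S : Type u} [Group S] [Finite S]

theorem inverted_of_not_comm {K B : Subgroup S} {a g : S} (ha : a * a = 1) (haK : a ∈ Subgroup.normalizer (K : Set S))
    (hBa : ∀ b ∈ B, b * a = a * b) (hg : g ∈ K) (hgB : g ∈ Subgroup.centralizer (B : Set S))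
    (hga : g * a ≠ a * g) :
    ∃ v ∈ K, v ≠ 1 ∧ v ∈ Subgroup.centralizer (B : Set S) ∧ a * v * a⁻¹ = v⁻¹ := by
  refine ⟨g⁻¹ * (a * g * a⁻¹), mul_mem (inv_mem hg) ((Subgroup.mem_normalizer_iff.1 haK g).1 hg), ?_, ?_, ?_⟩
  · intro e
    apply hga
    rw [inv_mul_eq_one] at e
    calc g * a = a * g * a⁻¹ * a := by rw [← e]
      _ = a * g := by group
  · have hac : a ∈ Subgroup.centralizer (B : Set S) := Subgroup.mem_centralizer_iff.2 hBa
    exact mul_mem (inv_mem hgB) (mul_mem (mul_mem hac hgB) (inv_mem hac))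
  · calc a * (g⁻¹ * (a * g * a⁻¹)) * a⁻¹ = a * g⁻¹ * a * g * (a * a)⁻¹ := by group
      _ = a * g⁻¹ * a * g := by rw [ha]; simp
      _ = (g⁻¹ * (a * g * a⁻¹))⁻¹ := by
        have : a⁻¹ = a := inv_eq_of_mul_eq_one_right ha
        rw [mul_inv_rev, mul_inv_rev, mul_inv_rev, inv_inv, inv_inv, this]
        group

theorem chain (I : Subgroup S) (hIe : Cfsg.IsElementaryAbelian 2 I) :
    ∀ (n : ℕ) (K J : Subgroup S), Group.IsNilpotent K → Odd (Nat.card K) →
    I ≤ Subgroup.normalizer (K : Set S) → J ≤ I → Nat.card J = 2 ^ n →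
    J ⊓ Subgroup.centralizer (K : Set S) = ⊥ →
    ∃ f : Fin n → Subgroup S, (∀ i, (Nat.card ↥(f i)).Prime) ∧ (∀ i, f i ≤ K) ∧
      (∀ i, I ≤ Subgroup.normalizer ((f i) : Set S)) ∧
      (∀ i j, i ≠ j → ∀ a ∈ f i, ∀ b ∈ f j, a * b = b * a) ∧
      Nat.card ↥(⨆ i, f i) = ∏ i, Nat.card ↥(f i) ∧
      (⨆ i, f i) ⊓ Subgroup.centralizer (J : Set S) = ⊥ ∧
      J ⊓ Subgroup.centralizer ((⨆ i, f i : Subgroup S) : Set S) = ⊥
  | 0, K, J, _, _, _, _, hJ, _ => by
    have hJ0 : J = ⊥ := Subgroup.card_eq_one.1 (by simpa using hJ)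
    refine ⟨Fin.elim0, fun i => i.elim0, fun i => i.elim0, fun i => i.elim0, fun i => i.elim0, ?_, ?_, ?_⟩
    · simp [iSup_of_empty]
    · simp [iSup_of_empty]
    · rw [hJ0, bot_inf_eq]
  | n + 1, K, J, hKn, hKo, hIK, hJI, hJ, hfaith => by
    haveI := hKn
    haveI hIc : IsMulCommutative I := hIe.1
    have hsq : ∀ x ∈ I, x * x = 1 := fun x hx => by rw [← pow_two]; exact hIe.2 x hx
    have hcomm : ∀ x ∈ I, ∀ y ∈ I, x * y = y * x := fun x hx y hy =>
      congrArg Subtype.val (hIc.is_comm.comm ⟨x, hx⟩ ⟨y, hy⟩)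
    have hcop : (Nat.card I).Coprime (Nat.card K) := by
      haveI : Fact (Nat.Prime 2) := ⟨Nat.prime_two⟩
      obtain ⟨e, he⟩ := IsPGroup.iff_card.1 (show IsPGroup 2 I from fun x => ⟨1, Subtype.ext (by simpa using hIe.2 x x.2)⟩)
      rw [he]; exact (Nat.coprime_two_left.2 hKo).pow_left _
    have hJne : J ≠ ⊥ := fun e => by
      have := hJ
      rw [e, Subgroup.card_bot] at this
      exact absurd this.symm (by simp)
    -- a hyperplane whose fixed points are moved
    obtain ⟨B, hB, g, hgK, hgJ⟩ : ∃ B ∈ CfsgLib.Core.Cocyclic I,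
        ∃ g ∈ K ⊓ Subgroup.centralizer (B : Set S), g ∉ Subgroup.centralizer (J : Set S) := by
      by_contra hcon
      push Not at hcon
      have h : K ≤ Subgroup.centralizer (J : Set S) :=
        (CfsgLib.Core.generated_by_cocyclic hIK hcop).ge.trans (iSup₂_le fun B hB g hg => hcon B hB g hg)
      apply hJne
      rw [← hfaith, inf_eq_left.2 (Subgroup.le_centralizer_iff.1 h)]
    obtain ⟨hBI, a₀, ha₀, hBa₀⟩ := hB
    obtain ⟨a, haJ, hga⟩ : ∃ a ∈ J, g * a ≠ a * g := by
      by_contra hcon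
      push Not at hcon
      exact hgJ (Subgroup.mem_centralizer_iff.2 fun x hx => (hcon x hx).symm)
    have haI : a ∈ I := hJI haJ
    have hBa : B ⊔ Subgroup.zpowers a = I := by
      refine le_antisymm (sup_le hBI (Subgroup.zpowers_le.2 haI)) ?_
      have hn : Subgroup.zpowers a₀ ≤ Subgroup.normalizer (B : Set S) := by
        refine (Subgroup.zpowers_le.2 ?_).trans (CfsgLib.Core.centralizer_le_normalizer B)
        rw [Subgroup.mem_centralizer_iff]
        exact fun b hb => hcomm b (hBI hb) a₀ ha₀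
      obtain ⟨w, hw, b, hb, e⟩ := (CfsgLib.Core.mem_sup_iff_of_le_normalizer hn).1
        (show a ∈ Subgroup.zpowers a₀ ⊔ B by rw [sup_comm, hBa₀]; exact haI)
      have hgb : g * b = b * g := (Subgroup.mem_centralizer_iff.1 hgK.2 b hb).symm
      obtain ⟨i, rfl⟩ := hw
      simp only at e
      rcases Int.even_or_odd i with ⟨k, rfl⟩ | ⟨k, rfl⟩
      · exfalso
        apply hga
        have e1 : a₀ ^ (k + k) = 1 := by
          rw [zpow_add, ← (Commute.refl a₀).mul_zpow, hsq a₀ ha₀, one_zpow]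
        rw [← e, e1, one_mul]; exact hgb
      · have e1 : a₀ ^ (2 * k + 1) = a₀ := by
          rw [zpow_add, two_mul, zpow_add, ← (Commute.refl a₀).mul_zpow, hsq a₀ ha₀, one_zpow, one_mul, zpow_one]
        rw [← hBa₀]
        refine sup_le le_sup_left (Subgroup.zpowers_le.2 ?_)
        have : a₀ = a * b⁻¹ := by rw [← e, e1, mul_inv_cancel_right]
        rw [this]
        exact mul_mem (Subgroup.mem_sup_right (Subgroup.mem_zpowers a)) (Subgroup.mem_sup_left (inv_mem hb))
    obtain ⟨v, hvK, hv1, hvB, hva⟩ := inverted_of_not_comm (hsq a haI) (hIK haI)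
      (fun b hb => hcomm b (hBI hb) a haI) hgK.1 hgK.2 hga
    obtain ⟨r, hr, hrd⟩ := Nat.exists_prime_and_dvd (fun h => hv1 (orderOf_eq_one_iff.1 h))
    haveI := Fact.mk hr
    set u := v ^ (orderOf v / r) with hu
    have huK : u ∈ K := pow_mem hvK _
    have hur : orderOf u = r := by
      rw [hu, orderOf_pow_of_dvd (Nat.div_pos (Nat.le_of_dvd (orderOf_pos v) hrd) hr.pos).ne'
        (Nat.div_dvd_of_dvd hrd), Nat.div_div_self hrd (orderOf_pos v).ne']
    have hu1 : u ≠ 1 := fun e => hr.ne_one (by rw [← hur, e, orderOf_one])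
    have hua : a * u * a⁻¹ = u⁻¹ := by rw [hu, ← conj_pow, hva, inv_pow]
    have huB : u ∈ Subgroup.centralizer (B : Set S) := pow_mem hvB _
    have hr2 : r ≠ 2 := fun e => hKo.not_two_dvd_nat (e ▸ hur ▸ Subgroup.orderOf_dvd_natCard _ huK)
    have haI2 : a ∉ Subgroup.centralizer ({u} : Set S) := by
      intro h
      have e : u * a = a * u := Subgroup.mem_centralizer_iff.1 h u rfl
      rw [← e, mul_inv_cancel_right] at hua
      refine hr2 ((Nat.prime_dvd_prime_iff_eq hr Nat.prime_two).1 ?_)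
      rw [← hur]
      exact orderOf_dvd_of_pow_eq_one (by rw [pow_two]; nth_rw 2 [hua]; simp)
    set A₁ := Subgroup.zpowers u with hA₁
    have hA₁I : I ≤ Subgroup.normalizer (A₁ : Set S) := by
      rw [← hBa]
      refine sup_le (fun b hb => ?_) (Subgroup.zpowers_le.2 ?_)
      · refine CfsgLib.Core.centralizer_le_normalizer _ ?_
        rw [Subgroup.mem_centralizer_iff]
        rintro _ ⟨i, rfl⟩
        exact (((show Commute b u from Subgroup.mem_centralizer_iff.1 huB b hb)).zpow_right i).eq.symm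
      · rw [Subgroup.mem_normalizer_iff]
        intro x
        have hmap : ∀ y ∈ A₁, a * y * a⁻¹ ∈ A₁ := by
          rintro _ ⟨i, rfl⟩
          exact ⟨-i, by show u ^ (-i) = a * u ^ i * a⁻¹; rw [← conj_zpow, hua, inv_zpow, zpow_neg]⟩
        refine ⟨hmap x, fun h => ?_⟩
        have := hmap _ h
        rwa [show a * (a * x * a⁻¹) * a⁻¹ = (a * a) * x * (a * a)⁻¹ by group, hsq a haI,
          one_mul, inv_one, mul_one] at this
    set J₂ := J ⊓ Subgroup.centralizer ({u} : Set S) with hJ₂
    set K₂ := K ⊓ Subgroup.centralizer ({u} : Set S) with hK₂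
    have hJ₂card : Nat.card J₂ = 2 ^ n := by
      have hd : Nat.card J₂ ∣ 2 ^ (n + 1) := hJ ▸ Subgroup.card_dvd_of_le inf_le_left
      obtain ⟨m, hm, hmc⟩ := (Nat.dvd_prime_pow Nat.prime_two).1 hd
      have hlt : Nat.card J₂ < Nat.card J := by
        refine lt_of_le_of_ne (Nat.le_of_dvd Nat.card_pos (Subgroup.card_dvd_of_le inf_le_left)) fun e => ?_
        exact haI2 (((Subgroup.eq_of_le_of_card_ge inf_le_left e.ge).ge haJ : a ∈ J₂)).2
      have hza : Nat.card (Subgroup.zpowers a) ≤ 2 := by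
        rw [Nat.card_zpowers]
        exact Nat.le_of_dvd two_pos (orderOf_dvd_of_pow_eq_one (hIe.2 a haI))
      have habel : ∀ X : Subgroup S, X ≤ I → ∀ Y : Subgroup S, Y ≤ I → X ≤ Subgroup.normalizer (Y : Set S) :=
        fun X hX Y hY x hx => CfsgLib.Core.centralizer_le_normalizer _
          (Subgroup.mem_centralizer_iff.2 fun y hy => hcomm y (hY hy) x (hX hx))
      have hge : Nat.card I ≤ Nat.card B * 2 := by
        have h := CfsgLib.Core.card_sup_mul_card_inf (A := B) (K := Subgroup.zpowers a)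
          (habel B hBI _ (Subgroup.zpowers_le.2 haI))
        rw [hBa] at h
        calc Nat.card I ≤ Nat.card I * Nat.card ↥(B ⊓ Subgroup.zpowers a) :=
              Nat.le_mul_of_pos_right _ Nat.card_pos
          _ = Nat.card B * Nat.card (Subgroup.zpowers a) := h
          _ ≤ _ := Nat.mul_le_mul le_rfl hza
      have h := CfsgLib.Core.card_sup_mul_card_inf (A := J) (K := B) (habel J hJI B hBI)
      have hle : J ⊓ B ≤ J₂ := le_inf inf_le_left (inf_le_right.trans fun b hb =>
        Subgroup.mem_centralizer_iff.2 fun w hw => by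
          rw [Set.mem_singleton_iff] at hw
          rw [hw]
          exact (Subgroup.mem_centralizer_iff.1 huB b hb).symm)
      have h1 : Nat.card J ≤ Nat.card J₂ * 2 := by
        have h2 : Nat.card ↥(J ⊔ B) ≤ Nat.card B * 2 :=
          (Nat.le_of_dvd Nat.card_pos (Subgroup.card_dvd_of_le (sup_le hJI hBI))).trans hge
        have h3 : Nat.card ↥(J ⊓ B) ≤ Nat.card J₂ := Nat.le_of_dvd Nat.card_pos (Subgroup.card_dvd_of_le hle)
        have h4 : Nat.card J * Nat.card B ≤ Nat.card B * 2 * Nat.card J₂ := h ▸ Nat.mul_le_mul h2 h3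
        have hB0 : 0 < Nat.card B := Nat.card_pos
        nlinarith
      rw [hJ, hmc] at hlt h1
      rw [hmc]
      have h1' : m < n + 1 := (Nat.pow_lt_pow_iff_right (by norm_num)).1 hlt
      have h2' : n + 1 ≤ m + 1 := (Nat.pow_le_pow_iff_right (by norm_num : 1 < 2)).1 (by rw [pow_succ 2 m]; exact h1)
      rw [show m = n by omega]
    have hu' : Subgroup.centralizer (A₁ : Set S) = Subgroup.centralizer ({u} : Set S) := by
      rw [hA₁, Subgroup.zpowers_eq_closure, Subgroup.centralizer_closure]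
    -- faithfulness on the centralizer
    have hnorm₂ : I ≤ Subgroup.normalizer (K₂ : Set S) := by
      refine CfsgLib.Core.le_normalizer_inf hIK ?_
      rw [← hu']
      exact CfsgLib.Core.le_normalizer_centralizer hA₁I
    have hfaith₂ : J₂ ⊓ Subgroup.centralizer (K₂ : Set S) = ⊥ := by
      set L := J₂ ⊓ Subgroup.centralizer (K₂ : Set S) with hL
      rw [eq_bot_iff, ← hfaith]
      refine le_inf (inf_le_left.trans inf_le_left) ?_
      rw [Subgroup.le_centralizer_iff]
      refine CfsgLib.Core.le_of_sylow_le fun q hq => ?_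
      haveI := hq
      obtain ⟨P⟩ := (inferInstance : Nonempty (Sylow q K))
      refine ⟨P, ?_⟩
      set U := (P : Subgroup K).map K.subtype with hU
      haveI : (P : Subgroup K).Normal := inferInstance
      haveI : (P : Subgroup K).Characteristic := P.characteristic_of_normal inferInstance
      have hUK : K ≤ Subgroup.normalizer (U : Set S) := by
        intro k hk
        exact Subgroup.le_normalizer_map K.subtype
          ⟨⟨k, hk⟩, by rw [Subgroup.normalizer_eq_top]; exact Subgroup.mem_top _, rfl⟩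
      have hUI : I ≤ Subgroup.normalizer (U : Set S) := by
        exact CfsgLib.Core.le_normalizer_map_of_characteristic hIK (P : Subgroup K)
      by_cases hqr : q = r
      · subst hqr
        rw [Subgroup.le_centralizer_iff]
        refine CfsgLib.Core.thompson_pxq (P := A₁) (p := q) ?_ ?_ (P.2.map _) ?_
          (Subgroup.zpowers_le.2 (hUK huK)) (((inf_le_left.trans inf_le_left).trans hJI).trans hUI) ?_
        · exact IsPGroup.of_card (n := 1) (by rw [Nat.card_zpowers, hur, pow_one])
        · refine (Nat.Coprime.coprime_dvd_left (Subgroup.card_dvd_of_le (inf_le_left.trans inf_le_left)) ?_)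
          rw [hJ]
          exact ((Nat.coprime_primes Nat.prime_two hr).2 (Ne.symm hr2)).pow_left _
        · rw [Subgroup.le_centralizer_iff]
          intro x hx
          rw [Subgroup.mem_centralizer_iff]
          rintro _ ⟨i, rfl⟩
          exact ((show Commute u x from Subgroup.mem_centralizer_iff.1 hx.1.2 u rfl).zpow_left i).eq
        · refine le_trans (le_inf (inf_le_left.trans (Subgroup.map_subtype_le _)) (inf_le_right.trans
            (Subgroup.centralizer_le (by simp [hA₁])))) (Subgroup.le_centralizer_iff.1 inf_le_right)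
      · refine le_trans (le_inf (Subgroup.map_subtype_le _) ?_) (Subgroup.le_centralizer_iff.1 inf_le_right)
        rintro _ ⟨x, hx, rfl⟩
        rw [Subgroup.mem_centralizer_iff]
        rintro _ rfl
        obtain ⟨j, hj⟩ := IsPGroup.iff_orderOf.1 P.2 ⟨x, hx⟩
        refine congrArg Subtype.val (CfsgLib.CN.commute_of_coprime_orderOf (⟨u, huK⟩ : K) x ?_)
        rw [← Subgroup.orderOf_coe, hur, ← Subgroup.orderOf_mk x hx, hj]
        exact ((Nat.coprime_primes hr hq.out).2 (Ne.symm hqr)).pow_right j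
    have hK₂n : Group.IsNilpotent K₂ :=
      (Group.isNilpotent_congr (Subgroup.subgroupOfEquivOfLe (inf_le_left : K₂ ≤ K))).1 inferInstance
    obtain ⟨f, hf1, hf2, hf3, hf4, hf5, hf6, hf7⟩ := chain I hIe n K₂ J₂ hK₂n
      (hKo.of_dvd_nat (Subgroup.card_dvd_of_le inf_le_left)) hnorm₂ (inf_le_left.trans hJI) hJ₂card hfaith₂
    set S₂ := ⨆ i, f i with hS₂
    have hS₂K : S₂ ≤ K₂ := iSup_le hf2
    have hS₂u : A₁ ≤ Subgroup.centralizer (S₂ : Set S) := by
      rw [hA₁, Subgroup.zpowers_le, Subgroup.mem_centralizer_iff]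
      exact fun s hs => (Subgroup.mem_centralizer_iff.1 (hS₂K hs).2 u rfl).symm
    have hA₁J₂ : A₁ ≤ Subgroup.centralizer (J₂ : Set S) := by
      rw [hA₁, Subgroup.zpowers_le, Subgroup.mem_centralizer_iff]
      exact fun x hx => (Subgroup.mem_centralizer_iff.1 hx.2 u rfl).symm
    have hdis : A₁ ⊓ S₂ = ⊥ := by
      rw [eq_bot_iff, ← hf6]
      exact le_inf inf_le_right (inf_le_left.trans hA₁J₂)
    have hsup : (⨆ i, (Fin.cons A₁ f : Fin (n + 1) → Subgroup S) i) = A₁ ⊔ S₂ := by
      refine le_antisymm (iSup_le fun i => ?_) (sup_le ?_ (iSup_le fun i => ?_))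
      · refine Fin.cases ?_ (fun j => ?_) i
        · rw [Fin.cons_zero]; exact le_sup_left
        · rw [Fin.cons_succ]; exact (le_iSup f j).trans le_sup_right
      · have := le_iSup (Fin.cons A₁ f : Fin (n + 1) → Subgroup S) 0
        rwa [Fin.cons_zero] at this
      · have := le_iSup (Fin.cons A₁ f : Fin (n + 1) → Subgroup S) i.succ
        rwa [Fin.cons_succ] at this
    refine ⟨Fin.cons A₁ f, ?_, ?_, ?_, ?_, ?_, ?_, ?_⟩
    · intro i
      refine Fin.cases ?_ (fun j => ?_) i
      · rw [Fin.cons_zero, Nat.card_zpowers, hur]; exact hr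
      · rw [Fin.cons_succ]; exact hf1 j
    · intro i
      refine Fin.cases ?_ (fun j => ?_) i
      · rw [Fin.cons_zero]; exact Subgroup.zpowers_le.2 huK
      · rw [Fin.cons_succ]; exact (hf2 j).trans inf_le_left
    · intro i
      refine Fin.cases ?_ (fun j => ?_) i
      · rw [Fin.cons_zero]; exact hA₁I
      · rw [Fin.cons_succ]; exact hf3 j
    · refine Fin.cases (Fin.cases (fun h => absurd rfl h) fun j _ => ?_) fun i => Fin.cases (fun _ => ?_) fun j hij => ?_
      · rw [Fin.cons_zero, Fin.cons_succ]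
        exact fun x hx y hy => (Subgroup.mem_centralizer_iff.1 (hS₂u hx) y (le_iSup f j hy)).symm
      · rw [Fin.cons_zero, Fin.cons_succ]
        exact fun x hx y hy => Subgroup.mem_centralizer_iff.1 (hS₂u hy) x (le_iSup f i hx)
      · rw [Fin.cons_succ, Fin.cons_succ]
        exact hf4 i j fun e => hij (by rw [e])
    · rw [hsup, Fin.prod_univ_succ, Fin.cons_zero]
      simp only [Fin.cons_succ]
      rw [← hf5]
      have h := CfsgLib.Core.card_sup_mul_card_inf (A := A₁) (K := S₂)
        (hS₂u.trans (CfsgLib.Core.centralizer_le_normalizer S₂))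
      rwa [hdis, Subgroup.card_bot, mul_one] at h
    · rw [hsup, eq_bot_iff]
      rintro x ⟨hx, hxI⟩
      obtain ⟨y, hy, s, hs, rfl⟩ := (CfsgLib.Core.mem_sup_iff_of_le_normalizer
        (hS₂u.trans (CfsgLib.Core.centralizer_le_normalizer S₂))).1 hx
      have hsI : s ∈ Subgroup.centralizer (J₂ : Set S) := by
        have h1 : y * s ∈ Subgroup.centralizer (J₂ : Set S) := Subgroup.centralizer_le (by exact inf_le_left) hxI
        simpa using mul_mem (inv_mem (hA₁J₂ hy)) h1
      have hs1 : s = 1 := Subgroup.mem_bot.1 (hf6 ▸ ⟨hs, hsI⟩)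
      subst hs1
      rw [mul_one] at hxI ⊢
      obtain ⟨i, rfl⟩ := hy
      rw [Subgroup.mem_bot]
      have e : a * u ^ i * a⁻¹ = u ^ i := by
        rw [Subgroup.mem_centralizer_iff.1 hxI a haJ, mul_inv_cancel_right]
      rw [← conj_zpow, hua, inv_zpow'] at e
      have e2 : u ^ (i * 2) = 1 := by
        rw [mul_two, zpow_add]
        nth_rw 1 [← e]
        rw [← zpow_add, neg_add_cancel, zpow_zero]
      rw [← orderOf_dvd_iff_zpow_eq_one, hur] at e2
      refine orderOf_dvd_iff_zpow_eq_one.1 ?_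
      rw [hur]
      rcases Int.Prime.dvd_mul' hr e2 with h | h
      · exact h
      · exact absurd ((Nat.prime_dvd_prime_iff_eq hr Nat.prime_two).1 (by exact_mod_cast h)) hr2
    · rw [hsup, eq_bot_iff]
      rintro x ⟨hxI, hxc⟩
      have hx2 : x ∈ J₂ := ⟨hxI, by
        refine Subgroup.mem_centralizer_iff.2 ?_
        rintro _ rfl
        exact Subgroup.mem_centralizer_iff.1 hxc u (Subgroup.mem_sup_left (Subgroup.mem_zpowers u))⟩
      rw [← hf7]
      exact ⟨hx2, Subgroup.centralizer_le (SetLike.coe_subset_coe.2 (le_sup_right : S₂ ≤ A₁ ⊔ S₂)) hxc⟩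

end CfsgLib.EigenChain
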