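import Cfsg.Agent.Lib.CoreFitting
import Cfsg.Agent.Lib.CoreFpfComplement
import Cfsg.Agent.Lib.CoreSubnormal

/-!
# Normal subgroups whose outer cosets consist of elements of one order
-/

set_option autoImplicit false

universe u

namespace CfsgLib.EqualOrder

variable {G : Type u} [Group G] [Finite G] {N : Subgroup G}

theorem isPGroup_of_core_not_le (heq : ∀ x : G, x ∉ N → ∀ n ∈ N, orderOf (x * n) = orderOf x)
    {p : ℕ} [hp : Fact p.Prime] (h : ¬ Cfsg.pCore p G ≤ N) : IsPGroup p N := by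
  obtain ⟨x, hxc, hxN⟩ := SetLike.not_le_iff_exists.1 h
  haveI := CfsgLib.Core.normal_pCore (G := G) p
  have hc : IsPGroup p (Cfsg.pCore p G) := CfsgLib.Core.isPGroup_pCore p
  obtain ⟨k, hk⟩ := hc ⟨x, hxc⟩
  have hxk : x ^ p ^ k = 1 := congrArg Subtype.val hk
  intro n
  have h1 : (x * (n : G)) ^ p ^ k = 1 :=
    orderOf_dvd_iff_pow_eq_one.1 (by rw [heq x hxN n n.2]; exact orderOf_dvd_of_pow_eq_one hxk)
  have h2 : (n : G) ^ p ^ k ∈ Cfsg.pCore p G := by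
    rw [← QuotientGroup.eq_one_iff]
    have := congrArg (QuotientGroup.mk' (Cfsg.pCore p G)) h1
    rw [map_pow, map_mul, map_one, show QuotientGroup.mk' (Cfsg.pCore p G) x = 1 from
      (QuotientGroup.eq_one_iff _).2 hxc, one_mul] at this
    exact this
  obtain ⟨j, hj⟩ := hc ⟨_, h2⟩
  exact ⟨k + j, Subtype.ext (by
    rw [SubgroupClass.coe_pow, pow_add, pow_mul]
    exact congrArg Subtype.val hj)⟩

theorem exists_core_not_le (h : ¬ Cfsg.fittingSubgroup G ≤ N) :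
    ∃ p : ℕ, ∃ _ : Fact p.Prime, ¬ Cfsg.pCore p G ≤ N := by
  rw [CfsgLib.Core.fittingSubgroup_eq_iSup_pCore, iSup_le_iff, not_forall] at h
  obtain ⟨p, hp⟩ := h
  exact ⟨p, ⟨p.2⟩, hp⟩

theorem isPrimePow_card_of_isPGroup {p : ℕ} [hp : Fact p.Prime] {H : Subgroup G} (hH : IsPGroup p H)
    (hne : H ≠ ⊥) : IsPrimePow (Nat.card H) := by
  obtain ⟨k, hk⟩ := IsPGroup.iff_card.1 hH
  refine ⟨p, k, hp.out.prime, Nat.pos_of_ne_zero fun h0 => hne ?_, hk.symm⟩
  rw [h0, pow_zero] at hk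
  exact Subgroup.card_eq_one.1 hk

variable [N.Normal] (heq : ∀ x : G, x ∉ N → ∀ n ∈ N, orderOf (x * n) = orderOf x)
include heq

theorem le_or_ge : N ≤ Cfsg.fittingSubgroup G ∨ Cfsg.fittingSubgroup G ≤ N := by
  refine (em (Cfsg.fittingSubgroup G ≤ N)).symm.imp_left fun h => ?_
  obtain ⟨p, hp, hcore⟩ := exists_core_not_le h
  exact (CfsgLib.Core.le_pCore inferInstance (isPGroup_of_core_not_le heq hcore)).trans
    (CfsgLib.Core.pCore_le_fittingSubgroup p)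

theorem isPrimePow_fitting (hN1 : N ≠ ⊥) (h : N < Cfsg.fittingSubgroup G) :
    IsPrimePow (Nat.card (Cfsg.fittingSubgroup G)) := by
  obtain ⟨p, hp, hcore⟩ := exists_core_not_le h.not_ge
  have hNp := isPGroup_of_core_not_le heq hcore
  have hle : Cfsg.fittingSubgroup G ≤ Cfsg.pCore p G := by
    rw [CfsgLib.Core.fittingSubgroup_eq_iSup_pCore]
    refine iSup_le fun q => ?_
    haveI : Fact (q : ℕ).Prime := ⟨q.2⟩
    by_cases hq : (q : ℕ) = p
    · rw [hq]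
    by_contra hc
    have hNq := isPGroup_of_core_not_le heq fun hq' => hc (hq'.trans
      (CfsgLib.Core.le_pCore inferInstance hNp))
    exact hN1 (disjoint_self.1 (hNq.disjoint_of_ne (q : ℕ) p hq _ _ hNp))
  exact isPrimePow_card_of_isPGroup ((CfsgLib.Core.isPGroup_pCore p).to_le hle)
    fun h0 => hN1 (le_bot_iff.1 (h0 ▸ h.le))

theorem eq_fitting (hN1 : N ≠ ⊥) (hnil : Group.IsNilpotent N) (hnpp : ¬ IsPrimePow (Nat.card N)) :
    N = Cfsg.fittingSubgroup G := by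
  refine (eq_or_lt_of_le (CfsgLib.Core.le_fittingSubgroup inferInstance hnil)).resolve_right fun h => ?_
  exact hnpp ((isPrimePow_fitting heq hN1 h).dvd (Subgroup.card_dvd_of_le h.le)
    (fun h1 => hN1 (Subgroup.card_eq_one.1 h1)))

omit heq in
theorem mem_pCore_of_nilpotent (hnil : Group.IsNilpotent N) {p : ℕ} [Fact p.Prime] {H : Subgroup G}
    (hH : IsPGroup p H) (hHN : H ≤ N) : H ≤ Cfsg.pCore p G := by
  intro x hx
  refine CfsgLib.Core.pCore_map_subtype_le (inferInstance : N.Normal) ⟨⟨x, hHN hx⟩, ?_, rfl⟩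
  exact CfsgLib.Core.le_pCore_of_isSubnormal (CfsgLib.Core.isSubnormal_of_isNilpotent (H.subgroupOf N))
    (hH.comap_of_injective N.subtype N.subtype_injective) hx

theorem quotient_sylow (hN1 : N ≠ ⊥) (hnil : Group.IsNilpotent N) (hnpp : ¬ IsPrimePow (Nat.card N))
    (q : ℕ) [hq : Fact q.Prime] (Q : Sylow q (G ⧸ N)) :
    IsCyclic (Q : Subgroup (G ⧸ N)) ∨
      ∃ n : ℕ, Nonempty ((Q : Subgroup (G ⧸ N)) ≃* QuaternionGroup (2 ^ n)) := by
  obtain ⟨T, rfl⟩ := Sylow.mapSurjective_surjective (QuotientGroup.mk'_surjective N) q Q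
  obtain ⟨r, hr, hrN, hrq⟩ : ∃ r : ℕ, r.Prime ∧ r ∣ Nat.card N ∧ r ≠ q := by
    by_contra hc
    push Not at hc
    refine hnpp ((isPrimePow_iff_unique_prime_dvd (n := Nat.card N)).2 ?_)
    obtain ⟨r, hr, hrd⟩ := Nat.exists_prime_and_dvd (n := Nat.card N)
      (fun h1 => hN1 (Subgroup.card_eq_one.1 h1))
    exact ⟨r, ⟨hr, hrd⟩, fun s hs => (hc s hs.1 hs.2).trans (hc r hr hrd).symm⟩
  haveI : Fact r.Prime := ⟨hr⟩
  obtain ⟨⟨v₀, hv₀N⟩, hv₀⟩ := exists_prime_orderOf_dvd_card' (G := N) r hrN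
  rw [Subgroup.orderOf_mk] at hv₀
  have hv₀c : v₀ ∈ Cfsg.pCore r G := mem_pCore_of_nilpotent hnil
    (IsPGroup.of_card (p := r) (G := Subgroup.zpowers v₀) (n := 1) (by rw [Nat.card_zpowers, hv₀, pow_one]))
    (Subgroup.zpowers_le.2 hv₀N) (Subgroup.mem_zpowers v₀)
  haveI := CfsgLib.Core.normal_pCore (G := G) q
  haveI := CfsgLib.Core.normal_pCore (G := G) r
  set M := N ⊓ Cfsg.pCore q G with hM
  set R := N ⊓ Cfsg.pCore r G with hR
  have hMR : ∀ z, z ∈ M → z ∈ R → z = 1 := fun z h1 h2 =>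
    Subgroup.mem_bot.1 (disjoint_iff.1 ((CfsgLib.Core.isPGroup_pCore (G := G) q).disjoint_of_ne q r
      (Ne.symm hrq) _ _ (CfsgLib.Core.isPGroup_pCore (G := G) r)) ▸
      (⟨h1.2, h2.2⟩ : z ∈ Cfsg.pCore q G ⊓ Cfsg.pCore r G))
  set π := QuotientGroup.mk' M with hπ
  set Pb := (T : Subgroup G).map π with hPb
  set K := R.map π with hK
  have hK1 : K ≠ ⊥ := by
    intro h0
    have h1 : π v₀ = 1 := by
      have : π v₀ ∈ K := ⟨v₀, ⟨hv₀N, hv₀c⟩, rfl⟩
      rwa [h0, Subgroup.mem_bot] at this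
    have := hMR v₀ ((QuotientGroup.eq_one_iff _).1 h1) ⟨hv₀N, hv₀c⟩
    rw [this, orderOf_one] at hv₀
    exact hr.one_lt.ne hv₀
  haveI : R.Normal := Subgroup.normal_inf_normal N (Cfsg.pCore r G)
  haveI : K.Normal := Subgroup.Normal.map ‹_› π (QuotientGroup.mk'_surjective M)
  have hfree : ∀ a ∈ Pb, a ≠ 1 → ∀ v ∈ K, a * v = v * a → v = 1 := by
    rintro _ ⟨a, ha, rfl⟩ ha1 _ ⟨v, hv, rfl⟩ hc
    have haN : a ∉ N := fun haN => ha1 ((QuotientGroup.eq_one_iff a).2 ⟨haN,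
      mem_pCore_of_nilpotent hnil (T.2.to_le inf_le_left) inf_le_right (⟨ha, haN⟩ : a ∈ (T : Subgroup G) ⊓ N)⟩)
    have hcM : a * v * a⁻¹ * v⁻¹ ∈ M := by
      rw [← QuotientGroup.eq_one_iff]
      show π (a * v * a⁻¹ * v⁻¹) = 1
      rw [map_mul, map_mul, map_mul, map_inv, map_inv, hc]
      group
    have hcR : a * v * a⁻¹ * v⁻¹ ∈ R :=
      mul_mem ((inferInstance : R.Normal).conj_mem v hv a) (inv_mem hv)
    have hcomm : Commute a v := by
      have h1 := hMR _ hcM hcR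
      rwa [mul_inv_eq_one, mul_inv_eq_iff_eq_mul] at h1
    have hcop : (orderOf a).Coprime (orderOf v) := by
      obtain ⟨k, hk⟩ := IsPGroup.iff_orderOf.1 T.2 ⟨a, ha⟩
      obtain ⟨l, hl⟩ := IsPGroup.iff_orderOf.1 (CfsgLib.Core.isPGroup_pCore (G := G) r) ⟨v, hv.2⟩
      rw [Subgroup.orderOf_mk] at hk hl
      rw [hk, hl]
      exact Nat.Coprime.pow k l ((Nat.coprime_primes hq.out hr).2 (Ne.symm hrq))
    have h2 := heq a haN v hv.1
    rw [hcomm.orderOf_mul_eq_mul_orderOf_of_coprime hcop] at h2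
    have : orderOf v = 1 := Nat.eq_of_mul_eq_mul_left (orderOf_pos a) (by rw [h2, mul_one])
    rw [orderOf_eq_one_iff] at this
    rw [this, map_one]
  have hPp : IsPGroup q Pb := T.2.map π
  let ψ : G ⧸ M →* G ⧸ N := QuotientGroup.map M N (MonoidHom.id G) (fun x hx => hx.1)
  let f : Pb →* ↥((T : Subgroup G).map (QuotientGroup.mk' N)) :=
    (ψ.comp Pb.subtype).codRestrict _ (by rintro ⟨_, t, ht, rfl⟩; exact ⟨t, ht, rfl⟩)
  have hinj : Function.Injective f := by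
    rw [injective_iff_map_eq_one]
    rintro ⟨_, t, ht, rfl⟩ he
    have htN : t ∈ N := (QuotientGroup.eq_one_iff t).1 (congrArg Subtype.val he)
    exact Subtype.ext ((QuotientGroup.eq_one_iff t).2 ⟨htN,
      mem_pCore_of_nilpotent hnil (T.2.to_le inf_le_left) inf_le_right (⟨ht, htN⟩ : t ∈ (T : Subgroup G) ⊓ N)⟩)
  have hsurj : Function.Surjective f := by
    rintro ⟨_, t, ht, rfl⟩
    exact ⟨⟨π t, t, ht, rfl⟩, rfl⟩
  let e := MulEquiv.ofBijective f ⟨hinj, hsurj⟩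
  show IsCyclic ↥((T : Subgroup G).map (QuotientGroup.mk' N)) ∨
    ∃ n : ℕ, Nonempty (↥((T : Subgroup G).map (QuotientGroup.mk' N)) ≃* QuaternionGroup (2 ^ n))
  rcases CfsgLib.Core.cyclic_or_quaternion_of_fpf hPp
    ((Subgroup.normalizer_eq_top (H := K)).ge.trans' le_top) hK1 hfree with h | ⟨-, n, ⟨g⟩⟩
  · exact Or.inl (e.isCyclic.1 h)
  · exact Or.inr ⟨n, ⟨e.symm.trans g⟩⟩

end CfsgLib.EqualOrder
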