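import Mathlib

/-!
Grün's first theorem.
-/

set_option autoImplicit false

namespace CfsgLib.FgsGrun

open scoped commutatorElement
open MulAction Subgroup

variable {G : Type*} [Group G] [Finite G] {p : ℕ} [hp : Fact p.Prime]

theorem mem_of_grun (P : Sylow p G) (R : Subgroup G)
    (hN : ∀ a ∈ (P : Subgroup G),
      a ∈ ⁅normalizer ((P : Subgroup G) : Set G), normalizer ((P : Subgroup G) : Set G)⁆ → a ∈ R)
    (hz : ∀ z a : G, a ∈ (P : Subgroup G) →
      a ∈ ⁅(P : Subgroup G), (P : Subgroup G)⁆.map (MulAut.conj z).toMonoidHom → a ∈ R) :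
    ∀ x ∈ (P : Subgroup G), x ∈ commutator G → x ∈ R := by
  classical
  letI := Fintype.ofFinite G
  suffices h : ∀ (n : ℕ) (x : G), orderOf x = n → x ∈ (P : Subgroup G) → x ∈ commutator G → x ∈ R
    from fun x hx hx' => h _ x rfl hx hx'
  intro n
  induction n using Nat.strong_induction_on with
  | _ n ih =>
    intro x hxn hxP hxG
    by_cases hx1 : x = 1
    · rw [hx1]; exact one_mem R
    set R' : Subgroup (P : Subgroup G) := R.subgroupOf (P : Subgroup G) with hR'
    have hPR : _root_.commutator (P : Subgroup G) ≤ R' := by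
      intro a ha
      refine hz 1 a a.2 ⟨a, ?_, by simp⟩
      rw [← map_subtype_commutator]
      exact ⟨a, ha, rfl⟩
    haveI hRn : R'.Normal := ⟨fun a ha g => by
      have h1 : ⁅g, a⁆ ∈ R' := hPR (commutator_mem_commutator (mem_top g) (mem_top a))
      have := mul_mem h1 ha
      rwa [commutatorElement_def, inv_mul_cancel_right] at this⟩
    letI : CommGroup ((P : Subgroup G) ⧸ R') :=
      { (inferInstance : Group ((P : Subgroup G) ⧸ R')) with
        mul_comm := fun u v => (Normal.quotient_commutative_iff_commutator_le.2 hPR).is_comm.comm u v }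
    let φ : (P : Subgroup G) →* (P : Subgroup G) ⧸ R' := QuotientGroup.mk' R'
    have hφ : ∀ a : (P : Subgroup G), φ a = 1 ↔ (a : G) ∈ R := fun a =>
      (QuotientGroup.eq_one_iff a).trans mem_subgroupOf
    have small : ∀ a : (P : Subgroup G), (a : G) ∈ commutator G → orderOf (a : G) < n → φ a = 1 :=
      fun a ha hlt => (hφ a).2 (ih _ hlt a rfl a.2 ha)
    have hconj : ∀ (a b w : (P : Subgroup G)), (b : G) = (w : G)⁻¹ * a * w → φ b = φ a := by
      intro a b w e
      have : b = w⁻¹ * a * w := Subtype.ext (by simpa using e)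
      rw [this, map_mul, map_mul, map_inv, mul_comm (φ w)⁻¹, mul_assoc, inv_mul_cancel, mul_one]
    have hGn : ∀ (z : G) (m : ℕ), z⁻¹ * x ^ m * z ∈ commutator G := by
      intro z m
      have := (inferInstance : (commutator G).Normal).conj_mem _ (pow_mem hxG m) z⁻¹
      rwa [inv_inv] at this
    have hord : ∀ (z : G) (m : ℕ), orderOf (z⁻¹ * x ^ m * z) = orderOf (x ^ m) := by
      intro z m
      have := MulEquiv.orderOf_eq (MulAut.conj z⁻¹) (x ^ m)
      rwa [MulAut.conj_apply, inv_inv] at this
    have hmem : ∀ (z : G), x • (z : G ⧸ (P : Subgroup G)) = z → z⁻¹ * x * z ∈ (P : Subgroup G) := by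
      intro z h
      have h' : ((x * z : G) : G ⧸ (P : Subgroup G)) = z := h
      rw [eq_comm, QuotientGroup.eq, ← mul_assoc] at h'
      exact h'
    let f : G ⧸ (P : Subgroup G) → (P : Subgroup G) ⧸ R' := fun c =>
      if h : x • c = c then φ ⟨c.out⁻¹ * x * c.out, hmem c.out (by rw [QuotientGroup.out_eq']; exact h)⟩
      else 1
    -- the transfer is the product of `f`
    have htr : MonoidHom.transfer φ x = ∏ c, f c := by
      rw [MonoidHom.transfer_eq_prod_quotient_orbitRel_zpowers_quot,
        ← (quotientEquivSigmaZMod (P : Subgroup G) x).symm.prod_comp f, Finset.univ_sigma_univ.symm,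
        Finset.prod_sigma]
      refine Fintype.prod_congr _ _ fun q => ?_
      set m := Function.minimalPeriod (x • ·) q.out with hm
      by_cases hfix : x • q.out = q.out
      · have hm1 : m = 1 := Function.minimalPeriod_eq_one_iff_isFixedPt.2 hfix
        haveI : Subsingleton (ZMod m) := by rw [hm1]; infer_instance
        rw [Fintype.prod_subsingleton _ (0 : ZMod m), quotientEquivSigmaZMod_symm_apply,
          ZMod.cast_zero, zpow_zero, one_smul]
        simp only [f, dif_pos hfix]
        congr 1
        apply Subtype.ext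
        change q.out.out⁻¹ * x ^ m * q.out.out = q.out.out⁻¹ * x * q.out.out
        rw [hm1, pow_one]
      · rw [small _ (hGn _ _) ?_, eq_comm]
        · refine Finset.prod_eq_one fun k _ => ?_
          rw [quotientEquivSigmaZMod_symm_apply]
          refine dif_neg fun h => hfix ?_
          rw [← mul_smul, ← zpow_one_add, add_comm, zpow_add_one, mul_smul] at h
          exact smul_left_cancel _ h
        · change orderOf (q.out.out⁻¹ * x ^ m * q.out.out) < n
          rw [hord, ← hxn]
          have hdvd : m ∣ orderOf x := Function.IsPeriodicPt.minimalPeriod_dvd (by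
            rw [Function.IsPeriodicPt, Function.IsFixedPt, smul_iterate, pow_orderOf_eq_one]
            exact one_smul _ _)
          have hm1 : m ≠ 1 := fun h => hfix (Function.minimalPeriod_eq_one_iff_isFixedPt.1 h)
          rw [orderOf_pow, Nat.gcd_eq_right hdvd]
          refine Nat.div_lt_self (orderOf_pos x) ?_
          have hm0 : m ≠ 0 := fun h => (orderOf_pos x).ne' (by
            rw [h] at hdvd; exact Nat.eq_zero_of_zero_dvd hdvd)
          omega
    have htr1 : MonoidHom.transfer φ x = 1 :=
      Abelianization.commutator_subset_ker _ hxG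
    set xP : (P : Subgroup G) := ⟨x, hxP⟩
    -- one orbit of `P`
    have horb : ∀ o : orbitRel.Quotient (P : Subgroup G) (G ⧸ (P : Subgroup G)),
        (∏ c with Quotient.mk'' c = o, f c) =
          (if Nat.card {c // Quotient.mk'' c = o} = 1 then φ xP else 1) ∧
        ((Nat.card {c // Quotient.mk'' c = o} : ℕ) : ZMod p) =
          if Nat.card {c // Quotient.mk'' c = o} = 1 then 1 else 0 := by
      intro o
      induction o using Quotient.inductionOn' with
      | h c₀ =>
      set O := MulAction.orbit (P : Subgroup G) c₀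
      have hiff : ∀ c, (Quotient.mk'' c : orbitRel.Quotient (P : Subgroup G) (G ⧸ (P : Subgroup G))) =
          Quotient.mk'' c₀ ↔ c ∈ O := fun c => Quotient.eq''.trans orbitRel_apply
      have hcard : Nat.card {c // (Quotient.mk'' c : orbitRel.Quotient (P : Subgroup G) (G ⧸ (P : Subgroup G))) = Quotient.mk'' c₀} = Nat.card O :=
        Nat.card_congr (Equiv.subtypeEquivRight hiff)
      rw [hcard]
      obtain ⟨e, he⟩ := P.2.card_orbit c₀
      set F := Finset.univ.filter fun c => c ∈ O ∧ x • c = c with hF
      have hprod : (∏ c with (Quotient.mk'' c : orbitRel.Quotient (P : Subgroup G) (G ⧸ (P : Subgroup G))) = Quotient.mk'' c₀, f c) = ∏ c ∈ F, f c := by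
        refine (Finset.prod_subset (fun c hc => ?_) fun c hc hc' => ?_).symm
        · rw [Finset.mem_filter] at hc ⊢
          exact ⟨Finset.mem_univ _, (hiff c).2 hc.2.1⟩
        · rw [Finset.mem_filter] at hc
          exact dif_neg fun h => hc' (Finset.mem_filter.2 ⟨Finset.mem_univ _, (hiff c).1 hc.2, h⟩)
      rw [hprod]
      have hsame : ∀ c ∈ F, ∀ d ∈ F, f c = f d := by
        intro c hc d hd
        rw [Finset.mem_filter] at hc hd
        obtain ⟨-, ⟨u, hu⟩, hcx⟩ := hc
        obtain ⟨-, ⟨u', hu'⟩, hdx⟩ := hd
        have hcd : (u' * u⁻¹) • c = d := by rw [← hu, mul_smul, inv_smul_smul]; exact hu'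
        set v := u' * u⁻¹
        simp only [f, dif_pos hcx, dif_pos hdx]
        have hw : ((v : G) * c.out)⁻¹ * d.out ∈ (P : Subgroup G) := by
          rw [← QuotientGroup.eq, QuotientGroup.out_eq', ← hcd]
          conv_rhs => rw [← QuotientGroup.out_eq' c]
          rfl
        set w : (P : Subgroup G) := ⟨_, hw⟩
        have hb : ((v : G) * c.out)⁻¹ * x * ((v : G) * c.out) ∈ (P : Subgroup G) := by
          refine hmem _ ?_
          have e : (((v : G) * c.out : G) : G ⧸ (P : Subgroup G)) = d := by
            rw [← hcd]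
            conv_rhs => rw [← QuotientGroup.out_eq' c]
            rfl
          rw [e, hdx]
        set a : (P : Subgroup G) := ⟨c.out⁻¹ * x * c.out, hmem c.out (by rw [QuotientGroup.out_eq']; exact hcx)⟩
        set b : (P : Subgroup G) := ⟨_, hb⟩
        rw [hconj b ⟨d.out⁻¹ * x * d.out, hmem d.out (by rw [QuotientGroup.out_eq']; exact hdx)⟩ w
          (by simp only [b, w]; group)]
        rw [eq_comm, ← div_eq_one, ← map_div, hφ]
        refine hz (c.out⁻¹) _ (b / a).2 ⟨(v : G)⁻¹ * x * v * x⁻¹, ?_, ?_⟩
        · have : ⁅(v : G)⁻¹, x⁆ ∈ ⁅(P : Subgroup G), (P : Subgroup G)⁆ :=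
            commutator_mem_commutator (inv_mem v.2) hxP
          rwa [commutatorElement_def, inv_inv] at this
        · simp only [a, b, MulEquiv.coe_toMonoidHom, MulAut.conj_apply, Subgroup.coe_div]
          rw [div_eq_mul_inv]
          group
      by_cases h1 : Nat.card O = 1
      · rw [if_pos h1, if_pos h1]
        refine ⟨?_, by rw [h1, Nat.cast_one]⟩
        have hOc : ∀ c ∈ O, c = c₀ := fun c hc => congrArg Subtype.val
          ((Nat.card_eq_one_iff_unique.1 h1).1.elim (⟨c, hc⟩ : O) ⟨c₀, mem_orbit_self c₀⟩)
        have hfix : ∀ u : (P : Subgroup G), u • c₀ = c₀ := fun u => hOc _ (mem_orbit c₀ u)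
        have hx0 : x • c₀ = c₀ := hfix xP
        have hF1 : F = {c₀} := by
          ext c
          simp only [F, Finset.mem_filter, Finset.mem_univ, true_and, Finset.mem_singleton]
          exact ⟨fun h => hOc c h.1, fun h => h ▸ ⟨mem_orbit_self c₀, hx0⟩⟩
        rw [hF1, Finset.prod_singleton]
        simp only [f, dif_pos hx0]
        have hzn : c₀.out ∈ normalizer ((P : Subgroup G) : Set G) := by
          refine Sylow.mem_fixedPoints_mul_left_cosets_iff_mem_normalizer.1 ?_
          rw [QuotientGroup.out_eq']
          exact hfix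
        rw [← div_eq_one, ← map_div, hφ]
        refine hN _ (Subtype.coe_prop _) ?_
        have := commutator_mem_commutator (inv_mem hzn) (le_normalizer hxP)
        rw [commutatorElement_def, inv_inv] at this
        rw [Subgroup.coe_div, div_eq_mul_inv]
        exact this
      · rw [if_neg h1, if_neg h1]
        have hpO : p ∣ Nat.card O := by
          rw [he] at h1 ⊢
          exact dvd_pow_self p (fun h => h1 (by rw [h, pow_zero]))
        refine ⟨?_, (ZMod.natCast_eq_zero_iff _ _).2 hpO⟩
        have hFp : p ∣ F.card := by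
          have hZ : IsPGroup p (zpowers xP) := P.2.to_subgroup _
          have hmod := hZ.card_modEq_card_fixedPoints O
          have e : Nat.card (fixedPoints (zpowers xP) O) = F.card := by
            rw [← Fintype.card_coe, ← Nat.card_eq_fintype_card]
            refine Nat.card_congr
              { toFun := fun y => ⟨y.1.1, Finset.mem_filter.2 ⟨Finset.mem_univ _, y.1.2,
                  congrArg Subtype.val (y.2 ⟨xP, mem_zpowers xP⟩)⟩⟩
                invFun := fun y => ⟨⟨y.1, (Finset.mem_filter.1 y.2).2.1⟩, fun g => by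
                  obtain ⟨g, hg⟩ := g
                  obtain ⟨i, rfl⟩ := mem_zpowers_iff.1 hg
                  apply Subtype.ext
                  have hs : xP ∈ stabilizer (P : Subgroup G) y.1 :=
                    (Finset.mem_filter.1 y.2).2.2
                  exact zpow_mem hs i⟩
                left_inv := fun y => rfl
                right_inv := fun y => rfl }
          rw [e] at hmod
          exact Nat.modEq_zero_iff_dvd.1 (hmod.symm.trans (Nat.modEq_zero_iff_dvd.2 hpO))
        rcases F.eq_empty_or_nonempty with hFe | ⟨c, hc⟩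
        · rw [hFe, Finset.prod_empty]
        rw [Finset.prod_eq_pow_card (b := f c) fun d hd => hsame d hd c hc]
        obtain ⟨j, hj⟩ := hFp
        rw [hj, pow_mul]
        have hcx : x • c = c := (Finset.mem_filter.1 hc).2.2
        simp only [f, dif_pos hcx]
        rw [← map_pow, small _ ?_ ?_, one_pow]
        · rw [Subgroup.coe_pow]
          change (c.out⁻¹ * x * c.out) ^ p ∈ _
          have := hGn c.out 1
          rw [pow_one] at this
          exact pow_mem this p
        · rw [Subgroup.coe_pow]
          change orderOf ((c.out⁻¹ * x * c.out) ^ p) < n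
          have ho : orderOf (c.out⁻¹ * x * c.out) = n := by
            have := hord c.out 1
            rwa [pow_one, hxn] at this
          obtain ⟨k, hk⟩ := IsPGroup.iff_orderOf.1 P.2 xP
          rw [Subgroup.orderOf_mk, hxn] at hk
          have hk0 : k ≠ 0 := fun h => hx1 (orderOf_eq_one_iff.1 (by rw [hxn, hk, h, pow_zero]))
          rw [orderOf_pow, ho, Nat.gcd_eq_right (hk ▸ dvd_pow_self p hk0)]
          exact Nat.div_lt_self (hxn ▸ orderOf_pos x) hp.out.one_lt
    -- total
    set Ω := orbitRel.Quotient (P : Subgroup G) (G ⧸ (P : Subgroup G))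
    set s := Finset.univ.filter (fun o : Ω => Nat.card {c // Quotient.mk'' c = o} = 1)
    have hpow : φ xP ^ s.card = 1 := by
      rw [← htr1, htr, ← Finset.prod_fiberwise Finset.univ (fun c => (Quotient.mk'' c : Ω)) f,
        Finset.prod_congr rfl (fun o _ => (horb o).1), ← Finset.prod_filter, Finset.prod_const]
    have hs : ¬ p ∣ s.card := by
      intro hd
      apply P.not_dvd_index
      rw [← ZMod.natCast_eq_zero_iff, Subgroup.index_eq_card,
        Nat.card_congr (Equiv.sigmaFiberEquiv (fun c => (Quotient.mk'' c : Ω))).symm,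
        Nat.card_sigma, Nat.cast_sum, Finset.sum_congr rfl (fun o _ => (horb o).2),
        ← Finset.sum_filter, Finset.sum_const, nsmul_eq_mul, mul_one]
      exact (ZMod.natCast_eq_zero_iff _ _).2 hd
    have h1 : φ xP = 1 := by
      rw [← orderOf_eq_one_iff]
      obtain ⟨k, hk⟩ := IsPGroup.iff_orderOf.1 (P.2.to_quotient R') (φ xP)
      exact Nat.eq_one_of_dvd_coprimes ((hp.out.coprime_iff_not_dvd.2 hs).pow_left k)
        hk.dvd (orderOf_dvd_of_pow_eq_one hpow)
    exact (hφ xP).1 h1

end CfsgLib.FgsGrun
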