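import Mathlib
import Cfsg.Prelude.Def_HallClasses
import Cfsg.Prelude.Def_OddOrderLocal
import Cfsg.Agent.Lib.CoreWielandt
import Cfsg.Agent.Lib.CoreThompsonFpf
import Cfsg.Agent.Lib.CoreSZ
import Cfsg.Agent.S0071

/-!
Conjugacy of maximal π-subgroups in the presence of a Hall π-subgroup which is the product of a nilpotent
σ-subgroup and a τ-subgroup commuting with it.
-/

set_option autoImplicit false

namespace CfsgLib.HallDec

open Subgroup
open scoped Pointwise

universe u

variable {G : Type u} [Group G] [Finite G]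

/-- An element lies in a subgroup as soon as its powers of prime-power order do. -/
theorem of_primePow (C : Subgroup G) : ∀ (n : ℕ) (y : G), orderOf y = n →
    (∀ i p k : ℕ, p.Prime → orderOf (y ^ i) = p ^ k → y ^ i ∈ C) → y ∈ C := by
  intro n
  induction n using Nat.recOnPrimeCoprime with
  | zero => intro y hy; exact absurd hy (orderOf_pos y).ne'
  | prime_pow p k hp =>
    intro y hy h
    simpa using h 1 p k hp (by rw [pow_one]; exact hy)
  | coprime a b ha hb hab iha ihb =>
    intro y hy h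
    have h1 : y ^ a ∈ C := ihb (y ^ a) (by
      rw [orderOf_pow_of_dvd (by omega) (hy ▸ Dvd.intro b rfl), hy, Nat.mul_div_cancel_left _ (by omega)])
      fun i p k hp e => by rw [← pow_mul] at e ⊢; exact h _ p k hp e
    have h2 : y ^ b ∈ C := iha (y ^ b) (by
      rw [orderOf_pow_of_dvd (by omega) (hy ▸ Dvd.intro_left a rfl), hy, Nat.mul_div_cancel _ (by omega)])
      fun i p k hp e => by rw [← pow_mul] at e ⊢; exact h _ p k hp e
    have hbez : (1 : ℤ) = a * Nat.gcdA a b + b * Nat.gcdB a b := by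
      rw [← Nat.gcd_eq_gcd_ab, hab.gcd_eq_one]; norm_num
    have : y = (y ^ a) ^ Nat.gcdA a b * (y ^ b) ^ Nat.gcdB a b := by
      rw [← zpow_natCast y a, ← zpow_natCast y b, ← zpow_mul, ← zpow_mul, ← zpow_add, ← hbez, zpow_one]
    rw [this]
    exact mul_mem (zpow_mem h1 _) (zpow_mem h2 _)

/-- Subgroups whose primes divide a nilpotent Hall subgroup are nilpotent. -/
theorem nilpotent_sub (A L : Subgroup G) (hA : Group.IsNilpotent A) (hAH : (Nat.card A).Coprime A.index)
    (hL : ∀ s : ℕ, s.Prime → s ∣ Nat.card L → s ∣ Nat.card A) : Group.IsNilpotent L := by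
  obtain ⟨x, hx⟩ := CfsgLib.Core.wielandt_aux _ G A L le_rfl hA hAH hL
  haveI := hA
  haveI : Group.IsNilpotent (MulAut.conj x • A : Subgroup G) :=
    Group.nilpotent_of_mulEquiv (Subgroup.equivSMul (MulAut.conj x) A)
  exact Group.nilpotent_of_mulEquiv (Subgroup.subgroupOfEquivOfLe hx)

section

variable (σ τ π : Set ℕ) (hπ : π = σ ∪ τ) (hd : Disjoint σ τ) (H Hs Ht : Subgroup G)
  (hH : Cfsg.IsPiHall π H) (hs : Cfsg.IsPiSubgroup σ Hs) (ht : Cfsg.IsPiSubgroup τ Ht)
  (hsn : Group.IsNilpotent Hs) (hjoin : Hs ⊔ Ht = H) (hcomm : ∀ a ∈ Hs, ∀ b ∈ Ht, a * b = b * a)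

include hd hs ht in
theorem coprime_parts : (Nat.card Hs).Coprime (Nat.card Ht) :=
  Nat.coprime_of_dvd fun q hq ha hb => Set.disjoint_left.mp hd (hs q hq ha) (ht q hq hb)

include hd hs ht hjoin hcomm in
theorem card_H : Nat.card H = Nat.card Hs * Nat.card Ht := by
  have hn : Hs ≤ normalizer (Ht : Set G) := fun a ha => mem_normalizer_iff.mpr fun b => by
    refine ⟨fun hb => ?_, fun hb => ?_⟩
    · rw [hcomm a ha b hb, mul_inv_cancel_right]; exact hb
    · have e := hcomm a ha _ hb
      rw [inv_mul_cancel_right] at e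
      rwa [mul_left_cancel e] at hb
  have e := CfsgLib.Core.card_sup_mul_card_inf hn
  rw [hjoin, CfsgLib.Core.inf_eq_bot_of_coprime (coprime_parts σ τ hd Hs Ht hs ht), Subgroup.card_bot, mul_one] at e
  exact e

include hπ hd hH hs ht hsn hjoin hcomm in
theorem nil_mixed (r : ℕ) (hr : r.Prime) (L : Subgroup G)
    (hL : ∀ s : ℕ, s.Prime → s ∣ Nat.card L → s ∈ σ ∨ (s = r ∧ s ∈ τ)) : Group.IsNilpotent L := by
  haveI := Fact.mk hr
  haveI := hsn
  obtain ⟨R₀⟩ : Nonempty (Sylow r Ht) := inferInstance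
  set R := (R₀ : Subgroup Ht).map Ht.subtype with hR
  have hRle : R ≤ Ht := Subgroup.map_subtype_le _
  have hRc : Nat.card R = Nat.card (R₀ : Subgroup Ht) := Subgroup.card_map_of_injective Ht.subtype_injective
  haveI : Group.IsNilpotent R := (R₀.2.map Ht.subtype).isNilpotent
  have hc' : ∀ (a : Hs) (b : R), Commute (Hs.subtype a) (R.subtype b) := fun a b => hcomm a a.2 b (hRle b.2)
  let f : Hs × R →* G := MonoidHom.noncommCoprod Hs.subtype R.subtype hc'
  have hfA : f.range = Hs ⊔ R := by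
    show (MonoidHom.noncommCoprod Hs.subtype R.subtype hc').range = _
    rw [MonoidHom.noncommCoprod_range, Subgroup.range_subtype, Subgroup.range_subtype]
  have hA : Group.IsNilpotent (Hs ⊔ R : Subgroup G) := by
    haveI : Group.IsNilpotent f.range := Group.nilpotent_of_surjective f.rangeRestrict f.rangeRestrict_surjective
    exact Group.nilpotent_of_mulEquiv (MulEquiv.subgroupCongr hfA)
  have hcA : Nat.card ↥(Hs ⊔ R) = Nat.card Hs * Nat.card R := by
    have hn : Hs ≤ normalizer (R : Set G) := fun a ha => mem_normalizer_iff.mpr fun b => by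
      refine ⟨fun hb => ?_, fun hb => ?_⟩
      · rw [hcomm a ha b (hRle hb), mul_inv_cancel_right]; exact hb
      · have e := hcomm a ha _ (hRle hb)
        rw [inv_mul_cancel_right] at e
        rwa [mul_left_cancel e] at hb
    have e := CfsgLib.Core.card_sup_mul_card_inf hn
    rw [CfsgLib.Core.inf_eq_bot_of_coprime ((coprime_parts σ τ hd Hs Ht hs ht).coprime_dvd_right
      (Subgroup.card_dvd_of_le hRle)), Subgroup.card_bot, mul_one] at e
    exact e
  have hidx : (Hs ⊔ R).index = (R₀ : Subgroup Ht).index * H.index := by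
    have e1 := (Hs ⊔ R).card_mul_index
    rw [← H.card_mul_index, hcA, card_H σ τ hd H Hs Ht hs ht hjoin hcomm, ← (R₀ : Subgroup Ht).card_mul_index,
      ← hRc] at e1
    refine Nat.eq_of_mul_eq_mul_left (Nat.mul_pos Nat.card_pos Nat.card_pos : 0 < Nat.card Hs * Nat.card R) ?_
    rw [e1]; ring
  refine nilpotent_sub (Hs ⊔ R) L hA ?_ fun s hsp hsL => ?_
  · refine Nat.coprime_of_dvd fun s hsp ha hb => ?_
    rw [hcA] at ha
    rw [hidx] at hb
    have hsπ : s ∈ π := by
      rw [hπ]
      rcases hsp.dvd_mul.mp ha with e | e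
      · exact Or.inl (hs s hsp e)
      · exact Or.inr (ht s hsp (e.trans (Subgroup.card_dvd_of_le hRle)))
    rcases hsp.dvd_mul.mp hb with e | e
    · rcases hsp.dvd_mul.mp ha with e' | e'
      · exact (hsp.coprime_iff_not_dvd.mp (((coprime_parts σ τ hd Hs Ht hs ht).coprime_dvd_left e')))
          (e.trans (Subgroup.index_dvd_card _))
      · obtain ⟨j, hj⟩ := R₀.2.exists_card_eq
        rw [hRc, hj] at e'
        rw [(Nat.prime_dvd_prime_iff_eq hsp hr).mp (hsp.dvd_of_dvd_pow e')] at e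
        exact R₀.not_dvd_index e
    · exact hH.2 s hsp hsπ e
  · rw [hcA]
    have hsπ : s ∈ π := by rw [hπ]; rcases hL s hsp hsL with e | ⟨-, e⟩ <;> [exact Or.inl e; exact Or.inr e]
    have hsH : s ∣ Nat.card Hs * Nat.card Ht := by
      rw [← card_H σ τ hd H Hs Ht hs ht hjoin hcomm]
      exact (hsp.dvd_mul.mp (H.card_mul_index ▸ hsL.trans (Subgroup.card_subgroup_dvd_card L))).resolve_right
        (hH.2 s hsp hsπ)
    rcases hsp.dvd_mul.mp hsH with e | e
    · exact e.mul_right _
    · rcases hL s hsp hsL with e' | ⟨rfl, -⟩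
      · exact absurd (ht s hsp e) (Set.disjoint_left.mp hd e')
      · refine Dvd.dvd.mul_left ?_ _
        rw [hRc, R₀.card_eq_multiplicity]
        exact dvd_pow_self _ (hsp.factorization_pos_of_dvd Nat.card_pos.ne' e).ne'

include hπ hd hH hs ht hsn hjoin hcomm in
/-- Two prime power subgroups, one normalizing the other, commute. -/
theorem commute_pair {q r : ℕ} (hq : q.Prime) (hr : r.Prime) (hne : q ≠ r) (hqσ : q ∈ σ) (hrπ : r ∈ π)
    {A B : Subgroup G} (hA : IsPGroup q A) (hB : IsPGroup r B)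
    (hn : B ≤ normalizer (A : Set G) ∨ A ≤ normalizer (B : Set G)) : A ≤ centralizer (B : Set G) := by
  haveI := Fact.mk hq
  haveI := Fact.mk hr
  have hdvd : Nat.card ↥(A ⊔ B) ∣ Nat.card A * Nat.card B := by
    rcases hn with h | h
    · exact ⟨Nat.card ↥(B ⊓ A), by rw [sup_comm, CfsgLib.Core.card_sup_mul_card_inf h, mul_comm]⟩
    · exact ⟨Nat.card ↥(A ⊓ B), (CfsgLib.Core.card_sup_mul_card_inf h).symm⟩
  have hL : ∀ s : ℕ, s.Prime → s ∣ Nat.card ↥(A ⊔ B) → s ∈ σ ∨ (s = r ∧ s ∈ τ) := by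
    intro s hsp hs'
    rcases hsp.dvd_mul.mp (hs'.trans hdvd) with e | e
    · obtain ⟨j, hj⟩ := hA.exists_card_eq
      rw [hj] at e
      exact Or.inl ((Nat.prime_dvd_prime_iff_eq hsp hq).mp (hsp.dvd_of_dvd_pow e) ▸ hqσ)
    · obtain ⟨j, hj⟩ := hB.exists_card_eq
      rw [hj] at e
      have e2 := (Nat.prime_dvd_prime_iff_eq hsp hr).mp (hsp.dvd_of_dvd_pow e)
      subst e2
      rw [hπ] at hrπ
      exact hrπ.imp id fun h => ⟨rfl, h⟩
  exact CfsgLib.Core.le_centralizer_of_isNilpotent
    (nil_mixed σ τ π hπ hd H Hs Ht hH hs ht hsn hjoin hcomm r hr (A ⊔ B) hL) hne le_sup_left le_sup_right hA hB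

include hπ hd hH hs ht hsn hjoin hcomm in
/-- Every π-subgroup is the product of commuting σ- and τ-subgroups. -/
theorem decompose (K : Subgroup G) (hK : Cfsg.IsPiSubgroup π K) :
    ∃ S M : Subgroup G, S ⊔ M = K ∧ Cfsg.IsPiSubgroup σ S ∧ Cfsg.IsPiSubgroup τ M ∧ S ≤ centralizer (M : Set G) := by
  classical
  have hfrob : ∀ q : ℕ, q.Prime → q ∈ σ → ∃ N : Subgroup K, N.Normal ∧ ¬ q ∣ Nat.card N ∧
      ∀ t : ℕ, t.Prime → t ∣ N.index → t ∈ σ := by
    intro q hq hqσ
    haveI := Fact.mk hq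
    obtain ⟨P⟩ : Nonempty (Sylow q K) := inferInstance
    obtain ⟨N, hN, hc⟩ := (Cfsg.Agent.S0071.result P).mpr fun Q hQ g hg hcop => by
      rw [mem_centralizer_iff]
      intro z hz
      have hA : IsPGroup q (Q.map K.subtype) := (P.2.to_le hQ).map _
      have hgN : (g : G) ∈ normalizer ((Q.map K.subtype : Subgroup G) : Set G) :=
        Subgroup.le_normalizer_map K.subtype ⟨g, hg, rfl⟩
      have hgc : (g : G) ∈ centralizer ((Q.map K.subtype : Subgroup G) : Set G) := by
        refine of_primePow _ _ _ rfl fun i p k hp hord => ?_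
        by_cases hk : k = 0
        · rw [hk, pow_zero, orderOf_eq_one_iff] at hord
          rw [hord]; exact one_mem _
        have hpd : p ∣ orderOf ((g : G) ^ i) := hord ▸ dvd_pow_self p hk
        have hne : q ≠ p := by
          rintro rfl
          refine (hq.coprime_iff_not_dvd.mp hcop.symm) ?_
          rw [← Subgroup.orderOf_coe g]
          exact hpd.trans (orderOf_pow_dvd i)
        haveI := Fact.mk hp
        have hpπ : p ∈ π := hK p hp (hpd.trans (Subgroup.orderOf_dvd_natCard K (K.pow_mem g.2 i)))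
        have hB : IsPGroup p (Subgroup.zpowers ((g : G) ^ i)) :=
          IsPGroup.of_card (n := k) (by rw [Nat.card_zpowers, hord])
        have := commute_pair σ τ π hπ hd H Hs Ht hH hs ht hsn hjoin hcomm hq hp hne hqσ hpπ hA hB
          (Or.inl (Subgroup.zpowers_le.mpr (pow_mem hgN i)))
        rw [mem_centralizer_iff]
        intro a ha
        exact (this ha _ (Subgroup.mem_zpowers _)).symm
      exact Subtype.ext (hgc (z : G) ⟨z, hz, rfl⟩)
    have hidx : N.index = Nat.card (P : Subgroup K) := hc.symm.index_eq_card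
    refine ⟨N, hN, fun e => ?_, fun t htp htd => ?_⟩
    · rw [← hc.index_eq_card] at e
      exact P.not_dvd_index e
    · obtain ⟨j, hj⟩ := P.2.exists_card_eq
      rw [hidx, hj] at htd
      rw [(Nat.prime_dvd_prime_iff_eq htp hq).mp (htp.dvd_of_dvd_pow htd)]
      exact hqσ
  have hall : ∀ s : Finset ℕ, (∀ q ∈ s, q.Prime ∧ q ∈ σ) → ∃ N : Subgroup K, N.Normal ∧
      (∀ q ∈ s, ¬ q ∣ Nat.card N) ∧ ∀ t : ℕ, t.Prime → t ∣ N.index → t ∈ σ := by
    intro s
    induction s using Finset.induction_on with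
    | empty => exact fun _ => ⟨⊤, inferInstance, fun q hq => by simp at hq, fun t htp e => by
        rw [Subgroup.index_top] at e; exact absurd (Nat.dvd_one.mp e) htp.ne_one⟩
    | insert q s hqs ih =>
      intro hs'
      obtain ⟨M, hM, hM1, hM2⟩ := ih fun a ha => hs' a (Finset.mem_insert_of_mem ha)
      obtain ⟨N, hN, hN1, hN2⟩ := hfrob q (hs' q (Finset.mem_insert_self _ _)).1 (hs' q (Finset.mem_insert_self _ _)).2
      haveI := hM
      haveI := hN
      refine ⟨M ⊓ N, inferInstance, fun a ha e => ?_, fun t htp e => ?_⟩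
      · rcases Finset.mem_insert.mp ha with rfl | ha
        · exact hN1 (e.trans (Subgroup.card_dvd_of_le inf_le_right))
        · exact hM1 a ha (e.trans (Subgroup.card_dvd_of_le inf_le_left))
      · rw [← Subgroup.relIndex_mul_index (inf_le_right : M ⊓ N ≤ N), Subgroup.inf_relIndex_right] at e
        rcases htp.dvd_mul.mp e with e | e
        · exact hM2 t htp (e.trans (Subgroup.relIndex_dvd_index_of_normal M N))
        · exact hN2 t htp e
  obtain ⟨M, hM, hM1, hM2⟩ := hall ((Nat.card K).primeFactors.filter (· ∈ σ)) fun q hq => by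
    rw [Finset.mem_filter] at hq; exact ⟨Nat.prime_of_mem_primeFactors hq.1, hq.2⟩
  haveI := hM
  have hMτ : ∀ t : ℕ, t.Prime → t ∣ Nat.card M → t ∈ τ := by
    intro t htp e
    have h1 := e.trans (Subgroup.card_subgroup_dvd_card M)
    have h2 := hK t htp h1
    rw [hπ] at h2
    refine h2.resolve_left fun h3 => hM1 t ?_ e
    rw [Finset.mem_filter]
    exact ⟨Nat.mem_primeFactors.mpr ⟨htp, h1, Nat.card_pos.ne'⟩, h3⟩
  obtain ⟨S, hS⟩ := Subgroup.exists_right_complement'_of_coprime (N := M)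
    (Nat.coprime_of_dvd fun t htp ha hb => Set.disjoint_left.mp hd (hM2 t htp hb) (hMτ t htp ha))
  set Mg := M.map K.subtype with hMg
  set Sg := S.map K.subtype with hSg
  have hMgτ : Cfsg.IsPiSubgroup τ Mg := fun t htp e => hMτ t htp (by
    rwa [Subgroup.card_map_of_injective K.subtype_injective] at e)
  have hSgσ : Cfsg.IsPiSubgroup σ Sg := fun t htp e => hM2 t htp (by
    rw [Subgroup.card_map_of_injective K.subtype_injective] at e
    rwa [hS.symm.index_eq_card])
  refine ⟨Sg, Mg, ?_, hSgσ, hMgτ, fun x hx => ?_⟩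
  · rw [← Subgroup.map_sup, sup_comm, hS.sup_eq_top, ← MonoidHom.range_eq_map, Subgroup.range_subtype]
  refine of_primePow _ _ _ rfl fun i q k hq hord => ?_
  set y := x ^ i with hy
  have hyS : y ∈ Sg := Sg.pow_mem hx i
  by_cases hk : k = 0
  · rw [hk, pow_zero, orderOf_eq_one_iff] at hord
    rw [hord]; exact one_mem _
  haveI := Fact.mk hq
  have hqσ : q ∈ σ := hSgσ q hq (dvd_trans (hord ▸ dvd_pow_self q hk) (Subgroup.orderOf_dvd_natCard Sg hyS))
  have hyN : Subgroup.zpowers y ≤ normalizer (Mg : Set G) := Subgroup.zpowers_le.mpr (by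
    obtain ⟨y', -, hy'⟩ := hyS
    rw [← hy']
    exact Subgroup.le_normalizer_map K.subtype ⟨y', by rw [Subgroup.normalizer_eq_top]; exact Subgroup.mem_top _, rfl⟩)
  have hcop : (Nat.card (Subgroup.zpowers y)).Coprime (Nat.card Mg) := by
    rw [Nat.card_zpowers, hord]
    refine Nat.Coprime.pow_left k (hq.coprime_iff_not_dvd.mpr fun e => ?_)
    exact Set.disjoint_left.mp hd hqσ (hMgτ q hq e)
  haveI : Group.IsSolvable (Subgroup.zpowers y) :=
    Group.isSolvable_of_comm (IsCyclic.commGroup (α := Subgroup.zpowers y)).mul_comm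
  have hfull : Nat.card Mg ∣ Nat.card ↥(Mg ⊓ centralizer (Subgroup.zpowers y : Set G)) := by
    rw [← Nat.factorization_le_iff_dvd Nat.card_pos.ne' Nat.card_pos.ne']
    intro r
    by_cases hr : r.Prime
    swap
    · simp [Nat.factorization_eq_zero_of_not_prime _ hr]
    haveI := Fact.mk hr
    by_cases hrd : r ∣ Nat.card Mg
    swap
    · simp [Nat.factorization_eq_zero_of_not_dvd hrd]
    have hne : q ≠ r := fun e => Set.disjoint_left.mp hd hqσ (e ▸ hMgτ r hr hrd)
    obtain ⟨R, -, hR⟩ := CfsgLib.Core.exists_invariant_sylow_ge (U := ⊥) r hyN hcop (Or.inl inferInstance) bot_le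
      IsPGroup.of_bot (fun a _ => mem_normalizer_iff.mpr fun b => by simp [Subgroup.mem_bot, mul_inv_eq_one])
    have hRp : IsPGroup r ((R : Subgroup Mg).map Mg.subtype) := R.2.map _
    have hrπ : r ∈ π := by rw [hπ]; exact Or.inr (hMgτ r hr hrd)
    have hyp : IsPGroup q (Subgroup.zpowers y) := IsPGroup.of_card (n := k) (by rw [Nat.card_zpowers, hord])
    have hc := commute_pair σ τ π hπ hd H Hs Ht hH hs ht hsn hjoin hcomm hq hr hne hqσ hrπ hyp hRp (Or.inr hR)
    have hle : (R : Subgroup Mg).map Mg.subtype ≤ Mg ⊓ centralizer (Subgroup.zpowers y : Set G) :=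
      le_inf (Subgroup.map_subtype_le _) (Subgroup.le_centralizer_iff.mp hc)
    have hd' := Subgroup.card_dvd_of_le hle
    rw [Subgroup.card_map_of_injective Mg.subtype_injective, R.card_eq_multiplicity] at hd'
    exact (hr.pow_dvd_iff_le_factorization Nat.card_pos.ne').mp hd'
  have heq : Mg ⊓ centralizer (Subgroup.zpowers y : Set G) = Mg :=
    Subgroup.eq_of_le_of_card_ge inf_le_left (Nat.le_of_dvd Nat.card_pos hfull)
  exact Subgroup.le_centralizer_iff.mp (inf_eq_left.mp heq) (Subgroup.mem_zpowers y)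

include hπ hd hH hs ht hsn hjoin hcomm in
theorem main (hD : Cfsg.IsDPiGroup τ G) : Cfsg.IsDPiGroup π G := by
  have hHtmax : Maximal (Cfsg.IsPiSubgroup τ) Ht := by
    refine ⟨ht, fun T hT hle => le_of_eq (Subgroup.eq_of_le_of_card_ge hle ?_).symm⟩
    have hrel : Ht.relIndex T = 1 := by
      by_contra hne
      obtain ⟨s, hsp, hsd⟩ := Nat.exists_prime_and_dvd hne
      have hsT : s ∣ Nat.card T := hsd.trans (Subgroup.index_dvd_card _)
      have hsτ := hT s hsp hsT
      have hi : Ht.relIndex T ∣ Ht.index := ⟨T.index, (Subgroup.relIndex_mul_index hle).symm⟩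
      have hidx : Ht.index = Nat.card Hs * H.index := by
        have e1 := Ht.card_mul_index
        rw [← H.card_mul_index, card_H σ τ hd H Hs Ht hs ht hjoin hcomm] at e1
        refine Nat.eq_of_mul_eq_mul_left (Nat.card_pos (α := Ht)) ?_
        rw [e1]; ring
      rcases hsp.dvd_mul.mp (hidx ▸ hsd.trans hi) with e | e
      · exact Set.disjoint_left.mp hd (hs s hsp e) hsτ
      · exact hH.2 s hsp (by rw [hπ]; exact Or.inr hsτ) e
    rw [Subgroup.relIndex_eq_one] at hrel
    exact Nat.le_of_dvd Nat.card_pos (Subgroup.card_dvd_of_le hrel)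
  have hcov : ∀ K : Subgroup G, Cfsg.IsPiSubgroup π K → ∃ x : G, K ≤ MulAut.conj x • H := by
    intro K hK
    obtain ⟨S, M, hSM, hSσ, hMτ, hSC⟩ := decompose σ τ π hπ hd H Hs Ht hH hs ht hsn hjoin hcomm K hK
    obtain ⟨T, hMT, hT⟩ := Finite.exists_le_maximal (p := Cfsg.IsPiSubgroup τ) hMτ
    obtain ⟨g, hg⟩ := hD Ht T hHtmax hT
    have hTg : T = MulAut.conj g • Ht := hg
    set A := MulAut.conj g • Hs with hA
    have hAC : A ≤ centralizer (M : Set G) := by
      rintro _ ⟨a, ha, rfl⟩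
      rw [mem_centralizer_iff]
      intro m hm
      obtain ⟨b, hb, rfl⟩ := (Subgroup.mem_smul_pointwise_iff_exists _ _ _).mp (hTg ▸ hMT hm)
      show MulAut.conj g • b * MulAut.conj g a = MulAut.conj g a * MulAut.conj g • b
      rw [MulAut.smul_def, ← map_mul, ← map_mul, hcomm a ha b hb]
    have hAc : Nat.card A = Nat.card Hs := (Nat.card_congr (Subgroup.equivSMul (MulAut.conj g) Hs).toEquiv).symm
    have hAnil : Group.IsNilpotent (A.subgroupOf (centralizer (M : Set G))) := by
      haveI := hsn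
      exact Group.nilpotent_of_mulEquiv
        ((Subgroup.equivSMul (MulAut.conj g) Hs).trans (Subgroup.subgroupOfEquivOfLe hAC).symm)
    have hsG : ∀ s : ℕ, s.Prime → s ∈ σ → ¬ s ∣ A.index := by
      intro s hsp hsσ e
      have e1 := A.card_mul_index
      rw [hAc, ← H.card_mul_index, card_H σ τ hd H Hs Ht hs ht hjoin hcomm, mul_assoc] at e1
      rw [Nat.eq_of_mul_eq_mul_left Nat.card_pos e1] at e
      rcases hsp.dvd_mul.mp e with e | e
      · exact Set.disjoint_left.mp hd hsσ (ht s hsp e)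
      · exact hH.2 s hsp (by rw [hπ]; exact Or.inl hsσ) e
    have hhall : (Nat.card (A.subgroupOf (centralizer (M : Set G)))).Coprime
        (A.subgroupOf (centralizer (M : Set G))).index := by
      rw [Nat.card_congr (Subgroup.subgroupOfEquivOfLe hAC).toEquiv, hAc]
      refine Nat.coprime_of_dvd fun s hsp ha hb => hsG s hsp (hs s hsp ha) ?_
      exact hb.trans ⟨(centralizer (M : Set G)).index, (Subgroup.relIndex_mul_index hAC).symm⟩
    obtain ⟨c, hc⟩ := CfsgLib.Core.wielandt_aux _ _ (A.subgroupOf (centralizer (M : Set G)))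
      (S.subgroupOf (centralizer (M : Set G))) le_rfl hAnil hhall (by
        intro s hsp hd'
        rw [Nat.card_congr (Subgroup.subgroupOfEquivOfLe hSC).toEquiv] at hd'
        rw [Nat.card_congr (Subgroup.subgroupOfEquivOfLe hAC).toEquiv]
        exact (hsp.dvd_mul.mp (A.card_mul_index ▸ hd'.trans (Subgroup.card_subgroup_dvd_card S))).resolve_right
          (hsG s hsp (hSσ s hsp hd')))
    refine ⟨(c : G) * g, ?_⟩
    rw [← hSM, sup_le_iff]
    refine ⟨fun s hsS => ?_, fun m hm => ?_⟩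
    · obtain ⟨a, ha, hae⟩ := (Subgroup.mem_smul_pointwise_iff_exists _ _ _).mp
        (hc (show (⟨s, hSC hsS⟩ : centralizer (M : Set G)) ∈ S.subgroupOf _ from hsS))
      obtain ⟨b, hb, hbe⟩ := (Subgroup.mem_smul_pointwise_iff_exists _ _ _).mp (Subgroup.mem_subgroupOf.mp ha)
      refine (Subgroup.mem_smul_pointwise_iff_exists _ _ _).mpr ⟨b, hjoin ▸ Subgroup.mem_sup_left hb, ?_⟩
      have e := congrArg Subtype.val hae
      rw [map_mul, mul_smul, hbe]
      exact e
    · obtain ⟨b, hb, hbe⟩ := (Subgroup.mem_smul_pointwise_iff_exists _ _ _).mp (hTg ▸ hMT hm)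
      refine (Subgroup.mem_smul_pointwise_iff_exists _ _ _).mpr ⟨b, hjoin ▸ Subgroup.mem_sup_right hb, ?_⟩
      rw [map_mul, mul_smul, hbe]
      show (c : G) * m * (c : G)⁻¹ = m
      rw [← c.2 m hm, mul_inv_cancel_right]
  have hconj : ∀ K : Subgroup G, Maximal (Cfsg.IsPiSubgroup π) K → ∃ x : G, K = MulAut.conj x • H := by
    intro K hK
    obtain ⟨x, hx⟩ := hcov K hK.1
    refine ⟨x, le_antisymm hx (hK.2 ?_ hx)⟩
    intro s hsp e
    rw [← Nat.card_congr (Subgroup.equivSMul (MulAut.conj x) H).toEquiv] at e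
    exact hH.1 s hsp e
  intro K₁ K₂ h1 h2
  obtain ⟨x, rfl⟩ := hconj K₁ h1
  obtain ⟨y, rfl⟩ := hconj K₂ h2
  refine ⟨y * x⁻¹, ?_⟩
  show _ = MulAut.conj (y * x⁻¹) • MulAut.conj x • H
  rw [← mul_smul, ← map_mul, inv_mul_cancel_right]

end

end CfsgLib.HallDec
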