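import Mathlib

/-!
# Automorphisms of order `p` of a homocyclic group of exponent `p²` and rank two
-/

set_option autoImplicit false

namespace CfsgLib.Fgs.Homocyclic

theorem smul_sub_eq_zero {p : ℕ} (hp' : p.Prime) (hp : 3 < p) {A : Type*} [AddCommGroup A] [Finite A]
    (hcard : Nat.card A = p ^ 4) (hkill : ∀ y : A, (p * p) • y = 0)
    (hdiv : ∀ y : A, p • y = 0 → ∃ z, y = p • z) (E : AddMonoid.End A) (hE : E ^ p = 1) (y₀ : A) :
    p • (E y₀ - y₀) = 0 := by
  set N : AddMonoid.End A := E - 1 with hN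
  have hexp : ∀ y : A, ∑ k ∈ Finset.Icc 1 p, p.choose k • (N ^ k) y = 0 := by
    intro y
    have h1 : (E ^ p) y = y := by rw [hE]; rfl
    have h2 : E ^ p = ∑ k ∈ Finset.range (p + 1), N ^ k * (p.choose k : AddMonoid.End A) := by
      conv_lhs => rw [show E = N + 1 by rw [hN, sub_add_cancel]]
      rw [(Commute.one_right N).add_pow]
      exact Finset.sum_congr rfl fun k _ => by rw [one_pow, mul_one]
    let ev : AddMonoid.End A →+ A :=
      { toFun := fun f => f y, map_zero' := rfl, map_add' := fun _ _ => rfl }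
    have h5 : ev (E ^ p) = y := h1
    rw [h2, map_sum, Finset.range_eq_Ico, Finset.sum_eq_sum_Ico_succ_bot (Nat.succ_pos p)] at h5
    have h3 : ∀ (k : ℕ), (N ^ k * (p.choose k : AddMonoid.End A)) y = p.choose k • (N ^ k) y := by
      intro k
      show (N ^ k) (((p.choose k : ℕ) : AddMonoid.End A) y) = _
      rw [AddMonoid.End.natCast_apply, map_nsmul]
    rw [Finset.sum_congr rfl (fun k _ => show ev (N ^ k * (p.choose k : AddMonoid.End A)) = p.choose k • (N ^ k) y from h3 k),
      show ev (N ^ 0 * (p.choose 0 : AddMonoid.End A)) = y by simp [ev]; rfl] at h5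
    have h4 := add_eq_left.mp h5
    rw [← Finset.Ico_add_one_right_eq_Icc]
    exact h4
  have hchoose : ∀ k, 1 ≤ k → k < p → ∃ c, p.choose k = p * c := fun k hk1 hk =>
    hp'.dvd_choose_self (by omega) hk
  have hzero : ∀ y : A, (N ^ p) (p • y) = 0 := by
    intro y
    have h := congrArg (fun z : A => p • z) (hexp y)
    simp only [Finset.smul_sum, smul_zero] at h
    rw [← Finset.Ico_add_one_right_eq_Icc, Finset.sum_Ico_succ_top (by omega), Finset.sum_eq_zero (fun k hk => ?_),
      zero_add, Nat.choose_self, one_smul] at h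
    · rw [map_nsmul]; exact h
    · obtain ⟨c, hc⟩ := hchoose k (Finset.mem_Ico.mp hk).1 (Finset.mem_Ico.mp hk).2
      rw [hc, ← mul_smul, ← mul_assoc, mul_smul, smul_comm, hkill, smul_zero]
  -- `N²` kills `pA`
  let B : AddSubgroup A := (nsmulAddMonoidHom p : A →+ A).range
  have hmB : ∀ z, z ∈ B ↔ ∃ y, p • y = z := fun z => Iff.rfl
  let S : ℕ → AddSubgroup A := fun k => B.map (N ^ k : AddMonoid.End A)
  have hS0 : S 0 = B := B.map_id
  have hSsucc : ∀ k, S (k + 1) = (S k).map (N : A →+ A) := by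
    intro k
    show B.map _ = _
    rw [pow_succ']
    exact (AddSubgroup.map_map B (N : A →+ A) ((N ^ k : AddMonoid.End A) : A →+ A)).symm
  have hNle : S 1 ≤ B := by
    rintro _ ⟨z, hz, rfl⟩
    obtain ⟨y, rfl⟩ := (hmB z).mp hz
    exact (hmB _).mpr ⟨(N ^ 1) y, (map_nsmul _ _ _).symm⟩
  have hmono : ∀ k, S (k + 1) ≤ S k := by
    intro k
    induction k with
    | zero => rw [hS0]; exact hNle
    | succ k ih =>
      rw [hSsucc (k + 1)]
      exact (AddSubgroup.map_mono ih).trans (hSsucc k).ge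
  have hSp : S p = ⊥ := by
    rw [eq_bot_iff]
    rintro _ ⟨z, hz, rfl⟩
    obtain ⟨y, rfl⟩ := (hmB z).mp hz
    exact hzero y
  have hstab : ∀ j, S (j + 1) = S j → ∀ k, S (j + k) = S j := by
    intro j hj k
    induction k with
    | zero => rfl
    | succ k ih => rw [← add_assoc, hSsucc, ih, ← hSsucc, hj]
  have hBcard : Nat.card B = p ^ 2 := by
    have hker : (nsmulAddMonoidHom p : A →+ A).ker = B := by
      refine le_antisymm (fun y hy => ?_) ?_
      · obtain ⟨z, hz⟩ := hdiv y hy
        exact (hmB y).mpr ⟨z, hz.symm⟩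
      · intro z hz
        obtain ⟨y, rfl⟩ := (hmB z).mp hz
        show p • (p • y) = 0
        rw [← mul_smul, hkill]
    have h := AddSubgroup.card_mul_index (nsmulAddMonoidHom p : A →+ A).ker
    rw [AddSubgroup.index_ker, hker, hcard] at h
    exact Nat.pow_left_injective two_ne_zero (show Nat.card B ^ 2 = (p ^ 2) ^ 2 by rw [pow_two (Nat.card B), h]; ring)
  have hN2 : S 2 = ⊥ := by
    have hdown : ∀ j, S (j + 1) ≠ S j → Nat.card (S (j + 1)) * p ≤ Nat.card (S j) := by
      intro j hj
      have hle := hmono j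
      obtain ⟨i, hi, hci⟩ := (Nat.dvd_prime_pow hp').mp (hBcard ▸ AddSubgroup.card_dvd_of_le (show S j ≤ B from by
        clear hj hle
        induction j with
        | zero => exact hS0.le
        | succ j ih => exact (hmono j).trans ih))
      obtain ⟨l, hl, hcl⟩ := (Nat.dvd_prime_pow hp').mp (hci ▸ AddSubgroup.card_dvd_of_le hle)
      have hlt : l < i := by
        rcases lt_or_eq_of_le hl with h | h
        · exact h
        · exact absurd (AddSubgroup.eq_of_le_of_card_ge hle (by rw [hci, hcl, h])) hj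
      rw [hci, hcl, ← pow_succ]
      exact Nat.pow_le_pow_right hp'.pos hlt
    by_cases h0 : S 1 = S 0
    · have hpe := hstab 0 h0 p
      rw [zero_add, hSp, hS0] at hpe
      rw [eq_bot_iff]
      exact ((hmono 1).trans hNle).trans hpe.ge
    by_cases h1 : S 2 = S 1
    · have hpe := hstab 1 h1 (p - 1)
      rw [show 1 + (p - 1) = p by omega, hSp] at hpe
      rw [h1, ← hpe]
    have e0 := hdown 0 h0
    have e1 := hdown 1 h1
    rw [hS0, hBcard] at e0
    have hcard : Nat.card (S 2) ≤ 1 := by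
      by_contra h
      have hgt : 2 ≤ Nat.card (S 2) := by omega
      have : 2 * p * p ≤ p ^ 2 := le_trans (Nat.mul_le_mul_right p (le_trans (Nat.mul_le_mul_right p hgt) e1)) e0
      have := hp'.two_le
      nlinarith
    exact AddSubgroup.eq_bot_of_card_le _ hcard
  have hpN2 : ∀ y : A, p • (N ^ 2) y = 0 := fun y => by
    have h : (N ^ 2) (p • y) ∈ S 2 := ⟨p • y, (hmB _).mpr ⟨y, rfl⟩, rfl⟩
    rw [hN2, AddSubgroup.mem_bot, map_nsmul] at h
    exact h
  have hN4 : ∀ y : A, (N ^ 4) y = 0 := fun y => by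
    obtain ⟨z, hz⟩ := hdiv _ (hpN2 y)
    show (N ^ (2 + 2)) y = 0
    rw [pow_add]
    show (N ^ 2) ((N ^ 2) y) = 0
    rw [hz, map_nsmul, hpN2]
  have hpN : ∀ y : A, p • N y = 0 := by
    intro y
    have h := hexp y
    rw [Finset.sum_eq_single_of_mem 1 (Finset.mem_Icc.mpr ⟨le_rfl, hp'.pos⟩) fun k hk hk1 => ?_] at h
    · rwa [Nat.choose_one_right, pow_one] at h
    · have hk' := Finset.mem_Icc.mp hk
      rcases lt_or_eq_of_le hk'.2 with hlt | rfl
      · obtain ⟨c, hc⟩ := hchoose k hk'.1 hlt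
        rw [hc, mul_comm, mul_smul, show k = 2 + (k - 2) by omega, pow_add]
        show c • p • (N ^ 2) ((N ^ (k - 2)) y) = 0
        rw [hpN2, smul_zero]
      · rw [Nat.choose_self, one_smul, show k = 4 + (k - 4) by omega, pow_add]
        exact hN4 _
  exact hpN y₀

end CfsgLib.Fgs.Homocyclic
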