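import Cfsg.Agent.Lib.CoreBasic
import Cfsg.Agent.Lib.CoreFrobenius
import Mathlib.Algebra.BigOperators.GroupWithZero.Finset

/-!
# Averaging arguments for coprime actions on abelian groups
-/

set_option autoImplicit false

universe u

namespace CfsgLib.LocalAverage

open Subgroup
open scoped IsMulCommutative

variable {G : Type u} [Group G] [Finite G]

/-- Conjugation as an endomorphism of a normalized subgroup. -/
noncomputable def act (V : Subgroup G) {x : G} (hx : x ∈ normalizer (V : Set G)) : V →* V where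
  toFun v := ⟨x * v * x⁻¹, (mem_normalizer_iff.mp hx v).mp v.2⟩
  map_one' := Subtype.ext (by simp)
  map_mul' u v := Subtype.ext (by
    show x * ((u : G) * v) * x⁻¹ = x * u * x⁻¹ * (x * v * x⁻¹)
    group)

theorem act_apply (V : Subgroup G) {x : G} (hx : x ∈ normalizer (V : Set G)) (v : V) :
    (act V hx v : G) = x * v * x⁻¹ := rfl

theorem invariant_complement (V A U W : Subgroup G) (hVab : IsMulCommutative V)
    (hAV : A ≤ normalizer (V : Set G)) (hcop : (Nat.card A).Coprime (Nat.card V))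
    (hUV : U ≤ V) (hAU : A ≤ normalizer (U : Set G)) (hWV : W ≤ V) (hUW : U ⊓ W = ⊥)
    (hUWV : U ⊔ W = V) :
    ∃ W' : Subgroup G, W' ≤ V ∧ A ≤ normalizer (W' : Set G) ∧ U ⊓ W' = ⊥ ∧ U ⊔ W' = V := by
  haveI := hVab
  classical
  haveI : Fintype A := Fintype.ofFinite A
  set U' := U.subgroupOf V with hU'
  set W₀ := W.subgroupOf V with hW₀
  let φ : U' × W₀ →* V := U'.subtype.coprod W₀.subtype
  have hφ : Function.Bijective φ := by
    refine ⟨(injective_iff_map_eq_one φ).mpr ?_, fun v => ?_⟩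
    · rintro ⟨u, w⟩ h
      have h1 : ((u : V) : G) * ((w : V) : G) = 1 := congrArg Subtype.val h
      have hu : ((u : V) : G) ∈ U ⊓ W := mem_inf.mpr ⟨u.2, by
        rw [eq_inv_of_mul_eq_one_left h1]; exact inv_mem w.2⟩
      rw [hUW, mem_bot] at hu
      rw [hu, one_mul] at h1
      exact Prod.ext (Subtype.ext (Subtype.ext hu)) (Subtype.ext (Subtype.ext h1))
    · have h1 : v ∈ U' ⊔ W₀ := by
        rw [hU', hW₀, ← subgroupOf_sup hUV hWV, hUWV, subgroupOf_self]; exact mem_top v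
      obtain ⟨u, hu, w, hw, e⟩ := mem_sup.mp h1
      exact ⟨(⟨u, hu⟩, ⟨w, hw⟩), e⟩
  let π : V →* V := (U'.subtype.comp (MonoidHom.fst U' W₀)).comp
    (MulEquiv.ofBijective φ hφ).symm.toMonoidHom
  have hπU : ∀ u ∈ U', π u = u := fun u hu => by
    have : (MulEquiv.ofBijective φ hφ).symm u = (⟨u, hu⟩, 1) := by
      rw [MulEquiv.symm_apply_eq]
      show u = u * 1
      rw [mul_one]
    show (((MulEquiv.ofBijective φ hφ).symm u).1 : V) = u
    rw [this]
  have hπ' : ∀ v, π v ∈ U' := fun v => (((MulEquiv.ofBijective φ hφ).symm v).1).2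
  let c : A → (V →* V) := fun a => act V (hAV a.2)
  have hcU : ∀ (a : A), ∀ u ∈ U', c a u ∈ U' := fun a u hu =>
    (mem_normalizer_iff.mp (hAU a.2) _).mp hu
  have hcc : ∀ (a b : A) (v : V), c a (c b v) = c (a * b) v := fun a b v => Subtype.ext (by
    show (a : G) * ((b : G) * v * (b : G)⁻¹) * (a : G)⁻¹ = ((a * b : A) : G) * v * ((a * b : A) : G)⁻¹
    push_cast; group)
  have hc1 : ∀ v : V, c 1 v = v := fun v => Subtype.ext (by
    show ((1 : A) : G) * v * ((1 : A) : G)⁻¹ = v
    simp)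
  let P : V →* V := ∏ a : A, (c a).comp (π.comp (c a⁻¹))
  have hP : ∀ v, P v = ∏ a : A, c a (π (c a⁻¹ v)) := fun v => MonoidHom.finsetProd_apply _ _ _
  have hPU : ∀ u ∈ U', P u = u ^ Nat.card A := fun u hu => by
    rw [hP, Finset.prod_eq_pow_card (b := u), Finset.card_univ, Nat.card_eq_fintype_card]
    intro a _
    rw [hπU _ (hcU _ u hu), hcc, mul_inv_cancel, hc1]
  have hP' : ∀ v, P v ∈ U' := fun v => by
    rw [hP]; exact prod_mem fun a _ => hcU a _ (hπ' _)
  have hPe : ∀ (b : A) (v : V), P (c b v) = c b (P v) := fun b v => by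
    rw [hP, hP, map_prod]
    refine (Fintype.prod_equiv (Equiv.mulLeft b) _ _ fun a => ?_).symm
    simp only [Equiv.coe_mulLeft, hcc, mul_inv_rev, inv_mul_cancel_right]
  obtain ⟨m, -, hm⟩ : ∃ m, m < Nat.card V + 1 ∧ Nat.card A * m ≡ 1 [MOD Nat.card V] := by
    rcases (Nat.succ_le_of_lt (Nat.card_pos (α := V))).eq_or_lt with e | e
    · exact ⟨0, Nat.succ_pos _, by rw [← e]; exact Nat.modEq_one⟩
    · obtain ⟨m, hm1, hm⟩ := Nat.exists_mul_mod_eq_one_of_coprime hcop e
      exact ⟨m, by omega, by rw [Nat.ModEq, hm, Nat.one_mod_eq_one.mpr (by omega)]⟩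
  have hpow : ∀ v : V, (v ^ Nat.card A) ^ m = v := fun v => by
    conv_rhs => rw [← pow_one v]
    rw [← pow_mul]
    exact pow_eq_pow_iff_modEq.mpr (hm.of_dvd (orderOf_dvd_natCard v))
  refine ⟨P.ker.map V.subtype, map_subtype_le _, fun b hb => ?_, ?_, ?_⟩
  · refine mem_normalizer_fintype ?_
    rintro _ ⟨v, hv, rfl⟩
    refine ⟨c ⟨b, hb⟩ v, ?_, rfl⟩
    show P (c ⟨b, hb⟩ v) = 1
    rw [hPe, show P v = 1 from hv, map_one]
  · rw [eq_bot_iff]
    intro x hx
    obtain ⟨hxU, ⟨v, hv, rfl⟩⟩ := mem_inf.mp hx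
    have h1 := hpow v
    rw [← hPU v hxU, show P v = 1 from hv, one_pow] at h1
    rw [← h1]; exact one_mem _
  · refine le_antisymm (sup_le hUV (map_subtype_le _)) fun x hx => ?_
    set v : V := ⟨x, hx⟩ with hv
    set u := P v ^ m with hu
    have huU : u ∈ U' := pow_mem (hP' v) m
    have hk : P (u⁻¹ * v) = 1 := by
      rw [map_mul, map_inv, hPU u huU, hu, ← pow_mul, mul_comm m, pow_mul, hpow, inv_mul_cancel]
    rw [show x = ((u : V) : G) * ((u⁻¹ * v : V) : G) by
      rw [← Subgroup.coe_mul, mul_inv_cancel_left]]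
    exact mul_mem_sup huU ⟨_, hk, rfl⟩

theorem frobenius_fixed (V F : Subgroup G) (hVab : IsMulCommutative V) (hV1 : V ≠ ⊥)
    (hFV : F ≤ normalizer (V : Set G)) (H : Subgroup F) (hH : Cfsg.IsFrobeniusComplement H)
    (hcop : (Nat.card V).Coprime (Nat.card (Cfsg.frobeniusKernel H)))
    (hCK : V ⊓ centralizer (Subtype.val '' Cfsg.frobeniusKernel H : Set G) = ⊥) :
    V ⊓ centralizer ((H.map F.subtype : Subgroup G) : Set G) ≠ ⊥ := by
  haveI := hVab
  classical
  intro hCH
  obtain ⟨K, hKn, hKeq, hKH, hKtop, -⟩ := CfsgLib.Core.exists_kernel hH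
  haveI : Fintype K := Fintype.ofFinite K
  haveI : Fintype H := Fintype.ofFinite H
  rw [← hKeq] at hcop hCK
  let c : F → (V →* V) := fun f => act V (hFV f.2)
  have hcc : ∀ (a b : F) (v : V), c a (c b v) = c (a * b) v := fun a b v => Subtype.ext (by
    show (a : G) * ((b : G) * v * (b : G)⁻¹) * (a : G)⁻¹ = ((a * b : F) : G) * v * ((a * b : F) : G)⁻¹
    push_cast; group)
  have hc1 : ∀ v : V, c 1 v = v := fun v => Subtype.ext (by
    show ((1 : F) : G) * v * ((1 : F) : G)⁻¹ = v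
    simp)
  -- the norm with respect to a subgroup is fixed by it
  have hnorm : ∀ (L : Subgroup F) [Fintype L], V ⊓ centralizer ((L.map F.subtype : Subgroup G) : Set G) = ⊥ →
      ∀ v : V, ∏ l : L, c l v = 1 := by
    intro L _ hL v
    have hfix : ∀ b : L, c b (∏ l : L, c l v) = ∏ l : L, c l v := fun b => by
      rw [map_prod]
      refine Fintype.prod_equiv (Equiv.mulLeft b) _ _ fun a => ?_
      rw [hcc]; rfl
    have hmem : ((∏ l : L, c l v : V) : G) ∈
        V ⊓ centralizer ((L.map F.subtype : Subgroup G) : Set G) := by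
      refine mem_inf.mpr ⟨SetLike.coe_mem _, mem_centralizer_iff.mpr ?_⟩
      rintro _ ⟨b, hb, rfl⟩
      have := congrArg Subtype.val (hfix ⟨b, hb⟩)
      exact mul_inv_eq_iff_eq_mul.mp this
    rw [hL, mem_bot] at hmem
    exact Subtype.ext hmem
  have hKbot : V ⊓ centralizer ((K.map F.subtype : Subgroup G) : Set G) = ⊥ := by
    rw [coe_map]; exact hCK
  refine hV1 (eq_bot_iff.mpr fun x hx => ?_)
  set v : V := ⟨x, hx⟩ with hv
  have h1 : ∀ k : K, ∏ h : H, c ((k : F) * h * (k : F)⁻¹) v = 1 := fun k => by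
    have h2 := congrArg (c (k : F)) (hnorm H hCH (c (k : F)⁻¹ v))
    rw [map_prod, map_one] at h2
    rw [← h2]
    refine Finset.prod_congr rfl fun h _ => ?_
    rw [hcc, hcc, mul_assoc]
  have h2 : ∏ h : H, ∏ k : K, c ((k : F) * h * (k : F)⁻¹) v = 1 := by
    rw [Finset.prod_comm]; exact Finset.prod_eq_one fun k _ => h1 k
  rw [Fintype.prod_eq_single (1 : H)] at h2
  · simp only [OneMemClass.coe_one, mul_one, mul_inv_cancel, hc1, Finset.prod_const, Finset.card_univ] at h2
    have hcop' : (Nat.card V).Coprime (Fintype.card K) := by rw [← Nat.card_eq_fintype_card]; exact hcop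
    have h3 : orderOf v = 1 :=
      Nat.Coprime.eq_one_of_dvd (hcop'.coprime_dvd_left (orderOf_dvd_natCard v))
        (orderOf_dvd_of_pow_eq_one h2)
    rw [orderOf_eq_one_iff] at h3
    rw [mem_bot]
    exact congrArg Subtype.val h3
  · intro h hne
    let e : K → K := fun k => ⟨(k : F) * h * (k : F)⁻¹ * (h : F)⁻¹, by
      rw [show (k : F) * h * (k : F)⁻¹ * (h : F)⁻¹ = (k : F) * ((h : F) * (k : F)⁻¹ * (h : F)⁻¹) by group]
      exact mul_mem k.2 (hKn.conj_mem _ (inv_mem k.2) _)⟩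
    have he : Function.Bijective e := by
      rw [← Finite.injective_iff_bijective]
      intro k k' hkk
      have h3 : (k : F) * h * (k : F)⁻¹ = (k' : F) * h * (k' : F)⁻¹ :=
        mul_right_cancel (congrArg Subtype.val hkk)
      have h4 : ((k' : F)⁻¹ * k) * h = h * ((k' : F)⁻¹ * k) := by
        calc ((k' : F)⁻¹ * k) * h = (k' : F)⁻¹ * ((k : F) * h * (k : F)⁻¹) * k := by group
          _ = _ := by rw [h3]; group
      exact Subtype.ext (inv_mul_eq_one.mp (CfsgLib.Core.eq_one_of_commute_kernel hH hKH h.2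
        (fun e' => hne (Subtype.ext e')) (mul_mem (inv_mem k'.2) k.2) h4.symm)).symm
    calc ∏ k : K, c ((k : F) * h * (k : F)⁻¹) v = ∏ k : K, c (k : F) (c (h : F) v) := by
          refine Fintype.prod_bijective e he _ _ fun k => ?_
          rw [hcc, inv_mul_cancel_right]
      _ = 1 := hnorm K hKbot _

end CfsgLib.LocalAverage
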