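import Cfsg.Agent.Lib.CorePGroup
import Cfsg.Agent.Lib.CoreCoprime
import Cfsg.Agent.Lib.LocalAverage
import Mathlib.GroupTheory.SemidirectProduct
import Mathlib.GroupTheory.Frattini

/-!
# Invariant subgroups under a coprime action
-/

set_option autoImplicit false

universe u v

open scoped Pointwise

namespace CfsgLib.InvMax

variable {A : Type v} [Group A] {G : Type u} [Group G] [MulDistribMulAction A G]

/-- Invariance under the action. -/
abbrev Inv (A : Type v) [Group A] [MulDistribMulAction A G] (H : Subgroup G) : Prop :=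
  ∀ a : A, ∀ x ∈ H, a • x ∈ H

/-- Maximal among the proper invariant subgroups. -/
abbrev Maxi (A : Type v) [Group A] [MulDistribMulAction A G] (M : Subgroup G) : Prop :=
  M ≠ ⊤ ∧ (∀ a : A, ∀ x ∈ M, a • x ∈ M) ∧
    ∀ L : Subgroup G, M < L → (∀ a : A, ∀ x ∈ L, a • x ∈ L) → L = ⊤

theorem inv_iff {H : Subgroup G} :
    Inv A H ↔ ∀ a : A, H.map (MulDistribMulAction.toMulAut A G a).toMonoidHom ≤ H := by
  constructor
  · rintro h a _ ⟨x, hx, rfl⟩
    exact h a x hx
  · exact fun h a x hx => h a ⟨x, hx, rfl⟩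

theorem inv_map_eq {H : Subgroup G} (h : Inv A H) (a : A) :
    H.map (MulDistribMulAction.toMulAut A G a).toMonoidHom = H := by
  refine le_antisymm (inv_iff.1 h a) fun x hx => ⟨a⁻¹ • x, h _ x hx, ?_⟩
  show a • (a⁻¹ • x) = x
  rw [smul_inv_smul]

theorem inv_sup {H K : Subgroup G} (h1 : Inv A H) (h2 : Inv A K) : Inv A (H ⊔ K) := by
  rw [inv_iff]
  intro a
  rw [Subgroup.map_sup]
  exact sup_le_sup (inv_iff.1 h1 a) (inv_iff.1 h2 a)

theorem inv_bot : Inv A (⊥ : Subgroup G) := fun a x hx => by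
  rw [Subgroup.mem_bot] at hx ⊢
  rw [hx, smul_one]

theorem inv_characteristic (H : Subgroup G) [hH : H.Characteristic] : Inv A H := by
  rw [inv_iff]
  intro a
  exact (Subgroup.characteristic_iff_map_le.1 hH _)

theorem inv_normalizer {H : Subgroup G} (h : Inv A H) :
    Inv A (Subgroup.normalizer (H : Set G)) := by
  intro a x hx
  rw [Subgroup.mem_normalizer_iff] at hx ⊢
  have hmem : ∀ y : G, a⁻¹ • y ∈ H ↔ y ∈ H := fun y =>
    ⟨fun hy => by simpa using h a _ hy, fun hy => h _ _ hy⟩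
  intro y
  rw [← hmem y, ← hmem (a • x * y * (a • x)⁻¹), smul_mul', smul_mul', inv_smul_smul, ← smul_inv',
    inv_smul_smul]
  exact hx _

theorem exists_maxi [Finite G] {H : Subgroup G} (h : Inv A H) (hne : H ≠ ⊤) :
    ∃ M, H ≤ M ∧ Maxi A M := by
  obtain ⟨M, ⟨hHM, hMne, hMi⟩, hmax⟩ := Set.exists_max_image
    {M : Subgroup G | H ≤ M ∧ M ≠ ⊤ ∧ Inv A M} (fun M => Nat.card M) (Set.toFinite _)
    ⟨H, le_rfl, hne, h⟩
  refine ⟨M, hHM, hMne, hMi, fun L hL hLi => by_contra fun hLne => ?_⟩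
  exact hL.ne (Subgroup.eq_of_le_of_card_ge hL.le (hmax L ⟨hHM.trans hL.le, hLne, hLi⟩))

theorem semidirect_data [Finite A] [Finite G] (hcop : (Nat.card A).Coprime (Nat.card G)) :
    ∃ (X : Type (max u v)) (_ : Group X) (_ : Finite X) (il : G →* X) (ir : A →* X),
      Function.Injective il ∧ (∀ (a : A) (g : G), ir a * il g * (ir a)⁻¹ = il (a • g)) ∧
        il.range ⊔ ir.range = ⊤ ∧ (Nat.card ir.range).Coprime (Nat.card G) ∧ Nonempty (A →* ir.range) := by
  let φ : A →* MulAut G := MulDistribMulAction.toMulAut A G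
  refine ⟨G ⋊[φ] A, inferInstance, Finite.of_equiv (G × A) SemidirectProduct.equivProd.symm,
    SemidirectProduct.inl, SemidirectProduct.inr, SemidirectProduct.inl_injective, fun a g => ?_, ?_,
    hcop.coprime_dvd_left (Subgroup.card_range_dvd _), ⟨MonoidHom.rangeRestrict _⟩⟩
  · rw [← map_inv, ← SemidirectProduct.inl_aut]
    rfl
  · rw [eq_top_iff]
    intro x _
    rw [← SemidirectProduct.inl_left_mul_inr_right x]
    exact Subgroup.mul_mem_sup ⟨_, rfl⟩ ⟨_, rfl⟩

theorem exists_inv_sylow [Finite A] [Finite G] (hcop : (Nat.card A).Coprime (Nat.card G))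
    (hsol : Group.IsSolvable A ∨ Group.IsSolvable G) (p : ℕ) [Fact p.Prime] :
    ∃ P : Sylow p G, Inv A (P : Subgroup G) := by
  obtain ⟨X, _, _, il, ir, hil, hact, htop, hc, ⟨-⟩⟩ := semidirect_data (A := A) (G := G) hcop
  have hn : ir.range ≤ Subgroup.normalizer (il.range : Set X) := by
    rintro _ ⟨a, rfl⟩
    refine Subgroup.mem_normalizer_fintype ?_
    rintro _ ⟨g, rfl⟩
    exact ⟨a • g, (hact a g).symm⟩
  have hK : Nat.card il.range = Nat.card G := (Nat.card_congr (MonoidHom.ofInjective hil).toEquiv).symm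
  obtain ⟨P, hP⟩ := CfsgLib.Core.exists_invariant_sylow p hn (by rwa [hK]) (hsol.imp
    (fun h => by haveI := h; exact solvable_of_surjective ir.rangeRestrict_surjective)
    (fun h => by haveI := h; exact solvable_of_surjective il.rangeRestrict_surjective))
  refine ⟨P.mapSurjective (f := (MonoidHom.ofInjective hil).symm.toMonoidHom) (MulEquiv.surjective _), ?_⟩
  intro a x hx
  change x ∈ (P : Subgroup il.range).map (MonoidHom.ofInjective hil).symm.toMonoidHom at hx
  show a • x ∈ (P : Subgroup il.range).map (MonoidHom.ofInjective hil).symm.toMonoidHom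
  obtain ⟨y, hy, rfl⟩ := hx
  have h1 : ir a * (y : X) * (ir a)⁻¹ ∈ (P : Subgroup il.range).map il.range.subtype :=
    (Subgroup.mem_normalizer_iff.1 (hP ⟨a, rfl⟩) _).1 ⟨y, hy, rfl⟩
  obtain ⟨g, hg⟩ := y.2
  have e : (MonoidHom.ofInjective hil).symm y = g := by
    rw [MulEquiv.symm_apply_eq]
    exact Subtype.ext hg.symm
  obtain ⟨z, hz, hze⟩ := h1
  refine ⟨z, hz, ?_⟩
  show (MonoidHom.ofInjective hil).symm z = a • (MonoidHom.ofInjective hil).symm y
  rw [e, MulEquiv.symm_apply_eq]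
  refine Subtype.ext ?_
  show (z : X) = il (a • g)
  rw [← hact, hg]
  exact hze

theorem exists_inv_supplement [Finite A] [Finite G] (hcop : (Nat.card A).Coprime (Nat.card G))
    {p : ℕ} [Fact p.Prime] (hG : IsPGroup p G) {M : Subgroup G} (hΦ : frattini G ≤ M) (hM : Inv A M) :
    ∃ W : Subgroup G, frattini G ≤ W ∧ Inv A W ∧ M ⊔ W = ⊤ ∧ M ⊓ W ≤ frattini G := by
  obtain ⟨W, ⟨hWΦ, hWtop⟩, hmin⟩ := Set.exists_min_image
    {W : Subgroup G | frattini G ≤ W ∧ M ⊔ W = ⊤} (fun W => Nat.card W) (Set.toFinite _)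
    ⟨⊤, le_top, sup_top_eq _⟩
  have hW : M ⊓ W ≤ frattini G := by
    rintro x ⟨hxM, hxW⟩
    by_contra hx
    obtain ⟨H, hH, hxH⟩ : ∃ H : Subgroup G, IsCoatom H ∧ x ∉ H := by
      by_contra hc
      push Not at hc
      exact hx (Subgroup.mem_iInf.mpr fun H => Subgroup.mem_iInf.mpr fun hH => hc H hH)
    obtain ⟨hHn, hHi⟩ := CfsgLib.Core.index_of_coatom_pgroup hG hH
    haveI := hHn
    set D := (W ⊓ H) ⊔ Subgroup.zpowers x with hD
    have hDW : D ≤ W := sup_le inf_le_left (Subgroup.zpowers_le.2 hxW)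
    have h1 : (W ⊓ H).relIndex W ∣ p := by
      rw [Subgroup.inf_relIndex_left, ← hHi]
      exact Subgroup.relIndex_dvd_index_of_normal H W
    have h2 : (W ⊓ H).relIndex D * D.relIndex W = (W ⊓ H).relIndex W :=
      Subgroup.relIndex_mul_relIndex _ _ _ le_sup_left hDW
    have h3 : (W ⊓ H).relIndex D ≠ 1 := fun e =>
      hxH ((Subgroup.relIndex_eq_one.1 e) (Subgroup.mem_sup_right (Subgroup.mem_zpowers x))).2
    have h4 : D.relIndex W = 1 := by
      rcases (Nat.dvd_prime (Fact.out : p.Prime)).1 h1 with e | e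
      · exact Nat.eq_one_of_mul_eq_one_left (h2.trans e)
      · rcases (Nat.dvd_prime (Fact.out : p.Prime)).1 (e ▸ Dvd.intro _ h2) with e' | e'
        · exact absurd e' h3
        · rw [e', e] at h2
          exact (Nat.mul_eq_left (Fact.out : p.Prime).ne_zero).1 h2
    have hΦW : frattini G ≤ W ⊓ H := le_inf hWΦ (iInf₂_le H hH)
    have hle := hmin (W ⊓ H) ⟨hΦW, by
      rw [eq_top_iff, ← hWtop]
      refine sup_le le_sup_left ((Subgroup.relIndex_eq_one.1 h4).trans ?_)
      exact sup_le le_sup_right (Subgroup.zpowers_le.2 (Subgroup.mem_sup_left hxM))⟩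
    exact hxH ((Subgroup.eq_of_le_of_card_ge inf_le_left hle).ge hxW).2
  obtain ⟨X, _, _, il, ir, hil, hact, htop, hc, -⟩ := semidirect_data (A := A) (G := G) hcop
  have hΦn : ((frattini G).map il).Normal := by
    rw [← Subgroup.normalizer_eq_top_iff, eq_top_iff, ← htop]
    refine sup_le ?_ ?_
    · refine le_trans ?_ (Subgroup.le_normalizer_map il)
      rw [Subgroup.normalizer_eq_top, ← MonoidHom.range_eq_map]
    · rintro _ ⟨a, rfl⟩
      refine Subgroup.mem_normalizer_fintype ?_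
      rintro _ ⟨g, hg, rfl⟩
      exact ⟨a • g, inv_characteristic (frattini G) a g hg, (hact a g).symm⟩
  haveI := hΦn
  set π := QuotientGroup.mk' ((frattini G).map il) with hπ
  set f := π.comp il with hf
  have hker : ∀ g : G, f g = 1 ↔ g ∈ frattini G := fun g => by
    rw [hf, MonoidHom.comp_apply, hπ, QuotientGroup.mk'_apply, QuotientGroup.eq_one_iff,
      Subgroup.mem_map_iff_mem hil]
  have hcomm : IsMulCommutative ((⊤ : Subgroup G).map f) := by
    refine ⟨⟨?_⟩⟩
    rintro ⟨_, x, -, rfl⟩ ⟨_, y, -, rfl⟩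
    refine Subtype.ext ?_
    show f x * f y = f y * f x
    have h := (hker _).2 (CfsgLib.Core.pgroup_commutator_le_frattini hG
      (Subgroup.commutator_mem_commutator (Subgroup.mem_top x) (Subgroup.mem_top y)))
    rwa [map_commutatorElement, commutatorElement_eq_one_iff_mul_comm] at h
  have hnorm : ∀ {H : Subgroup G}, Inv A H → ir.range.map π ≤ Subgroup.normalizer (H.map f : Set _) := by
    rintro H hH _ ⟨_, ⟨a, rfl⟩, rfl⟩
    refine Subgroup.mem_normalizer_fintype ?_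
    rintro _ ⟨g, hg, rfl⟩
    refine ⟨a • g, hH a g hg, ?_⟩
    show π (il (a • g)) = π (ir a) * π (il g) * (π (ir a))⁻¹
    rw [← hact, map_mul, map_mul, map_inv]
  obtain ⟨W', hW'V, hW'n, hW'i, hW's⟩ := CfsgLib.LocalAverage.invariant_complement
    ((⊤ : Subgroup G).map f) (ir.range.map π) (M.map f) (W.map f) hcomm
    (hnorm (fun _ _ _ => Subgroup.mem_top _))
    ((hc.coprime_dvd_left (Subgroup.card_map_dvd _ _)).coprime_dvd_right
      ((Subgroup.card_map_dvd _ _).trans Subgroup.card_top.dvd))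
    (Subgroup.map_mono le_top) (hnorm hM) (Subgroup.map_mono le_top) (by
      rw [eq_bot_iff]
      rintro _ ⟨⟨m, hm, rfl⟩, ⟨w, hw, hwe⟩⟩
      have h1 : w⁻¹ * m ∈ frattini G := (hker _).1 (by rw [map_mul, map_inv, hwe, inv_mul_cancel])
      have h2 : m ∈ W := by simpa using mul_mem hw (hWΦ h1)
      exact Subgroup.mem_bot.2 ((hker m).2 (hW ⟨hm, h2⟩)))
    (by rw [← Subgroup.map_sup, hWtop])
  refine ⟨W'.comap f, fun g hg => ?_, fun a g hg => ?_, ?_, ?_⟩
  · rw [Subgroup.mem_comap, (hker g).2 hg]; exact one_mem _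
  · have h := (Subgroup.mem_normalizer_iff.1 (hW'n ⟨ir a, ⟨a, rfl⟩, rfl⟩) (f g)).1 hg
    rw [Subgroup.mem_comap]
    show π (il (a • g)) ∈ W'
    rw [← hact, map_mul, map_mul, map_inv]
    exact h
  · rw [eq_top_iff]
    intro g _
    have h : f g ∈ M.map f ⊔ W' := hW's.ge ⟨g, Subgroup.mem_top g, rfl⟩
    haveI := hcomm
    obtain ⟨y, hy, z, hz, hyz⟩ := (CfsgLib.Core.mem_sup_iff_of_le_normalizer
      (fun y hy => CfsgLib.Core.centralizer_le_normalizer _ (Subgroup.mem_centralizer_iff.2 fun w hw =>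
        congrArg Subtype.val (hcomm.is_comm.comm
          (⟨w, hW'V hw⟩ : (⊤ : Subgroup G).map f) ⟨y, Subgroup.map_mono le_top hy⟩)))).1 h
    obtain ⟨m, hm, rfl⟩ := hy
    have : m⁻¹ * g ∈ W'.comap f := by
      rw [Subgroup.mem_comap, map_mul, map_inv, ← hyz, inv_mul_cancel_left]; exact hz
    simpa using Subgroup.mul_mem_sup hm this
  · rintro g ⟨hgM, hgW⟩
    refine (hker g).1 (Subgroup.mem_bot.1 (hW'i ▸ ⟨⟨g, hgM, rfl⟩, hgW⟩))

theorem maxi_iff_frattini [Finite G] (hirr : ∀ L : Subgroup G, frattini G < L →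
    (∀ a : A, ∀ x ∈ L, a • x ∈ L) → L = ⊤) (M : Subgroup G) : Maxi A M ↔ (M = frattini G ∧ M ≠ ⊤) := by
  constructor
  · rintro ⟨hne, hi, hmax⟩
    refine ⟨?_, hne⟩
    have hs : Inv A (M ⊔ frattini G) := inv_sup hi (inv_characteristic _)
    have hle : M ≤ frattini G := by
      rcases (le_sup_right : frattini G ≤ M ⊔ frattini G).lt_or_eq with h | h
      · exact absurd (frattini_nongenerating (hirr _ h hs)) hne
      · exact h ▸ le_sup_left
    by_contra hne'
    have htop := hmax _ (lt_of_le_of_ne hle hne') (inv_characteristic _)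
    exact hne (frattini_nongenerating (K := M) (by rw [htop, sup_top_eq]))
  · rintro ⟨rfl, hne⟩
    exact ⟨hne, inv_characteristic _, hirr⟩

theorem pgroup_of_conj [Finite A] [Finite G] (hcop : (Nat.card A).Coprime (Nat.card G))
    (hsol : Group.IsSolvable A ∨ Group.IsSolvable G)
    (hconj : ∀ M N : Subgroup G, Maxi A M → Maxi A N →
      ∃ c : G, (∀ a : A, a • c = c) ∧ N = MulAut.conj c • M) :
    (∃ p : ℕ, p.Prime ∧ IsPGroup p G) ∧
      ∀ L : Subgroup G, frattini G < L → (∀ a : A, ∀ x ∈ L, a • x ∈ L) → L = ⊤ := by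
  rcases subsingleton_or_nontrivial G with hG | hG
  · exact ⟨⟨2, Nat.prime_two, fun g => ⟨0, Subsingleton.elim _ _⟩⟩,
      fun L hL _ => absurd (Subsingleton.elim _ _) hL.ne⟩
  obtain ⟨M, -, hM⟩ := exists_maxi (A := A) (inv_bot (G := G)) bot_ne_top
  obtain ⟨p, hp, hpi⟩ := Nat.exists_prime_and_dvd (fun h => hM.1 (Subgroup.index_eq_one.1 h))
  haveI := Fact.mk hp
  obtain ⟨P, hP⟩ := exists_inv_sylow hcop hsol p
  have hPtop : (P : Subgroup G) = ⊤ := by
    by_contra hne
    obtain ⟨N, hPN, hN⟩ := exists_maxi hP hne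
    obtain ⟨c, -, rfl⟩ := hconj M N hM hN
    refine P.not_dvd_index (hpi.trans ?_)
    rw [← Subgroup.index_map_equiv M (MulAut.conj c)]
    exact Subgroup.index_dvd_of_le hPN
  have hGp : IsPGroup p G := (IsPGroup.of_equiv (hPtop ▸ P.2 : IsPGroup p (⊤ : Subgroup G)) Subgroup.topEquiv)
  refine ⟨⟨p, hp, hGp⟩, fun L hL hLi => by_contra fun hne => ?_⟩
  obtain ⟨N, hLN, hN⟩ := exists_maxi hLi hne
  have hΦN : frattini G < N := hL.trans_le hLN
  have huniq : ∀ K : Subgroup G, Maxi A K → K = N := by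
    intro K hK
    haveI := hGp.isNilpotent
    have hlt := Group.normalizerCondition_of_isNilpotent (G := G) N (lt_top_iff_ne_top.2 hN.1)
    haveI : N.Normal := Subgroup.normalizer_eq_top_iff.1 (hN.2.2 _ hlt (inv_normalizer hN.2.1))
    obtain ⟨c, -, rfl⟩ := hconj N K hN hK
    exact Subgroup.Normal.conjAct (by assumption) c
  obtain ⟨W, hWΦ, hW, hWtop, hWi⟩ := exists_inv_supplement hcop hGp hΦN.le hN.2.1
  by_cases hWt : W = ⊤
  · rw [hWt, inf_top_eq] at hWi
    exact hΦN.not_ge hWi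
  obtain ⟨K, hWK, hK⟩ := exists_maxi hW hWt
  rw [huniq K hK] at hWK
  rw [sup_eq_left.2 hWK] at hWtop
  exact hN.1 hWtop

end CfsgLib.InvMax
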