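import Mathlib.GroupTheory.Abelianization.Defs
import Mathlib.GroupTheory.Nilpotent
import Cfsg.Agent.Lib.CoreCoprime2

/-!
A `p'`-group normalized by a `p`-group `E`, acting on a `p`-group in which it centralizes the fixed points of `E`.
-/

set_option autoImplicit false

namespace CfsgLib.InvRigid

open scoped commutatorElement
open Subgroup

universe u
variable {Γ : Type u} [Group Γ]

/-- Conjugation by a normalizing element. -/
def conjHom {U : Subgroup Γ} (g : Γ) (hg : g ∈ normalizer (U : Set Γ)) : U →* U where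
  toFun u := ⟨g * u * g⁻¹, (mem_normalizer_iff.mp hg u).mp u.2⟩
  map_one' := Subtype.ext (by simp)
  map_mul' a b := Subtype.ext (by simp [mul_assoc])

theorem conjHom_conjHom {U : Subgroup Γ} (g k : Γ) (hg : g ∈ normalizer (U : Set Γ)) (hk : k ∈ normalizer (U : Set Γ))
    (u : U) : conjHom g hg (conjHom k hk u) = conjHom (g * k) (mul_mem hg hk) u :=
  Subtype.ext (by simp [conjHom, mul_assoc])

theorem conjHom_congr {U : Subgroup Γ} {g k : Γ} (h : g = k) (hg : g ∈ normalizer (U : Set Γ)) (u : U) :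
    conjHom g hg u = conjHom k (h ▸ hg) u := by subst h; rfl

/-- A group with the operation `a b [b,a]^h`. -/
structure Baer (M : Type u) : Type u where
  /-- The element. -/
  val : M

section Baer
variable {M : Type u} [Group M]

theorem comm_mul_right (hz : ∀ a b c : M, ⁅a, b⁆ * c = c * ⁅a, b⁆) (a b c : M) :
    ⁅a, b * c⁆ = ⁅a, b⁆ * ⁅a, c⁆ := by
  have : ⁅a, b * c⁆ = ⁅a, b⁆ * (b * ⁅a, c⁆ * b⁻¹) := by simp [commutatorElement_def, mul_assoc]
  rw [this, ← hz a c b, mul_assoc, mul_inv_cancel, mul_one]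

theorem comm_mul_left (hz : ∀ a b c : M, ⁅a, b⁆ * c = c * ⁅a, b⁆) (a b c : M) :
    ⁅a * b, c⁆ = ⁅a, c⁆ * ⁅b, c⁆ := by
  have : ⁅a * b, c⁆ = a * ⁅b, c⁆ * a⁻¹ * ⁅a, c⁆ := by simp [commutatorElement_def, mul_assoc]
  rw [this, ← hz b c a, mul_assoc ⁅b, c⁆ a, mul_inv_cancel, mul_one, hz b c]

theorem comm_pow_central (hz : ∀ a b c : M, ⁅a, b⁆ * c = c * ⁅a, b⁆) (a b : M) (n : ℕ) (c : M) :
    ⁅a, b⁆ ^ n * c = c * ⁅a, b⁆ ^ n := (Commute.pow_left (hz a b c) n).eq

/-- The group structure `a b [b,a]^h` of a group of class two. -/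
@[reducible] def baerGroup (hz : ∀ a b c : M, ⁅a, b⁆ * c = c * ⁅a, b⁆) (h : ℕ)
    (hh : ∀ a b : M, ⁅a, b⁆ ^ h * ⁅a, b⁆ ^ h = ⁅a, b⁆) : CommGroup (Baer M) where
  mul x y := ⟨x.val * y.val * ⁅y.val, x.val⁆ ^ h⟩
  one := ⟨1⟩
  inv x := ⟨x.val⁻¹⟩
  mul_assoc x y z := by
    obtain ⟨a⟩ := x; obtain ⟨b⟩ := y; obtain ⟨c⟩ := z
    show Baer.mk (a * b * ⁅b, a⁆ ^ h * c * ⁅c, a * b * ⁅b, a⁆ ^ h⁆ ^ h) =
      Baer.mk (a * (b * c * ⁅c, b⁆ ^ h) * ⁅b * c * ⁅c, b⁆ ^ h, a⁆ ^ h)
    have hc1 : ∀ n : ℕ, ∀ u v w : M, ⁅u, v⁆ ^ n * w = w * ⁅u, v⁆ ^ n := fun n u v w => comm_pow_central hz u v n w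
    have k1 : ⁅c, ⁅b, a⁆ ^ h⁆ = 1 := by
      rw [commutatorElement_eq_one_iff_mul_comm]; exact (hc1 h b a c).symm
    have k2 : ⁅⁅c, b⁆ ^ h, a⁆ = 1 := by
      rw [commutatorElement_eq_one_iff_mul_comm]; exact hc1 h c b a
    rw [comm_mul_right hz, comm_mul_right hz, k1, mul_one, comm_mul_left hz, comm_mul_left hz, k2, mul_one]
    have hcom : ∀ u v u' v' : M, Commute ⁅u, v⁆ ⁅u', v'⁆ := fun u v u' v' => hz u v _
    rw [(hcom c a c b).mul_pow, (hcom b a c a).mul_pow]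
    congr 1
    calc a * b * ⁅b, a⁆ ^ h * c * (⁅c, a⁆ ^ h * ⁅c, b⁆ ^ h)
        = a * b * c * ⁅b, a⁆ ^ h * (⁅c, a⁆ ^ h * ⁅c, b⁆ ^ h) := by
          rw [mul_assoc (a * b) (⁅b, a⁆ ^ h) c, hc1 h b a c, ← mul_assoc (a * b) c]
      _ = a * b * c * ((⁅b, a⁆ ^ h * ⁅c, a⁆ ^ h) * ⁅c, b⁆ ^ h) := by simp only [mul_assoc]
      _ = a * b * c * (⁅c, b⁆ ^ h * (⁅b, a⁆ ^ h * ⁅c, a⁆ ^ h)) := by rw [← hc1 h c b]
      _ = a * (b * c * ⁅c, b⁆ ^ h) * (⁅b, a⁆ ^ h * ⁅c, a⁆ ^ h) := by simp only [mul_assoc]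
  one_mul x := by
    obtain ⟨a⟩ := x
    show Baer.mk (1 * a * ⁅a, (1 : M)⁆ ^ h) = Baer.mk a
    simp
  mul_one x := by
    obtain ⟨a⟩ := x
    show Baer.mk (a * 1 * ⁅(1 : M), a⁆ ^ h) = Baer.mk a
    simp
  inv_mul_cancel x := by
    obtain ⟨a⟩ := x
    show Baer.mk (a⁻¹ * a * ⁅a, a⁻¹⁆ ^ h) = Baer.mk 1
    rw [show ⁅a, a⁻¹⁆ = 1 from commutatorElement_eq_one_iff_mul_comm.mpr (by simp)]
    simp
  mul_comm x y := by
    obtain ⟨a⟩ := x; obtain ⟨b⟩ := y
    show Baer.mk (a * b * ⁅b, a⁆ ^ h) = Baer.mk (b * a * ⁅a, b⁆ ^ h)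
    congr 1
    have e : a * b = ⁅a, b⁆ * (b * a) := by simp [commutatorElement_def, mul_assoc]
    rw [e, hz a b (b * a), mul_assoc, ← commutatorElement_inv a b, inv_pow]
    congr 1
    rw [mul_inv_eq_iff_eq_mul, hh]

end Baer

variable [Finite Γ]

/-- The odd case. -/
theorem core_odd {p : ℕ} [hp : Fact p.Prime] (hp2 : p ≠ 2) {X E U : Subgroup Γ}
    (hE : IsPGroup p E) (hX : (Nat.card X).Coprime p) (hU : IsPGroup p U)
    (hEX : E ≤ normalizer (X : Set Γ)) (hEU : E ≤ normalizer (U : Set Γ)) (hXU : X ≤ normalizer (U : Set Γ))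
    (hC : U ⊓ centralizer (E : Set Γ) ≤ centralizer (X : Set Γ))
    (hz : ∀ a b c : U, ⁅a, b⁆ * c = c * ⁅a, b⁆) : X ≤ centralizer (U : Set Γ) := by
  classical
  haveI := Fintype.ofFinite X
  obtain ⟨n, hn⟩ := IsPGroup.iff_card.mp hU
  obtain ⟨q, hq⟩ : Odd (p ^ n) := (hp.out.odd_of_ne_two hp2).pow
  letI inst : CommGroup (Baer U) := baerGroup hz (q + 1) fun a b => by
    have h1 : ⁅a, b⁆ ^ (p ^ n) = 1 := by rw [← hn]; exact pow_card_eq_one'
    rw [← pow_add, show q + 1 + (q + 1) = p ^ n + 1 by omega, pow_add, h1, one_mul, pow_one]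
  haveI : Finite (Baer U) := Finite.of_equiv U ⟨Baer.mk, Baer.val, fun _ => rfl, fun _ => rfl⟩
  have hcard : Nat.card (Baer U) = p ^ n := by
    rw [← hn]; exact Nat.card_congr ⟨Baer.val, Baer.mk, fun _ => rfl, fun _ => rfl⟩
  let ψ : ∀ g : Γ, g ∈ normalizer (U : Set Γ) → (Baer U →* Baer U) := fun g hg =>
    MonoidHom.mk' (fun x => ⟨conjHom g hg x.val⟩) fun x y => by
      show Baer.mk (conjHom g hg (x.val * y.val * ⁅y.val, x.val⁆ ^ (q + 1))) =
        Baer.mk (conjHom g hg x.val * conjHom g hg y.val * ⁅conjHom g hg y.val, conjHom g hg x.val⁆ ^ (q + 1))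
      rw [map_mul, map_mul, map_pow, map_commutatorElement]
  have hψ : ∀ g k hg hk x, ψ g hg (ψ k hk x) = ψ (g * k) (mul_mem hg hk) x := fun g k hg hk x => by
    exact congrArg Baer.mk (conjHom_conjHom g k hg hk x.val)
  have hψc : ∀ (g k : Γ) (h : g = k) hg x, ψ g hg x = ψ k (h ▸ hg) x := by
    rintro g k rfl hg x; rfl
  let N : Baer U →* Baer U := ∏ x : X, ψ x (hXU x.2)
  have hN : ∀ y, N y = ∏ x : X, ψ x (hXU x.2) y := fun y => MonoidHom.finsetProd_apply _ _ _
  have hNx : ∀ (x : X) y, ψ x (hXU x.2) (N y) = N y := fun x y => by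
    rw [hN, map_prod]
    exact Fintype.prod_equiv (Equiv.mulLeft x) _ _ fun z => hψ _ _ _ _ _
  have hNe : ∀ (e : Γ) (he : e ∈ E) y, N (ψ e (hEU he) y) = ψ e (hEU he) (N y) := fun e he y => by
    rw [hN, hN, map_prod]
    let t : X ≃ X :=
      { toFun := fun z => ⟨e⁻¹ * z * e, by
          have := (mem_normalizer_iff.mp (inv_mem (hEX he)) z).mp z.2
          simpa using this⟩
        invFun := fun z => ⟨e * z * e⁻¹, (mem_normalizer_iff.mp (hEX he) z).mp z.2⟩
        left_inv := fun z => Subtype.ext (by group)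
        right_inv := fun z => Subtype.ext (by group) }
    refine Fintype.prod_equiv t _ _ fun z => ?_
    rw [hψ, hψ]
    exact hψc _ _ (by show _ = e * (e⁻¹ * (z : Γ) * e); group) _ _
  intro x hx
  rw [mem_centralizer_iff]
  intro u hu
  by_cases hker : N.ker = ⊥
  · have hbij : Function.Bijective N :=
      Finite.injective_iff_bijective.mp ((MonoidHom.ker_eq_bot_iff N).mp hker)
    obtain ⟨y, hy⟩ := hbij.2 ⟨⟨u, hu⟩⟩
    have e := hNx ⟨x, hx⟩ y
    rw [hy] at e
    have e' : x * u * x⁻¹ = u := congrArg (fun b : Baer U => ((b.val : U) : Γ)) e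
    exact (mul_inv_eq_iff_eq_mul.mp e').symm
  exfalso
  letI act : MulAction E N.ker :=
    { smul := fun e w => ⟨ψ e (hEU e.2) w, by rw [MonoidHom.mem_ker, hNe e e.2, w.2, map_one]⟩
      one_smul := fun w => Subtype.ext (show Baer.mk _ = (w : Baer U) from congrArg Baer.mk (Subtype.ext (by simp [conjHom])))
      mul_smul := fun e f w => Subtype.ext (hψ e f (hEU e.2) (hEU f.2) w).symm }
  have h1 := hE.card_modEq_card_fixedPoints N.ker
  have hdvd : p ∣ Nat.card N.ker := by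
    obtain ⟨j, -, hj⟩ := (Nat.dvd_prime_pow hp.out).mp (hcard ▸ N.ker.card_subgroup_dvd_card)
    rcases j with _ | j
    · exact absurd (Subgroup.card_eq_one.mp (by rw [hj, pow_zero])) hker
    · rw [hj, pow_succ]; exact dvd_mul_left p _
  have h2 : 1 < Nat.card (MulAction.fixedPoints E N.ker) := by
    have h0 : p ∣ Nat.card (MulAction.fixedPoints E N.ker) :=
      Nat.modEq_zero_iff_dvd.mp (h1.symm.trans (Nat.modEq_zero_iff_dvd.mpr hdvd))
    have hpos : 0 < Nat.card (MulAction.fixedPoints E N.ker) := by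
      haveI : Nonempty (MulAction.fixedPoints E N.ker) := ⟨⟨1, fun e => Subtype.ext (map_one _)⟩⟩
      exact Nat.card_pos
    exact lt_of_lt_of_le hp.out.one_lt (Nat.le_of_dvd hpos h0)
  haveI : Nontrivial (MulAction.fixedPoints E N.ker) := Finite.one_lt_card_iff_nontrivial.mp h2
  obtain ⟨⟨⟨w, hw⟩, hwfix⟩, hwne⟩ :=
    exists_ne (⟨1, fun e => Subtype.ext (map_one _)⟩ : MulAction.fixedPoints E N.ker)
  have hwC : (w.val : Γ) ∈ centralizer (X : Set Γ) := hC ⟨w.val.2, mem_centralizer_iff.mpr fun e he => by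
    have e1 : e * (w.val : Γ) * e⁻¹ = w.val :=
      congrArg (fun b : N.ker => ((b : Baer U).val : Γ)) (hwfix ⟨e, he⟩)
    exact mul_inv_eq_iff_eq_mul.mp e1⟩
  have hfx : ∀ z : X, ψ z (hXU z.2) w = w := fun z => by
    show Baer.mk _ = w
    refine congrArg Baer.mk (Subtype.ext ?_)
    show (z : Γ) * w.val * (z : Γ)⁻¹ = w.val
    rw [mem_centralizer_iff.mp hwC z z.2, mul_inv_cancel_right]
  have h3 : w ^ Nat.card X = 1 := by
    rw [MonoidHom.mem_ker, hN, Finset.prod_congr rfl (fun z _ => hfx z), Finset.prod_const,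
      Finset.card_univ, ← Nat.card_eq_fintype_card] at hw
    exact hw
  have h4 : orderOf w = 1 := Nat.eq_one_of_dvd_coprimes (hX.pow_right n) (orderOf_dvd_of_pow_eq_one h3)
    (hcard ▸ orderOf_dvd_natCard w)
  exact hwne (Subtype.ext (Subtype.ext (orderOf_eq_one_iff.mp h4)))

/-- Either `p` is odd or `E` acts quadratically: `E`-invariant `p'`-groups centralizing the fixed points of `E` centralize `U`. -/
theorem rigid {p : ℕ} [hp : Fact p.Prime] {X E : Subgroup Γ}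
    (hE : IsPGroup p E) (hX : (Nat.card X).Coprime p) (hEX : E ≤ normalizer (X : Set Γ)) :
    ∀ (n : ℕ) (U : Subgroup Γ), Nat.card U ≤ n → IsPGroup p U → E ≤ normalizer (U : Set Γ) →
      X ≤ normalizer (U : Set Γ) → U ⊓ centralizer (E : Set Γ) ≤ centralizer (X : Set Γ) →
      (p ≠ 2 ∨ ∀ u ∈ U, ∀ e ∈ E, ∀ f ∈ E, ⁅⁅u, e⁆, f⁆ = 1) → X ≤ centralizer (U : Set Γ) := by
  classical
  intro n
  induction n with
  | zero => intro U h; exact absurd h (by simp [Nat.card_pos.ne'])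
  | succ n ih =>
    intro U hcard hU hEU hXU hC hq
    have hsub : ∀ W : Subgroup Γ, W ≤ U → W ≠ U → E ≤ normalizer (W : Set Γ) → X ≤ normalizer (W : Set Γ) →
        X ≤ centralizer (W : Set Γ) := fun W hWU hne hEW hXW => by
      have hlt : Nat.card W < Nat.card U :=
        lt_of_le_of_ne (Nat.le_of_dvd Nat.card_pos (card_dvd_of_le hWU))
          fun e => hne (CfsgLib.Core.eq_of_le_of_card_le hWU e.ge)
      exact ih W (by omega) (hU.to_le hWU) hEW hXW ((inf_le_inf_right _ hWU).trans hC)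
        (hq.imp id fun h u hu => h u (hWU hu))
    by_cases hU0 : U = ⊥
    · subst hU0; exact le_centralizer_iff.mp bot_le
    have hcop : (Nat.card X).Coprime (Nat.card U) := by
      obtain ⟨k, hk⟩ := IsPGroup.iff_card.mp hU
      rw [hk]; exact hX.pow_right k
    have hsolU : Group.IsSolvable U := by
      haveI := hU.isNilpotent; infer_instance
    have hnorm : ∀ {A B C : Subgroup Γ}, A ≤ normalizer (B : Set Γ) → A ≤ normalizer (C : Set Γ) →
        A ≤ normalizer ((⁅B, C⁆ : Subgroup Γ) : Set Γ) := by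
      intro A B C h1 h2 a ha
      rw [← CfsgLib.Core.conj_smul_eq_self_iff, CfsgLib.Core.conj_smul_eq_map, Subgroup.map_commutator,
        ← CfsgLib.Core.conj_smul_eq_map, ← CfsgLib.Core.conj_smul_eq_map,
        CfsgLib.Core.conj_smul_of_mem_normalizer (h1 ha), CfsgLib.Core.conj_smul_of_mem_normalizer (h2 ha)]
    by_cases hUX : ⁅U, X⁆ = U
    swap
    · have h := hsub ⁅U, X⁆ (CfsgLib.Core.commutator_le_of_le_normalizer hXU) hUX (hnorm hEU hEX)
        (CfsgLib.Core.le_normalizer_commutator_right U X)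
      refine CfsgLib.Core.le_centralizer_of_stabilizes hXU hcop (Or.inr hsolU) ?_
      exact commutator_eq_bot_iff_le_centralizer.mpr (le_centralizer_iff.mp h)
    set D := ⁅U, U⁆ with hDd
    have hDU : D ≤ U := CfsgLib.Core.commutator_le_of_le_normalizer le_normalizer
    have hDne : D ≠ U := CfsgLib.Core.commutator_lt_of_isPGroup hU hU le_normalizer hU0
    have hXD := hsub D hDU hDne (hnorm hEU hEU) (hnorm hXU hXU)
    have hDX : ⁅D, X⁆ = ⊥ := commutator_eq_bot_iff_le_centralizer.mpr (le_centralizer_iff.mp hXD)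
    rcases hq with hp2 | hq
    · have hclass : ⁅D, U⁆ = ⊥ := by
        have h1 : ⁅⁅U, D⁆, X⁆ = ⊥ := by
          rw [eq_bot_iff, ← hDX]
          refine commutator_mono ?_ le_rfl
          rw [commutator_comm]
          exact CfsgLib.Core.commutator_le_of_le_normalizer (hnorm le_normalizer le_normalizer)
        have h2 : ⁅⁅D, X⁆, U⁆ = ⊥ := by rw [hDX, commutator_bot_left]
        have h3 := commutator_commutator_eq_bot_of_rotate h1 h2
        rwa [commutator_comm X U, hUX, commutator_comm] at h3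
      refine core_odd hp2 hE hX hU hEX hEU hXU hC fun a b c => Subtype.ext ?_
      have : ((⁅a, b⁆ : U) : Γ) ∈ centralizer (U : Set Γ) :=
        (commutator_eq_bot_iff_le_centralizer.mp hclass) (by
          rw [show ((⁅a, b⁆ : U) : Γ) = ⁅(a : Γ), (b : Γ)⁆ from map_commutatorElement U.subtype a b]
          exact commutator_mem_commutator a.2 b.2)
      exact (mem_centralizer_iff.mp this c c.2).symm
    haveI := Fintype.ofFinite X
    -- fixed points of `X` lie in `D`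
    have hyD : ∀ y : U, (y : Γ) ∈ centralizer (X : Set Γ) → (y : Γ) ∈ D := by
      let N : U →* Abelianization U :=
        ∏ x : X, Abelianization.of.comp (conjHom (x : Γ) (hXU x.2))
      have hN : ∀ y, N y = ∏ x : X, Abelianization.of (conjHom (x : Γ) (hXU x.2) y) := fun y =>
        MonoidHom.finsetProd_apply _ _ _
      have hNinv : ∀ (x : X) y, N (conjHom (x : Γ) (hXU x.2) y) = N y := fun x y => by
        rw [hN, hN]
        exact Fintype.prod_equiv (Equiv.mulRight x) _ _ fun z => by rw [conjHom_conjHom]; rfl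
      have hN1 : ∀ y, N y = 1 := by
        have hle : ⁅U, X⁆ ≤ N.ker.map U.subtype := by
          rw [commutator_le]
          intro u hu x hx
          refine ⟨⟨u, hu⟩ * conjHom x (hXU hx) ⟨u, hu⟩⁻¹, ?_, ?_⟩
          · rw [SetLike.mem_coe, MonoidHom.mem_ker, map_mul, hNinv ⟨x, hx⟩, ← map_mul, mul_inv_cancel, map_one]
          · show u * (x * u⁻¹ * x⁻¹) = ⁅u, x⁆
            rw [commutatorElement_def]; group
        intro y
        obtain ⟨z, hz, hzy⟩ := hle (hUX.symm ▸ y.2 : (y : Γ) ∈ ⁅U, X⁆)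
        rwa [← U.subtype_injective hzy]
      intro y hy
      have h1 := hN1 y
      rw [hN, Finset.prod_congr rfl (fun (x : X) _ => congrArg Abelianization.of
        (show conjHom (x : Γ) (hXU x.2) y = y from Subtype.ext (by
          show (x : Γ) * y * (x : Γ)⁻¹ = y
          rw [mem_centralizer_iff.mp hy x x.2, mul_inv_cancel_right]))),
        Finset.prod_const, Finset.card_univ, ← Nat.card_eq_fintype_card] at h1
      have h2 : orderOf (Abelianization.of y) = 1 := Nat.eq_one_of_dvd_coprimes hcop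
        (orderOf_dvd_of_pow_eq_one h1) ((orderOf_map_dvd _ y).trans (orderOf_dvd_natCard y))
      rw [orderOf_eq_one_iff, ← MonoidHom.mem_ker, Abelianization.ker_of] at h2
      have h3 : (y : Γ) ∈ (_root_.commutator U).map U.subtype := ⟨y, h2, rfl⟩
      rwa [map_subtype_commutator] at h3
    have hED : ∀ u ∈ U, ∀ e ∈ E, ⁅u, e⁆ ∈ D := by
      intro u hu e he
      have hmem : ⁅u, e⁆ ∈ U := CfsgLib.Core.commutator_le_of_le_normalizer hEU (commutator_mem_commutator hu he)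
      refine hyD ⟨_, hmem⟩ (hC ⟨hmem, mem_centralizer_iff.mpr fun f hf => ?_⟩)
      exact (commutatorElement_eq_one_iff_mul_comm.mp (hq u hu e he f hf)).symm
    -- `[E,X]` centralizes `U`
    let T : Subgroup Γ :=
      { carrier := {x | x ∈ X ∧ ∀ u ∈ U, x * u * x⁻¹ * u⁻¹ ∈ D}
        one_mem' := ⟨X.one_mem, fun u _ => by simp [D.one_mem]⟩
        mul_mem' := fun {x y} hx hy => ⟨X.mul_mem hx.1 hy.1, fun u hu => by
          have h1 := hy.2 u hu
          have h2 : x * (y * u * y⁻¹ * u⁻¹) * x⁻¹ ∈ D :=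
            CfsgLib.Core.conj_mem_of_le_normalizer (hnorm hXU hXU) hx.1 h1
          have := D.mul_mem h2 (hx.2 u hu)
          rwa [show x * (y * u * y⁻¹ * u⁻¹) * x⁻¹ * (x * u * x⁻¹ * u⁻¹) = x * y * u * (x * y)⁻¹ * u⁻¹ by group]
            at this⟩
        inv_mem' := fun {x} hx => ⟨X.inv_mem hx.1, fun u hu => by
          have := hx.2 _ (CfsgLib.Core.conj_mem_of_le_normalizer hXU (X.inv_mem hx.1) hu)
          have h := D.inv_mem this
          rwa [show (x * (x⁻¹ * u * x⁻¹⁻¹) * x⁻¹ * (x⁻¹ * u * x⁻¹⁻¹)⁻¹)⁻¹ = x⁻¹ * u * x⁻¹⁻¹ * u⁻¹ by group] at h⟩ }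
    have hTX : T ≤ X := fun x hx => hx.1
    have hTc : T ≤ centralizer (U : Set Γ) := by
      refine CfsgLib.Core.le_centralizer_of_stabilizes (hTX.trans hXU)
        (hcop.coprime_dvd_left (card_dvd_of_le hTX)) (Or.inr hsolU) ?_
      rw [eq_bot_iff, ← hDX]
      refine commutator_mono ?_ hTX
      rw [commutator_le]
      intro u hu t ht
      have := D.inv_mem (ht.2 u hu)
      rwa [show (t * u * t⁻¹ * u⁻¹)⁻¹ = ⁅u, t⁆ by simp [commutatorElement_def, mul_assoc]] at this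
    have hXE : ⁅X, E⁆ ≤ T := by
      rw [commutator_le]
      intro x hx e he
      refine ⟨CfsgLib.Core.commutator_le_of_le_normalizer hEX (commutator_mem_commutator hx he), fun u hu => ?_⟩
      have hD' : ∀ g ∈ normalizer (U : Set Γ), ∀ d ∈ D, g * d * g⁻¹ ∈ D := fun g hg d hd =>
        CfsgLib.Core.conj_mem_of_le_normalizer (hnorm (le_refl (normalizer (U : Set Γ))) le_rfl) hg hd
      have hUc : ∀ g ∈ normalizer (U : Set Γ), ∀ v ∈ U, g * v * g⁻¹ ∈ U := fun g hg v hv =>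
        (mem_normalizer_iff.mp hg v).mp hv
      have he' : ∀ v ∈ U, ∀ f ∈ E, f * v * f⁻¹ * v⁻¹ ∈ D := fun v hv f hf => by
        have := D.inv_mem (hED v hv f hf)
        rwa [show ⁅v, f⁆⁻¹ = f * v * f⁻¹ * v⁻¹ by simp [commutatorElement_def, mul_assoc]] at this
      -- x e x⁻¹ e⁻¹
      set v1 := e⁻¹ * u * e
      have hv1 : v1 ∈ U := by simpa using hUc _ (inv_mem (hEU he)) u hu
      set v2 := x⁻¹ * v1 * x
      have hv2 : v2 ∈ U := by simpa using hUc _ (inv_mem (hXU hx)) v1 hv1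
      have a1 : x * (e * v2 * e⁻¹ * v2⁻¹) * x⁻¹ ∈ D := hD' x (hXU hx) _ (he' v2 hv2 e he)
      have a2 : e⁻¹ * u * e⁻¹⁻¹ * u⁻¹ ∈ D := he' u hu _ (E.inv_mem he)
      have := D.mul_mem a1 a2
      rwa [show x * (e * v2 * e⁻¹ * v2⁻¹) * x⁻¹ * (e⁻¹ * u * e⁻¹⁻¹ * u⁻¹) =
        ⁅x, e⁆ * u * ⁅x, e⁆⁻¹ * u⁻¹ by simp only [v1, v2, commutatorElement_def]; group] at this
    have hsolE : Group.IsSolvable E := by
      haveI := hE.isNilpotent; infer_instance
    have hEXcop : (Nat.card E).Coprime (Nat.card X) := by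
      obtain ⟨k, hk⟩ := IsPGroup.iff_card.mp hE
      rw [hk]; exact (hX.pow_right k).symm
    rw [← CfsgLib.Core.commutator_sup_centralizer hEX hEXcop (Or.inl hsolE)]
    refine sup_le (hXE.trans hTc) ?_
    refine CfsgLib.Core.thompson_pxq hE (hX.coprime_dvd_left (card_dvd_of_le inf_le_left)) hU ?_ hEU
      (inf_le_left.trans hXU) (hC.trans (centralizer_le (SetLike.coe_subset_coe.mpr inf_le_left)))
    exact le_centralizer_iff.mp inf_le_right

end CfsgLib.InvRigid
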