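import Cfsg.Prelude.Def_SolvableStructure
import Cfsg.Agent.Lib.CoreTransfer
import Cfsg.Agent.Lib.CoreCoprime
import Cfsg.Agent.Lib.CharCN3
import Cfsg.Agent.Lib.CoreGen

/-!
# Nilpotent maximal subgroups of order divisible by `p`
-/

set_option autoImplicit false

universe u

namespace CfsgLib.MaxNilp

variable {G : Type u} [Group G] [Finite G] {p : ℕ} [hp : Fact p.Prime]

theorem nilpotent_le {A B : Subgroup G} (h : A ≤ B) (hB : Group.IsNilpotent B) : Group.IsNilpotent A :=
  haveI := hB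
  (Group.isNilpotent_congr (Subgroup.subgroupOfEquivOfLe h)).1 inferInstance

theorem nilpotent_central_sup {M Z K : Subgroup G} (hZM : Z ≤ M) (hZ : ∀ z ∈ Z, ∀ g : G, g * z = z * g)
    [Z.Normal] (hM : M ≤ Z ⊔ K) (hK : Group.IsNilpotent ↥(M ⊓ K)) : Group.IsNilpotent M := by
  haveI := hK
  let φ : ↥(M ⊓ K) →* M ⧸ Subgroup.center M :=
    (QuotientGroup.mk' _).comp (Subgroup.inclusion inf_le_left)
  refine Group.of_quotient_center_nilpotent (Group.nilpotent_of_surjective φ ?_)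
  intro c
  obtain ⟨m, rfl⟩ := QuotientGroup.mk'_surjective _ c
  obtain ⟨z, hz, k, hk, e⟩ := Subgroup.mem_sup_of_normal_left.1 (hM m.2)
  have hkM : k ∈ M := by
    have := mul_mem (inv_mem (hZM hz)) m.2
    rwa [← e, inv_mul_cancel_left] at this
  refine ⟨⟨k, hkM, hk⟩, ?_⟩
  show (QuotientGroup.mk' _) _ = (QuotientGroup.mk' _) m
  rw [QuotientGroup.mk'_eq_mk']
  refine ⟨⟨z, hZM hz⟩, Subgroup.mem_center_iff.2 fun w => Subtype.ext (hZ z hz w), Subtype.ext ?_⟩
  show k * z = (m : G)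
  rw [hZ z hz k]
  exact e

theorem sylow_centralizes {M P : Subgroup G} [P.Normal] (hPp : IsPGroup p P) (hP1 : P ≠ ⊥)
    (hprop : ∀ H : Subgroup G, H ≠ ⊤ → p ∣ Nat.card H → Group.IsNilpotent H)
    (hsup : P ⊔ M = ⊤) (hdisj : P ⊓ M = ⊥) (hMnil : ¬ Group.IsNilpotent M) (hpM : ¬ p ∣ Nat.card M) :
    M ≤ Subgroup.centralizer (P : Set G) := by
  refine CfsgLib.Core.le_of_sylow_le fun q hq => ?_
  haveI := hq
  obtain ⟨R⟩ := (inferInstance : Nonempty (Sylow q M))
  refine ⟨R, ?_⟩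
  set S := (R : Subgroup M).map M.subtype with hS
  have hSM : S ≤ M := Subgroup.map_subtype_le _
  have hne : P ⊔ S ≠ ⊤ := by
    intro e
    apply hMnil
    have hMS : M ≤ S := by
      intro m hm
      obtain ⟨x, hx, s, hs, rfl⟩ := Subgroup.mem_sup_of_normal_left.1 (e.ge (Subgroup.mem_top m))
      have hxM : x ∈ M := by simpa using mul_mem hm (inv_mem (hSM hs))
      have : x = 1 := Subgroup.mem_bot.1 (hdisj ▸ ⟨hx, hxM⟩)
      rw [this, one_mul]; exact hs
    exact nilpotent_le hMS (R.2.map _).isNilpotent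
  have hpd : p ∣ Nat.card P := by
    obtain ⟨n, hn⟩ := hPp.exists_card_eq
    rcases n with _ | n
    · exact absurd (Subgroup.card_eq_one.1 (hn.trans (pow_zero p))) hP1
    · exact hn ▸ dvd_pow_self p n.succ_ne_zero
  haveI hnil := hprop _ hne (hpd.trans (Subgroup.card_dvd_of_le le_sup_left))
  intro s hs
  rw [Subgroup.mem_centralizer_iff]
  intro x hx
  refine congrArg Subtype.val (CfsgLib.CN.commute_of_coprime_orderOf
    (⟨x, Subgroup.mem_sup_left hx⟩ : ↥(P ⊔ S)) ⟨s, Subgroup.mem_sup_right hs⟩ ?_)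
  rw [← Subgroup.orderOf_coe, ← Subgroup.orderOf_coe]
  obtain ⟨n, hn⟩ := IsPGroup.iff_orderOf.1 hPp ⟨x, hx⟩
  have hxn : orderOf x = p ^ n := by rw [← hn, ← Subgroup.orderOf_coe]
  show (orderOf x).Coprime (orderOf s)
  rw [hxn]
  exact (((hp.out.coprime_iff_not_dvd).2 hpM).pow_left n).coprime_dvd_right
    (Subgroup.orderOf_dvd_natCard _ (hSM hs))

theorem forward (h : ∀ M : Subgroup G, IsCoatom M → p ∣ Nat.card M → Group.IsNilpotent M)
    (hpG : p ∣ Nat.card G) (hnn : ¬ Group.IsNilpotent G) (hnm : ¬ Cfsg.IsMinimalNonNilpotent G) :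
    ∃ Z K : Subgroup G, Z.Normal ∧ K.Normal ∧ Z ⊓ K = ⊥ ∧ Z ⊔ K = ⊤ ∧ Nat.card Z = p ∧
      Cfsg.IsMinimalNonNilpotent K ∧ ¬ p ∣ Nat.card K := by
  have hprop : ∀ H : Subgroup G, H ≠ ⊤ → p ∣ Nat.card H → Group.IsNilpotent H := by
    intro H hH hd
    obtain ⟨M, hM, hHM⟩ := (eq_top_or_exists_le_coatom H).resolve_left hH
    exact nilpotent_le hHM (h M hM (hd.trans (Subgroup.card_dvd_of_le hHM)))
  -- a non-nilpotent maximal subgroup
  obtain ⟨H, hH, hHn⟩ : ∃ H : Subgroup G, H ≠ ⊤ ∧ ¬ Group.IsNilpotent H := by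
    by_contra hc
    push Not at hc
    exact hnm ⟨hnn, hc⟩
  obtain ⟨M, hM, hHM⟩ := (eq_top_or_exists_le_coatom H).resolve_left hH
  have hMn : ¬ Group.IsNilpotent M := fun e => hHn (nilpotent_le hHM e)
  have hpM : ¬ p ∣ Nat.card M := fun e => hMn (h M hM e)
  have hdisj : ∀ P : Subgroup G, IsPGroup p P → P ⊓ M = ⊥ := fun P hP =>
    CfsgLib.Core.inf_eq_bot_of_coprime (by
      obtain ⟨n, hn⟩ := hP.exists_card_eq
      rw [hn]; exact ((hp.out.coprime_iff_not_dvd).2 hpM).pow_left n)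
  -- a nontrivial normal `p`-subgroup
  obtain ⟨P, hPn, hPp, hP1⟩ : ∃ P : Subgroup G, P.Normal ∧ IsPGroup p P ∧ P ≠ ⊥ := by
    by_contra hc
    push Not at hc
    have hloc : Cfsg.HasNormalPComplement p G := by
      refine CfsgLib.Core.hasNormalPComplement_of_local fun Q hQ g hg hco => ?_
      rw [Subgroup.mem_centralizer_iff]
      intro x hx
      rcases eq_or_ne Q ⊥ with rfl | hQ1
      · rw [Subgroup.mem_bot.1 hx, one_mul, mul_one]
      have hne : Subgroup.normalizer (Q : Set G) ≠ ⊤ := fun e =>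
        hQ1 (hc Q (Subgroup.normalizer_eq_top_iff.1 e) hQ)
      obtain ⟨n, hn⟩ := hQ.exists_card_eq
      have hpQ : p ∣ Nat.card Q := by
        rcases n with _ | n
        · exact absurd (Subgroup.card_eq_one.1 (hn.trans (pow_zero p))) hQ1
        · exact hn ▸ dvd_pow_self p n.succ_ne_zero
      haveI := hprop _ hne (hpQ.trans (Subgroup.card_dvd_of_le Subgroup.le_normalizer))
      refine congrArg Subtype.val (CfsgLib.CN.commute_of_coprime_orderOf
        (⟨x, Subgroup.le_normalizer hx⟩ : Subgroup.normalizer (Q : Set G)) ⟨g, hg⟩ ?_)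
      rw [← Subgroup.orderOf_coe, ← Subgroup.orderOf_coe]
      exact (((hn ▸ hco.pow_right n) : (orderOf g).Coprime (Nat.card Q)).coprime_dvd_right
        (Subgroup.orderOf_dvd_natCard _ hx)).symm
    obtain ⟨S, N, hN, hc'⟩ := hloc
    haveI := hN
    have hS1 : (S : Subgroup G) ≠ ⊥ := S.ne_bot_of_dvd_card hpG
    have hcN : (Nat.card N).Coprime p := by
      rw [← hc'.index_eq_card]
      exact ((hp.out.coprime_iff_not_dvd).2 S.not_dvd_index).symm
    -- `M` lies in the complement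
    have hMN : M ≤ N := by
      intro m hm
      rw [← QuotientGroup.eq_one_iff, ← orderOf_eq_one_iff]
      obtain ⟨n, hn⟩ := S.2.exists_card_eq
      have h1 : orderOf (m : G ⧸ N) ∣ p ^ n := by
        refine orderOf_dvd_natCard _ |>.trans (dvd_of_eq ?_)
        rw [← Subgroup.index_eq_card, hc'.symm.index_eq_card, hn]
      exact Nat.Coprime.eq_one_of_dvd ((((hp.out.coprime_iff_not_dvd).2 hpM).symm.pow_right n).coprime_dvd_left
        ((orderOf_map_dvd (QuotientGroup.mk' N) m).trans (Subgroup.orderOf_dvd_natCard _ hm))) h1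
    have hNtop : N ≠ ⊤ := fun e => by
      rw [e, Subgroup.card_top] at hcN
      exact hp.out.ne_one (Nat.Coprime.eq_one_of_dvd hcN.symm hpG)
    have hMeq : M = N := (hM.le_iff.1 hMN).resolve_left hNtop |>.symm
    -- each Sylow subgroup of the complement is centralized by a Sylow `p`-subgroup
    have hSN : (S : Subgroup G) ≤ Subgroup.normalizer (N : Set G) := by
      rw [Subgroup.normalizer_eq_top]; exact le_top
    have hcop : (Nat.card (S : Subgroup G)).Coprime (Nat.card N) := by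
      obtain ⟨n, hn⟩ := S.2.exists_card_eq
      rw [hn]; exact hcN.symm.pow_left n
    have hNS : N ≤ Subgroup.centralizer ((S : Subgroup G) : Set G) := by
      refine CfsgLib.Core.le_of_sylow_le fun q hq => ?_
      haveI := hq
      obtain ⟨R, hR⟩ := CfsgLib.Core.exists_invariant_sylow q hSN hcop
        (Or.inl (by haveI := S.2.isNilpotent; infer_instance))
      refine ⟨R, ?_⟩
      set T := (R : Subgroup N).map N.subtype with hT
      have hne : T ⊔ (S : Subgroup G) ≠ ⊤ := by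
        intro e
        apply hMn
        refine nilpotent_le (B := T) (hMeq.le.trans ?_) (R.2.map N.subtype).isNilpotent
        intro m hm
        obtain ⟨t, ht, s, hs, rfl⟩ := (CfsgLib.Core.mem_sup_iff_of_le_normalizer' hR).1
          (by rw [sup_comm, e]; exact Subgroup.mem_top m : m ∈ (S : Subgroup G) ⊔ T)
        have hsN : s ∈ N := by
          have := mul_mem (inv_mem (Subgroup.map_subtype_le _ ht)) hm
          simpa using this
        have : s = 1 := Subgroup.mem_bot.1 (hc'.disjoint.symm.eq_bot ▸ ⟨hs, hsN⟩)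
        rw [this, mul_one]; exact ht
      have hpS : p ∣ Nat.card (S : Subgroup G) := S.dvd_card_of_dvd_card hpG
      haveI := hprop _ hne (hpS.trans (Subgroup.card_dvd_of_le le_sup_right))
      intro t ht
      rw [Subgroup.mem_centralizer_iff]
      intro s hs
      refine congrArg Subtype.val (CfsgLib.CN.commute_of_coprime_orderOf
        (⟨s, Subgroup.mem_sup_right hs⟩ : ↥(T ⊔ (S : Subgroup G))) ⟨t, Subgroup.mem_sup_left ht⟩ ?_)
      rw [← Subgroup.orderOf_coe, ← Subgroup.orderOf_coe]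
      exact (hcop.coprime_dvd_left (Subgroup.orderOf_dvd_natCard _ hs)).coprime_dvd_right
        (Subgroup.orderOf_dvd_natCard _ (Subgroup.map_subtype_le _ ht))
    refine hS1 (hc _ (Subgroup.normalizer_eq_top_iff.1 (eq_top_iff.2 ?_)) S.2)
    rw [← hc'.sup_eq_top]
    exact sup_le (hNS.trans (CfsgLib.Core.centralizer_le_normalizer _)) Subgroup.le_normalizer
  haveI := hPn
  have hsup : P ⊔ M = ⊤ := by
    refine (hM.le_iff.1 (le_sup_right : M ≤ P ⊔ M)).resolve_right fun e => hP1 ?_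
    have h1 : P ≤ M := le_sup_left.trans e.le
    rw [← hdisj P hPp, inf_eq_left.2 h1]
  have hMC := sylow_centralizes hPp hP1 hprop hsup (hdisj P hPp) hMn hpM
  -- a subgroup of prime order in the centre
  haveI := hPp.isNilpotent
  obtain ⟨n, hn⟩ := hPp.exists_card_eq
  haveI : Nontrivial P := (Subgroup.nontrivial_iff_ne_bot P).2 hP1
  haveI := hPp.center_nontrivial
  obtain ⟨k, hk⟩ := (hPp.to_subgroup (Subgroup.center P)).exists_card_eq
  have hpc : p ∣ Nat.card (Subgroup.center P) := by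
    rcases k with _ | k
    · exact absurd hk (by rw [pow_zero]; exact Finite.one_lt_card.ne')
    · exact hk ▸ dvd_pow_self p k.succ_ne_zero
  obtain ⟨z, hz⟩ := exists_prime_orderOf_dvd_card' p hpc
  set Z := Subgroup.zpowers (((z : P) : G)) with hZdef
  have hzo : orderOf ((z : P) : G) = p := by rw [Subgroup.orderOf_coe, Subgroup.orderOf_coe, hz]
  have hZP : Z ≤ P := Subgroup.zpowers_le.2 (z : P).2
  have hzc : ∀ g : G, g * ((z : P) : G) = ((z : P) : G) * g := by
    intro g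
    obtain ⟨x, hx, m, hm, rfl⟩ := Subgroup.mem_sup_of_normal_left.1 (hsup.ge (Subgroup.mem_top g))
    have h1 : x * ((z : P) : G) = ((z : P) : G) * x :=
      congrArg Subtype.val (Subgroup.mem_center_iff.1 z.2 ⟨x, hx⟩)
    have h2 : m * ((z : P) : G) = ((z : P) : G) * m :=
      (Subgroup.mem_centralizer_iff.1 (hMC hm) _ (z : P).2).symm
    rw [mul_assoc, h2, ← mul_assoc, h1, mul_assoc]
  have hZc : ∀ y ∈ Z, ∀ g : G, g * y = y * g := by
    rintro _ ⟨i, rfl⟩ g
    exact ((show Commute g ((z : P) : G) from hzc g).zpow_right i).eq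
  haveI hZn : Z.Normal := ⟨fun y hy g => by rw [hZc y hy g, mul_inv_cancel_right]; exact hy⟩
  have hZ1 : Z ≠ ⊥ := fun e => hp.out.ne_one (by
    rw [← hzo, orderOf_eq_one_iff.2 (Subgroup.zpowers_eq_bot.1 e)])
  have hZsup : Z ⊔ M = ⊤ := by
    refine (hM.le_iff.1 (le_sup_right : M ≤ Z ⊔ M)).resolve_right fun e => hZ1 ?_
    rw [eq_bot_iff, ← hdisj P hPp]
    exact le_inf hZP (le_sup_left.trans e.le)
  have hMnormal : M.Normal := by
    rw [← Subgroup.normalizer_eq_top_iff, eq_top_iff, ← hZsup]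
    refine sup_le (fun y hy => CfsgLib.Core.centralizer_le_normalizer _ ?_) Subgroup.le_normalizer
    rw [Subgroup.mem_centralizer_iff]
    exact fun w _ => hZc y hy w
  have hZM : Z ⊓ M = ⊥ := le_bot_iff.1 ((inf_le_inf_right M hZP).trans (hdisj P hPp).le)
  refine ⟨Z, M, hZn, hMnormal, hZM, hZsup, by rw [hZdef, Nat.card_zpowers, hzo], ⟨hMn, fun H' hH' => ?_⟩, hpM⟩
  have hne : Z ⊔ H'.map M.subtype ≠ ⊤ := by
    intro e
    refine hH' (eq_top_iff.2 fun m _ => ?_)
    obtain ⟨y, hy, w, ⟨w', hw', rfl⟩, he⟩ := Subgroup.mem_sup_of_normal_left.1 (e.ge (Subgroup.mem_top (m : G)))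
    have hyM : y ∈ M := by
      have : y = (m : G) * ((w' : M) : G)⁻¹ := eq_mul_inv_of_mul_eq he
      rw [this]; exact mul_mem m.2 (inv_mem w'.2)
    have hy1 : y = 1 := Subgroup.mem_bot.1 (hZM ▸ ⟨hy, hyM⟩)
    rw [hy1, one_mul] at he
    rwa [← show w' = m from Subtype.ext he]
  have := nilpotent_le (le_sup_right : H'.map M.subtype ≤ _) (hprop _ hne (by
    refine dvd_trans ?_ (Subgroup.card_dvd_of_le (le_sup_left : Z ≤ _))
    rw [hZdef, Nat.card_zpowers, hzo]))
  exact (Group.isNilpotent_congr (H'.equivMapOfInjective _ M.subtype_injective)).2 this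

theorem backward {Z K : Subgroup G} [Z.Normal] [K.Normal] (hdis : Z ⊓ K = ⊥) (hsup : Z ⊔ K = ⊤)
    (hZ : Nat.card Z = p) (hK : Cfsg.IsMinimalNonNilpotent K) (hpK : ¬ p ∣ Nat.card K)
    {M : Subgroup G} (hM : IsCoatom M) (hpM : p ∣ Nat.card M) : Group.IsNilpotent M := by
  haveI : IsCyclic Z := isCyclic_of_prime_card hZ
  have hZc : ∀ z ∈ Z, ∀ g : G, g * z = z * g := by
    intro z hz g
    obtain ⟨y, hy, k, hk, rfl⟩ := Subgroup.mem_sup_of_normal_left.1 (hsup.ge (Subgroup.mem_top g))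
    letI := IsCyclic.commGroup (α := Z)
    have h1 : y * z = z * y := congrArg Subtype.val (mul_comm (⟨y, hy⟩ : Z) ⟨z, hz⟩)
    have h2 : k * z = z * k := (Subgroup.commute_of_normal_of_disjoint K Z inferInstance inferInstance
      (disjoint_iff.2 (by rw [inf_comm]; exact hdis)) k z hk hz).eq
    rw [mul_assoc, h2, ← mul_assoc, h1, mul_assoc]
  have hZM : Z ≤ M := by
    obtain ⟨x, hx⟩ := exists_prime_orderOf_dvd_card' p hpM
    have hxo : orderOf (x : G) = p := by rw [Subgroup.orderOf_coe, hx]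
    have hxZ : (x : G) ∈ Z := by
      obtain ⟨y, hy, k, hk, e⟩ := Subgroup.mem_sup_of_normal_left.1 (hsup.ge (Subgroup.mem_top (x : G)))
      have hyk : Commute y k := (hZc y hy k).symm
      have hpow : k ^ p = 1 := by
        have h1 : y ^ p * k ^ p = 1 := by rw [← hyk.mul_pow, e, ← hxo, pow_orderOf_eq_one]
        have h2 : y ^ p = 1 := orderOf_dvd_iff_pow_eq_one.1 (hZ ▸ Subgroup.orderOf_dvd_natCard _ hy)
        rwa [h2, one_mul] at h1
      have hk1 : k = 1 := orderOf_eq_one_iff.1 (Nat.Coprime.eq_one_of_dvd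
        (((hp.out.coprime_iff_not_dvd).2 hpK).symm.coprime_dvd_left (Subgroup.orderOf_dvd_natCard _ hk))
        (orderOf_dvd_of_pow_eq_one hpow))
      rw [← e, hk1, mul_one]; exact hy
    have hzx : Subgroup.zpowers (x : G) = Z := Subgroup.eq_of_le_of_card_ge (Subgroup.zpowers_le.2 hxZ)
      (by rw [Nat.card_zpowers, hxo, hZ])
    rw [← hzx]
    exact Subgroup.zpowers_le.2 x.2
  have hKM : M ⊓ K ≠ K := fun e => hM.1 (eq_top_iff.2 (hsup ▸ sup_le hZM (inf_eq_right.1 e)))
  have hnil : Group.IsNilpotent ↥(M ⊓ K) := by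
    have h1 : (M ⊓ K).subgroupOf K ≠ ⊤ := fun e =>
      hKM (le_antisymm inf_le_right (Subgroup.subgroupOf_eq_top.1 e))
    exact (Group.isNilpotent_congr (Subgroup.subgroupOfEquivOfLe inf_le_right)).1 (hK.2 _ h1)
  exact nilpotent_central_sup hZM hZc (le_top.trans hsup.ge) hnil

end CfsgLib.MaxNilp
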