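import Cfsg.Agent.Lib.ZStarTwoGroup
import Cfsg.Agent.Lib.CoreBasic
import Mathlib.GroupTheory.Nilpotent

/-!
# The subgroup generated by the elements in the smallest classes
-/

set_option autoImplicit false

namespace CfsgLib.MinClass

open scoped commutatorElement

variable {G : Type*} [Group G] [Finite G]

theorem commutator_mem_center {A : Subgroup G} [A.Normal] (hA : ∀ a ∈ A, ∀ b ∈ A, a * b = b * a) {m : ℕ}
    (hmin : ∀ y : G, 1 < (Subgroup.centralizer ({y} : Set G)).index →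
      m ≤ (Subgroup.centralizer ({y} : Set G)).index)
    {x : G} (hx : (Subgroup.centralizer ({x} : Set G)).index ≤ m) {a : G} (ha : a ∈ A) :
    a * x * a⁻¹ * x⁻¹ ∈ Subgroup.center G := by
  classical
  set C := Subgroup.centralizer ({x} : Set G) with hC
  have hCx : ∀ c ∈ C, c * x = x * c := fun c hc => Subgroup.mem_centralizer_singleton_iff.1 hc
  set y := a * x * a⁻¹ * x⁻¹ with hy
  by_cases hy1 : y = 1
  · rw [hy1]; exact one_mem _
  have hyA : y ∈ A := by
    have := mul_mem ha ((inferInstance : A.Normal).conj_mem a⁻¹ (inv_mem ha) x)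
    simpa [hy, mul_assoc] using this
  set T : Set G := (fun b => b * x * b⁻¹ * x⁻¹) '' (A : Set G) with hT
  have hstab : ∀ c ∈ C, ∀ t ∈ T, c * t * c⁻¹ ∈ T := by
    rintro c hc _ ⟨b, hb, rfl⟩
    refine ⟨c * b * c⁻¹, (inferInstance : A.Normal).conj_mem b hb c, ?_⟩
    have hcx : c * x * c⁻¹ = x := by rw [hCx c hc, mul_inv_cancel_right]
    calc c * b * c⁻¹ * x * (c * b * c⁻¹)⁻¹ * x⁻¹
        = c * b * (c⁻¹ * x * c) * b⁻¹ * c⁻¹ * x⁻¹ := by group
      _ = c * b * x * b⁻¹ * (c⁻¹ * x⁻¹) := by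
        rw [show c⁻¹ * x * c = x by rw [mul_assoc, ← hCx c hc, inv_mul_cancel_left]]; group
      _ = c * (b * x * b⁻¹ * x⁻¹) * c⁻¹ := by
        rw [show c⁻¹ * x⁻¹ = x⁻¹ * c⁻¹ by rw [← mul_inv_rev, ← mul_inv_rev, hCx c hc]]; group
  -- the stabilizer of `y` in `C`
  set D := C ⊓ Subgroup.centralizer ({y} : Set G) with hD
  have hrelD : D.relIndex C < Nat.card T := by
    have hyT : y ∈ T := ⟨a, ha, rfl⟩
    let f : C ⧸ D.subgroupOf C → {t : T // (t : G) ≠ 1} := fun q =>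
      ⟨⟨(q.out : C) * y * ((q.out : C) : G)⁻¹, hstab _ q.out.2 y hyT⟩,
        fun e => hy1 (conj_eq_one_iff.1 e)⟩
    have hf : Function.Injective f := by
      intro q r h
      have h' : ((q.out : C) : G) * y * ((q.out : C) : G)⁻¹ = ((r.out : C) : G) * y * ((r.out : C) : G)⁻¹ :=
        congrArg (fun t : {t : T // (t : G) ≠ 1} => ((t : T) : G)) h
      rw [← QuotientGroup.out_eq' q, ← QuotientGroup.out_eq' r, QuotientGroup.eq, Subgroup.mem_subgroupOf]
      refine Subgroup.mem_inf.2 ⟨(q.out⁻¹ * r.out : C).2, Subgroup.mem_centralizer_singleton_iff.2 ?_⟩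
      rw [Subgroup.coe_mul, Subgroup.coe_inv]
      calc ((q.out : C) : G)⁻¹ * (r.out : C) * y
          = ((q.out : C) : G)⁻¹ * (((r.out : C) : G) * y * ((r.out : C) : G)⁻¹) * (r.out : C) := by group
        _ = ((q.out : C) : G)⁻¹ * (((q.out : C) : G) * y * ((q.out : C) : G)⁻¹) * (r.out : C) := by rw [h']
        _ = _ := by group
    have h1 : D.relIndex C ≤ Nat.card {t : T // (t : G) ≠ 1} := Nat.card_le_card_of_injective f hf
    refine lt_of_le_of_lt h1 ?_
    letI := Fintype.ofFinite T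
    rw [Nat.card_eq_fintype_card, Nat.card_eq_fintype_card]
    exact Fintype.card_subtype_lt (x := ⟨1, 1, one_mem A, by simp⟩) (by simp)
  have hTc : Nat.card T = (A ⊓ C).relIndex A := by
    refine (Nat.card_eq_of_bijective (fun q : A ⧸ (A ⊓ C).subgroupOf A =>
      (⟨((q.out : A) : G) * x * ((q.out : A) : G)⁻¹ * x⁻¹, _, (q.out).2, rfl⟩ : T)) ⟨?_, ?_⟩).symm
    · intro q r h
      have h' : ((q.out : A) : G) * x * ((q.out : A) : G)⁻¹ = ((r.out : A) : G) * x * ((r.out : A) : G)⁻¹ :=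
        mul_right_cancel (congrArg Subtype.val h)
      rw [← QuotientGroup.out_eq' q, ← QuotientGroup.out_eq' r, QuotientGroup.eq, Subgroup.mem_subgroupOf]
      refine Subgroup.mem_inf.2 ⟨(q.out⁻¹ * r.out : A).2, Subgroup.mem_centralizer_singleton_iff.2 ?_⟩
      rw [Subgroup.coe_mul, Subgroup.coe_inv]
      calc ((q.out : A) : G)⁻¹ * (r.out : A) * x
          = ((q.out : A) : G)⁻¹ * (((r.out : A) : G) * x * ((r.out : A) : G)⁻¹) * (r.out : A) := by group
        _ = ((q.out : A) : G)⁻¹ * (((q.out : A) : G) * x * ((q.out : A) : G)⁻¹) * (r.out : A) := by rw [h']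
        _ = _ := by group
    · rintro ⟨_, b, hb, rfl⟩
      refine ⟨((⟨b, hb⟩ : A) : A ⧸ (A ⊓ C).subgroupOf A), Subtype.ext ?_⟩
      obtain ⟨w, hw⟩ := QuotientGroup.mk_out_eq_mul ((A ⊓ C).subgroupOf A) ⟨b, hb⟩
      have hwC : ((w : A) : G) * x = x * ((w : A) : G) := hCx _ (Subgroup.mem_inf.1 w.2).2
      show (((⟨b, hb⟩ : A) : A ⧸ (A ⊓ C).subgroupOf A).out : G) * x *
        (((⟨b, hb⟩ : A) : A ⧸ (A ⊓ C).subgroupOf A).out : G)⁻¹ * x⁻¹ = b * x * b⁻¹ * x⁻¹
      rw [hw, Subgroup.coe_mul, mul_inv_rev]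
      calc b * (w : A) * x * (((w : A) : G)⁻¹ * b⁻¹) * x⁻¹
          = b * ((((w : A) : G) * x) * ((w : A) : G)⁻¹) * b⁻¹ * x⁻¹ := by group
        _ = _ := by rw [hwC, mul_inv_cancel_right]
  -- compare the centralizers
  set E := Subgroup.centralizer ({y} : Set G) with hE
  have hle : A ⊔ D ≤ E := sup_le (fun b hb => Subgroup.mem_centralizer_singleton_iff.2 (hA b hb y hyA))
    inf_le_right
  have h1 := CfsgLib.Core.card_sup_mul_card_inf (A := D) (K := A)
    (le_top.trans (Subgroup.normalizer_eq_top (H := A)).ge)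
  have hlt : Nat.card C < Nat.card E := by
    have h2 : Nat.card ↥(D ⊔ A) ≤ Nat.card E := Subgroup.card_le_of_le (sup_comm D A ▸ hle)
    have h3 : Nat.card ↥(D ⊓ A) ≤ Nat.card ↥(A ⊓ C) :=
      Subgroup.card_le_of_le (le_inf inf_le_right (inf_le_left.trans inf_le_left))
    have h4 := CfsgLib.Core.card_mul_relIndex (inf_le_left : A ⊓ C ≤ A)
    have h5 := CfsgLib.Core.card_mul_relIndex (inf_le_left : D ≤ C)
    rw [← hTc] at h4
    have hD0 : 0 < Nat.card D := Nat.card_pos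
    have hC0 : 0 < Nat.card ↥(A ⊓ C) := Nat.card_pos
    -- `|E| |A ∩ C| ≥ |D| |A| > |C| |A ∩ C|`
    have h6 : Nat.card D * Nat.card A ≤ Nat.card E * Nat.card ↥(A ⊓ C) := h1 ▸ Nat.mul_le_mul h2 h3
    rw [← h4, mul_comm (Nat.card ↥(A ⊓ C)) (Nat.card T), ← mul_assoc] at h6
    have h7 : Nat.card D * Nat.card T ≤ Nat.card E := Nat.le_of_mul_le_mul_right h6 hC0
    exact lt_of_lt_of_le (h5 ▸ Nat.mul_lt_mul_of_pos_left hrelD hD0) h7
  rw [Subgroup.mem_center_iff]
  have hidx : E.index < m := by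
    refine lt_of_lt_of_le ?_ hx
    have e1 := C.card_mul_index
    have e2 := E.card_mul_index
    have : 0 < E.index := Nat.pos_of_ne_zero Subgroup.index_ne_zero_of_finite
    nlinarith
  have hone : E.index = 1 := by
    by_contra hne
    have : 0 < E.index := Nat.pos_of_ne_zero Subgroup.index_ne_zero_of_finite
    have h8 : 1 < E.index := Nat.lt_of_le_of_ne this (Ne.symm hne)
    exact absurd (hmin y h8) (not_le.2 hidx)
  intro g
  exact Subgroup.mem_centralizer_singleton_iff.1 (Subgroup.index_eq_one.1 hone ▸ Subgroup.mem_top g : g ∈ E)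

theorem upperCentralSeries_three {A : Subgroup G} [A.Normal] (hA : ∀ a ∈ A, ∀ b ∈ A, a * b = b * a)
    (hCA : Subgroup.centralizer (A : Set G) ≤ A) {m : ℕ} (hm : 1 ≤ m)
    (hmin : ∀ y : G, 1 < (Subgroup.centralizer ({y} : Set G)).index →
      m ≤ (Subgroup.centralizer ({y} : Set G)).index) {M : Subgroup G}
    (hM : M ≤ Subgroup.closure {x : G | (Subgroup.centralizer ({x} : Set G)).index = 1 ∨
      (Subgroup.centralizer ({x} : Set G)).index = m}) :
    Subgroup.upperCentralSeries ↥M 3 = ⊤ := by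
  set π := QuotientGroup.mk' (Subgroup.center G) with hπ
  have hcen : ∀ a ∈ A, ∀ u ∈ M, a * u * a⁻¹ * u⁻¹ ∈ Subgroup.center G := by
    intro a ha u hu
    have hle : M ≤ (Subgroup.centralizer ((A.map π : Subgroup (G ⧸ Subgroup.center G)) : Set (G ⧸ Subgroup.center G))).comap π := by
      refine hM.trans ((Subgroup.closure_le _).2 fun x hx => ?_)
      rw [SetLike.mem_coe, Subgroup.mem_comap, Subgroup.mem_centralizer_iff]
      rintro _ ⟨b, hb, rfl⟩
      have h := commutator_mem_center hA hmin (x := x) (by rcases hx with h | h <;> rw [h]; exact hm) hb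
      have h' : π (b * x * b⁻¹ * x⁻¹) = 1 := (QuotientGroup.eq_one_iff _).2 h
      rwa [map_mul, map_mul, map_mul, map_inv, map_inv, mul_inv_eq_one, mul_inv_eq_iff_eq_mul] at h'
    have h1 := Subgroup.mem_centralizer_iff.1 (hle hu) (π a) ⟨a, ha, rfl⟩
    rw [← QuotientGroup.eq_one_iff]
    show π (a * u * a⁻¹ * u⁻¹) = 1
    rw [map_mul, map_mul, map_mul, map_inv, map_inv, mul_inv_eq_one, mul_inv_eq_iff_eq_mul]
    exact h1
  have hder : ∀ u ∈ M, ∀ v ∈ M, u * v * u⁻¹ * v⁻¹ ∈ A := by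
    intro u hu v hv
    refine hCA (Subgroup.mem_centralizer_iff.2 fun a ha => mul_inv_eq_iff_eq_mul.1 ?_)
    obtain ⟨z, hz, hzu⟩ : ∃ z ∈ Subgroup.center G, a * u * a⁻¹ = z * u :=
      ⟨_, hcen a ha u hu, by group⟩
    obtain ⟨z', hz', hzv⟩ : ∃ z ∈ Subgroup.center G, a * v * a⁻¹ = z * v :=
      ⟨_, hcen a ha v hv, by group⟩
    have hc : ∀ g : G, Commute z g := fun g => (Subgroup.mem_center_iff.1 hz g).symm
    have hc' : ∀ g : G, Commute z' g := fun g => (Subgroup.mem_center_iff.1 hz' g).symm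
    calc a * (u * v * u⁻¹ * v⁻¹) * a⁻¹
        = (a * u * a⁻¹) * (a * v * a⁻¹) * (a * u * a⁻¹)⁻¹ * (a * v * a⁻¹)⁻¹ := by group
      _ = z * (u * (z' * v) * u⁻¹) * z⁻¹ * v⁻¹ * z'⁻¹ := by rw [hzu, hzv]; group
      _ = (u * (z' * v) * u⁻¹) * v⁻¹ * z'⁻¹ := by rw [(hc _).eq, mul_inv_cancel_right]
      _ = z' * (u * v * u⁻¹ * v⁻¹) * z'⁻¹ := by
        rw [show u * (z' * v) * u⁻¹ = (u * z') * v * u⁻¹ by group, ← (hc' u).eq]; group
      _ = _ := by rw [(hc' _).eq, mul_inv_cancel_right]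
  have h1 : ∀ z : M, (z : G) ∈ Subgroup.center G → z ∈ Subgroup.upperCentralSeries ↥M 1 := by
    intro z hz
    rw [Subgroup.upperCentralSeries_one, Subgroup.mem_center_iff]
    exact fun w => Subtype.ext (Subgroup.mem_center_iff.1 hz (w : G))
  have h2 : ∀ z : M, (z : G) ∈ A → z ∈ Subgroup.upperCentralSeries ↥M 2 := by
    intro z hz
    rw [Subgroup.mem_upperCentralSeries_succ_iff]
    intro w
    exact h1 _ (hcen _ hz _ w.2)
  rw [eq_top_iff]
  intro z _
  rw [Subgroup.mem_upperCentralSeries_succ_iff]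
  intro w
  exact h2 _ (hder _ z.2 _ w.2)

end CfsgLib.MinClass
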