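import Cfsg.Prelude.Def_Transfer
import Mathlib.GroupTheory.SpecificGroups.Dihedral
import Mathlib.RepresentationTheory.Basic
import Mathlib.GroupTheory.OrderOfElement
import Mathlib.GroupTheory.Index
import Mathlib.Algebra.Module.ZMod
import Mathlib.Data.Fintype.Powerset

/-!
Irreducible modules over `F₂` for `3² : D₈`.
-/

set_option autoImplicit false

namespace CfsgLib.NineDEight

open Subgroup

/-- The fours in `D₈`. -/
theorem fours_finset : ∀ F : Finset (DihedralGroup 4), F.card = 4 → (∀ x ∈ F, x * x = 1) →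
    (∀ x ∈ F, ∀ y ∈ F, x * y ∈ F) →
    F = {1, .r 2, .sr 0, .sr 2} ∨ F = {1, .r 2, .sr 1, .sr 3} := by
  decide +kernel

variable {S : Type*} [Group S] {M : Type*} [AddCommGroup M] [Module (ZMod 2) M]

theorem madd (m : M) : m + m = 0 := by
  rw [← two_smul (ZMod 2) m, show (2 : ZMod 2) = 0 by decide, zero_smul]

theorem rep_mul (ρ : Representation (ZMod 2) S M) (g h : S) (m : M) : ρ (g * h) m = ρ g (ρ h m) := by
  rw [map_mul]; rfl

theorem rep_one (ρ : Representation (ZMod 2) S M) (m : M) : ρ 1 m = m := by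
  rw [map_one]; rfl

theorem eq_one_of_sq {a : S} (h3 : a * a * a = 1) (h : a⁻¹ = a) : a = 1 := by
  have h2 : a * a = 1 := by nth_rw 1 [← h]; exact inv_mul_cancel a
  calc a = a * a * a := by rw [h2, one_mul]
    _ = 1 := h3

/-- The actions of the elements of `X` on the elements of order three of `A`. -/
structure Frame (A : Subgroup S) (f : DihedralGroup 4 →* S) (l a : S) : Prop where
  lA : l ∈ A
  aA : a ∈ A
  comm : l * a = a * l
  l3 : l * l * l = 1
  a3 : a * a * a = 1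
  l1 : l ≠ 1
  la : a ∉ Subgroup.zpowers l
  gen : ∀ b ∈ A, b ∈ Subgroup.closure {l, a}
  sl : f (.sr 0) * l * (f (.sr 0))⁻¹ = l
  sa : f (.sr 0) * a * (f (.sr 0))⁻¹ = a⁻¹
  ul : f (.sr 2) * l * (f (.sr 2))⁻¹ = l⁻¹
  ua : f (.sr 2) * a * (f (.sr 2))⁻¹ = a
  rl : f (.r 1) * l * (f (.r 1))⁻¹ = a
  ra : f (.r 1) * a * (f (.r 1))⁻¹ = l⁻¹

theorem exists_frame [Finite S] (A : Subgroup S) [A.Normal] (hA : Cfsg.IsElementaryAbelian 3 A) (hA9 : Nat.card ↥A = 9)
    (hAC : Subgroup.centralizer (A : Set S) = A) (f : DihedralGroup 4 →* S) (hf : Function.Injective f) :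
    ∃ l a, Frame A f l a := by
  have hA3 : ∀ a ∈ A, a * a * a = 1 := fun a ha => by rw [← pow_three']; exact hA.2 a ha
  have hcomm : ∀ a ∈ A, ∀ b ∈ A, a * b = b * a := fun a ha b hb =>
    congrArg Subtype.val (hA.1.1.1 ⟨a, ha⟩ ⟨b, hb⟩)
  have hdet : ∀ g, (∀ a ∈ A, f g * a * (f g)⁻¹ = a) → g = 1 := by
    intro g hg
    apply hf
    have hgA : f g ∈ A := hAC.le (Subgroup.mem_centralizer_iff.2 fun a ha => (mul_inv_eq_iff_eq_mul.1 (hg a ha)).symm)
    rw [map_one]
    have h8 : g ^ 8 = 1 := (by decide +kernel : ∀ g : DihedralGroup 4, g ^ 8 = 1) g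
    have h3 : f g ^ 3 = 1 := hA.2 _ hgA
    calc f g = (f g ^ 3) ^ 3 * (f g ^ 8)⁻¹ := by group
      _ = 1 := by rw [h3, ← map_pow, h8, map_one]; simp
  -- an involution inverts `a' * a⁻¹` and fixes `(a * a')⁻¹`
  have hsplit : ∀ g, g * g = 1 → (∀ x ∈ A, f g * x * (f g)⁻¹ = x → x = 1) →
      ∀ a ∈ A, f g * a * (f g)⁻¹ = a⁻¹ := by
    intro g hg hfix a ha
    set a' := f g * a * (f g)⁻¹ with ha'
    have ha'A : a' ∈ A := (inferInstance : A.Normal).conj_mem a ha _
    have hgi : (f g)⁻¹ = f g := inv_eq_of_mul_eq_one_right (by rw [← map_mul, hg, map_one])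
    have h2 : f g * a' * (f g)⁻¹ = a := by
      rw [ha', hgi]
      calc f g * (f g * a * f g) * f g = (f g * f g) * a * (f g * f g) := by group
        _ = a := by rw [← map_mul, hg, map_one]; group
    have : a * a' = 1 := hfix _ (A.mul_mem ha ha'A) (by
      calc f g * (a * a') * (f g)⁻¹ = (f g * a * (f g)⁻¹) * (f g * a' * (f g)⁻¹) := by group
        _ = a * a' := by rw [h2]; exact hcomm _ ha'A _ ha)
    exact (inv_eq_of_mul_eq_one_right this).symm
  haveI := Fact.mk Nat.prime_three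
  have hline : ∀ g, g ≠ 1 → ∀ x ∈ A, ∀ y ∈ A, x ≠ 1 → f g * x * (f g)⁻¹ = x → f g * y * (f g)⁻¹ = y →
      y ∈ Subgroup.zpowers x := by
    intro g hg x hxA y hyA hx1 hx hy
    set C := A ⊓ Subgroup.centralizer {f g} with hC
    have hmem : ∀ w, w ∈ A → f g * w * (f g)⁻¹ = w → w ∈ C := fun w hw hw' =>
      Subgroup.mem_inf.2 ⟨hw, Subgroup.mem_centralizer_singleton_iff.2 (mul_inv_eq_iff_eq_mul.1 hw').symm⟩
    have hxC : Subgroup.zpowers x ≤ C := Subgroup.zpowers_le.2 (hmem x hxA hx)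
    have hd : Nat.card C ∣ 3 ^ 2 := by
      rw [show 3 ^ 2 = 9 by norm_num, ← hA9]; exact Subgroup.card_dvd_of_le inf_le_left
    obtain ⟨i, hi, hcard⟩ := (Nat.dvd_prime_pow Nat.prime_three).1 hd
    have hne : i ≠ 2 := by
      intro h
      apply hg
      refine hdet g fun a ha => ?_
      have h9 : C = A := Subgroup.eq_of_le_of_card_ge inf_le_left (by rw [hA9, hcard, h]; norm_num)
      have := Subgroup.mem_centralizer_singleton_iff.1 (Subgroup.mem_inf.1 (h9.ge ha)).2
      exact mul_inv_eq_iff_eq_mul.2 this.symm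
    have : Subgroup.zpowers x = C := by
      refine Subgroup.eq_of_le_of_card_ge hxC ?_
      rw [Nat.card_zpowers, orderOf_eq_prime (hA.2 x hxA) hx1, hcard]
      interval_cases i <;> norm_num at *
    rw [this]; exact hmem y hyA hy
  -- `z` inverts
  have hz : ∀ a ∈ A, f (.r 2) * a * (f (.r 2))⁻¹ = a⁻¹ := by
    refine hsplit _ (by decide) fun x hxA hx => ?_
    by_contra hx1
    set z := f (.r 2) with hzdef
    have hzz : z * z = 1 := by
      rw [hzdef, ← map_mul, show (DihedralGroup.r 2 * .r 2 : DihedralGroup 4) = 1 by decide, map_one]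
    obtain ⟨y, hyA, hy⟩ : ∃ y ∈ A, z * y * z⁻¹ ≠ y := by
      by_contra h
      push Not at h
      exact absurd (hdet _ h) (by decide)
    set c := z * y * z⁻¹ * y⁻¹ with hc
    have hcA : c ∈ A := A.mul_mem ((inferInstance : A.Normal).conj_mem y hyA _) (A.inv_mem hyA)
    have hc1 : c ≠ 1 := fun h => hy (mul_inv_eq_one.1 h)
    have hzc : z * c * z⁻¹ = c⁻¹ := by
      calc z * c * z⁻¹ = (z * z) * y * (z * z)⁻¹ * (z * y * z⁻¹)⁻¹ := by rw [hc]; group
        _ = y * (z * y * z⁻¹)⁻¹ := by rw [hzz]; group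
        _ = c⁻¹ := by rw [hc]; group
    -- the elements inverted by `z` form a line
    let I : Subgroup S :=
      { carrier := {w | w ∈ A ∧ z * w * z⁻¹ = w⁻¹}
        mul_mem' := fun {w w'} hw hw' => ⟨A.mul_mem hw.1 hw'.1, by
          rw [show z * (w * w') * z⁻¹ = (z * w * z⁻¹) * (z * w' * z⁻¹) by group, hw.2, hw'.2,
            ← mul_inv_rev, hcomm _ hw'.1 _ hw.1]⟩
        one_mem' := ⟨A.one_mem, by group⟩
        inv_mem' := fun {w} hw => ⟨A.inv_mem hw.1, by
          rw [show z * w⁻¹ * z⁻¹ = (z * w * z⁻¹)⁻¹ by group, hw.2]⟩ }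
    have hI : I = Subgroup.zpowers c := by
      have hd : Nat.card I ∣ 3 ^ 2 := by
        rw [show 3 ^ 2 = 9 by norm_num, ← hA9]; exact Subgroup.card_dvd_of_le fun w hw => hw.1
      obtain ⟨i, hi, hIc⟩ := (Nat.dvd_prime_pow Nat.prime_three).1 hd
      refine (Subgroup.eq_of_le_of_card_ge (Subgroup.zpowers_le.2 (show c ∈ I from ⟨hcA, hzc⟩)) ?_).symm
      rw [Nat.card_zpowers, orderOf_eq_prime (hA.2 c hcA) hc1, hIc]
      interval_cases i
      · norm_num
      · norm_num
      · exfalso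
        have h9 : I = A := Subgroup.eq_of_le_of_card_ge (fun w hw => hw.1) (by rw [hA9, hIc]; norm_num)
        exact hx1 (eq_one_of_sq (hA3 x hxA) ((h9.ge hxA).2.symm.trans hx))
    set q := f (.r 1) with hq
    have hqq : q * q = z := by rw [hq, ← map_mul]; rfl
    have hqc : q * c * q⁻¹ ∈ I := by
      refine ⟨(inferInstance : A.Normal).conj_mem c hcA _, ?_⟩
      calc z * (q * c * q⁻¹) * z⁻¹ = q * (z * c * z⁻¹) * q⁻¹ := by rw [← hqq]; group
        _ = (q * c * q⁻¹)⁻¹ := by rw [hzc]; group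
    rw [hI] at hqc
    obtain ⟨j, hj⟩ := hqc
    simp only at hj
    have hc3 : c ^ (3 : ℤ) = 1 := by exact_mod_cast hA.2 c hcA
    have he : c ^ j = c ^ (j % 3) := by
      conv_lhs => rw [← Int.mul_ediv_add_emod j 3, zpow_add, zpow_mul, hc3, one_zpow, one_mul]
    have hfix : z * c * z⁻¹ = c := by
      rw [← hqq, show q * q * c * (q * q)⁻¹ = q * (q * c * q⁻¹) * q⁻¹ by group]
      rw [he] at hj
      have : j % 3 = 0 ∨ j % 3 = 1 ∨ j % 3 = 2 := by omega
      rcases this with h | h | h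
      · exfalso
        rw [h, zpow_zero] at hj
        apply hc1
        rw [show c = q⁻¹ * (q * c * q⁻¹) * q by group, ← hj]; group
      · rw [h, zpow_one] at hj
        rw [← hj, ← hj]
      · rw [h, zpow_two, ← eq_inv_of_mul_eq_one_left (hA3 c hcA) |>.symm] at hj
        rw [← hj, show q * c⁻¹ * q⁻¹ = (q * c * q⁻¹)⁻¹ by group, ← hj, inv_inv]
    exact hc1 (eq_one_of_sq (hA3 c hcA) (hzc.symm.trans hfix))
  -- `s` has a fixed line
  obtain ⟨l, hlA, hsl, hl1⟩ : ∃ l ∈ A, f (.sr 0) * l * (f (.sr 0))⁻¹ = l ∧ l ≠ 1 := by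
    by_contra h
    push Not at h
    have hinv := hsplit (.sr 0) (by decide) (fun x hx hx' => h x hx hx')
    have := hdet (.r 2 * .sr 0) fun a ha => by
      rw [map_mul, show f (.r 2) * f (.sr 0) * a * (f (.r 2) * f (.sr 0))⁻¹ = f (.r 2) * (f (.sr 0) * a * (f (.sr 0))⁻¹) * (f (.r 2))⁻¹ by group, hinv a ha,
        hz _ (A.inv_mem ha), inv_inv]
    exact absurd this (by decide)
  set a := f (.r 1) * l * (f (.r 1))⁻¹ with ha
  have haA : a ∈ A := (inferInstance : A.Normal).conj_mem l hlA _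
  have hul : f (.sr 2) * l * (f (.sr 2))⁻¹ = l⁻¹ := by
    rw [show (DihedralGroup.sr 2 : DihedralGroup 4) = .r 2 * .sr 0 by decide, map_mul,
      show f (.r 2) * f (.sr 0) * l * (f (.r 2) * f (.sr 0))⁻¹ = f (.r 2) * (f (.sr 0) * l * (f (.sr 0))⁻¹) * (f (.r 2))⁻¹ by group, hsl]
    exact hz l hlA
  have hua : f (.sr 2) * a * (f (.sr 2))⁻¹ = a := by
    calc f (.sr 2) * a * (f (.sr 2))⁻¹ = (f (.sr 2) * f (.r 1)) * l * (f (.sr 2) * f (.r 1))⁻¹ := by rw [ha]; group
      _ = (f (.r 1) * f (.sr 0)) * l * (f (.r 1) * f (.sr 0))⁻¹ := by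
        rw [← map_mul, ← map_mul, show (DihedralGroup.sr 2 * .r 1 : DihedralGroup 4) = .r 1 * .sr 0 by decide]
      _ = f (.r 1) * (f (.sr 0) * l * (f (.sr 0))⁻¹) * (f (.r 1))⁻¹ := by group
      _ = a := by rw [hsl]
  have hsa : f (.sr 0) * a * (f (.sr 0))⁻¹ = a⁻¹ := by
    rw [show (DihedralGroup.sr 0 : DihedralGroup 4) = .r 2 * .sr 2 by decide, map_mul,
      show f (.r 2) * f (.sr 2) * a * (f (.r 2) * f (.sr 2))⁻¹ = f (.r 2) * (f (.sr 2) * a * (f (.sr 2))⁻¹) * (f (.r 2))⁻¹ by group, hua]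
    exact hz a haA
  have hal : a ∉ Subgroup.zpowers l := by
    rintro ⟨i, hi⟩
    simp only at hi
    have h1 : f (.sr 0) * a * (f (.sr 0))⁻¹ = a := by rw [← hi, ← conj_zpow, hsl]
    have ha1 : a = 1 := eq_one_of_sq (hA3 a haA) (hsa.symm.trans h1)
    apply hl1
    rw [show l = (f (.r 1))⁻¹ * a * f (.r 1) by rw [ha]; group, ha1]; group
  refine ⟨l, a, hlA, haA, hcomm l hlA a haA, hA3 l hlA, hA3 a haA, hl1, hal, ?_, hsl, hsa, hul, hua, rfl, ?_⟩
  · intro b hb
    have hle : Subgroup.closure {l, a} ≤ A :=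
      (Subgroup.closure_le _).2 (by rintro x (rfl | rfl); exacts [hlA, haA])
    have hd : Nat.card (Subgroup.closure {l, a}) ∣ 3 ^ 2 := by
      rw [show 3 ^ 2 = 9 by norm_num, ← hA9]; exact Subgroup.card_dvd_of_le hle
    obtain ⟨i, hi, hcard⟩ := (Nat.dvd_prime_pow Nat.prime_three).1 hd
    have hi2 : i = 2 := by
      by_contra hne
      have hzl : Subgroup.zpowers l = Subgroup.closure {l, a} := by
        refine Subgroup.eq_of_le_of_card_ge (Subgroup.zpowers_le.2 (Subgroup.subset_closure (by simp))) ?_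
        rw [Nat.card_zpowers, orderOf_eq_prime (hA.2 l hlA) hl1, hcard]
        interval_cases i <;> norm_num at *
      exact hal (hzl ▸ Subgroup.subset_closure (by simp))
    rw [hi2] at hcard
    exact (Subgroup.eq_of_le_of_card_ge hle (by rw [hA9, hcard]; norm_num)).ge hb
  · calc f (.r 1) * a * (f (.r 1))⁻¹ = (f (.r 1) * f (.r 1)) * l * (f (.r 1) * f (.r 1))⁻¹ := by rw [ha]; group
      _ = l⁻¹ := by rw [← map_mul]; exact hz l hlA

/-- The core, when the line fixed by `sr 0` has a fixed vector. -/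
theorem core [Finite S] (A X : Subgroup S) (f : DihedralGroup 4 →* S) (hf : Function.Injective f)
    (hfX : f.range = X) (hAX : A ⊔ X = ⊤) {l a : S} (F : Frame A f l a)
    (ρ : Representation (ZMod 2) S M)
    (hirr : ∀ N : Submodule (ZMod 2) M, (∀ s : S, ∀ m ∈ N, ρ s m ∈ N) → N = ⊥ ∨ N = ⊤)
    (hfixA : ∀ m : M, ρ l m = m → ρ a m = m → m = 0) (m₀ : M) (hm₀ : m₀ ≠ 0) (hm₀' : ρ l m₀ = m₀) :
    Nat.card M = 16 ∧
      ∃! B : Subgroup S, B ≤ X ∧ Nat.card ↥B = 4 ∧ (∀ b ∈ B, b ^ 2 = 1) ∧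
        Nat.card {m : M // ∀ b ∈ B, ρ b m = m} = 2 := by
  classical
  set r := f (.r 1) with hr
  set s := f (.sr 0) with hs
  set u := f (.sr 2) with hu
  have move : ∀ (g x y : S), g * x * g⁻¹ = y → ∀ m, ρ y (ρ g m) = ρ g (ρ x m) := fun g x y h m => by
    rw [← rep_mul, ← rep_mul, ← h, inv_mul_cancel_right]
  have moveD : ∀ (g x y : DihedralGroup 4), g * x = y * g → ∀ m, ρ (f g) (ρ (f x) m) = ρ (f y) (ρ (f g) m) :=
    fun g x y h m => by rw [← rep_mul, ← rep_mul, ← map_mul, ← map_mul, h]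
  have invl : ∀ m, ρ l m = m → ρ l⁻¹ m = m := fun m h => by
    nth_rw 1 [← h]; rw [← rep_mul, inv_mul_cancel, rep_one]
  -- elementary relations
  have lu : ∀ m, ρ l m = m → ρ l (ρ u m) = ρ u m := fun m h => by
    rw [move u l⁻¹ l (by rw [show u * l⁻¹ * u⁻¹ = (u * l * u⁻¹)⁻¹ by group, F.ul, inv_inv]) m, invl m h]
  have uu : ∀ m, ρ u (ρ u m) = m := fun m => by
    rw [← rep_mul, hu, ← map_mul, show (DihedralGroup.sr 2 * .sr 2 : DihedralGroup 4) = 1 by decide, map_one, rep_one]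
  -- vectors fixed by `l` and `u`
  let W : Submodule (ZMod 2) M :=
    { carrier := {m | ρ l m = m ∧ ρ u m = m}
      add_mem' := fun hx hy => ⟨by rw [map_add, hx.1, hy.1], by rw [map_add, hx.2, hy.2]⟩
      zero_mem' := ⟨map_zero _, map_zero _⟩
      smul_mem' := fun c x hx => ⟨by rw [map_smul, hx.1], by rw [map_smul, hx.2]⟩ }
  have hWa : ∀ m ∈ W, ρ a m ∈ W := fun m hm =>
    ⟨by rw [← rep_mul, F.comm, rep_mul, hm.1], by rw [← move u a a F.ua m, hm.2]⟩
  have hWs : ∀ m ∈ W, ρ s m ∈ W := fun m hm =>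
    ⟨by rw [move s l l F.sl m, hm.1], by
      rw [hu, hs, moveD (.sr 2) (.sr 0) (.sr 0) (by decide) m]; exact congrArg (ρ (f (.sr 0))) hm.2⟩
  have hzW : ∀ m ∈ W, ρ r (ρ r m) = ρ s m := fun m hm => by
    rw [← rep_mul, hr, ← map_mul, show (DihedralGroup.r 1 * .r 1 : DihedralGroup 4) = .sr 0 * .sr 2 by decide,
      map_mul, rep_mul, ← hu, hm.2]
  have hlr : ∀ m, ρ l (ρ r m) = ρ r (ρ a⁻¹ m) := fun m =>
    move r a⁻¹ l (by rw [show r * a⁻¹ * r⁻¹ = (r * a * r⁻¹)⁻¹ by group, F.ra, inv_inv]) m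
  have har : ∀ m, ρ a (ρ r m) = ρ r (ρ l m) := fun m => move r l a F.rl m
  have hsr : ∀ m, ρ s (ρ r m) = ρ r (ρ u m) := fun m =>
    (moveD (.r 1) (.sr 2) (.sr 0) (by decide) m).symm
  have hur : ∀ m, ρ u (ρ r m) = ρ r (ρ s m) := fun m =>
    (moveD (.r 1) (.sr 0) (.sr 2) (by decide) m).symm
  have inva : a⁻¹ = a * a := inv_eq_of_mul_eq_one_right (by rw [← mul_assoc, F.a3])
  -- invariant subspaces of `W`
  have hdec : ∀ P : Submodule (ZMod 2) M, P ≤ W → P ≠ ⊥ → (∀ m ∈ P, ρ a m ∈ P) → (∀ m ∈ P, ρ s m ∈ P) →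
      ∀ m : M, ∃ x ∈ P, ∃ y ∈ P, x + ρ r y = m := by
    intro P hPW hP hPa hPs
    have hN : P ⊔ P.map (ρ r) = ⊤ := by
      refine (hirr _ ?_).resolve_left fun h => hP (le_bot_iff.1 (h ▸ le_sup_left))
      let T : Submonoid S :=
        { carrier := {g | ∀ m ∈ P ⊔ P.map (ρ r), ρ g m ∈ P ⊔ P.map (ρ r)}
          mul_mem' := fun {g h} hg hh m hm => by rw [rep_mul]; exact hg _ (hh m hm)
          one_mem' := fun m hm => by rw [rep_one]; exact hm }
      have hinv : ∀ g ∈ T, g⁻¹ ∈ T := fun g hg => by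
        have : g⁻¹ = g ^ (orderOf g - 1) := by
          apply inv_eq_of_mul_eq_one_right
          rw [← pow_succ', Nat.sub_add_cancel (orderOf_pos g), pow_orderOf_eq_one]
        rw [this]; exact pow_mem hg _
      let T' : Subgroup S := { T with inv_mem' := fun {g} hg => hinv g hg }
      have split : ∀ g : S, (∀ m ∈ P, ρ g m ∈ P ⊔ P.map (ρ r)) → (∀ m ∈ P, ρ g (ρ r m) ∈ P ⊔ P.map (ρ r)) → g ∈ T' := by
        intro g h1 h2 m hm
        obtain ⟨x, hx, _, ⟨y, hy, rfl⟩, rfl⟩ := Submodule.mem_sup.1 hm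
        rw [map_add]
        exact add_mem (h1 x hx) (h2 y hy)
      have hL : l ∈ T' := split l (fun m hm => by rw [(hPW hm).1]; exact Submodule.mem_sup_left hm)
        fun m hm => by
          rw [hlr, inva, rep_mul]
          exact Submodule.mem_sup_right ⟨_, hPa _ (hPa m hm), rfl⟩
      have hA' : a ∈ T' := split a (fun m hm => Submodule.mem_sup_left (hPa m hm))
        fun m hm => by rw [har, (hPW hm).1]; exact Submodule.mem_sup_right ⟨m, hm, rfl⟩
      have hS' : s ∈ T' := split s (fun m hm => Submodule.mem_sup_left (hPs m hm))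
        fun m hm => by rw [hsr, (hPW hm).2]; exact Submodule.mem_sup_right ⟨m, hm, rfl⟩
      have hR' : r ∈ T' := split r (fun m hm => Submodule.mem_sup_right ⟨m, hm, rfl⟩)
        fun m hm => by rw [hzW m (hPW hm)]; exact Submodule.mem_sup_left (hPs m hm)
      have hX' : X ≤ T' := by
        rw [← hfX]
        rintro _ ⟨g, rfl⟩
        cases g with
        | r i =>
          obtain ⟨n, rfl⟩ := ZMod.natCast_zmod_surjective i
          rw [← DihedralGroup.r_one_pow, map_pow]; exact pow_mem hR' n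
        | sr i =>
          obtain ⟨n, rfl⟩ := ZMod.natCast_zmod_surjective i
          rw [show (DihedralGroup.sr (n : ZMod 4)) = .sr 0 * .r (n : ZMod 4) by simp, map_mul,
            ← DihedralGroup.r_one_pow, map_pow]
          exact mul_mem hS' (pow_mem hR' n)
      have hA'' : A ≤ T' := fun b hb =>
        (Subgroup.closure_le T').2 (by rintro x (rfl | rfl); exacts [hL, hA']) (F.gen b hb)
      exact fun g => (sup_le hA'' hX') (hAX.ge (Subgroup.mem_top g))
    intro m
    obtain ⟨x, hx, _, ⟨y, hy, rfl⟩, rfl⟩ := Submodule.mem_sup.1 (hN.ge (Submodule.mem_top (x := m)))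
    exact ⟨x, hx, y, hy, rfl⟩
  -- uniqueness of the decomposition
  have huniq : ∀ x y x' y', x ∈ W → y ∈ W → x' ∈ W → y' ∈ W → x + ρ r y = x' + ρ r y' → x = x' ∧ y = y' := by
    intro x y x' y' hx hy hx' hy' h
    have e : x - x' = ρ r (y' - y) := by rw [map_sub, sub_eq_sub_iff_add_eq_add, h]; abel
    have h0 : x - x' = 0 := hfixA _ (W.sub_mem hx hx').1 (by rw [e, har, (W.sub_mem hy' hy).1])
    refine ⟨sub_eq_zero.1 h0, ?_⟩
    rw [h0] at e
    have := congrArg (ρ r⁻¹) e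
    rw [map_zero, ← rep_mul, inv_mul_cancel, rep_one] at this
    exact (sub_eq_zero.1 this.symm).symm
  -- `W` is not zero
  have hW0 : ∃ w ∈ W, w ≠ 0 := by
    by_cases h : ρ u m₀ = m₀
    · exact ⟨m₀, ⟨hm₀', h⟩, hm₀⟩
    · refine ⟨m₀ + ρ u m₀, ⟨by rw [map_add, lu _ hm₀', hm₀'], by rw [map_add, uu, add_comm]⟩, fun h0 => h ?_⟩
      calc ρ u m₀ = m₀ + m₀ + ρ u m₀ := by rw [madd, zero_add]
        _ = m₀ := by rw [add_assoc, h0, add_zero]
  obtain ⟨w, hw, hw0⟩ := hW0
  -- a vector also fixed by `s`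
  obtain ⟨v, hvW, hsv, hv0⟩ : ∃ v ∈ W, ρ s v = v ∧ v ≠ 0 := by
    by_cases h : ρ s w = w
    · exact ⟨w, hw, h, hw0⟩
    · refine ⟨w + ρ s w, W.add_mem hw (hWs w hw), ?_, fun h0 => h ?_⟩
      · rw [map_add, ← rep_mul, hs, ← map_mul, show (DihedralGroup.sr 0 * .sr 0 : DihedralGroup 4) = 1 by decide,
          map_one, rep_one, add_comm]
      · calc ρ s w = w + w + ρ s w := by rw [madd, zero_add]
          _ = w := by rw [add_assoc, h0, add_zero]
  set v' := ρ a v with hv'
  have hav' : ρ a v' = v + v' := by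
    have h0 : v + ρ a v + ρ a (ρ a v) = 0 := by
      have hx : ρ a v ∈ W := hWa v hvW
      have hy : ρ a (ρ a v) ∈ W := hWa _ hx
      apply hfixA
      · simp only [map_add, hvW.1, hx.1, hy.1]
      · have h3 : ρ a (ρ a (ρ a v)) = v := by rw [← rep_mul, ← rep_mul, F.a3, rep_one]
        simp only [map_add, h3]; abel
    calc ρ a v' = (v + ρ a v + ρ a (ρ a v)) + (v + ρ a v) := by
          rw [hv', show v + ρ a v + ρ a (ρ a v) + (v + ρ a v) = (v + v) + (ρ a v + ρ a v) + ρ a (ρ a v) by abel,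
            madd, madd, zero_add, zero_add]
      _ = v + v' := by rw [h0, zero_add]
  have hsv' : ρ s v' = v + v' := by
    rw [hv', ← move s a a⁻¹ F.sa v, hsv, inva, rep_mul, ← hv', hav']
  let P : Submodule (ZMod 2) M := Submodule.span (ZMod 2) {v, v'}
  have hPW : P ≤ W := Submodule.span_le.2 (by rintro x (rfl | rfl); exacts [hvW, hWa v hvW])
  have hvP : v ∈ P := Submodule.subset_span (by simp)
  have hv'P : v' ∈ P := Submodule.subset_span (by simp)
  have hstab : ∀ g : S, ρ g v ∈ P → ρ g v' ∈ P → ∀ m ∈ P, ρ g m ∈ P := fun g h1 h2 m hm =>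
    (Submodule.span_le (p := P.comap (ρ g))).2 (by rintro x (rfl | rfl); exacts [h1, h2]) hm
  have hPdec := hdec P hPW (fun h => hv0 ((Submodule.mem_bot (ZMod 2)).1 (h ▸ hvP)))
    (hstab a hv'P (hav' ▸ P.add_mem hvP hv'P)) (hstab s (hsv.symm ▸ hvP) (hsv' ▸ P.add_mem hvP hv'P))
  have hWcases : ∀ x ∈ W, x = 0 ∨ x = v ∨ x = v' ∨ x = v + v' := by
    intro x hx
    obtain ⟨p, hp, q, hq, hpq⟩ := hPdec x
    obtain ⟨rfl, -⟩ := huniq p q x 0 (hPW hp) (hPW hq) hx W.zero_mem (by rw [hpq, map_zero, add_zero])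
    obtain ⟨c, d, rfl⟩ := Submodule.mem_span_pair.1 hp
    rcases (by decide : ∀ t : ZMod 2, t = 0 ∨ t = 1) c with rfl | rfl <;>
      rcases (by decide : ∀ t : ZMod 2, t = 0 ∨ t = 1) d with rfl | rfl <;> simp
  have hv'0 : v' ≠ 0 := fun h => hv0 (by
    have := congrArg (ρ a⁻¹) h
    rwa [map_zero, hv', ← rep_mul, inv_mul_cancel, rep_one] at this)
  have hvv' : v ≠ v' := fun h => hv0 (hfixA v hvW.1 (by rw [← hv', ← h]))
  have hvsum : v + v' ≠ 0 := fun h => hvv' (by
    calc v = v + (v' + v') := by rw [madd, add_zero]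
      _ = v' := by rw [← add_assoc, h, zero_add])
  have hW4 : Nat.card W = 4 := by
    have hset : (W : Set M) = {0, v, v', v + v'} := by
      ext x
      simp only [SetLike.mem_coe, Set.mem_insert_iff, Set.mem_singleton_iff]
      refine ⟨hWcases x, ?_⟩
      rintro (rfl | rfl | rfl | rfl)
      exacts [W.zero_mem, hvW, hWa v hvW, W.add_mem hvW (hWa v hvW)]
    show Nat.card (W : Set M) = 4
    rw [hset, Nat.card_coe_set_eq, Set.ncard_insert_of_notMem, Set.ncard_insert_of_notMem, Set.ncard_pair]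
    · exact fun h => hv0 (add_eq_right.1 h.symm)
    · simp [hvv', hv'0]
    · simp [hv0.symm, hv'0.symm, hvsum.symm]
  have hall : ∀ m : M, ∃ x ∈ W, ∃ y ∈ W, x + ρ r y = m := fun m => by
    obtain ⟨x, hx, y, hy, h⟩ := hPdec m
    exact ⟨x, hPW hx, y, hPW hy, h⟩
  have hbij : Function.Bijective (fun p : W × W => (p.1 : M) + ρ r p.2) := by
    refine ⟨fun p q h => ?_, fun m => ?_⟩
    · obtain ⟨h1, h2⟩ := huniq _ _ _ _ p.1.2 p.2.2 q.1.2 q.2.2 h
      exact Prod.ext (Subtype.ext h1) (Subtype.ext h2)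
    · obtain ⟨x, hx, y, hy, h⟩ := hall m
      exact ⟨(⟨x, hx⟩, ⟨y, hy⟩), h⟩
  refine ⟨by rw [← Nat.card_congr (Equiv.ofBijective _ hbij), Nat.card_prod, hW4], ?_⟩
  have hsfix : ∀ x ∈ W, ρ s x = x → x = 0 ∨ x = v := by
    intro x hx h
    rcases hWcases x hx with rfl | rfl | rfl | rfl
    · exact Or.inl rfl
    · exact Or.inr rfl
    · exfalso
      rw [hsv'] at h
      exact hv0 (add_eq_right.1 h)
    · exfalso
      rw [map_add, hsv, hsv', ← add_assoc, madd, zero_add] at h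
      exact hv0 (add_eq_right.1 h.symm)
  -- fixed points of the two fours
  let fixedBy : Subgroup S → Set M := fun B => {m | ∀ b ∈ B, ρ b m = m}
  let T1 : Subgroup (DihedralGroup 4) := Subgroup.closure {.sr 0, .sr 2}
  let T2 : Subgroup (DihedralGroup 4) := Subgroup.closure {.sr 1, .r 2}
  have hFix : ∀ (g h : DihedralGroup 4) (m : M), ρ (f g) m = m → ρ (f h) m = m →
      ∀ b ∈ (Subgroup.closure {g, h}).map f, ρ b m = m := by
    rintro g h m h1 h2 _ ⟨x, hx, rfl⟩
    induction hx using Subgroup.closure_induction with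
    | mem x hx => rcases hx with rfl | rfl <;> assumption
    | one => rw [map_one, rep_one]
    | mul x y _ _ hx hy => rw [map_mul, rep_mul, hy, hx]
    | inv x _ hx =>
      rw [map_inv]
      nth_rw 1 [← hx]
      rw [← rep_mul, inv_mul_cancel, rep_one]
  have hT2mem : ∀ g : DihedralGroup 4, g ∈ T2 ↔ g ∈ ({1, .r 2, .sr 1, .sr 3} : Finset (DihedralGroup 4)) := by
    intro g
    constructor
    · intro hg
      let Q : Subgroup (DihedralGroup 4) :=
        { carrier := {g | g ∈ ({1, .r 2, .sr 1, .sr 3} : Finset (DihedralGroup 4))}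
          mul_mem' := fun {x y} hx hy => by
            revert x y; decide +kernel
          one_mem' := by decide
          inv_mem' := fun {x} hx => by revert x; decide +kernel }
      exact (Subgroup.closure_le Q).2 (by rintro x (rfl | rfl) <;> (show _ ∈ (({1, .r 2, .sr 1, .sr 3} : Finset (DihedralGroup 4)))) <;> decide) hg
    · intro hg
      have h1 : DihedralGroup.sr 1 ∈ T2 := Subgroup.subset_closure (by simp)
      have h2 : DihedralGroup.r 2 ∈ T2 := Subgroup.subset_closure (by simp)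
      simp only [Finset.mem_insert, Finset.mem_singleton] at hg
      rcases hg with rfl | rfl | rfl | rfl
      · exact one_mem _
      · exact h2
      · exact h1
      · exact mul_mem h1 h2
  have hT2card : Nat.card T2 = 4 := by
    rw [← SetLike.coe_sort_coe, show (T2 : Set (DihedralGroup 4)) = ↑({1, .r 2, .sr 1, .sr 3} : Finset (DihedralGroup 4)) from
      Set.ext fun g => by rw [SetLike.mem_coe, hT2mem, Finset.mem_coe], Nat.card_coe_set_eq, Set.ncard_coe_finset]
    decide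
  have hz : ∀ x ∈ W, ∀ y ∈ W, ρ (f (.r 2)) (x + ρ r y) = ρ s x + ρ r (ρ s y) := by
    intro x hx y hy
    rw [show (DihedralGroup.r 2 : DihedralGroup 4) = .sr 0 * .sr 2 by decide, map_mul, rep_mul, ← hs, ← hu,
      map_add, map_add, hx.2, hur, hsr, (hWs y hy).2]
  have ht : ∀ x ∈ W, ∀ y ∈ W, ρ (f (.sr 1)) (x + ρ r y) = y + ρ r x := by
    intro x hx y hy
    rw [show (DihedralGroup.sr 1 : DihedralGroup 4) = .sr 0 * .r 1 by decide, map_mul, rep_mul, ← hs, ← hr,
      map_add, map_add, hsr, hx.2, hzW y hy, ← rep_mul, hs, ← map_mul,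
      show (DihedralGroup.sr 0 * .sr 0 : DihedralGroup 4) = 1 by decide, map_one, rep_one, add_comm]
  refine ⟨T2.map f, ⟨hfX ▸ Subgroup.map_le_range f T2, ?_, ?_, ?_⟩, ?_⟩
  · rw [Subgroup.card_map_of_injective hf, hT2card]
  · rintro _ ⟨g, hg, rfl⟩
    rw [SetLike.mem_coe, hT2mem] at hg
    rw [← map_pow, show g ^ 2 = 1 by revert g; decide +kernel, map_one]
  · have hset : fixedBy (T2.map f) = {0, v + ρ r v} := by
      ext m
      simp only [fixedBy, Set.mem_setOf_eq, Set.mem_insert_iff, Set.mem_singleton_iff]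
      constructor
      · intro hm
        obtain ⟨x, hx, y, hy, rfl⟩ := hall m
        have h1 := hm _ ⟨_, (hT2mem _).2 (by decide : DihedralGroup.sr 1 ∈ _), rfl⟩
        have h2 := hm _ ⟨_, (hT2mem _).2 (by decide : DihedralGroup.r 2 ∈ _), rfl⟩
        rw [ht x hx y hy] at h1
        rw [hz x hx y hy] at h2
        obtain ⟨rfl, -⟩ := huniq y x x y hy hx hx hy h1
        obtain ⟨h3, -⟩ := huniq _ _ _ _ (hWs y hy) (hWs y hy) hy hy h2
        rcases hsfix y hy h3 with rfl | rfl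
        · left; rw [map_zero, add_zero]
        · exact Or.inr rfl
      · rintro (rfl | rfl)
        · exact fun b _ => map_zero _
        · exact hFix _ _ _ (ht v hvW v hvW) (by rw [hz v hvW v hvW, hsv])
    show Nat.card (fixedBy (T2.map f)) = 2
    rw [hset, Nat.card_coe_set_eq, Set.ncard_pair]
    intro h
    exact hv0 (huniq v v 0 0 hvW hvW W.zero_mem W.zero_mem (by rw [← h, map_zero, add_zero])).1
  · rintro B ⟨hBX, hB4, hB2, hBfix⟩
    set B' := B.comap f
    have hBmap : B'.map f = B := Subgroup.map_comap_eq_self (hfX ▸ hBX)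
    set Fs := Finset.univ.filter fun g => g ∈ B' with hFs
    have hmemFs : ∀ g, g ∈ Fs ↔ g ∈ B' := fun g => by simp [hFs]
    have hFs4 : Fs.card = 4 := by
      have h1 : Nat.card B' = 4 := by rw [← Subgroup.card_map_of_injective (K := B') hf, hBmap, hB4]
      rw [Nat.card_eq_fintype_card, Fintype.card_subtype] at h1
      exact h1
    rcases fours_finset Fs hFs4 (fun x hx => hf (by
        rw [map_mul, map_one, ← pow_two]; exact hB2 _ ((hmemFs x).1 hx)))
      (fun x hx y hy => (hmemFs _).2 (B'.mul_mem ((hmemFs x).1 hx) ((hmemFs y).1 hy))) with h | h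
    · exfalso
      have hB1 : B = T1.map f := by
        rw [← hBmap]
        congr 1
        apply le_antisymm
        · intro g hg
          have hg' := (hmemFs g).2 hg
          rw [h] at hg'
          have h1 : DihedralGroup.sr 0 ∈ T1 := Subgroup.subset_closure (by simp)
          have h2 : DihedralGroup.sr 2 ∈ T1 := Subgroup.subset_closure (by simp)
          simp only [Finset.mem_insert, Finset.mem_singleton] at hg'
          rcases hg' with rfl | rfl | rfl | rfl
          · exact one_mem _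
          · exact mul_mem h1 h2
          · exact h1
          · exact h2
        · refine (Subgroup.closure_le _).2 ?_
          rintro x (rfl | rfl) <;> refine (hmemFs _).1 ?_ <;> rw [h] <;> decide
      have hs1 : ∀ x ∈ W, ∀ y ∈ W, ρ s x = x → ρ s y = y → ∀ b ∈ B, ρ b (x + ρ r y) = x + ρ r y := by
        intro x hx y hy h1 h2
        rw [hB1]
        exact hFix _ _ _ (by rw [← hs, map_add, hsr, h1, hy.2])
          (by rw [← hu, map_add, hur, hx.2, h2])
      have hsub : ({0, v, ρ r v} : Set M) ⊆ fixedBy B := by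
        intro x hx
        simp only [Set.mem_insert_iff, Set.mem_singleton_iff] at hx
        show ∀ b ∈ B, ρ b x = x
        rcases hx with h | h | h <;> rw [h]
        · exact fun b _ => map_zero _
        · simpa using hs1 v hvW 0 W.zero_mem hsv (map_zero _)
        · simpa using hs1 0 W.zero_mem v hvW (map_zero _) hsv
      have h3 : ({0, v, ρ r v} : Set M).ncard = 3 := by
        have hrv : ρ r v ≠ 0 := fun h => hv0 (huniq 0 v 0 0 W.zero_mem hvW W.zero_mem W.zero_mem
          (by rw [zero_add, zero_add, h, map_zero])).2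
        have hvrv : v ≠ ρ r v := fun h => hv0 (huniq v 0 0 v hvW W.zero_mem W.zero_mem hvW
          (by rw [zero_add, map_zero, add_zero]; exact h)).1
        rw [Set.ncard_insert_of_notMem, Set.ncard_pair hvrv]
        simp [hv0.symm, hrv.symm]
      haveI : Finite W := Nat.finite_of_card_ne_zero (by rw [hW4]; norm_num)
      haveI : Finite M := Finite.of_equiv (W × W) (Equiv.ofBijective _ hbij)
      have := Set.ncard_le_ncard hsub (Set.toFinite _)
      have hb2 : (fixedBy B).ncard = 2 := by rw [← Nat.card_coe_set_eq]; exact hBfix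
      omega
    · rw [← hBmap]
      congr 1
      ext g
      rw [hT2mem, ← h, hmemFs]

/-- The general statement. -/
theorem main [Finite S] (A : Subgroup S) [A.Normal] (hA : Cfsg.IsElementaryAbelian 3 A) (hA9 : Nat.card ↥A = 9)
    (hAC : Subgroup.centralizer (A : Set S) = A) (X : Subgroup S) (e : ↥X ≃* DihedralGroup 4)
    (hAX : A ⊔ X = ⊤) (ρ : Representation (ZMod 2) S M) (hfaith : Function.Injective ρ)
    (hirr : ∀ N : Submodule (ZMod 2) M, (∀ s : S, ∀ m ∈ N, ρ s m ∈ N) → N = ⊥ ∨ N = ⊤) :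
    Nat.card M = 16 ∧
      ∃! B : Subgroup S, B ≤ X ∧ Nat.card ↥B = 4 ∧ (∀ b ∈ B, b ^ 2 = 1) ∧
        Nat.card {m : M // ∀ b ∈ B, ρ b m = m} = 2 := by
  classical
  let shift : ZMod 4 → (DihedralGroup 4 →* DihedralGroup 4) := fun i =>
    MonoidHom.mk' (fun g => match g with | .r j => .r j | .sr j => .sr (j + i)) (by
      rintro (x | x) (y | y) <;> simp <;> abel)
  have hshift : ∀ i, Function.Bijective (shift i) := fun i =>
    Finite.injective_iff_bijective.1 fun g h hgh => by cases g <;> cases h <;> simp_all [shift]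
  let fi : ZMod 4 → (DihedralGroup 4 →* S) := fun i => X.subtype.comp (e.symm.toMonoidHom.comp (shift i))
  have hfi : ∀ i, Function.Injective (fi i) := fun i =>
    X.subtype_injective.comp (e.symm.injective.comp (hshift i).1)
  have hfX : ∀ i, (fi i).range = X := fun i => by
    refine le_antisymm (fun _ ⟨g, hg⟩ => hg ▸ Subtype.property _) fun x hx => ?_
    obtain ⟨g, hg⟩ := (hshift i).2 (e ⟨x, hx⟩)
    exact ⟨g, by simp [fi, hg]⟩
  have hfixA : ∀ {f : DihedralGroup 4 →* S} {l a : S}, Frame A f l a → ∀ m : M, ρ l m = m → ρ a m = m → m = 0 := by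
    intro f l a F m h1 h2
    let N : Submodule (ZMod 2) M :=
      { carrier := {m | ∀ a ∈ A, ρ a m = m}
        add_mem' := fun hx hy a ha => by rw [map_add, hx a ha, hy a ha]
        zero_mem' := fun a _ => map_zero _
        smul_mem' := fun c x hx a ha => by rw [map_smul, hx a ha] }
    have hmN : m ∈ N := by
      intro b hb
      have hb' := F.gen b hb
      clear hb
      induction hb' using Subgroup.closure_induction with
      | mem x hx => rcases hx with rfl | rfl <;> assumption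
      | one => exact rep_one ρ m
      | mul x y _ _ hx hy => rw [rep_mul, hy, hx]
      | inv x _ hx => nth_rw 1 [← hx]; rw [← rep_mul, inv_mul_cancel, rep_one]
    rcases hirr N (fun g x hx a ha => by
      have h1 := hx (g⁻¹ * a * g) (by simpa using (inferInstance : A.Normal).conj_mem a ha g⁻¹)
      rw [← rep_mul, show a * g = g * (g⁻¹ * a * g) by group, rep_mul, h1]) with h | h
    · exact (Submodule.mem_bot (ZMod 2)).1 (h ▸ hmN)
    · exfalso
      refine F.l1 (hfaith (LinearMap.ext fun x => ?_))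
      rw [rep_one]
      exact (show x ∈ N by rw [h]; trivial) l F.lA
  have fr := fun i => exists_frame A hA hA9 hAC (fi i) (hfi i)
  choose l a F using fr
  by_cases hex : ∃ i, ∃ m : M, m ≠ 0 ∧ ρ (l i) m = m
  · obtain ⟨i, m, hm, hm'⟩ := hex
    exact core A X (fi i) (hfi i) (hfX i) hAX (F i) ρ hirr (hfixA (F i)) m hm hm'
  exfalso
  push Not at hex
  -- every element of `A` lies on the line of one of the four reflections
  haveI := Fact.mk Nat.prime_three
  have hline : ∀ i, ∀ x ∈ A, fi i (.sr 0) * x * (fi i (.sr 0))⁻¹ = x → x ∈ Subgroup.zpowers (l i) := by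
    intro i x hx h
    have hxc := (F i).gen x hx
    obtain ⟨p, q, rfl⟩ : ∃ p q : ℤ, x = l i ^ p * a i ^ q := by
      clear h hx
      induction hxc using Subgroup.closure_induction with
      | mem x hx =>
        rcases hx with rfl | rfl
        · exact ⟨1, 0, by simp⟩
        · exact ⟨0, 1, by simp⟩
      | one => exact ⟨0, 0, by simp⟩
      | mul x y _ _ hx hy =>
        obtain ⟨p, q, rfl⟩ := hx
        obtain ⟨p', q', rfl⟩ := hy
        refine ⟨p + p', q + q', ?_⟩
        have hc : Commute (a i ^ q) (l i ^ p') := (Commute.zpow_zpow (F i).comm.symm q p')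
        rw [zpow_add, zpow_add, mul_assoc (l i ^ p), ← mul_assoc (a i ^ q), hc.eq]
        group
      | inv x _ hx =>
        obtain ⟨p, q, rfl⟩ := hx
        exact ⟨-p, -q, by rw [mul_inv_rev, ← zpow_neg, ← zpow_neg]; exact (Commute.zpow_zpow (F i).comm.symm _ _).eq⟩
    rw [show fi i (.sr 0) * (l i ^ p * a i ^ q) * (fi i (.sr 0))⁻¹ =
      (fi i (.sr 0) * l i * (fi i (.sr 0))⁻¹) ^ p * (fi i (.sr 0) * a i * (fi i (.sr 0))⁻¹) ^ q by
        rw [conj_zpow, conj_zpow]; group, (F i).sl, (F i).sa, mul_right_inj] at h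
    have h1 : a i ^ q = 1 := by
      refine eq_one_of_sq ?_ (by rw [← inv_zpow]; exact h)
      rw [← zpow_add, ← zpow_add, show q + q + q = 3 * q by ring, zpow_mul,
        show a i ^ (3 : ℤ) = 1 by rw [← hA.2 _ (F i).aA]; norm_cast, one_zpow]
    rw [h1, mul_one]
    exact Subgroup.zpow_mem _ (Subgroup.mem_zpowers _) p
  have hfpf : ∀ b ∈ A, b ≠ 1 → (∃ i, fi i (.sr 0) * b * (fi i (.sr 0))⁻¹ = b) → ∀ m : M, m + ρ b m + ρ b (ρ b m) = 0 := by
    intro b hb hb1 ⟨i, hi⟩ m
    obtain ⟨k, hk⟩ := hline i b hb hi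
    simp only at hk
    have hlb : l i ∈ Subgroup.zpowers b := by
      have hle : Subgroup.zpowers b ≤ Subgroup.zpowers (l i) := Subgroup.zpowers_le.2 ⟨k, hk⟩
      rw [Subgroup.eq_of_le_of_card_ge hle (by
        rw [Nat.card_zpowers, Nat.card_zpowers, orderOf_eq_prime (hA.2 b hb) hb1,
          orderOf_eq_prime (hA.2 _ (F i).lA) (F i).l1])]
      exact Subgroup.mem_zpowers _
    by_contra hne
    refine hex i _ hne ?_
    have h3 : ρ b (ρ b (ρ b m)) = m := by
      rw [← rep_mul, ← rep_mul, ← pow_three', hA.2 b hb, rep_one]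
    have hfix : ρ b (m + ρ b m + ρ b (ρ b m)) = m + ρ b m + ρ b (ρ b m) := by
      simp only [map_add, h3]; abel
    obtain ⟨j, hj⟩ := hlb
    simp only at hj
    rw [← hj]
    generalize m + ρ b m + ρ b (ρ b m) = w at hfix
    clear hj
    induction j using Int.induction_on with
    | zero => rw [zpow_zero, rep_one]
    | succ j ih => rw [zpow_add_one, rep_mul, hfix, ih]
    | pred j ih =>
      rw [zpow_sub_one, rep_mul]
      have : ρ b⁻¹ w = w := by nth_rw 1 [← hfix]; rw [← rep_mul, inv_mul_cancel, rep_one]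
      rw [this, ih]
  -- the three elements `l`, `a`, `a * l`
  set L := l 0
  set Aa := a 0
  have F0 := F 0
  have e0 : ∀ g, fi 0 g = X.subtype (e.symm g) := fun g => by
    cases g <;> simp [fi, shift]
  have ei : ∀ i, fi i (.sr 0) = fi 0 (.sr i) := fun i => by simp [fi, shift]
  have f1 : ∀ m : M, m + ρ L m + ρ L (ρ L m) = 0 := hfpf L F0.lA F0.l1 ⟨0, F0.sl⟩
  have haa1 : Aa ≠ 1 := fun h => F0.la (by rw [show a 0 = 1 from h]; exact one_mem _)
  have f2 : ∀ m : M, m + ρ Aa m + ρ Aa (ρ Aa m) = 0 := hfpf Aa F0.aA haa1 ⟨2, by rw [ei]; exact F0.ua⟩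
  have hal1 : Aa * L ≠ 1 := fun h => F0.la (by
    rw [show a 0 = (l 0)⁻¹ from eq_inv_of_mul_eq_one_left h]; exact inv_mem (Subgroup.mem_zpowers _))
  have f3 : ∀ m : M, m + ρ (Aa * L) m + ρ (Aa * L) (ρ (Aa * L) m) = 0 := hfpf _ (A.mul_mem F0.aA F0.lA) hal1 ⟨3, by
    rw [ei, show (DihedralGroup.sr 3 : DihedralGroup 4) = .sr 2 * .r 1 by decide, map_mul]
    calc fi 0 (.sr 2) * fi 0 (.r 1) * (Aa * L) * (fi 0 (.sr 2) * fi 0 (.r 1))⁻¹
        = fi 0 (.sr 2) * ((fi 0 (.r 1) * Aa * (fi 0 (.r 1))⁻¹) * (fi 0 (.r 1) * L * (fi 0 (.r 1))⁻¹)) * (fi 0 (.sr 2))⁻¹ := by group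
      _ = (fi 0 (.sr 2) * L * (fi 0 (.sr 2))⁻¹)⁻¹ * (fi 0 (.sr 2) * Aa * (fi 0 (.sr 2))⁻¹) := by rw [F0.ra, F0.rl]; simp only [L, Aa]; group
      _ = Aa * L := by rw [F0.ul, F0.ua, inv_inv]; exact F0.comm⟩
  -- in characteristic two, `a` and `l` act alike
  have hsq : ∀ (b : S), (∀ m : M, m + ρ b m + ρ b (ρ b m) = 0) → ∀ m : M, ρ b (ρ b m) = m + ρ b m := fun b hb m => by
    calc ρ b (ρ b m) = (m + ρ b m + ρ b (ρ b m)) + (m + ρ b m) := by
          rw [show m + ρ b m + ρ b (ρ b m) + (m + ρ b m) = (m + m) + (ρ b m + ρ b m) + ρ b (ρ b m) by abel,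
            madd, madd, zero_add, zero_add]
      _ = m + ρ b m := by rw [hb, zero_add]
  have hsame : ∀ m : M, ρ Aa m = ρ L m := by
    intro m
    have hla : ∀ x, ρ L (ρ Aa x) = ρ Aa (ρ L x) := fun x => by rw [← rep_mul, ← rep_mul, F0.comm]
    have h4 : ρ Aa (ρ Aa (ρ L (ρ L m))) = m + ρ Aa m + ρ L m + ρ Aa (ρ L m) := by
      rw [hsq L f1, map_add, map_add, hsq Aa f2, hsq Aa f2]; abel
    have h5 := f3 m
    rw [rep_mul, rep_mul, hla, h4] at h5
    have : ρ Aa m + ρ L m = 0 := by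
      rw [← h5, show m + ρ Aa (ρ L m) + (m + ρ Aa m + ρ L m + ρ Aa (ρ L m)) =
        (m + m) + (ρ Aa (ρ L m) + ρ Aa (ρ L m)) + (ρ Aa m + ρ L m) by abel, madd, madd, zero_add, zero_add]
    calc ρ Aa m = ρ Aa m + (ρ L m + ρ L m) := by rw [madd, add_zero]
      _ = ρ L m := by rw [← add_assoc, this, zero_add]
  have : Aa = L := hfaith (LinearMap.ext hsame)
  exact F0.la (by rw [show a 0 = l 0 from this]; exact Subgroup.mem_zpowers _)

end CfsgLib.NineDEight
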