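import Cfsg.Agent.Lib.CoreBasic
import Cfsg.Agent.Lib.CoreCoprime2
import Cfsg.Agent.Lib.LocalFFModel
import Mathlib.LinearAlgebra.Dimension.Constructions
import Mathlib.RepresentationTheory.Invariants

/-!
# Fixed vectors in a module spanned by the orbit of a vector fixed by a Sylow subgroup
-/

set_option autoImplicit false

namespace CfsgLib.OrbitSpan

variable {k V H : Type*} [Field k] [AddCommGroup V] [Module k V] [Group H] [Finite H]

/-- The sum of the translates of a vector over the cosets of a subgroup. -/
noncomputable def cosetSum (ρ : Representation k H V) (K : Subgroup H) : V →ₗ[k] V :=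
  letI := Fintype.ofFinite (H ⧸ K)
  ∑ q : H ⧸ K, ρ q.out

variable {ρ : Representation k H V} {K : Subgroup H} {u : V}

theorem apply_out (hu : ∀ x ∈ K, ρ x u = u) (g : H) : ρ ((g : H ⧸ K)).out u = ρ g u := by
  obtain ⟨x, hx⟩ := QuotientGroup.mk_out_eq_mul K g
  rw [hx, map_mul, Module.End.mul_apply, hu _ x.2]

theorem smul_cosetSum (hu : ∀ x ∈ K, ρ x u = u) (g : H) :
    ρ g (cosetSum ρ K u) = cosetSum ρ K u := by
  letI := Fintype.ofFinite (H ⧸ K)
  simp only [cosetSum, LinearMap.coe_sum, Finset.sum_apply, map_sum]
  refine Fintype.sum_equiv (MulAction.toPerm g) _ _ fun q => ?_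
  rw [← Module.End.mul_apply, ← map_mul, ← apply_out hu (g * q.out)]
  congr 2
  show _ = (g • q).out
  rw [show ((g * q.out : H) : H ⧸ K) = g • q by
    conv_rhs => rw [← QuotientGroup.out_eq' q]
    rfl]

theorem cosetSum_fixed (hu : ∀ g : H, ρ g u = u) : cosetSum ρ K u = (K.index : k) • u := by
  letI := Fintype.ofFinite (H ⧸ K)
  simp only [cosetSum, LinearMap.coe_sum, Finset.sum_apply, hu, Finset.sum_const, Finset.card_univ]
  rw [Nat.cast_smul_eq_nsmul, Subgroup.index, Nat.card_eq_fintype_card]

theorem relIndex_dvd_index (M K : Subgroup H) [M.Normal] : K.relIndex M ∣ K.index := by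
  obtain ⟨t, ht⟩ := M.relIndex_dvd_index_of_normal K
  have h1 : K.relIndex M * M.index = (K ⊓ M).index := by
    rw [← Subgroup.inf_relIndex_right, Subgroup.relIndex_mul_index inf_le_right]
  have h2 : M.relIndex K * K.index = (K ⊓ M).index := by
    rw [← Subgroup.inf_relIndex_left, Subgroup.relIndex_mul_index inf_le_left]
  refine ⟨t, ?_⟩
  refine Nat.eq_of_mul_eq_mul_left (Nat.pos_of_ne_zero (Subgroup.index_ne_zero_of_finite
    (H := M.subgroupOf K))) ?_
  show M.relIndex K * K.index = M.relIndex K * (K.relIndex M * t)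
  rw [h2, ← h1, ht]; ring

variable (p : ℕ) [hp : Fact p.Prime] [CharP k p]

theorem invariant_mem (hsol : Cfsg.IsPSolvable p H) {a v : V} (hK : ∀ x ∈ K, ρ x a = a)
    (hidx : ¬ p ∣ K.index) (hinv : ∀ g : H, ρ g v = v)
    (hv : v ∈ Submodule.span k (Set.range fun g : H => ρ g a)) :
    v ∈ Submodule.span k {cosetSum ρ K a} := by
  obtain ⟨n, M, h0, hl, hm, hn, hs⟩ := hsol
  suffices key : ∀ i : Fin (n + 1), ∀ a : V, (∀ x ∈ K, ρ x a = a) →
      v ∈ Submodule.span k (Set.range fun g : H => ρ g a) →
      (∀ g : H, ∀ x ∈ M i, ρ x (ρ g a) = ρ g a) → v ∈ Submodule.span k {cosetSum ρ K a} from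
    key 0 a hK hv (fun g x hx => by
      rw [h0, Subgroup.mem_bot] at hx
      rw [hx, map_one, Module.End.one_apply])
  intro i
  induction i using Fin.reverseInduction with
  | last =>
    intro a hK hv hfix
    have hall : ∀ g : H, ρ g a = a := fun g => by
      have := hfix 1 g (hl ▸ Subgroup.mem_top g)
      simpa using this
    rw [cosetSum_fixed hall, Submodule.span_singleton_smul_eq (Ne.isUnit fun h =>
      hidx ((CharP.cast_eq_zero_iff k p _).1 h))]
    refine Submodule.span_le.2 ?_ hv
    rintro _ ⟨g, rfl⟩
    show ρ g a ∈ (Submodule.span k {a} : Submodule k V)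
    rw [hall g]
    exact Submodule.mem_span_singleton_self a
  | cast i ih =>
    intro a hK hv hfix
    set N := M i.castSucc with hNdef
    set L := M i.succ with hLdef
    have hNL : N ≤ L := hm (Fin.castSucc_le_succ i)
    haveI : N.Normal := hn _
    haveI : L.Normal := hn _
    rcases hs i with ⟨m, hpm⟩ | hcop
    · -- a `p`-factor acts trivially
      refine ih a hK hv ?_
      set J := (L ⊓ K) ⊔ N with hJdef
      have hJL : J ≤ L := sup_le inf_le_left hNL
      have h1 : J.relIndex L ∣ p ^ m := hpm ▸ Dvd.intro_left _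
        (Subgroup.relIndex_mul_relIndex N J L le_sup_right hJL)
      have h2 : J.relIndex L ∣ K.index := by
        refine dvd_trans ?_ (relIndex_dvd_index L K)
        rw [← Subgroup.inf_relIndex_right K L, inf_comm]
        exact Subgroup.relIndex_dvd_of_le_left L le_sup_left
      have h3 : J.relIndex L = 1 := Nat.eq_one_of_dvd_coprimes
        ((hp.out.coprime_iff_not_dvd.2 hidx).pow_left m) h1 h2
      have hL : ∀ x ∈ L, ρ x a = a := by
        intro x hx
        have hxJ : x ∈ J := Subgroup.relIndex_eq_one.1 h3 hx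
        refine Subgroup.closure_induction (p := fun y _ => ρ y a = a) ?_ ?_ ?_ ?_
          (show x ∈ Subgroup.closure (((L ⊓ K : Subgroup H) : Set H) ∪ N) by
            rwa [Subgroup.closure_union, Subgroup.closure_eq, Subgroup.closure_eq])
        · rintro y (hy | hy)
          · exact hK y hy.2
          · simpa using hfix 1 y hy
        · simp
        · intro y z _ _ hy hz
          rw [map_mul, Module.End.mul_apply, hz, hy]
        · intro y _ hy
          conv_lhs => rw [← hy]
          rw [← Module.End.mul_apply, ← map_mul, inv_mul_cancel, map_one, Module.End.one_apply]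
      intro g x hx
      have := hL (g⁻¹ * x * g) (by simpa using (inferInstance : L.Normal).conj_mem x hx g⁻¹)
      conv_rhs => rw [← this]
      rw [← Module.End.mul_apply, ← map_mul, ← Module.End.mul_apply, ← map_mul]
      group
    · -- average over a `p'`-factor
      set N' := N.subgroupOf L with hN'
      let σ : Representation k L V := ρ.comp L.subtype
      have hc : (N'.index : k) ≠ 0 := fun h =>
        hp.out.coprime_iff_not_dvd.1 (Nat.Coprime.symm hcop) ((CharP.cast_eq_zero_iff k p _).1 h)
      let T : V →ₗ[k] V := (N'.index : k)⁻¹ • cosetSum σ N'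
      set W : Submodule k V := Submodule.span k (Set.range fun g : H => ρ g a) with hW
      have hWN : ∀ w ∈ W, ∀ x ∈ N, ρ x w = w := by
        intro w hw x hx
        induction hw using Submodule.span_induction with
        | mem z hz => obtain ⟨g, rfl⟩ := hz; exact hfix g x hx
        | zero => simp
        | add y z _ _ hy hz => rw [map_add, hy, hz]
        | smul c y _ hy => rw [map_smul, hy]
      have hWσ : ∀ w ∈ W, ∀ x ∈ N', σ x w = w := fun w hw x hx => hWN w hw _ hx
      have hTfix : ∀ w ∈ W, ∀ x ∈ L, ρ x (T w) = T w := by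
        intro w hw x hx
        simp only [T, LinearMap.smul_apply, map_smul]
        rw [show ρ x (cosetSum σ N' w) = σ ⟨x, hx⟩ (cosetSum σ N' w) from rfl,
          smul_cosetSum (hWσ w hw)]
      have hgW : ∀ g : H, ∀ w ∈ W, ρ g w ∈ W := by
        intro g w hw
        induction hw using Submodule.span_induction with
        | mem z hz =>
          obtain ⟨h, rfl⟩ := hz
          exact Submodule.subset_span ⟨g * h, by simp⟩
        | zero => simp
        | add y z _ _ hy hz => rw [map_add]; exact add_mem hy hz
        | smul c y _ hy => rw [map_smul]; exact Submodule.smul_mem _ c hy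
      have hTcomm : ∀ w ∈ W, ∀ g : H, T (ρ g w) = ρ g (T w) := by
        intro w hw g
        simp only [T, LinearMap.smul_apply, map_smul]
        congr 1
        letI := Fintype.ofFinite (L ⧸ N')
        simp only [cosetSum, LinearMap.coe_sum, Finset.sum_apply, map_sum]
        let c : MulAut L := MulAut.conjNormal g⁻¹
        have hc' : N'.map c.toMonoidHom = N' := by
          ext ⟨y, hy⟩
          constructor
          · rintro ⟨z, hz, he⟩
            have := congrArg Subtype.val he
            change _ = y at this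
            show y ∈ N
            rw [← this]
            show ((MulAut.conjNormal g⁻¹ z : L) : H) ∈ N
            rw [MulAut.conjNormal_apply]
            exact (inferInstance : N.Normal).conj_mem _ hz _
          · intro hy'
            refine ⟨c.symm ⟨y, hy⟩, ?_, MulEquiv.apply_symm_apply c _⟩
            show ((MulAut.conjNormal g⁻¹).symm ⟨y, hy⟩ : H) ∈ N
            rw [MulAut.conjNormal_symm_apply]
            simpa using (inferInstance : N.Normal).conj_mem y hy' g
        refine Fintype.sum_equiv (QuotientGroup.congr N' N' c hc').toEquiv _ _ fun q => ?_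
        induction q using QuotientGroup.induction_on with
        | _ y =>
        show σ ((y : L ⧸ N')).out (ρ g w) = ρ g (σ ((c y : L) : L ⧸ N').out w)
        rw [apply_out (hWσ _ (hgW g w hw)), apply_out (hWσ w hw)]
        show ρ (y : H) (ρ g w) = ρ g (ρ ((MulAut.conjNormal g⁻¹ y : L) : H) w)
        rw [MulAut.conjNormal_apply, ← Module.End.mul_apply, ← map_mul, ← Module.End.mul_apply,
          ← map_mul]
        group
      have hTv : T v = v := by
        show (N'.index : k)⁻¹ • cosetSum σ N' v = v
        rw [cosetSum_fixed (ρ := σ) (fun x => hinv _), smul_smul, inv_mul_cancel₀ hc, one_smul]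
      have ha : a ∈ W := Submodule.subset_span ⟨1, by simp⟩
      have hS : cosetSum ρ K (T a) = T (cosetSum ρ K a) := by
        letI := Fintype.ofFinite (H ⧸ K)
        simp only [cosetSum, LinearMap.coe_sum, Finset.sum_apply, map_sum]
        exact Finset.sum_congr rfl fun q _ => (hTcomm a ha q.out).symm
      have hS' : T (cosetSum ρ K a) = cosetSum ρ K a := by
        show (N'.index : k)⁻¹ • cosetSum σ N' (cosetSum ρ K a) = _
        rw [cosetSum_fixed (ρ := σ) (fun x => smul_cosetSum hK _), smul_smul, inv_mul_cancel₀ hc,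
          one_smul]
      have h := ih (T a) (fun x hx => by rw [← hTcomm a ha x, hK x hx]) ?_ ?_
      · rwa [hS, hS'] at h
      · rw [← hTv]
        have h1 : T v ∈ W.map T := Submodule.mem_map_of_mem hv
        rw [hW, Submodule.map_span, ← Set.range_comp] at h1
        convert h1 using 3
        funext g
        exact (hTcomm a ha g).symm
      · intro g x hx
        rw [← hTcomm a ha g]
        exact hTfix _ (hgW g a ha) x hx

/-- The stabilizer of a vector. -/
def stab (ρ : Representation k H V) (a : V) : Subgroup H where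
  carrier := {g | ρ g a = a}
  one_mem' := by simp
  mul_mem' {x y} hx hy := by
    show ρ (x * y) a = a
    rw [map_mul, Module.End.mul_apply, hy, hx]
  inv_mem' {x} hx := by
    show ρ x⁻¹ a = a
    conv_lhs => rw [← hx]
    rw [← Module.End.mul_apply, ← map_mul, inv_mul_cancel, map_one, Module.End.one_apply]

omit p hp [CharP k p] in
theorem card_orbit (ρ : Representation k H V) (a : V) :
    Nat.card {u : V | ∃ h : H, ρ h a = u} = (stab ρ a).index := by
  refine (Nat.card_eq_of_bijective (fun q : H ⧸ stab ρ a =>
    (⟨ρ q.out a, q.out, rfl⟩ : {u : V | ∃ h : H, ρ h a = u})) ⟨?_, ?_⟩).symm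
  · intro q r h
    have h' : ρ q.out a = ρ r.out a := congrArg Subtype.val h
    rw [← QuotientGroup.out_eq' q, ← QuotientGroup.out_eq' r, QuotientGroup.eq]
    show ρ (q.out⁻¹ * r.out) a = a
    rw [map_mul, Module.End.mul_apply, ← h', ← Module.End.mul_apply, ← map_mul, inv_mul_cancel,
      map_one, Module.End.one_apply]
  · rintro ⟨_, g, rfl⟩
    exact ⟨(g : H ⧸ stab ρ a), Subtype.ext (apply_out (fun x hx => hx) g)⟩

theorem fixed_of_coprime (hsol : Cfsg.IsPSolvable p H) {a b : V}
    (hidx : ¬ p ∣ (stab ρ a).index)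
    (hspan : Submodule.span k (Set.range fun g : H => ρ g a) = ⊤)
    (hcop : (stab ρ a).index.Coprime (stab ρ b).index) (g : H) : ρ g b = b := by
  set A := stab ρ a with hA
  set B := stab ρ b with hB
  have hfac : ∀ g : H, ∃ x ∈ B, ∃ y ∈ A, g = x * y :=
    CfsgLib.Core.index_inf_of_coprime_index' B A hcop.symm
  let σ : Representation k B V := ρ.comp B.subtype
  let e : (B ⧸ A.subgroupOf B) → H ⧸ A := fun q => ((q.out : B) : H)
  have hinj : Function.Injective e := by
    intro q r h
    rw [← QuotientGroup.out_eq' q, ← QuotientGroup.out_eq' r, QuotientGroup.eq]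
    have h' := (QuotientGroup.eq (s := A) (a := ((q.out : B) : H)) (b := ((r.out : B) : H))).1 h
    exact h'
  have hsurj : Function.Surjective e := by
    intro q
    obtain ⟨x, hx, y, hy, he⟩ := hfac q.out
    refine ⟨((⟨x, hx⟩ : B) : B ⧸ A.subgroupOf B), ?_⟩
    obtain ⟨z, hz⟩ := QuotientGroup.mk_out_eq_mul (A.subgroupOf B) ⟨x, hx⟩
    show ((((⟨x, hx⟩ : B) : B ⧸ A.subgroupOf B).out : B) : H ⧸ A) = q
    rw [hz, ← QuotientGroup.out_eq' q, he, QuotientGroup.eq]
    show (x * ((z : B) : H))⁻¹ * (x * y) ∈ A
    rw [mul_inv_rev, mul_assoc, inv_mul_cancel_left]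
    exact mul_mem (inv_mem z.2) hy
  have hindex : (A.subgroupOf B).index = A.index :=
    Nat.card_eq_of_bijective e ⟨hinj, hsurj⟩
  have hsum : cosetSum σ (A.subgroupOf B) a = cosetSum ρ A a := by
    letI := Fintype.ofFinite (H ⧸ A)
    letI := Fintype.ofFinite (B ⧸ A.subgroupOf B)
    simp only [cosetSum, LinearMap.coe_sum, Finset.sum_apply]
    refine Fintype.sum_equiv (Equiv.ofBijective e ⟨hinj, hsurj⟩) _ _ fun q => ?_
    exact (apply_out (ρ := ρ) (K := A) (fun x hx => hx) _).symm
  have h := invariant_mem (ρ := σ) (K := A.subgroupOf B) p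
    (CfsgLib.LocalFF.isPSolvable_subgroup hsol B) (a := a) (v := b) (fun x hx => hx)
    (hindex ▸ hidx) (fun x => x.2) ?_
  · rw [hsum, Submodule.mem_span_singleton] at h
    obtain ⟨c, hc⟩ := h
    rw [← hc, map_smul, smul_cosetSum (K := A) (fun x hx => hx)]
  · have : (Set.range fun g : H => ρ g a) ⊆ Set.range fun x : B => σ x a := by
      rintro _ ⟨g, rfl⟩
      obtain ⟨x, hx, y, hy, rfl⟩ := hfac g
      exact ⟨⟨x, hx⟩, by
        show ρ x a = ρ (x * y) a
        rw [map_mul, Module.End.mul_apply, show ρ y a = a from hy]⟩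
    exact Submodule.span_mono this (hspan.ge Submodule.mem_top)

end CfsgLib.OrbitSpan
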