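import Cfsg.Agent.Lib.CoreBasic
import Cfsg.Agent.Lib.CoreFitting
import Cfsg.Agent.Lib.CorePGroup
import Cfsg.Prelude.Def_Transfer
import Mathlib.GroupTheory.IndexNormal

/-!
# An involution acting on an extraspecial group of order thirty-two
-/

set_option autoImplicit false

universe u

namespace CfsgLib.Order320

open scoped commutatorElement Pointwise

theorem pow_two_modEq {k : ℕ} (hk : k ≤ 5) (h : 32 ≡ 2 ^ k [MOD 5]) (hne : 2 ^ k ≠ 32) : 2 ^ k = 2 := by
  interval_cases k <;> simp_all [Nat.ModEq]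

variable {G : Type u} [Group G] [Finite G]

theorem fix_of_order_five (H Z : Subgroup G) [H.Normal] (hH2 : H = Cfsg.pCore 2 G)
    (hHF : Cfsg.pCore 2 G = Cfsg.fittingSubgroup G) (h32 : Nat.card H = 32) (hZcard : Nat.card Z = 2)
    (hZH : Z ≤ H) (hZc : ∀ z ∈ Z, ∀ g : G, g * z * g⁻¹ = z)
    (M : Subgroup G) [M.Normal] (hHM : H ≤ M) (hMcard : Nat.card M = 160) (hMidx : M.index = 2)
    {y : G} (hy : orderOf y = 5) : ∀ h ∈ H, y * h * y⁻¹ = h → h ∈ Z := by
  haveI : Fact (Nat.Prime 2) := ⟨Nat.prime_two⟩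
  haveI : Fact (Nat.Prime 5) := ⟨by norm_num⟩
  replace hHF : H = Cfsg.fittingSubgroup G := hH2.trans hHF
  set A := Subgroup.zpowers y with hA
  have hA5 : IsPGroup 5 A := IsPGroup.of_card (n := 1) (by rw [Nat.card_zpowers, hy, pow_one])
  have hAc : Nat.card A = 5 := by rw [hA, Nat.card_zpowers, hy]
  set D := H ⊓ Subgroup.centralizer (A : Set G) with hD
  have hZD : Z ≤ D := fun z hz => ⟨hZH hz, Subgroup.mem_centralizer_iff.2 fun a _ =>
    mul_inv_eq_iff_eq_mul.1 (hZc z hz a)⟩
  have hDmem : ∀ h : G, h ∈ H → y * h * y⁻¹ = h → h ∈ D := fun h hh he => ⟨hh, by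
    show h ∈ Subgroup.centralizer (A : Set G)
    rw [Subgroup.mem_centralizer_iff]
    intro a ha
    obtain ⟨i, rfl⟩ := Subgroup.mem_zpowers_iff.1 ha
    exact (show Commute y h from mul_inv_eq_iff_eq_mul.1 he).zpow_left i⟩
  have hne : D ≠ H := by
    intro e
    have hAn : A.Normal := by
      constructor
      intro a ha x
      have h1 : ∀ m ∈ M, m ^ 5 = 1 → m ∈ A := by
        intro m hm hm5
        have hyM : y ∈ M := by
          by_contra hyM
          have := Subgroup.mul_self_mem_of_index_two hMidx y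
          have h5 : y = y ^ 6 := by rw [pow_succ, ← hy, pow_orderOf_eq_one, one_mul]
          apply hyM
          rw [h5, show 6 = 2 * 3 from rfl, pow_mul, pow_two]
          exact pow_mem this 3
        have hdisj' : A ⊓ H = ⊥ :=
          CfsgLib.Core.inf_eq_bot_of_coprime (by rw [hA, Nat.card_zpowers, hy, h32]; decide)
        have hAH : M = A ⊔ H := (Subgroup.eq_of_le_of_card_ge
          (sup_le (Subgroup.zpowers_le.2 hyM) hHM) (by
            rw [hMcard, CfsgLib.Core.card_sup_of_disjoint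
              (le_top.trans (Subgroup.normalizer_eq_top (H := H)).ge) hdisj', hA, Nat.card_zpowers,
              hy, h32])).symm
        rw [hAH] at hm
        obtain ⟨b, hb, h, hh, rfl⟩ := Subgroup.mem_sup_of_normal_right.1 hm
        have hbh : Commute b h := Subgroup.mem_centralizer_iff.1 (e.ge hh).2 b hb
        have hb5 : b ^ 5 = 1 := by
          have := pow_card_eq_one' (x := (⟨b, hb⟩ : A))
          rw [hAc] at this
          exact congrArg Subtype.val this
        rw [hbh.mul_pow, hb5, one_mul] at hm5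
        have h32' : h ^ 32 = 1 := by
          have := pow_card_eq_one' (x := (⟨h, hh⟩ : H))
          rw [h32] at this
          exact congrArg Subtype.val this
        have : h = 1 := by
          have := (pow_gcd_eq_one (a := h)).2 ⟨hm5, h32'⟩
          simpa using this
        rw [this, mul_one]; exact hb
      have ha5 : a ^ 5 = 1 := by
        have := pow_card_eq_one' (x := (⟨a, ha⟩ : A))
        rw [hAc] at this
        exact congrArg Subtype.val this
      have h5 : (x * a * x⁻¹) ^ 5 = 1 := by rw [conj_pow, ha5]; group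
      refine h1 _ ?_ h5
      by_contra hn
      apply hn
      have h6 : x * a * x⁻¹ = (x * a * x⁻¹) ^ 6 := by rw [pow_succ, h5, one_mul]
      rw [h6, show 6 = 2 * 3 from rfl, pow_mul, pow_two]
      exact pow_mem (Subgroup.mul_self_mem_of_index_two hMidx _) 3
    have hAF : A ≤ H := hHF.symm ▸ CfsgLib.Core.le_fittingSubgroup hAn hA5.isNilpotent
    have := Subgroup.card_dvd_of_le hAF
    rw [hA, Nat.card_zpowers, hy, h32] at this
    omega
  letI : MulAction A H := MulAction.compHom H
    ((MulAut.conjNormal : G →* MulAut H).comp A.subtype)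
  have hmod := hA5.card_modEq_card_fixedPoints (α := H)
  have hfp : Nat.card (MulAction.fixedPoints A H) = Nat.card D := by
    refine Nat.card_congr
      { toFun := fun h => ⟨((h : H) : G), hDmem _ (h : H).2
          (congrArg Subtype.val (h.2 ⟨y, Subgroup.mem_zpowers y⟩))⟩
        invFun := fun d => ⟨⟨(d : G), d.2.1⟩, fun a => Subtype.ext
          (mul_inv_eq_iff_eq_mul.2 (Subgroup.mem_centralizer_iff.1 d.2.2 a a.2))⟩
        left_inv := fun h => rfl
        right_inv := fun d => rfl }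
  rw [hfp, h32] at hmod
  have hd : Nat.card D ∣ 32 := h32 ▸ Subgroup.card_dvd_of_le inf_le_left
  have hD2 : Nat.card D = 2 := by
    obtain ⟨k, hk, he⟩ := (Nat.dvd_prime_pow Nat.prime_two).1 (show Nat.card D ∣ 2 ^ 5 by simpa using hd)
    have hlt : Nat.card D ≠ 32 := fun e =>
      hne (CfsgLib.Core.eq_of_le_of_card_le inf_le_left (by rw [h32, e]))
    rw [he] at hmod hlt ⊢
    exact pow_two_modEq hk hmod hlt
  have hZDeq : Z = D := Subgroup.eq_of_le_of_card_ge hZD (by rw [hD2, hZcard])
  intro h hh he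
  rw [hZDeq]
  exact hDmem h hh he


set_option maxHeartbeats 1000000 in
theorem main (hG : Nat.card G = 320) (hHF : Cfsg.pCore 2 G = Cfsg.fittingSubgroup G)
    (hex : Cfsg.IsExtraspecial 2 ↥(Cfsg.pCore 2 G)) (h32 : Nat.card ↥(Cfsg.pCore 2 G) = 32)
    (hminus : ∀ A : Subgroup G, A ≤ Cfsg.pCore 2 G → Cfsg.IsElementaryAbelian 2 A → Nat.card ↥A ≤ 4)
    (T : G) (hT : orderOf T = 2) (hTH : T ∉ Cfsg.pCore 2 G)
    (V : Subgroup G) (hV : V ≤ Cfsg.pCore 2 G ⊓ Subgroup.centralizer ({T} : Set G))
    (hV4 : Nat.card ↥V = 4) (hVe : Cfsg.IsElementaryAbelian 2 V) :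
    Nat.card ↥(Cfsg.pCore 2 G ⊓ Subgroup.centralizer ({T} : Set G)) = 4 ∧
      Cfsg.IsElementaryAbelian 2 (Cfsg.pCore 2 G ⊓ Subgroup.centralizer ({T} : Set G)) := by
  haveI : Fact (Nat.Prime 2) := ⟨Nat.prime_two⟩
  haveI : Fact (Nat.Prime 5) := ⟨by norm_num⟩
  set H := Cfsg.pCore 2 G with hH
  haveI hHn : H.Normal := CfsgLib.Core.normal_pCore 2
  have hH2 : IsPGroup 2 H := CfsgLib.Core.isPGroup_pCore 2
  obtain ⟨⟨-, hfr, -⟩, hZ2⟩ := hex
  set Z := (Subgroup.center H).map H.subtype with hZ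
  haveI hZn : Z.Normal := CfsgLib.Core.map_subtype_normal_of_characteristic hHn inferInstance
  have hZcard : Nat.card Z = 2 := by
    rw [hZ, Subgroup.card_map_of_injective H.subtype_injective, hZ2]
  have hZH : Z ≤ H := Subgroup.map_subtype_le _
  have hZc : ∀ z ∈ Z, ∀ g : G, g * z * g⁻¹ = z := by
    intro z hz g
    obtain ⟨a, b, hab, huniv⟩ := Nat.card_eq_two_iff.1 hZcard
    by_cases hz1 : z = 1
    · subst hz1; simp
    have hz' : (⟨z, hz⟩ : Z) ≠ 1 := fun e => hz1 (congrArg Subtype.val e)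
    have hc' : (⟨g * z * g⁻¹, hZn.conj_mem z hz g⟩ : Z) ≠ 1 := fun e =>
      hz1 (conj_eq_one_iff.1 (congrArg Subtype.val e))
    have h2 : ∀ x y : Z, x ≠ 1 → y ≠ 1 → x = y := by
      intro x y hx hy
      have hx' : x ∈ ({a, b} : Set Z) := huniv.ge trivial
      have hy' : y ∈ ({a, b} : Set Z) := huniv.ge trivial
      have h1' : (1 : Z) ∈ ({a, b} : Set Z) := huniv.ge trivial
      simp only [Set.mem_insert_iff, Set.mem_singleton_iff] at hx' hy' h1'
      rcases hx' with rfl | rfl <;> rcases hy' with rfl | rfl <;> rcases h1' with h | h <;> simp_all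
    exact congrArg Subtype.val (h2 _ _ hc' hz')
  have hsqZ : ∀ h ∈ H, h ^ 2 ∈ Z := fun h hh =>
    ⟨⟨h, hh⟩ ^ 2, hfr.le (CfsgLib.Core.pgroup_pow_mem_frattini hH2 _), rfl⟩
  have hzsq : ∀ z ∈ Z, z ^ 2 = 1 := fun z hz => by
    have := pow_card_eq_one' (x := (⟨z, hz⟩ : Z))
    rw [hZcard] at this
    exact congrArg Subtype.val this
  have hcomm : ∀ a ∈ H, ∀ b ∈ H, a * b * a⁻¹ * b⁻¹ ∈ Z := fun a ha b hb =>
    ⟨⁅(⟨a, ha⟩ : H), ⟨b, hb⟩⁆, hfr.le (CfsgLib.Core.pgroup_commutator_le_frattini hH2
      (Subgroup.commutator_mem_commutator (Subgroup.mem_top _) (Subgroup.mem_top _))), by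
      simp [commutatorElement_def]⟩
  -- an element of order five and the subgroup of index two
  obtain ⟨g, hg⟩ := exists_prime_orderOf_dvd_card' (G := G) 5 (by rw [hG]; norm_num)
  set M := Subgroup.zpowers g ⊔ H with hM
  have hdisj : Disjoint (Subgroup.zpowers g) H := by
    rw [disjoint_iff]
    exact CfsgLib.Core.inf_eq_bot_of_coprime (by rw [Nat.card_zpowers, hg, h32]; decide)
  have hMcard : Nat.card M = 160 := by
    rw [hM, CfsgLib.Core.card_sup_of_disjoint (le_top.trans (Subgroup.normalizer_eq_top (H := H)).ge)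
      (disjoint_iff.1 hdisj), Nat.card_zpowers, hg, h32]
  have hMidx : M.index = 2 := by
    have := M.card_mul_index
    rw [hMcard, hG] at this
    omega
  haveI hMn : M.Normal := Subgroup.normal_of_index_eq_two hMidx
  set π := QuotientGroup.mk' H with hπ
  have hMimg : ∀ m ∈ M, (π m) ^ 5 = 1 := by
    intro m hm
    obtain ⟨a, ha, b, hb, rfl⟩ := Subgroup.mem_sup_of_normal_right.1 hm
    have hb1 : π b = 1 := (QuotientGroup.eq_one_iff b).2 hb
    have ha5 : a ^ 5 = 1 := by
      have := pow_card_eq_one' (x := (⟨a, ha⟩ : Subgroup.zpowers g))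
      rw [Nat.card_zpowers, hg] at this
      exact congrArg Subtype.val this
    rw [map_mul, hb1, mul_one, ← map_pow, ha5, map_one]
  have hfix : ∀ y : G, orderOf y = 5 → ∀ h ∈ H, y * h * y⁻¹ = h → h ∈ Z := fun y hy =>
    fix_of_order_five H Z rfl hHF h32 hZcard hZH hZc M le_sup_right hMcard hMidx hy
  -- the conjugate involution
  have hTT : T * T = 1 := by rw [← pow_two, ← hT, pow_orderOf_eq_one]
  have hTi : T⁻¹ = T := inv_eq_of_mul_eq_one_right hTT
  have hTM : T ∉ M := by
    intro h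
    apply hTH
    rw [← QuotientGroup.eq_one_iff]
    have h1 : (π T) ^ 5 = 1 := hMimg T h
    have h2 : (π T) ^ 2 = 1 := by rw [← map_pow, pow_two, hTT, map_one]
    have := (pow_gcd_eq_one (a := π T)).2 ⟨h1, h2⟩
    show π T = 1
    simpa using this
  set T' := g * T * g⁻¹ with hT'
  set v := T * T' with hv
  have hvM : v ∈ M := by
    rw [hv, Subgroup.mul_mem_iff_of_index_two hMidx]
    exact iff_of_false hTM fun h => hTM (by
      have := hMn.conj_mem _ h g⁻¹
      simpa [hT', mul_assoc] using this)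
  have hvH : v ∉ H := by
    intro h
    set L := Subgroup.zpowers T ⊔ H with hL
    have hgT : T' ∈ L := by
      rw [show T' = T * v by rw [hv, ← mul_assoc, hTT, one_mul]]
      exact mul_mem (Subgroup.mem_sup_left (Subgroup.mem_zpowers T)) (Subgroup.mem_sup_right h)
    have hgL : g ∈ Subgroup.normalizer (L : Set G) := by
      have hle : L.map (MulAut.conj g).toMonoidHom ≤ L := by
        rw [hL, Subgroup.map_sup]
        refine sup_le ?_ (le_trans ?_ le_sup_right)
        · rw [MonoidHom.map_zpowers, Subgroup.zpowers_le]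
          exact hgT
        · rintro _ ⟨x, hx, rfl⟩
          exact hHn.conj_mem x hx g
      have heq : MulAut.conj g • L = L := by
        rw [CfsgLib.Core.conj_smul_eq_map]
        exact Subgroup.eq_of_le_of_card_ge hle
          (Subgroup.card_map_of_injective (MulAut.conj g).injective).ge
      exact CfsgLib.Core.conj_smul_eq_self_iff.1 heq
    have hdT : Subgroup.zpowers T ⊓ H = ⊥ := by
      rw [eq_bot_iff]
      rintro z ⟨hz, hzH⟩
      obtain ⟨i, rfl⟩ := Subgroup.mem_zpowers_iff.1 hz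
      rcases Int.even_or_odd i with ⟨j, rfl⟩ | ⟨j, rfl⟩
      · simp [zpow_add, ← (Commute.refl T).mul_zpow, hTT]
      · exfalso
        apply hTH
        simpa [zpow_add, zpow_mul, zpow_ofNat, pow_two, hTT] using hzH
    have hLcard : Nat.card L = 64 := by
      rw [hL, CfsgLib.Core.card_sup_of_disjoint
        (le_top.trans (Subgroup.normalizer_eq_top (H := H)).ge) hdT, Nat.card_zpowers, hT, h32]
    have hLn : L.Normal := by
      refine Subgroup.normalizer_eq_top_iff.1 (CfsgLib.Core.eq_top_of_card_ge ?_)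
      have h1 : Nat.card L ∣ Nat.card (Subgroup.normalizer (L : Set G)) :=
        Subgroup.card_dvd_of_le Subgroup.le_normalizer
      have h2 : orderOf g ∣ Nat.card (Subgroup.normalizer (L : Set G)) :=
        Subgroup.orderOf_dvd_natCard _ hgL
      rw [hLcard] at h1
      rw [hg] at h2
      have h3 := Nat.Coprime.mul_dvd_of_dvd_of_dvd (by decide : Nat.Coprime 64 5) h1 h2
      exact hG ▸ Nat.le_of_dvd Nat.card_pos h3
    exact hTH (CfsgLib.Core.le_pCore hLn (IsPGroup.of_card (n := 6) (by rw [hLcard]; norm_num))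
      (Subgroup.mem_sup_left (Subgroup.mem_zpowers T)))
  set w := v ^ 32 with hw
  have hw5 : orderOf w = 5 := by
    refine orderOf_eq_prime ?_ ?_
    · have := pow_card_eq_one' (x := (⟨v, hvM⟩ : M))
      rw [hMcard] at this
      rw [hw, ← pow_mul]
      exact congrArg Subtype.val this
    · intro e
      apply hvH
      rw [← QuotientGroup.eq_one_iff]
      have h1 : (π v) ^ 32 = 1 := by rw [← map_pow, ← hw, e, map_one]
      have h2 := (pow_gcd_eq_one (a := π v)).2 ⟨h1, hMimg v hvM⟩
      show π v = 1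
      simpa using h2
  -- the centralizer modulo the centre
  let f : H →* G ⧸ Z := MonoidHom.mk' (fun k => QuotientGroup.mk' Z (T * (k : G) * T * (k : G)⁻¹)) (by
    intro a b
    have hb : T * (b : G) * T * (b : G)⁻¹ ∈ H := by
      refine mul_mem ?_ (inv_mem b.2)
      have := hHn.conj_mem _ b.2 T
      rwa [hTi] at this
    have hc := hcomm (a : G) a.2 _ hb
    rw [← map_mul]
    rw [QuotientGroup.mk'_apply, QuotientGroup.mk'_apply, QuotientGroup.eq]
    set β := T * (b : G) * T * (b : G)⁻¹ with hβ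
    have e : T * ((a * b : H) : G) * T * ((a * b : H) : G)⁻¹ =
        (T * (a : G) * T) * β * (a : G)⁻¹ := by
      rw [hβ, Subgroup.coe_mul, mul_inv_rev]
      calc T * ((a : G) * (b : G)) * T * ((b : G)⁻¹ * (a : G)⁻¹)
          = T * (a : G) * (T * T) * (b : G) * T * (b : G)⁻¹ * (a : G)⁻¹ := by rw [hTT]; group
        _ = _ := by group
    rw [e, show (T * (a : G) * T * β * (a : G)⁻¹)⁻¹ * (T * (a : G) * T * (a : G)⁻¹ * β) =
      (a : G) * (β⁻¹ * (a : G)⁻¹ * β * (a : G)) * (a : G)⁻¹ by group]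
    refine hZn.conj_mem _ ?_ _
    have := hcomm β⁻¹ (inv_mem hb) (a : G)⁻¹ (inv_mem a.2)
    simpa using this)
  set K := f.ker.map H.subtype with hK
  have hKH : K ≤ H := Subgroup.map_subtype_le _
  have hKmem : ∀ k : G, k ∈ H → T * k * T * k⁻¹ ∈ Z → k ∈ K := fun k hk h =>
    ⟨⟨k, hk⟩, (QuotientGroup.eq_one_iff _).2 h, rfl⟩
  have hKmem' : ∀ k ∈ K, T * k * T * k⁻¹ ∈ Z := by
    rintro _ ⟨k, hk, rfl⟩
    exact (QuotientGroup.eq_one_iff _).1 hk
  set C := H ⊓ Subgroup.centralizer ({T} : Set G) with hC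
  have hCK : C ≤ K := fun c hc => hKmem c hc.1 (by
    rw [← (Subgroup.mem_centralizer_singleton_iff.1 hc.2), mul_assoc c, hTT, mul_one,
      mul_inv_cancel]
    exact one_mem Z)
  set K' := K.map (MulAut.conj g).toMonoidHom with hK'
  have hK'H : K' ≤ H := by
    rintro _ ⟨k, hk, rfl⟩
    exact hHn.conj_mem k (hKH hk) g
  have hinter : K ⊓ K' ≤ Z := by
    rintro k ⟨hk, hk'⟩
    obtain ⟨l, hl, hlk⟩ := hk'
    have h1 := hKmem' k hk
    have h2 : T' * k * T' * k⁻¹ ∈ Z := by
      have := hZn.conj_mem _ (hKmem' l hl) g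
      have e : k = g * l * g⁻¹ := hlk.symm
      rw [e, hT']
      simpa [mul_assoc] using this
    set z := T * k * T * k⁻¹ with hzd
    set z' := T' * k * T' * k⁻¹ with hzd'
    have hT'i : T'⁻¹ = T' := by rw [hT', mul_inv_rev, mul_inv_rev, hTi]; group
    have hvk : v * k * v⁻¹ = z' * z * k := by
      have e1 : T * k * T⁻¹ = z * k := by rw [hTi, hzd, inv_mul_cancel_right]
      have e2 : T' * k * T'⁻¹ = z' * k := by rw [hT'i, hzd', inv_mul_cancel_right]
      calc v * k * v⁻¹ = T * (T' * k * T'⁻¹) * T⁻¹ := by rw [hv]; group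
        _ = (T * z' * T⁻¹) * (T * k * T⁻¹) := by rw [e2]; group
        _ = _ := by rw [hZc z' h2 T, e1]; group
    have hzz : (z' * z) ∈ Z := mul_mem h2 h1
    have hpow : ∀ n : ℕ, v ^ n * k * (v ^ n)⁻¹ = (z' * z) ^ n * k := by
      intro n
      induction n with
      | zero => simp
      | succ n ih =>
        calc v ^ (n + 1) * k * (v ^ (n + 1))⁻¹ = v * (v ^ n * k * (v ^ n)⁻¹) * v⁻¹ := by
              rw [pow_succ']; group
          _ = (v * (z' * z) ^ n * v⁻¹) * (v * k * v⁻¹) := by rw [ih]; group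
          _ = _ := by rw [hZc _ (pow_mem hzz n) v, hvk, pow_succ]; group
    refine hfix w hw5 k (hKH hk) ?_
    rw [hw, hpow, show 32 = 2 * 16 from rfl, pow_mul, hzsq _ hzz, one_pow, one_mul]
  have hKn : H ≤ Subgroup.normalizer (K' : Set G) := by
    have hZK : Z ≤ K' := fun z hz => ⟨z, hKmem z (hZH hz) (by
      have := hZc z hz T
      rw [hTi] at this
      rw [this, mul_inv_cancel]
      exact one_mem Z), hZc z hz g⟩
    refine CfsgLib.Core.le_normalizer_iff_forall.2 fun h hh k hk => ?_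
    rw [show h * k * h⁻¹ = (h * k * h⁻¹ * k⁻¹) * k by group]
    exact mul_mem (hZK (hcomm h hh k (hK'H hk))) hk
  have hK8 : Nat.card K ≤ 8 := by
    have h1 := CfsgLib.Core.card_sup_mul_card_inf (A := K) (K := K') (hKH.trans hKn)
    have h2 : Nat.card K' = Nat.card K := Subgroup.card_map_of_injective (MulAut.conj g).injective
    have h3 : Nat.card ↥(K ⊔ K') ≤ 32 := h32 ▸ Subgroup.card_le_of_le (sup_le hKH hK'H)
    have h4 : Nat.card ↥(K ⊓ K') ≤ 2 := hZcard ▸ Subgroup.card_le_of_le hinter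
    rw [h2] at h1
    by_contra hlt
    push Not at hlt
    nlinarith
  have hVC : V ≤ C := hV
  have hC4 : Nat.card C = 4 := by
    have h1 : 4 ∣ Nat.card C := hV4 ▸ Subgroup.card_dvd_of_le hVC
    have h2 : Nat.card C ∣ 32 := h32 ▸ Subgroup.card_dvd_of_le inf_le_left
    have h3 : Nat.card C ≤ 8 := (Subgroup.card_le_of_le hCK).trans hK8
    by_contra h4
    have h8 : Nat.card C = 8 := by
      obtain ⟨c, hc⟩ := h1
      rw [hc] at h2 h3 h4 ⊢
      have : c ≤ 2 := by omega
      interval_cases c <;> omega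
    have hCK' : C = K := CfsgLib.Core.eq_of_le_of_card_le hCK (hK8.trans h8.ge)
    set π' := QuotientGroup.mk' Z with hπ'
    have hsq : ∀ h ∈ H, T * h * T * h⁻¹ ∈ C ∧ (T * h * T * h⁻¹) ^ 2 = 1 := by
      intro h hh
      set q := T * h * T * h⁻¹ with hq
      have hqH : q ∈ H := mul_mem (by have := hHn.conj_mem h hh T; rwa [hTi] at this) (inv_mem hh)
      have hqT : T * q * T = q⁻¹ := by
        rw [hq]
        simp only [mul_inv_rev, inv_inv, hTi]
        rw [← mul_assoc, ← mul_assoc, ← mul_assoc, hTT, one_mul]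
        group
      have hqC : q ∈ C := by
        rw [hCK']
        refine hKmem q hqH ?_
        rw [hqT]
        have := inv_mem (hsqZ q hqH)
        rwa [pow_two, mul_inv_rev] at this
      refine ⟨hqC, ?_⟩
      have hcq := Subgroup.mem_centralizer_singleton_iff.1 hqC.2
      have : T * q * T = q := by rw [← hcq, mul_assoc, hTT, mul_one]
      rw [this] at hqT
      rw [pow_two]
      nth_rewrite 2 [hqT]
      exact mul_inv_cancel q
    have hrange : f.range = C.map π' := by
      have hle : f.range ≤ C.map π' := by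
        rintro _ ⟨h, rfl⟩
        exact ⟨_, (hsq h h.2).1, rfl⟩
      refine CfsgLib.Core.eq_of_le_of_card_le hle ?_
      have hker : Nat.card f.ker = 8 := by
        rw [← h8, hCK', hK, Subgroup.card_map_of_injective H.subtype_injective]
      have hr : Nat.card f.range = 4 := by
        have := f.ker.card_mul_index
        rw [Subgroup.index_ker, hker, h32] at this
        omega
      have hCZ : Z ≤ C := fun z hz => ⟨hZH hz, Subgroup.mem_centralizer_singleton_iff.2
        (mul_inv_eq_iff_eq_mul.1 (hZc z hz T)).symm⟩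
      have hcm : Nat.card (C.map π') = 4 := by
        have h5 : Nat.card ↥(C ⊓ π'.ker) * Nat.card ↥(C.map π') = Nat.card C := by
          rw [← Subgroup.relIndex_ker, inf_comm]
          exact CfsgLib.Core.card_inf_mul_relIndex π'.ker C
        rw [QuotientGroup.ker_mk', inf_eq_right.2 hCZ, hZcard, h8] at h5
        omega
      rw [hr, hcm]
    have hone : ∀ c ∈ C, c ^ 2 = 1 := by
      intro c hc
      obtain ⟨h, hh⟩ := hrange.ge ⟨c, hc, rfl⟩
      have hh' : ((T * (h : G) * T * (h : G)⁻¹ : G) : G ⧸ Z) = (c : G ⧸ Z) := hh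
      have hz : (T * (h : G) * T * (h : G)⁻¹)⁻¹ * c ∈ Z := QuotientGroup.eq.1 hh'
      set q := T * (h : G) * T * (h : G)⁻¹
      have : c = q * (q⁻¹ * c) := by group
      rw [this, Commute.mul_pow (mul_inv_eq_iff_eq_mul.1 (hZc _ hz q)), (hsq h h.2).2,
        hzsq _ hz, one_mul]
    have helem : Cfsg.IsElementaryAbelian 2 C := by
      refine ⟨⟨⟨fun a b => Subtype.ext ?_⟩⟩, hone⟩
      have inv : ∀ c ∈ C, c⁻¹ = c := fun c hc => inv_eq_of_mul_eq_one_right (by rw [← pow_two]; exact hone c hc)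
      show (a : G) * b = b * a
      rw [← inv _ (mul_mem a.2 b.2), mul_inv_rev, inv _ a.2, inv _ b.2]
    have := hminus C inf_le_left helem
    omega
  refine ⟨hC4, ?_⟩
  show Cfsg.IsElementaryAbelian 2 C
  rw [← Subgroup.eq_of_le_of_card_ge hVC (by rw [hC4, hV4])]
  exact hVe

end CfsgLib.Order320
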