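import Mathlib
/-! Groups with the same order type: counting solutions of `x ^ n = 1`. -/

namespace CfsgLib.OrderType

/-- The number of solutions of `x ^ n = 1`. -/
noncomputable def pc (G : Type*) [Group G] (n : ℕ) : ℕ := Nat.card {g : G // g ^ n = 1}

theorem pc_prod {G H : Type*} [Group G] [Group H] (n : ℕ) : pc (G × H) n = pc G n * pc H n := by
  rw [pc, pc, pc, ← Nat.card_prod]
  exact Nat.card_congr
    { toFun := fun x => (⟨x.1.1, congrArg Prod.fst x.2⟩, ⟨x.1.2, congrArg Prod.snd x.2⟩)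
      invFun := fun y => ⟨(y.1.1, y.2.1), Prod.ext y.1.2 y.2.2⟩
      left_inv := fun _ => rfl
      right_inv := fun _ => rfl }

theorem pc_pi {G : Type*} [Group G] (e n : ℕ) : pc (Fin e → G) n = pc G n ^ e := by
  rw [pc, pc]
  conv_rhs => rw [← Nat.card_fin e, ← Nat.card_fun]
  exact Nat.card_congr
    { toFun := fun x i => ⟨x.1 i, congrFun x.2 i⟩
      invFun := fun y => ⟨fun i => (y i).1, funext fun i => (y i).2⟩
      left_inv := fun _ => rfl
      right_inv := fun _ => rfl }

theorem pc_gcd {G : Type*} [Group G] (m : ℕ) (h : ∀ g : G, g ^ m = 1) (n : ℕ) :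
    pc G n = pc G (Nat.gcd n m) := by
  refine Nat.card_congr (Equiv.subtypeEquivRight fun g => ⟨fun hn => ?_, fun hn => ?_⟩)
  · exact orderOf_dvd_iff_pow_eq_one.mp (Nat.dvd_gcd (orderOf_dvd_iff_pow_eq_one.mpr hn)
      (orderOf_dvd_iff_pow_eq_one.mpr (h g)))
  · exact orderOf_dvd_iff_pow_eq_one.mp
      ((orderOf_dvd_iff_pow_eq_one.mpr hn).trans (Nat.gcd_dvd_left _ _))

theorem pc_eq_sum {K : Type*} [Group K] [Finite K] {n : ℕ} (hn : 0 < n) :
    pc K n = ∑ d ∈ n.divisors, Nat.card {g : K // orderOf g = d} := by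
  classical
  haveI := Fintype.ofFinite K
  rw [pc, Nat.card_eq_fintype_card, Fintype.card_subtype,
    Finset.card_eq_sum_card_fiberwise (f := orderOf) (t := n.divisors) (fun g hg =>
      Nat.mem_divisors.mpr ⟨orderOf_dvd_iff_pow_eq_one.mpr (Finset.mem_filter.mp hg).2, hn.ne'⟩)]
  refine Finset.sum_congr rfl fun d hd => ?_
  rw [Nat.card_eq_fintype_card, Fintype.card_subtype, Finset.filter_filter]
  congr 1
  refine Finset.filter_congr fun g _ => ⟨fun x => x.2, fun x => ⟨?_, x⟩⟩
  exact orderOf_dvd_iff_pow_eq_one.mp (x ▸ (Nat.mem_divisors.mp hd).1)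

/-- Equal numbers of solutions of all equations `x ^ n = 1` give equal order types. -/
theorem card_orderOf_eq {G H : Type*} [Group G] [Group H] [Finite G] [Finite H]
    (h : ∀ n : ℕ, pc G n = pc H n) (n : ℕ) :
    Nat.card {g : G // orderOf g = n} = Nat.card {g : H // orderOf g = n} := by
  induction n using Nat.strong_induction_on with
  | _ n ih =>
    rcases Nat.eq_zero_or_pos n with rfl | hn
    · haveI : IsEmpty {g : G // orderOf g = 0} := ⟨fun g => (orderOf_pos g.1).ne' g.2⟩
      haveI : IsEmpty {g : H // orderOf g = 0} := ⟨fun g => (orderOf_pos g.1).ne' g.2⟩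
      simp only [Nat.card_of_isEmpty]
    have e := h n
    rw [pc_eq_sum hn, pc_eq_sum hn, ← Finset.add_sum_erase _ _ (Nat.mem_divisors_self n hn.ne'),
      ← Finset.add_sum_erase _ _ (Nat.mem_divisors_self n hn.ne'),
      Finset.sum_congr rfl (fun d hd => ih d (lt_of_le_of_ne
        (Nat.divisor_le (Finset.mem_of_mem_erase hd)) (Finset.ne_of_mem_erase hd)))] at e
    exact Nat.add_right_cancel e

theorem isSolvable_pi {G : Type*} [Group G] (hG : Group.IsSolvable G) (ι : Type*) :
    Group.IsSolvable (ι → G) := by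
  obtain ⟨n, hn⟩ := hG.solvable
  refine ⟨⟨n, ?_⟩⟩
  rw [eq_bot_iff]
  intro x hx
  rw [Subgroup.mem_bot]
  funext i
  have h := map_derivedSeries_le_derivedSeries (Pi.evalMonoidHom (fun _ : ι => G) i) n
    ⟨x, hx, rfl⟩
  rw [hn, Subgroup.mem_bot] at h
  exact h

/-- Geometric sum `1 + c + ... + c ^ (n - 1)`. -/
def geo {R : Type*} [CommRing R] (c : R) : ℕ → R
  | 0 => 0
  | n + 1 => 1 + c * geo c n

/-- `R ⋊ (ℤ/a × ℤ/b)` acting through the units `u`, `v`. -/
@[ext]
structure Diag (R : Type) [CommRing R] (a b : ℕ) [NeZero a] [NeZero b] (u v : R) where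
  x : R
  i : ZMod a
  j : ZMod b

/-- Witness that `u` and `v` have orders dividing `a` and `b`. -/
class DiagCond {R : Type} [CommRing R] (a b : ℕ) (u v : R) : Prop where
  pow_fst : u ^ a = 1
  pow_snd : v ^ b = 1

namespace Diag

variable {R : Type} [CommRing R] {a b : ℕ} [NeZero a] [NeZero b] {u v : R}

/-- The character. -/
def chi (u v : R) (i : ZMod a) (j : ZMod b) : R := u ^ i.val * v ^ j.val

theorem chi_add [h : DiagCond a b u v] (i k : ZMod a) (j l : ZMod b) :
    chi u v (i + k) (j + l) = chi u v i j * chi u v k l := by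
  unfold chi
  rw [ZMod.val_add, ← pow_eq_pow_mod _ h.pow_fst, ZMod.val_add, ← pow_eq_pow_mod _ h.pow_snd,
    pow_add, pow_add]
  ring

theorem chi_zero : chi u v (0 : ZMod a) (0 : ZMod b) = 1 := by simp [chi]

instance instOne : One (Diag R a b u v) := ⟨⟨0, 0, 0⟩⟩
instance instMul : Mul (Diag R a b u v) :=
  ⟨fun p q => ⟨p.x + chi u v p.i p.j * q.x, p.i + q.i, p.j + q.j⟩⟩
instance instInv : Inv (Diag R a b u v) :=
  ⟨fun p => ⟨-(chi u v (-p.i) (-p.j) * p.x), -p.i, -p.j⟩⟩

theorem one_def : (1 : Diag R a b u v) = ⟨0, 0, 0⟩ := rfl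
theorem mul_def (p q : Diag R a b u v) :
    p * q = ⟨p.x + chi u v p.i p.j * q.x, p.i + q.i, p.j + q.j⟩ := rfl
theorem inv_def (p : Diag R a b u v) :
    p⁻¹ = ⟨-(chi u v (-p.i) (-p.j) * p.x), -p.i, -p.j⟩ := rfl

instance instGroup [DiagCond a b u v] : Group (Diag R a b u v) :=
  Group.ofLeftAxioms
    (fun p q r => by
      simp only [mul_def, chi_add]
      ext <;> simp only <;> ring)
    (fun p => by simp [mul_def, one_def, chi_zero])
    (fun p => by simp [mul_def, one_def, inv_def])

/-- Coordinates. -/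
def equivProd : Diag R a b u v ≃ (R × ZMod a × ZMod b) where
  toFun p := (p.x, p.i, p.j)
  invFun q := ⟨q.1, q.2.1, q.2.2⟩
  left_inv _ := rfl
  right_inv _ := rfl

instance instFinite [Finite R] : Finite (Diag R a b u v) := Finite.of_equiv _ equivProd.symm

theorem pow_def [DiagCond a b u v] (p : Diag R a b u v) (n : ℕ) :
    p ^ n = ⟨geo (chi u v p.i p.j) n * p.x, n • p.i, n • p.j⟩ := by
  induction n with
  | zero => simp [one_def, geo]
  | succ n ih =>
    rw [pow_succ', ih, mul_def]
    ext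
    · simp only [geo]; ring
    · exact (succ_nsmul' p.i n).symm
    · exact (succ_nsmul' p.j n).symm

/-- Computable count of solutions of `x ^ n = 1`. -/
def cnt [Fintype R] [DecidableEq R] (u v : R) (a b : ℕ) [NeZero a] [NeZero b] (n : ℕ) : ℕ :=
  ∑ i : ZMod a, ∑ j : ZMod b,
    if (n * i.val) % a = 0 ∧ (n * j.val) % b = 0 then
      (Finset.univ.filter fun x : R => geo (chi u v i j) n * x = 0).card
    else 0

omit [CommRing R] in
theorem nsmul_eq_zero_iff_val (m : ℕ) [NeZero m] (n : ℕ) (i : ZMod m) :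
    n • i = 0 ↔ (n * i.val) % m = 0 := by
  conv_lhs => rw [← ZMod.natCast_zmod_val i, nsmul_eq_mul, ← Nat.cast_mul,
    ZMod.natCast_eq_zero_iff]
  exact Nat.dvd_iff_mod_eq_zero

theorem pc_eq [Fintype R] [DecidableEq R] [DiagCond a b u v] (n : ℕ) :
    pc (Diag R a b u v) n = cnt u v a b n := by
  rw [pc, cnt, Nat.card_congr (equivProd.subtypeEquiv (p := fun p : Diag R a b u v => p ^ n = 1)
    (q := fun q : R × ZMod a × ZMod b => ((n * q.2.1.val) % a = 0 ∧ (n * q.2.2.val) % b = 0) ∧
      geo (chi u v q.2.1 q.2.2) n * q.1 = 0) (fun p => by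
      rw [pow_def, one_def, Diag.ext_iff, nsmul_eq_zero_iff_val, nsmul_eq_zero_iff_val]
      exact and_comm)),
    Nat.card_eq_fintype_card, Fintype.card_subtype, Finset.card_filter,
    ← Finset.univ_product_univ, Finset.sum_product_right, ← Finset.univ_product_univ,
    Finset.sum_product]
  refine Finset.sum_congr rfl fun i _ => Finset.sum_congr rfl fun j _ => ?_
  rw [Finset.card_filter]
  by_cases h : (n * i.val) % a = 0 ∧ (n * j.val) % b = 0 <;> simp [h]

theorem isSolvable [DiagCond a b u v] : Group.IsSolvable (Diag R a b u v) := by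
  let f : Multiplicative R →* Diag R a b u v :=
    { toFun := fun x => ⟨x.toAdd, 0, 0⟩
      map_one' := rfl
      map_mul' := fun x y => by ext <;> simp [mul_def, chi_zero] }
  let g : Diag R a b u v →* Multiplicative (ZMod a × ZMod b) :=
    { toFun := fun p => Multiplicative.ofAdd (p.i, p.j)
      map_one' := rfl
      map_mul' := fun p q => rfl }
  haveI : Group.IsSolvable (Multiplicative R) := Group.isSolvable_of_comm mul_comm
  haveI : Group.IsSolvable (Multiplicative (ZMod a × ZMod b)) := Group.isSolvable_of_comm mul_comm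
  refine Group.isSolvable_of_ker_le_range f g fun p hp => ⟨Multiplicative.ofAdd p.x, ?_⟩
  have h := congrArg Multiplicative.toAdd (MonoidHom.mem_ker.mp hp)
  obtain ⟨h1, h2⟩ := Prod.ext_iff.mp h
  ext
  · rfl
  · exact h1.symm
  · exact h2.symm

end Diag

end CfsgLib.OrderType
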