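import Mathlib
import Cfsg.Agent.Lib.FgsOrderType
import Cfsg.Agent.Lib.PermSimple
/-! The atoms for the order-type example: GL(3,2), its affine subgroup of order 168, A4 and S4. -/

namespace CfsgLib.OrderType

open scoped commutatorElement

/-- 3 by 3 matrices over `ZMod 2`. -/
@[ext]
structure M32 where
  a : ZMod 2
  b : ZMod 2
  c : ZMod 2
  d : ZMod 2
  e : ZMod 2
  f : ZMod 2
  g : ZMod 2
  h : ZMod 2
  i : ZMod 2
deriving DecidableEq

namespace M32

/-- Product. -/
def mul (p q : M32) : M32 :=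
  ⟨p.a * q.a + p.b * q.d + p.c * q.g, p.a * q.b + p.b * q.e + p.c * q.h, p.a * q.c + p.b * q.f + p.c * q.i,
   p.d * q.a + p.e * q.d + p.f * q.g, p.d * q.b + p.e * q.e + p.f * q.h, p.d * q.c + p.e * q.f + p.f * q.i,
   p.g * q.a + p.h * q.d + p.i * q.g, p.g * q.b + p.h * q.e + p.i * q.h, p.g * q.c + p.h * q.f + p.i * q.i⟩

/-- Identity. -/
def id3 : M32 := ⟨1, 0, 0, 0, 1, 0, 0, 0, 1⟩

/-- Determinant. -/
def det (p : M32) : ZMod 2 :=
  p.a * (p.e * p.i - p.f * p.h) - p.b * (p.d * p.i - p.f * p.g) + p.c * (p.d * p.h - p.e * p.g)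

/-- Adjugate. -/
def adj (p : M32) : M32 :=
  ⟨p.e * p.i - p.f * p.h, p.c * p.h - p.b * p.i, p.b * p.f - p.c * p.e,
   p.f * p.g - p.d * p.i, p.a * p.i - p.c * p.g, p.c * p.d - p.a * p.f,
   p.d * p.h - p.e * p.g, p.b * p.g - p.a * p.h, p.a * p.e - p.b * p.d⟩

theorem mul_assoc' (p q r : M32) : mul (mul p q) r = mul p (mul q r) := by
  ext <;> simp only [mul] <;> ring

theorem id_mul (p : M32) : mul id3 p = p := by
  ext <;> simp only [mul, id3] <;> ring

theorem det_mul (p q : M32) : det (mul p q) = det p * det q := by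
  simp only [mul, det]; ring

theorem adj_mul (p : M32) (h : det p = 1) : mul (adj p) p = id3 := by
  simp only [det] at h
  ext <;> simp only [mul, adj, id3] <;> first | ring1 | linear_combination h

theorem det_adj (p : M32) (h : det p = 1) : det (adj p) = 1 := by
  have h2 := det_mul (adj p) p
  rw [adj_mul p h, h, mul_one] at h2
  exact h2.symm.trans (by decide)

/-- The action on row triples. -/
def act (p : M32) (v : ZMod 2 × ZMod 2 × ZMod 2) : ZMod 2 × ZMod 2 × ZMod 2 :=
  (p.a * v.1 + p.b * v.2.1 + p.c * v.2.2, p.d * v.1 + p.e * v.2.1 + p.f * v.2.2,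
   p.g * v.1 + p.h * v.2.1 + p.i * v.2.2)

theorem act_mul (p q : M32) (v : ZMod 2 × ZMod 2 × ZMod 2) : act (mul p q) v = act p (act q v) := by
  simp only [act, mul, Prod.mk.injEq]
  exact ⟨by ring, by ring, by ring⟩

theorem act_add (p : M32) (v w : ZMod 2 × ZMod 2 × ZMod 2) : act p (v + w) = act p v + act p w := by
  simp only [act, Prod.fst_add, Prod.snd_add, Prod.mk_add_mk, Prod.mk.injEq]
  exact ⟨by ring, by ring, by ring⟩

theorem act_id (v : ZMod 2 × ZMod 2 × ZMod 2) : act id3 v = v := by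
  obtain ⟨x, y, z⟩ := v
  simp only [act, id3, Prod.mk.injEq]
  exact ⟨by ring, by ring, by ring⟩

/-- Coordinates. -/
def equivTuple : M32 ≃ (ZMod 2 × ZMod 2 × ZMod 2) × (ZMod 2 × ZMod 2 × ZMod 2) × (ZMod 2 × ZMod 2 × ZMod 2) where
  toFun p := ((p.a, p.b, p.c), (p.d, p.e, p.f), (p.g, p.h, p.i))
  invFun t := ⟨t.1.1, t.1.2.1, t.1.2.2, t.2.1.1, t.2.1.2.1, t.2.1.2.2, t.2.2.1, t.2.2.2.1, t.2.2.2.2⟩
  left_inv _ := rfl
  right_inv _ := rfl

instance instFintypeM32 : Fintype M32 := Fintype.ofEquiv _ equivTuple.symm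

end M32

/-- `GL(3,2)`. -/
abbrev GL32 := {p : M32 // p.det = 1}

instance instOneGL32 : One GL32 := ⟨⟨M32.id3, by decide⟩⟩
instance instMulGL32 : Mul GL32 :=
  ⟨fun p q => ⟨M32.mul p.1 q.1, by rw [M32.det_mul, p.2, q.2, mul_one]⟩⟩
instance instInvGL32 : Inv GL32 := ⟨fun p => ⟨M32.adj p.1, M32.det_adj p.1 p.2⟩⟩
instance instGroupGL32 : Group GL32 :=
  Group.ofLeftAxioms (fun p q r => Subtype.ext (M32.mul_assoc' p.1 q.1 r.1))
    (fun p => Subtype.ext (M32.id_mul p.1)) (fun p => Subtype.ext (M32.adj_mul p.1 p.2))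

theorem not_isSolvable_GL32 : ¬ Group.IsSolvable GL32 := by
  intro h
  obtain ⟨n, hn⟩ := h.solvable
  set x : GL32 := ⟨⟨0, 0, 1, 0, 1, 0, 1, 0, 0⟩, by decide⟩
  set c : GL32 := ⟨⟨0, 0, 1, 0, 1, 0, 1, 1, 0⟩, by decide⟩
  set d : GL32 := ⟨⟨0, 0, 1, 0, 1, 1, 1, 0, 0⟩, by decide⟩
  have hx : x = ⁅c * x * c⁻¹, d * x * d⁻¹⁆ := by
    rw [commutatorElement_def]
    decide +kernel
  have hmem : ∀ k, x ∈ derivedSeries GL32 k := by
    intro k
    induction k with
    | zero => exact Subgroup.mem_top x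
    | succ k ih =>
      rw [hx, derivedSeries_succ]
      exact Subgroup.commutator_mem_commutator ((derivedSeries_normal GL32 k).conj_mem _ ih c)
        ((derivedSeries_normal GL32 k).conj_mem _ ih d)
  have h1 := hmem n
  rw [hn, Subgroup.mem_bot] at h1
  exact absurd h1 (by decide +kernel)

/-- Iterated product. -/
def powc {G : Type*} [Group G] (x : G) : ℕ → G
  | 0 => 1
  | n + 1 => x * powc x n

theorem powc_eq {G : Type*} [Group G] (x : G) (n : ℕ) : powc x n = x ^ n := by
  induction n with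
  | zero => simp [powc]
  | succ n ih => rw [powc, ih, pow_succ']

/-- Computable count of solutions. -/
def cntAll (G : Type*) [Group G] [Fintype G] [DecidableEq G] (n : ℕ) : ℕ :=
  (Finset.univ.filter fun x : G => powc x n = 1).card

theorem pc_eq_cntAll (G : Type*) [Group G] [Fintype G] [DecidableEq G] (n : ℕ) :
    pc G n = cntAll G n := by
  rw [pc, Nat.card_eq_fintype_card, Fintype.card_subtype, cntAll]
  simp only [powc_eq]

/-- The element of order seven. -/
def sinA : GL32 := ⟨⟨0, 0, 1, 1, 0, 1, 0, 1, 0⟩, by decide⟩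

/-- Membership in the normaliser of `sinA`. -/
abbrev InN (p : GL32) : Prop :=
  p * sinA = sinA * p ∨ p * sinA = sinA * sinA * p ∨ p * sinA = sinA * sinA * sinA * sinA * p

theorem inN_mul : ∀ p : GL32, InN p → ∀ q : GL32, InN q → InN (p * q) := by decide +kernel
theorem inN_inv : ∀ p : GL32, InN p → InN p⁻¹ := by decide +kernel

/-- The normaliser of order 21. -/
def sinN : Subgroup GL32 where
  carrier := {p | InN p}
  one_mem' := show InN 1 by decide +kernel
  mul_mem' := fun {p q} hp hq => inN_mul p hp q hq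
  inv_mem' := fun {p} hp => inN_inv p hp

instance instDecSinN : DecidablePred (· ∈ sinN) := fun p => inferInstanceAs (Decidable (InN p))

theorem isSolvable_sinN : Group.IsSolvable sinN := by
  let k : GL32 → ZMod 3 := fun p =>
    if p * sinA = sinA * p then 0 else if p * sinA = sinA * sinA * p then 1 else 2
  have hk : ∀ p : GL32, InN p → ∀ q : GL32, InN q → k (p * q) = k p + k q := by decide +kernel
  have hker : ∀ p : GL32, InN p → k p = 0 → ∀ q : GL32, InN q → k q = 0 → p * q = q * p := by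
    decide +kernel
  let f : sinN →* Multiplicative (ZMod 3) :=
    { toFun := fun p => Multiplicative.ofAdd (k p.1)
      map_one' := by
        have h : k (1 : GL32) = 0 := by decide +kernel
        exact congrArg Multiplicative.ofAdd h
      map_mul' := fun p q => congrArg Multiplicative.ofAdd (hk p.1 p.2 q.1 q.2) }
  haveI : Group.IsSolvable (Multiplicative (ZMod 3)) := Group.isSolvable_of_comm mul_comm
  haveI : Group.IsSolvable f.ker := Group.isSolvable_of_comm fun a b => Subtype.ext (Subtype.ext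
    (hker a.1.1 a.1.2 (congrArg Multiplicative.toAdd (MonoidHom.mem_ker.mp a.2))
      b.1.1 b.1.2 (congrArg Multiplicative.toAdd (MonoidHom.mem_ker.mp b.2))))
  exact Group.isSolvable_of_ker_le_range f.ker.subtype f (by rw [Subgroup.range_subtype])

/-- Wrapper carrying the affine product. -/
@[ext]
structure AF where
  v : ZMod 2 × ZMod 2 × ZMod 2
  m : sinN
deriving DecidableEq

instance instOneAF : One AF := ⟨⟨0, 1⟩⟩
instance instMulAF : Mul AF := ⟨fun p q => ⟨p.v + p.m.1.1.act q.v, p.m * q.m⟩⟩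
instance instInvAF : Inv AF := ⟨fun p => ⟨-(p.m⁻¹).1.1.act p.v, p.m⁻¹⟩⟩

theorem af_mul_def (p q : AF) : p * q = ⟨p.v + p.m.1.1.act q.v, p.m * q.m⟩ := rfl
theorem af_one_def : (1 : AF) = ⟨0, 1⟩ := rfl
theorem af_inv_def (p : AF) : p⁻¹ = ⟨-(p.m⁻¹).1.1.act p.v, p.m⁻¹⟩ := rfl

instance instGroupAF : Group AF :=
  Group.ofLeftAxioms
    (fun p q r => by
      simp only [af_mul_def]
      ext1
      · change p.v + p.m.1.1.act q.v + (M32.mul p.m.1.1 q.m.1.1).act r.v = _
        rw [M32.act_mul, M32.act_add, add_assoc]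
      · exact mul_assoc _ _ _)
    (fun p => by
      simp only [af_mul_def, af_one_def]
      ext1
      · change 0 + M32.id3.act p.v = p.v
        rw [M32.act_id, zero_add]
      · exact one_mul _)
    (fun p => by
      simp only [af_mul_def, af_one_def, af_inv_def]
      ext1
      · exact neg_add_cancel _
      · exact inv_mul_cancel _)

/-- Coordinates. -/
def afEquiv : AF ≃ (ZMod 2 × ZMod 2 × ZMod 2) × sinN where
  toFun p := (p.v, p.m)
  invFun q := ⟨q.1, q.2⟩
  left_inv _ := rfl
  right_inv _ := rfl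

instance instFintypeSinN : Fintype sinN := Subtype.fintype (fun p : GL32 => InN p)
instance instFintypeAF : Fintype AF := Fintype.ofEquiv _ afEquiv.symm

theorem isSolvable_AF : Group.IsSolvable AF := by
  let f : AF →* sinN := { toFun := AF.m, map_one' := rfl, map_mul' := fun _ _ => rfl }
  haveI := isSolvable_sinN
  haveI : Group.IsSolvable f.ker := Group.isSolvable_of_comm fun a b => by
    apply Subtype.ext
    have ha : a.1.m = 1 := MonoidHom.mem_ker.mp a.2
    have hb : b.1.m = 1 := MonoidHom.mem_ker.mp b.2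
    change a.1 * b.1 = b.1 * a.1
    simp only [af_mul_def, ha, hb]
    ext1
    · change a.1.v + M32.id3.act b.1.v = b.1.v + M32.id3.act a.1.v
      rw [M32.act_id, M32.act_id, add_comm]
    · rfl
  exact Group.isSolvable_of_ker_le_range f.ker.subtype f (by rw [Subgroup.range_subtype])

theorem isSolvable_perm_four : Group.IsSolvable (Equiv.Perm (Fin 4)) := by
  haveI := CfsgLib.Perm.isSolvable_alternating_four
  haveI : Group.IsSolvable ℤˣ := Group.isSolvable_of_comm mul_comm
  exact Group.isSolvable_of_ker_le_range (alternatingGroup (Fin 4)).subtype Equiv.Perm.sign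
    (by rw [Subgroup.range_subtype]; exact le_rfl)

end CfsgLib.OrderType
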