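import Mathlib
import Cfsg.Agent.Lib.FgsOrderTypeAtoms
/-! A solvable and a non-solvable group of the same order type. -/

namespace CfsgLib.OrderType

/-- Divisors of 84. -/
abbrev D84 : List ℕ := [1, 2, 3, 4, 6, 7, 12, 14, 21, 28, 42, 84]

theorem exp_of_pc {X : Type*} [Group X] [Finite X] {m : ℕ} (h : pc X m = Nat.card X) (g : X) :
    g ^ m = 1 := by
  classical
  haveI := Fintype.ofFinite X
  have hu : (Finset.univ.filter fun x : X => x ^ m = 1) = Finset.univ :=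
    Finset.eq_univ_of_card _ (by rw [← Fintype.card_subtype, ← Nat.card_eq_fintype_card, ← Nat.card_eq_fintype_card]; exact h)
  have hm := Finset.mem_univ g
  rw [← hu] at hm
  exact (Finset.mem_filter.mp hm).2

/-- Table. -/
def tbl0 (d : ℕ) : ℕ := ([1, 22, 57, 64, 78, 49, 120, 70, 105, 112, 126, 168] : List ℕ).getD (D84.idxOf d) 0

/-- Factor. -/
abbrev X0 := CfsgLib.OrderType.GL32

theorem val0 : ∀ d ∈ D84, pc X0 d = tbl0 d := by
  intro d hd
  rw [pc_eq_cntAll]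
  revert d hd
  decide +kernel

theorem card0 : Nat.card X0 = 168 := by
  rw [Nat.card_eq_fintype_card]
  decide +kernel

theorem exp0 (g : X0) : g ^ 84 = 1 :=
  exp_of_pc (by rw [val0 84 (by decide), card0]; decide +kernel) g

/-- Table. -/
def tbl1 (d : ℕ) : ℕ := ([1, 8, 57, 8, 120, 49, 120, 56, 105, 56, 168, 168] : List ℕ).getD (D84.idxOf d) 0

/-- Factor. -/
abbrev X1 := CfsgLib.OrderType.AF

theorem val1 : ∀ d ∈ D84, pc X1 d = tbl1 d := by
  intro d hd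
  rw [pc_eq_cntAll]
  revert d hd
  decide +kernel

theorem card1 : Nat.card X1 = 168 := by
  rw [Nat.card_eq_fintype_card]
  decide +kernel

theorem exp1 (g : X1) : g ^ 84 = 1 :=
  exp_of_pc (by rw [val1 84 (by decide), card1]; decide +kernel) g

/-- Table. -/
def tbl2 (d : ℕ) : ℕ := ([1, 2, 1, 2, 2, 1, 2, 2, 1, 2, 2, 2] : List ℕ).getD (D84.idxOf d) 0

instance cond2 : DiagCond 1 1 (1 : ZMod 2) (1 : ZMod 2) := ⟨by decide +kernel, by decide +kernel⟩

/-- Factor. -/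
abbrev X2 := Diag (ZMod 2) 1 1 1 1

theorem val2 : ∀ d ∈ D84, pc X2 d = tbl2 d := by
  intro d hd
  rw [Diag.pc_eq]
  revert d hd
  decide +kernel

theorem card2 : Nat.card X2 = 2 := by
  rw [Nat.card_congr Diag.equivProd, Nat.card_eq_fintype_card]
  decide +kernel

theorem exp2 (g : X2) : g ^ 84 = 1 :=
  exp_of_pc (by rw [val2 84 (by decide), card2]; decide +kernel) g

/-- Table. -/
def tbl3 (d : ℕ) : ℕ := ([1, 4, 3, 4, 6, 1, 6, 4, 3, 4, 6, 6] : List ℕ).getD (D84.idxOf d) 0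

instance cond3 : DiagCond 2 1 (2 : ZMod 3) (1 : ZMod 3) := ⟨by decide +kernel, by decide +kernel⟩

/-- Factor. -/
abbrev X3 := Diag (ZMod 3) 2 1 2 1

theorem val3 : ∀ d ∈ D84, pc X3 d = tbl3 d := by
  intro d hd
  rw [Diag.pc_eq]
  revert d hd
  decide +kernel

theorem card3 : Nat.card X3 = 6 := by
  rw [Nat.card_congr Diag.equivProd, Nat.card_eq_fintype_card]
  decide +kernel

theorem exp3 (g : X3) : g ^ 84 = 1 :=
  exp_of_pc (by rw [val3 84 (by decide), card3]; decide +kernel) g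

/-- Table. -/
def tbl4 (d : ℕ) : ℕ := ([1, 2, 3, 8, 6, 1, 12, 2, 3, 8, 6, 12] : List ℕ).getD (D84.idxOf d) 0

instance cond4 : DiagCond 4 1 (2 : ZMod 3) (1 : ZMod 3) := ⟨by decide +kernel, by decide +kernel⟩

/-- Factor. -/
abbrev X4 := Diag (ZMod 3) 4 1 2 1

theorem val4 : ∀ d ∈ D84, pc X4 d = tbl4 d := by
  intro d hd
  rw [Diag.pc_eq]
  revert d hd
  decide +kernel

theorem card4 : Nat.card X4 = 12 := by
  rw [Nat.card_congr Diag.equivProd, Nat.card_eq_fintype_card]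
  decide +kernel

theorem exp4 (g : X4) : g ^ 84 = 1 :=
  exp_of_pc (by rw [val4 84 (by decide), card4]; decide +kernel) g

/-- Table. -/
def tbl5 (d : ℕ) : ℕ := ([1, 1, 1, 1, 1, 7, 1, 7, 7, 7, 7, 7] : List ℕ).getD (D84.idxOf d) 0

instance cond5 : DiagCond 1 1 (1 : ZMod 7) (1 : ZMod 7) := ⟨by decide +kernel, by decide +kernel⟩

/-- Factor. -/
abbrev X5 := Diag (ZMod 7) 1 1 1 1

theorem val5 : ∀ d ∈ D84, pc X5 d = tbl5 d := by
  intro d hd
  rw [Diag.pc_eq]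
  revert d hd
  decide +kernel

theorem card5 : Nat.card X5 = 7 := by
  rw [Nat.card_congr Diag.equivProd, Nat.card_eq_fintype_card]
  decide +kernel

theorem exp5 (g : X5) : g ^ 84 = 1 :=
  exp_of_pc (by rw [val5 84 (by decide), card5]; decide +kernel) g

/-- Table. -/
def tbl6 (d : ℕ) : ℕ := ([1, 30, 1, 32, 30, 7, 32, 42, 7, 56, 42, 56] : List ℕ).getD (D84.idxOf d) 0

instance cond6 : DiagCond 2 1 ((3, 6) : ZMod 4 × ZMod 7) ((1, 1) : ZMod 4 × ZMod 7) := ⟨by decide +kernel, by decide +kernel⟩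

/-- Factor. -/
abbrev X6 := Diag (ZMod 4 × ZMod 7) 2 1 (3, 6) (1, 1)

theorem val6 : ∀ d ∈ D84, pc X6 d = tbl6 d := by
  intro d hd
  rw [Diag.pc_eq]
  revert d hd
  decide +kernel

theorem card6 : Nat.card X6 = 56 := by
  rw [Nat.card_congr Diag.equivProd, Nat.card_eq_fintype_card]
  decide +kernel

theorem exp6 (g : X6) : g ^ 84 = 1 :=
  exp_of_pc (by rw [val6 84 (by decide), card6]; decide +kernel) g

/-- Table. -/
def tbl7 (d : ℕ) : ℕ := ([1, 2, 1, 16, 2, 7, 16, 14, 7, 28, 14, 28] : List ℕ).getD (D84.idxOf d) 0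

instance cond7 : DiagCond 4 1 (6 : ZMod 7) (1 : ZMod 7) := ⟨by decide +kernel, by decide +kernel⟩

/-- Factor. -/
abbrev X7 := Diag (ZMod 7) 4 1 6 1

theorem val7 : ∀ d ∈ D84, pc X7 d = tbl7 d := by
  intro d hd
  rw [Diag.pc_eq]
  revert d hd
  decide +kernel

theorem card7 : Nat.card X7 = 28 := by
  rw [Nat.card_congr Diag.equivProd, Nat.card_eq_fintype_card]
  decide +kernel

theorem exp7 (g : X7) : g ^ 84 = 1 :=
  exp_of_pc (by rw [val7 84 (by decide), card7]; decide +kernel) g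

/-- Table. -/
def tbl8 (d : ℕ) : ℕ := ([1, 2, 1, 4, 2, 1, 4, 2, 1, 4, 2, 4] : List ℕ).getD (D84.idxOf d) 0

instance cond8 : DiagCond 1 1 (1 : ZMod 4) (1 : ZMod 4) := ⟨by decide +kernel, by decide +kernel⟩

/-- Factor. -/
abbrev X8 := Diag (ZMod 4) 1 1 1 1

theorem val8 : ∀ d ∈ D84, pc X8 d = tbl8 d := by
  intro d hd
  rw [Diag.pc_eq]
  revert d hd
  decide +kernel

theorem card8 : Nat.card X8 = 4 := by
  rw [Nat.card_congr Diag.equivProd, Nat.card_eq_fintype_card]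
  decide +kernel

theorem exp8 (g : X8) : g ^ 84 = 1 :=
  exp_of_pc (by rw [val8 84 (by decide), card8]; decide +kernel) g

/-- Table. -/
def tbl9 (d : ℕ) : ℕ := ([1, 8, 15, 8, 36, 7, 36, 14, 21, 14, 42, 42] : List ℕ).getD (D84.idxOf d) 0

instance cond9 : DiagCond 6 1 (3 : ZMod 7) (1 : ZMod 7) := ⟨by decide +kernel, by decide +kernel⟩

/-- Factor. -/
abbrev X9 := Diag (ZMod 7) 6 1 3 1

theorem val9 : ∀ d ∈ D84, pc X9 d = tbl9 d := by
  intro d hd
  rw [Diag.pc_eq]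
  revert d hd
  decide +kernel

theorem card9 : Nat.card X9 = 42 := by
  rw [Nat.card_congr Diag.equivProd, Nat.card_eq_fintype_card]
  decide +kernel

theorem exp9 (g : X9) : g ^ 84 = 1 :=
  exp_of_pc (by rw [val9 84 (by decide), card9]; decide +kernel) g

/-- Table. -/
def tbl10 (d : ℕ) : ℕ := ([1, 4, 9, 4, 12, 1, 12, 4, 9, 4, 12, 12] : List ℕ).getD (D84.idxOf d) 0

/-- Factor. -/
abbrev X10 := (alternatingGroup (Fin 4))

theorem val10 : ∀ d ∈ D84, pc X10 d = tbl10 d := by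
  intro d hd
  rw [pc_eq_cntAll]
  revert d hd
  decide +kernel

theorem card10 : Nat.card X10 = 12 := by
  rw [Nat.card_eq_fintype_card]
  decide +kernel

theorem exp10 (g : X10) : g ^ 84 = 1 :=
  exp_of_pc (by rw [val10 84 (by decide), card10]; decide +kernel) g

/-- Table. -/
def tbl11 (d : ℕ) : ℕ := ([1, 64, 9, 64, 72, 7, 72, 70, 63, 70, 126, 126] : List ℕ).getD (D84.idxOf d) 0

instance cond11 : DiagCond 2 1 ((2, 2, 6) : ZMod 3 × ZMod 3 × ZMod 7) ((1, 1, 1) : ZMod 3 × ZMod 3 × ZMod 7) := ⟨by decide +kernel, by decide +kernel⟩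

/-- Factor. -/
abbrev X11 := Diag (ZMod 3 × ZMod 3 × ZMod 7) 2 1 (2, 2, 6) (1, 1, 1)

theorem val11 : ∀ d ∈ D84, pc X11 d = tbl11 d := by
  intro d hd
  rw [Diag.pc_eq]
  revert d hd
  decide +kernel

theorem card11 : Nat.card X11 = 126 := by
  rw [Nat.card_congr Diag.equivProd, Nat.card_eq_fintype_card]
  decide +kernel

theorem exp11 (g : X11) : g ^ 84 = 1 :=
  exp_of_pc (by rw [val11 84 (by decide), card11]; decide +kernel) g

/-- Table. -/
def tbl12 (d : ℕ) : ℕ := ([1, 50, 1, 50, 50, 49, 50, 98, 49, 98, 98, 98] : List ℕ).getD (D84.idxOf d) 0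

instance cond12 : DiagCond 2 1 ((6, 6) : ZMod 7 × ZMod 7) ((1, 1) : ZMod 7 × ZMod 7) := ⟨by decide +kernel, by decide +kernel⟩

/-- Factor. -/
abbrev X12 := Diag (ZMod 7 × ZMod 7) 2 1 (6, 6) (1, 1)

theorem val12 : ∀ d ∈ D84, pc X12 d = tbl12 d := by
  intro d hd
  rw [Diag.pc_eq]
  revert d hd
  decide +kernel

theorem card12 : Nat.card X12 = 98 := by
  rw [Nat.card_congr Diag.equivProd, Nat.card_eq_fintype_card]
  decide +kernel

theorem exp12 (g : X12) : g ^ 84 = 1 :=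
  exp_of_pc (by rw [val12 84 (by decide), card12]; decide +kernel) g

/-- Table. -/
def tbl13 (d : ℕ) : ℕ := ([1, 1, 15, 1, 15, 7, 15, 7, 21, 7, 21, 21] : List ℕ).getD (D84.idxOf d) 0

instance cond13 : DiagCond 3 1 (2 : ZMod 7) (1 : ZMod 7) := ⟨by decide +kernel, by decide +kernel⟩

/-- Factor. -/
abbrev X13 := Diag (ZMod 7) 3 1 2 1

theorem val13 : ∀ d ∈ D84, pc X13 d = tbl13 d := by
  intro d hd
  rw [Diag.pc_eq]
  revert d hd
  decide +kernel

theorem card13 : Nat.card X13 = 21 := by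
  rw [Nat.card_congr Diag.equivProd, Nat.card_eq_fintype_card]
  decide +kernel

theorem exp13 (g : X13) : g ^ 84 = 1 :=
  exp_of_pc (by rw [val13 84 (by decide), card13]; decide +kernel) g

/-- Table. -/
def tbl14 (d : ℕ) : ℕ := ([1, 10, 9, 10, 18, 1, 18, 10, 9, 10, 18, 18] : List ℕ).getD (D84.idxOf d) 0

instance cond14 : DiagCond 2 1 ((2, 2) : ZMod 3 × ZMod 3) ((1, 1) : ZMod 3 × ZMod 3) := ⟨by decide +kernel, by decide +kernel⟩

/-- Factor. -/
abbrev X14 := Diag (ZMod 3 × ZMod 3) 2 1 (2, 2) (1, 1)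

theorem val14 : ∀ d ∈ D84, pc X14 d = tbl14 d := by
  intro d hd
  rw [Diag.pc_eq]
  revert d hd
  decide +kernel

theorem card14 : Nat.card X14 = 18 := by
  rw [Nat.card_congr Diag.equivProd, Nat.card_eq_fintype_card]
  decide +kernel

theorem exp14 (g : X14) : g ^ 84 = 1 :=
  exp_of_pc (by rw [val14 84 (by decide), card14]; decide +kernel) g

/-- Table. -/
def tbl15 (d : ℕ) : ℕ := ([1, 50, 15, 50, 162, 49, 162, 98, 147, 98, 294, 294] : List ℕ).getD (D84.idxOf d) 0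

instance cond15 : DiagCond 6 1 ((6, 3) : ZMod 7 × ZMod 7) ((1, 1) : ZMod 7 × ZMod 7) := ⟨by decide +kernel, by decide +kernel⟩

/-- Factor. -/
abbrev X15 := Diag (ZMod 7 × ZMod 7) 6 1 (6, 3) (1, 1)

theorem val15 : ∀ d ∈ D84, pc X15 d = tbl15 d := by
  intro d hd
  rw [Diag.pc_eq]
  revert d hd
  decide +kernel

theorem card15 : Nat.card X15 = 294 := by
  rw [Nat.card_congr Diag.equivProd, Nat.card_eq_fintype_card]
  decide +kernel

theorem exp15 (g : X15) : g ^ 84 = 1 :=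
  exp_of_pc (by rw [val15 84 (by decide), card15]; decide +kernel) g

/-- Table. -/
def tbl16 (d : ℕ) : ℕ := ([1, 156, 1, 256, 156, 49, 256, 588, 49, 784, 588, 784] : List ℕ).getD (D84.idxOf d) 0

instance cond16 : DiagCond 2 2 ((1, 6, 6) : ZMod 4 × ZMod 7 × ZMod 7) ((3, 1, 6) : ZMod 4 × ZMod 7 × ZMod 7) := ⟨by decide +kernel, by decide +kernel⟩

/-- Factor. -/
abbrev X16 := Diag (ZMod 4 × ZMod 7 × ZMod 7) 2 2 (1, 6, 6) (3, 1, 6)

theorem val16 : ∀ d ∈ D84, pc X16 d = tbl16 d := by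
  intro d hd
  rw [Diag.pc_eq]
  revert d hd
  decide +kernel

theorem card16 : Nat.card X16 = 784 := by
  rw [Nat.card_congr Diag.equivProd, Nat.card_eq_fintype_card]
  decide +kernel

theorem exp16 (g : X16) : g ^ 84 = 1 :=
  exp_of_pc (by rw [val16 84 (by decide), card16]; decide +kernel) g

/-- Table. -/
def tbl17 (d : ℕ) : ℕ := ([1, 44, 9, 104, 144, 7, 288, 56, 63, 224, 252, 504] : List ℕ).getD (D84.idxOf d) 0

instance cond17 : DiagCond 2 4 ((1, 2, 6) : ZMod 3 × ZMod 3 × ZMod 7) ((2, 1, 6) : ZMod 3 × ZMod 3 × ZMod 7) := ⟨by decide +kernel, by decide +kernel⟩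

/-- Factor. -/
abbrev X17 := Diag (ZMod 3 × ZMod 3 × ZMod 7) 2 4 (1, 2, 6) (2, 1, 6)

theorem val17 : ∀ d ∈ D84, pc X17 d = tbl17 d := by
  intro d hd
  rw [Diag.pc_eq]
  revert d hd
  decide +kernel

theorem card17 : Nat.card X17 = 504 := by
  rw [Nat.card_congr Diag.equivProd, Nat.card_eq_fintype_card]
  decide +kernel

theorem exp17 (g : X17) : g ^ 84 = 1 :=
  exp_of_pc (by rw [val17 84 (by decide), card17]; decide +kernel) g

/-- Table. -/
def tbl18 (d : ℕ) : ℕ := ([1, 52, 9, 52, 144, 7, 144, 112, 63, 112, 252, 252] : List ℕ).getD (D84.idxOf d) 0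

instance cond18 : DiagCond 2 2 ((1, 2, 6) : ZMod 3 × ZMod 3 × ZMod 7) ((2, 1, 6) : ZMod 3 × ZMod 3 × ZMod 7) := ⟨by decide +kernel, by decide +kernel⟩

/-- Factor. -/
abbrev X18 := Diag (ZMod 3 × ZMod 3 × ZMod 7) 2 2 (1, 2, 6) (2, 1, 6)

theorem val18 : ∀ d ∈ D84, pc X18 d = tbl18 d := by
  intro d hd
  rw [Diag.pc_eq]
  revert d hd
  decide +kernel

theorem card18 : Nat.card X18 = 252 := by
  rw [Nat.card_congr Diag.equivProd, Nat.card_eq_fintype_card]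
  decide +kernel

theorem exp18 (g : X18) : g ^ 84 = 1 :=
  exp_of_pc (by rw [val18 84 (by decide), card18]; decide +kernel) g

/-- Table. -/
def tbl19 (d : ℕ) : ℕ := ([1, 2, 9, 20, 18, 1, 36, 2, 9, 20, 18, 36] : List ℕ).getD (D84.idxOf d) 0

instance cond19 : DiagCond 4 1 ((2, 2) : ZMod 3 × ZMod 3) ((1, 1) : ZMod 3 × ZMod 3) := ⟨by decide +kernel, by decide +kernel⟩

/-- Factor. -/
abbrev X19 := Diag (ZMod 3 × ZMod 3) 4 1 (2, 2) (1, 1)

theorem val19 : ∀ d ∈ D84, pc X19 d = tbl19 d := by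
  intro d hd
  rw [Diag.pc_eq]
  revert d hd
  decide +kernel

theorem card19 : Nat.card X19 = 36 := by
  rw [Nat.card_congr Diag.equivProd, Nat.card_eq_fintype_card]
  decide +kernel

theorem exp19 (g : X19) : g ^ 84 = 1 :=
  exp_of_pc (by rw [val19 84 (by decide), card19]; decide +kernel) g

/-- Table. -/
def tbl20 (d : ℕ) : ℕ := ([1, 2, 9, 128, 18, 7, 144, 14, 63, 140, 126, 252] : List ℕ).getD (D84.idxOf d) 0

instance cond20 : DiagCond 4 1 ((2, 2, 6) : ZMod 3 × ZMod 3 × ZMod 7) ((1, 1, 1) : ZMod 3 × ZMod 3 × ZMod 7) := ⟨by decide +kernel, by decide +kernel⟩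

/-- Factor. -/
abbrev X20 := Diag (ZMod 3 × ZMod 3 × ZMod 7) 4 1 (2, 2, 6) (1, 1, 1)

theorem val20 : ∀ d ∈ D84, pc X20 d = tbl20 d := by
  intro d hd
  rw [Diag.pc_eq]
  revert d hd
  decide +kernel

theorem card20 : Nat.card X20 = 252 := by
  rw [Nat.card_congr Diag.equivProd, Nat.card_eq_fintype_card]
  decide +kernel

theorem exp20 (g : X20) : g ^ 84 = 1 :=
  exp_of_pc (by rw [val20 84 (by decide), card20]; decide +kernel) g

/-- Table. -/
def tbl21 (d : ℕ) : ℕ := ([1, 6, 1, 8, 6, 1, 8, 6, 1, 8, 6, 8] : List ℕ).getD (D84.idxOf d) 0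

instance cond21 : DiagCond 2 1 (3 : ZMod 4) (1 : ZMod 4) := ⟨by decide +kernel, by decide +kernel⟩

/-- Factor. -/
abbrev X21 := Diag (ZMod 4) 2 1 3 1

theorem val21 : ∀ d ∈ D84, pc X21 d = tbl21 d := by
  intro d hd
  rw [Diag.pc_eq]
  revert d hd
  decide +kernel

theorem card21 : Nat.card X21 = 8 := by
  rw [Nat.card_congr Diag.equivProd, Nat.card_eq_fintype_card]
  decide +kernel

theorem exp21 (g : X21) : g ^ 84 = 1 :=
  exp_of_pc (by rw [val21 84 (by decide), card21]; decide +kernel) g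

/-- Table. -/
def tbl22 (d : ℕ) : ℕ := ([1, 10, 9, 16, 18, 1, 24, 10, 9, 16, 18, 24] : List ℕ).getD (D84.idxOf d) 0

/-- Factor. -/
abbrev X22 := (Equiv.Perm (Fin 4))

theorem val22 : ∀ d ∈ D84, pc X22 d = tbl22 d := by
  intro d hd
  rw [pc_eq_cntAll]
  revert d hd
  decide +kernel

theorem card22 : Nat.card X22 = 24 := by
  rw [Nat.card_eq_fintype_card]
  decide +kernel

theorem exp22 (g : X22) : g ^ 84 = 1 :=
  exp_of_pc (by rw [val22 84 (by decide), card22]; decide +kernel) g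

/-- Table. -/
def tbl23 (d : ℕ) : ℕ := ([1, 2, 15, 100, 30, 49, 324, 98, 147, 196, 294, 588] : List ℕ).getD (D84.idxOf d) 0

instance cond23 : DiagCond 12 1 ((6, 3) : ZMod 7 × ZMod 7) ((1, 1) : ZMod 7 × ZMod 7) := ⟨by decide +kernel, by decide +kernel⟩

/-- Factor. -/
abbrev X23 := Diag (ZMod 7 × ZMod 7) 12 1 (6, 3) (1, 1)

theorem val23 : ∀ d ∈ D84, pc X23 d = tbl23 d := by
  intro d hd
  rw [Diag.pc_eq]
  revert d hd
  decide +kernel

theorem card23 : Nat.card X23 = 588 := by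
  rw [Nat.card_congr Diag.equivProd, Nat.card_eq_fintype_card]
  decide +kernel

theorem exp23 (g : X23) : g ^ 84 = 1 :=
  exp_of_pc (by rw [val23 84 (by decide), card23]; decide +kernel) g

/-- The non-solvable side. -/
abbrev GH := (Fin 3 → X0) × (Fin 11 → X2) × (Fin 3 → X4) × (Fin 4 → X6) × (Fin 5 → X7) × (Fin 3 → X10) × (Fin 3 → X11) × (Fin 4 → X13) × (Fin 3 → X15) × (Fin 3 → X18) × (Fin 3 → X19)

/-- The solvable side. -/
abbrev GS := (Fin 3 → X1) × (Fin 3 → X3) × (Fin 1 → X5) × (Fin 4 → X8) × (Fin 6 → X9) × (Fin 2 → X12) × (Fin 3 → X14) × (Fin 3 → X16) × (Fin 3 → X17) × (Fin 3 → X20) × (Fin 1 → X21) × (Fin 3 → X22) × (Fin 1 → X23)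

theorem isSolvable_GS : Group.IsSolvable GS := by
  haveI := isSolvable_pi isSolvable_AF (Fin 3)
  haveI := isSolvable_pi (Diag.isSolvable : Group.IsSolvable X3) (Fin 3)
  haveI := isSolvable_pi (Diag.isSolvable : Group.IsSolvable X5) (Fin 1)
  haveI := isSolvable_pi (Diag.isSolvable : Group.IsSolvable X8) (Fin 4)
  haveI := isSolvable_pi (Diag.isSolvable : Group.IsSolvable X9) (Fin 6)
  haveI := isSolvable_pi (Diag.isSolvable : Group.IsSolvable X12) (Fin 2)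
  haveI := isSolvable_pi (Diag.isSolvable : Group.IsSolvable X14) (Fin 3)
  haveI := isSolvable_pi (Diag.isSolvable : Group.IsSolvable X16) (Fin 3)
  haveI := isSolvable_pi (Diag.isSolvable : Group.IsSolvable X17) (Fin 3)
  haveI := isSolvable_pi (Diag.isSolvable : Group.IsSolvable X20) (Fin 3)
  haveI := isSolvable_pi (Diag.isSolvable : Group.IsSolvable X21) (Fin 1)
  haveI := isSolvable_pi isSolvable_perm_four (Fin 3)
  haveI := isSolvable_pi (Diag.isSolvable : Group.IsSolvable X23) (Fin 1)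
  infer_instance

theorem not_isSolvable_GH : ¬ Group.IsSolvable GH := by
  intro h
  have hs : Function.Surjective
      ((Pi.evalMonoidHom (fun _ : Fin 3 => X0) 0).comp (MonoidHom.fst _ _) : GH →* X0) :=
    fun x => ⟨(fun _ => x, 1), rfl⟩
  exact not_isSolvable_GL32 (Group.isSolvable_of_surjective hs)

theorem exp_GH (g : GH) : g ^ 84 = 1 := by
  simp only [Prod.ext_iff, funext_iff, Prod.pow_fst, Prod.pow_snd, Pi.pow_apply, Prod.fst_one, Prod.snd_one, Pi.one_apply]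
  exact ⟨fun j => exp0 _, fun j => exp2 _, fun j => exp4 _, fun j => exp6 _, fun j => exp7 _, fun j => exp10 _, fun j => exp11 _, fun j => exp13 _, fun j => exp15 _, fun j => exp18 _, fun j => exp19 _⟩

theorem pc_GH (d : ℕ) (hd : d ∈ D84) : pc GH d = tbl0 d ^ 3 * (tbl2 d ^ 11 * (tbl4 d ^ 3 * (tbl6 d ^ 4 * (tbl7 d ^ 5 * (tbl10 d ^ 3 * (tbl11 d ^ 3 * (tbl13 d ^ 4 * (tbl15 d ^ 3 * (tbl18 d ^ 3 * (tbl19 d ^ 3)))))))))) := by
  simp only [pc_prod, pc_pi, val0 d hd, val2 d hd, val4 d hd, val6 d hd, val7 d hd, val10 d hd, val11 d hd, val13 d hd, val15 d hd, val18 d hd, val19 d hd]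

theorem exp_GS (g : GS) : g ^ 84 = 1 := by
  simp only [Prod.ext_iff, funext_iff, Prod.pow_fst, Prod.pow_snd, Pi.pow_apply, Prod.fst_one, Prod.snd_one, Pi.one_apply]
  exact ⟨fun j => exp1 _, fun j => exp3 _, fun j => exp5 _, fun j => exp8 _, fun j => exp9 _, fun j => exp12 _, fun j => exp14 _, fun j => exp16 _, fun j => exp17 _, fun j => exp20 _, fun j => exp21 _, fun j => exp22 _, fun j => exp23 _⟩

theorem pc_GS (d : ℕ) (hd : d ∈ D84) : pc GS d = tbl1 d ^ 3 * (tbl3 d ^ 3 * (tbl5 d ^ 1 * (tbl8 d ^ 4 * (tbl9 d ^ 6 * (tbl12 d ^ 2 * (tbl14 d ^ 3 * (tbl16 d ^ 3 * (tbl17 d ^ 3 * (tbl20 d ^ 3 * (tbl21 d ^ 1 * (tbl22 d ^ 3 * (tbl23 d ^ 1)))))))))))) := by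
  simp only [pc_prod, pc_pi, val1 d hd, val3 d hd, val5 d hd, val8 d hd, val9 d hd, val12 d hd, val14 d hd, val16 d hd, val17 d hd, val20 d hd, val21 d hd, val22 d hd, val23 d hd]

theorem tables_eq : ∀ d ∈ D84, tbl0 d ^ 3 * (tbl2 d ^ 11 * (tbl4 d ^ 3 * (tbl6 d ^ 4 * (tbl7 d ^ 5 * (tbl10 d ^ 3 * (tbl11 d ^ 3 * (tbl13 d ^ 4 * (tbl15 d ^ 3 * (tbl18 d ^ 3 * (tbl19 d ^ 3)))))))))) = tbl1 d ^ 3 * (tbl3 d ^ 3 * (tbl5 d ^ 1 * (tbl8 d ^ 4 * (tbl9 d ^ 6 * (tbl12 d ^ 2 * (tbl14 d ^ 3 * (tbl16 d ^ 3 * (tbl17 d ^ 3 * (tbl20 d ^ 3 * (tbl21 d ^ 1 * (tbl22 d ^ 3 * (tbl23 d ^ 1)))))))))))) := by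
  decide +kernel

theorem same_pc (n : ℕ) : pc GS n = pc GH n := by
  rw [pc_gcd 84 exp_GS n, pc_gcd 84 exp_GH n]
  have hd : Nat.gcd n 84 ∈ D84 := (show ∀ k : ℕ, k < 85 → k ∣ 84 → k ∈ D84 by decide +kernel) _
    (Nat.lt_succ_of_le (Nat.le_of_dvd (by norm_num) (Nat.gcd_dvd_right n 84))) (Nat.gcd_dvd_right n 84)
  rw [pc_GS _ hd, pc_GH _ hd, tables_eq _ hd]

end CfsgLib.OrderType
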