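import Cfsg.Agent.Lib.CoreBasic
import Cfsg.Agent.Lib.CorePSolvable
import Cfsg.Agent.Lib.LocalSolvable
import Mathlib.GroupTheory.Sylow

/-!
Maximal subgroups that are `p`-nilpotent or of prime index, and the `p`-length.
-/

set_option autoImplicit false

namespace CfsgLib.PLengthMax

open Subgroup
open scoped Pointwise

variable {G : Type*} [Group G] [Finite G] {p : ℕ} [hp : Fact p.Prime]

/-- If every maximal subgroup has prime index, the Sylow subgroup for the largest prime is normal. -/
theorem sylow_normal_of_prime_index (hmax : ∀ M : Subgroup G, IsCoatom M → M.index.Prime)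
    {r : ℕ} [hr : Fact r.Prime] (hbig : ∀ s : ℕ, s.Prime → s ∣ Nat.card G → s ≤ r) (R : Sylow r G) :
    (R : Subgroup G).Normal := by
  rw [← Subgroup.normalizer_eq_top_iff]
  by_contra hne
  obtain ⟨M, hM, hNM⟩ := (eq_top_or_exists_le_coatom _).resolve_left hne
  have hRM : (R : Subgroup G) ≤ M := Subgroup.le_normalizer.trans hNM
  have hs := hmax M hM
  have h1 : Nat.card (Sylow r G) ≡ 1 [MOD r] := card_sylow_modEq_one r G
  have h2 : Nat.card (Sylow r M) ≡ 1 [MOD r] := card_sylow_modEq_one r M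
  rw [R.card_eq_index_normalizer] at h1
  rw [(R.subtype hRM).card_eq_index_normalizer,
    show ((R.subtype hRM : Sylow r M) : Set M) = (((R : Subgroup G).subgroupOf M : Subgroup M) : Set M) from rfl] at h2
  have h3 : Subgroup.normalizer (((R : Subgroup G).subgroupOf M : Subgroup M) : Set M) =
      (Subgroup.normalizer ((R : Subgroup G) : Set G)).subgroupOf M := by
    ext ⟨x, hx⟩
    rw [Subgroup.mem_subgroupOf, Subgroup.mem_normalizer_iff, Subgroup.mem_normalizer_iff]
    constructor
    · intro h y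
      by_cases hy : y ∈ M
      · simpa [Subgroup.mem_subgroupOf] using h ⟨y, hy⟩
      · refine iff_of_false (fun h' => hy (hRM h')) fun h' => hy ?_
        have := M.mul_mem (M.mul_mem (M.inv_mem hx) (hRM h')) hx
        simpa [mul_assoc] using this
    · intro h y
      simpa [Subgroup.mem_subgroupOf] using h y
  rw [h3] at h2
  change (Subgroup.normalizer ((R : Subgroup G) : Set G)).relIndex M ≡ 1 [MOD r] at h2
  change (Subgroup.normalizer ((R : Subgroup G) : Set G)).index ≡ 1 [MOD r] at h1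
  rw [← Subgroup.relIndex_mul_index hNM] at h1
  have h4 : M.index ≡ 1 [MOD r] := by
    have := h1.symm.trans (h2.mul_right M.index)
    rw [one_mul] at this
    exact this.symm
  have hle := hbig _ hs M.index_dvd_card
  have hr' : M.index ≠ r := fun h => R.not_dvd_index ((dvd_of_eq h.symm).trans (Subgroup.index_dvd_of_le hRM))
  have := Nat.ModEq.eq_of_lt_of_lt h4 (lt_of_le_of_ne hle hr') hr.out.one_lt
  exact hs.ne_one this

theorem core_chain (hG : Cfsg.IsPSolvable p G) (hO : Cfsg.pPrimeCore p G = ⊥)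
    (hmax : ∀ M : Subgroup G, IsCoatom M → (∃ K : Subgroup ↥M, K.Normal ∧ ¬ p ∣ Nat.card K ∧ ∃ k : ℕ, K.index = p ^ k) ∨ (M.index).Prime) :
    ∃ B C : Subgroup G, B.Normal ∧ C.Normal ∧ B ≤ C ∧ (∃ k : ℕ, Nat.card B = p ^ k) ∧
      ¬ p ∣ B.relIndex C ∧ ∃ k : ℕ, C.index = p ^ k := by
  haveI hQn : (Cfsg.pCore p G).Normal := CfsgLib.Core.normal_pCore p
  have hQp : IsPGroup p (Cfsg.pCore p G) := CfsgLib.Core.isPGroup_pCore p
  set Q := Cfsg.pCore p G with hQd
  have hQcard : ∃ k : ℕ, Nat.card Q = p ^ k := IsPGroup.iff_card.mp hQp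
  by_cases htop : Q = ⊤
  · exact ⟨Q, Q, hQn, hQn, le_rfl, hQcard, by simp [Subgroup.relIndex_self, hp.out.ne_one],
      ⟨0, by rw [htop, Subgroup.index_top, pow_zero]⟩⟩
  have hQbot : Q ≠ ⊥ := by
    intro h
    have hc := CfsgLib.Core.centralizer_pCore_le_of_isPSolvable hG hO
    rw [← hQd, h] at hc
    apply htop
    rw [h, eq_top_iff]
    exact fun x _ => hc (Subgroup.mem_centralizer_iff.2 fun y hy => by
      rw [Subgroup.mem_bot.1 hy, one_mul, mul_one])
  by_cases hall : ∀ M : Subgroup G, IsCoatom M → M.index.Prime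
  · have hne : (Nat.card G).primeFactors.Nonempty := by
      refine ⟨p, Nat.mem_primeFactors.2 ⟨hp.out, ?_, Nat.card_pos.ne'⟩⟩
      obtain ⟨k, hk⟩ := hQcard
      have hk0 : k ≠ 0 := fun h => hQbot (Subgroup.card_eq_one.1 (by rw [hk, h, pow_zero]))
      exact (dvd_pow_self p hk0).trans (hk ▸ Subgroup.card_subgroup_dvd_card Q)
    set r := (Nat.card G).primeFactors.max' hne with hr
    have hrm := Nat.mem_primeFactors.1 ((Nat.card G).primeFactors.max'_mem hne)
    haveI : Fact r.Prime := ⟨hrm.1⟩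
    let R : Sylow r G := Classical.arbitrary _
    haveI hRn := sylow_normal_of_prime_index hall (fun s hs hsd =>
      Finset.le_max' _ s (Nat.mem_primeFactors.2 ⟨hs, hsd, Nat.card_pos.ne'⟩)) R
    by_cases hrp : r = p
    · have hidx : ¬ p ∣ (R : Subgroup G).index := fun h => R.not_dvd_index (hrp.symm ▸ h)
      refine ⟨R, ⊤, hRn, inferInstance, le_top, ?_, ?_, ⟨0, by rw [Subgroup.index_top, pow_zero]⟩⟩
      · obtain ⟨k, hk⟩ := IsPGroup.iff_card.mp R.2
        exact ⟨k, hrp ▸ hk⟩
      · rwa [Subgroup.relIndex_top_right]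
    · exfalso
      have hRb : (R : Subgroup G) = ⊥ := by
        rw [eq_bot_iff, ← hO]
        refine CfsgLib.Core.le_pPrimeCore hRn ?_
        obtain ⟨k, hk⟩ := IsPGroup.iff_card.mp R.2
        rw [hk]
        exact ((Nat.coprime_primes hrm.1 hp.out).2 hrp).pow_left k
      refine R.not_dvd_index ?_
      rw [hRb, Subgroup.index_bot]
      exact hrm.2.1
  push Not at hall
  obtain ⟨M, hM, hMi⟩ := hall
  obtain ⟨K, hKn, hKc, k, hKi⟩ := (hmax M hM).resolve_right hMi
  haveI := hKn
  set K' := K.map M.subtype with hK'd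
  have hK'c : Nat.card K' = Nat.card K := Subgroup.card_map_of_injective M.subtype_injective
  by_cases hQM : Q ≤ M
  · -- then `M` is a `p`-group
    have hK'b : K' = ⊥ := by
      have hK'C : K' ≤ Subgroup.centralizer (Q : Set G) := by
        rintro _ ⟨x, hx, rfl⟩
        rw [Subgroup.mem_centralizer_iff]
        intro q hq
        have hdisj : Disjoint K (Q.subgroupOf M) := by
          rw [disjoint_iff]
          refine CfsgLib.Core.inf_eq_bot_of_coprime ?_
          obtain ⟨a, ha⟩ := hQcard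
          rw [Nat.card_congr (Subgroup.subgroupOfEquivOfLe hQM).toEquiv, ha]
          exact ((hp.out.coprime_iff_not_dvd.2 hKc).pow_left a).symm
        exact congrArg Subtype.val (Subgroup.commute_of_normal_of_disjoint K (Q.subgroupOf M)
          inferInstance inferInstance hdisj x ⟨q, hQM hq⟩ hx hq).eq.symm
      have hle := hK'C.trans (CfsgLib.Core.centralizer_pCore_le_of_isPSolvable hG hO)
      rw [← Subgroup.card_eq_one, hK'c]
      obtain ⟨a, ha⟩ := hQcard
      exact Nat.eq_one_of_dvd_coprimes ((hp.out.coprime_iff_not_dvd.2 hKc).pow_left a)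
        (ha ▸ hK'c ▸ Subgroup.card_dvd_of_le hle) dvd_rfl
    have hMp : IsPGroup p M := IsPGroup.of_card (n := k) (by
      rw [← K.card_mul_index, ← hK'c, hK'b, Subgroup.card_bot, one_mul, hKi])
    have hq := CfsgLib.Core.pCore_quotient_pCore (G := G) p
    obtain ⟨N, hN, -, hNb, hNc⟩ := CfsgLib.Core.exists_normal_le_of_isPSolvable
      (CfsgLib.Core.isPSolvable_of_surjective (QuotientGroup.mk' Q) (QuotientGroup.mk'_surjective _) hG)
      (X := (⊤ : Subgroup (G ⧸ Q))) (by
        intro h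
        apply htop
        rw [← QuotientGroup.ker_mk' Q, ← MonoidHom.comap_bot, ← h, Subgroup.comap_top])
    have hNc' : (Nat.card N).Coprime p := by
      refine hNc.resolve_left fun hpN => hNb (le_bot_iff.1 ?_)
      rw [← hq]
      exact CfsgLib.Core.le_pCore hN hpN
    set C := N.comap (QuotientGroup.mk' Q) with hCd
    haveI hCn : C.Normal := hN.comap _
    have hQC : Q ≤ C := fun x hx => by
      rw [hCd, Subgroup.mem_comap, QuotientGroup.mk'_apply, (QuotientGroup.eq_one_iff x).2 hx]
      exact one_mem _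
    have hrel : Q.relIndex C = Nat.card N := by
      conv_lhs => rw [← QuotientGroup.ker_mk' Q]
      rw [Subgroup.relIndex_ker, hCd,
        Subgroup.map_comap_eq_self_of_surjective (QuotientGroup.mk'_surjective _)]
    have hCM : ¬ C ≤ M := by
      intro h
      obtain ⟨a, ha⟩ := IsPGroup.iff_card.mp (hMp.to_le h)
      have hd : Q.relIndex C ∣ p ^ a := ha ▸ Subgroup.index_dvd_card _
      rw [hrel] at hd
      exact hNb (Subgroup.card_eq_one.1 (Nat.eq_one_of_dvd_coprimes (hNc'.pow_right a) dvd_rfl hd))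
    have hsup : M ⊔ C = ⊤ := hM.2 _ (lt_of_le_of_ne le_sup_left fun h => hCM (h ▸ le_sup_right))
    refine ⟨Q, C, hQn, hCn, hQC, hQcard, ?_, ?_⟩
    · rw [hrel]
      exact hp.out.coprime_iff_not_dvd.1 hNc'.symm
    · obtain ⟨a, ha⟩ := IsPGroup.iff_card.mp hMp
      have : C.index ∣ p ^ a := by
        rw [← Subgroup.relIndex_top_right, ← hsup, Subgroup.relIndex_sup_right, ← ha]
        exact Subgroup.index_dvd_card _
      obtain ⟨b, -, hb⟩ := (Nat.dvd_prime_pow hp.out).1 this
      exact ⟨b, hb⟩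
  · have hsup : M ⊔ Q = ⊤ := hM.2 _ (lt_of_le_of_ne le_sup_left fun h => hQM (h ▸ le_sup_right))
    let π : M →* G ⧸ Q := (QuotientGroup.mk' Q).comp M.subtype
    have hπ : Function.Surjective π := by
      intro y
      obtain ⟨x, rfl⟩ := QuotientGroup.mk'_surjective Q y
      obtain ⟨m, hm, q, hq, rfl⟩ := Subgroup.mem_sup_of_normal_right.1
        (show x ∈ M ⊔ Q by rw [hsup]; exact Subgroup.mem_top x)
      exact ⟨⟨m, hm⟩, QuotientGroup.eq.2 (by simpa using hq)⟩
    haveI hNn : (K.map π).Normal := hKn.map π hπ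
    set C := (K.map π).comap (QuotientGroup.mk' Q) with hCd
    haveI hCn : C.Normal := hNn.comap _
    have hQC : Q ≤ C := fun x hx => by
      rw [hCd, Subgroup.mem_comap, QuotientGroup.mk'_apply, (QuotientGroup.eq_one_iff x).2 hx]
      exact one_mem _
    refine ⟨Q, C, hQn, hCn, hQC, hQcard, ?_, ?_⟩
    · have hrel : Q.relIndex C = Nat.card (K.map π) := by
        conv_lhs => rw [← QuotientGroup.ker_mk' Q]
        rw [Subgroup.relIndex_ker, hCd,
          Subgroup.map_comap_eq_self_of_surjective (QuotientGroup.mk'_surjective _)]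
      rw [hrel]
      exact fun h => hKc (h.trans (Subgroup.card_map_dvd _ π))
    · have : C.index ∣ p ^ k := by
        rw [hCd, Subgroup.index_comap_of_surjective _ (QuotientGroup.mk'_surjective _), ← hKi]
        exact Subgroup.index_map_dvd K hπ
      obtain ⟨b, -, hb⟩ := (Nat.dvd_prime_pow hp.out).1 this
      exact ⟨b, hb⟩

/-- The chain for a general group. -/
theorem chain (hG : Cfsg.IsPSolvable p G)
    (hmax : ∀ M : Subgroup G, IsCoatom M → (∃ K : Subgroup ↥M, K.Normal ∧ ¬ p ∣ Nat.card K ∧ ∃ k : ℕ, K.index = p ^ k) ∨ (M.index).Prime) :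
    ∃ A B C : Subgroup G, A.Normal ∧ B.Normal ∧ C.Normal ∧ A ≤ B ∧ B ≤ C ∧ ¬ p ∣ Nat.card A ∧
      (∃ k : ℕ, A.relIndex B = p ^ k) ∧ ¬ p ∣ B.relIndex C ∧ ∃ k : ℕ, C.index = p ^ k := by
  haveI hAn : (Cfsg.pPrimeCore p G).Normal := CfsgLib.Core.normal_pPrimeCore p
  set A := Cfsg.pPrimeCore p G with hAd
  set f := QuotientGroup.mk' A with hfd
  have hf : Function.Surjective f := QuotientGroup.mk'_surjective A
  have hmax' : ∀ M : Subgroup (G ⧸ A), IsCoatom M →
      (∃ K : Subgroup ↥M, K.Normal ∧ ¬ p ∣ Nat.card K ∧ ∃ k : ℕ, K.index = p ^ k) ∨ (M.index).Prime := by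
    intro M hM
    have hcoat : IsCoatom (M.comap f) := by
      refine ⟨fun h => hM.1 ?_, fun X hX => ?_⟩
      · rw [← Subgroup.map_comap_eq_self_of_surjective hf M, h, Subgroup.map_top_of_surjective f hf]
      · have hker : f.ker ≤ X := (MonoidHom.ker_le_comap f M).trans hX.le
        have h2 : M < X.map f := by
          refine lt_of_le_of_ne ?_ fun h => hX.ne ?_
          · rw [← Subgroup.map_comap_eq_self_of_surjective hf M]
            exact Subgroup.map_mono hX.le
          · rw [h, Subgroup.comap_map_eq_self hker]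
        rw [← Subgroup.comap_map_eq_self hker, hM.2 _ h2, Subgroup.comap_top]
    rcases hmax _ hcoat with ⟨K, hKn, hKc, k, hKi⟩ | h
    · left
      let g : ↥(M.comap f) →* ↥M := f.subgroupComap M
      have hg : Function.Surjective g := by
        rintro ⟨y, hy⟩
        obtain ⟨x, rfl⟩ := hf y
        exact ⟨⟨x, hy⟩, rfl⟩
      refine ⟨K.map g, hKn.map g hg, fun h => hKc (h.trans (Subgroup.card_map_dvd _ g)), ?_⟩
      obtain ⟨b, -, hb⟩ := (Nat.dvd_prime_pow hp.out).1 (hKi ▸ Subgroup.index_map_dvd K hg)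
      exact ⟨b, hb⟩
    · right
      rwa [Subgroup.index_comap_of_surjective _ hf] at h
  obtain ⟨B, C, hB, hC, hBC, ⟨a, ha⟩, hrel, b, hb⟩ := core_chain
    (CfsgLib.Core.isPSolvable_of_surjective f hf hG)
    (CfsgLib.Core.pPrimeCore_quotient_pPrimeCore (G := G) p) hmax'
  refine ⟨A, B.comap f, C.comap f, hAn, hB.comap f, hC.comap f, ?_, Subgroup.comap_mono hBC,
    CfsgLib.Core.not_dvd_card_pPrimeCore p, ⟨a, ?_⟩, ?_,
    ⟨b, by rw [Subgroup.index_comap_of_surjective _ hf, hb]⟩⟩
  · intro x hx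
    rw [Subgroup.mem_comap, hfd, QuotientGroup.mk'_apply, (QuotientGroup.eq_one_iff x).2 hx]
    exact one_mem _
  · have : A.relIndex (B.comap f) = f.ker.relIndex (B.comap f) :=
      congrArg (fun X : Subgroup G => X.relIndex (B.comap f)) (QuotientGroup.ker_mk' A).symm
    rw [this, Subgroup.relIndex_ker, Subgroup.map_comap_eq_self_of_surjective hf, ha]
  · rw [Subgroup.relIndex_comap, Subgroup.map_comap_eq_self_of_surjective hf]
    exact hrel

end CfsgLib.PLengthMax
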