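import Mathlib

/-!
Submultiplicativity of the number of conjugacy classes of π-elements, by counting commuting pairs.
-/

set_option autoImplicit false

namespace CfsgLib.PiClasses

open MulAction

/-- A π-element. -/
def IsPiEl {H : Type*} [Group H] (π : Set ℕ) (x : H) : Prop := ∀ q : ℕ, q.Prime → q ∣ orderOf x → q ∈ π

theorem isPiEl_conj {H : Type*} [Group H] (π : Set ℕ) (g x : H) : IsPiEl π (g * x * g⁻¹) ↔ IsPiEl π x := by
  unfold IsPiEl
  rw [show orderOf (g * x * g⁻¹) = orderOf x from MulEquiv.orderOf_eq (MulAut.conj g) x]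

/-- The commuting pairs with first member a π-element are `k_π(H) |H|` in number. -/
theorem card_classes_mul {H : Type*} [Group H] [Finite H] (π : Set ℕ) :
    Nat.card {C : ConjClasses H // ∀ q : ℕ, q.Prime → (∃ g : H, ConjClasses.mk g = C ∧ q ∣ orderOf g) → q ∈ π} *
      Nat.card H = Nat.card {p : H × H // IsPiEl π p.1 ∧ p.2 * p.1 = p.1 * p.2} := by
  classical
  letI : MulAction H {x : H // IsPiEl π x} :=
    { smul := fun g x => ⟨g * x.1 * g⁻¹, (isPiEl_conj π g x.1).mpr x.2⟩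
      one_smul := fun x => Subtype.ext (by show (1 : H) * x.1 * 1⁻¹ = x.1; simp)
      mul_smul := fun a b x => Subtype.ext (by
        show a * b * x.1 * (a * b)⁻¹ = a * (b * x.1 * b⁻¹) * a⁻¹
        simp [mul_assoc]) }
  let Ω := Quotient (MulAction.orbitRel H {x : H // IsPiEl π x})
  have e1 : Nat.card Ω = Nat.card
      {C : ConjClasses H // ∀ q : ℕ, q.Prime → (∃ g : H, ConjClasses.mk g = C ∧ q ∣ orderOf g) → q ∈ π} := by
    refine Nat.card_eq_of_bijective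
      (Quotient.lift (fun x : {x : H // IsPiEl π x} =>
        (⟨ConjClasses.mk x.1, fun q hq ⟨g, hg, hd⟩ => by
          obtain ⟨c, hc⟩ := isConj_iff.mp (ConjClasses.mk_eq_mk_iff_isConj.mp hg)
          exact x.2 q hq (by rwa [← hc, show orderOf (c * g * c⁻¹) = orderOf g from MulEquiv.orderOf_eq (MulAut.conj c) g])⟩ :
          {C : ConjClasses H // ∀ q : ℕ, q.Prime → (∃ g : H, ConjClasses.mk g = C ∧ q ∣ orderOf g) → q ∈ π}))
        (fun a b hab => by
          obtain ⟨g, hg⟩ := hab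
          refine Subtype.ext (ConjClasses.mk_eq_mk_iff_isConj.mpr (IsConj.symm (isConj_iff.mpr ⟨g, ?_⟩)))
          exact congrArg Subtype.val hg)) ⟨?_, ?_⟩
    · rintro ⟨a⟩ ⟨b⟩ hab
      obtain ⟨c, hc⟩ := isConj_iff.mp (ConjClasses.mk_eq_mk_iff_isConj.mp (congrArg Subtype.val hab).symm)
      exact Quotient.sound ⟨c, Subtype.ext hc⟩
    · rintro ⟨C, hC⟩
      obtain ⟨x, rfl⟩ := ConjClasses.exists_rep C
      exact ⟨Quotient.mk _ ⟨x, fun q hq hd => hC q hq ⟨x, rfl, hd⟩⟩, rfl⟩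
  rw [← e1, ← Nat.card_prod, ← Nat.card_congr (MulAction.sigmaFixedByEquivOrbitsProdGroup H {x : H // IsPiEl π x})]
  refine Nat.card_congr
    { toFun := fun p => ⟨(p.2.1.1, p.1), p.2.1.2, mul_inv_eq_iff_eq_mul.mp (congrArg Subtype.val p.2.2)⟩
      invFun := fun p => ⟨p.1.2, ⟨⟨p.1.1, p.2.1⟩, Subtype.ext (mul_inv_eq_iff_eq_mul.mpr p.2.2)⟩⟩
      left_inv := fun p => rfl
      right_inv := fun p => rfl }

/-- An exponent cutting out π-parts. -/
theorem exists_exponent {M : ℕ} (hM : 0 < M) (π : Set ℕ) :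
    ∃ e : ℕ, (∀ d : ℕ, d ∣ M → (∀ q : ℕ, q.Prime → q ∣ d → q ∈ π) → e ≡ 1 [MOD d]) ∧
      (∃ A : ℕ, 0 < A ∧ M ∣ e * A ∧ ∀ q : ℕ, q.Prime → q ∣ A → q ∈ π) := by
  classical
  set A := ∏ p ∈ M.primeFactors.filter (· ∈ π), p ^ M.factorization p with hA
  set B := ∏ p ∈ M.primeFactors.filter (fun p => ¬ p ∈ π), p ^ M.factorization p with hB
  have hAB : A * B = M := by
    rw [hA, hB, Finset.prod_filter_mul_prod_filter_not]
    exact Nat.factorization_prod_pow_eq_self hM.ne'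
  have hAπ : ∀ q : ℕ, q.Prime → q ∣ A → q ∈ π := by
    intro q hq hd
    obtain ⟨p, hp, hdp⟩ := (hq.prime.dvd_finsetProd_iff _).mp hd
    rw [Finset.mem_filter] at hp
    rw [(Nat.prime_dvd_prime_iff_eq hq (Nat.prime_of_mem_primeFactors hp.1)).mp (hq.dvd_of_dvd_pow hdp)]
    exact hp.2
  have hBπ : ∀ q : ℕ, q.Prime → q ∣ B → q ∉ π := by
    intro q hq hd
    obtain ⟨p, hp, hdp⟩ := (hq.prime.dvd_finsetProd_iff _).mp hd
    rw [Finset.mem_filter] at hp
    rw [(Nat.prime_dvd_prime_iff_eq hq (Nat.prime_of_mem_primeFactors hp.1)).mp (hq.dvd_of_dvd_pow hdp)]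
    exact hp.2
  have hcop : A.Coprime B := Nat.coprime_of_dvd fun q hq ha hb => hBπ q hq hb (hAπ q hq ha)
  obtain ⟨e, he1, he0⟩ := Nat.chineseRemainder hcop 1 0
  refine ⟨e, fun d hd hdπ => ?_, A, ?_, ?_, hAπ⟩
  · refine he1.of_dvd ?_
    have hcd : d.Coprime B := Nat.coprime_of_dvd fun q hq ha hb => hBπ q hq hb (hdπ q hq ha)
    exact hcd.dvd_of_dvd_mul_right (hAB ▸ hd)
  · exact Nat.pos_of_ne_zero fun e0 => by rw [e0, zero_mul] at hAB; omega
  · rw [← hAB, mul_comm e A]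
    exact Nat.mul_dvd_mul_left A (Nat.modEq_zero_iff_dvd.mp he0)

theorem pow_eq_self {H : Type*} [Group H] {x : H} {e : ℕ} (h : e ≡ 1 [MOD orderOf x]) : x ^ e = x := by
  rw [pow_eq_pow_iff_modEq.mpr h, pow_one]

section Main

variable {G : Type*} [Group G] [Finite G] (N : Subgroup G) [N.Normal] (π : Set ℕ)

/-- Commuting pairs over a given pair of cosets. -/
theorem fibre_le (q₁ q₂ : G ⧸ N) :
    Nat.card {p : G × G // (IsPiEl π p.1 ∧ p.2 * p.1 = p.1 * p.2) ∧ (p.1 : G ⧸ N) = q₁ ∧ (p.2 : G ⧸ N) = q₂} ≤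
      Nat.card {p : N × N // IsPiEl π p.1 ∧ p.2 * p.1 = p.1 * p.2} := by
  classical
  obtain ⟨e, he1, A, hA0, heA, hAπ⟩ := exists_exponent (Nat.card_pos (α := G)) π
  have hpow : ∀ x : G, IsPiEl π x → x ^ e = x := fun x hx => pow_eq_self (he1 _ (orderOf_dvd_natCard x) hx)
  have hpi : ∀ x : G, IsPiEl π (x ^ e) := fun x q hq hd => by
    refine hAπ q hq (hd.trans (orderOf_dvd_of_pow_eq_one ?_))
    rw [← pow_mul]
    exact orderOf_dvd_iff_pow_eq_one.mp ((orderOf_dvd_natCard x).trans heA)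
  have hcoe : ∀ a : N, IsPiEl π a ↔ IsPiEl π (a : G) := fun a => by unfold IsPiEl; rw [Subgroup.orderOf_coe]
  -- first shift: the second member into `N`
  let X := {p : G × G // (IsPiEl π p.1 ∧ p.2 * p.1 = p.1 * p.2) ∧ (p.1 : G ⧸ N) = q₁ ∧ p.2 ∈ N}
  have step1 : Nat.card {p : G × G // (IsPiEl π p.1 ∧ p.2 * p.1 = p.1 * p.2) ∧ (p.1 : G ⧸ N) = q₁ ∧ (p.2 : G ⧸ N) = q₂}
      ≤ Nat.card X := by
    let base : G → G := fun x => if h : ∃ y : G, y * x = x * y ∧ (y : G ⧸ N) = q₂ then h.choose else 1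
    have hbase : ∀ x y : G, y * x = x * y → (y : G ⧸ N) = q₂ → base x * x = x * base x ∧ (base x : G ⧸ N) = q₂ := by
      intro x y h1 h2
      have h : ∃ y : G, y * x = x * y ∧ (y : G ⧸ N) = q₂ := ⟨y, h1, h2⟩
      simp only [base, dif_pos h]
      exact h.choose_spec
    refine Nat.card_le_card_of_injective (fun p => ⟨(p.1.1, (base p.1.1)⁻¹ * p.1.2), ?_⟩) ?_
    · obtain ⟨h1, h2⟩ := hbase p.1.1 p.1.2 p.2.1.2 p.2.2.2
      refine ⟨⟨p.2.1.1, ?_⟩, p.2.2.1, ?_⟩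
      · exact ((Commute.inv_left h1).mul_left p.2.1.2).eq
      · rw [← QuotientGroup.eq_one_iff, QuotientGroup.mk_mul, QuotientGroup.mk_inv, h2, p.2.2.2, inv_mul_cancel]
    · rintro ⟨⟨x, y⟩, hp⟩ ⟨⟨x', y'⟩, hp'⟩ he
      simp only [X, Subtype.mk.injEq, Prod.mk.injEq] at he
      obtain ⟨rfl, he⟩ := he
      exact Subtype.ext (Prod.ext rfl (mul_left_cancel he))
  -- second shift: exchange of π-parts
  let Y := {p : G × G // (IsPiEl π p.1 ∧ p.2 * p.1 = p.1 * p.2) ∧ p.1 ∈ N ∧ (p.2 : G ⧸ N) = q₁}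
  have step2 : Nat.card X ≤ Nat.card Y := by
    refine Nat.card_le_card_of_injective (fun p => ⟨(p.1.2 ^ e, p.1.1 * (p.1.2 * (p.1.2 ^ e)⁻¹)), ?_⟩) ?_
    · have hc : Commute p.1.1 p.1.2 := (Commute.symm p.2.1.2)
      refine ⟨⟨hpi _, ?_⟩, N.pow_mem p.2.2.2 e, ?_⟩
      · exact ((hc.pow_right e).mul_left
          (((Commute.refl p.1.2).pow_right e).mul_left (Commute.refl (p.1.2 ^ e)).inv_left)).eq
      · rw [QuotientGroup.mk_mul, (QuotientGroup.eq_one_iff _).mpr (N.mul_mem p.2.2.2 (N.inv_mem (N.pow_mem p.2.2.2 e))),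
          mul_one, p.2.2.1]
    · rintro ⟨⟨x, y⟩, hp⟩ ⟨⟨x', y'⟩, hp'⟩ hee
      have hx := hp.1.1
      have hxy := hp.1.2
      have hx' := hp'.1.1
      have hxy' := hp'.1.2
      have hval := congrArg Subtype.val hee
      have ha := congrArg Prod.fst hval
      have hb := congrArg Prod.snd hval
      dsimp only at ha hb hxy hxy' hx hx'
      have key : ∀ x y : G, IsPiEl π x → y * x = x * y → (x * (y * (y ^ e)⁻¹)) ^ e = x := by
        intro x y hx hxy
        have hc : Commute x y := Commute.symm hxy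
        have h1 : Commute x (y * (y ^ e)⁻¹) := hc.mul_right (hc.pow_right e).inv_right
        have h2 : Commute y (y ^ e)⁻¹ := ((Commute.refl y).pow_right e).inv_right
        rw [h1.mul_pow, hpow x hx, h2.mul_pow, inv_pow, hpow _ (hpi y), mul_inv_cancel, mul_one]
      have e1 : x = x' := by
        rw [← key x y hx hxy, hb, key x' y' hx' hxy']
      subst e1
      have e2 : y = y' := by
        have h3 := mul_left_cancel hb
        rw [ha] at h3
        exact mul_right_cancel h3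
      subst e2
      rfl
  -- third shift: the second member into `N`
  refine step1.trans (step2.trans ?_)
  let base : G → G := fun a => if h : ∃ y : G, y * a = a * y ∧ (y : G ⧸ N) = q₁ then h.choose else 1
  have hbase : ∀ a y : G, y * a = a * y → (y : G ⧸ N) = q₁ → base a * a = a * base a ∧ (base a : G ⧸ N) = q₁ := by
    intro a y h1 h2
    have h : ∃ y : G, y * a = a * y ∧ (y : G ⧸ N) = q₁ := ⟨y, h1, h2⟩
    simp only [base, dif_pos h]
    exact h.choose_spec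
  refine Nat.card_le_card_of_injective (fun p => ⟨(⟨p.1.1, p.2.2.1⟩, ⟨(base p.1.1)⁻¹ * p.1.2, ?_⟩), ?_, ?_⟩) ?_
  · rw [← QuotientGroup.eq_one_iff, QuotientGroup.mk_mul, QuotientGroup.mk_inv,
      (hbase p.1.1 p.1.2 p.2.1.2 p.2.2.2).2, p.2.2.2, inv_mul_cancel]
  · exact (hcoe _).mpr p.2.1.1
  · refine Subtype.ext ?_
    exact ((Commute.inv_left (hbase p.1.1 p.1.2 p.2.1.2 p.2.2.2).1).mul_left p.2.1.2).eq
  · rintro ⟨⟨a, y⟩, hp⟩ ⟨⟨a', y'⟩, hp'⟩ he
    simp only [Subtype.mk.injEq, Prod.mk.injEq] at he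
    obtain ⟨rfl, he⟩ := he
    exact Subtype.ext (Prod.ext rfl (mul_left_cancel he))

theorem main :
    Nat.card {C : ConjClasses G // ∀ q : ℕ, q.Prime → (∃ g : G, ConjClasses.mk g = C ∧ q ∣ orderOf g) → q ∈ π} ≤
      Nat.card {C : ConjClasses N // ∀ q : ℕ, q.Prime → (∃ g : N, ConjClasses.mk g = C ∧ q ∣ orderOf g) → q ∈ π} *
      Nat.card {C : ConjClasses (G ⧸ N) //
        ∀ q : ℕ, q.Prime → (∃ g : (G ⧸ N), ConjClasses.mk g = C ∧ q ∣ orderOf g) → q ∈ π} := by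
  classical
  refine Nat.le_of_mul_le_mul_right ?_ (Nat.card_pos (α := G))
  rw [card_classes_mul, show ∀ a b : ℕ, a * b * Nat.card G = (a * Nat.card N) * (b * Nat.card (G ⧸ N)) by
    intro a b; rw [Subgroup.card_eq_card_quotient_mul_card_subgroup N]; ring, card_classes_mul, card_classes_mul]
  haveI := Fintype.ofFinite {p : (G ⧸ N) × (G ⧸ N) // IsPiEl π p.1 ∧ p.2 * p.1 = p.1 * p.2}
  let f : {p : G × G // IsPiEl π p.1 ∧ p.2 * p.1 = p.1 * p.2} →
      {p : (G ⧸ N) × (G ⧸ N) // IsPiEl π p.1 ∧ p.2 * p.1 = p.1 * p.2} := fun p =>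
    ⟨((p.1.1 : G ⧸ N), (p.1.2 : G ⧸ N)),
      fun q hq hd => p.2.1 q hq (hd.trans (orderOf_map_dvd (QuotientGroup.mk' N) p.1.1)),
      congrArg (QuotientGroup.mk' N) p.2.2⟩
  rw [← Nat.card_congr (Equiv.sigmaFiberEquiv f), Nat.card_sigma]
  refine (Finset.sum_le_card_nsmul _ _ _ fun b _ => ?_).trans
    (le_of_eq (by rw [Finset.card_univ, ← Nat.card_eq_fintype_card, smul_eq_mul, mul_comm]))
  refine le_trans ?_ (fibre_le N π b.1.1 b.1.2)
  refine Nat.card_le_card_of_injective (fun p => ⟨p.1.1, p.1.2, ?_, ?_⟩) ?_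
  · exact congrArg (fun z => z.1.1) p.2
  · exact congrArg (fun z => z.1.2) p.2
  · intro p p' he
    exact Subtype.ext (Subtype.ext (congrArg (fun z => z.1) he))

end Main

end CfsgLib.PiClasses
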