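import Mathlib

/-!
The number of classes of `π`-elements is at most the `π`-part of the order.
-/

set_option autoImplicit false

namespace CfsgLib.FgsPiClasses

universe u

/-- Classes consisting of solutions of `x ^ m = 1`. -/
abbrev RootClass (G : Type u) [Group G] (m : ℕ) : Type u :=
  {K : ConjClasses G // ∀ g : G, ConjClasses.mk g = K → g ^ m = 1}

theorem card_classes_le : ∀ (m : ℕ) (G : Type u) [Group G] [Finite G], 0 < m →
    (∀ q : ℕ, q.Prime → q ∣ m → (Nat.card G).factorization q ≤ m.factorization q) →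
    Nat.card (RootClass G m) ≤ m := by
  intro m
  induction m using Nat.strong_induction_on with
  | _ m ih =>
    intro G _ _ hm hH
    classical
    by_cases hm1 : m = 1
    · subst hm1
      haveI : Subsingleton (RootClass G 1) := ⟨fun K L => Subtype.ext (by
        obtain ⟨g, hg⟩ := K.1.exists_rep
        obtain ⟨h, hh⟩ := L.1.exists_rep
        rw [← hg, ← hh]
        congr 1
        have e1 := K.2 g hg
        have e2 := L.2 h hh
        rw [pow_one] at e1 e2
        rw [e1, e2])⟩
      exact Finite.card_le_one_iff_subsingleton.2 inferInstance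
    obtain ⟨p, hp, hpm⟩ := Nat.exists_prime_and_dvd hm1
    haveI := Fact.mk hp
    obtain ⟨a, m', hm', hme⟩ := Nat.exists_eq_pow_mul_and_not_dvd hm.ne' p hp.ne_one
    have hm'0 : 0 < m' := Nat.pos_of_ne_zero fun h => hm' (h ▸ dvd_zero p)
    have ha0 : a ≠ 0 := fun h => hm' (by rw [hme, h, pow_zero, one_mul] at hpm; exact hpm)
    have hlt : m' < m := by
      rw [hme]; exact lt_mul_of_one_lt_left hm'0 (Nat.one_lt_pow ha0 hp.one_lt)
    have hcop : (p ^ a).Coprime m' := (hp.coprime_iff_not_dvd.2 hm').pow_left a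
    obtain ⟨e, he1, he0⟩ := Nat.chineseRemainder hcop 1 0
    obtain ⟨f, hf0, hf1⟩ := Nat.chineseRemainder hcop 0 1
    have hef : e + f ≡ 1 [MOD m] := by
      rw [hme]
      exact (Nat.modEq_and_modEq_iff_modEq_mul hcop).1
        ⟨by simpa using he1.add hf0, by simpa using he0.add hf1⟩
    have hpow : ∀ (x : G), x ^ m = 1 → x ^ e * x ^ f = x ∧ (x ^ e) ^ p ^ a = 1 ∧ (x ^ f) ^ m' = 1 := by
      intro x hx
      have hd : orderOf x ∣ m := orderOf_dvd_of_pow_eq_one hx
      refine ⟨?_, ?_, ?_⟩
      · rw [← pow_add, pow_eq_pow_iff_modEq.2 (hef.of_dvd hd), pow_one]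
      · rw [← pow_mul, ← orderOf_dvd_iff_pow_eq_one]
        obtain ⟨j, hj⟩ := Nat.modEq_zero_iff_dvd.1 he0
        exact hd.trans ⟨j, by rw [hme, hj]; ring⟩
      · rw [← pow_mul, ← orderOf_dvd_iff_pow_eq_one]
        obtain ⟨j, hj⟩ := Nat.modEq_zero_iff_dvd.1 hf0
        exact hd.trans ⟨j, by rw [hme, hj]; ring⟩
    have hfp : ∀ q : ℕ, q.Prime → q ∣ m' → m.factorization q = m'.factorization q := by
      intro q hq hqm
      have hqp : q ≠ p := fun h => hm' (h ▸ hqm)
      rw [hme, Nat.factorization_mul (pow_ne_zero _ hp.ne_zero) hm'0.ne', Finsupp.add_apply,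
        hp.factorization_pow, Finsupp.single_apply, if_neg (Ne.symm hqp), zero_add]
    haveI := Fintype.ofFinite (RootClass G m)
    -- the classes of the `p`-parts
    let key : RootClass G m → ConjClasses G := fun K => ConjClasses.mk (K.1.out ^ e)
    have hrep : ∀ K : RootClass G m, ConjClasses.mk K.1.out = K.1 := fun K => K.1.out_eq
    obtain ⟨P⟩ : Nonempty (Sylow p G) := inferInstance
    have hPc : Nat.card (P : Subgroup G) ≤ p ^ a := by
      rw [P.card_eq_multiplicity]
      refine Nat.pow_le_pow_right hp.pos ((hH p hp hpm).trans (le_of_eq ?_))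
      rw [hme, Nat.factorization_mul (pow_ne_zero _ hp.ne_zero) hm'0.ne', Finsupp.add_apply,
        hp.factorization_pow, Finsupp.single_eq_same, Nat.factorization_eq_zero_of_not_dvd hm', add_zero]
    have himg : (Finset.univ.image key).card ≤ p ^ a := by
      haveI := Fintype.ofFinite (P : Subgroup G)
      refine le_trans ?_ hPc
      rw [Nat.card_eq_fintype_card, ← Finset.card_univ]
      refine (Finset.card_le_card ?_).trans
        (Finset.card_image_le (f := fun u : (P : Subgroup G) => ConjClasses.mk (u : G)))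
      intro c hc
      obtain ⟨K, -, rfl⟩ := Finset.mem_image.1 hc
      have hu : IsPGroup p (Subgroup.zpowers (K.1.out ^ e)) := fun z => by
        obtain ⟨i, hi⟩ := Subgroup.mem_zpowers_iff.1 z.2
        refine ⟨a, Subtype.ext ?_⟩
        rw [Subgroup.coe_pow, ← hi, ← zpow_natCast, ← zpow_mul, mul_comm, zpow_mul, zpow_natCast,
          (hpow _ (K.2 _ (hrep K))).2.1, one_zpow, Subgroup.coe_one]
      obtain ⟨Q, hQ⟩ := hu.exists_le_sylow
      obtain ⟨g, hg⟩ := MulAction.exists_smul_eq G Q P
      have hmem : g * K.1.out ^ e * g⁻¹ ∈ (P : Subgroup G) := by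
        rw [← hg, Sylow.coe_subgroup_smul, Subgroup.mem_pointwise_smul_iff_inv_smul_mem]
        generalize K.1.out ^ e = u0 at hQ ⊢
        simpa [MulAut.smul_def, mul_assoc] using hQ (Subgroup.mem_zpowers u0)
      exact Finset.mem_image.2 ⟨⟨_, hmem⟩, Finset.mem_univ _,
        ConjClasses.mk_eq_mk_iff_isConj.2 (isConj_iff.2 ⟨g⁻¹, by group⟩)⟩
    have hfib : ∀ c ∈ Finset.univ.image key, (Finset.univ.filter fun K => key K = c).card ≤ m' := by
      intro c hc
      set u := c.out with hu
      set C := Subgroup.centralizer ({u} : Set G) with hC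
      have hCm : Nat.card (RootClass C m') ≤ m' := by
        refine ih m' hlt C hm'0 fun q hq hqm => ?_
        refine le_trans ?_ ((hH q hq (hqm.trans (hme ▸ dvd_mul_left m' _))).trans (hfp q hq hqm).le)
        exact (Nat.factorization_le_iff_dvd Nat.card_pos.ne' Nat.card_pos.ne').2
          C.card_subgroup_dvd_card q
      -- a representative whose `p`-part is `u`
      have hx : ∀ K : {K // key K = c}, ∃ x : G, ConjClasses.mk x = K.1.1 ∧ x ^ e = u := by
        intro K
        have h1 : ConjClasses.mk (K.1.1.out ^ e) = ConjClasses.mk u := K.2.trans c.out_eq.symm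
        obtain ⟨g, hg⟩ := isConj_iff.1 (ConjClasses.mk_eq_mk_iff_isConj.1 h1)
        refine ⟨g * K.1.1.out * g⁻¹, ?_, by rw [conj_pow, hg]⟩
        conv_rhs => rw [← hrep K.1]
        exact ConjClasses.mk_eq_mk_iff_isConj.2 (isConj_iff.2 ⟨g⁻¹, by group⟩)
      choose x hxK hxu using hx
      let v : {K // key K = c} → C := fun K => ⟨x K ^ f, Subgroup.mem_centralizer_singleton_iff.2
        (by rw [← hxu K]; exact ((Commute.refl (x K)).pow_pow f e).eq)⟩
      let ψ : {K // key K = c} → RootClass C m' := fun K => ⟨ConjClasses.mk (v K), fun w hw => by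
        obtain ⟨g, hg⟩ := isConj_iff.1 (ConjClasses.mk_eq_mk_iff_isConj.1 hw).symm
        rw [← hg, conj_pow, show v K ^ m' = 1 from
          Subtype.ext (hpow _ (K.1.2 _ (hxK K))).2.2, mul_one, mul_inv_cancel]⟩
      have hinj : Function.Injective ψ := by
        intro K L h
        obtain ⟨g, hg⟩ := isConj_iff.1 (ConjClasses.mk_eq_mk_iff_isConj.1 (congrArg Subtype.val h))
        have hgv : (g : G) * x K ^ f * (g : G)⁻¹ = x L ^ f := congrArg Subtype.val hg
        have hgu : (g : G) * u * (g : G)⁻¹ = u := by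
          rw [Subgroup.mem_centralizer_singleton_iff.1 g.2, mul_inv_cancel_right]
        apply Subtype.ext
        apply Subtype.ext
        rw [← hxK K, ← hxK L]
        refine ConjClasses.mk_eq_mk_iff_isConj.2 (isConj_iff.2 ⟨g, ?_⟩)
        have e1 : x K ^ e * x K ^ f = x K := (hpow _ (K.1.2 _ (hxK K))).1
        have e2 : x L ^ e * x L ^ f = x L := (hpow _ (L.1.2 _ (hxK L))).1
        calc (g : G) * x K * (g : G)⁻¹ = ((g : G) * u * (g : G)⁻¹) * ((g : G) * x K ^ f * (g : G)⁻¹) := by
              conv_lhs => rw [← e1, hxu K]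
              group
          _ = x L ^ e * x L ^ f := by rw [hgu, hgv, hxu L]
          _ = x L := e2
      refine le_trans (le_of_eq ?_) ((Nat.card_le_card_of_injective ψ hinj).trans hCm)
      rw [Nat.card_eq_fintype_card, Fintype.card_subtype]
    rw [Nat.card_eq_fintype_card, ← Finset.card_univ,
      Finset.card_eq_sum_card_image key]
    refine le_of_le_of_eq ?_ hme.symm
    calc ∑ c ∈ Finset.univ.image key, (Finset.univ.filter fun K => key K = c).card
        ≤ ∑ _c ∈ Finset.univ.image key, m' := Finset.sum_le_sum hfib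
      _ = (Finset.univ.image key).card * m' := by rw [Finset.sum_const, smul_eq_mul]
      _ ≤ p ^ a * m' := Nat.mul_le_mul_right _ himg

end CfsgLib.FgsPiClasses
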