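import Mathlib
/-! At least three primes between n and 2n, for large n. -/

namespace CfsgLib.PrimeInterval

open Nat

theorem succ_le_two_pow_div_seven : ∀ s : ℕ, 42 ≤ s → s + 1 ≤ 2 ^ (s / 7) := by
  intro s
  induction s using Nat.strong_induction_on with
  | _ s ih =>
    intro hs
    by_cases h : s < 49
    · interval_cases s <;> norm_num
    · have h1 := ih (s - 7) (by omega) (by omega)
      have h2 : s / 7 = (s - 7) / 7 + 1 := by omega
      rw [h2, pow_succ]
      omega

theorem main_inequality {n : ℕ} (hn : 1024 ≤ n) :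
    n * (2 * n) ^ (Nat.sqrt (2 * n) + 2) * 4 ^ (2 * n / 3) ≤ 4 ^ n := by
  set s := Nat.sqrt (2 * n) with hs
  have h1 : s * s ≤ 2 * n := Nat.sqrt_le (2 * n)
  have h2 : 2 * n < (s + 1) * (s + 1) := Nat.lt_succ_sqrt (2 * n)
  have hs45 : 45 ≤ s := by
    rw [hs, Nat.le_sqrt]
    omega
  have h3 : n * (2 * n) ^ (s + 2) ≤ (s + 1) ^ (2 * s + 6) := by
    calc n * (2 * n) ^ (s + 2) ≤ ((s + 1) * (s + 1)) * ((s + 1) * (s + 1)) ^ (s + 2) :=
          Nat.mul_le_mul (by omega) (Nat.pow_le_pow_left h2.le _)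
      _ = (s + 1) ^ (2 * s + 6) := by
          rw [← pow_two, ← pow_mul, ← pow_add]
          congr 1
          omega
  have h4 : (s + 1) ^ (2 * s + 6) ≤ 2 ^ (s / 7 * (2 * s + 6)) := by
    rw [pow_mul]
    exact Nat.pow_le_pow_left (succ_le_two_pow_div_seven s (by omega)) _
  have h5 : s / 7 * (2 * s + 6) + 2 * (2 * n / 3) ≤ 2 * n := by
    have h6 : s / 7 * 7 ≤ s := Nat.div_mul_le_self s 7
    have h7 : 2 * n / 3 * 3 ≤ 2 * n := Nat.div_mul_le_self _ _
    nlinarith
  calc n * (2 * n) ^ (s + 2) * 4 ^ (2 * n / 3)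
      ≤ 2 ^ (s / 7 * (2 * s + 6)) * 4 ^ (2 * n / 3) := Nat.mul_le_mul_right _ (h3.trans h4)
    _ = 2 ^ (s / 7 * (2 * s + 6) + 2 * (2 * n / 3)) := by
        rw [show (4 : ℕ) = 2 ^ 2 from rfl, ← pow_mul, ← pow_add]
    _ ≤ 2 ^ (2 * n) := Nat.pow_le_pow_right two_pos h5
    _ = 4 ^ n := by rw [show (4 : ℕ) = 2 ^ 2 from rfl, ← pow_mul]

/-- For `n ≥ 1024` there are at least three primes in `(n, 2 n]`. -/
theorem three_le_card_primes {n : ℕ} (hn : 1024 ≤ n) :
    3 ≤ ((Finset.Ioc n (2 * n)).filter Nat.Prime).card := by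
  by_contra hlt
  set T := (Finset.Ioc n (2 * n)).filter Nat.Prime with hT
  set f := fun p => p ^ n.centralBinom.factorization p with hf
  have hn0 : 0 < n := by omega
  have hbig : ∀ p ∈ Finset.range (2 * n + 1), ¬ p ≤ 2 * n / 3 → p ∉ T → f p = 1 := by
    intro p hp hp3 hpT
    rw [Finset.mem_range] at hp
    by_cases hpp : p.Prime
    · have hpn : p ≤ n := by
        by_contra h
        exact hpT (Finset.mem_filter.mpr ⟨Finset.mem_Ioc.mpr ⟨by omega, by omega⟩, hpp⟩)
      rw [hf]
      simp only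
      rw [factorization_centralBinom_of_two_mul_self_lt_three_mul (by omega) hpn (by omega), pow_zero]
    · rw [hf]
      simp only
      rw [factorization_eq_zero_of_not_prime n.centralBinom hpp, pow_zero]
  have hsplit : n.centralBinom ≤ (∏ p ∈ Finset.range (2 * n / 3 + 1), f p) * ∏ p ∈ T, f p := by
    have hdisj : Disjoint (Finset.range (2 * n / 3 + 1)) T := by
      rw [Finset.disjoint_left]
      intro p hp hpT
      rw [Finset.mem_range] at hp
      have := Finset.mem_Ioc.mp (Finset.mem_filter.mp hpT).1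
      omega
    refine le_of_eq ?_
    rw [← Finset.prod_union hdisj]
    conv_lhs => rw [← n.prod_pow_factorization_centralBinom]
    refine (Finset.prod_subset ?_ fun p hp hpn => ?_).symm
    · intro p hp
      rw [Finset.mem_range]
      rcases Finset.mem_union.mp hp with h | h
      · rw [Finset.mem_range] at h; omega
      · have := Finset.mem_Ioc.mp (Finset.mem_filter.mp h).1; omega
    · rw [Finset.mem_union, not_or, Finset.mem_range] at hpn
      exact hbig p hp (by omega) hpn.2
  have hpow : ∀ p, f p ≤ 2 * n := fun p => pow_factorization_choose_le (mul_pos two_pos hn0)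
  have hlow : ∏ p ∈ Finset.range (2 * n / 3 + 1), f p ≤ (2 * n) ^ Nat.sqrt (2 * n) * 4 ^ (2 * n / 3) := by
    have : ∏ p ∈ Finset.range (2 * n / 3 + 1), f p =
        ∏ p ∈ (Finset.range (2 * n / 3 + 1)).filter Nat.Prime, f p := by
      refine (Finset.prod_filter_of_ne fun p _ h => ?_).symm
      by_contra hpp
      exact h (by rw [hf]; simp only; rw [factorization_eq_zero_of_not_prime n.centralBinom hpp, pow_zero])
    rw [this, ← Finset.prod_filter_mul_prod_filter_not _ (· ≤ Nat.sqrt (2 * n))]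
    apply Nat.mul_le_mul
    · refine (Finset.prod_le_prod' fun p _ => hpow p).trans ?_
      rw [Finset.prod_const]
      refine Nat.pow_le_pow_right (by omega) ?_
      refine (Finset.card_le_card (fun x hx => ?_)).trans (le_of_eq (Nat.card_Icc 1 (Nat.sqrt (2 * n))))
      obtain ⟨h1, h2⟩ := Finset.mem_filter.1 hx
      exact Finset.mem_Icc.mpr ⟨(Finset.mem_filter.1 h1).2.one_lt.le, h2⟩
    · refine le_trans ?_ (primorial_le_four_pow (2 * n / 3))
      refine (Finset.prod_le_prod' fun p hp => (?_ : f p ≤ p)).trans ?_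
      · obtain ⟨h1, h2⟩ := Finset.mem_filter.1 hp
        refine (Nat.pow_le_pow_right (Finset.mem_filter.1 h1).2.pos ?_).trans (pow_one p).le
        exact Nat.factorization_choose_le_one (Nat.sqrt_lt'.mp <| not_le.1 h2)
      refine Finset.prod_le_prod_of_subset_of_one_le' (Finset.filter_subset _ _) ?_
      exact fun p hp _ => (Finset.mem_filter.1 hp).2.one_lt.le
  have hT2 : ∏ p ∈ T, f p ≤ (2 * n) ^ 2 := by
    refine (Finset.prod_le_prod' fun p _ => hpow p).trans ?_
    rw [Finset.prod_const]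
    exact Nat.pow_le_pow_right (by omega) (by omega)
  have h4 := Nat.four_pow_lt_mul_centralBinom n (by omega)
  have hC := hsplit.trans (Nat.mul_le_mul hlow hT2)
  have := main_inequality hn
  rw [pow_add] at this
  nlinarith [Nat.mul_le_mul_left n hC]

/-- The prime pairs used for two-prime generation. -/
theorem exists_pair {m : ℕ} (hm : 11 ≤ m) (h15 : m ≠ 15) (h16 : m ≠ 16) :
    ∃ p q : ℕ, p.Prime ∧ q.Prime ∧ m ≤ 2 * p ∧ p + 3 ≤ q ∧ q ≤ m ∧ (m < 2 * p ∨ q + 3 ≤ 2 * p) := by
  by_cases hbig : 2048 ≤ m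
  · set n := m / 2 with hn
    set T := (Finset.Ioc n (2 * n)).filter Nat.Prime with hT
    have h3 : 3 ≤ T.card := three_le_card_primes (by omega)
    have hne : T.Nonempty := Finset.card_pos.mp (by omega)
    have hmem : ∀ x ∈ T, n < x ∧ x ≤ 2 * n ∧ x.Prime := fun x hx =>
      ⟨(Finset.mem_Ioc.mp (Finset.mem_filter.mp hx).1).1, (Finset.mem_Ioc.mp (Finset.mem_filter.mp hx).1).2,
        (Finset.mem_filter.mp hx).2⟩
    obtain ⟨h1, h2, hp⟩ := hmem _ (T.min'_mem hne)
    obtain ⟨h4, h5, hq⟩ := hmem _ (T.max'_mem hne)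
    refine ⟨T.min' hne, T.max' hne, hp, hq, by omega, ?_, by omega, Or.inl (by omega)⟩
    by_contra hgap
    have hsub : T ⊆ ({T.min' hne, T.min' hne + 2} : Finset ℕ) := by
      intro x hx
      have a1 := T.min'_le x hx
      have a2 := T.le_max' x hx
      obtain ⟨b1, -, hxp⟩ := hmem x hx
      have o1 := hp.odd_of_ne_two (by omega)
      have o2 := hxp.odd_of_ne_two (by omega)
      rw [Nat.odd_iff] at o1 o2
      simp only [Finset.mem_insert, Finset.mem_singleton]
      omega
    have := (Finset.card_le_card hsub).trans Finset.card_le_two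
    omega
  · rcases (show m ≤ 14 ∨ (17 ≤ m ∧ m ≤ 26) ∨ (27 ≤ m ∧ m ≤ 38) ∨ (39 ≤ m ∧ m ≤ 62) ∨ (63 ≤ m ∧ m ≤ 106) ∨
      (107 ≤ m ∧ m ≤ 206) ∨ (207 ≤ m ∧ m ≤ 386) ∨ (387 ≤ m ∧ m ≤ 758) ∨ (759 ≤ m ∧ m ≤ 1502) ∨
      (1503 ≤ m ∧ m < 2048) by omega) with h | h | h | h | h | h | h | h | h | h
    · exact ⟨7, 11, by norm_num, by norm_num, by omega, by norm_num, by omega, Or.inr (by norm_num)⟩
    · exact ⟨13, 17, by norm_num, by norm_num, by omega, by norm_num, by omega, Or.inr (by norm_num)⟩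
    · exact ⟨19, 23, by norm_num, by norm_num, by omega, by norm_num, by omega, Or.inr (by norm_num)⟩
    · exact ⟨31, 37, by norm_num, by norm_num, by omega, by norm_num, by omega, Or.inr (by norm_num)⟩
    · exact ⟨53, 59, by norm_num, by norm_num, by omega, by norm_num, by omega, Or.inr (by norm_num)⟩
    · exact ⟨103, 107, by norm_num, by norm_num, by omega, by norm_num, by omega, Or.inr (by norm_num)⟩
    · exact ⟨193, 197, by norm_num, by norm_num, by omega, by norm_num, by omega, Or.inr (by norm_num)⟩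
    · exact ⟨379, 383, by norm_num, by norm_num, by omega, by norm_num, by omega, Or.inr (by norm_num)⟩
    · exact ⟨751, 757, by norm_num, by norm_num, by omega, by norm_num, by omega, Or.inr (by norm_num)⟩
    · exact ⟨1493, 1499, by norm_num, by norm_num, by omega, by norm_num, by omega, Or.inr (by norm_num)⟩

end CfsgLib.PrimeInterval
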