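import Cfsg.Agent.Lib.CoreBasic
import Cfsg.Prelude.Def_HallClasses
import Mathlib.GroupTheory.Sylow

/-!
# Pronormality of the subgroups above a Sylow subgroup in an extension
-/

set_option autoImplicit false

universe u

namespace CfsgLib.Pronormal

open scoped Pointwise

variable {G : Type u} [Group G]

/-- The element `g` can be corrected inside the join. -/
def Good (K : Subgroup G) (g : G) : Prop :=
  ∃ x ∈ K ⊔ K.map (MulAut.conj g).toMonoidHom, x⁻¹ * g ∈ Subgroup.normalizer (K : Set G)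

theorem mem_normalizer_iff_map {K : Subgroup G} {g : G} :
    g ∈ Subgroup.normalizer (K : Set G) ↔ K.map (MulAut.conj g).toMonoidHom = K :=
  Subgroup.mem_normalizer_iff_map_conj_eq

theorem map_conj_mul (K : Subgroup G) (a b : G) :
    (K.map (MulAut.conj b).toMonoidHom).map (MulAut.conj a).toMonoidHom =
      K.map (MulAut.conj (a * b)).toMonoidHom := by
  rw [Subgroup.map_map]
  congr 1
  ext z
  simp [mul_assoc]

theorem isPronormal_iff {K : Subgroup G} : Cfsg.IsPronormal K ↔ ∀ g, Good K g := by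
  have e : ∀ g x : G, K.map (MulAut.conj g).toMonoidHom = K.map (MulAut.conj x).toMonoidHom ↔
      x⁻¹ * g ∈ Subgroup.normalizer (K : Set G) := by
    intro g x
    rw [mem_normalizer_iff_map, ← map_conj_mul]
    constructor
    · intro h
      rw [h, map_conj_mul, inv_mul_cancel]
      ext z; simp
    · intro h
      have := congrArg (Subgroup.map (MulAut.conj x).toMonoidHom) h
      rwa [map_conj_mul, map_conj_mul, mul_inv_cancel, one_mul] at this
  exact ⟨fun h g => by obtain ⟨x, hx, he⟩ := h g; exact ⟨x, hx, (e g x).1 he⟩,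
    fun h g => by obtain ⟨x, hx, he⟩ := h g; exact ⟨x, hx, (e g x).2 he⟩⟩

theorem conj_join_le {K : Subgroup G} {g x : G} (hx : x ∈ K ⊔ K.map (MulAut.conj g).toMonoidHom) :
    ∀ y ∈ K ⊔ K.map (MulAut.conj g).toMonoidHom, x * y * x⁻¹ ∈ K ⊔ K.map (MulAut.conj g).toMonoidHom :=
  fun _ hy => mul_mem (mul_mem hx hy) (inv_mem hx)

theorem good_step {K : Subgroup G} {g g' x n : G} (hx : x ∈ K ⊔ K.map (MulAut.conj g).toMonoidHom)
    (hn : n ∈ Subgroup.normalizer (K : Set G)) (he : g = x * n * g') (h : Good K g') : Good K g := by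
  obtain ⟨x', hx', hn'⟩ := h
  set J := K ⊔ K.map (MulAut.conj g).toMonoidHom with hJ
  have hle : (K ⊔ K.map (MulAut.conj g').toMonoidHom).map (MulAut.conj n).toMonoidHom ≤ J := by
    rw [Subgroup.map_sup, mem_normalizer_iff_map.1 hn, map_conj_mul]
    refine sup_le le_sup_left ?_
    rintro _ ⟨k, hk, rfl⟩
    have h1 : g * k * g⁻¹ ∈ J := Subgroup.mem_sup_right ⟨k, hk, rfl⟩
    have h2 := mul_mem (mul_mem (inv_mem hx) h1) hx
    show n * g' * k * (n * g')⁻¹ ∈ J
    rw [he] at h2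
    convert h2 using 1
    group
  refine ⟨x * (n * x' * n⁻¹), mul_mem hx (hle ⟨x', hx', rfl⟩), ?_⟩
  have e : (x * (n * x' * n⁻¹))⁻¹ * g = n * (x'⁻¹ * g') := by rw [he]; group
  rw [e]
  exact mul_mem hn hn'

theorem good_of_mem_normalizer {K : Subgroup G} {g : G} (hg : g ∈ Subgroup.normalizer (K : Set G)) :
    Good K g := ⟨1, one_mem _, by rwa [inv_one, one_mul]⟩

theorem map_conj_one (K : Subgroup G) : K.map (MulAut.conj (1 : G)).toMonoidHom = K := by
  ext z; simp

theorem isPronormal_conj {K : Subgroup G} (a : G) (h : Cfsg.IsPronormal (K.map (MulAut.conj a).toMonoidHom)) :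
    Cfsg.IsPronormal K := by
  intro g
  obtain ⟨x, hx, he⟩ := h (a * g * a⁻¹)
  set φ := (MulAut.conj a⁻¹).toMonoidHom
  refine ⟨a⁻¹ * x * a, ?_, ?_⟩
  · have := Subgroup.mem_map_of_mem φ hx
    rw [Subgroup.map_sup, map_conj_mul, map_conj_mul, map_conj_mul, inv_mul_cancel, map_conj_one] at this
    simpa [φ, mul_assoc] using this
  · have := congrArg (Subgroup.map φ) he
    rw [map_conj_mul, map_conj_mul, map_conj_mul, map_conj_mul] at this
    convert this using 3
    group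

variable [Finite G] {p : ℕ} [hp : Fact p.Prime]

theorem frattini_element {A T : Subgroup G} (hTA : T ≤ A) (hT : IsPGroup p T) (hTi : ¬ p ∣ T.relIndex A)
    {B : Subgroup G} (hTB : T ≤ B) (hBA : B ≤ A) {g : G} (hg : g ∈ Subgroup.normalizer (B : Set G)) :
    ∃ c ∈ B, c⁻¹ * g ∈ Subgroup.normalizer (T : Set G) := by
  have hidx : ¬ p ∣ (T.subgroupOf B).index := fun h => hTi (h.trans
    (Dvd.intro _ (Subgroup.relIndex_mul_relIndex T B A hTB hBA)))
  let S : Sylow p B := (hT.comap_of_injective B.subtype B.subtype_injective).toSylow hidx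
  set U := T.map (MulAut.conj g).toMonoidHom with hU
  have hUB : U ≤ B := by
    rintro _ ⟨t, ht, rfl⟩
    exact (Subgroup.mem_normalizer_iff.1 hg t).1 (hTB ht)
  have hUi : ¬ p ∣ (U.subgroupOf B).index := by
    intro h
    apply hidx
    have h1 := (U.subgroupOf B).card_mul_index
    have h2 := (T.subgroupOf B).card_mul_index
    rw [Nat.card_congr (Subgroup.subgroupOfEquivOfLe hUB).toEquiv, hU,
      Subgroup.card_map_of_injective (MulAut.conj g).injective] at h1
    rw [Nat.card_congr (Subgroup.subgroupOfEquivOfLe hTB).toEquiv] at h2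
    rw [← h2] at h1
    exact Nat.eq_of_mul_eq_mul_left Nat.card_pos h1 ▸ h
  let S' : Sylow p B := ((hT.map _).comap_of_injective B.subtype B.subtype_injective).toSylow hUi
  obtain ⟨c, hc⟩ := MulAction.exists_smul_eq B S S'
  refine ⟨c, c.2, mem_normalizer_iff_map.2 ?_⟩
  have h1 : T.map (MulAut.conj (c : G)).toMonoidHom = U := by
    have h2 : ((c • S : Sylow p B) : Subgroup B).map B.subtype = U := by
      rw [hc]
      show (U.subgroupOf B).map B.subtype = U
      exact Subgroup.map_subgroupOf_eq_of_le hUB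
    rw [Sylow.coe_subgroup_smul, CfsgLib.Core.map_conj_smul] at h2
    rw [← h2, CfsgLib.Core.conj_smul_eq_map]
    congr 1
    exact (Subgroup.map_subgroupOf_eq_of_le hTB).symm
  rw [← map_conj_mul, ← hU, ← h1, map_conj_mul, inv_mul_cancel]
  ext z; simp

theorem inf_sylow {A : Subgroup G} [A.Normal] (P : Sylow p G) :
    IsPGroup p ↥((P : Subgroup G) ⊓ A) ∧ ¬ p ∣ ((P : Subgroup G) ⊓ A).relIndex A := by
  refine ⟨P.2.to_le inf_le_left, fun h => P.not_dvd_index ?_⟩
  rw [Subgroup.inf_relIndex_right] at h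
  obtain ⟨t, ht⟩ := A.relIndex_dvd_index_of_normal (P : Subgroup G)
  have e1 : (P : Subgroup G).relIndex A * A.index = ((P : Subgroup G) ⊓ A).index := by
    rw [← Subgroup.inf_relIndex_right, Subgroup.relIndex_mul_index inf_le_right]
  have e2 : A.relIndex (P : Subgroup G) * (P : Subgroup G).index = ((P : Subgroup G) ⊓ A).index := by
    rw [← Subgroup.inf_relIndex_left, Subgroup.relIndex_mul_index inf_le_left]
  have hpos : 0 < A.relIndex (P : Subgroup G) :=
    Nat.pos_of_ne_zero (Subgroup.index_ne_zero_of_finite (H := A.subgroupOf (P : Subgroup G)))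
  have e3 : (P : Subgroup G).index = (P : Subgroup G).relIndex A * t :=
    Nat.eq_of_mul_eq_mul_left hpos (by rw [e2, ← e1, ht]; ring)
  exact e3 ▸ h.mul_right t

/-- All subgroups containing a Sylow subgroup are pronormal. -/
def AllPro (p : ℕ) (X : Type u) [Group X] : Prop :=
  ∀ K : Subgroup X, (∃ P : Sylow p X, (P : Subgroup X) ≤ K) → Cfsg.IsPronormal K

theorem good_of_quotient {A : Subgroup G} [A.Normal] {T : Subgroup G}
    [(T.subgroupOf (Subgroup.normalizer (T : Set G))).Normal]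
    (hA : AllPro p A) (hT : ∃ P : Sylow p ↥A, (P : Subgroup ↥A).map A.subtype = T)
    (hN : AllPro p (↥(Subgroup.normalizer (T : Set G)) ⧸ T.subgroupOf (Subgroup.normalizer (T : Set G))))
    (hQ : ∀ K : Subgroup G, (∃ P : Sylow p G, (P : Subgroup G) ≤ K) → ∀ g : G,
      ∃ x ∈ K ⊔ K.map (MulAut.conj g).toMonoidHom, ∃ n ∈ Subgroup.normalizer (K : Set G), ∃ a ∈ A,
        x⁻¹ * g = n * a) : AllPro p G := by
  obtain ⟨T₀, hT₀⟩ := hT
  intro K₀ ⟨P₀, hP₀⟩
  -- conjugate so that the given Sylow subgroup of `A` lies inside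
  obtain ⟨hi1, hi2⟩ := inf_sylow (A := A) P₀
  let S₁ : Sylow p A := (hi1.comap_of_injective A.subtype A.subtype_injective).toSylow hi2
  obtain ⟨a₀, ha₀⟩ := MulAction.exists_smul_eq A S₁ T₀
  apply isPronormal_conj (a₀ : G)
  set K := K₀.map (MulAut.conj (a₀ : G)).toMonoidHom with hKdef
  set P := (a₀ : G) • P₀ with hPdef
  have hPK : (P : Subgroup G) ≤ K := by
    rw [hPdef, Sylow.coe_subgroup_smul, CfsgLib.Core.conj_smul_eq_map]
    exact Subgroup.map_mono hP₀
  have hTP : T = (P : Subgroup G) ⊓ A := by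
    rw [← hT₀, ← ha₀, Sylow.coe_subgroup_smul, CfsgLib.Core.map_conj_smul, hPdef, Sylow.coe_subgroup_smul]
    show MulAut.conj (a₀ : G) • (((P₀ : Subgroup G) ⊓ A).subgroupOf A).map A.subtype = _
    rw [Subgroup.map_subgroupOf_eq_of_le inf_le_right, Subgroup.smul_inf, CfsgLib.Core.conj_smul_of_normal (a₀ : G) A]
  obtain ⟨hTp, hTi⟩ := inf_sylow (A := A) P
  rw [← hTP] at hTp hTi
  have hTA : T ≤ A := hTP.le.trans inf_le_right
  have hTK : T ≤ K := (hTP.le.trans inf_le_left).trans hPK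
  set N := Subgroup.normalizer (T : Set G) with hNdef
  have hPN : (P : Subgroup G) ≤ N := by
    rw [hNdef]
    refine CfsgLib.Core.le_normalizer_iff_forall.2 fun g hg t ht => ?_
    rw [hTP] at ht ⊢
    exact Subgroup.mem_inf.2 ⟨mul_mem (mul_mem hg (Subgroup.mem_inf.1 ht).1) (inv_mem hg),
      (inferInstance : A.Normal).conj_mem t (Subgroup.mem_inf.1 ht).2 g⟩
  set B := K ⊓ A with hB
  have hTB : T ≤ B := le_inf hTK hTA
  have hKB : K ≤ Subgroup.normalizer (B : Set G) := CfsgLib.Core.le_normalizer_iff_forall.2 fun k hk b hb =>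
    Subgroup.mem_inf.2 ⟨mul_mem (mul_mem hk (Subgroup.mem_inf.1 hb).1) (inv_mem hk),
      (inferInstance : A.Normal).conj_mem b (Subgroup.mem_inf.1 hb).2 k⟩
  rw [isPronormal_iff]
  -- the part in the normalizer
  have h4 : ∀ m ∈ N, m ∈ Subgroup.normalizer (B : Set G) → Good K m := by
    intro m hm hmB
    set π := QuotientGroup.mk' (T.subgroupOf N) with hπ
    set KT := (K ⊓ N).subgroupOf N with hKT
    have hTKT : T.subgroupOf N ≤ KT := fun t ht => Subgroup.mem_subgroupOf.2 (Subgroup.mem_inf.2 ⟨hTK ht, t.2⟩)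
    have hS : ∃ S : Sylow p (N ⧸ T.subgroupOf N), (S : Subgroup _) ≤ KT.map π := by
      refine ⟨(P.subtype hPN).mapSurjective (QuotientGroup.mk'_surjective _), Subgroup.map_mono ?_⟩
      intro x hx
      exact Subgroup.mem_subgroupOf.2 (Subgroup.mem_inf.2 ⟨hPK hx, x.2⟩)
    obtain ⟨w, hw, hwn⟩ := isPronormal_iff.1 (hN _ hS) (π ⟨m, hm⟩)
    have hconj : ∀ (H : Subgroup N) (z : N),
        (H.map π).map (MulAut.conj (π z)).toMonoidHom = (H.map (MulAut.conj z).toMonoidHom).map π := by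
      intro H z
      rw [Subgroup.map_map, Subgroup.map_map]
      congr 1
    rw [hconj, ← Subgroup.map_sup] at hw
    obtain ⟨w', hw', rfl⟩ := hw
    rw [← map_inv, ← map_mul, mem_normalizer_iff_map, hconj] at hwn
    have hker : π.ker = T.subgroupOf N := QuotientGroup.ker_mk' _
    set z := w'⁻¹ * (⟨m, hm⟩ : N) with hz
    have hzK : KT.map (MulAut.conj z).toMonoidHom = KT := by
      have h1 := congrArg (Subgroup.comap π) hwn
      rw [Subgroup.comap_map_eq, Subgroup.comap_map_eq, hker, sup_eq_left.2 hTKT] at h1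
      refine le_antisymm (le_sup_left.trans h1.le) ?_
      exact (Subgroup.eq_of_le_of_card_ge (le_sup_left.trans h1.le)
        (Subgroup.card_map_of_injective (MulAut.conj z).injective).ge).ge
    have hw'J : ((w' : N) : G) ∈ K ⊔ K.map (MulAut.conj m).toMonoidHom ∧ ((w' : N) : G) ∈ Subgroup.normalizer (B : Set G) := by
      have hle : KT ⊔ KT.map (MulAut.conj (⟨m, hm⟩ : N)).toMonoidHom ≤
          ((K ⊔ K.map (MulAut.conj m).toMonoidHom) ⊓ Subgroup.normalizer (B : Set G)).comap N.subtype := by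
        refine sup_le (fun x hx => ?_) ?_
        · have hx' := (Subgroup.mem_inf.1 (Subgroup.mem_subgroupOf.1 hx)).1
          exact Subgroup.mem_inf.2 ⟨Subgroup.mem_sup_left hx', hKB hx'⟩
        · rintro _ ⟨x, hx, rfl⟩
          have hx' := (Subgroup.mem_inf.1 (Subgroup.mem_subgroupOf.1 hx)).1
          show m * (x : G) * m⁻¹ ∈ (K ⊔ K.map (MulAut.conj m).toMonoidHom) ⊓ Subgroup.normalizer (B : Set G)
          exact Subgroup.mem_inf.2 ⟨Subgroup.mem_sup_right ⟨x, hx', rfl⟩, mul_mem (mul_mem hmB (hKB hx')) (inv_mem hmB)⟩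
      exact Subgroup.mem_inf.1 (hle hw')
    refine ⟨_, hw'J.1, ?_⟩
    have hzB : (z : G) ∈ Subgroup.normalizer (B : Set G) := by
      rw [hz, Subgroup.coe_mul, Subgroup.coe_inv]
      exact mul_mem (inv_mem hw'J.2) hmB
    show (z : G) ∈ Subgroup.normalizer (K : Set G)
    rw [mem_normalizer_iff_map]
    refine Subgroup.eq_of_le_of_card_ge ?_ (Subgroup.card_map_of_injective (MulAut.conj (z : G)).injective).ge
    rintro _ ⟨k, hk, rfl⟩
    obtain ⟨c, hc, hck⟩ := frattini_element hTA hTp hTi hTB inf_le_right (hKB hk)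
    show (z : G) * k * (z : G)⁻¹ ∈ K
    rw [show (z : G) * k * (z : G)⁻¹ = ((z : G) * c * (z : G)⁻¹) * ((z : G) * (c⁻¹ * k) * (z : G)⁻¹) by group]
    refine mul_mem ((Subgroup.mem_inf.1 ((Subgroup.mem_normalizer_iff.1 hzB c).1 hc)).1) ?_
    have h5 : MulAut.conj z (⟨c⁻¹ * k, hck⟩ : N) ∈ KT := hzK.le ⟨_, Subgroup.mem_subgroupOf.2
      (Subgroup.mem_inf.2 ⟨mul_mem (inv_mem (Subgroup.mem_inf.1 hc).1) hk, hck⟩), rfl⟩
    exact (Subgroup.mem_inf.1 (Subgroup.mem_subgroupOf.1 h5)).1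
  intro g
  obtain ⟨x, hx, n, hn, a, ha, he⟩ := hQ K ⟨P, hPK⟩ g
  refine good_step hx hn (by rw [mul_assoc, ← he, mul_inv_cancel_left]) ?_
  -- an element of `A`
  have hS : ∃ S : Sylow p A, (S : Subgroup A) ≤ B.subgroupOf A :=
    ⟨(hTp.comap_of_injective A.subtype A.subtype_injective).toSylow hTi, fun t ht => hTB ht⟩
  obtain ⟨y, hy, hyn⟩ := isPronormal_iff.1 (hA _ hS) ⟨a, ha⟩
  have hyJ : (y : G) ∈ K ⊔ K.map (MulAut.conj a).toMonoidHom := by
    have hle : B.subgroupOf A ⊔ (B.subgroupOf A).map (MulAut.conj (⟨a, ha⟩ : A)).toMonoidHom ≤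
        (K ⊔ K.map (MulAut.conj a).toMonoidHom).comap A.subtype := by
      refine sup_le (fun z hz => Subgroup.mem_sup_left (Subgroup.mem_inf.1 (Subgroup.mem_subgroupOf.1 hz)).1) ?_
      rintro _ ⟨z, hz, rfl⟩
      exact Subgroup.mem_sup_right ⟨z, (Subgroup.mem_inf.1 (Subgroup.mem_subgroupOf.1 hz)).1, rfl⟩
    exact hle hy
  set g₂ := ((y⁻¹ * ⟨a, ha⟩ : A) : G) with hg₂
  have hg₂B : g₂ ∈ Subgroup.normalizer (B : Set G) := by
    have := Subgroup.le_normalizer_map A.subtype ⟨_, hyn, rfl⟩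
    rwa [Subgroup.map_subgroupOf_eq_of_le inf_le_right] at this
  refine good_step hyJ (one_mem _) (g' := g₂) (by rw [hg₂]; simp) ?_
  obtain ⟨c, hc, hcn⟩ := frattini_element hTA hTp hTi hTB inf_le_right hg₂B
  refine good_step (x := c) (n := 1) (g' := c⁻¹ * g₂) (Subgroup.mem_sup_left (Subgroup.mem_inf.1 hc).1) (one_mem _)
    (by group) (h4 _ hcn (mul_mem (inv_mem (Subgroup.le_normalizer hc)) hg₂B))

theorem hQ_of_selfNormalizing {A : Subgroup G} [A.Normal]
    (h : ∀ P : Sylow p (G ⧸ A), Subgroup.normalizer ((P : Subgroup (G ⧸ A)) : Set (G ⧸ A)) = P)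
    (K : Subgroup G) (hK : ∃ P : Sylow p G, (P : Subgroup G) ≤ K) (g : G) :
    ∃ x ∈ K ⊔ K.map (MulAut.conj g).toMonoidHom, ∃ n ∈ Subgroup.normalizer (K : Set G), ∃ a ∈ A,
      x⁻¹ * g = n * a := by
  obtain ⟨P, hP⟩ := hK
  set J := K ⊔ K.map (MulAut.conj g).toMonoidHom with hJ
  have h1 : (P : Subgroup G) ≤ J := hP.trans le_sup_left
  have h2 : ((g • P : Sylow p G) : Subgroup G) ≤ J := by
    rw [Sylow.coe_subgroup_smul, CfsgLib.Core.conj_smul_eq_map]
    exact (Subgroup.map_mono hP).trans le_sup_right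
  obtain ⟨x, hx⟩ := MulAction.exists_smul_eq J (P.subtype h1) ((g • P).subtype h2)
  rw [Sylow.smul_subtype h1 x] at hx
  have hx' : (x : G) • P = g • P := Sylow.subtype_injective hx
  have hn : (x : G)⁻¹ * g ∈ Subgroup.normalizer ((P : Subgroup G) : Set G) := by
    refine Sylow.smul_eq_iff_mem_normalizer.1 ?_
    rw [mul_smul, ← hx', inv_smul_smul]
  set π := QuotientGroup.mk' A with hπ
  have hn' : π ((x : G)⁻¹ * g) ∈ (P : Subgroup G).map π := by
    have h3 := h (P.mapSurjective (QuotientGroup.mk'_surjective A))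
    exact h3.le (Subgroup.le_normalizer_map π ⟨_, hn, rfl⟩)
  obtain ⟨n, hnP, hne⟩ := hn'
  exact ⟨x, x.2, n, Subgroup.le_normalizer (hP hnP), n⁻¹ * ((x : G)⁻¹ * g), QuotientGroup.eq.1 hne,
    by group⟩

omit [Finite G] in
theorem hQ_of_map_normalizer {A : Subgroup G} [A.Normal] (hq : AllPro p (G ⧸ A))
    (h : ∀ K : Subgroup G, (∃ P : Sylow p G, (P : Subgroup G) ≤ K) →
      (Subgroup.normalizer (K : Set G)).map (QuotientGroup.mk' A) =
        Subgroup.normalizer ((K.map (QuotientGroup.mk' A) : Subgroup (G ⧸ A)) : Set (G ⧸ A)))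
    [Finite G] (K : Subgroup G) (hK : ∃ P : Sylow p G, (P : Subgroup G) ≤ K) (g : G) :
    ∃ x ∈ K ⊔ K.map (MulAut.conj g).toMonoidHom, ∃ n ∈ Subgroup.normalizer (K : Set G), ∃ a ∈ A,
      x⁻¹ * g = n * a := by
  set π := QuotientGroup.mk' A with hπ
  obtain ⟨P, hP⟩ := hK
  obtain ⟨w, hw, hwn⟩ := isPronormal_iff.1
    (hq (K.map π) ⟨P.mapSurjective (QuotientGroup.mk'_surjective A), Subgroup.map_mono hP⟩) (π g)
  have hconj : (K.map π).map (MulAut.conj (π g)).toMonoidHom = (K.map (MulAut.conj g).toMonoidHom).map π := by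
    rw [Subgroup.map_map, Subgroup.map_map]
    congr 1
  rw [hconj, ← Subgroup.map_sup] at hw
  obtain ⟨x, hx, rfl⟩ := hw
  rw [← map_inv, ← map_mul, ← h K ⟨P, hP⟩] at hwn
  obtain ⟨n, hn, hne⟩ := hwn
  exact ⟨x, hx, n, hn, n⁻¹ * (x⁻¹ * g), QuotientGroup.eq.1 hne, by group⟩

theorem map_normalizer_of_allPro {A : Subgroup G} [A.Normal] (h : AllPro p G)
    (K : Subgroup G) (hK : ∃ P : Sylow p G, (P : Subgroup G) ≤ K) :
    (Subgroup.normalizer (K : Set G)).map (QuotientGroup.mk' A) =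
      Subgroup.normalizer ((K.map (QuotientGroup.mk' A) : Subgroup (G ⧸ A)) : Set (G ⧸ A)) := by
  refine le_antisymm (Subgroup.le_normalizer_map _) fun v hv => ?_
  obtain ⟨g, rfl⟩ := QuotientGroup.mk'_surjective A v
  obtain ⟨x, hx, hxn⟩ := isPronormal_iff.1 (h K hK) g
  set π := QuotientGroup.mk' A
  have hxK : π x ∈ K.map π := by
    have h1 := Subgroup.mem_map_of_mem π hx
    rw [Subgroup.map_sup] at h1
    suffices hle : (K.map (MulAut.conj g).toMonoidHom).map π ≤ K.map π from (sup_le le_rfl hle) h1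
    rintro _ ⟨_, ⟨k, hk, rfl⟩, rfl⟩
    have := (Subgroup.mem_normalizer_iff.1 hv (π k)).1 ⟨k, hk, rfl⟩
    show π (g * k * g⁻¹) ∈ K.map π
    rwa [map_mul, map_mul, map_inv]
  obtain ⟨k, hk, hke⟩ := hxK
  exact ⟨k * (x⁻¹ * g), mul_mem (Subgroup.le_normalizer hk) hxn, by
    rw [map_mul, hke, ← map_mul, mul_inv_cancel_left]⟩

theorem allPro_normalizer_quotient {A T : Subgroup G} [A.Normal]
    [(T.subgroupOf (Subgroup.normalizer (T : Set G))).Normal]
    (hT : ∃ P : Sylow p ↥A, (P : Subgroup ↥A).map A.subtype = T) (h : AllPro p G) :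
    AllPro p (↥(Subgroup.normalizer (T : Set G)) ⧸ T.subgroupOf (Subgroup.normalizer (T : Set G))) := by
  obtain ⟨T₀, hT₀⟩ := hT
  have hTp : IsPGroup p T := hT₀ ▸ T₀.2.map _
  set N := Subgroup.normalizer (T : Set G) with hN
  -- a Sylow subgroup of `G` normalises `T`
  obtain ⟨P, hP⟩ := hTp.exists_le_sylow
  have hPN : (P : Subgroup G) ≤ N := by
    have hTA : T ≤ A := hT₀ ▸ Subgroup.map_subtype_le _
    obtain ⟨hi1, hi2⟩ := inf_sylow (A := A) P
    have hTi : T = (P : Subgroup G) ⊓ A := by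
      refine Subgroup.eq_of_le_of_card_ge (le_inf hP hTA) ?_
      rw [← hT₀, Subgroup.card_map_of_injective A.subtype_injective]
      let S : Sylow p A := (hi1.comap_of_injective A.subtype A.subtype_injective).toSylow hi2
      refine le_of_eq ?_
      rw [← Nat.card_congr (Subgroup.subgroupOfEquivOfLe (inf_le_right : (P : Subgroup G) ⊓ A ≤ A)).toEquiv]
      exact (S.card_eq_multiplicity).trans T₀.card_eq_multiplicity.symm
    rw [hN]
    refine CfsgLib.Core.le_normalizer_iff_forall.2 fun g hg t ht => ?_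
    rw [hTi] at ht ⊢
    exact Subgroup.mem_inf.2 ⟨mul_mem (mul_mem hg (Subgroup.mem_inf.1 ht).1) (inv_mem hg),
      (inferInstance : A.Normal).conj_mem t (Subgroup.mem_inf.1 ht).2 g⟩
  intro Kb ⟨S, hS⟩
  set π := QuotientGroup.mk' (T.subgroupOf N) with hπ
  set K := (Kb.comap π).map N.subtype with hK
  have hex : ∃ Q : Sylow p G, (Q : Subgroup G) ≤ K := by
    obtain ⟨Q, hQ⟩ := Sylow.mapSurjective_surjective (QuotientGroup.mk'_surjective (T.subgroupOf N)) p S
    obtain ⟨n, hn⟩ := MulAction.exists_smul_eq N (P.subtype hPN) Q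
    refine ⟨(n : G) • P, ?_⟩
    rw [Sylow.smul_subtype hPN n] at hn
    intro x hx
    have hxN : x ∈ N := by
      rw [Sylow.coe_subgroup_smul] at hx
      obtain ⟨y, hy, rfl⟩ := hx
      exact mul_mem (mul_mem n.2 (hPN hy)) (inv_mem n.2)
    refine ⟨⟨x, hxN⟩, Subgroup.mem_comap.2 (hS ?_), rfl⟩
    rw [← hQ]
    exact ⟨⟨x, hxN⟩, by rw [← hn]; exact hx, rfl⟩
  rw [isPronormal_iff]
  intro v
  obtain ⟨g, rfl⟩ := QuotientGroup.mk'_surjective (T.subgroupOf N) v
  obtain ⟨x, hx, hxn⟩ := isPronormal_iff.1 (h K hex) (g : G)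
  have hxN : x ∈ N := by
    refine sup_le (Subgroup.map_subtype_le _) ?_ hx
    rintro _ ⟨k, hk, rfl⟩
    exact mul_mem (mul_mem g.2 (Subgroup.map_subtype_le _ hk)) (inv_mem g.2)
  refine ⟨π ⟨x, hxN⟩, ?_, ?_⟩
  · have hle : K ⊔ K.map (MulAut.conj (g : G)).toMonoidHom ≤
        ((Kb ⊔ Kb.map (MulAut.conj (π g)).toMonoidHom).comap π).map N.subtype := by
      refine sup_le (Subgroup.map_mono (Subgroup.comap_mono le_sup_left)) ?_
      rintro _ ⟨_, ⟨k, hk, rfl⟩, rfl⟩
      refine ⟨g * k * g⁻¹, Subgroup.mem_comap.2 (Subgroup.mem_sup_right ⟨π k, hk, ?_⟩), rfl⟩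
      show π g * π k * (π g)⁻¹ = π (g * k * g⁻¹)
      rw [map_mul, map_mul, map_inv]
    obtain ⟨x', hx', hxe⟩ := hle hx
    have : x' = ⟨x, hxN⟩ := Subtype.ext hxe
    rw [← this]; exact hx'
  · rw [← map_inv, ← map_mul, mem_normalizer_iff_map]
    refine Subgroup.eq_of_le_of_card_ge ?_
      (Subgroup.card_map_of_injective (MulAut.conj (π (⟨x, hxN⟩⁻¹ * g))).injective).ge
    rintro _ ⟨w, hw, rfl⟩
    obtain ⟨k, rfl⟩ := QuotientGroup.mk'_surjective (T.subgroupOf N) w
    have h6 := (Subgroup.mem_normalizer_iff.1 hxn (k : G)).1 ⟨k, hw, rfl⟩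
    obtain ⟨k', hk', hke⟩ := h6
    have : k' = (⟨x, hxN⟩⁻¹ * g) * k * (⟨x, hxN⟩⁻¹ * g)⁻¹ := Subtype.ext (by simpa using hke)
    rw [this] at hk'
    have h7 : π ((⟨x, hxN⟩⁻¹ * g) * k * (⟨x, hxN⟩⁻¹ * g)⁻¹) ∈ Kb := hk'
    rw [map_mul, map_mul, map_inv] at h7
    exact h7

end CfsgLib.Pronormal
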