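import Cfsg.Agent.Lib.CoreBasic
import Cfsg.Agent.Lib.CorePGroup
import Cfsg.Prelude.Def_CaseTheorems
import Mathlib.GroupTheory.IndexNormal

/-!
# Two-groups of sectional rank at most four
-/

set_option autoImplicit false

universe u

namespace CfsgLib.RankFour

open scoped Pointwise commutatorElement

variable {S : Type u} [Group S]

/-- The rank bound on sections. -/
def Bound (n : ℕ) (S : Type u) [Group S] : Prop :=
  ∀ (X : Type u) [Group X] (H : Subgroup S) (f : H →* X), Function.Surjective f →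
    ∀ A : Subgroup X, IsMulCommutative A → (∀ a ∈ A, a ^ 2 = 1) → Nat.card A ≤ 2 ^ n

theorem bound_of_rankLE {n : ℕ} (hr : Cfsg.SectionalPRankLE 2 n S) : Bound n S := by
  intro X _ H f hf A hA hA2
  let e : H ⧸ f.ker ≃* X := QuotientGroup.quotientKerEquivOfSurjective f hf
  have h := hr H f.ker (A.map e.symm.toMonoidHom) (Subgroup.map_isMulCommutative A _) (by
    rintro _ ⟨a, ha, rfl⟩
    rw [← map_pow, hA2 a ha, map_one])
  rwa [Subgroup.card_map_of_injective e.symm.injective] at h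

theorem Bound.subgroup {n : ℕ} (h : Bound n S) (T : Subgroup S) : Bound n T := by
  intro X _ H f hf
  let e : (H.map T.subtype : Subgroup S) ≃* H := (H.equivMapOfInjective _ T.subtype_injective).symm
  exact h X (H.map T.subtype) (f.comp e.toMonoidHom) (hf.comp e.surjective)

variable [Finite S]

theorem center_le_frattini {P : Subgroup S} (hp : IsPGroup 2 P) (hPc : ¬ IsMulCommutative ↥P)
    (hZ : Nat.card ↥(Subgroup.center ↥P) = 2) :
    Subgroup.center ↥P ≤ frattini ↥P ∧ 4 ≤ (frattini ↥P).index := by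
  haveI : Fact (Nat.Prime 2) := ⟨Nat.prime_two⟩
  have hd : commutator ↥P ≠ ⊥ := by
    intro h
    apply hPc
    refine ⟨⟨fun a b => ?_⟩⟩
    have h1 := h.le (Subgroup.commutator_mem_commutator (Subgroup.mem_top a) (Subgroup.mem_top b))
    rwa [Subgroup.mem_bot, commutatorElement_eq_one_iff_mul_comm] at h1
  haveI : Nontrivial (commutator ↥P) := (Subgroup.nontrivial_iff_ne_bot _).2 hd
  have hne : commutator ↥P ⊓ Subgroup.center ↥P ≠ ⊥ :=
    haveI := hp.isNilpotent
    CfsgLib.Core.nilpotent_inf_center_ne_bot hd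
  have hle : Subgroup.center ↥P ≤ commutator ↥P := by
    have h1 : commutator ↥P ⊓ Subgroup.center ↥P = Subgroup.center ↥P :=
      Subgroup.eq_of_le_of_card_ge inf_le_right (by
        rw [hZ]
        exact (Subgroup.one_lt_card_iff_ne_bot _).2 hne)
    exact h1 ▸ inf_le_left
  refine ⟨hle.trans (CfsgLib.Core.pgroup_commutator_le_frattini hp), ?_⟩
  obtain ⟨k, hk⟩ := hp.index (frattini ↥P)
  rw [hk]
  by_contra hlt
  have hk1 : k ≤ 1 := by
    by_contra h
    exact hlt (le_trans (by norm_num) (Nat.pow_le_pow_right two_pos (not_le.1 h)))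
  apply hPc
  have hcyc : IsCyclic (↥P ⧸ frattini ↥P) := by
    interval_cases k
    · haveI : Subsingleton (↥P ⧸ frattini ↥P) := by
        rw [← Finite.card_le_one_iff_subsingleton, ← Subgroup.index_eq_card, hk, pow_zero]
      infer_instance
    · exact isCyclic_of_prime_card (p := 2) (by rw [← Subgroup.index_eq_card, hk, pow_one])
  obtain ⟨g, hg⟩ := hcyc.exists_generator
  obtain ⟨a, rfl⟩ := QuotientGroup.mk_surjective g
  have htop : Subgroup.zpowers a = ⊤ := CfsgLib.Core.eq_top_of_sup_frattini (top_le_iff.1 fun x _ => by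
    obtain ⟨i, hi⟩ := Subgroup.mem_zpowers_iff.1 (hg x)
    rw [← QuotientGroup.mk_zpow, QuotientGroup.eq] at hi
    rw [show x = a ^ i * ((a ^ i)⁻¹ * x) by group]
    exact mul_mem (Subgroup.mem_sup_left (zpow_mem (Subgroup.mem_zpowers a) i)) (Subgroup.mem_sup_right hi))
  refine ⟨⟨fun b c => ?_⟩⟩
  obtain ⟨i, rfl⟩ := Subgroup.mem_zpowers_iff.1 (htop.ge (Subgroup.mem_top b))
  obtain ⟨j, rfl⟩ := Subgroup.mem_zpowers_iff.1 (htop.ge (Subgroup.mem_top c))
  exact Commute.zpow_zpow_self a i j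

theorem card_ge_eight {P : Subgroup S} (hp : IsPGroup 2 P) (hPc : ¬ IsMulCommutative ↥P)
    (hZ : Nat.card ↥(Subgroup.center ↥P) = 2) : 8 ≤ Nat.card P := by
  obtain ⟨h1, h2⟩ := center_le_frattini hp hPc hZ
  have h3 := Subgroup.card_le_of_le h1
  have h4 := (frattini ↥P).card_mul_index
  rw [hZ] at h3
  calc 8 = 2 * 4 := rfl
    _ ≤ Nat.card (frattini ↥P) * (frattini ↥P).index := Nat.mul_le_mul h3 h2
    _ = _ := h4

omit [Finite S] in
theorem eq_of_mem {P : Subgroup S} (hZ : Nat.card ↥(Subgroup.center ↥P) = 2) {x y : S}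
    (hx : x ∈ (Subgroup.center ↥P).map P.subtype) (hy : y ∈ (Subgroup.center ↥P).map P.subtype)
    (hx1 : x ≠ 1) (hy1 : y ≠ 1) : x = y := by
  obtain ⟨x', hx', rfl⟩ := hx
  obtain ⟨y', hy', rfl⟩ := hy
  obtain ⟨a, b, -, huniv⟩ := Nat.card_eq_two_iff.1 hZ
  have h1 : (⟨x', hx'⟩ : Subgroup.center ↥P) ∈ ({a, b} : Set _) := huniv.ge trivial
  have h2 : (⟨y', hy'⟩ : Subgroup.center ↥P) ∈ ({a, b} : Set _) := huniv.ge trivial
  have h3 : (1 : Subgroup.center ↥P) ∈ ({a, b} : Set _) := huniv.ge trivial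
  simp only [Set.mem_insert_iff, Set.mem_singleton_iff] at h1 h2 h3
  have hx'' : (⟨x', hx'⟩ : Subgroup.center ↥P) ≠ 1 := fun e => hx1 (by
    simpa using congrArg (fun w : Subgroup.center ↥P => ((w : ↥P) : S)) e)
  have hy'' : (⟨y', hy'⟩ : Subgroup.center ↥P) ≠ 1 := fun e => hy1 (by
    simpa using congrArg (fun w : Subgroup.center ↥P => ((w : ↥P) : S)) e)
  have : (⟨x', hx'⟩ : Subgroup.center ↥P) = ⟨y', hy'⟩ := by
    rcases h3 with h | h <;> rcases h1 with h1 | h1 <;> rcases h2 with h2 | h2 <;>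
      first | exact h1.trans h2.symm | exact absurd (h1.trans h.symm) hx'' | exact absurd (h2.trans h.symm) hy''
  exact congrArg (fun w : Subgroup.center ↥P => ((w : ↥P) : S)) this

/-- Two normal nonabelian subgroups with different centres of order two. -/
theorem disjoint_pair (h2 : IsPGroup 2 S) (hr : Bound 4 S) (P Q : Subgroup S) [P.Normal] [Q.Normal]
    (hP : ¬ IsMulCommutative ↥P) (hQ : ¬ IsMulCommutative ↥Q)
    (hZP : Nat.card ↥(Subgroup.center ↥P) = 2) (hZQ : Nat.card ↥(Subgroup.center ↥Q) = 2)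
    (hne : (Subgroup.center ↥P).map P.subtype ≠ (Subgroup.center ↥Q).map Q.subtype) :
    ⁅P, Q⁆ = ⊥ ∧ P ⊓ Q = ⊥ ∧ Subgroup.centralizer ((P ⊔ Q : Subgroup S) : Set S) ≤ P ⊔ Q := by
  haveI : Fact (Nat.Prime 2) := ⟨Nat.prime_two⟩
  have hPp : IsPGroup 2 P := h2.to_subgroup P
  have hQp : IsPGroup 2 Q := h2.to_subgroup Q
  set ZP := (Subgroup.center ↥P).map P.subtype with hZPd
  set ZQ := (Subgroup.center ↥Q).map Q.subtype with hZQd
  haveI hZPn : ZP.Normal := CfsgLib.Core.map_subtype_normal_of_characteristic ‹P.Normal› inferInstance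
  haveI hZQn : ZQ.Normal := CfsgLib.Core.map_subtype_normal_of_characteristic ‹Q.Normal› inferInstance
  have hcard : ∀ (R : Subgroup S), Nat.card ↥(Subgroup.center ↥R) = 2 →
      Nat.card ↥((Subgroup.center ↥R).map R.subtype) = 2 := fun R hR => by
    rw [Subgroup.card_map_of_injective R.subtype_injective, hR]
  -- a non-trivial normal subgroup inside meets the centre
  have hmeet : ∀ (R : Subgroup S) (W : Subgroup S), R.Normal → W.Normal → W ≤ R → W ≠ ⊥ →
      IsPGroup 2 R → Nat.card ↥(Subgroup.center ↥R) = 2 → (Subgroup.center ↥R).map R.subtype ≤ W := by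
    intro R W _ hW hWR hW1 hRp hR
    haveI := hW
    have hne' : W.subgroupOf R ≠ ⊥ := fun e => hW1 (by
      rw [← Subgroup.map_subgroupOf_eq_of_le hWR, e, Subgroup.map_bot])
    haveI : Nontrivial (W.subgroupOf R) := (Subgroup.nontrivial_iff_ne_bot _).2 hne'
    haveI := hRp.isNilpotent
    have h1 := CfsgLib.Core.nilpotent_inf_center_ne_bot (N := W.subgroupOf R) hne'
    have h2' : W.subgroupOf R ⊓ Subgroup.center ↥R = Subgroup.center ↥R :=
      Subgroup.eq_of_le_of_card_ge inf_le_right (by rw [hR]; exact (Subgroup.one_lt_card_iff_ne_bot _).2 h1)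
    rintro _ ⟨z, hz, rfl⟩
    exact (h2'.ge hz).1
  have hcentral : ∀ (Z : Subgroup S), Z.Normal → Nat.card Z = 2 → Z ≤ Subgroup.center S := by
    intro Z hZn hZ z hz
    rw [Subgroup.mem_center_iff]
    intro g
    obtain ⟨a, b, -, huniv⟩ := Nat.card_eq_two_iff.1 hZ
    by_cases hz1 : z = 1
    · subst hz1; simp
    have h1 : (⟨z, hz⟩ : Z) ∈ ({a, b} : Set Z) := huniv.ge trivial
    have h2' : (⟨g * z * g⁻¹, hZn.conj_mem z hz g⟩ : Z) ∈ ({a, b} : Set Z) := huniv.ge trivial
    have h3 : (1 : Z) ∈ ({a, b} : Set Z) := huniv.ge trivial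
    simp only [Set.mem_insert_iff, Set.mem_singleton_iff] at h1 h2' h3
    have hz' : (⟨z, hz⟩ : Z) ≠ 1 := fun e => hz1 (congrArg Subtype.val e)
    have hz'' : (⟨g * z * g⁻¹, hZn.conj_mem z hz g⟩ : Z) ≠ 1 := fun e =>
      hz1 (conj_eq_one_iff.1 (congrArg Subtype.val e))
    have : (⟨g * z * g⁻¹, hZn.conj_mem z hz g⟩ : Z) = ⟨z, hz⟩ := by
      rcases h3 with h | h <;> rcases h1 with h1 | h1 <;> rcases h2' with h2' | h2' <;>
        first | exact h2'.trans h1.symm | exact absurd (h1.trans h.symm) hz' | exact absurd (h2'.trans h.symm) hz''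
    exact mul_inv_eq_iff_eq_mul.1 (congrArg Subtype.val this)
  have hinf : P ⊓ Q = ⊥ := by
    by_contra h
    have h1 := hmeet P (P ⊓ Q) inferInstance (Subgroup.normal_inf_normal P Q) inf_le_left h hPp hZP
    have h2' := hmeet Q (P ⊓ Q) inferInstance (Subgroup.normal_inf_normal P Q) inf_le_right h hQp hZQ
    apply hne
    refine Subgroup.eq_of_le_of_card_ge ?_ (by rw [hcard P hZP, hcard Q hZQ])
    intro z hz
    exact ⟨⟨z, (h1 hz).2⟩, Subgroup.mem_center_iff.2 fun w => Subtype.ext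
      (Subgroup.mem_center_iff.1 (hcentral ZP hZPn (hcard P hZP) hz) w), rfl⟩
  have hcomm : ∀ a ∈ P, ∀ b ∈ Q, a * b = b * a := fun a ha b hb =>
    Subgroup.commute_of_normal_of_disjoint _ _ inferInstance inferInstance (disjoint_iff.2 hinf) a b ha hb
  refine ⟨?_, hinf, ?_⟩
  · rw [Subgroup.commutator_eq_bot_iff_le_centralizer]
    exact fun a ha => Subgroup.mem_centralizer_iff.2 fun b hb => (hcomm a ha b hb).symm
  -- an element outside would give a section of rank five
  by_contra hC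
  set C := Subgroup.centralizer ((P ⊔ Q : Subgroup S) : Set S) with hCd
  haveI : (P ⊔ Q).Normal := Subgroup.sup_normal P Q
  obtain ⟨c, hcC, hc, hc2⟩ : ∃ c ∈ C, c ∉ P ⊔ Q ∧ c ^ 2 ∈ P ⊔ Q := by
    obtain ⟨c₀, hc₀, hc₀'⟩ := SetLike.not_le_iff_exists.1 hC
    obtain ⟨k, hk⟩ := IsPGroup.iff_orderOf.1 (h2.to_quotient (P ⊔ Q)) (c₀ : S ⧸ P ⊔ Q)
    have hk0 : k ≠ 0 := fun e => hc₀' ((QuotientGroup.eq_one_iff c₀).1
      (orderOf_eq_one_iff.1 (by rw [hk, e, pow_zero])))
    obtain ⟨j, rfl⟩ : ∃ j, k = j + 1 := ⟨k - 1, by omega⟩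
    refine ⟨c₀ ^ 2 ^ j, pow_mem hc₀ _, fun h => ?_, ?_⟩
    · rw [← QuotientGroup.eq_one_iff, QuotientGroup.mk_pow] at h
      have := orderOf_dvd_of_pow_eq_one h
      rw [hk, Nat.pow_dvd_pow_iff_le_right one_lt_two] at this
      omega
    · rw [← QuotientGroup.eq_one_iff, QuotientGroup.mk_pow, QuotientGroup.mk_pow, ← pow_mul, ← pow_succ,
        ← hk, pow_orderOf_eq_one]
  set FP := (frattini ↥P).map P.subtype with hFP
  set FQ := (frattini ↥Q).map Q.subtype with hFQ
  haveI : FP.Normal := CfsgLib.Core.map_subtype_normal_of_characteristic ‹P.Normal› inferInstance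
  haveI : FQ.Normal := CfsgLib.Core.map_subtype_normal_of_characteristic ‹Q.Normal› inferInstance
  set N := FP ⊔ FQ with hN
  haveI : N.Normal := Subgroup.sup_normal FP FQ
  set H := (P ⊔ Q) ⊔ Subgroup.zpowers c with hH
  set π := QuotientGroup.mk' N with hπ
  have hgen : ∀ (R : Subgroup S), IsPGroup 2 R → (frattini ↥R).map R.subtype ≤ N →
      ∀ a ∈ R, ∀ b ∈ R, π a * π b = π b * π a ∧ π a ^ 2 = 1 := by
    intro R hR hle a ha b hb
    constructor
    · rw [← map_mul, ← map_mul, hπ, QuotientGroup.mk'_apply, QuotientGroup.mk'_apply, QuotientGroup.eq]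
      refine hle ⟨⁅(⟨b, hb⟩ : R)⁻¹, (⟨a, ha⟩ : R)⁻¹⁆, CfsgLib.Core.pgroup_commutator_le_frattini hR
        (Subgroup.commutator_mem_commutator (Subgroup.mem_top _) (Subgroup.mem_top _)), ?_⟩
      simp [commutatorElement_def, mul_assoc]
    · rw [← map_pow]
      exact (QuotientGroup.eq_one_iff _).2
        (hle ⟨⟨a, ha⟩ ^ 2, CfsgLib.Core.pgroup_pow_mem_frattini hR _, rfl⟩)
  have hc2N : c ^ 2 ∈ N := by
    obtain ⟨a, ha, b, hb, hab⟩ := Subgroup.mem_sup_of_normal_right.1 hc2
    have hcen : ∀ w ∈ P ⊔ Q, w * c ^ 2 = c ^ 2 * w := fun w hw =>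
      Subgroup.mem_centralizer_iff.1 (pow_mem hcC 2) w hw
    have haZ : a ∈ ZP := ⟨⟨a, ha⟩, Subgroup.mem_center_iff.2 fun w => Subtype.ext (by
      have h := hcen w (Subgroup.mem_sup_left w.2)
      rw [← hab, ← mul_assoc, mul_assoc a b, ← hcomm w w.2 b hb, ← mul_assoc] at h
      exact mul_right_cancel h), rfl⟩
    have hbZ : b ∈ ZQ := ⟨⟨b, hb⟩, Subgroup.mem_center_iff.2 fun w => Subtype.ext (by
      have h := hcen w (Subgroup.mem_sup_right w.2)
      rw [← hab, ← mul_assoc, ← hcomm a ha w w.2, mul_assoc, mul_assoc a b] at h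
      exact mul_left_cancel h), rfl⟩
    rw [← hab]
    exact mul_mem (Subgroup.mem_sup_left (Subgroup.map_mono (center_le_frattini hPp hP hZP).1 haZ))
      (Subgroup.mem_sup_right (Subgroup.map_mono (center_le_frattini hQp hQ hZQ).1 hbZ))
  set T : Set S := (P : Set S) ∪ (Q : Set S) ∪ {c} with hT
  have hTH : H = Subgroup.closure T := by
    rw [hT, Subgroup.closure_union, Subgroup.closure_union, Subgroup.closure_eq, Subgroup.closure_eq,
      ← Subgroup.zpowers_eq_closure]
  have hTc : ∀ a ∈ T, ∀ b ∈ T, π a * π b = π b * π a := by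
    have hcc : ∀ w ∈ P ⊔ Q, π w * π c = π c * π w := fun w hw => by
      rw [← map_mul, ← map_mul, Subgroup.mem_centralizer_iff.1 hcC w hw]
    rintro a ((ha | ha) | ha) b ((hb | hb) | hb)
    · exact (hgen P hPp le_sup_left a ha b hb).1
    · rw [← map_mul, ← map_mul, hcomm a ha b hb]
    · rw [hb]; exact hcc a (Subgroup.mem_sup_left ha)
    · rw [← map_mul, ← map_mul, hcomm b hb a ha]
    · exact (hgen Q hQp le_sup_right a ha b hb).1
    · rw [hb]; exact hcc a (Subgroup.mem_sup_right ha)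
    · rw [ha]; exact (hcc b (Subgroup.mem_sup_left hb)).symm
    · rw [ha]; exact (hcc b (Subgroup.mem_sup_right hb)).symm
    · rw [ha, hb]
  have hA : IsMulCommutative ↥(H.map π) := by
    rw [hTH, MonoidHom.map_closure]
    refine Subgroup.isMulCommutative_closure ?_
    rintro _ ⟨a, ha, rfl⟩ _ ⟨b, hb, rfl⟩
    exact hTc a ha b hb
  have hA2 : ∀ a ∈ H.map π, a ^ 2 = 1 := by
    intro a ha
    rw [hTH, MonoidHom.map_closure] at ha
    haveI : IsMulCommutative ↥(Subgroup.closure (π '' T)) := by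
      rw [← MonoidHom.map_closure, ← hTH]; exact hA
    induction ha using Subgroup.closure_induction with
    | mem y hy =>
      obtain ⟨x, (hx | hx) | hx, rfl⟩ := hy
      · exact (hgen P hPp le_sup_left x hx x hx).2
      · exact (hgen Q hQp le_sup_right x hx x hx).2
      · rw [hx, ← map_pow]; exact (QuotientGroup.eq_one_iff _).2 hc2N
    | one => simp
    | mul y z hy hz ihy ihz =>
      have : y * z = z * y := congrArg Subtype.val
        (mul_comm' (⟨y, hy⟩ : Subgroup.closure (π '' T)) ⟨z, hz⟩)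
      rw [Commute.mul_pow this, ihy, ihz, one_mul]
    | inv y _ ihy => rw [inv_pow, ihy, inv_one]
  have hbound := hr (S ⧸ N) ⊤ (π.comp (⊤ : Subgroup S).subtype)
    (fun x => by obtain ⟨y, rfl⟩ := QuotientGroup.mk'_surjective N x; exact ⟨⟨y, Subgroup.mem_top y⟩, rfl⟩)
    (H.map π) hA hA2
  -- counting
  have hPQ : Nat.card ↥(P ⊔ Q) = Nat.card P * Nat.card Q :=
    CfsgLib.Core.card_sup_of_disjoint (le_top.trans (Subgroup.normalizer_eq_top (H := Q)).ge) hinf
  have hFP' : FP ≤ P := Subgroup.map_subtype_le _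
  have hFQ' : FQ ≤ Q := Subgroup.map_subtype_le _
  have hNc : Nat.card N = Nat.card FP * Nat.card FQ :=
    CfsgLib.Core.card_sup_of_disjoint (le_top.trans (Subgroup.normalizer_eq_top (H := FQ)).ge)
      (le_bot_iff.1 (hinf ▸ inf_le_inf hFP' hFQ'))
  have hHc : 2 * Nat.card ↥(P ⊔ Q) ≤ Nat.card H := by
    obtain ⟨d, hd⟩ := Subgroup.card_dvd_of_le (le_sup_left : P ⊔ Q ≤ H)
    rw [hd, mul_comm 2]
    refine Nat.mul_le_mul_left _ ?_
    by_contra hd2
    have hd1 : d = 1 := by
      have : 0 < Nat.card H := Nat.card_pos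
      rcases d with _ | _ | d
      · exact absurd (hd.trans (mul_zero _)) Nat.card_pos.ne'
      · rfl
      · omega
    have : P ⊔ Q = H := CfsgLib.Core.eq_of_le_of_card_le le_sup_left (by rw [hd, hd1, mul_one])
    exact hc (this.ge (Subgroup.mem_sup_right (Subgroup.mem_zpowers c)))
  have hmapc : Nat.card N * Nat.card ↥(H.map π) = Nat.card H := by
    have h5 : Nat.card ↥(H ⊓ π.ker) * Nat.card ↥(H.map π) = Nat.card H := by
      rw [← Subgroup.relIndex_ker, inf_comm]
      exact CfsgLib.Core.card_inf_mul_relIndex π.ker H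
    rwa [QuotientGroup.ker_mk', inf_eq_right.2 ((sup_le_sup hFP' hFQ').trans le_sup_left)] at h5
  have hiP : Nat.card FP * 4 ≤ Nat.card P := by
    rw [← (frattini ↥P).card_mul_index, hFP, Subgroup.card_map_of_injective P.subtype_injective]
    exact Nat.mul_le_mul_left _ (center_le_frattini hPp hP hZP).2
  have hiQ : Nat.card FQ * 4 ≤ Nat.card Q := by
    rw [← (frattini ↥Q).card_mul_index, hFQ, Subgroup.card_map_of_injective Q.subtype_injective]
    exact Nat.mul_le_mul_left _ (center_le_frattini hQp hQ hZQ).2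
  have h32 := Nat.mul_le_mul hiP hiQ
  have hpos : 0 < Nat.card FP * Nat.card FQ := Nat.mul_pos Nat.card_pos Nat.card_pos
  have h16 := Nat.mul_le_mul_left (Nat.card FP * Nat.card FQ) hbound
  rw [← hNc, hmapc] at h16
  rw [hPQ] at hHc
  rw [hNc] at h16
  nlinarith

end CfsgLib.RankFour
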