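import Cfsg.Agent.Lib.FgsRankFour
import Mathlib.GroupTheory.Nilpotent

/-!
# The centralizer of the centre of a nonabelian subgroup with centre of order two
-/

set_option autoImplicit false

universe u

namespace CfsgLib.RankFour

open scoped Pointwise

variable {S : Type u} [Group S] [Finite S]

omit [Finite S] in
theorem card_center_congr {A B : Type u} [Group A] [Group B] (e : A ≃* B) :
    Nat.card ↥(Subgroup.center A) = Nat.card ↥(Subgroup.center B) :=
  Nat.card_congr (Subgroup.centerCongr e).toEquiv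

omit [Finite S] in
theorem map_center_congr {A B : Subgroup S} (e : A ≃* B) (f : S → S) (he : ∀ a : A, ((e a : B) : S) = f a) :
    ((Subgroup.center ↥B).map B.subtype : Set S) = f '' ((Subgroup.center ↥A).map A.subtype) := by
  ext x
  constructor
  · rintro ⟨b, hb, rfl⟩
    refine ⟨(e.symm b : A), ⟨e.symm b, Subgroup.mem_center_iff.2 fun w => e.injective (by
      rw [map_mul, map_mul, MulEquiv.apply_symm_apply]
      exact Subgroup.mem_center_iff.1 hb (e w)), rfl⟩, ?_⟩
    rw [← he, MulEquiv.apply_symm_apply]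
    rfl
  · rintro ⟨_, ⟨a, ha, rfl⟩, rfl⟩
    refine ⟨e a, Subgroup.mem_center_iff.2 fun w => e.symm.injective (by
      rw [map_mul, map_mul, MulEquiv.symm_apply_apply]
      exact Subgroup.mem_center_iff.1 ha (e.symm w)), ?_⟩
    exact he a

theorem disjoint_pair_in (h2 : IsPGroup 2 S) (hr : Bound 4 S) {P Q T : Subgroup S} (hPT : P ≤ T)
    (hQT : Q ≤ T) (hPn : T ≤ Subgroup.normalizer (P : Set S)) (hQn : T ≤ Subgroup.normalizer (Q : Set S))
    (hP : ¬ IsMulCommutative ↥P) (hQ : ¬ IsMulCommutative ↥Q)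
    (hZP : Nat.card ↥(Subgroup.center ↥P) = 2) (hZQ : Nat.card ↥(Subgroup.center ↥Q) = 2)
    (hne : (Subgroup.center ↥P).map P.subtype ≠ (Subgroup.center ↥Q).map Q.subtype) :
    (∀ a ∈ P, ∀ b ∈ Q, a * b = b * a) ∧ P ⊓ Q = ⊥ ∧
      T ⊓ Subgroup.centralizer ((P ⊔ Q : Subgroup S) : Set S) ≤ P ⊔ Q := by
  haveI : (P.subgroupOf T).Normal := (Subgroup.normal_subgroupOf_iff_le_normalizer hPT).2 hPn
  haveI : (Q.subgroupOf T).Normal := (Subgroup.normal_subgroupOf_iff_le_normalizer hQT).2 hQn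
  let eP : (P.subgroupOf T) ≃* P := Subgroup.subgroupOfEquivOfLe hPT
  let eQ : (Q.subgroupOf T) ≃* Q := Subgroup.subgroupOfEquivOfLe hQT
  have hP' : ¬ IsMulCommutative ↥(P.subgroupOf T) := fun h => hP ⟨⟨fun a b => eP.symm.injective (by
    rw [map_mul, map_mul]; exact h.is_comm.comm _ _)⟩⟩
  have hQ' : ¬ IsMulCommutative ↥(Q.subgroupOf T) := fun h => hQ ⟨⟨fun a b => eQ.symm.injective (by
    rw [map_mul, map_mul]; exact h.is_comm.comm _ _)⟩⟩
  have hmap : ∀ (A : Subgroup S) (hA : A ≤ T),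
      ((Subgroup.center ↥(A.subgroupOf T)).map (A.subgroupOf T).subtype).map T.subtype =
        (Subgroup.center ↥A).map A.subtype := by
    intro A hA
    ext x
    constructor
    · rintro ⟨_, ⟨a, ha, rfl⟩, rfl⟩
      exact ⟨Subgroup.subgroupOfEquivOfLe hA a, Subgroup.mem_center_iff.2 fun w =>
        (Subgroup.subgroupOfEquivOfLe hA).symm.injective (by
          rw [map_mul, map_mul, MulEquiv.symm_apply_apply]
          exact Subgroup.mem_center_iff.1 ha _), rfl⟩
    · rintro ⟨a, ha, rfl⟩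
      refine ⟨⟨(a : S), hA a.2⟩, ⟨⟨⟨(a : S), hA a.2⟩, a.2⟩, Subgroup.mem_center_iff.2 fun w => ?_, rfl⟩, rfl⟩
      refine (Subgroup.subgroupOfEquivOfLe hA).injective ?_
      rw [map_mul, map_mul]
      exact Subgroup.mem_center_iff.1 ha _
  obtain ⟨h1, h2', h3⟩ := disjoint_pair (h2.to_subgroup T) (hr.subgroup T) (P.subgroupOf T) (Q.subgroupOf T)
    hP' hQ' ((card_center_congr eP).trans hZP) ((card_center_congr eQ).trans hZQ)
    (fun e => hne (by rw [← hmap P hPT, ← hmap Q hQT, e]))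
  refine ⟨fun a ha b hb => ?_, ?_, ?_⟩
  · rw [Subgroup.commutator_eq_bot_iff_le_centralizer] at h1
    exact (congrArg Subtype.val (Subgroup.mem_centralizer_iff.1
      (h1 (show (⟨a, hPT ha⟩ : T) ∈ P.subgroupOf T from ha)) ⟨b, hQT hb⟩ hb)).symm
  · refine le_bot_iff.1 fun x hx => ?_
    have : (⟨x, hPT hx.1⟩ : T) ∈ P.subgroupOf T ⊓ Q.subgroupOf T := ⟨hx.1, hx.2⟩
    rw [h2', Subgroup.mem_bot] at this
    exact congrArg Subtype.val this
  · rintro x ⟨hxT, hx⟩
    have hsup : P.subgroupOf T ⊔ Q.subgroupOf T = (P ⊔ Q).subgroupOf T :=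
      (Subgroup.subgroupOf_sup hPT hQT).symm
    have hmem : (⟨x, hxT⟩ : T) ∈ Subgroup.centralizer ((P.subgroupOf T ⊔ Q.subgroupOf T : Subgroup T) : Set T) := by
      rw [Subgroup.mem_centralizer_iff]
      intro w hw
      rw [hsup] at hw
      exact Subtype.ext (Subgroup.mem_centralizer_iff.1 hx w hw)
    have := h3 hmem
    rwa [hsup] at this

theorem main (h2 : IsPGroup 2 S) (hr : Bound 4 S) (P : Subgroup S) (hP : ¬ IsMulCommutative ↥P)
    (hZP : Nat.card ↥(Subgroup.center ↥P) = 2) (S₀ : Subgroup S)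
    (hS₀ : S₀ = Subgroup.centralizer (((Subgroup.center ↥P).map P.subtype : Subgroup S) : Set S))
    (hPn : ∀ s ∈ S₀, ∀ x ∈ P, s * x * s⁻¹ ∈ P) :
    S₀ = ⊤ ∨ (Bound 2 ↥P ∧ S₀.index = 2) := by
  haveI : Fact (Nat.Prime 2) := ⟨Nat.prime_two⟩
  haveI := h2.isNilpotent
  refine or_iff_not_imp_left.2 fun hne => ?_
  have hnc := Group.normalizerCondition_of_isNilpotent (G := S)
  obtain ⟨t, htN, htS⟩ := SetLike.exists_of_lt (hnc S₀ (lt_top_iff_ne_top.2 hne))
  set N := Subgroup.normalizer (S₀ : Set S) with hN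
  obtain ⟨z, hz, hz1⟩ : ∃ z ∈ (Subgroup.center ↥P).map P.subtype, z ≠ 1 := by
    have hne1 : (Subgroup.center ↥P).map P.subtype ≠ ⊥ := by
      rw [← Subgroup.one_lt_card_iff_ne_bot, Subgroup.card_map_of_injective P.subtype_injective, hZP]
      norm_num
    obtain ⟨⟨w, hw⟩, hw1⟩ := Subgroup.ne_bot_iff_exists_ne_one.1 hne1
    exact ⟨w, hw, fun e => hw1 (Subtype.ext e)⟩
  have hmemS : ∀ g : S, g ∈ S₀ ↔ g * z * g⁻¹ = z := by
    intro g
    rw [hS₀, Subgroup.mem_centralizer_iff]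
    refine ⟨fun h => by rw [← h z hz, mul_inv_cancel_right], fun h w hw => ?_⟩
    by_cases hw1 : w = 1
    · rw [hw1, one_mul, mul_one]
    · rw [eq_of_mem hZP hw hz hw1 hz1]
      exact (mul_inv_eq_iff_eq_mul.1 h).symm
  have hPS : P ≤ S₀ := fun a ha => by
    rw [hmemS]
    obtain ⟨z', hz', rfl⟩ := hz
    exact mul_inv_eq_iff_eq_mul.2 (congrArg Subtype.val (Subgroup.mem_center_iff.1 hz' ⟨a, ha⟩))
  have hPnorm : S₀ ≤ Subgroup.normalizer (P : Set S) := CfsgLib.Core.le_normalizer_iff_forall.2 hPn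
  -- conjugates of `P` by elements of the normalizer
  let cj : S → Subgroup S := fun g => P.map (MulAut.conj g).toMonoidHom
  let ec : ∀ g : S, P ≃* cj g := fun g => P.equivMapOfInjective _ (MulAut.conj g).injective
  have hcS : ∀ g ∈ N, cj g ≤ S₀ := by
    rintro g hg _ ⟨a, ha, rfl⟩
    exact (Subgroup.mem_normalizer_iff.1 hg a).1 (hPS ha)
  have hcn : ∀ g ∈ N, S₀ ≤ Subgroup.normalizer (cj g : Set S) := by
    intro g hg
    refine CfsgLib.Core.le_normalizer_iff_forall.2 fun s hs => ?_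
    rintro _ ⟨a, ha, rfl⟩
    refine ⟨g⁻¹ * s * g * a * (g⁻¹ * s * g)⁻¹, hPn _ ?_ a ha, ?_⟩
    · have := (Subgroup.mem_normalizer_iff.1 (inv_mem hg) s).1 hs
      simpa using this
    · show g * (g⁻¹ * s * g * a * (g⁻¹ * s * g)⁻¹) * g⁻¹ = s * (g * a * g⁻¹) * s⁻¹
      group
  have hcP : ∀ g, ¬ IsMulCommutative ↥(cj g) := fun g h => hP ⟨⟨fun a b => (ec g).injective (by
    rw [map_mul, map_mul]; exact h.is_comm.comm _ _)⟩⟩
  have hcZ : ∀ g, Nat.card ↥(Subgroup.center ↥(cj g)) = 2 := fun g => (card_center_congr (ec g)).symm.trans hZP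
  have hcz : ∀ g, g * z * g⁻¹ ∈ (Subgroup.center ↥(cj g)).map (cj g).subtype := fun g => by
    have h := map_center_congr (ec g) (fun x => g * x * g⁻¹) (fun a => rfl)
    exact h.ge ⟨z, hz, rfl⟩
  have hsame : ∀ g, g * z * g⁻¹ ≠ 1 := fun g e => hz1 (conj_eq_one_iff.1 e)
  have hpair : ∀ a b, a ∈ N → b ∈ N → a * z * a⁻¹ ≠ b * z * b⁻¹ →
      (∀ x ∈ cj a, ∀ y ∈ cj b, x * y = y * x) ∧ cj a ⊓ cj b = ⊥ ∧
      S₀ ⊓ Subgroup.centralizer ((cj a ⊔ cj b : Subgroup S) : Set S) ≤ cj a ⊔ cj b :=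
    fun a b ha hb hab => disjoint_pair_in h2 hr (hcS a ha) (hcS b hb) (hcn a ha) (hcn b hb) (hcP a) (hcP b)
      (hcZ a) (hcZ b) fun e => hab (eq_of_mem (hcZ b) (e ▸ hcz a) (hcz b) (hsame a) (hsame b))
  have hone : cj 1 = P := by
    ext x
    simp [cj]
  set z' := t * z * t⁻¹ with hz'
  have hzz' : (1 : S) * z * (1 : S)⁻¹ ≠ z' := by
    simpa using fun e => htS ((hmemS t).2 e.symm)
  obtain ⟨hcomm, hdis, hcle⟩ := hpair 1 t (one_mem _) htN hzz'
  rw [hone] at hcomm hdis hcle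
  set Q := cj t with hQd
  -- all outer elements of the normalizer move `z` to `z'`
  have hout : ∀ n ∈ N, n ∉ S₀ → n * z * n⁻¹ = z' := by
    intro n hn hnS
    by_contra hne'
    obtain ⟨h1, h1', -⟩ := hpair 1 n (one_mem _) hn (by simpa using fun e => hnS ((hmemS n).2 e.symm))
    obtain ⟨h3, -, -⟩ := hpair t n htN hn (fun e => hne' e.symm)
    rw [hone] at h1 h1'
    have hle : cj n ≤ P ⊔ Q := fun w hw => hcle ⟨hcS n hn hw, by
      show w ∈ Subgroup.centralizer ((P ⊔ Q : Subgroup S) : Set S)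
      rw [Subgroup.mem_centralizer_iff]
      intro v hv
      obtain ⟨a, ha, b, hb, rfl⟩ :=
        (CfsgLib.Core.mem_sup_iff_of_le_normalizer (hPS.trans (hcn t htN))).1 hv
      exact ((show Commute a w from h1 a ha w hw).mul_left (h3 b hb w hw)).eq⟩
    refine hcP n ⟨⟨fun u v => Subtype.ext ?_⟩⟩
    obtain ⟨a, ha, b, hb, hab⟩ :=
      (CfsgLib.Core.mem_sup_iff_of_le_normalizer (hPS.trans (hcn t htN))).1 (hle u.2)
    show (u : S) * v = v * u
    rw [← hab]
    exact ((show Commute a (v : S) from h1 a ha v v.2).mul_left (h3 b hb v v.2)).eq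
  have hback : ∀ n ∈ N, n ∉ S₀ → n * z' * n⁻¹ = z := by
    intro n hn hnS
    by_cases hnt : n * t ∈ S₀
    · have := (hmemS _).1 hnt
      rw [hz']
      calc n * (t * z * t⁻¹) * n⁻¹ = n * t * z * (n * t)⁻¹ := by group
        _ = z := this
    · exfalso
      have h1 := hout _ (mul_mem hn htN) hnt
      have h2' : n * z' * n⁻¹ = n * z * n⁻¹ := by
        rw [hout n hn hnS]
        calc n * (t * z * t⁻¹) * n⁻¹ = n * t * z * (n * t)⁻¹ := by group
          _ = z' := h1
      exact hzz' (by simpa using (mul_left_cancel (mul_right_cancel h2')).symm)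
  have hidx : (S₀.subgroupOf N).index = 2 := by
    rw [Subgroup.index_eq_two_iff]
    refine ⟨⟨t, htN⟩, fun b => ?_⟩
    simp only [Subgroup.mem_subgroupOf, Subgroup.coe_mul]
    by_cases hb : (b : S) ∈ S₀
    · refine Or.inr ⟨hb, fun e => htS ?_⟩
      have := mul_mem (inv_mem hb) e
      rwa [inv_mul_cancel_left] at this
    · refine Or.inl ⟨(hmemS _).2 ?_, hb⟩
      calc (b : S) * t * z * ((b : S) * t)⁻¹ = b * (t * z * t⁻¹) * (b : S)⁻¹ := by group
        _ = z := hback b b.2 hb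
  have hNtop : N = ⊤ := by
    by_contra hNne
    obtain ⟨g, hgN, hgN'⟩ := SetLike.exists_of_lt (hnc N (lt_top_iff_ne_top.2 hNne))
    have hconjN : ∀ n ∈ N, g * n * g⁻¹ ∈ N := fun n hn => (Subgroup.mem_normalizer_iff.1 hgN n).1 hn
    have hS₀N : S₀ ≤ N := Subgroup.le_normalizer
    set u := g * z * g⁻¹ with hu
    set K := S₀.map (MulAut.conj g).toMonoidHom with hK
    have hKN : K ≤ N := by
      rintro _ ⟨s, hs, rfl⟩
      exact hconjN s (hS₀N hs)
    have hKmem : ∀ k : S, k ∈ K ↔ k * u * k⁻¹ = u := by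
      intro k
      constructor
      · rintro ⟨s, hs, rfl⟩
        show g * s * g⁻¹ * (g * z * g⁻¹) * (g * s * g⁻¹)⁻¹ = g * z * g⁻¹
        calc _ = g * (s * z * s⁻¹) * g⁻¹ := by group
          _ = _ := by rw [(hmemS s).1 hs]
      · intro h
        refine ⟨g⁻¹ * k * g, (hmemS _).2 ?_, by simp [mul_assoc]⟩
        calc g⁻¹ * k * g * z * (g⁻¹ * k * g)⁻¹ = g⁻¹ * (k * u * k⁻¹) * g := by rw [hu]; group
          _ = z := by rw [h, hu]; group
    obtain ⟨n, hnK, hnS⟩ : ∃ n ∈ K, n ∉ S₀ := by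
      by_contra hall
      push Not at hall
      apply hgN'
      have heq : K = S₀ := Subgroup.eq_of_le_of_card_ge hall
        (Subgroup.card_map_of_injective (MulAut.conj g).injective).ge
      exact CfsgLib.Core.conj_smul_eq_self_iff.1 (by rw [CfsgLib.Core.conj_smul_eq_map, ← hK, heq])
    have huN : u ∈ N := hconjN z (hS₀N (hPS (Subgroup.map_subtype_le _ hz)))
    have hQS : Q ≤ S₀ := hcS t htN
    have hPQc : Nat.card ↥(P ⊔ Q) = Nat.card P * Nat.card Q :=
      CfsgLib.Core.card_sup_of_disjoint (hPS.trans (hcn t htN)) hdis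
    have hswap : ∀ m ∈ N, m ∉ S₀ → ∀ x ∈ P, m * x * m⁻¹ ∈ Q := by
      intro m hm hmS x hx
      have hs : t⁻¹ * m ∈ S₀ := (hmemS _).2 (by
        calc t⁻¹ * m * z * (t⁻¹ * m)⁻¹ = t⁻¹ * (m * z * m⁻¹) * t := by group
          _ = z := by rw [hout m hm hmS, hz']; group)
      refine ⟨t⁻¹ * m * x * (t⁻¹ * m)⁻¹, hPn _ hs x hx, ?_⟩
      show t * (t⁻¹ * m * x * (t⁻¹ * m)⁻¹) * t⁻¹ = m * x * m⁻¹
      group
    have hswap' : ∀ m ∈ N, m ∉ S₀ → ∀ y ∈ Q, m * y * m⁻¹ ∈ P := by
      rintro m hm hmS _ ⟨x, hx, rfl⟩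
      have hs : m * t ∈ S₀ := (hmemS _).2 (by
        calc m * t * z * (m * t)⁻¹ = m * z' * m⁻¹ := by rw [hz']; group
          _ = z := hback m hm hmS)
      show m * (t * x * t⁻¹) * m⁻¹ ∈ P
      have := hPn _ hs x hx
      rwa [mul_inv_rev, ← mul_assoc, show m * t * x * t⁻¹ = m * (t * x * t⁻¹) by group] at this
    have huniq : ∀ a₁ ∈ P, ∀ b₁ ∈ Q, ∀ a₂ ∈ P, ∀ b₂ ∈ Q, a₁ * b₁ = a₂ * b₂ → a₁ = a₂ ∧ b₁ = b₂ := by
      intro a₁ ha₁ b₁ hb₁ a₂ ha₂ b₂ hb₂ e
      have hmem : a₂⁻¹ * a₁ ∈ P ⊓ Q := Subgroup.mem_inf.2 ⟨mul_mem (inv_mem ha₂) ha₁, by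
        have : a₂⁻¹ * a₁ = b₂ * b₁⁻¹ := by
          rw [eq_mul_inv_iff_mul_eq, mul_assoc, e, inv_mul_cancel_left]
        rw [this]
        exact mul_mem hb₂ (inv_mem hb₁)⟩
      rw [hdis, Subgroup.mem_bot, inv_mul_eq_one] at hmem
      subst hmem
      exact ⟨rfl, mul_left_cancel e⟩
    have hKhalf : Nat.card ↥(P ⊔ Q) ≤ 2 * Nat.card ↥(K ⊓ (P ⊔ Q)) := by
      rw [← CfsgLib.Core.card_inf_mul_relIndex K (P ⊔ Q), mul_comm 2]
      refine Nat.mul_le_mul_left _ ?_
      have hKc : Nat.card K = Nat.card S₀ := Subgroup.card_map_of_injective (MulAut.conj g).injective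
      have h1 := (S₀.subgroupOf N).card_mul_index
      rw [hidx, Nat.card_congr (Subgroup.subgroupOfEquivOfLe hS₀N).toEquiv] at h1
      have h2' := (K.subgroupOf N).card_mul_index
      rw [Nat.card_congr (Subgroup.subgroupOfEquivOfLe hKN).toEquiv, hKc] at h2'
      have hK2 : K.relIndex N = 2 :=
        Nat.eq_of_mul_eq_mul_left Nat.card_pos (h2'.trans h1.symm)
      rw [← hK2]
      refine Subgroup.relIndex_le_of_le_right (sup_le (hPS.trans hS₀N) (hQS.trans hS₀N)) ?_
      rw [hK2]; norm_num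
    have huS : u ∈ S₀ := by
      by_contra huS
      have hinj : Nat.card ↥(K ⊓ (P ⊔ Q)) ≤ Nat.card P := by
        have hdec : ∀ k : ↥(K ⊓ (P ⊔ Q)), ∃ a ∈ P, ∃ b ∈ Q, a * b = (k : S) := fun k =>
          (CfsgLib.Core.mem_sup_iff_of_le_normalizer (hPS.trans (hcn t htN))).1 k.2.2
        choose fa hfa fb hfb hab using hdec
        refine Nat.card_le_card_of_injective (fun k => (⟨fa k, hfa k⟩ : P)) ?_
        intro k l e
        have e' : fa k = fa l := congrArg Subtype.val e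
        have key : ∀ k : ↥(K ⊓ (P ⊔ Q)), fb k = u * fa k * u⁻¹ := by
          intro k
          have hk := (hKmem (k : S)).1 k.2.1
          have hk' : u * (k : S) * u⁻¹ = k :=
            mul_inv_eq_iff_eq_mul.2 (mul_inv_eq_iff_eq_mul.1 hk).symm
          rw [← hab k] at hk'
          have h5 : (u * fb k * u⁻¹) * (u * fa k * u⁻¹) = fa k * fb k := by
            conv_rhs => rw [← hk', hcomm _ (hfa k) _ (hfb k)]
            group
          exact ((huniq _ (hswap' u huN huS _ (hfb k)) _ (hswap u huN huS _ (hfa k)) _ (hfa k) _ (hfb k) h5).2).symm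
        exact Subtype.ext (by rw [← hab k, ← hab l, key k, key l, e'])
      have hQc : Nat.card Q = Nat.card P :=
        Subgroup.card_map_of_injective (MulAut.conj t).injective
      have h8 := card_ge_eight (h2.to_subgroup P) hP hZP
      rw [hPQc, hQc] at hKhalf
      nlinarith
    have hcent : ∀ x, x ∈ P ∨ x ∈ Q → u * x * u⁻¹ = x := by
      have hfixK : ∀ x ∈ K, u * x * u⁻¹ = x := fun x hx =>
        mul_inv_eq_iff_eq_mul.2 (mul_inv_eq_iff_eq_mul.1 ((hKmem x).1 hx)).symm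
      have hnN : n ∈ N := hKN hnK
      have hnconj : ∀ x, x ∈ K ↔ n * x * n⁻¹ ∈ K := fun x =>
        Subgroup.mem_normalizer_iff.1 (Subgroup.le_normalizer hnK) x
      have hmulK : ∀ a b : S, a ∈ N → b ∈ N → a ∉ K → b ∉ K → a * b ∈ K := by
        intro a b ha hb haK hbK
        have hKc : Nat.card K = Nat.card S₀ := Subgroup.card_map_of_injective (MulAut.conj g).injective
        have hK2 : (K.subgroupOf N).index = 2 := by
          have h1 := (S₀.subgroupOf N).card_mul_index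
          rw [hidx, Nat.card_congr (Subgroup.subgroupOfEquivOfLe hS₀N).toEquiv] at h1
          have h2' := (K.subgroupOf N).card_mul_index
          rw [Nat.card_congr (Subgroup.subgroupOfEquivOfLe hKN).toEquiv, hKc] at h2'
          exact Nat.eq_of_mul_eq_mul_left Nat.card_pos (h2'.trans h1.symm)
        exact (Subgroup.mul_mem_iff_of_index_two hK2 (a := (⟨a, ha⟩ : N)) (b := ⟨b, hb⟩)).2
          (iff_of_false (show (⟨a, ha⟩ : N) ∉ K.subgroupOf N from haK) hbK)
      intro x hx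
      by_cases hxK : x ∈ K
      · exact hfixK x hxK
      -- pick an element of the other factor outside `K`
      have hnx : n * x * n⁻¹ ∉ K := fun h => hxK ((hnconj x).2 h)
      have huP : ∀ a ∈ P, u * a * u⁻¹ ∈ P := fun a ha => hPn u huS a ha
      have huQ : ∀ b ∈ Q, u * b * u⁻¹ ∈ Q := fun b hb =>
        (Subgroup.mem_normalizer_iff.1 (hcn t htN huS) b).1 hb
      rcases hx with hx | hx
      · have hy : n * x * n⁻¹ ∈ Q := hswap n hnN hnS x hx
        have h5 := hfixK _ (hmulK x _ (hS₀N (hPS hx)) (hS₀N (hQS hy)) hxK hnx)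
        exact (huniq _ (huP x hx) _ (huQ _ hy) x hx _ hy (by rw [← h5]; group)).1
      · have hy : n * x * n⁻¹ ∈ P := hswap' n hnN hnS x hx
        have h5 := hfixK _ (hmulK _ x (hS₀N (hPS hy)) (hS₀N (hQS hx)) hnx hxK)
        exact (huniq _ (huP _ hy) _ (huQ x hx) _ hy x hx (by rw [← h5]; group)).2
    have huPQ : u ∈ P ⊔ Q := hcle ⟨huS, by
      show u ∈ Subgroup.centralizer ((P ⊔ Q : Subgroup S) : Set S)
      rw [Subgroup.mem_centralizer_iff]
      intro v hv
      obtain ⟨a, ha, b, hb, rfl⟩ :=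
        (CfsgLib.Core.mem_sup_iff_of_le_normalizer (hPS.trans (hcn t htN))).1 hv
      have e1 : Commute u a := mul_inv_eq_iff_eq_mul.1 (hcent a (Or.inl ha))
      have e2 : Commute u b := mul_inv_eq_iff_eq_mul.1 (hcent b (Or.inr hb))
      exact (e1.mul_right e2).symm.eq⟩
    obtain ⟨a, ha, b, hb, hab⟩ :=
      (CfsgLib.Core.mem_sup_iff_of_le_normalizer (hPS.trans (hcn t htN))).1 huPQ
    have haZ : a ∈ (Subgroup.center ↥P).map P.subtype := ⟨⟨a, ha⟩, Subgroup.mem_center_iff.2 fun w => Subtype.ext (by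
      show (w : S) * a = a * w
      have h := mul_inv_eq_iff_eq_mul.1 (hcent w (Or.inl w.2))
      rw [← hab, mul_assoc a b, ← hcomm w w.2 b hb, ← mul_assoc, ← mul_assoc] at h
      exact (mul_right_cancel h).symm), rfl⟩
    have hbZ : b ∈ (Subgroup.center ↥Q).map Q.subtype := ⟨⟨b, hb⟩, Subgroup.mem_center_iff.2 fun w => Subtype.ext (by
      show (w : S) * b = b * w
      have h := mul_inv_eq_iff_eq_mul.1 (hcent w (Or.inr w.2))
      rw [← hab, mul_assoc a b, ← mul_assoc (w : S), ← hcomm a ha w w.2, mul_assoc] at h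
      exact (mul_left_cancel h).symm), rfl⟩
    have huK : ∀ k ∈ K, k * u * k⁻¹ = u := fun k hk => (hKmem k).1 hk
    have hnN : n ∈ N := hKN hnK
    by_cases ha1 : a = 1
    · by_cases hb1 : b = 1
      · rw [ha1, hb1, one_mul, hu] at hab
        exact hz1 (conj_eq_one_iff.1 hab.symm)
      · have hbz : b = z' := eq_of_mem (hcZ t) hbZ (hcz t) hb1 (hsame t)
        rw [ha1, one_mul, hbz] at hab
        have := huK n hnK
        rw [← hab, hback n hnN hnS] at this
        exact hzz' (by simpa using this)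
    · have haz : a = z := eq_of_mem hZP haZ hz ha1 hz1
      by_cases hb1 : b = 1
      · rw [haz, hb1, mul_one] at hab
        have := huK n hnK
        rw [← hab, hout n hnN hnS] at this
        exact hzz' (by simpa using this.symm)
      · have hbz : b = z' := eq_of_mem (hcZ t) hbZ (hcz t) hb1 (hsame t)
        rw [haz, hbz] at hab
        have hc : z * z' = z' * z :=
          hcomm z (Subgroup.map_subtype_le _ hz) z' (Subgroup.map_subtype_le _ (hcz t))
        have hcen : ∀ m ∈ N, m * u * m⁻¹ = u := by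
          intro m hm
          rw [← hab]
          by_cases hmS : m ∈ S₀
          · have e1 := (hmemS m).1 hmS
            have e2 : m * z' * m⁻¹ = z' := by
              have h6 := hout (m * t) (mul_mem hm htN) (fun h => htS (by
                have := mul_mem (inv_mem hmS) h
                rwa [inv_mul_cancel_left] at this))
              calc m * z' * m⁻¹ = m * t * z * (m * t)⁻¹ := by rw [hz']; group
                _ = z' := h6
            calc m * (z * z') * m⁻¹ = (m * z * m⁻¹) * (m * z' * m⁻¹) := by group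
              _ = z * z' := by rw [e1, e2]
          · calc m * (z * z') * m⁻¹ = (m * z * m⁻¹) * (m * z' * m⁻¹) := by group
              _ = z * z' := by rw [hout m hm hmS, hback m hm hmS, hc]
        apply htS
        rw [hmemS]
        have h7 := hcen _ (hconjN t htN)
        rw [hu] at h7
        calc t * z * t⁻¹ = g⁻¹ * (g * t * g⁻¹ * (g * z * g⁻¹) * (g * t * g⁻¹)⁻¹) * g := by group
          _ = z := by rw [h7]; group
  refine ⟨?_, ?_⟩
  · -- the pair gives sections of twice the rank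
    intro X _ H f hf A hA hA2
    let ι₁ : H →* S := P.subtype.comp H.subtype
    let ι₂ : H →* S := ((MulAut.conj t).toMonoidHom.comp P.subtype).comp H.subtype
    let ι := MonoidHom.noncommCoprod ι₁ ι₂ (fun a b => hcomm _ (a : ↥P).2 _ ⟨((b : ↥P) : S), (b : ↥P).2, rfl⟩)
    have hι : Function.Injective ι := by
      rw [injective_iff_map_eq_one]
      rintro ⟨a, b⟩ h
      have hb : ι₂ b ∈ P ⊓ Q := Subgroup.mem_inf.2 ⟨by
        have : ι₂ b = (ι₁ a)⁻¹ := eq_inv_of_mul_eq_one_right h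
        rw [this]
        exact inv_mem (a : ↥P).2, ⟨((b : ↥P) : S), (b : ↥P).2, rfl⟩⟩
      rw [hdis, Subgroup.mem_bot] at hb
      have ha : ι₁ a = 1 := by
        have h' : ι₁ a * ι₂ b = 1 := h
        rwa [hb, mul_one] at h'
      have hb' : ((b : ↥P) : S) = 1 := (MulAut.conj t).injective (hb.trans (map_one _).symm)
      exact Prod.ext (Subtype.ext (Subtype.ext ha)) (Subtype.ext (Subtype.ext hb'))
    let e : H × H ≃* ι.range := MonoidHom.ofInjective hι
    have h4 := hr (X × X) ι.range ((f.prodMap f).comp e.symm.toMonoidHom)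
      ((Function.Surjective.prodMap hf hf).comp e.symm.surjective) (A.prod A) ?_ ?_
    · rw [Nat.card_congr (Subgroup.prodEquiv A A).toEquiv, Nat.card_prod] at h4
      nlinarith
    · refine ⟨⟨fun x y => Subtype.ext (Prod.ext ?_ ?_)⟩⟩
      · exact congrArg Subtype.val (hA.is_comm.comm ⟨_, (Subgroup.mem_prod.1 x.2).1⟩ ⟨_, (Subgroup.mem_prod.1 y.2).1⟩)
      · exact congrArg Subtype.val (hA.is_comm.comm ⟨_, (Subgroup.mem_prod.1 x.2).2⟩ ⟨_, (Subgroup.mem_prod.1 y.2).2⟩)
    · intro x hx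
      exact Prod.ext (hA2 _ (Subgroup.mem_prod.1 hx).1) (hA2 _ (Subgroup.mem_prod.1 hx).2)
  · have h8 : S₀.relIndex N = 2 := hidx
    rwa [hNtop, Subgroup.relIndex_top_right] at h8

end CfsgLib.RankFour
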