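import Cfsg.Agent.Lib.TwoFusionQD
import Cfsg.Prelude.Def_Transfer

/-!
# Small facts: root involutions, four-groups in dihedral quotients
-/

set_option autoImplicit false

universe u

namespace CfsgLib.TwoFusion

open Subgroup
open scoped commutatorElement

variable {G : Type u} [Group G]

theorem root_order_four [Finite G] (x₀ : G) (hx₀ : orderOf x₀ = 2)
    (ha : ∀ x : G, IsConj x₀ x → IsPGroup 2 ↥(closure {y : G | IsConj x₀ y ∧ Commute y x}) ∧
      ⁅⁅closure {y : G | IsConj x₀ y ∧ Commute y x}, closure {y : G | IsConj x₀ y ∧ Commute y x}⁆,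
        closure {y : G | IsConj x₀ y ∧ Commute y x}⁆ = ⊥)
    (hb : ∀ x y : G, IsConj x₀ x → IsConj x₀ y → x ≠ y → Commute x y → IsConj x₀ (x * y))
    (x y : G) (hx : IsConj x₀ x) (hy : IsConj x₀ y) (heven : Even (orderOf (x * y)))
    (hgt : 2 < orderOf (x * y)) : orderOf (x * y) = 4 := by
  have hsq : ∀ v : G, IsConj x₀ v → v * v = 1 := by
    intro v hv
    obtain ⟨c, rfl⟩ := isConj_iff.1 hv
    have h2 := pow_orderOf_eq_one x₀
    rw [hx₀, sq] at h2
    rw [show c * x₀ * c⁻¹ * (c * x₀ * c⁻¹) = c * (x₀ * x₀) * c⁻¹ by group, h2, mul_one, mul_inv_cancel]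
  obtain ⟨k, hk⟩ := heven
  set r := x * y with hr
  have hxx := hsq x hx
  have hyy := hsq y hy
  have hxi : x⁻¹ = x := inv_eq_of_mul_eq_one_right hxx
  have hyi : y⁻¹ = y := inv_eq_of_mul_eq_one_right hyy
  have hinv : x * r * x⁻¹ = r⁻¹ := by
    rw [hr, mul_inv_rev, hyi, hxi, ← mul_assoc, hxx, one_mul]
  have hyx : y = x * r := by rw [hr, ← mul_assoc, hxx, one_mul]
  have hmove : ∀ j : ℕ, r ^ j * x = x * (r ^ j)⁻¹ := by
    intro j
    have h := conj_pow (a := x) (b := r) (i := j)
    rw [hinv, inv_pow, hxi] at h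
    calc r ^ j * x = x * (x * r ^ j * x) := by rw [← mul_assoc, ← mul_assoc, hxx, one_mul]
      _ = x * (r ^ j)⁻¹ := by rw [← h]
  set u := r ^ k with hu
  have hu1 : u ≠ 1 := fun h => by
    have := Nat.le_of_dvd (by omega) (orderOf_dvd_of_pow_eq_one h)
    omega
  have huu : u * u = 1 := by rw [hu, ← pow_add, ← hk, pow_orderOf_eq_one]
  have hui : u⁻¹ = u := inv_eq_of_mul_eq_one_right huu
  have hcx : Commute u x := by
    show u * x = x * u
    rw [hu, hmove, ← hu, hui]
  have hcy : Commute u y := by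
    rw [hyx]; exact hcx.mul_right ((Commute.refl r).pow_left k)
  have hxu : IsConj x₀ (x * u) := by
    rcases Nat.even_or_odd k with ⟨j, hj⟩ | ⟨j, hj⟩
    · refine hx.trans (isConj_iff.2 ⟨(r ^ j)⁻¹, ?_⟩)
      rw [inv_inv]
      calc (r ^ j)⁻¹ * x * r ^ j = x * r ^ j * r ^ j := by
            rw [show (r ^ j)⁻¹ * x = x * r ^ j from ?_]
            rw [inv_mul_eq_iff_eq_mul, ← mul_assoc, hmove, mul_assoc, inv_mul_cancel, mul_one]
        _ = x * u := by rw [mul_assoc, ← pow_add, hu, hj]
    · refine hy.trans (isConj_iff.2 ⟨(r ^ j)⁻¹, ?_⟩)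
      rw [inv_inv, hyx]
      calc (r ^ j)⁻¹ * (x * r) * r ^ j = x * r ^ j * r * r ^ j := by
            rw [← mul_assoc, show (r ^ j)⁻¹ * x = x * r ^ j from ?_]
            rw [inv_mul_eq_iff_eq_mul, ← mul_assoc, hmove, mul_assoc, inv_mul_cancel, mul_one]
        _ = x * u := by
            rw [mul_assoc x, mul_assoc x, ← pow_succ, ← pow_add, hu]
            congr 2
            omega
  have huD : IsConj x₀ u := by
    have h := hb x (x * u) hx hxu (fun h => hu1 (left_eq_mul.1 h))
      ((Commute.refl x).mul_right hcx.symm)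
    rwa [← mul_assoc, hxx, one_mul] at h
  obtain ⟨hp, hcl⟩ := ha u huD
  set L := closure {v : G | IsConj x₀ v ∧ Commute v u}
  have hxL : x ∈ L := subset_closure ⟨hx, hcx.symm⟩
  have hyL : y ∈ L := subset_closure ⟨hy, hcy.symm⟩
  have h3 : ⁅⁅x, y⁆, x⁆ = 1 := by
    have := commutator_mem_commutator (commutator_mem_commutator hxL hyL) hxL
    rw [hcl, mem_bot] at this
    exact this
  have hxy : ⁅x, y⁆ = r ^ 2 := by
    rw [commutatorElement_def, hxi, hyi, hr, sq]
    group
  rw [hxy, commutatorElement_eq_one_iff_mul_comm, hmove] at h3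
  have hr4 : r ^ 4 = 1 := by
    have h4 : (r ^ 2)⁻¹ = r ^ 2 := mul_left_cancel h3
    rw [show r ^ 4 = r ^ 2 * r ^ 2 by rw [← pow_add]]
    nth_rw 1 [← h4]
    exact inv_mul_cancel _
  obtain ⟨i, hi, he⟩ := (Nat.dvd_prime_pow Nat.prime_two (m := 2)).1 (orderOf_dvd_of_pow_eq_one hr4)
  rw [he] at hgt ⊢
  interval_cases i <;> first | omega | norm_num at hgt ⊢

theorem klein_self_centralizing_dihedral {m : ℕ} (hm : 2 ≤ m) {V : Subgroup (DihedralGroup m)}
    (hV : IsKleinFour V) : centralizer (V : Set (DihedralGroup m)) ≤ V := by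
  haveI : NeZero m := ⟨by omega⟩
  have := hV
  have hcount : ∀ b : ZMod m, Nat.card {a : ZMod m // a + a = b} ≤ 2 := by
    intro b
    by_cases h : ∃ a : ZMod m, a + a = b
    · obtain ⟨a₀, ha₀⟩ := h
      refine le_trans (le_of_eq (Nat.card_congr ((Equiv.subRight a₀).subtypeEquiv
        (q := fun c => 2 • c = 0) fun a => ?_))) ?_
      · show a + a = b ↔ 2 • (a - a₀) = 0
        rw [two_nsmul, ← ha₀, ← sub_eq_zero]
        constructor <;> intro h <;> linear_combination h
      · rw [Nat.card_eq_fintype_card, Fintype.card_subtype]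
        exact IsAddCyclic.card_nsmul_eq_zero_le (α := ZMod m) two_pos
    · push Not at h
      haveI : IsEmpty {a : ZMod m // a + a = b} := ⟨fun a => h _ a.2⟩
      simp
  obtain ⟨i, hi⟩ : ∃ i, DihedralGroup.sr i ∈ V := by
    by_contra hno
    push Not at hno
    have hsub : ∀ g ∈ V, ∃ a : ZMod m, a + a = 0 ∧ g = DihedralGroup.r a := by
      intro g hg
      have h2 : g * g = 1 := congrArg Subtype.val (IsKleinFour.mul_self (⟨g, hg⟩ : V))
      cases g with
      | sr a => exact absurd hg (hno a)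
      | r a =>
        rw [DihedralGroup.r_mul_r, ← DihedralGroup.r_zero, DihedralGroup.r.injEq] at h2
        exact ⟨a, h2, rfl⟩
    choose f hf hf' using hsub
    have : Nat.card V ≤ Nat.card {a : ZMod m // a + a = 0} :=
      Nat.card_le_card_of_injective (fun g => ⟨f g g.2, hf g g.2⟩) fun g g' h =>
        Subtype.ext ((hf' g g.2).trans ((congrArg (fun a => DihedralGroup.r a)
          (congrArg Subtype.val h)).trans (hf' g' g'.2).symm))
    rw [IsKleinFour.card_four] at this
    have := hcount 0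
    omega
  have hle : V ≤ centralizer {DihedralGroup.sr i} := fun g hg => mem_centralizer_singleton_iff.2
    (congrArg Subtype.val (mul_comm_of_exponent_two IsKleinFour.exponent_two (⟨g, hg⟩ : V) ⟨_, hi⟩))
  have hcard : Nat.card (centralizer {DihedralGroup.sr i}) ≤ 4 := by
    have hmem : ∀ g : DihedralGroup m, g ∈ centralizer {DihedralGroup.sr i} →
        (∃ a : ZMod m, a + a = 0 ∧ g = .r a) ∨ ∃ a : ZMod m, a + a = i + i ∧ g = .sr a := by
      intro g hg
      rw [mem_centralizer_singleton_iff] at hg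
      cases g with
      | r a =>
        rw [DihedralGroup.sr_mul_r, DihedralGroup.r_mul_sr, DihedralGroup.sr.injEq] at hg
        exact Or.inl ⟨a, by linear_combination -hg, rfl⟩
      | sr a =>
        rw [DihedralGroup.sr_mul_sr, DihedralGroup.sr_mul_sr, DihedralGroup.r.injEq] at hg
        exact Or.inr ⟨a, by linear_combination -hg, rfl⟩
    let F : {a : ZMod m // a + a = 0} ⊕ {a : ZMod m // a + a = i + i} → DihedralGroup m :=
      Sum.elim (fun a => .r a) (fun a => .sr a)
    refine le_trans (Nat.card_le_card_of_surjective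
      (fun s : {s // F s ∈ centralizer {DihedralGroup.sr i}} =>
        (⟨F s, s.2⟩ : centralizer {DihedralGroup.sr i})) ?_)
      ((Finite.card_subtype_le _).trans ?_)
    · rintro ⟨g, hg⟩
      rcases hmem g hg with ⟨a, ha, rfl⟩ | ⟨a, ha, rfl⟩
      · exact ⟨⟨Sum.inl ⟨a, ha⟩, hg⟩, rfl⟩
      · exact ⟨⟨Sum.inr ⟨a, ha⟩, hg⟩, rfl⟩
    · rw [Nat.card_sum]
      have := hcount 0
      have := hcount (i + i)
      omega
  intro g hg
  have heq : V = centralizer {DihedralGroup.sr i} :=
    CfsgLib.Core.eq_of_le_of_card_le hle (hcard.trans (IsKleinFour.card_four (G := V)).ge)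
  rw [heq, mem_centralizer_singleton_iff]
  exact (mem_centralizer_iff.1 hg _ hi).symm

theorem elem_eight_self_centralizing {R : Type u} [Group R] [Finite R] (t : R) (ht : orderOf t = 2)
    [(zpowers t).Normal]
    (hq : (∃ m : ℕ, 2 ≤ m ∧ Nonempty (R ⧸ zpowers t ≃* DihedralGroup m)) ∨
      Cfsg.IsQuasiDihedral (R ⧸ zpowers t))
    (A : Subgroup R) (hA : Cfsg.IsElementaryAbelian 2 A) (hA8 : Nat.card A = 8) (htA : t ∈ A) :
    centralizer (A : Set R) = A := by
  haveI := hA.1
  refine le_antisymm ?_ fun a ha => mem_centralizer_iff.2 fun b hb =>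
    congrArg Subtype.val (mul_comm' (⟨b, hb⟩ : A) ⟨a, ha⟩)
  set π := QuotientGroup.mk' (zpowers t)
  set V := A.map π
  have hV2 : ∀ v ∈ V, v * v = 1 := by
    rintro _ ⟨a, ha, rfl⟩
    rw [← map_mul, ← sq, hA.2 a ha, map_one]
  have hker : π.ker = zpowers t := QuotientGroup.ker_mk' _
  have hcard : Nat.card V = 4 := by
    have h1 := relIndex_mul_index (bot_le : ⊥ ≤ A)
    have h2 := (π.ker.subgroupOf A).card_mul_index
    rw [show (π.ker.subgroupOf A).index = Nat.card V from ?_, hker,
      Nat.card_congr (subgroupOfEquivOfLe (zpowers_le.2 htA)).toEquiv, Nat.card_zpowers, ht, hA8] at h2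
    · omega
    · rw [show π.ker.subgroupOf A = (π.comp A.subtype).ker from (MonoidHom.comap_ker π A.subtype), index_ker,
        MonoidHom.range_comp, range_subtype]
  haveI : Finite (R ⧸ zpowers t) := inferInstance
  have hVK : IsKleinFour V := by
    haveI : Nontrivial V := Finite.one_lt_card_iff_nontrivial.1 (by omega)
    exact ⟨hcard, (Monoid.exponent_eq_prime_iff Nat.prime_two).2 fun g hg =>
      orderOf_eq_prime (Subtype.ext (by rw [sq]; exact hV2 g g.2)) hg⟩
  have hVC : centralizer (V : Set (R ⧸ zpowers t)) ≤ V := by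
    rcases hq with ⟨m, hm, ⟨e⟩⟩ | hqd
    · intro g hg
      have hVe : IsKleinFour (V.map e.toMonoidHom) := by
        let f := (V.equivMapOfInjective e.toMonoidHom e.injective).symm
        have := hVK
        refine ⟨(Nat.card_congr f.toEquiv).trans IsKleinFour.card_four, ?_⟩
        rw [Monoid.exponent_eq_of_mulEquiv f]
        exact IsKleinFour.exponent_two
      have := klein_self_centralizing_dihedral hm hVe (x := e g) (mem_centralizer_iff.2 (by
        rintro _ ⟨v, hv, rfl⟩
        show e v * e g = e g * e v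
        rw [← map_mul, ← map_mul, mem_centralizer_iff.1 hg v hv]))
      exact (Subgroup.mem_map_iff_mem (f := e.toMonoidHom) e.injective).1 this
    · obtain ⟨d⟩ := nonempty_qd hqd
      exact (d.klein_centralizer hVK).le
  intro g hg
  have : π g ∈ V := hVC (mem_centralizer_iff.2 (by
    rintro _ ⟨a, ha, rfl⟩
    rw [← map_mul, ← map_mul, mem_centralizer_iff.1 hg a ha]))
  obtain ⟨a, ha, hag⟩ := this
  have h : a⁻¹ * g ∈ π.ker := by rw [MonoidHom.mem_ker, map_mul, map_inv, hag, inv_mul_cancel]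
  rw [hker] at h
  have := mul_mem ha (zpowers_le.2 htA h)
  rwa [mul_inv_cancel_left] at this

end CfsgLib.TwoFusion
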