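import Cfsg.Agent.Lib.FgsRestrictedPCyclic
import Cfsg.Agent.Lib.TwoFusionSmallFacts
import Cfsg.Agent.Lib.TwoFusionDihedral
import Mathlib.GroupTheory.SpecificGroups.Alternating
import Mathlib.GroupTheory.GroupAction.Quotient
import Mathlib.NumberTheory.Basic

/-!
Groups whose 2-closed subgroups with cyclic quotient are cyclic, dihedral or `A₄`.
-/

set_option autoImplicit false

namespace CfsgLib.RestrictedTwo

open Subgroup
open scoped Pointwise

variable {G : Type*} [Group G] [Finite G]

/-- A Klein four subgroup as an instance of `IsKleinFour`. -/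
theorem isKleinFour_of {K : Subgroup G} (h4 : Nat.card K = 4) (h2 : ∀ k ∈ K, k ^ 2 = 1) :
    IsKleinFour K := by
  refine ⟨h4, ?_⟩
  have hd : Monoid.exponent K ∣ 2 :=
    Monoid.exponent_dvd_of_forall_pow_eq_one fun g => Subtype.ext (h2 g g.2)
  rcases (Nat.dvd_prime Nat.prime_two).1 hd with h | h
  · exfalso
    haveI : Subsingleton K := Monoid.exp_eq_one_iff.1 h
    rw [Nat.card_eq_one_iff_unique.2 ⟨inferInstance, ⟨1⟩⟩] at h4
    omega
  · exact h

theorem centralizer_inf_le {S K : Subgroup G} {m : ℕ} (hm : 0 < m) (e : S ≃* DihedralGroup m)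
    (hKS : K ≤ S) (h4 : Nat.card K = 4) (h2 : ∀ k ∈ K, k ^ 2 = 1) :
    Subgroup.centralizer (K : Set G) ⊓ S ≤ K := by
  haveI : NeZero m := ⟨hm.ne'⟩
  have hm2 : 2 ≤ m := by
    have h := Nat.le_of_dvd Nat.card_pos (Subgroup.card_dvd_of_le hKS)
    rw [h4, Nat.card_congr e.toEquiv, DihedralGroup.nat_card] at h
    omega
  set V := (K.subgroupOf S).map e.toMonoidHom with hVd
  have hV : IsKleinFour V := by
    refine isKleinFour_of ?_ ?_
    · rw [hVd, Subgroup.card_map_of_injective (show Function.Injective e.toMonoidHom from e.injective),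
        Nat.card_congr (Subgroup.subgroupOfEquivOfLe hKS).toEquiv, h4]
    · rintro _ ⟨k, hk, rfl⟩
      rw [← map_pow, show k ^ 2 = 1 from Subtype.ext (h2 k hk), map_one]
  rintro x ⟨hxc, hxS⟩
  have hx : e ⟨x, hxS⟩ ∈ Subgroup.centralizer (V : Set (DihedralGroup m)) := by
    rw [Subgroup.mem_centralizer_iff]
    rintro _ ⟨k, hk, rfl⟩
    show e k * e ⟨x, hxS⟩ = e ⟨x, hxS⟩ * e k
    rw [← map_mul, ← map_mul]
    exact congrArg e (Subtype.ext (Subgroup.mem_centralizer_iff.1 hxc k hk))
  obtain ⟨k, hk, hke⟩ := CfsgLib.TwoFusion.klein_self_centralizing_dihedral hm2 hV hx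
  have : k = ⟨x, hxS⟩ := e.injective hke
  subst this
  exact hk

theorem subgroup_cases {S T : Subgroup G} {k : ℕ} (e : S ≃* DihedralGroup (2 ^ k)) (hTS : T ≤ S) :
    IsCyclic T ∨ ∃ j, Nonempty (T ≃* DihedralGroup (2 ^ j)) := by
  set a : G := ((e.symm (.r 1) : S) : G) with had
  have hAr : ∀ x : S, (∃ i, e x = .r i) → (x : G) ∈ zpowers a := by
    rintro x ⟨i, hi⟩
    obtain ⟨n, rfl⟩ := ZMod.intCast_surjective i
    refine ⟨n, ?_⟩
    show a ^ n = (x : G)
    rw [had, ← Subgroup.coe_zpow, ← map_zpow, DihedralGroup.r_one_zpow, ← hi,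
      MulEquiv.symm_apply_apply]
  by_cases hTA : T ≤ zpowers a
  · exact Or.inl (isCyclic_of_injective (Subgroup.inclusion hTA) (Subgroup.inclusion_injective hTA))
  refine Or.inr ?_
  obtain ⟨v, hvT, hvA⟩ := SetLike.not_le_iff_exists.1 hTA
  obtain ⟨i, hi⟩ : ∃ i, e ⟨v, hTS hvT⟩ = .sr i := by
    cases h : e ⟨v, hTS hvT⟩ with
    | r i => exact absurd (hAr ⟨v, hTS hvT⟩ ⟨i, h⟩) hvA
    | sr i => exact ⟨i, rfl⟩
  have hve : v = ((e.symm (.sr i) : S) : G) := by rw [← hi, MulEquiv.symm_apply_apply]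
  have hvv : v * v = 1 := by
    rw [hve, ← Subgroup.coe_mul, ← map_mul, DihedralGroup.sr_mul_self, map_one, Subgroup.coe_one]
  have hva : v * a * v⁻¹ = a⁻¹ := by
    rw [hve, had, ← Subgroup.coe_mul, ← Subgroup.coe_inv, ← Subgroup.coe_mul, ← Subgroup.coe_inv,
      ← map_mul, ← map_inv, ← map_mul, ← map_inv, DihedralGroup.inv_sr, DihedralGroup.sr_mul_r,
      DihedralGroup.sr_mul_sr, DihedralGroup.inv_r]
    simp
  set Z := T ⊓ zpowers a with hZd
  haveI : IsCyclic Z :=
    isCyclic_of_injective (Subgroup.inclusion (inf_le_right : Z ≤ zpowers a)) (Subgroup.inclusion_injective _)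
  obtain ⟨b, hb⟩ := IsCyclic.exists_generator (α := Z)
  have hZb : Z = zpowers (b : G) := by
    refine le_antisymm (fun x hx => ?_) (Subgroup.zpowers_le.2 b.2)
    obtain ⟨n, hn⟩ := hb ⟨x, hx⟩
    exact ⟨n, by simpa using congrArg Subtype.val hn⟩
  obtain ⟨n, hn⟩ : ∃ n : ℤ, a ^ n = (b : G) := (Subgroup.mem_inf.1 b.2).2
  have hvb : v * b * v⁻¹ = (b : G)⁻¹ := by rw [← hn, ← conj_zpow, hva, inv_zpow]
  obtain ⟨j, -, hj⟩ : ∃ j ≤ k, orderOf (b : G) = 2 ^ j := by
    refine (Nat.dvd_prime_pow Nat.prime_two).1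
      ((orderOf_dvd_of_mem_zpowers (show (b : G) ∈ Subgroup.zpowers a from ⟨n, hn⟩)).trans ?_)
    · rw [had, Subgroup.orderOf_coe, MulEquiv.orderOf_eq, DihedralGroup.orderOf_r_one]
  haveI : NeZero (2 ^ j) := ⟨pow_ne_zero _ two_ne_zero⟩
  have hmulA : ∀ x ∈ T, x ∉ zpowers a → v * x ∈ zpowers a := by
    intro x hxT hxA
    have hx : ∃ l, e ⟨x, hTS hxT⟩ = .sr l := by
      cases h : e ⟨x, hTS hxT⟩ with
      | r l => exact absurd (hAr ⟨x, hTS hxT⟩ ⟨l, h⟩) hxA
      | sr l => exact ⟨l, rfl⟩
    obtain ⟨l, hl⟩ := hx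
    exact hAr (⟨v, hTS hvT⟩ * ⟨x, hTS hxT⟩)
      ⟨l - i, by rw [map_mul, hi, hl, DihedralGroup.sr_mul_sr]⟩
  have hidx : Z.relIndex T = 2 := by
    rw [Subgroup.relIndex, Subgroup.index_eq_two_iff]
    refine ⟨⟨v, hvT⟩, fun x => ?_⟩
    simp only [Subgroup.mem_subgroupOf, Subgroup.coe_mul, hZd, Subgroup.mem_inf,
      T.mul_mem x.2 hvT, x.2, true_and]
    by_cases hxA : (x : G) ∈ zpowers a
    · exact Or.inr ⟨hxA, fun h => hvA (by simpa using mul_mem (inv_mem hxA) h)⟩
    · refine Or.inl ⟨?_, hxA⟩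
      have h1 := hmulA x x.2 hxA
      have h2 : v * (v * x) * v⁻¹ ∈ zpowers a := by
        obtain ⟨l, hl⟩ := h1
        simp only at hl
        rw [← hl, ← conj_zpow, hva]
        exact zpow_mem (inv_mem (Subgroup.mem_zpowers a)) l
      rwa [← mul_assoc v v, hvv, one_mul, inv_eq_of_mul_eq_one_right hvv] at h2
  refine ⟨j, CfsgLib.Restricted.dihedral_iso hj hvv hvb (Subgroup.mem_inf.1 b.2).1 hvT ?_ ?_⟩
  · have h := Subgroup.relIndex_mul_relIndex ⊥ Z T bot_le inf_le_left
    rw [Subgroup.relIndex_bot_left, Subgroup.relIndex_bot_left, hidx] at h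
    rw [← h, hZb, Nat.card_zpowers, hj, mul_comm]
  · intro x hx
    by_cases hxA : x ∈ zpowers a
    · exact Subgroup.mem_sup_right (hZb ▸ Subgroup.mem_inf.2 ⟨hx, hxA⟩)
    · have h1 : v * x ∈ zpowers (b : G) :=
        hZb ▸ Subgroup.mem_inf.2 ⟨T.mul_mem hvT hx, hmulA x hx hxA⟩
      rw [show x = v * (v * x) by rw [← mul_assoc, hvv, one_mul]]
      exact Subgroup.mul_mem _ (Subgroup.mem_sup_left (Subgroup.mem_zpowers v))
        (Subgroup.mem_sup_right h1)

omit [Finite G] in
/-- An element of odd order normalizing a cyclic 2-group centralizes it. -/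
theorem commute_of_odd {h t : G} {k : ℕ} {r : ℤ} {N : ℕ} (ht : orderOf t = 2 ^ k)
    (hconj : h * t * h⁻¹ = t ^ r) (hN : Odd N) (hh : h ^ N = 1) : Commute h t := by
  rcases Nat.eq_zero_or_pos k with hk | hk
  · rw [hk, pow_zero, orderOf_eq_one_iff] at ht
    rw [ht]; exact Commute.one_right h
  have hiter : ∀ i : ℕ, h ^ i * t * (h ^ i)⁻¹ = t ^ (r ^ i) := by
    intro i
    induction i with
    | zero => simp
    | succ i ih =>
      calc h ^ (i + 1) * t * (h ^ (i + 1))⁻¹ = h * (h ^ i * t * (h ^ i)⁻¹) * h⁻¹ := by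
            rw [pow_succ']; group
        _ = MulAut.conj h (t ^ (r ^ i)) := by rw [ih, MulAut.conj_apply]
        _ = (MulAut.conj h t) ^ (r ^ i) := map_zpow _ _ _
        _ = t ^ (r ^ (i + 1)) := by rw [MulAut.conj_apply, hconj, ← zpow_mul, pow_succ']
  have hr : ((2 : ℕ) : ℤ) ∣ r - 1 := by
    by_contra hd
    have heven : (2 : ℤ) ∣ r := by push_cast at hd; omega
    obtain ⟨q, hq⟩ := heven
    have h1 := hiter N
    rw [hh, one_mul, inv_one, mul_one] at h1
    have hN0 : N ≠ 0 := by rcases hN with ⟨u, hu⟩; omega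
    obtain ⟨u, hu⟩ : (2 : ℤ) ∣ r ^ N := dvd_pow (hq ▸ dvd_mul_right 2 q) hN0
    have h3 : (t ^ (2 ^ (k - 1) : ℕ)) = 1 := by
      rw [h1, ← zpow_natCast (t ^ _), ← zpow_mul, hu,
        show 2 * u * ((2 ^ (k - 1) : ℕ) : ℤ) = ((2 ^ k : ℕ) : ℤ) * u by
          obtain ⟨k', rfl⟩ : ∃ k', k = k' + 1 := ⟨k - 1, by omega⟩
          push_cast
          ring,
        zpow_mul, zpow_natCast, ← ht, pow_orderOf_eq_one, one_zpow]
    have h4 := Nat.le_of_dvd (by positivity) (ht ▸ orderOf_dvd_of_pow_eq_one h3)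
    have := Nat.pow_lt_pow_right (show 1 < 2 by norm_num) (show k - 1 < k by omega)
    omega
  have h1 : Commute (h ^ (2 ^ k)) t := by
    obtain ⟨u, hu⟩ : ((2 : ℤ) ^ k) ∣ r ^ (2 ^ k) - 1 := by
      have := dvd_sub_pow_of_dvd_sub (R := ℤ) (a := r) (b := 1) hr k
      rw [one_pow] at this
      exact (pow_dvd_pow _ (Nat.le_succ k)).trans this
    have := hiter (2 ^ k)
    rw [show r ^ (2 ^ k) = ((2 ^ k : ℕ) : ℤ) * u + 1 by push_cast; rw [← hu]; ring, zpow_add_one,
      zpow_mul, zpow_natCast, ← ht, pow_orderOf_eq_one, one_zpow, one_mul, ht] at this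
    exact mul_inv_eq_iff_eq_mul.1 this
  have hg : Nat.gcd (2 ^ k) N = 1 := (Nat.coprime_two_left.2 hN).pow_left k
  have e : h = (h ^ (2 ^ k)) ^ Nat.gcdA (2 ^ k) N * (h ^ N) ^ Nat.gcdB (2 ^ k) N := by
    rw [← zpow_natCast h (2 ^ k), ← zpow_natCast h N, ← zpow_mul, ← zpow_mul, ← zpow_add,
      ← Nat.gcd_eq_gcd_ab, hg, Nat.cast_one, zpow_one]
  rw [e, hh, one_zpow, mul_one]
  exact h1.zpow_left _

theorem aut_dihedral_eq_one {j N : ℕ} (hj : 2 ≤ j) (hN : Odd N)
    (φ : MulAut (DihedralGroup (2 ^ j))) (hφ : φ ^ N = 1) : φ = 1 := by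
  haveI : NeZero (2 ^ j) := ⟨pow_ne_zero _ two_ne_zero⟩
  have h4 : 4 ≤ 2 ^ j := by
    calc 4 = 2 ^ 2 := by norm_num
      _ ≤ _ := Nat.pow_le_pow_right (by norm_num) hj
  have hord : orderOf (φ (.r 1)) = 2 ^ j := by
    rw [MulEquiv.orderOf_eq, DihedralGroup.orderOf_r_one]
  obtain ⟨a, ha⟩ : ∃ a, φ (.r 1) = .r a := by
    cases h : φ (.r 1) with
    | r a => exact ⟨a, rfl⟩
    | sr a => rw [h, DihedralGroup.orderOf_sr] at hord; omega
  have hr : ∀ i, φ (.r i) = .r (a * i) := by
    intro i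
    obtain ⟨n, rfl⟩ := ZMod.natCast_zmod_surjective i
    rw [← DihedralGroup.r_one_pow, map_pow, ha, DihedralGroup.r_pow]
  obtain ⟨b, hb⟩ : ∃ b, φ (.sr 0) = .sr b := by
    cases h : φ (.sr 0) with
    | sr b => exact ⟨b, rfl⟩
    | r b =>
      exfalso
      have hall : ∀ x, ∃ c, φ x = .r c := by
        rintro (i | i)
        · exact ⟨_, hr i⟩
        · refine ⟨b + a * i, ?_⟩
          rw [show (DihedralGroup.sr i) = .sr 0 * .r i by simp, map_mul, h, hr,
            DihedralGroup.r_mul_r]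
      obtain ⟨c, hc⟩ := hall (φ.symm (.sr 0))
      simp at hc
  have hpow : ∀ n : ℕ, (φ ^ n) (.r 1) = .r (a ^ n) := by
    intro n
    induction n with
    | zero => simp
    | succ n ih => rw [pow_succ', MulAut.mul_apply, ih, hr, pow_succ']
  have haN : a ^ N = 1 := by
    have := hpow N
    rw [hφ] at this
    simpa using this.symm
  have hN0 : N ≠ 0 := by rcases hN with ⟨u, hu⟩; omega
  obtain ⟨u, hu⟩ : IsUnit a := IsUnit.of_pow_eq_one haN hN0
  have hu1 : u = 1 := by
    rw [← orderOf_eq_one_iff]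
    have h1 : orderOf u ∣ N := orderOf_dvd_of_pow_eq_one (Units.ext (by simpa [hu] using haN))
    have h2 : orderOf u ∣ 2 ^ (j - 1) := by
      have := orderOf_dvd_natCard u
      rwa [Nat.card_eq_fintype_card, ZMod.card_units_eq_totient,
        Nat.totient_prime_pow Nat.prime_two (by omega), Nat.mul_one] at this
    exact Nat.eq_one_of_dvd_coprimes ((Nat.coprime_two_left.2 hN).pow_left _) h2 h1
  have ha1 : a = 1 := by rw [← hu, hu1, Units.val_one]
  have hpow2 : ∀ n : ℕ, (φ ^ n) (.sr 0) = .sr (n * b) := by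
    intro n
    induction n with
    | zero => simp
    | succ n ih =>
      rw [pow_succ', MulAut.mul_apply, ih, show (DihedralGroup.sr ((n : ZMod (2 ^ j)) * b)) = .sr 0 * .r (n * b) by simp,
        map_mul, hb, hr, ha1, one_mul, DihedralGroup.sr_mul_r]
      congr 1
      push_cast
      ring
  have hb0 : b = 0 := by
    have := hpow2 N
    rw [hφ, MulAut.one_apply, DihedralGroup.sr.injEq] at this
    have hNu : IsUnit (N : ZMod (2 ^ j)) :=
      (ZMod.isUnit_iff_coprime N (2 ^ j)).2 (((Nat.coprime_two_left.2 hN).pow_left j).symm)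
    exact hNu.mul_right_eq_zero.1 this.symm
  refine MulEquiv.ext ?_
  rintro (i | i)
  · rw [hr, ha1, one_mul]; rfl
  · rw [show (DihedralGroup.sr i) = .sr 0 * .r i by simp, map_mul, hb, hr, ha1, one_mul, hb0]
    rfl

/-- The hypothesis on subgroups. -/
def Cond (H : Subgroup G) : Prop :=
  (∀ S : Sylow 2 ↥H, (S : Subgroup ↥H).Normal) →
    (∀ (S : Sylow 2 ↥H) [(S : Subgroup ↥H).Normal], IsCyclic (↥H ⧸ (S : Subgroup ↥H))) →
    IsCyclic H ∨ (∃ n : ℕ, Nonempty (H ≃* DihedralGroup (2 ^ n))) ∨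
      Nonempty (H ≃* alternatingGroup (Fin 4))

omit [Finite G] in
theorem exists_ne_one_of_card {K : Subgroup G} {n : ℕ} [hn : Fact n.Prime] (h : Nat.card K = n) :
    ∃ c : K, c ≠ 1 := by
  haveI : Nontrivial K := by
    haveI : Finite K := Nat.finite_of_card_ne_zero (by rw [h]; exact hn.out.ne_zero)
    exact Finite.one_lt_card_iff_nontrivial.mp (h ▸ hn.out.one_lt)
  exact exists_ne 1

theorem alt_four_card : Nat.card (alternatingGroup (Fin 4)) = 12 := by
  rw [Nat.card_eq_fintype_card]; decide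

theorem forward (h : ∀ H : Subgroup G, Cond H) (P : Sylow 2 G) :
    IsCyclic P ∨
      ((∃ n : ℕ, 1 ≤ n ∧ Nonempty ((P : Subgroup G) ≃* DihedralGroup (2 ^ n))) ∧
        ∀ K : Subgroup G, K ≤ P → Nat.card K = 4 → (∀ k ∈ K, k ^ 2 = 1) →
          Subgroup.centralizer (K : Set G) = K) := by
  have hPn : (P : Subgroup G) ≤ Subgroup.normalizer ((P : Subgroup G) : Set G) :=
    Subgroup.le_normalizer
  have hP0 := h (P : Subgroup G)
    (fun S => by
      rw [CfsgLib.Restricted.sylow_facts le_rfl P.2 hPn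
        (by simp [Subgroup.relIndex_self]) S, Subgroup.subgroupOf_self]
      infer_instance)
    (fun S _ => by
      have hS := CfsgLib.Restricted.sylow_facts le_rfl P.2 hPn
        (by simp [Subgroup.relIndex_self]) S
      rw [Subgroup.subgroupOf_self] at hS
      haveI : Subsingleton (↥(P : Subgroup G) ⧸ (S : Subgroup ↥(P : Subgroup G))) := by
        rw [hS]; exact QuotientGroup.subsingleton_quotient_top
      infer_instance)
  rcases hP0 with h1 | ⟨n, ⟨e⟩⟩ | e
  · exact Or.inl h1
  · rcases Nat.eq_zero_or_pos n with hn | hn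
    · subst hn
      refine Or.inl (isCyclic_of_prime_card (p := 2) ?_)
      rw [Nat.card_congr e.toEquiv, DihedralGroup.nat_card, pow_zero, mul_one]
    refine Or.inr ⟨⟨n, hn, ⟨e⟩⟩, fun K hK h4 h2 => ?_⟩
    haveI := isKleinFour_of h4 h2
    have hKc : K ≤ Subgroup.centralizer (K : Set G) := fun x hx =>
      Subgroup.mem_centralizer_iff.2 fun y hy => congrArg Subtype.val
        (mul_comm_of_exponent_two IsKleinFour.exponent_two (⟨y, hy⟩ : K) ⟨x, hx⟩)
    have hC2 : IsPGroup 2 (Subgroup.centralizer (K : Set G)) := by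
      rw [IsPGroup.iff_card]
      obtain ⟨s, b, hb, hsb⟩ := Nat.exists_eq_pow_mul_and_not_dvd
        (Nat.card_pos (α := Subgroup.centralizer (K : Set G))).ne' 2 (by norm_num)
      refine ⟨s, ?_⟩
      by_contra hne
      have hb1 : b ≠ 1 := fun hb1 => hne (by rw [hsb, hb1, mul_one])
      obtain ⟨q, hq, hqb⟩ := Nat.exists_prime_and_dvd hb1
      have hq2 : q ≠ 2 := fun h2 => hb (h2 ▸ hqb)
      haveI := Fact.mk hq
      obtain ⟨c, hc⟩ := exists_prime_orderOf_dvd_card' (G := Subgroup.centralizer (K : Set G)) q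
        (hsb ▸ hqb.mul_left _)
      rw [← Subgroup.orderOf_coe] at hc
      have hcn : (c : G) ∈ Subgroup.normalizer (K : Set G) :=
        Subgroup.centralizer_le_normalizer _ c.2
      set H := Subgroup.zpowers (c : G) ⊔ K with hH
      have hHn : H ≤ Subgroup.normalizer (K : Set G) :=
        sup_le (Subgroup.zpowers_le.2 hcn) Subgroup.le_normalizer
      haveI : IsMulCommutative H := by
        refine ⟨⟨fun x y => Subtype.ext ?_⟩⟩
        have hle : H ≤ Subgroup.centralizer (H : Set G) := by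
          refine Subgroup.le_centralizer_iff.1 (sup_le ?_ ?_)
          · refine Subgroup.zpowers_le.2 ?_
            have : H ≤ Subgroup.centralizer {(c : G)} := by
              refine sup_le (Subgroup.zpowers_le.2 (Subgroup.mem_centralizer_singleton_iff.2 rfl)) ?_
              exact fun x hx => Subgroup.mem_centralizer_singleton_iff.2
                (Subgroup.mem_centralizer_iff.1 c.2 x hx)
            exact Subgroup.mem_centralizer_iff.2 fun y hy =>
              Subgroup.mem_centralizer_singleton_iff.1 (this hy)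
          · refine Subgroup.le_centralizer_iff.1 (sup_le (Subgroup.zpowers_le.2 c.2) hKc)
        exact Subgroup.mem_centralizer_iff.1 (hle y.2) x x.2
      have hK2 : IsPGroup 2 K := IsPGroup.of_card (n := 2) h4
      have hidx : ¬ 2 ∣ K.relIndex H := by
        intro hd
        haveI : (K.subgroupOf H).Normal :=
          (Subgroup.normal_subgroupOf_iff_le_normalizer le_sup_right).2 hHn
        let cH : H := ⟨c, Subgroup.mem_sup_left (Subgroup.mem_zpowers _)⟩
        have hgenq : ∀ d, d ∈ Subgroup.zpowers (QuotientGroup.mk' (K.subgroupOf H) cH) := by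
          intro d
          obtain ⟨⟨x, hx⟩, rfl⟩ := QuotientGroup.mk'_surjective (K.subgroupOf H) d
          obtain ⟨_, ⟨i, rfl⟩, k, hk, rfl⟩ :=
            (CfsgLib.Core.mem_sup_iff_of_le_normalizer (Subgroup.zpowers_le.2 hcn)).1
              (show x ∈ Subgroup.zpowers (c : G) ⊔ K from hx)
          refine ⟨i, ?_⟩
          show (QuotientGroup.mk' _ _) ^ i = _
          rw [← map_zpow]
          refine QuotientGroup.eq.2 ?_
          rw [Subgroup.mem_subgroupOf]
          simpa [cH] using hk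
        have hr : K.relIndex H ∣ q := by
          rw [Subgroup.relIndex, Subgroup.index_eq_card, ← orderOf_eq_card_of_forall_mem_zpowers hgenq]
          refine (orderOf_map_dvd _ _).trans ?_
          rw [← Subgroup.orderOf_coe, hc]
        exact hq2 ((Nat.prime_dvd_prime_iff_eq Nat.prime_two hq).1 (hd.trans hr)).symm
      have hS := CfsgLib.Restricted.sylow_facts (le_sup_right : K ≤ H) hK2 hHn hidx
      haveI : (K.subgroupOf H).Normal :=
        (Subgroup.normal_subgroupOf_iff_le_normalizer le_sup_right).2 hHn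
      have hq12 : q ∣ Nat.card H := by
        rw [← hc, ← Nat.card_zpowers]
        exact Subgroup.card_dvd_of_le le_sup_left
      rcases h H (fun S => by rw [hS S]; infer_instance) (fun S _ => by
        refine ⟨⟨QuotientGroup.mk' _ ⟨c, Subgroup.mem_sup_left (Subgroup.mem_zpowers _)⟩, fun d => ?_⟩⟩
        obtain ⟨⟨x, hx⟩, rfl⟩ := QuotientGroup.mk'_surjective (S : Subgroup ↥H) d
        obtain ⟨_, ⟨i, rfl⟩, k, hk, rfl⟩ :=
          (CfsgLib.Core.mem_sup_iff_of_le_normalizer (Subgroup.zpowers_le.2 hcn)).1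
            (show x ∈ Subgroup.zpowers (c : G) ⊔ K from hx)
        refine ⟨i, ?_⟩
        show (QuotientGroup.mk' _ _) ^ i = _
        rw [← map_zpow]
        refine QuotientGroup.eq.2 ?_
        rw [hS S, Subgroup.mem_subgroupOf]
        simpa using hk) with h1 | ⟨m, ⟨e'⟩⟩ | e'
      · haveI : IsCyclic K :=
          isCyclic_of_injective (Subgroup.inclusion (le_sup_right : K ≤ H)) (Subgroup.inclusion_injective _)
        exact IsKleinFour.not_isCyclic (G := K) inferInstance
      · rw [Nat.card_congr e'.toEquiv, DihedralGroup.nat_card, ← pow_succ'] at hq12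
        exact hq2 ((Nat.prime_dvd_prime_iff_eq hq Nat.prime_two).1 (hq.dvd_of_dvd_pow hq12))
      · obtain ⟨e'⟩ := e'
        have hcomm : ∀ x y : alternatingGroup (Fin 4), x * y = y * x := fun x y => by
          have h1 : e'.symm x * e'.symm y = e'.symm y * e'.symm x :=
            (inferInstance : IsMulCommutative H).1.1 _ _
          simpa using congrArg e' h1
        revert hcomm
        decide +kernel
    obtain ⟨R, hR⟩ := hC2.exists_le_sylow
    refine le_antisymm (fun x hx => ?_) hKc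
    exact centralizer_inf_le (by positivity) ((P.equiv R).symm.trans e) (hKc.trans hR) h4 h2
      (Subgroup.mem_inf.2 ⟨hx, hR hx⟩)
  · exfalso
    obtain ⟨e⟩ := e
    obtain ⟨k, hk⟩ := IsPGroup.iff_card.mp P.2
    rw [Nat.card_congr e.toEquiv, alt_four_card] at hk
    have : (3 : ℕ) ∣ 2 ^ k := hk ▸ by norm_num
    have := (Nat.prime_dvd_prime_iff_eq Nat.prime_three Nat.prime_two).1
      (Nat.prime_three.dvd_of_dvd_pow this)
    omega

theorem backward (P : Sylow 2 G)
    (hP : IsCyclic P ∨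
      ((∃ n : ℕ, 1 ≤ n ∧ Nonempty ((P : Subgroup G) ≃* DihedralGroup (2 ^ n))) ∧
        ∀ K : Subgroup G, K ≤ P → Nat.card K = 4 → (∀ k ∈ K, k ^ 2 = 1) →
          Subgroup.centralizer (K : Set G) = K))
    (H : Subgroup G) : Cond H := by
  intro hnorm hquot
  let S : Sylow 2 ↥H := Classical.arbitrary _
  haveI hSn := hnorm S
  haveI hquotS := hquot S
  set T := (S : Subgroup ↥H).map H.subtype with hTd
  have hT2 : IsPGroup 2 T := S.2.map _
  have hTH : T ≤ H := Subgroup.map_subtype_le _
  have hTS : ∀ x : H, (x : G) ∈ T ↔ x ∈ (S : Subgroup ↥H) := fun x =>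
    Subgroup.mem_map_iff_mem H.subtype_injective
  obtain ⟨R, hR⟩ := hT2.exists_le_sylow
  have eS : (S : Subgroup ↥H) ≃* T := Subgroup.equivMapOfInjective _ _ H.subtype_injective
  -- four-groups are self-centralizing in the non-cyclic case
  have hself : ¬ IsCyclic T → ∀ K : Subgroup G, Nat.card K = 4 → (∀ k ∈ K, k ^ 2 = 1) →
      Subgroup.centralizer (K : Set G) = K := by
    intro hnc K h4 h2
    rcases hP with hc | ⟨-, hK⟩
    · exfalso
      haveI : IsCyclic (P : Subgroup G) := hc
      haveI : IsCyclic (R : Subgroup G) := isCyclic_of_surjective (P.equiv R) (P.equiv R).surjective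
      exact hnc (isCyclic_of_injective (Subgroup.inclusion hR) (Subgroup.inclusion_injective hR))
    obtain ⟨R', hR'⟩ := (IsPGroup.of_card (p := 2) (n := 2) h4 : IsPGroup 2 K).exists_le_sylow
    obtain ⟨g, hg⟩ := MulAction.exists_smul_eq G R' P
    set K' := K.map (MulAut.conj g).toMonoidHom
    have hK'P : K' ≤ (P : Subgroup G) := by
      rw [← hg, Sylow.coe_subgroup_smul]
      exact Subgroup.map_mono hR'
    have h4' : Nat.card K' = 4 := by
      rw [Subgroup.card_map_of_injective (show Function.Injective (MulAut.conj g).toMonoidHom from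
        (MulAut.conj g).injective), h4]
    have h2' : ∀ k ∈ K', k ^ 2 = 1 := by
      rintro _ ⟨k, hk, rfl⟩
      rw [← map_pow, h2 k hk, map_one]
    refine le_antisymm (fun x hx => ?_) fun x hx => ?_
    · have hx' : MulAut.conj g x ∈ Subgroup.centralizer (K' : Set G) := by
        rw [Subgroup.mem_centralizer_iff]
        rintro _ ⟨k, hk, rfl⟩
        show MulAut.conj g k * MulAut.conj g x = MulAut.conj g x * MulAut.conj g k
        rw [← map_mul, ← map_mul, Subgroup.mem_centralizer_iff.1 hx k hk]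
      rw [hK K' hK'P h4' h2'] at hx'
      obtain ⟨k, hk, hke⟩ := hx'
      rwa [← (MulAut.conj g).injective hke]
    · haveI := isKleinFour_of h4 h2
      exact Subgroup.mem_centralizer_iff.2 fun y hy => congrArg Subtype.val
        (mul_comm_of_exponent_two IsKleinFour.exponent_two (⟨y, hy⟩ : K) ⟨x, hx⟩)
  have hTcases : IsCyclic T ∨ ∃ j, Nonempty (T ≃* DihedralGroup (2 ^ j)) := by
    rcases hP with hc | ⟨⟨n, -, ⟨e⟩⟩, -⟩
    · left
      haveI : IsCyclic (P : Subgroup G) := hc
      haveI : IsCyclic (R : Subgroup G) := isCyclic_of_surjective (P.equiv R) (P.equiv R).surjective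
      exact isCyclic_of_injective (Subgroup.inclusion hR) (Subgroup.inclusion_injective hR)
    · exact subgroup_cases ((P.equiv R).symm.trans e) hR
  have hodd : Odd (S : Subgroup ↥H).index := by
    rw [← Nat.not_even_iff_odd, even_iff_two_dvd]
    exact S.not_dvd_index
  -- elements of order prime to 2
  have hoddpart : ∀ x : H, ∃ (w : H) (N : ℕ), Odd N ∧ w ^ N = 1 ∧ x * w⁻¹ ∈ (S : Subgroup ↥H) := by
    intro x
    obtain ⟨t, ht⟩ := IsPGroup.iff_card.mp S.2
    set N := (S : Subgroup ↥H).index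
    obtain ⟨u, v, huv⟩ : IsCoprime ((2 : ℤ) ^ t) (N : ℤ) := by
      have := Nat.isCoprime_iff_coprime.2 ((Nat.coprime_two_left.2 hodd).pow_left t)
      exact_mod_cast this
    refine ⟨(x ^ ((2 : ℤ) ^ t)) ^ u, N, hodd, ?_, ?_⟩
    · have hc : Nat.card H = 2 ^ t * N := by
        rw [← (S : Subgroup ↥H).card_mul_index, ht]
      rw [← zpow_natCast, ← zpow_mul, ← zpow_mul,
        show (2 : ℤ) ^ t * (u * (N : ℤ)) = ((2 ^ t * N : ℕ) : ℤ) * u by push_cast; ring, zpow_mul,
        zpow_natCast, ← hc, pow_card_eq_one', one_zpow]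
    · have : x * ((x ^ ((2 : ℤ) ^ t)) ^ u)⁻¹ = (x ^ (N : ℤ)) ^ v := by
        rw [← zpow_mul, ← zpow_mul, mul_inv_eq_iff_eq_mul, ← zpow_add,
          show (N : ℤ) * v + (2 : ℤ) ^ t * u = 1 by rw [← huv]; ring, zpow_one]
      rw [this, zpow_natCast]
      exact zpow_mem (Subgroup.pow_index_mem _ x) v
  by_cases hTc : IsCyclic T
  · -- cyclic Sylow subgroup
    left
    haveI : IsCyclic (S : Subgroup ↥H) := isCyclic_of_surjective eS.symm eS.symm.surjective
    obtain ⟨t, ht⟩ := IsCyclic.exists_generator (α := (S : Subgroup ↥H))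
    obtain ⟨k, hk⟩ := IsPGroup.iff_card.mp S.2
    have htord : orderOf (t : H) = 2 ^ k := by
      rw [Subgroup.orderOf_coe, orderOf_eq_card_of_forall_mem_zpowers ht, hk]
    have hgen : ∀ s ∈ (S : Subgroup ↥H), ∃ i : ℤ, (t : H) ^ i = s := fun s hs => by
      obtain ⟨i, hi⟩ := ht ⟨s, hs⟩
      exact ⟨i, by simpa using congrArg Subtype.val hi⟩
    obtain ⟨q, hq⟩ := IsCyclic.exists_generator (α := ↥H ⧸ (S : Subgroup ↥H))
    obtain ⟨x, rfl⟩ := QuotientGroup.mk'_surjective _ q
    obtain ⟨w, N, hN, hwN, hwx⟩ := hoddpart x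
    obtain ⟨r, hr⟩ := hgen _ (hSn.conj_mem _ t.2 w)
    have hcomm : Commute w (t : H) := commute_of_odd htord hr.symm hN hwN
    have hgenw : ∀ c : ↥H ⧸ (S : Subgroup ↥H), c ∈ Subgroup.zpowers (QuotientGroup.mk' (S : Subgroup ↥H) w) := by
      have : QuotientGroup.mk' (S : Subgroup ↥H) w = QuotientGroup.mk' (S : Subgroup ↥H) x := by
        refine QuotientGroup.eq.2 ?_
        have := hSn.conj_mem _ hwx w⁻¹
        simpa [mul_assoc] using this
      rw [this]; exact hq
    have hwidx : (S : Subgroup ↥H).index ∣ orderOf w := by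
      rw [Subgroup.index_eq_card, ← orderOf_eq_card_of_forall_mem_zpowers hgenw]
      exact orderOf_map_dvd _ _
    have hcop : (orderOf (t : H)).Coprime (orderOf w) := by
      rw [htord]
      exact ((Nat.coprime_two_left.2 hN).pow_left k).coprime_dvd_right (orderOf_dvd_of_pow_eq_one hwN)
    refine isCyclic_of_orderOf_eq_card ((t : H) * w) (Nat.dvd_antisymm (orderOf_dvd_natCard _) ?_)
    rw [hcomm.symm.orderOf_mul_eq_mul_orderOf_of_coprime hcop, htord, ← hk,
      ← (S : Subgroup ↥H).card_mul_index]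
    exact Nat.mul_dvd_mul_left _ hwidx
  obtain ⟨j, ⟨e⟩⟩ := hTcases.resolve_left hTc
  right
  have hj : j ≠ 0 := by
    rintro rfl
    exact hTc (isCyclic_of_prime_card (p := 2) (by
      rw [Nat.card_congr e.toEquiv, DihedralGroup.nat_card, pow_zero, mul_one]))
  let eD : (S : Subgroup ↥H) ≃* DihedralGroup (2 ^ j) := eS.trans e
  let ψ : ↥H →* MulAut (S : Subgroup ↥H) := MulAut.conjNormal
  have hker : ∀ w : ↥H, ψ w = 1 → ∀ s ∈ (S : Subgroup ↥H), w * s = s * w := by
    intro w hw s hs
    have h1 : ψ w ⟨s, hs⟩ = ⟨s, hs⟩ := by rw [hw]; rfl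
    have h2 : w * s * w⁻¹ = s := by simpa [ψ] using congrArg Subtype.val h1
    exact mul_inv_eq_iff_eq_mul.1 h2
  obtain ⟨k, rfl⟩ : ∃ k, j = k + 1 := ⟨j - 1, by omega⟩
  -- a four-group inside `T`
  set K := ((CfsgLib.TwoFusion.Dihedral.four (k := k) 0).map eD.symm.toMonoidHom).map
    ((H.subtype).comp (S : Subgroup ↥H).subtype) with hKd
  have hinj : Function.Injective ((H.subtype).comp (S : Subgroup ↥H).subtype) :=
    H.subtype_injective.comp Subtype.val_injective
  have hV := CfsgLib.TwoFusion.Dihedral.four_klein (k := k) 0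
  have hK4 : Nat.card K = 4 := by
    rw [hKd, Subgroup.card_map_of_injective hinj, Subgroup.card_map_of_injective
      (show Function.Injective eD.symm.toMonoidHom from eD.symm.injective)]
    exact hV.card_four
  have hK2 : ∀ x ∈ K, x ^ 2 = 1 := by
    rintro _ ⟨_, ⟨y, hy, rfl⟩, rfl⟩
    rw [← map_pow, ← map_pow,
      show y ^ 2 = 1 from (sq y).trans (congrArg Subtype.val (IsKleinFour.mul_self
        (⟨y, hy⟩ : CfsgLib.TwoFusion.Dihedral.four (k := k) 0))), map_one, map_one]
  have hKself := hself hTc K hK4 hK2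
  have hcent : ∀ w : ↥H, (∀ s ∈ (S : Subgroup ↥H), w * s = s * w) → w ∈ (S : Subgroup ↥H) := by
    intro w hw
    have : (w : G) ∈ Subgroup.centralizer (K : Set G) := by
      rw [Subgroup.mem_centralizer_iff]
      rintro _ ⟨s, -, rfl⟩
      exact congrArg Subtype.val (hw s s.2).symm
    rw [hKself] at this
    obtain ⟨s, -, hs⟩ := this
    have : ((s : ↥H) : G) = (w : G) := hs
    rw [← Subtype.ext this]
    exact s.2
  rcases Nat.eq_zero_or_pos k with hk | hk
  · -- four-group
    subst hk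
    by_cases hST : (S : Subgroup ↥H) = ⊤
    · left
      exact ⟨1, ⟨(Subgroup.topEquiv.symm.trans ((MulEquiv.subgroupCongr hST).symm)).trans eD⟩⟩
    right
    have hS4 : Nat.card (S : Subgroup ↥H) = 4 := by
      rw [Nat.card_congr eD.toEquiv, DihedralGroup.nat_card]; norm_num
    have hker' : ψ.ker = (S : Subgroup ↥H) := by
      refine le_antisymm (fun w hw => hcent w (hker w (MonoidHom.mem_ker.1 hw))) fun s hs => ?_
      haveI : IsMulCommutative (S : Subgroup ↥H) :=
        IsMulCommutative.of_comm fun a b => eD.injective (by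
          haveI : IsMulCommutative (DihedralGroup (2 ^ (0 + 1))) :=
            DihedralGroup.commutative_iff.2 (Or.inr (by norm_num))
          rw [map_mul, map_mul]; exact mul_comm' _ _)
      refine MonoidHom.mem_ker.2 (MulEquiv.ext fun a => Subtype.ext ?_)
      have h2 : s * a = (a : ↥H) * s :=
        congrArg Subtype.val (mul_comm' (⟨s, hs⟩ : (S : Subgroup ↥H)) a)
      simp [ψ, h2, mul_assoc]
    have h6 : Nat.card (MulAut (S : Subgroup ↥H)) ≤ 6 := by
      have hc : Nat.card {x : (S : Subgroup ↥H) // x ≠ 1} = 3 := by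
        classical
        haveI := Fintype.ofFinite (S : Subgroup ↥H)
        rw [Nat.card_eq_fintype_card, Fintype.card_subtype_compl, ← Nat.card_eq_fintype_card, hS4,
          Fintype.card_subtype_eq]
      let F : MulAut (S : Subgroup ↥H) → Equiv.Perm {x : (S : Subgroup ↥H) // x ≠ 1} := fun φ =>
        φ.toEquiv.subtypeEquiv fun a => by simp
      have hF : Function.Injective F := by
        intro φ φ' h
        refine MulEquiv.ext fun a => ?_
        by_cases ha : a = 1
        · rw [ha, map_one, map_one]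
        · exact congrArg (fun f : Equiv.Perm {x : (S : Subgroup ↥H) // x ≠ 1} => (f ⟨a, ha⟩).1) h
      refine (Nat.card_le_card_of_injective F hF).trans ?_
      rw [Nat.card_perm, hc]; rfl
    have hidx : (S : Subgroup ↥H).index = 3 := by
      have h1 : (S : Subgroup ↥H).index ≤ 6 := by
        conv_lhs => rw [← hker', Subgroup.index_ker]
        exact (Nat.card_le_card_of_injective _ Subtype.val_injective).trans h6
      have h2 : (S : Subgroup ↥H).index ≠ 1 := fun h => hST (Subgroup.index_eq_one.1 h)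
      have h3 : (S : Subgroup ↥H).index ≠ 5 := by
        intro h5
        have hd : (S : Subgroup ↥H).index ∣ Nat.card (MulAut (S : Subgroup ↥H)) := by
          conv_lhs => rw [← hker', Subgroup.index_ker]
          exact Subgroup.card_subgroup_dvd_card _
        rw [h5] at hd
        haveI := Fact.mk Nat.prime_five
        obtain ⟨φ, hφ⟩ := exists_prime_orderOf_dvd_card' (G := MulAut (S : Subgroup ↥H)) 5 hd
        have hc : Nat.card {x : (S : Subgroup ↥H) // x ≠ 1} = 3 := by
          classical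
          haveI := Fintype.ofFinite (S : Subgroup ↥H)
          rw [Nat.card_eq_fintype_card, Fintype.card_subtype_compl, ← Nat.card_eq_fintype_card, hS4,
            Fintype.card_subtype_eq]
        let F : MulAut (S : Subgroup ↥H) →* Equiv.Perm {x : (S : Subgroup ↥H) // x ≠ 1} :=
          MonoidHom.mk' (fun φ => φ.toEquiv.subtypeEquiv fun a => by simp) fun _ _ => by
            ext; rfl
        have hF : Function.Injective F := by
          intro φ φ' h
          refine MulEquiv.ext fun a => ?_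
          by_cases ha : a = 1
          · rw [ha, map_one, map_one]
          · exact congrArg (fun f : Equiv.Perm {x : (S : Subgroup ↥H) // x ≠ 1} => (f ⟨a, ha⟩).1) h
        have h5' := orderOf_dvd_natCard (F φ)
        rw [orderOf_injective F hF, hφ, Nat.card_perm, hc] at h5'
        exact absurd h5' (by decide)
      rcases hodd with ⟨u, hu⟩
      omega
    have hH12 : Nat.card ↥H = 12 := by
      rw [← (S : Subgroup ↥H).card_mul_index, hS4, hidx]
    haveI := Fact.mk Nat.prime_three
    obtain ⟨w, hw⟩ := exists_prime_orderOf_dvd_card' (G := ↥H) 3 (by rw [hH12]; norm_num)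
    set Q := Subgroup.zpowers w
    have hQ3 : Nat.card Q = 3 := by rw [Nat.card_zpowers, hw]
    have hQidx : Q.index = 4 := by
      have := Q.card_mul_index
      rw [hQ3, hH12] at this
      omega
    let act := MulAction.toPermHom ↥H (↥H ⧸ Q)
    have hinjA : Function.Injective act := by
      rw [← MonoidHom.ker_eq_bot_iff, ← Subgroup.normalCore_eq_ker]
      by_contra hne
      have hle := Subgroup.normalCore_le Q
      have h3 : Nat.card Q.normalCore = 3 := by
        rcases (Nat.dvd_prime Nat.prime_three).1 (hQ3 ▸ Subgroup.card_dvd_of_le hle) with h | h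
        · exact absurd (Subgroup.card_eq_one.1 h) hne
        · exact h
      have hdisj : Disjoint Q.normalCore (S : Subgroup ↥H) := disjoint_iff.2
        (CfsgLib.Core.inf_eq_bot_of_coprime (by rw [h3, hS4]; norm_num))
      obtain ⟨⟨c, hc⟩, hc1⟩ := exists_ne_one_of_card h3
      have hcS : c ∈ (S : Subgroup ↥H) := hcent c fun s hs =>
        (Subgroup.commute_of_normal_of_disjoint _ _ inferInstance hSn hdisj c s hc hs).eq
      exact hc1 (Subtype.ext (Subgroup.disjoint_def.1 hdisj hc hcS))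
    obtain ⟨eF⟩ : Nonempty ((↥H ⧸ Q) ≃ Fin 4) :=
      ⟨(Finite.equivFin _).trans (finCongr (by rw [← Subgroup.index_eq_card, hQidx]))⟩
    let φ : ↥H →* Equiv.Perm (Fin 4) := eF.permCongrHom.toMonoidHom.comp act
    have hφ : Function.Injective φ := eF.permCongrHom.injective.comp hinjA
    have hrange : φ.range = alternatingGroup (Fin 4) := by
      refine Equiv.Perm.eq_alternatingGroup_of_index_eq_two ?_
      have := φ.range.card_mul_index
      rw [← Nat.card_congr (MonoidHom.ofInjective hφ).toEquiv, hH12, Nat.card_perm, Nat.card_fin] at this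
      norm_num [Nat.factorial] at this
      omega
    exact ⟨(MonoidHom.ofInjective hφ).trans (MulEquiv.subgroupCongr hrange)⟩
  · -- dihedral of order at least 8
    left
    refine ⟨k + 1, ⟨(Subgroup.topEquiv.symm.trans ((MulEquiv.subgroupCongr ?_).symm)).trans eD⟩⟩
    refine eq_top_iff.2 fun x _ => ?_
    obtain ⟨w, N, hN, hwN, hwx⟩ := hoddpart x
    have h1 : ψ w = 1 := by
      have hc : (MulAut.congr eD) (ψ w) = 1 :=
        aut_dihedral_eq_one (by omega) hN _ (by rw [← map_pow, ← map_pow, hwN, map_one, map_one])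
      exact (MulAut.congr eD).injective (by rw [hc, map_one])
    simpa using (S : Subgroup ↥H).mul_mem hwx (hcent w (hker w h1))

end CfsgLib.RestrictedTwo
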