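import Cfsg.Agent.Lib.CoreBasic
import Cfsg.Agent.Lib.CoreTransfer
import Cfsg.Agent.Lib.CorePGroup
import Mathlib.GroupTheory.Exponent

/-!
# Normal complements and elements realising the exponent in sections
-/

set_option autoImplicit false

universe u

namespace CfsgLib.SectionExponent

variable {p : ℕ} [hp : Fact p.Prime]

/-- Every section without a `p'`-core has an element realising its exponent. -/
def Sect (p : ℕ) (G : Type u) [Group G] : Prop :=
  ∀ (K : Type u) [Group K] [Finite K] (H : Subgroup G) (f : H →* K), Function.Surjective f →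
    Cfsg.pPrimeCore p K = ⊥ → ∃ k : K, orderOf k = Monoid.exponent K

variable {G : Type u} [Group G]

omit hp in
theorem Sect.subgroup (h : Sect p G) (M : Subgroup G) : Sect p M := by
  intro K _ _ H f hf hK
  let e : (H.map M.subtype : Subgroup G) ≃* H := (H.equivMapOfInjective _ M.subtype_injective).symm
  exact h K (H.map M.subtype) (f.comp e.toMonoidHom) (hf.comp e.surjective) hK

omit hp in
theorem Sect.quotient (h : Sect p G) (W : Subgroup G) [W.Normal] : Sect p (G ⧸ W) := by
  intro K _ _ H f hf hK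
  let g : (H.comap (QuotientGroup.mk' W) : Subgroup G) →* H := (QuotientGroup.mk' W).subgroupComap H
  refine h K _ (f.comp g) (hf.comp ?_) hK
  rintro ⟨x, hx⟩
  obtain ⟨y, rfl⟩ := QuotientGroup.mk'_surjective W x
  exact ⟨⟨y, hx⟩, rfl⟩

theorem hasNormalPComplement_of_surjective [Finite G] {K : Type u} [Group K] [Finite K]
    (f : G →* K) (hf : Function.Surjective f) (h : Cfsg.HasNormalPComplement p G) :
    Cfsg.HasNormalPComplement p K := by
  obtain ⟨N, hN, hc, k, hk⟩ := CfsgLib.Core.hasNormalPComplement_iff.1 h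
  refine CfsgLib.Core.hasNormalPComplement_iff.2 ⟨N.map f, hN.map f hf,
    hc.coprime_dvd_left (Subgroup.card_map_dvd N f), ?_⟩
  obtain ⟨j, -, hj⟩ := (Nat.dvd_prime_pow hp.out).1 (hk ▸ Subgroup.index_map_dvd N hf)
  exact ⟨j, hj⟩

theorem exists_exponent [Finite G] (h : IsPGroup p G) : ∃ k : G, orderOf k = Monoid.exponent G := by
  obtain ⟨x, hx⟩ := Finite.exists_max (fun g : G => orderOf g)
  refine ⟨x, Nat.dvd_antisymm (Monoid.order_dvd_exponent x) (Monoid.exponent_dvd_of_forall_pow_eq_one fun g => ?_)⟩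
  obtain ⟨a, ha⟩ := IsPGroup.iff_orderOf.1 h g
  obtain ⟨b, hb⟩ := IsPGroup.iff_orderOf.1 h x
  refine orderOf_dvd_iff_pow_eq_one.1 ?_
  have hle := hx g
  rw [ha, hb] at hle ⊢
  exact pow_dvd_pow _ ((Nat.pow_le_pow_iff_right hp.out.one_lt).1 hle)

theorem sect_of_npc [Finite G] (h : Cfsg.HasNormalPComplement p G) : Sect p G := by
  intro K _ _ H f hf hK
  obtain ⟨N, hN, hc, k, hk⟩ := CfsgLib.Core.hasNormalPComplement_iff.1
    (hasNormalPComplement_of_surjective f hf (CfsgLib.Core.hasNormalPComplement_subgroup h H))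
  have hN1 : N = ⊥ := le_bot_iff.1 (hK ▸ CfsgLib.Core.le_pPrimeCore hN hc)
  refine exists_exponent (p := p) (IsPGroup.of_card (n := k) ?_)
  rw [← hk, hN1, Subgroup.index_bot]

theorem npc_of_sect : ∀ (n : ℕ) (G : Type u) [Group G] [Finite G], Nat.card G = n → Sect p G →
    Cfsg.HasNormalPComplement p G := by
  intro n
  induction n using Nat.strong_induction_on with
  | h n ih =>
  intro G _ _ hn h
  subst hn
  by_contra hG
  have hsub : ∀ M : Subgroup G, M ≠ ⊤ → Cfsg.HasNormalPComplement p M := fun M hM =>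
    ih _ (lt_of_le_of_ne (Nat.card_le_card_of_injective _ M.subtype_injective)
      fun e => hM ((Subgroup.card_eq_iff_eq_top M).1 e)) M rfl (h.subgroup M)
  have hquot : ∀ W : Subgroup G, ∀ _ : W.Normal, W ≠ ⊥ → Cfsg.HasNormalPComplement p (G ⧸ W) := by
    intro W _ hW
    refine ih _ ?_ (G ⧸ W) rfl (h.quotient W)
    have h1 := Subgroup.card_eq_card_quotient_mul_card_subgroup W
    have h2 : 1 < Nat.card W := (Subgroup.one_lt_card_iff_ne_bot W).2 hW
    have h3 : 0 < Nat.card (G ⧸ W) := Nat.card_pos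
    nlinarith
  -- no normal subgroup of order prime to `p`
  have hcore : Cfsg.pPrimeCore p G = ⊥ := by
    by_contra hc
    haveI := CfsgLib.Core.normal_pPrimeCore (G := G) p
    set W := Cfsg.pPrimeCore p G
    obtain ⟨N, hN, hNc, k, hk⟩ := CfsgLib.Core.hasNormalPComplement_iff.1 (hquot W inferInstance hc)
    refine hG (CfsgLib.Core.hasNormalPComplement_iff.2 ⟨N.comap (QuotientGroup.mk' W), inferInstance, ?_, k, ?_⟩)
    · have h1 := Subgroup.card_mul_index (N.comap (QuotientGroup.mk' W))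
      rw [Subgroup.index_comap_of_surjective _ (QuotientGroup.mk'_surjective W),
        Subgroup.card_eq_card_quotient_mul_card_subgroup W, ← N.card_mul_index, mul_right_comm] at h1
      rw [Nat.eq_of_mul_eq_mul_right (Nat.pos_of_ne_zero Subgroup.index_ne_zero_of_finite) h1]
      exact Nat.Coprime.mul_left hNc (CfsgLib.Core.coprime_card_pPrimeCore p)
    · rw [Subgroup.index_comap_of_surjective _ (QuotientGroup.mk'_surjective W), hk]
  -- a `p'`-element acting on a `p`-subgroup
  obtain ⟨Q, hQ, g, hgN, hgo, hgC⟩ : ∃ Q : Subgroup G, IsPGroup p Q ∧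
      ∃ g ∈ Subgroup.normalizer (Q : Set G),
      (orderOf g).Coprime p ∧ g ∉ Subgroup.centralizer (Q : Set G) := by
    by_contra hno
    push Not at hno
    exact hG (CfsgLib.Core.hasNormalPComplement_of_local hno)
  have hZQ : Subgroup.zpowers g ≤ Subgroup.normalizer (Q : Set G) := Subgroup.zpowers_le.2 hgN
  have htop : Subgroup.zpowers g ⊔ Q = ⊤ := by
    by_contra hne
    set L := Subgroup.zpowers g ⊔ Q with hL
    have hgL : g ∈ L := Subgroup.mem_sup_left (Subgroup.mem_zpowers g)
    have h3 := CfsgLib.Core.centralizes_of_hasNormalPComplement (hsub L hne)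
      (Q := Q.subgroupOf L) (hQ.comap_of_injective L.subtype L.subtype_injective) (g := ⟨g, hgL⟩)
      (Subgroup.mem_normalizer_iff.2 fun z => Subgroup.mem_normalizer_iff.1 hgN z)
      (by rwa [← Subgroup.orderOf_coe])
    exact hgC (Subgroup.mem_centralizer_iff.2 fun z hz =>
      congrArg Subtype.val (Subgroup.mem_centralizer_iff.1 h3 ⟨z, Subgroup.mem_sup_right hz⟩ hz))
  haveI hQn : Q.Normal := Subgroup.normalizer_eq_top_iff.1 (top_le_iff.1
    (htop ▸ sup_le hZQ Subgroup.le_normalizer))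
  have hQ1 : Q ≠ ⊥ := by
    rintro rfl
    exact hgC (Subgroup.mem_centralizer_iff.2 fun z hz => by
      rw [Subgroup.mem_bot.1 hz, one_mul, mul_one])
  -- it is the only non-trivial normal `p`-subgroup inside `Q`
  have honly : ∀ W : Subgroup G, W.Normal → W ≤ Q → W ≠ ⊥ → W = Q := by
    intro W hW hWQ hW1
    haveI := hW
    obtain ⟨N, hN, hNc, k, hk⟩ := CfsgLib.Core.hasNormalPComplement_iff.1 (hquot W hW hW1)
    set M := N.comap (QuotientGroup.mk' W) with hM
    have hMi : M.index = p ^ k := by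
      rw [hM, Subgroup.index_comap_of_surjective _ (QuotientGroup.mk'_surjective W), hk]
    by_cases hMt : M = ⊤
    · refine le_antisymm hWQ fun q hq => ?_
      have hqN : (QuotientGroup.mk' W) q ∈ N := (show q ∈ M from hMt ▸ Subgroup.mem_top q)
      obtain ⟨j, hj⟩ := hQ ⟨q, hq⟩
      have h1 : orderOf (QuotientGroup.mk' W q) ∣ p ^ j := by
        refine orderOf_dvd_of_pow_eq_one ?_
        rw [← map_pow, show q ^ p ^ j = 1 from congrArg Subtype.val hj, map_one]
      have h2 := Subgroup.orderOf_dvd_natCard N hqN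
      exact (QuotientGroup.eq_one_iff q).1
        (orderOf_eq_one_iff.1 (Nat.eq_one_of_dvd_coprimes (hNc.pow_right j) h2 h1))
    · exact absurd (CfsgLib.Core.hasNormalPComplement_of_index_pow (hN.comap _) (hsub M hMt) ⟨k, hMi⟩) hG
  haveI : Nontrivial Q := (Subgroup.nontrivial_iff_ne_bot Q).2 hQ1
  have hΦ : (frattini Q).map Q.subtype = ⊥ := by
    by_contra hne
    have h1 := honly _ (CfsgLib.Core.map_subtype_normal_of_characteristic hQn inferInstance)
      (Subgroup.map_subtype_le _) hne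
    have h2 : frattini Q = ⊤ := Subgroup.map_injective Q.subtype_injective (by
      rw [h1, ← MonoidHom.range_eq_map, Subgroup.range_subtype])
    exact bot_ne_top (CfsgLib.Core.eq_top_of_sup_frattini (K := (⊥ : Subgroup Q)) (by rw [bot_sup_eq, h2]))
  rw [Subgroup.map_eq_bot_iff_of_injective _ Q.subtype_injective] at hΦ
  have hQp : ∀ q ∈ Q, q ^ p = 1 := fun q hq => congrArg Subtype.val
    (Subgroup.mem_bot.1 (hΦ.le (CfsgLib.Core.pgroup_pow_mem_frattini hQ ⟨q, hq⟩)))
  have hQcomm : ∀ a ∈ Q, ∀ b ∈ Q, a * b = b * a := fun a ha b hb => by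
    have h1 := hΦ.le (CfsgLib.Core.pgroup_commutator_le_frattini hQ
      (Subgroup.commutator_mem_commutator (Subgroup.mem_top (⟨a, ha⟩ : Q)) (Subgroup.mem_top (⟨b, hb⟩ : Q))))
    rw [Subgroup.mem_bot, commutatorElement_eq_one_iff_mul_comm] at h1
    exact congrArg Subtype.val h1
  -- the element realising the exponent
  obtain ⟨x, hx⟩ : ∃ x : G, orderOf x = Monoid.exponent G := by
    exact h G ⊤ (⊤ : Subgroup G).subtype (fun z => ⟨⟨z, Subgroup.mem_top z⟩, rfl⟩) hcore
  obtain ⟨⟨q₀, hq₀⟩, hq₀1⟩ := exists_ne (1 : Q)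
  have hpdvd : p ∣ orderOf x := by
    rw [hx, ← orderOf_eq_prime (hQp q₀ hq₀) (fun e => hq₀1 (Subtype.ext e))]
    exact Monoid.order_dvd_exponent _
  have hpe : 0 < orderOf x := orderOf_pos x
  obtain ⟨a, m, hm, he⟩ := Nat.exists_eq_pow_mul_and_not_dvd hpe.ne' p hp.out.ne_one
  have ha : 0 < a := Nat.pos_of_ne_zero fun h0 => by
    rw [h0, pow_zero, one_mul] at he
    exact hm (he ▸ hpdvd)
  set y := x ^ p ^ a with hy
  have hyo : orderOf y = m := by
    rw [hy, orderOf_pow' x (pow_ne_zero _ hp.out.ne_zero), he, Nat.gcd_eq_right (Dvd.intro m rfl),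
      Nat.mul_div_cancel_left _ (pow_pos hp.out.pos a)]
  have hgm : orderOf g ∣ m := by
    have h1 : orderOf g ∣ p ^ a * m := by rw [← he, hx]; exact Monoid.order_dvd_exponent g
    exact (hgo.pow_right a).dvd_of_dvd_mul_left h1
  have hmcop : m.Coprime p := (hp.out.coprime_iff_not_dvd.2 hm).symm
  have htop' : Subgroup.zpowers y ⊔ Q = ⊤ := by
    refine CfsgLib.Core.eq_top_of_card_ge ?_
    have hd : ∀ z : G, (orderOf z).Coprime p → Nat.card ↥(Subgroup.zpowers z ⊔ Q) = orderOf z * Nat.card Q := by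
      intro z hz
      rw [CfsgLib.Core.card_sup_of_disjoint (le_top.trans (Subgroup.normalizer_eq_top (H := Q)).ge),
        Nat.card_zpowers]
      refine CfsgLib.Core.inf_eq_bot_of_coprime ?_
      obtain ⟨j, hj⟩ := IsPGroup.iff_card.1 hQ
      rw [Nat.card_zpowers, hj]
      exact hz.pow_right j
    rw [hd y (hyo ▸ hmcop), hyo, ← Subgroup.card_top (G := G), ← htop, hd g hgo]
    exact Nat.mul_le_mul_right _ (Nat.le_of_dvd (Nat.pos_of_ne_zero fun h0 => hm (h0 ▸ dvd_zero p)) hgm)
  set z := x ^ m with hz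
  have hzQ : z ∈ Q := by
    obtain ⟨b, ⟨i, rfl⟩, c, hc, hbc⟩ := Subgroup.mem_sup_of_normal_right.1
      (htop'.ge (Subgroup.mem_top z))
    have h1 : orderOf (QuotientGroup.mk' Q z) ∣ p ^ a := by
      refine orderOf_dvd_of_pow_eq_one ?_
      rw [← map_pow, hz, ← pow_mul, mul_comm, ← he, pow_orderOf_eq_one, map_one]
    have h2 : orderOf (QuotientGroup.mk' Q z) ∣ m := by
      refine orderOf_dvd_of_pow_eq_one ?_
      rw [← hbc, map_mul, show QuotientGroup.mk' Q c = 1 from (QuotientGroup.eq_one_iff c).2 hc,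
        mul_one, map_zpow, ← zpow_natCast, ← zpow_mul, mul_comm, zpow_mul, zpow_natCast, ← map_pow]
      rw [show y ^ m = 1 from hyo ▸ pow_orderOf_eq_one y, map_one, one_zpow]
    exact (QuotientGroup.eq_one_iff z).1
      (orderOf_eq_one_iff.1 (Nat.eq_one_of_dvd_coprimes (hmcop.symm.pow_left a) h1 h2))
  have hz1 : z ≠ 1 := fun e => by
    have h1 : p ^ a * m ∣ m := he ▸ orderOf_dvd_of_pow_eq_one e
    have hm0 : 0 < m := Nat.pos_of_ne_zero fun h0 => hm (h0 ▸ dvd_zero p)
    have := Nat.le_of_dvd hm0 h1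
    have : 2 ≤ p ^ a := hp.out.two_le.trans (Nat.le_self_pow ha.ne' p)
    nlinarith
  set W := Q ⊓ Subgroup.center G with hW
  have hzc : z ∈ Subgroup.center G := by
    have hle : (⊤ : Subgroup G) ≤ Subgroup.centralizer ({z} : Set G) := by
      rw [← htop']
      refine sup_le (Subgroup.zpowers_le.2 (Subgroup.mem_centralizer_singleton_iff.2 ?_)) fun q hq =>
        Subgroup.mem_centralizer_singleton_iff.2 (hQcomm q hq z hzQ)
      exact ((Commute.refl x).pow_pow _ _).eq
    exact Subgroup.mem_center_iff.2 fun w => Subgroup.mem_centralizer_singleton_iff.1 (hle (Subgroup.mem_top w))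
  have hWQ : W = Q := honly W (Subgroup.normal_inf_normal _ _) inf_le_left fun e =>
    hz1 (Subgroup.mem_bot.1 (e ▸ (⟨hzQ, hzc⟩ : z ∈ W)))
  exact hgC (Subgroup.mem_centralizer_iff.2 fun q hq =>
    (Subgroup.mem_center_iff.1 (hWQ.ge hq).2 g).symm)

end CfsgLib.SectionExponent
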