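import Mathlib
/-!
Linear operators of prime order without fixed points: isotypic modules and the multiplicative order of the
characteristic.
-/

set_option autoImplicit false

namespace CfsgLib.ThreeOrbits

open Polynomial

theorem aeval_conj {F V : Type*} [CommRing F] [AddCommGroup V] [Module F V] {ρ σ : Module.End F V}
    (α : V →ₗ[F] V) (h : ∀ v, α (ρ v) = σ (α v)) (g : F[X]) : ∀ v, α (aeval ρ g v) = aeval σ g (α v) := by
  induction g using Polynomial.induction_on' with
  | add a b ha hb => intro v; simp [ha, hb]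
  | monomial n a =>
    have hn : ∀ v, α ((ρ ^ n) v) = (σ ^ n) (α v) := by
      induction n with
      | zero => intro v; simp
      | succ k ih => intro v; rw [pow_succ', pow_succ', Module.End.mul_apply, Module.End.mul_apply, h, ih]
    intro v
    simp [aeval_monomial, hn, Module.algebraMap_end_apply]

theorem eval_comm {F V : Type*} [CommRing F] [AddCommGroup V] [Module F V] (ρ : Module.End F V) (a b : F[X])
    (v : V) : aeval ρ a (aeval ρ b v) = aeval ρ b (aeval ρ a v) := by
  rw [← Module.End.mul_apply, ← map_mul, mul_comm, map_mul, Module.End.mul_apply]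

theorem dvd_of_common {F V : Type*} [Field F] [AddCommGroup V] [Module F V] (ρ : Module.End F V)
    {f g : F[X]} (hf : Irreducible f) {v : V} (hv : v ≠ 0) (h1 : aeval ρ f v = 0) (h2 : aeval ρ g v = 0) :
    f ∣ g := by
  by_contra h
  obtain ⟨a, b, hab⟩ := hf.coprime_iff_not_dvd.mpr h
  apply hv
  have := congrArg (fun t => aeval ρ t v) hab
  simpa [h1, h2] using this.symm

theorem eq_of_common {F V : Type*} [Field F] [AddCommGroup V] [Module F V] (ρ : Module.End F V)
    {f g : F[X]} (hf : Irreducible f) (hfm : f.Monic) (hg : Irreducible g) (hgm : g.Monic) {v : V} (hv : v ≠ 0)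
    (h1 : aeval ρ f v = 0) (h2 : aeval ρ g v = 0) : f = g :=
  eq_of_monic_of_associated hfm hgm (hf.associated_of_dvd hg (dvd_of_common ρ hf hv h1 h2))

variable {p q : ℕ} [Fact p.Prime] [Fact q.Prime]

/-- The degree of an irreducible polynomial whose root has order `q`. -/
theorem orderOf_le_natDegree {f : (ZMod p)[X]} (hf : Irreducible f) (hqp : q ≠ p)
    (hdvd : f ∣ cyclotomic q (ZMod p)) : orderOf (p : ZMod q) ≤ f.natDegree ∧
      (f.natDegree = q - 1 → orderOf (p : ZMod q) = q - 1 ∨ orderOf (p : ZMod q) < f.natDegree) := by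
  haveI := Fact.mk hf
  haveI : Module.Finite (ZMod p) (AdjoinRoot f) := (AdjoinRoot.powerBasis hf.ne_zero).finite
  haveI : Finite (AdjoinRoot f) := Module.finite_of_finite (ZMod p)
  letI := Fintype.ofFinite (AdjoinRoot f)
  set θ := AdjoinRoot.root f
  have hcard : Fintype.card (AdjoinRoot f) = p ^ f.natDegree := by
    rw [Module.card_eq_pow_finrank (K := ZMod p), ZMod.card, (AdjoinRoot.powerBasis hf.ne_zero).finrank,
      AdjoinRoot.powerBasis_dim]
  have hΦ : ∑ i ∈ Finset.range q, θ ^ i = 0 := by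
    have h : aeval θ (cyclotomic q (ZMod p)) = 0 := by rw [AdjoinRoot.aeval_eq, AdjoinRoot.mk_eq_zero]; exact hdvd
    rw [cyclotomic_prime] at h
    simpa using h
  have hq0 : (q : ZMod p) ≠ 0 := fun h =>
    hqp ((Nat.prime_dvd_prime_iff_eq Fact.out Fact.out).mp ((ZMod.natCast_eq_zero_iff q p).mp h)).symm
  have hθ1 : θ ≠ 1 := by
    intro e
    apply hq0
    rw [e] at hΦ
    simp only [one_pow, Finset.sum_const, Finset.card_range, nsmul_eq_mul, mul_one] at hΦ
    rw [← map_natCast (algebraMap (ZMod p) (AdjoinRoot f)), map_eq_zero] at hΦ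
    exact hΦ
  have hθq : θ ^ q = 1 := by
    have := geom_sum_mul θ q
    rw [hΦ, zero_mul] at this
    exact (sub_eq_zero.mp this.symm)
  have hord : orderOf θ = q := orderOf_eq_prime hθq hθ1
  have h1 : θ ^ (p ^ f.natDegree) = θ := by rw [← hcard, FiniteField.pow_card]
  have h2 : ((p : ZMod q)) ^ f.natDegree = 1 := by
    have hq1 : 1 < orderOf θ := by rw [hord]; exact (Fact.out : q.Prime).one_lt
    have hmod : p ^ f.natDegree ≡ 1 [MOD orderOf θ] := by
      rw [← pow_mod_orderOf] at h1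
      show _ % _ = 1 % _
      rw [Nat.mod_eq_of_lt hq1]
      exact pow_injOn_Iio_orderOf (Nat.mod_lt _ (by omega)) hq1 (h1.trans (pow_one θ).symm)
    rw [hord, ← ZMod.natCast_eq_natCast_iff] at hmod
    simpa using hmod
  have hle := Nat.le_of_dvd hf.natDegree_pos (orderOf_dvd_of_pow_eq_one h2)
  refine ⟨hle, fun hd => ?_⟩
  rcases eq_or_lt_of_le hle with h | h
  · exact Or.inl (h.trans hd)
  · exact Or.inr h

theorem irreducible_factor_eq {f : (ZMod p)[X]} (hf : Irreducible f) (hfm : f.Monic) (hqp : q ≠ p)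
    (ho : orderOf (p : ZMod q) = q - 1) (hdvd : f ∣ cyclotomic q (ZMod p)) : f = cyclotomic q (ZMod p) := by
  refine (eq_of_monic_of_dvd_of_natDegree_le hfm (cyclotomic.monic q _) hdvd ?_).symm
  rw [natDegree_cyclotomic, Nat.totient_prime Fact.out, ← ho]
  exact (orderOf_le_natDegree hf hqp hdvd).1

variable {V : Type*} [AddCommGroup V] [Module (ZMod p) V] [Finite V]

theorem sum_pow_eq_zero {ρ : Module.End (ZMod p) V} (hρ : ρ ^ q = 1) (hfix : ∀ v, ρ v = v → v = 0) :
    aeval ρ (cyclotomic q (ZMod p)) = 0 := by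
  rw [cyclotomic_prime]
  refine LinearMap.ext fun v => hfix _ ?_
  have h := geom_sum_mul ρ q
  rw [hρ, sub_self] at h
  have h' : ((ρ - 1) * ∑ i ∈ Finset.range q, ρ ^ i) v = 0 := by
    rw [mul_geom_sum, hρ, sub_self]; rfl
  rw [Module.End.mul_apply, LinearMap.sub_apply, Module.End.one_apply, sub_eq_zero] at h'
  simpa using h'

/-- If the twists of a fixed-point-free operator of order `q` are permuted transitively, then `p` is a primitive root. -/
theorem primitive_root_of_transitive [Nontrivial V] (hqp : q ≠ p) (ρ : Module.End (ZMod p) V) (hρ : ρ ^ q = 1)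
    (hfix : ∀ v, ρ v = v → v = 0)
    (htr : ∀ v w : V, v ≠ 0 → w ≠ 0 → ∃ (k : ℕ) (α : V ≃ₗ[ZMod p] V), ¬ q ∣ k ∧ α v = w ∧
      ∀ u, α (ρ u) = (ρ ^ k) (α u))
    (hall : ∀ k : ℕ, ¬ q ∣ k → ∃ α : V ≃ₗ[ZMod p] V, ∀ u, α (ρ u) = (ρ ^ k) (α u)) :
    orderOf (p : ZMod q) = q - 1 := by
  have hq : q.Prime := Fact.out
  have hΦ := sum_pow_eq_zero hρ hfix
  -- an irreducible polynomial with non-trivial kernel
  haveI : Module.Finite (ZMod p) V := Module.Finite.of_finite
  have hint := Algebra.IsIntegral.isIntegral (R := ZMod p) ρ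
  obtain ⟨f, hfm, hf, hfdvd⟩ := Polynomial.exists_monic_irreducible_factor (minpoly (ZMod p) ρ)
    (minpoly.not_isUnit (ZMod p) ρ)
  obtain ⟨v₀, hv₀, hfv₀⟩ : ∃ v : V, v ≠ 0 ∧ aeval ρ f v = 0 := by
    by_contra h
    push Not at h
    obtain ⟨g, hg⟩ := hfdvd
    have hg0 : g ≠ 0 := fun e => minpoly.ne_zero hint (by rw [hg, e, mul_zero])
    have hgρ : aeval ρ g = 0 := by
      refine LinearMap.ext fun v => ?_
      by_contra hne
      refine h _ hne ?_
      rw [← Module.End.mul_apply, ← map_mul, ← hg, minpoly.aeval, LinearMap.zero_apply]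
    have h1 := natDegree_le_of_dvd (minpoly.dvd (ZMod p) ρ hgρ) hg0
    rw [hg, natDegree_mul hf.ne_zero hg0] at h1
    have := hf.natDegree_pos
    omega
  -- every vector is annihilated by an irreducible polynomial
  have hirr : ∀ u : V, u ≠ 0 → ∃ h : (ZMod p)[X], Irreducible h ∧ h.Monic ∧ aeval ρ h u = 0 := by
    intro u hu
    obtain ⟨k, α, hk, hα, hcomm⟩ := htr v₀ u hv₀ hu
    have hfu : aeval (ρ ^ k) f u = 0 := by
      have := aeval_conj (α : V →ₗ[ZMod p] V) hcomm f v₀
      rw [hfv₀, map_zero, LinearEquiv.coe_coe, hα] at this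
      exact this.symm
    obtain ⟨l, hl⟩ := Nat.exists_mul_mod_eq_one_of_coprime
      ((hq.coprime_iff_not_dvd.mpr hk).symm : Nat.gcd k q = 1) hq.one_lt
    haveI := Fact.mk hf
    set θl := (AdjoinRoot.root f) ^ l
    have hi : IsIntegral (ZMod p) θl := (AdjoinRoot.isIntegral_root hf.ne_zero).pow l
    refine ⟨minpoly (ZMod p) θl, minpoly.irreducible hi, minpoly.monic hi, ?_⟩
    obtain ⟨g, hg⟩ : f ∣ (minpoly (ZMod p) θl).comp (X ^ l) := by
      rw [← AdjoinRoot.mk_eq_zero, ← AdjoinRoot.aeval_eq, aeval_comp, map_pow, aeval_X]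
      exact minpoly.aeval _ _
    have h1 : aeval (ρ ^ k) ((minpoly (ZMod p) θl).comp (X ^ l)) u = 0 := by
      rw [hg, mul_comm, map_mul, Module.End.mul_apply, hfu, map_zero]
    rwa [aeval_comp, map_pow, aeval_X, ← pow_mul, pow_eq_pow_mod _ hρ, hl.2, pow_one] at h1
  -- a single one annihilates everything
  obtain ⟨h, hh, hhm, hhv⟩ := hirr v₀ hv₀
  have hhρ : aeval ρ h = 0 := by
    refine LinearMap.ext fun u => ?_
    rw [LinearMap.zero_apply]
    rcases eq_or_ne u 0 with rfl | hu
    · exact map_zero _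
    obtain ⟨g, hg, hgm, hgu⟩ := hirr u hu
    by_contra hne
    have hhg : h ≠ g := fun e => hne (e ▸ hgu)
    have hvu : v₀ + u ≠ 0 := by
      intro e
      have hu' : u = -v₀ := eq_neg_of_add_eq_zero_right e
      apply hne
      rw [hu', map_neg, hhv, neg_zero]
    obtain ⟨t, ht, htm, htv⟩ := hirr _ hvu
    have h1 : aeval ρ t (aeval ρ h u) = 0 := by
      have := congrArg (aeval ρ h) htv
      rw [map_zero, eval_comm ρ h t, map_add, hhv, zero_add] at this
      exact this
    have h2 : aeval ρ g (aeval ρ h u) = 0 := by rw [eval_comm, hgu, map_zero]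
    have htg := eq_of_common ρ ht htm hg hgm hne h1 h2
    rw [htg, map_add, hgu, add_zero] at htv
    exact hhg (eq_of_common ρ hh hhm hg hgm hv₀ hhv htv)
  haveI := Fact.mk hh
  haveI : Module.Finite (ZMod p) (AdjoinRoot h) := (AdjoinRoot.powerBasis hh.ne_zero).finite
  haveI : Finite (AdjoinRoot h) := Module.finite_of_finite (ZMod p)
  set θ := AdjoinRoot.root h with hθdef
  have hdvd : h ∣ cyclotomic q (ZMod p) := dvd_of_common ρ hh hv₀ hhv (by rw [hΦ]; rfl)
  have hroot : ∀ k : ℕ, ¬ q ∣ k → aeval (θ ^ k) h = 0 := by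
    intro k hk
    obtain ⟨α, hα⟩ := hall k hk
    have h1 : aeval ρ (h.comp (X ^ k)) v₀ = 0 := by
      rw [aeval_comp, map_pow, aeval_X]
      have := aeval_conj (α : V →ₗ[ZMod p] V) hα h (α.symm v₀)
      rw [hhρ, LinearMap.zero_apply, map_zero, LinearEquiv.coe_coe, α.apply_symm_apply] at this
      exact this.symm
    have := dvd_of_common ρ hh hv₀ hhv h1
    rw [← AdjoinRoot.mk_eq_zero, ← AdjoinRoot.aeval_eq, aeval_comp, map_pow, aeval_X] at this
    exact this
  have hΦθ : ∑ i ∈ Finset.range q, θ ^ i = 0 := by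
    have h' : aeval θ (cyclotomic q (ZMod p)) = 0 := by rw [AdjoinRoot.aeval_eq, AdjoinRoot.mk_eq_zero]; exact hdvd
    rw [cyclotomic_prime] at h'
    simpa using h'
  have hθq : θ ^ q = 1 := by
    have := geom_sum_mul θ q
    rw [hΦθ, zero_mul] at this
    exact (sub_eq_zero.mp this.symm)
  have hθ1 : θ ≠ 1 := by
    intro e
    apply hqp
    rw [e] at hΦθ
    simp only [one_pow, Finset.sum_const, Finset.card_range, nsmul_eq_mul, mul_one] at hΦθ
    rw [← map_natCast (algebraMap (ZMod p) (AdjoinRoot h)), map_eq_zero, ZMod.natCast_eq_zero_iff] at hΦθ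
    exact ((Nat.prime_dvd_prime_iff_eq Fact.out hq).mp hΦθ).symm
  have hord : orderOf θ = q := orderOf_eq_prime hθq hθ1
  -- enough roots
  classical
  have hdeg : q - 1 ≤ h.natDegree := by
    set hK := h.map (algebraMap (ZMod p) (AdjoinRoot h)) with hhK
    have hsub : ((Finset.Ico 1 q).image fun k => θ ^ k).val ⊆ hK.roots := by
      intro y hy
      rw [Finset.mem_val, Finset.mem_image] at hy
      obtain ⟨k, hk, rfl⟩ := hy
      rw [Finset.mem_Ico] at hk
      rw [mem_roots (by rw [hhK]; exact Polynomial.map_ne_zero hh.ne_zero), IsRoot, hhK, eval_map_algebraMap]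
      exact hroot k (Nat.not_dvd_of_pos_of_lt hk.1 hk.2)
    have h1 := card_le_degree_of_subset_roots hsub
    rw [Finset.card_image_of_injOn, Nat.card_Ico, hhK, natDegree_map] at h1
    · exact h1
    · intro a ha b hb hab
      simp only [Finset.coe_Ico, Set.mem_Ico] at ha hb
      exact pow_injOn_Iio_orderOf (by rw [hord]; exact ha.2) (by rw [hord]; exact hb.2) hab
  set o := orderOf (p : ZMod q) with ho
  have hp0 : (p : ZMod q) ≠ 0 := fun e =>
    hqp ((Nat.prime_dvd_prime_iff_eq hq Fact.out).mp ((ZMod.natCast_eq_zero_iff p q).mp e))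
  have hoq : o ∣ q - 1 := orderOf_dvd_of_pow_eq_one (ZMod.pow_card_sub_one_eq_one hp0)
  have ho0 : o ≠ 0 := fun e => by
    rw [e, zero_dvd_iff] at hoq
    have := hq.one_lt
    omega
  have hθo : θ ^ p ^ o = θ := by
    have hmod : p ^ o ≡ 1 [MOD orderOf θ] := by
      rw [hord, ← ZMod.natCast_eq_natCast_iff, Nat.cast_pow, Nat.cast_one, ho, pow_orderOf_eq_one]
    rw [← pow_mod_orderOf, hmod, pow_mod_orderOf, pow_one]
  have hfixall : ∀ y : AdjoinRoot h, y ^ p ^ o = y := by
    intro y
    induction y using AdjoinRoot.induction_on with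
    | ih g =>
      rw [← AdjoinRoot.aeval_eq]
      haveI : CharP (AdjoinRoot h) p := charP_of_injective_algebraMap' (ZMod p) p
      induction g using Polynomial.induction_on' with
      | add a b ha hb => rw [map_add, add_pow_char_pow, ha, hb]
      | monomial n a =>
        rw [aeval_monomial, mul_pow, ← map_pow, ZMod.pow_card_pow, ← pow_mul, mul_comm n, pow_mul, hθo]
  have hle : h.natDegree ≤ o := by
    letI := Fintype.ofFinite (AdjoinRoot h)
    have hp1 : 1 < p := (Fact.out : p.Prime).one_lt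
    have hne := FiniteField.X_pow_card_pow_sub_X_ne_zero (AdjoinRoot h) ho0 hp1
    have h1 := card_le_degree_of_subset_roots (p := (X ^ p ^ o - X : (AdjoinRoot h)[X])) (Z := Finset.univ)
      (fun y _ => by rw [mem_roots hne, IsRoot, eval_sub, eval_pow, eval_X, hfixall, sub_self])
    rw [FiniteField.X_pow_card_pow_sub_X_natDegree_eq _ ho0 hp1, Finset.card_univ,
      Module.card_eq_pow_finrank (K := ZMod p), ZMod.card, (AdjoinRoot.powerBasis hh.ne_zero).finrank,
      AdjoinRoot.powerBasis_dim] at h1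
    exact (Nat.pow_le_pow_iff_right hp1).mp h1
  have := Nat.le_of_dvd (by have := hq.one_lt; omega) hoq
  omega

/-- Type synonym for a module structure pulled back along a ring homomorphism into endomorphisms. -/
def Tw {K W : Type*} [Ring K] [AddCommGroup W] (_φ : K →+* AddMonoid.End W) := W

instance {K W : Type*} [Ring K] [AddCommGroup W] (φ : K →+* AddMonoid.End W) : AddCommGroup (Tw φ) :=
  inferInstanceAs (AddCommGroup W)

noncomputable instance {K W : Type*} [Ring K] [AddCommGroup W] (φ : K →+* AddMonoid.End W) : Module K (Tw φ) :=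
  Module.compHom W φ

/-- Between two isotypic structures there is an isomorphism with a prescribed value. -/
theorem exists_addEquiv_intertwine (hqp : q ≠ p) (ho : orderOf (p : ZMod q) = q - 1)
    (ρ σ : Module.End (ZMod p) V) (hρq : ρ ^ q = 1) (hσq : σ ^ q = 1)
    (hρ : ∀ v, ρ v = v → v = 0) (hσ : ∀ v, σ v = v → v = 0)
    {v w : V} (hv : v ≠ 0) (hw : w ≠ 0) :
    ∃ α : V ≃+ V, α v = w ∧ ∀ u, α (ρ u) = σ (α u) := by
  classical
  set Φ := cyclotomic q (ZMod p)
  obtain ⟨f, hfm, hf, hfdvd⟩ := Polynomial.exists_monic_irreducible_factor Φ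
    (fun h => by
      have := natDegree_eq_zero_of_isUnit h
      rw [natDegree_cyclotomic, Nat.totient_prime Fact.out] at this
      have := (Fact.out : q.Prime).one_lt
      omega)
  have hfΦ : f = Φ := irreducible_factor_eq hf hfm hqp ho hfdvd
  haveI := Fact.mk hf
  haveI : Module.Finite (ZMod p) (AdjoinRoot f) := (AdjoinRoot.powerBasis hf.ne_zero).finite
  haveI : Finite (AdjoinRoot f) := Module.finite_of_finite (ZMod p)
  let toEnd : Module.End (ZMod p) V →+* AddMonoid.End V :=
    { toFun := fun l => l.toAddMonoidHom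
      map_one' := rfl
      map_mul' := fun _ _ => rfl
      map_zero' := rfl
      map_add' := fun _ _ => rfl }
  let lift : (τ : Module.End (ZMod p) V) → aeval τ f = 0 → AdjoinRoot f →+* AddMonoid.End V := fun τ hτ =>
    toEnd.comp (Ideal.Quotient.lift (Ideal.span {f}) (aeval τ).toRingHom (fun g hg => by
      obtain ⟨c, rfl⟩ := Ideal.mem_span_singleton.mp hg
      show aeval τ (f * c) = 0
      rw [map_mul, hτ, zero_mul]))
  have hroot : ∀ τ hτ (u : V), lift τ hτ (AdjoinRoot.root f) u = τ u := fun τ hτ u => by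
    show aeval τ (X : (ZMod p)[X]) u = τ u
    rw [aeval_X]
  let φ := lift ρ (by rw [hfΦ]; exact sum_pow_eq_zero hρq hρ)
  let ψ := lift σ (by rw [hfΦ]; exact sum_pow_eq_zero hσq hσ)
  haveI : Finite (Tw φ) := inferInstanceAs (Finite V)
  haveI : Finite (Tw ψ) := inferInstanceAs (Finite V)
  haveI : Module.Finite (AdjoinRoot f) (Tw φ) := Module.Finite.of_finite
  haveI : Module.Finite (AdjoinRoot f) (Tw ψ) := Module.Finite.of_finite
  have hrank : Module.finrank (AdjoinRoot f) (Tw φ) = Module.finrank (AdjoinRoot f) (Tw ψ) := by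
    letI := Fintype.ofFinite (AdjoinRoot f)
    letI := Fintype.ofFinite (Tw φ)
    letI := Fintype.ofFinite (Tw ψ)
    have h1 := Module.card_eq_pow_finrank (K := AdjoinRoot f) (V := Tw φ)
    have h2 := Module.card_eq_pow_finrank (K := AdjoinRoot f) (V := Tw ψ)
    have h3 : Fintype.card (Tw φ) = Fintype.card (Tw ψ) := Fintype.card_congr (Equiv.refl V)
    rw [h1, h2] at h3
    exact Nat.pow_right_injective Fintype.one_lt_card h3
  let e₀ : Tw φ ≃ₗ[AdjoinRoot f] Tw ψ := LinearEquiv.ofFinrankEq _ _ hrank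
  let v' : Tw φ := v
  let w' : Tw ψ := w
  have hl₁ : LinearIndepOn (AdjoinRoot f) id ({e₀ v'} : Set (Tw ψ)) :=
    LinearIndepOn.singleton (show id (e₀ v') ≠ 0 from e₀.map_ne_zero_iff.mpr hv)
  have hl₂ : LinearIndepOn (AdjoinRoot f) id ({w'} : Set (Tw ψ)) :=
    LinearIndepOn.singleton (show id w' ≠ 0 from hw)
  let b₁ := Module.Basis.extend hl₁
  let b₂ := Module.Basis.extend hl₂
  let ia : hl₁.extend (Set.subset_univ _) := ⟨e₀ v', Module.Basis.subset_extend hl₁ rfl⟩
  let ib : hl₂.extend (Set.subset_univ _) := ⟨w', Module.Basis.subset_extend hl₂ rfl⟩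
  let π := (b₁.indexEquiv b₂).trans (Equiv.swap (b₁.indexEquiv b₂ ia) ib)
  let e := e₀.trans (b₁.equiv b₂ π)
  refine ⟨e.toAddEquiv, ?_, fun u => ?_⟩
  · show b₁.equiv b₂ π (e₀ v') = w'
    refine (congrArg (b₁.equiv b₂ π) (Module.Basis.extend_apply_self hl₁ ia).symm).trans ?_
    rw [Module.Basis.equiv_apply]
    simp only [π, Equiv.trans_apply, Equiv.swap_apply_left]
    exact Module.Basis.extend_apply_self hl₂ ib
  · have := e.map_smul (AdjoinRoot.root f) (show Tw φ from u)
    have e1 : (AdjoinRoot.root f) • (show Tw φ from u) = ρ u := hroot ρ (by rw [hfΦ]; exact sum_pow_eq_zero hρq hρ) u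
    have e2 : ∀ t : Tw ψ, (AdjoinRoot.root f) • t = σ t := fun t => hroot σ (by rw [hfΦ]; exact sum_pow_eq_zero hσq hσ) t
    rw [e1, e2] at this
    exact this

end CfsgLib.ThreeOrbits
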