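import Cfsg.Agent.Lib.CoreSubnormal

/-!
# Subnormality from conjugates by conjugates of elements of the subgroup
-/

set_option autoImplicit false

namespace CfsgLib.Core

open scoped Pointwise
open Subgroup

universe u

variable {G : Type u} [Group G]

/-- Only conjugates by conjugates of elements of `A` need to be tested. -/
theorem isSubnormal_of_forall_conj_self [Finite G] {A : Subgroup G}
    (h : ∀ a ∈ A, ∀ g : G, (A.subgroupOf (A ⊔ MulAut.conj (g⁻¹ * a * g) • A)).IsSubnormal) : A.IsSubnormal := by
  suffices key : ∀ n, ∀ H : Subgroup G, Nat.card H = n → A ≤ H → (A.subgroupOf H).IsSubnormal from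
    isSubnormal_of_subgroupOf_top (key _ ⊤ rfl le_top)
  intro n
  induction n using Nat.strong_induction_on with
  | h n ih =>
    intro H hn hAH
    by_contra hns
    have hsmaller : ∀ L : Subgroup H, L ≠ ⊤ → A.subgroupOf H ≤ L →
        ((A.subgroupOf H).subgroupOf L).IsSubnormal := by
      intro L hL hAL
      have hlt : Nat.card (L.map H.subtype) < n := by
        rw [Subgroup.card_map_of_injective H.subtype_injective, ← hn]
        exact lt_of_le_of_ne (Nat.card_le_card_of_injective _ L.subtype_injective)
          fun e => hL ((Subgroup.card_eq_iff_eq_top L).mp e)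
      have h1 := ih _ hlt (L.map H.subtype) rfl (fun a ha => ⟨⟨a, hAH ha⟩, hAL ha, rfl⟩)
      let f : L →* L.map H.subtype := (H.subtype.comp L.subtype).codRestrict _
        fun y => ⟨y, y.2, rfl⟩
      exact h1.comap f
    have hz := zipper hsmaller hns
    obtain ⟨M, hM, hAM⟩ := (eq_top_or_exists_le_coatom (A.subgroupOf H)).resolve_left fun e => by
      rw [e] at hns; exact hns IsSubnormal.top
    have hxM : ∀ a ∈ A, ∀ g ∈ H, MulAut.conj (g⁻¹ * a * g) • A ≤ M.map H.subtype := by
      intro a ha g hg
      set x := g⁻¹ * a * g with hx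
      have hxH : x ∈ H := H.mul_mem (H.mul_mem (H.inv_mem hg) (hAH ha)) hg
      have hJH : A ⊔ MulAut.conj x • A ≤ H := sup_le hAH
        ((conj_smul_le_conj_smul.mpr hAH).trans
          (conj_smul_of_mem_normalizer (Subgroup.le_normalizer hxH)).le)
      rcases eq_top_or_exists_le_coatom ((A ⊔ MulAut.conj x • A).subgroupOf H) with e | ⟨M', hM', hle⟩
      · rw [Subgroup.subgroupOf_eq_top] at e
        exact absurd (le_antisymm hJH e ▸ h a ha g) hns
      · have hAM' : A.subgroupOf H ≤ M' := le_trans (fun y hy => le_sup_left (α := Subgroup G) hy) hle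
        rw [← hz M' M hM' hM hAM' hAM]
        exact fun y hy => ⟨⟨y, hJH (le_sup_right (α := Subgroup G) hy)⟩,
          hle (le_sup_right (α := Subgroup G) hy), rfl⟩
    have hAgM : ∀ g ∈ H, MulAut.conj g • A ≤ M.map H.subtype := by
      by_cases hMn : M.Normal
      · intro g hg y hy
        rw [mem_conj_smul] at hy
        refine ⟨⟨g, hg⟩ * ⟨g⁻¹ * y * g, hAH hy⟩ * (⟨g, hg⟩ : H)⁻¹, hMn.conj_mem _ (hAM hy) _, ?_⟩
        simp [mul_assoc]
      · intro g hg y hy
        rw [mem_conj_smul] at hy
        have hgi : g⁻¹ ∈ H := H.inv_mem hg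
        set x := (g⁻¹)⁻¹ * (g⁻¹ * y * g) * g⁻¹ with hx
        have hxH : x ∈ H := H.mul_mem (H.mul_mem (H.inv_mem hgi) (hAH hy)) hgi
        have hle := hxM _ hy g⁻¹ hgi
        set x' : H := ⟨x, hxH⟩ with hx'
        have hcoat : IsCoatom (MulAut.conj x'⁻¹ • M) := by
          refine ⟨fun e => hM.1 ?_, fun L hL => ?_⟩
          · have := congrArg (fun S : Subgroup H => MulAut.conj x' • S) e
            simp only [conj_smul_conj_smul, mul_inv_cancel, conj_one_smul] at this
            rw [this]
            exact eq_top_iff.mpr fun z _ => mem_conj_smul.mpr (Subgroup.mem_top _)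
          · have h2 : M < MulAut.conj x' • L := by
              have h3 := hL.le
              have h4 : M ≤ MulAut.conj x' • L := by
                have := conj_smul_le_conj_smul (g := x').mpr h3
                rwa [conj_smul_conj_smul, mul_inv_cancel, conj_one_smul] at this
              refine lt_of_le_of_ne h4 fun e => hL.ne ?_
              rw [e, conj_smul_conj_smul, inv_mul_cancel, conj_one_smul]
            have h5 := hM.2 _ h2
            have := congrArg (fun S : Subgroup H => MulAut.conj x'⁻¹ • S) h5
            simp only [conj_smul_conj_smul, inv_mul_cancel, conj_one_smul] at this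
            rw [this]
            exact eq_top_iff.mpr fun z _ => mem_conj_smul.mpr (Subgroup.mem_top _)
        have hAM2 : A.subgroupOf H ≤ MulAut.conj x'⁻¹ • M := by
          intro z hz
          rw [mem_conj_smul, inv_inv]
          have hm : x * (z : G) * x⁻¹ ∈ MulAut.conj x • A := by
            rw [mem_conj_smul]
            simpa [mul_assoc, Subgroup.mem_subgroupOf] using hz
          obtain ⟨m, hm, hmz⟩ := hle hm
          have e : m = x' * z * x'⁻¹ := Subtype.ext hmz
          exact e ▸ hm
        have heq := hz _ M hcoat hM hAM2 hAM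
        have hnorm : x'⁻¹ ∈ Subgroup.normalizer (M : Set H) := conj_smul_eq_self_iff.mp heq
        have hNM : Subgroup.normalizer (M : Set H) = M := by
          rcases lt_or_eq_of_le (Subgroup.le_normalizer (H := M)) with hlt | e
          · exact absurd (Subgroup.normalizer_eq_top_iff.mp (hM.2 _ hlt)) hMn
          · exact e.symm
        rw [hNM] at hnorm
        refine ⟨x', (Subgroup.inv_mem_iff M).mp hnorm, ?_⟩
        show x = y
        rw [hx]; group
    set L : Subgroup G := ⨆ g ∈ {g : G | g ∈ H}, MulAut.conj g • A with hL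
    have hLM : L ≤ M.map H.subtype := iSup₂_le fun g hg => hAgM g hg
    have hLH : L ≤ H := hLM.trans (Subgroup.map_subtype_le M)
    have hAL : A ≤ L := le_iSup₂_of_le 1 (H.one_mem) (conj_one_smul A).ge
    have hlt : Nat.card L < n := by
      refine lt_of_le_of_lt (Subgroup.card_le_of_le hLM) ?_
      rw [Subgroup.card_map_of_injective H.subtype_injective, ← hn]
      exact lt_of_le_of_ne (Nat.card_le_card_of_injective _ M.subtype_injective)
        fun e => hM.1 ((Subgroup.card_eq_iff_eq_top M).mp e)
    refine hns (isSubnormal_subgroupOf_trans hAL hLH (ih _ hlt L rfl hAL) ?_)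
    refine Subgroup.Normal.isSubnormal
      ((Subgroup.normal_subgroupOf_iff_le_normalizer hLH).mpr fun y hy => ?_)
    refine conj_smul_eq_self_iff.mp (eq_of_le_of_card_le ?_ (card_conj_smul y L).ge)
    rw [conj_smul_eq_map, hL]
    simp only [Subgroup.map_iSup]
    refine iSup₂_le fun g hg => ?_
    rw [← conj_smul_eq_map, conj_smul_conj_smul]
    exact le_iSup₂_of_le (y * g) (H.mul_mem hy hg) le_rfl

end CfsgLib.Core
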