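import Mathlib
import Cfsg.Agent.Lib.CharBurnside

/-!
Burnside's two prime theorem in divisor form.
-/

set_option autoImplicit false

namespace CfsgLib.FgsTwoPrime

universe u

theorem eq_pow_mul_pow {n p q : ℕ} (hn : n ≠ 0) (hp : p.Prime) (hq : q.Prime) (hpq : p ≠ q)
    (h : ∀ r : ℕ, r.Prime → r ∣ n → r = p ∨ r = q) :
    n = p ^ n.factorization p * q ^ n.factorization q := by
  refine Nat.eq_of_factorization_eq hn
    (mul_ne_zero (pow_ne_zero _ hp.ne_zero) (pow_ne_zero _ hq.ne_zero)) fun r => ?_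
  rw [Nat.factorization_mul (pow_ne_zero _ hp.ne_zero) (pow_ne_zero _ hq.ne_zero),
    hp.factorization_pow, hq.factorization_pow, Finsupp.add_apply, Finsupp.single_apply,
    Finsupp.single_apply]
  by_cases h2 : p = r
  · subst h2; rw [if_pos rfl, if_neg hpq.symm, add_zero]
  by_cases h3 : q = r
  · subst h3; rw [if_neg h2, if_pos rfl, zero_add]
  rw [if_neg h2, if_neg h3, add_zero, Nat.factorization_eq_zero_iff]
  by_contra hc
  push Not at hc
  rcases h r hc.1 hc.2.1 with e | e
  exacts [h2 e.symm, h3 e.symm]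

theorem isSolvable_of_two_primes {G : Type u} [Group G] [Finite G] {p q : ℕ} (hp : p.Prime)
    (hq : q.Prime) (hpq : p ≠ q) (h : ∀ r : ℕ, r.Prime → r ∣ Nat.card G → r = p ∨ r = q) :
    Group.IsSolvable G :=
  CfsgLib.Char.burnside_pq hp hq _ G _ _ rfl (eq_pow_mul_pow Nat.card_pos.ne' hp hq hpq h)

end CfsgLib.FgsTwoPrime
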