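import Mathlib
import Cfsg.Agent.Lib.CoreSubnormal
import Cfsg.Agent.Lib.FgsTwoPrime

/-!
The group `3² : SD16` : every class meets `{g | ⟨a⟩ subnormal in ⟨a, g⟩}` for a reflection `a`.
-/

set_option autoImplicit false

namespace CfsgLib.FgsSubnormalTwoExample

open Subgroup

/-- The plane over the field of three elements. -/
abbrev V := Fin 2 → ZMod 3

/-- The linear group. -/
abbrev GL3 := GL (Fin 2) (ZMod 3)

/-- The action. -/
def act (g : GL3) (v : V) : V := (g : Matrix (Fin 2) (Fin 2) (ZMod 3)).mulVec v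

theorem act_one (v : V) : act 1 v = v := Matrix.one_mulVec v

theorem act_mul (g h : GL3) (v : V) : act (g * h) v = act g (act h v) := by
  rw [act, act, act, Matrix.GeneralLinearGroup.coe_mul, Matrix.mulVec_mulVec]

theorem act_add (g : GL3) (v w : V) : act g (v + w) = act g v + act g w := Matrix.mulVec_add _ _ _

theorem act_zero (g : GL3) : act g 0 = 0 := Matrix.mulVec_zero _

theorem act_sub (g : GL3) (v w : V) : act g (v - w) = act g v - act g w := Matrix.mulVec_sub _ _ _

theorem act_inj (g : GL3) {v w : V} (h : act g v = act g w) : v = w := by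
  have := congrArg (act g⁻¹) h
  rwa [← act_mul, ← act_mul, inv_mul_cancel, act_one, act_one] at this

/-- The reflection. -/
def refl : GL3 :=
  ⟨!![1, 0; 0, -1], !![1, 0; 0, -1], by ext i j; fin_cases i <;> fin_cases j <;> simp,
    by ext i j; fin_cases i <;> fin_cases j <;> simp⟩

/-- The first basis vector. -/
def e1 : V := ![1, 0]

theorem refl_sq : refl * refl = 1 := Units.ext (by
  ext i j; fin_cases i <;> fin_cases j <;> simp [refl])

theorem refl_e1 : act refl e1 = e1 := by
  funext i; fin_cases i <;> simp [act, refl, e1, Matrix.mulVec, dotProduct]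

theorem refl_e2 : act refl ![0, 1] ≠ ![0, 1] := by
  intro h
  have := congrFun h 1
  simp [act, refl, Matrix.mulVec, dotProduct] at this
  revert this
  decide

/-- The translation part of the transvection. -/
def transv : GL3 :=
  ⟨!![1, 1; 0, 1], !![1, -1; 0, 1], by ext i j; fin_cases i <;> fin_cases j <;> simp,
    by ext i j; fin_cases i <;> fin_cases j <;> simp⟩

theorem transv_e1 : act transv e1 = e1 := by
  funext i; fin_cases i <;> simp [act, transv, e1, Matrix.mulVec, dotProduct]

theorem transv_order : orderOf transv = 3 := by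
  haveI : Fact (Nat.Prime 3) := ⟨by norm_num⟩
  refine orderOf_eq_prime ?_ fun h => ?_
  · apply Units.ext
    rw [pow_succ, pow_two]
    ext i j
    fin_cases i <;> fin_cases j <;> simp [transv] <;> decide
  · have := congrArg (fun g : GL3 => (g : Matrix (Fin 2) (Fin 2) (ZMod 3)) 0 1) h
    simp [transv] at this

theorem card_V : Nat.card V = 9 := by
  rw [Nat.card_eq_fintype_card]
  rfl

theorem exists_sylow : ∃ H : Subgroup GL3, refl ∈ H ∧ IsPGroup 2 H ∧
    (∀ v : V, v ≠ 0 → ∃ h ∈ H, act h v = e1) ∧
    (∀ h ∈ H, act h e1 = e1 → h = 1 ∨ h = refl) := by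
  classical
  haveI : Fact (Nat.Prime 2) := ⟨Nat.prime_two⟩
  haveI : Fact (Nat.Prime 3) := ⟨by norm_num⟩
  have hGL : Nat.card GL3 = 48 := by
    rw [Matrix.card_GL_field, Fin.prod_univ_two, ZMod.card]
    norm_num
  have hr : IsPGroup 2 (zpowers refl) := by
    intro x
    obtain ⟨i, hi⟩ := mem_zpowers_iff.1 x.2
    refine ⟨1, Subtype.ext ?_⟩
    rw [Subgroup.coe_pow, ← hi, pow_one, ← zpow_natCast, ← zpow_mul, mul_comm, zpow_mul,
      zpow_natCast, pow_two, refl_sq, one_zpow, Subgroup.coe_one]
  obtain ⟨H, hH⟩ := hr.exists_le_sylow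
  have hrH : refl ∈ (H : Subgroup GL3) := hH (mem_zpowers refl)
  have hHc : Nat.card (H : Subgroup GL3) = 16 := by
    have h16 : (2 : ℕ) ^ 4 ∣ Nat.card GL3 := by rw [hGL]; norm_num
    obtain ⟨k, hk⟩ := IsPGroup.iff_card.1 H.isPGroup'
    have h1 : k ≤ 4 := by
      by_contra hc
      have : (2 : ℕ) ^ 5 ∣ 48 := (pow_dvd_pow 2 (by omega : 5 ≤ k)).trans (hk ▸ hGL ▸ Subgroup.card_subgroup_dvd_card _)
      norm_num at this
    have h2 : 4 ≤ k := by
      have := H.pow_dvd_card_of_pow_dvd_card h16
      rw [hk] at this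
      exact (Nat.pow_dvd_pow_iff_le_right (by norm_num)).1 this
    rw [hk, le_antisymm h1 h2]
    norm_num
  -- the stabiliser of the first basis vector
  let S : Subgroup GL3 :=
    { carrier := {g | act g e1 = e1}
      one_mem' := act_one _
      mul_mem' := fun {a b} ha hb => by
        change act (a * b) e1 = e1
        rw [act_mul, hb, ha]
      inv_mem' := fun {a} ha => by
        change act a⁻¹ e1 = e1
        conv_lhs => rw [← (ha : act a e1 = e1)]
        rw [← act_mul, inv_mul_cancel, act_one] }
  have hScol : ∀ g ∈ S, (g : Matrix (Fin 2) (Fin 2) (ZMod 3)) 0 0 = 1 ∧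
      (g : Matrix (Fin 2) (Fin 2) (ZMod 3)) 1 0 = 0 ∧ (g : Matrix (Fin 2) (Fin 2) (ZMod 3)) 1 1 ≠ 0 := by
    intro g hg
    have h0 := congrFun (hg : act g e1 = e1) 0
    have h1 := congrFun (hg : act g e1 = e1) 1
    simp [act, e1, Matrix.mulVec, dotProduct] at h0 h1
    refine ⟨h0, h1, fun h2 => ?_⟩
    have hdet := Matrix.GeneralLinearGroup.det_ne_zero g
    rw [Matrix.det_fin_two, h1, h2] at hdet
    simp at hdet
  have hSc : Nat.card S ≤ 6 := by
    have : Nat.card S ≤ Nat.card (ZMod 3 × {x : ZMod 3 // x ≠ 0}) := by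
      refine Nat.card_le_card_of_injective
        (fun g => ((g : GL3).1 0 1, ⟨(g : GL3).1 1 1, (hScol g g.2).2.2⟩)) fun g g' h => ?_
      obtain ⟨h1, h2⟩ := Prod.ext_iff.1 h
      have h2 := congrArg Subtype.val h2
      apply Subtype.ext
      apply Units.ext
      ext i j
      fin_cases i <;> fin_cases j
      · exact (hScol g g.2).1.trans (hScol g' g'.2).1.symm
      · exact h1
      · exact (hScol g g.2).2.1.trans (hScol g' g'.2).2.1.symm
      · exact h2
    refine this.trans ?_
    simp [Nat.card_eq_fintype_card, Fintype.card_subtype_compl]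
  set T := (H : Subgroup GL3) ⊓ S with hT
  have hT2 : Nat.card T ≤ 2 := by
    have h16 : Nat.card T ∣ 2 ^ 4 := by
      rw [show (2 : ℕ) ^ 4 = 16 by norm_num, ← hHc]
      exact Subgroup.card_dvd_of_le inf_le_left
    obtain ⟨k, -, hk⟩ := (Nat.dvd_prime_pow Nat.prime_two).1 h16
    have hTS : Nat.card T ∣ Nat.card S := Subgroup.card_dvd_of_le inf_le_right
    have h3 : 3 ∣ Nat.card S := by
      let t : S := ⟨transv, transv_e1⟩
      have h0 : orderOf t = 3 := (Subgroup.orderOf_coe t).symm.trans transv_order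
      have h := orderOf_dvd_natCard t
      rw [h0] at h
      exact h
    by_contra hc
    have hk2 : 2 ≤ k := by
      by_contra hk'
      rw [hk] at hc
      interval_cases k <;> norm_num at hc
    have h4 : 4 ∣ Nat.card S :=
      (show 2 ^ 2 ∣ 2 ^ k from pow_dvd_pow 2 hk2).trans (hk ▸ hTS)
    have := Nat.le_of_dvd Nat.card_pos (Nat.Coprime.mul_dvd_of_dvd_of_dvd (by norm_num : Nat.Coprime 4 3) h4 h3)
    omega
  refine ⟨H, hrH, H.isPGroup', ?_, ?_⟩
  · letI : MulAction (H : Subgroup GL3) V :=
      { smul := fun h v => act h v, one_smul := act_one, mul_smul := fun a b v => act_mul a b v }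
    have horb := MulAction.index_stabilizer (G := (H : Subgroup GL3)) e1
    have hst : Nat.card (MulAction.stabilizer (H : Subgroup GL3) e1) ≤ 2 := by
      refine le_trans (le_of_eq ?_) hT2
      exact Nat.card_congr
        { toFun := fun h => ⟨h.1.1, h.1.2, h.2⟩
          invFun := fun h => ⟨⟨h.1, h.2.1⟩, h.2.2⟩
          left_inv := fun h => rfl
          right_inv := fun h => rfl }
    have hmul := (MulAction.stabilizer (H : Subgroup GL3) e1).card_mul_index
    rw [hHc, horb] at hmul
    set O := MulAction.orbit (H : Subgroup GL3) e1 with hO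
    have hsub : O ⊆ {v : V | v ≠ 0} := by
      rintro v ⟨h, rfl⟩ h0
      have h0' : act (h : GL3) e1 = act (h : GL3) 0 := h0.trans (act_zero _).symm
      have := congrFun (act_inj _ h0') 0
      simp [e1] at this
    have h8' : 8 ≤ (MulAction.orbit (H : Subgroup GL3) e1).ncard := by
      have := Nat.mul_le_mul_right ((MulAction.orbit (H : Subgroup GL3) e1).ncard) hst
      have e : Nat.card (MulAction.stabilizer (H : Subgroup GL3) e1) * (MulAction.orbit (H : Subgroup GL3) e1).ncard = 16 := hmul
      omega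
    have h8 : 8 ≤ O.ncard := h8'
    have hne : ({v : V | v ≠ 0}).ncard = 8 := by
      have h := Set.ncard_add_ncard_compl ({0} : Set V)
      rw [Set.ncard_singleton, card_V] at h
      have : ({0} : Set V)ᶜ = {v : V | v ≠ 0} := rfl
      rw [this] at h
      omega
    have heq : O = {v : V | v ≠ 0} := Set.eq_of_subset_of_ncard_le hsub (by omega)
    intro v hv
    obtain ⟨h, hh⟩ : v ∈ O := heq ▸ hv
    refine ⟨(h : GL3)⁻¹, inv_mem h.2, ?_⟩
    rw [← hh]
    change act (h : GL3)⁻¹ (act (h : GL3) e1) = e1
    rw [← act_mul, inv_mul_cancel, act_one]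
  · intro h hh hfix
    have hne1 : refl ≠ 1 := fun e => refl_e2 (by rw [e]; exact act_one _)
    by_contra hc
    push Not at hc
    have hcard : 3 ≤ Nat.card T := by
      rw [Nat.card_eq_fintype_card]
      have : ({⟨1, one_mem T⟩, ⟨refl, hrH, refl_e1⟩, ⟨h, hh, hfix⟩} : Finset T).card = 3 := by
        rw [Finset.card_insert_of_notMem, Finset.card_pair]
        · exact fun e => hc.2 (congrArg Subtype.val e).symm
        · simp only [Finset.mem_insert, Finset.mem_singleton, not_or]
          exact ⟨fun e => hne1 (congrArg Subtype.val e).symm, fun e => hc.1 (congrArg Subtype.val e).symm⟩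
      exact le_of_eq_of_le this.symm (Finset.card_le_univ _)
    omega

theorem exists_example : ∃ (G : Type) (_ : Group G) (_ : Finite G) (A : Subgroup G),
    Group.IsSolvable G ∧ Nat.card A = 2 ∧
      (∀ c : G, ∃ g : G, IsConj c g ∧ (A.subgroupOf (A ⊔ zpowers g)).IsSubnormal) ∧
      ∀ N : Subgroup G, N.Normal → IsPGroup 2 N → ¬ A ≤ N := by
  classical
  haveI : Fact (Nat.Prime 2) := ⟨Nat.prime_two⟩
  obtain ⟨H, hrH, hH2, htr, hst⟩ := exists_sylow
  let ψ : H →* MulAut (Multiplicative V) :=
    { toFun := fun g => AddEquiv.toMultiplicative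
        { toFun := act g
          invFun := act (g : GL3)⁻¹
          left_inv := fun v => by rw [← act_mul, inv_mul_cancel, act_one]
          right_inv := fun v => by rw [← act_mul, mul_inv_cancel, act_one]
          map_add' := act_add g }
      map_one' := by
        apply MulEquiv.ext
        intro v
        exact congrArg Multiplicative.ofAdd (act_one v.toAdd)
      map_mul' := fun a b => by
        apply MulEquiv.ext
        intro v
        exact congrArg Multiplicative.ofAdd (act_mul a b v.toAdd) }
  let L := Multiplicative V ⋊[ψ] H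
  haveI : Finite L := Finite.of_equiv (Multiplicative V × H) SemidirectProduct.equivProd.symm
  let mk : V → H → L := fun v h => ⟨Multiplicative.ofAdd v, h⟩
  have hmk : ∀ (v w : V) (g h : H), mk v g * mk w h = mk (v + act g w) (g * h) := fun _ _ _ _ => rfl
  have hinv : ∀ (v : V) (g : H), (mk v g)⁻¹ = mk (act (g : GL3)⁻¹ (-v)) g⁻¹ := fun _ _ => rfl
  have hconj : ∀ (w v : V) (k h : H), mk w k * mk v h * (mk w k)⁻¹ =
      mk (w + act k v - act ((k * h * k⁻¹ : H) : GL3) w) (k * h * k⁻¹) := by
    intro w v k h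
    rw [hinv, hmk, hmk]
    congr 1
    rw [← act_mul, sub_eq_add_neg]
    congr 1
    rw [Subgroup.coe_mul, Subgroup.coe_mul, Subgroup.coe_mul, Subgroup.coe_inv,
      ← zero_sub, act_sub, act_zero, zero_sub]
  set r : H := ⟨refl, hrH⟩ with hr
  set a : L := mk 0 r with ha
  have ha2 : a * a = 1 := by
    rw [ha, hmk, act_zero, add_zero]
    exact congrArg (mk 0) (Subtype.ext refl_sq)
  have ha1 : a ≠ 1 := fun h => refl_e2 (by
    have h' : r = 1 := congrArg SemidirectProduct.right h
    have : refl = 1 := congrArg Subtype.val h'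
    rw [this]; exact act_one _)
  have hA2 : Nat.card (zpowers a) = 2 := by
    rw [Nat.card_zpowers]
    exact orderOf_eq_prime (by rw [pow_two, ha2]) ha1
  have comm_ok : ∀ g : L, a * g = g * a →
      ((zpowers a).subgroupOf (zpowers a ⊔ zpowers g)).IsSubnormal := by
    intro g hg
    have hle : zpowers a ⊔ zpowers g ≤ centralizer ((zpowers a : Subgroup L) : Set L) := by
      rw [zpowers_eq_closure a, centralizer_closure, ← zpowers_eq_closure a]
      refine sup_le (zpowers_le.2 ?_) (zpowers_le.2 ?_) <;>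
        (rw [mem_centralizer_iff]; intro z hz; rw [Set.mem_singleton_iff.1 hz])
      exact hg
    refine Subgroup.Normal.isSubnormal ⟨fun x hx y => ?_⟩
    rw [mem_subgroupOf] at hx ⊢
    rw [Subgroup.coe_mul, Subgroup.coe_mul, Subgroup.coe_inv,
      ← mem_centralizer_iff.1 (hle y.2) _ hx, mul_inv_cancel_right]
    exact hx
  refine ⟨L, inferInstance, inferInstance, zpowers a, ?_, hA2, ?_, ?_⟩
  · refine CfsgLib.FgsTwoPrime.isSolvable_of_two_primes Nat.prime_two (by norm_num : Nat.Prime 3)
      (by norm_num) fun q hq hd => ?_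
    rw [SemidirectProduct.card, Nat.card_congr Multiplicative.toAdd, card_V] at hd
    obtain ⟨k, hk⟩ := IsPGroup.iff_card.1 hH2
    rw [hk, show 9 = 3 ^ 2 by norm_num] at hd
    rcases hq.dvd_mul.1 hd with h | h
    · exact Or.inr ((Nat.prime_dvd_prime_iff_eq hq (by norm_num)).1 (hq.dvd_of_dvd_pow h))
    · exact Or.inl ((Nat.prime_dvd_prime_iff_eq hq Nat.prime_two).1 (hq.dvd_of_dvd_pow h))
  · intro c
    obtain ⟨v, h, rfl⟩ : ∃ v h, mk v h = c := ⟨Multiplicative.toAdd c.left, c.right, rfl⟩
    by_cases hfix : ∀ u : V, act (h : GL3) u = u → u = 0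
    · have hsurj : Function.Surjective fun u : V => act (h : GL3) u - u := by
        refine Finite.surjective_of_injective fun u u' e => sub_eq_zero.1 (hfix _ ?_)
        rw [act_sub]
        exact sub_eq_sub_iff_sub_eq_sub.1 e
      obtain ⟨w, hw⟩ := hsurj v
      refine ⟨mk 0 h, isConj_iff.2 ⟨mk w 1, ?_⟩, ?_⟩
      · rw [hconj]
        simp only [one_mul, inv_one, mul_one, Subgroup.coe_one, act_one]
        congr 1
        rw [← hw]
        funext i
        simp only [Pi.add_apply, Pi.sub_apply, Pi.zero_apply]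
        ring
      · let R : Subgroup L := (SemidirectProduct.inr : H →* L).range
        have hle : zpowers a ⊔ zpowers (mk 0 h) ≤ R :=
          sup_le (zpowers_le.2 ⟨r, rfl⟩) (zpowers_le.2 ⟨h, rfl⟩)
        have hR : IsPGroup 2 R :=
          hH2.of_equiv (MonoidHom.ofInjective (SemidirectProduct.inr_injective (φ := ψ)))
        haveI : Group.IsNilpotent (zpowers a ⊔ zpowers (mk 0 h) : Subgroup L) :=
          (hR.to_le hle).isNilpotent
        exact CfsgLib.Core.isSubnormal_of_isNilpotent _
    · push Not at hfix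
      obtain ⟨u, hu, hu0⟩ := hfix
      obtain ⟨k, hk, hku⟩ := htr u hu0
      set k' : H := ⟨k, hk⟩
      have hfix' : act ((k' * h * k'⁻¹ : H) : GL3) e1 = e1 := by
        rw [← hku, Subgroup.coe_mul, Subgroup.coe_mul, Subgroup.coe_inv, ← act_mul]
        change act (k * (h : GL3) * k⁻¹ * k) u = act k u
        rw [inv_mul_cancel_right, act_mul, hu]
      set v1 := act k v with hv1
      have hstep : IsConj (mk v h) (mk v1 (k' * h * k'⁻¹)) := isConj_iff.2 ⟨mk 0 k', by
        rw [hconj, act_zero, sub_zero, zero_add]⟩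
      rcases hst _ (k' * h * k'⁻¹).2 hfix' with h1 | h1
      · have h1' : k' * h * k'⁻¹ = 1 := Subtype.ext h1
        rw [h1'] at hstep
        by_cases hv : v1 = 0
        · exact ⟨_, hstep, comm_ok _ (by
            rw [hv, ha, hmk, hmk, act_zero, act_zero, one_mul, mul_one])⟩
        · obtain ⟨k2, hk2, hk2v⟩ := htr v1 hv
          refine ⟨mk e1 1, hstep.trans (isConj_iff.2 ⟨mk 0 ⟨k2, hk2⟩, ?_⟩), comm_ok _ ?_⟩
          · rw [hconj, act_zero, sub_zero, zero_add, mul_one, mul_inv_cancel]
            exact congrArg (fun z => mk z 1) hk2v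
          · rw [ha, hmk, hmk, one_mul, mul_one, Subgroup.coe_one, act_one, add_zero]
            congr 1
            rw [zero_add]
            exact refl_e1
      · have h1' : k' * h * k'⁻¹ = r := Subtype.ext h1
        rw [h1'] at hstep
        refine ⟨mk (v1 + v1 - act refl v1) r, hstep.trans (isConj_iff.2 ⟨mk v1 1, ?_⟩), comm_ok _ ?_⟩
        · rw [hconj]
          simp only [one_mul, inv_one, mul_one, Subgroup.coe_one, act_one]
          rfl
        · rw [ha, hmk, hmk, act_zero, add_zero, zero_add]
          congr 1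
          change act refl (v1 + v1 - act refl v1) = _
          rw [act_sub, act_add, ← act_mul refl refl v1, refl_sq, act_one]
          funext i
          simp only [Pi.sub_apply, Pi.add_apply]
          generalize (act refl v1) i = y
          generalize v1 i = z
          revert y z
          decide
  · intro N hN hN2 hle
    set u : L := mk ![0, 1] 1 with hu
    have haN : a ∈ N := hle (mem_zpowers a)
    have hc : a * u * a⁻¹ * u⁻¹ ∈ N := by
      have := mul_mem haN (hN.conj_mem _ (inv_mem haN) u)
      simpa [mul_assoc] using this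
    have he : a * u * a⁻¹ * u⁻¹ = mk (act refl ![0, 1] - ![0, 1]) 1 := by
      rw [ha, hu, hconj, mul_one, mul_inv_cancel, hinv, hmk]
      simp only [Subgroup.coe_one, act_one, inv_one, zero_add, sub_zero, sub_eq_add_neg, mul_one]
      rw [neg_zero, add_zero]
    rw [he] at hc
    set d := act refl ![0, 1] - ![0, 1] with hd
    have hd0 : d ≠ 0 := sub_ne_zero.2 refl_e2
    obtain ⟨k, hk⟩ := IsPGroup.iff_orderOf.1 hN2 ⟨_, hc⟩
    rw [Subgroup.orderOf_mk] at hk
    have h3 : (mk d 1) ^ 3 = 1 := by
      rw [pow_succ, pow_two, hmk, hmk, Subgroup.coe_mul, Subgroup.coe_one, one_mul, act_one,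
        one_mul, one_mul]
      have : d + d + d = 0 := by
        funext i
        simp only [Pi.add_apply, Pi.zero_apply]
        generalize d i = z
        revert z
        decide
      rw [this]
      rfl
    haveI : Fact (Nat.Prime 3) := ⟨by norm_num⟩
    have h3o : orderOf (mk d 1) = 3 := orderOf_eq_prime h3 fun h => hd0
      (congrArg (fun x : L => Multiplicative.toAdd x.left) h)
    rw [h3o] at hk
    rcases Nat.eq_zero_or_pos k with rfl | hk'
    · norm_num at hk
    · have : 2 ∣ 3 := hk ▸ dvd_pow_self 2 hk'.ne'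
      norm_num at this

end CfsgLib.FgsSubnormalTwoExample
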