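import Cfsg.Agent.Lib.CoreSubnormal
import Cfsg.Agent.Lib.CoreBasic
import Mathlib.GroupTheory.Sylow

/-!
# Subnormalizers of p-subgroups
-/

set_option autoImplicit false

universe u

namespace CfsgLib.Subnormalizer

variable {G : Type u} [Group G] [Finite G] {p : ℕ} [hp : Fact p.Prime]

/-- The local core of a subgroup. -/
def localCore (p : ℕ) (R : Subgroup G) : Subgroup G :=
  (Cfsg.pCore p (Subgroup.normalizer (R : Set G))).map (Subgroup.normalizer (R : Set G)).subtype

theorem le_localCore {R : Subgroup G} (hR : IsPGroup p R) : R ≤ localCore p R := by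
  haveI : (R.subgroupOf (Subgroup.normalizer (R : Set G))).Normal := inferInstance
  have h := CfsgLib.Core.le_pCore (p := p) this
    (hR.comap_of_injective (Subgroup.normalizer (R : Set G)).subtype (Subgroup.subtype_injective _))
  intro x hx
  exact ⟨⟨x, Subgroup.le_normalizer hx⟩, h hx, rfl⟩

theorem isPGroup_localCore (R : Subgroup G) : IsPGroup p (localCore p R) :=
  (CfsgLib.Core.isPGroup_pCore p).map _

theorem normalizer_le_localCore (R : Subgroup G) :
    Subgroup.normalizer (R : Set G) ≤ Subgroup.normalizer (localCore p R : Set G) := by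
  intro g hg
  haveI := CfsgLib.Core.normal_pCore (G := Subgroup.normalizer (R : Set G)) p
  exact Subgroup.le_normalizer_map _ ⟨⟨g, hg⟩, (Subgroup.normalizer_eq_top (Cfsg.pCore p (Subgroup.normalizer (R : Set G)))).ge (Subgroup.mem_top _), rfl⟩

theorem normalizes_of_subnormal {H : Subgroup G} (hH : IsPGroup p H) {g : G}
    (h : (H.subgroupOf (H ⊔ Subgroup.zpowers g)).IsSubnormal) :
    ∃ R : Subgroup G, H ≤ R ∧ localCore p R = R ∧ g ∈ Subgroup.normalizer (R : Set G) := by
  set K := H ⊔ Subgroup.zpowers g with hK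
  haveI := CfsgLib.Core.normal_pCore (G := K) p
  obtain ⟨R, ⟨hHR, hRp, hgR⟩, hmax⟩ := Set.exists_max_image
    {R : Subgroup G | H ≤ R ∧ IsPGroup p R ∧ g ∈ Subgroup.normalizer (R : Set G)} (fun R => Nat.card R)
    (Set.toFinite _) ⟨(Cfsg.pCore p K).map K.subtype, fun x hx =>
      ⟨⟨x, Subgroup.mem_sup_left hx⟩, CfsgLib.Core.le_pCore_of_isSubnormal h
        (hH.comap_of_injective K.subtype K.subtype_injective) hx, rfl⟩,
      (CfsgLib.Core.isPGroup_pCore p).map _,
      Subgroup.le_normalizer_map _ ⟨⟨g, Subgroup.mem_sup_right (Subgroup.mem_zpowers g)⟩, by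
        rw [Subgroup.normalizer_eq_top]; exact Subgroup.mem_top _, rfl⟩⟩
  refine ⟨R, hHR, ?_, hgR⟩
  exact (Subgroup.eq_of_le_of_card_ge (le_localCore hRp) (hmax _
    ⟨hHR.trans (le_localCore hRp), isPGroup_localCore R, normalizer_le_localCore R hgR⟩)).symm

theorem subnormal_of_normalizes {H R : Subgroup G} (hR : IsPGroup p R) (hHR : H ≤ R) {g : G}
    (hg : g ∈ Subgroup.normalizer (R : Set G)) :
    (H.subgroupOf (H ⊔ Subgroup.zpowers g)).IsSubnormal := by
  have hN : H ⊔ Subgroup.zpowers g ≤ Subgroup.normalizer (R : Set G) :=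
    sup_le (hHR.trans Subgroup.le_normalizer) (Subgroup.zpowers_le.2 hg)
  refine CfsgLib.Core.isSubnormal_subgroupOf_mono hN
    (CfsgLib.Core.isSubnormal_subgroupOf_trans hHR Subgroup.le_normalizer ?_ ?_)
  · haveI := hR.isNilpotent
    exact CfsgLib.Core.isSubnormal_of_isNilpotent _
  · exact (inferInstance : (R.subgroupOf (Subgroup.normalizer (R : Set G))).Normal).isSubnormal

/-- The intersection of the Sylow subgroups above `H`. -/
def sylowClosure (p : ℕ) (H : Subgroup G) : Subgroup G :=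
  sInf {K : Subgroup G | ∃ Q : Sylow p G, H ≤ (Q : Subgroup G) ∧ K = (Q : Subgroup G)}

theorem le_sylowClosure (H : Subgroup G) : H ≤ sylowClosure p H :=
  le_sInf fun K hK => by obtain ⟨Q, hQ, rfl⟩ := hK; exact hQ

theorem isPGroup_sylowClosure {H : Subgroup G} (hH : IsPGroup p H) : IsPGroup p (sylowClosure p H) := by
  obtain ⟨Q, hQ⟩ := hH.exists_le_sylow
  exact Q.2.to_le (sInf_le ⟨Q, hQ, rfl⟩)

theorem sylowClosure_le {H R : Subgroup G} (hHR : H ≤ R) (hR : localCore p R = R) :
    sylowClosure p H ≤ R := by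
  have hRp : IsPGroup p R := hR ▸ isPGroup_localCore R
  set N := Subgroup.normalizer (R : Set G) with hN
  set X := sylowClosure p R with hX
  have hHX : sylowClosure p H ≤ X := le_sInf fun K hK => by
    obtain ⟨Q, hQ, rfl⟩ := hK
    exact sInf_le ⟨Q, hHR.trans hQ, rfl⟩
  refine hHX.trans ?_
  have hXp : IsPGroup p X := isPGroup_sylowClosure hRp
  have hNX : N ≤ Subgroup.normalizer (X : Set G) := by
    have key : ∀ y ∈ N, ∀ x ∈ X, y * x * y⁻¹ ∈ X := by
      intro y hy x hx
      rw [hX, sylowClosure, Subgroup.mem_sInf]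
      rintro K ⟨Q, hQ, rfl⟩
      have hQ' : R ≤ ((y⁻¹ • Q : Sylow p G) : Subgroup G) := by
        intro r hr
        rw [Sylow.coe_subgroup_smul]
        refine ⟨y * r * y⁻¹, hQ ((Subgroup.mem_normalizer_iff.1 hy r).1 hr), ?_⟩
        simp [mul_assoc]
      have hmem : x ∈ ((y⁻¹ • Q : Sylow p G) : Subgroup G) :=
        (Subgroup.mem_sInf.1 hx) _ ⟨_, hQ', rfl⟩
      rw [Sylow.coe_subgroup_smul] at hmem
      obtain ⟨q, hq, rfl⟩ := hmem
      show y * (MulAut.conj y⁻¹ • q) * y⁻¹ ∈ (Q : Subgroup G)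
      have e : MulAut.conj y⁻¹ • q = y⁻¹ * q * y := by simp [MulAut.smul_def, mul_assoc]
      rw [e]
      rwa [show y * (y⁻¹ * q * y) * y⁻¹ = q by group]
    intro y hy
    rw [Subgroup.mem_normalizer_iff]
    intro x
    refine ⟨key y hy x, fun h => ?_⟩
    simpa [mul_assoc] using key y⁻¹ (inv_mem hy) _ h
  have hle : X ⊓ N ≤ R := by
    conv_rhs => rw [← hR]
    have hn : ((X ⊓ N).subgroupOf N).Normal := (Subgroup.normal_subgroupOf_iff_le_normalizer inf_le_right).2
      (fun y hy => by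
        rw [Subgroup.mem_normalizer_iff]
        intro x
        exact and_congr (Subgroup.mem_normalizer_iff.1 (hNX hy) x)
          (Subgroup.mem_normalizer_iff.1 (Subgroup.le_normalizer hy) x))
    have h := CfsgLib.Core.le_pCore (p := p) hn
      ((hXp.to_le inf_le_left).comap_of_injective N.subtype N.subtype_injective)
    intro x hx
    exact ⟨⟨x, hx.2⟩, h hx, rfl⟩
  by_contra hne
  haveI := hXp.isNilpotent
  have hlt : R.subgroupOf X < ⊤ := lt_top_iff_ne_top.2 fun e => hne (Subgroup.subgroupOf_eq_top.1 e)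
  obtain ⟨w, hw, hw'⟩ := SetLike.exists_of_lt (Group.normalizerCondition_of_isNilpotent (G := X) _ hlt)
  rw [← Subgroup.subgroupOf_normalizer_eq (le_sylowClosure R)] at hw
  exact hw' (hle ⟨w.2, hw⟩)

end CfsgLib.Subnormalizer
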