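import Cfsg.Prelude.Def_SolvableStructure
import Cfsg.Agent.Lib.CoreBasic
import Mathlib.GroupTheory.Nilpotent
import Mathlib.GroupTheory.Sylow
import Mathlib.GroupTheory.Solvable
import Mathlib.GroupTheory.SpecificGroups.Cyclic

/-!
Supersolvable groups: quotients, normality of the Sylow subgroup for the largest prime.
-/

set_option autoImplicit false

namespace CfsgLib.Super

universe u v

variable {G : Type u} [Group G]

theorem isSupersolvable_of_surjective {G' : Type v} [Group G'] (f : G →* G')
    (hf : Function.Surjective f) (h : Cfsg.IsSupersolvable G) : Cfsg.IsSupersolvable G' := by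
  obtain ⟨n, H, h0, hl, hn, hs⟩ := h
  refine ⟨n, fun i => (H i).map f, ?_, ?_, fun i => (hn i).map f hf, fun i => ?_⟩
  · simp [h0]
  · simp [hl, Subgroup.map_top_of_surjective f hf]
  · obtain ⟨g, hg⟩ := hs i
    exact ⟨f g, by simp [hg, Subgroup.map_sup, MonoidHom.map_zpowers]⟩

theorem exists_normal_prime_order [Finite G] [Nontrivial G] (h : Cfsg.IsSupersolvable G) :
    ∃ N : Subgroup G, N.Normal ∧ (Nat.card N).Prime := by
  obtain ⟨n, H, h0, hl, hn, hs⟩ := h
  have key : ∀ i, H i ≠ ⊥ → ∃ N : Subgroup G, N.Normal ∧ (Nat.card N).Prime := by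
    intro i
    induction i using Fin.induction with
    | zero => exact fun h => absurd h0 h
    | succ i ih =>
      intro hi
      by_cases hc : H i.castSucc = ⊥
      · obtain ⟨g, hg⟩ := hs i
        rw [hc, bot_sup_eq] at hg
        haveI : (Subgroup.zpowers g).Normal := hg ▸ hn i.succ
        set C := Subgroup.zpowers g with hC
        have hne : Nat.card C ≠ 1 := by
          rw [Ne, ← Subgroup.eq_bot_iff_card, ← hg]; exact hi
        obtain ⟨r, hr, hdvd⟩ := Nat.exists_prime_and_dvd hne
        haveI := Fact.mk hr
        obtain ⟨x, hx⟩ := exists_prime_orderOf_dvd_card' (G := C) r hdvd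
        set K : Subgroup C := Subgroup.zpowers x with hK
        have hcardK : Nat.card K = r := by rw [hK, Nat.card_zpowers, hx]
        have hchar : K.Characteristic := by
          refine Subgroup.characteristic_iff_map_eq.mpr fun e => ?_
          obtain ⟨c, hcgen⟩ := IsCyclic.exists_generator (α := C)
          obtain ⟨m, hm⟩ := Subgroup.mem_zpowers_iff.mp (hcgen (e c))
          refine Subgroup.eq_of_le_of_card_ge ?_ ?_
          · rintro _ ⟨y, hy, rfl⟩
            obtain ⟨j, rfl⟩ := Subgroup.mem_zpowers_iff.mp (hcgen y)
            show e (c ^ j) ∈ K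
            rw [map_zpow, ← hm, ← zpow_mul, mul_comm, zpow_mul]
            exact K.zpow_mem hy m
          · rw [Subgroup.card_map_of_injective e.injective]
        exact ⟨K.map C.subtype, inferInstance, by
          rwa [Subgroup.card_map_of_injective C.subtype_injective, hcardK]⟩
      · exact ih hc
  refine key (Fin.last n) ?_
  rw [hl]; exact top_ne_bot

/-- In a supersolvable group the Sylow subgroup for a prime at least as large as every prime
divisor of the order is normal. -/
theorem sylow_normal_of_max [Finite G] (h : Cfsg.IsSupersolvable G) (p : ℕ) [hp : Fact p.Prime]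
    (hmax : ∀ q : ℕ, q.Prime → q ∣ Nat.card G → q ≤ p) (P : Sylow p G) :
    (P : Subgroup G).Normal := by
  induction hn : Nat.card G using Nat.strong_induction_on generalizing G with
  | _ n ih =>
    rcases subsingleton_or_nontrivial G with hs | hs
    · exact ⟨fun x hx g => by rwa [Subsingleton.elim (g * x * g⁻¹) x]⟩
    obtain ⟨N, hN, hr⟩ := exists_normal_prime_order h
    haveI := hN
    set π := QuotientGroup.mk' N with hπ
    have hsurj : Function.Surjective π := QuotientGroup.mk'_surjective N
    have hlt : Nat.card (G ⧸ N) < n := by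
      have h3 := Subgroup.card_eq_card_quotient_mul_card_subgroup N
      have h2 := hr.two_le
      have h4 : 0 < Nat.card (G ⧸ N) := Nat.card_pos
      rw [← hn, h3]; nlinarith
    have hQ := ih _ hlt (G := G ⧸ N) (isSupersolvable_of_surjective π hsurj h)
      (fun q hq hd => hmax q hq (hd.trans (Subgroup.card_quotient_dvd_card N)))
      (P.mapSurjective hsurj) rfl
    haveI hM : ((P : Subgroup G) ⊔ N).Normal := by
      have h5 : (((P.mapSurjective hsurj : Sylow p (G ⧸ N)) : Subgroup (G ⧸ N)).comap π).Normal :=
        hQ.comap π
      rwa [Sylow.coe_mapSurjective, Subgroup.comap_map_eq, hπ, QuotientGroup.ker_mk'] at h5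
    have hrp : Nat.card N ≤ p := hmax _ hr N.card_subgroup_dvd_card
    rcases hrp.eq_or_lt with hrp | hrp
    · have hNp : IsPGroup p N := IsPGroup.of_card (n := 1) (by rw [pow_one]; exact hrp)
      have : (P : Subgroup G) ⊔ N = P := P.3 (P.2.to_sup_of_normal_right hNp) le_sup_left
      rwa [this] at hM
    · set M := (P : Subgroup G) ⊔ N with hMdef
      set P' := P.subtype (le_sup_left : (P : Subgroup G) ≤ M) with hP'
      have hdvd : Nat.card (Sylow p M) ∣ Nat.card N := by
        refine P'.card_dvd_index.trans ?_
        show (P : Subgroup G).relIndex M ∣ Nat.card N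
        have e1 := CfsgLib.Core.card_inf_mul_relIndex (P : Subgroup G) M
        rw [inf_of_le_left (le_sup_left : (P : Subgroup G) ≤ M)] at e1
        have e2 : Nat.card M ∣ Nat.card (P : Subgroup G) * Nat.card N := by
          rw [hMdef, ← CfsgLib.Core.card_sup_mul_card_inf (A := (P : Subgroup G)) (K := N)
            (by rw [Subgroup.normalizer_eq_top]; exact le_top)]
          exact dvd_mul_right _ _
        rw [← e1] at e2
        exact Nat.dvd_of_mul_dvd_mul_left Nat.card_pos e2
      have hone : Nat.card (Sylow p M) = 1 := by
        rcases hr.eq_one_or_self_of_dvd _ hdvd with h1 | h1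
        · exact h1
        · have h6 := card_sylow_modEq_one p M
          have h7 : 1 < Nat.card N := hr.one_lt
          rw [h1] at h6
          unfold Nat.ModEq at h6
          rw [Nat.mod_eq_of_lt hrp, Nat.mod_eq_of_lt hp.out.one_lt] at h6
          omega
      haveI : Subsingleton (Sylow p M) := (Nat.card_eq_one_iff_unique.mp hone).1
      have hPM : (P' : Subgroup M).Normal := P'.normal_of_subsingleton
      haveI hchar := P'.characteristic_of_normal hPM
      have h8 : ((P' : Subgroup M).map M.subtype).Normal := inferInstance
      rwa [Sylow.coe_subtype, Subgroup.map_subgroupOf_eq_of_le le_sup_left] at h8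

end CfsgLib.Super
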