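import Mathlib
import Cfsg.Agent.Lib.FgsSylowFew
import Cfsg.Agent.Lib.FgsSylowTwentyOneSimple
import Cfsg.Agent.Lib.CoreSZ

/-!
No group has exactly 35 Sylow 17-subgroups.
-/

set_option autoImplicit false

namespace CfsgLib.ThirtyFive

open Subgroup
open scoped Pointwise commutatorElement

universe u

theorem prime_seventeen : Nat.Prime 17 := by norm_num

local instance : Fact (Nat.Prime 17) := ⟨prime_seventeen⟩
local instance : Fact (Nat.Prime 5) := ⟨Nat.prime_five⟩
local instance : Fact (Nat.Prime 2) := ⟨Nat.prime_two⟩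

variable {G : Type u} [Group G] [Finite G]

/-- No simple group has 35 Sylow 17-subgroups of order 17. -/
theorem not_simple [IsSimpleGroup G] (h : Nat.card (Sylow 17 G) = 35) (P : Sylow 17 G)
    (hP : Nat.card (P : Subgroup G) = 17) : False := by
  classical
  haveI := Fintype.ofFinite (Sylow 17 G)
  have hna : ¬ IsMulCommutative G := by
    intro hc
    letI : CommGroup G := { ‹Group G› with mul_comm := hc.is_comm.comm }
    haveI : Unique (Sylow 17 G) := Sylow.unique_of_normal default inferInstance
    rw [Nat.card_unique] at h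
    exact absurd h (by norm_num)
  have hcardG : Nat.card (normalizer ((P : Subgroup G) : Set G)) * 35 = Nat.card G := by
    have h1 := (normalizer ((P : Subgroup G) : Set G)).card_mul_index
    rwa [CfsgLib.SmallSimple.index_normalizer P, h] at h1
  have hnc : ¬ normalizer ((P : Subgroup G) : Set G) ≤ centralizer ((P : Subgroup G) : Set G) := by
    intro hle
    rcases (inferInstance : (MonoidHom.transferSylow P hle).ker.Normal).eq_bot_or_eq_top with e | e
    · have h1 := (MonoidHom.ker_transferSylow_isComplement' P hle).card_mul_card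
      rw [e, Subgroup.card_bot, one_mul, hP] at h1
      have := Nat.card_pos (α := normalizer ((P : Subgroup G) : Set G))
      omega
    · have h1 := MonoidHom.not_dvd_card_ker_transferSylow P hle
      rw [e, Subgroup.card_top] at h1
      exact h1 (hP ▸ Subgroup.card_subgroup_dvd_card (P : Subgroup G))
  have hinv : ∀ t : G, t ^ 2 = 1 → (∀ x ∈ (P : Subgroup G), x * t = t * x) → t = 1 := by
    intro t ht hc
    by_contra ht1
    set f := MulAction.toPermHom G (Sylow 17 G) with hf
    have hf1 : f t ≠ 1 := by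
      intro e
      rcases (inferInstance : f.ker.Normal).eq_bot_or_eq_top with e2 | e2
      · exact ht1 (Subgroup.mem_bot.mp (e2 ▸ MonoidHom.mem_ker.mpr e))
      · haveI : Subsingleton (Sylow 17 G) := ⟨fun a b => by
          obtain ⟨x, hx⟩ := MulAction.exists_smul_eq G a b
          rw [← hx]
          exact (Equiv.Perm.ext_iff.mp (MonoidHom.mem_ker.mp (e2.symm ▸ Subgroup.mem_top x)) a).symm⟩
        have := Finite.card_le_one_iff_subsingleton.mpr ‹Subsingleton (Sylow 17 G)›
        omega
    letI : MulAction (P : Subgroup G) {R : Sylow 17 G // t • R = R} :=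
      { smul := fun x R => ⟨(x : G) • R.1, by rw [smul_smul, ← hc x x.2, ← smul_smul, R.2]⟩
        one_smul := fun R => Subtype.ext (one_smul G R.1)
        mul_smul := fun a b R => Subtype.ext (mul_smul (a : G) (b : G) R.1) }
    have htP : t • P = P := by
      rw [Sylow.smul_eq_iff_mem_normalizer]
      refine mem_normalizer_iff.mpr ?_
      intro y
      refine ⟨fun hy => ?_, fun hy => ?_⟩
      · rw [← hc y hy, mul_inv_cancel_right]; exact hy
      · have e := hc _ hy
        rw [inv_mul_cancel_right] at e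
        rwa [← mul_left_cancel e] at hy
    have hmod := P.2.card_modEq_card_fixedPoints {R : Sylow 17 G // t • R = R}
    have hfix : Nat.card (MulAction.fixedPoints (P : Subgroup G) {R : Sylow 17 G // t • R = R}) = 1 := by
      rw [Nat.card_eq_one_iff_unique]
      refine ⟨⟨fun a b => Subtype.ext (Subtype.ext ?_)⟩, ⟨⟨⟨P, htP⟩, fun x => Subtype.ext
        (Sylow.smul_eq_iff_mem_normalizer.mpr (Subgroup.le_normalizer x.2))⟩⟩⟩
      have key : ∀ z : MulAction.fixedPoints (P : Subgroup G) {R : Sylow 17 G // t • R = R}, z.1.1 = P := by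
        intro z
        refine Sylow.ext (Subgroup.eq_of_le_of_card_ge ?_ (FewSylow.card_eq z.1.1 P).le).symm
        intro x hx
        have e : x • z.1.1 = z.1.1 := congrArg Subtype.val (z.2 ⟨x, hx⟩)
        exact ((P.2.inf_normalizer_sylow z.1.1).le ⟨hx, Sylow.smul_eq_iff_mem_normalizer.mp e⟩).2
      rw [key a, key b]
    rw [hfix] at hmod
    have hsupp := CfsgLib.TwentyOne.support_add_fixed (f t)
    rw [← Nat.card_eq_fintype_card (α := Sylow 17 G), h] at hsupp
    have hF : Nat.card {x : Sylow 17 G // f t x = x} = Nat.card {R : Sylow 17 G // t • R = R} := rfl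
    rw [hF] at hsupp
    have hmod' : Nat.card {R : Sylow 17 G // t • R = R} % 17 = 1 := hmod
    have hs0 : (f t).support.card ≠ 0 := fun e => hf1 (Equiv.Perm.support_eq_empty_iff.mp (Finset.card_eq_zero.mp e))
    have ht2 : f t ^ 2 = 1 := by rw [← map_pow, ht, map_one]
    obtain ⟨n, hn⟩ := Equiv.Perm.cycleType_prime_order (σ := f t) (by rw [orderOf_eq_prime ht2 hf1]; exact Nat.prime_two)
    rw [orderOf_eq_prime ht2 hf1] at hn
    have hsum := (f t).sum_cycleType
    rw [hn, Multiset.sum_replicate, smul_eq_mul] at hsum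
    have hs := CfsgLib.TwentyOne.sign_involution ht2 hf1 (k := 17) (by omega) ⟨8, rfl⟩
    rw [show Equiv.Perm.sign (f t) = 1 from DFunLike.congr_fun
      (CfsgLib.Perm.sign_comp_eq_one hna (Equiv.Perm.sign.comp f)) t] at hs
    exact absurd hs (by decide)
  haveI : IsCyclic (P : Subgroup G) := isCyclic_of_prime_card hP
  set N := normalizer ((P : Subgroup G) : Set G) with hN
  set ψ := (P : Subgroup G).normalizerMonoidHom with hψ
  obtain ⟨S⟩ : Nonempty (Sylow 2 N) := inferInstance
  have hinj : Function.Injective (ψ.comp (S : Subgroup N).subtype) := by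
    rw [← MonoidHom.ker_eq_bot_iff, eq_bot_iff]
    intro s hs
    rw [Subgroup.mem_bot]
    by_contra hs1
    have h2 : 2 ∣ Nat.card (ψ.comp (S : Subgroup N).subtype).ker := by
      obtain ⟨k, hk⟩ := (S.2.to_subgroup (ψ.comp (S : Subgroup N).subtype).ker).exists_card_eq
      rw [hk]
      refine dvd_pow_self 2 fun e => ?_
      rw [e, pow_zero, Subgroup.card_eq_one] at hk
      exact hs1 (Subgroup.mem_bot.mp (hk ▸ hs))
    obtain ⟨u, hu⟩ := exists_prime_orderOf_dvd_card' (G := (ψ.comp (S : Subgroup N).subtype).ker) 2 h2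
    have huc : ((u.1 : N) : G) ∈ centralizer ((P : Subgroup G) : Set G) := by
      have := u.2
      rw [MonoidHom.mem_ker] at this
      have h3 : (u.1 : N) ∈ ψ.ker := MonoidHom.mem_ker.mpr this
      exact Subgroup.mem_subgroupOf.mp ((SetLike.ext_iff.mp (Subgroup.normalizerMonoidHom_ker (P : Subgroup G)) _).mp h3)
    have hord : orderOf ((u.1 : N) : G) = 2 := by
      rw [Subgroup.orderOf_coe, Subgroup.orderOf_coe, Subgroup.orderOf_coe, hu]
    have h1 := hinv _ (Eq.trans (congrArg _ hord.symm) (pow_orderOf_eq_one _)) fun x hx => huc x hx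
    rw [h1, orderOf_one] at hord
    exact absurd hord (by norm_num)
  haveI : IsCyclic (MulAut (P : Subgroup G)) := by
    haveI : IsCyclic (ZMod (Nat.card (P : Subgroup G)))ˣ := by
      rw [hP]; haveI := Fact.mk prime_seventeen; infer_instance
    exact (IsCyclic.mulAutMulEquiv (P : Subgroup G)).symm.isCyclic.mp inferInstance
  haveI : IsCyclic (S : Subgroup N) := isCyclic_of_injective _ hinj
  set Sg := (S : Subgroup N).map N.subtype with hSg
  have hSgc : Nat.card Sg = Nat.card (S : Subgroup N) := Subgroup.card_map_of_injective N.subtype_injective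
  haveI : IsCyclic Sg :=
    ((S : Subgroup N).equivMapOfInjective N.subtype N.subtype_injective).isCyclic.mp inferInstance
  have hmult : Nat.card Sg = 2 ^ (Nat.card G).factorization 2 := by
    rw [hSgc, S.card_eq_multiplicity, ← hcardG, Nat.factorization_mul Nat.card_pos.ne' (by norm_num),
      Finsupp.add_apply, Nat.factorization_eq_zero_of_not_dvd (show ¬ 2 ∣ 35 by norm_num), add_zero]
  by_cases h2 : 2 ∣ Nat.card G
  · set T := Sylow.ofCard Sg hmult with hT
    haveI : IsCyclic (T : Subgroup G) := ‹IsCyclic Sg›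
    have hmin : (Nat.card G).minFac = 2 := (Nat.minFac_eq_two_iff _).mpr h2
    have hle := IsCyclic.normalizer_le_centralizer (P := T) hmin inferInstance
    rcases (inferInstance : (MonoidHom.transferSylow T hle).ker.Normal).eq_bot_or_eq_top with e | e
    · have h1 := (MonoidHom.ker_transferSylow_isComplement' T hle).card_mul_card
      rw [e, Subgroup.card_bot, one_mul] at h1
      refine hna ⟨⟨?_⟩⟩
      haveI : IsCyclic G := by
        have e2 : (T : Subgroup G) = ⊤ := Subgroup.eq_top_of_card_eq _ h1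
        have : IsCyclic (⊤ : Subgroup G) := e2 ▸ ‹IsCyclic (T : Subgroup G)›
        exact Subgroup.topEquiv.isCyclic.mp this
      exact (IsCyclic.commGroup (α := G)).mul_comm
    · have h1 := MonoidHom.not_dvd_card_ker_transferSylow T hle
      rw [e, Subgroup.card_top] at h1
      exact h1 h2
  · refine hnc fun n hn => ?_
    have h3 : (⟨n, hn⟩ : N) ∈ ψ.ker := by
      rw [MonoidHom.mem_ker]
      have hodd : ¬ 2 ∣ orderOf (⟨n, hn⟩ : N) := fun e => h2 (e.trans ((_root_.orderOf_dvd_natCard _).trans
        (Subgroup.card_subgroup_dvd_card N)))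
      have hd1 := orderOf_map_dvd ψ (⟨n, hn⟩ : N)
      have hd2 := _root_.orderOf_dvd_natCard (ψ (⟨n, hn⟩ : N))
      rw [IsCyclic.card_mulAut, hP, Nat.totient_prime prime_seventeen] at hd2
      obtain ⟨j, -, hj⟩ := (Nat.dvd_prime_pow Nat.prime_two).mp (show _ ∣ 2 ^ 4 from hd2)
      rcases j with _ | j
      · exact orderOf_eq_one_iff.mp (by rw [hj, pow_zero])
      · exact absurd ((hj ▸ dvd_pow_self 2 j.succ_ne_zero).trans hd1) hodd
    rw [hψ, Subgroup.normalizerMonoidHom_ker] at h3
    exact h3

/-- A subgroup containing every Sylow subgroup has the same Sylow subgroups. -/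
theorem card_sylow_of_all_le {M : Subgroup G} (hM : ∀ P : Sylow 17 G, (P : Subgroup G) ≤ M) :
    Nat.card (Sylow 17 M) = Nat.card (Sylow 17 G) := by
  refine (Nat.card_eq_of_bijective (fun P : Sylow 17 G => P.subtype (hM P))
    ⟨fun P Q e => Sylow.subtype_injective e, fun Q => ?_⟩).symm
  obtain ⟨P, hP⟩ := (Q.2.map M.subtype).exists_le_sylow
  refine ⟨P, Sylow.ext (Q.is_maximal' (P.subtype (hM P)).2 ?_)⟩
  intro x hx
  exact hP ⟨x, hx, rfl⟩

/-- The coprime case: a group `N P` with `|P| = 5` has no 35 Sylow 17-subgroups. -/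
theorem coprime_case (h : Nat.card (Sylow 17 G) = 35) (P : Sylow 17 G) (hP : Nat.card (P : Subgroup G) = 17)
    (N : Subgroup G) [N.Normal] (hN : ¬ 17 ∣ Nat.card N) (htop : (P : Subgroup G) ⊔ N = ⊤) : False := by
  classical
  set C := N ⊓ normalizer ((P : Subgroup G) : Set G) with hC
  have hcop : (Nat.card (P : Subgroup G)).Coprime (Nat.card N) := by
    rw [hP]; exact (prime_seventeen.coprime_iff_not_dvd).mpr hN
  have hd : (P : Subgroup G) ⊓ N = ⊥ := CfsgLib.Core.inf_eq_bot_of_coprime hcop
  have hnorm : ∀ K : Subgroup G, normalizer ((P : Subgroup G) : Set G) ⊓ N = C := fun _ => inf_comm _ _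
  have hPN : (P : Subgroup G) ≤ normalizer (N : Set G) := le_top.trans (Subgroup.normalizer_eq_top (H := N)).ge
  have hcN : Nat.card N = 35 * Nat.card C := by
    have e1 := CfsgLib.Core.card_sup_mul_card_inf hPN
    rw [hd, Subgroup.card_bot, mul_one, htop, Subgroup.card_top, hP] at e1
    have e2 := (normalizer ((P : Subgroup G) : Set G)).card_mul_index
    rw [CfsgLib.SmallSimple.index_normalizer P, h] at e2
    have hCle : C ≤ normalizer ((P : Subgroup G) : Set G) := inf_le_right
    have e3 := CfsgLib.Core.card_sup_mul_card_inf (A := C) (K := (P : Subgroup G)) hCle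
    have e4 : C ⊓ (P : Subgroup G) = ⊥ := le_bot_iff.mp ((inf_le_inf_right _ inf_le_left).trans (inf_comm N _ ▸ hd.le))
    have e5 : C ⊔ (P : Subgroup G) = normalizer ((P : Subgroup G) : Set G) := by
      refine le_antisymm (sup_le hCle Subgroup.le_normalizer) fun g hg => ?_
      obtain ⟨n, hn, a, ha, rfl⟩ := (CfsgLib.Core.mem_sup_iff_of_le_normalizer' hPN).mp
        (htop.symm ▸ Subgroup.mem_top g)
      have hnN : n ∈ normalizer ((P : Subgroup G) : Set G) := by
        have := mul_mem hg ((normalizer ((P : Subgroup G) : Set G)).inv_mem (Subgroup.le_normalizer ha))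
        rwa [mul_inv_cancel_right] at this
      exact Subgroup.mul_mem_sup ⟨hn, hnN⟩ ha
    rw [e4, Subgroup.card_bot, mul_one, e5, hP] at e3
    rw [e3] at e2
    linarith [e1, e2]
  have hCP : ∀ c ∈ C, ∀ x ∈ (P : Subgroup G), x * c = c * x := by
    intro c hc x hx
    have h1 : ⁅c, x⁆ ∈ (P : Subgroup G) ⊓ N := by
      refine ⟨?_, ?_⟩
      · rw [commutatorElement_def]; exact mul_mem ((mem_normalizer_iff.mp hc.2 x).mp hx) ((P : Subgroup G).inv_mem hx)
      · have := mul_mem hc.1 ((inferInstance : N.Normal).conj_mem c⁻¹ (N.inv_mem hc.1) x)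
        simpa [commutatorElement_def, mul_assoc] using this
    rw [hd, Subgroup.mem_bot] at h1
    exact (commutatorElement_eq_one_iff_mul_comm.mp h1).symm
  obtain ⟨R₁⟩ : Nonempty (Sylow 5 C) := inferInstance
  set U := (R₁ : Subgroup C).map C.subtype with hU
  have hUC : U ≤ C := Subgroup.map_subtype_le _
  haveI : Group.IsSolvable (P : Subgroup G) := by
    haveI : IsCyclic (P : Subgroup G) := isCyclic_of_prime_card hP
    exact Group.isSolvable_of_comm (IsCyclic.commGroup (α := (P : Subgroup G))).mul_comm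
  obtain ⟨R, hUR, hPR⟩ := CfsgLib.Core.exists_invariant_sylow_ge (A := (P : Subgroup G)) (K := N) (U := U) 5
    hPN hcop (Or.inl inferInstance) (hUC.trans inf_le_left) (R₁.2.map _) (fun x hx => by
      rw [mem_normalizer_iff]
      intro y
      refine ⟨fun hy => ?_, fun hy => ?_⟩
      · rw [hCP y (hUC hy) x hx, mul_inv_cancel_right]; exact hy
      · have e := hCP _ (hUC hy) x hx
        rw [inv_mul_cancel_right] at e
        rwa [mul_left_cancel e] at hy)
  set Rg := (R : Subgroup N).map N.subtype with hRg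
  have hRp : IsPGroup 5 Rg := R.2.map _
  letI : MulAction (P : Subgroup G) Rg :=
    { smul := fun x r => ⟨(x : G) * r * (x : G)⁻¹, (mem_normalizer_iff.mp (hPR x.2) r).mp r.2⟩
      one_smul := fun r => Subtype.ext (by show ((1 : (P : Subgroup G)) : G) * r * ((1 : (P : Subgroup G)) : G)⁻¹ = r; simp)
      mul_smul := fun a b r => Subtype.ext (by
        show ((a * b : (P : Subgroup G)) : G) * r * ((a * b : (P : Subgroup G)) : G)⁻¹ = (a : G) * ((b : G) * r * (b : G)⁻¹) * (a : G)⁻¹
        simp [mul_assoc]) }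
  have hmod := P.2.card_modEq_card_fixedPoints Rg
  have hRC : Rg ⊓ C = U := by
    refine (CfsgLib.Core.eq_of_le_of_card_le (le_inf hUR hUC) ?_).symm
    obtain ⟨T, hT⟩ := ((hRp.to_le (inf_le_left : Rg ⊓ C ≤ Rg)).of_equiv
      (Subgroup.subgroupOfEquivOfLe (inf_le_right : Rg ⊓ C ≤ C)).symm).exists_le_sylow
    rw [← Nat.card_congr (Subgroup.subgroupOfEquivOfLe (inf_le_right : Rg ⊓ C ≤ C)).toEquiv, hU,
      Subgroup.card_map_of_injective C.subtype_injective, R₁.card_eq_multiplicity, ← T.card_eq_multiplicity]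
    exact Nat.le_of_dvd Nat.card_pos (Subgroup.card_dvd_of_le hT)
  have hfix : Nat.card (MulAction.fixedPoints (P : Subgroup G) Rg) = Nat.card U := by
    refine Nat.card_eq_of_bijective (fun r => ⟨(r.1 : G), ?_⟩) ⟨fun a b e => Subtype.ext (Subtype.ext (congrArg (fun z : U => (z : G)) e)), ?_⟩
    · rw [← hRC]
      refine ⟨r.1.2, Subgroup.map_subtype_le _ r.1.2, ?_⟩
      show (r.1 : G) ∈ normalizer ((P : Subgroup G) : Set G)
      rw [mem_normalizer_iff]
      have hc : ∀ x ∈ (P : Subgroup G), x * (r.1 : G) = (r.1 : G) * x := fun x hx =>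
        mul_inv_eq_iff_eq_mul.mp (congrArg Subtype.val (r.2 ⟨x, hx⟩))
      intro y
      refine ⟨fun hy => ?_, fun hy => ?_⟩
      · rw [← hc y hy, mul_inv_cancel_right]; exact hy
      · have e := hc _ hy
        rw [inv_mul_cancel_right] at e
        rwa [← mul_left_cancel e] at hy
    · rintro ⟨z, hz⟩
      refine ⟨⟨⟨z, hUR hz⟩, fun x => Subtype.ext ?_⟩, rfl⟩
      show (x : G) * z * (x : G)⁻¹ = z
      rw [hCP z (hUC hz) x x.2, mul_inv_cancel_right]
  have hm1 : Nat.card Rg = 5 ^ (Nat.card N).factorization 5 := by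
    rw [hRg, Subgroup.card_map_of_injective N.subtype_injective, R.card_eq_multiplicity]
  have hm2 : Nat.card U = 5 ^ (Nat.card C).factorization 5 := by
    rw [hU, Subgroup.card_map_of_injective C.subtype_injective, R₁.card_eq_multiplicity]
  have hfac : (Nat.card N).factorization 5 = 1 + (Nat.card C).factorization 5 := by
    rw [hcN, Nat.factorization_mul (by norm_num) Nat.card_pos.ne', Finsupp.add_apply,
      show (35 : ℕ) = 5 * 7 from rfl, Nat.factorization_mul (by norm_num) (by norm_num), Finsupp.add_apply,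
      Nat.Prime.factorization_self Nat.prime_five,
      Nat.factorization_eq_zero_of_not_dvd (show ¬ 5 ∣ 7 by norm_num)]
  rw [hfix, hm1, hm2, hfac, pow_add, pow_one] at hmod
  have hd5 : 17 ∣ 4 * 5 ^ (Nat.card C).factorization 5 := by
    have := (Nat.modEq_iff_dvd' (by omega)).mp hmod.symm
    rwa [show 5 * 5 ^ (Nat.card C).factorization 5 - 5 ^ (Nat.card C).factorization 5 =
      4 * 5 ^ (Nat.card C).factorization 5 by omega] at this
  rcases prime_seventeen.dvd_mul.mp hd5 with e | e
  · norm_num at e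
  · exact absurd (prime_seventeen.dvd_of_dvd_pow e) (by norm_num)

/-- No finite group has exactly 35 Sylow 17-subgroups. -/
theorem main : ∀ (n : ℕ) (G : Type u) [Group G] [Finite G], Nat.card G = n → Nat.card (Sylow 17 G) ≠ 35 := by
  intro n
  induction n using Nat.strong_induction_on with
  | _ n ih =>
    intro G _ _ hn h
    classical
    haveI := Fintype.ofFinite (Sylow 17 G)
    obtain ⟨P₀, R₀, hne⟩ : ∃ P R : Sylow 17 G, R ≠ P := by
      haveI : Nontrivial (Sylow 17 G) := Finite.one_lt_card_iff_nontrivial.mp (by omega)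
      obtain ⟨a, b, hab⟩ := exists_pair_ne (Sylow 17 G)
      exact ⟨a, b, hab.symm⟩
    set D := (P₀ : Subgroup G) ⊓ R₀ with hD
    have h₂ : Nat.card (Sylow 17 G) ≤ 17 * 17 := by omega
    haveI hDn : D.Normal := FewSylow.inter_normal_top h₂ P₀ R₀ hne
    have hquot : ∀ (N : Subgroup G) [N.Normal], N ≠ ⊥ → Nat.card (Sylow 17 (G ⧸ N)) ≠ 35 := by
      intro N _ hN
      refine ih _ ?_ _ rfl
      rw [← hn, Subgroup.card_eq_card_quotient_mul_card_subgroup N]
      refine lt_mul_of_one_lt_right Nat.card_pos ?_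
      exact Finite.one_lt_card_iff_nontrivial.mpr ((Subgroup.nontrivial_iff_ne_bot N).mpr hN)
    have hsub : ∀ M : Subgroup G, M ≠ ⊤ → ¬ ∀ P : Sylow 17 G, (P : Subgroup G) ≤ M := by
      intro M hM hall
      refine ih _ ?_ M rfl ((card_sylow_of_all_le hall).trans h)
      rw [← hn]
      exact lt_of_le_of_ne (Nat.le_of_dvd Nat.card_pos (Subgroup.card_subgroup_dvd_card M))
        fun e => hM (Subgroup.eq_top_of_card_eq M e)
    by_cases hDb : D = ⊥
    swap
    · refine hquot D hDb ?_
      rw [← h]
      refine (Nat.card_eq_of_bijective (fun P : Sylow 17 G => P.mapSurjective (QuotientGroup.mk'_surjective D))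
        ⟨fun P Q e => ?_, Sylow.mapSurjective_surjective (QuotientGroup.mk'_surjective D) 17⟩).symm
      have hle : ∀ P : Sylow 17 G, D ≤ (P : Subgroup G) := fun P =>
        FewSylow.le_of_le_normalizer (P₀.2.to_le inf_le_left) P (le_top.trans (Subgroup.normalizer_eq_top (H := D)).ge)
      have e' : (P : Subgroup G).map (QuotientGroup.mk' D) = (Q : Subgroup G).map (QuotientGroup.mk' D) :=
        congrArg Sylow.toSubgroup e
      refine Sylow.ext ?_
      rw [← sup_eq_left.mpr (hle P), ← sup_eq_left.mpr (hle Q), ← QuotientGroup.ker_mk' D,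
        ← Subgroup.comap_map_eq, ← Subgroup.comap_map_eq, e']
    have hP17 : ∀ P : Sylow 17 G, Nat.card (P : Subgroup G) = 17 := fun P => by
      have h1 := FewSylow.inter_card h₂ P₀ R₀ hne
      rw [← hD, hDb, Subgroup.card_bot, one_mul] at h1
      rw [FewSylow.card_eq P P₀, ← h1]
    by_cases hs : ∀ N : Subgroup G, N.Normal → N = ⊥ ∨ N = ⊤
    · haveI : Nontrivial G := by
        by_contra hc
        rw [not_nontrivial_iff_subsingleton] at hc
        have := hP17 P₀
        rw [Nat.card_of_subsingleton (1 : (P₀ : Subgroup G))] at this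
        omega
      haveI : IsSimpleGroup G := ⟨hs⟩
      exact not_simple h P₀ (hP17 P₀)
    push Not at hs
    obtain ⟨N, hNn, hN1, hN2⟩ := hs
    haveI := hNn
    by_cases hN5 : 17 ∣ Nat.card N
    · refine hsub N hN2 fun P => ?_
      obtain ⟨x, hx⟩ := exists_prime_orderOf_dvd_card' (G := N) 17 hN5
      obtain ⟨S, hS⟩ := (IsPGroup.of_card (p := 17) (G := Subgroup.zpowers (x : G)) (n := 1)
        (by rw [Nat.card_zpowers, Subgroup.orderOf_coe, hx, pow_one])).exists_le_sylow
      have hSN : (S : Subgroup G) ≤ N := by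
        rw [← Subgroup.eq_of_le_of_card_ge hS (by rw [hP17, Nat.card_zpowers, Subgroup.orderOf_coe, hx]),
          Subgroup.zpowers_le]
        exact x.2
      obtain ⟨g, rfl⟩ := MulAction.exists_smul_eq G S P
      rintro _ ⟨y, hy, rfl⟩
      exact hNn.conj_mem y (hSN hy) g
    set f := QuotientGroup.mk' N with hf
    have hfs : Function.Surjective f := QuotientGroup.mk'_surjective N
    set Pb := P₀.mapSurjective hfs with hPb
    have hdvd : Nat.card (Sylow 17 (G ⧸ N)) ∣ 35 := by
      rw [← h, ← CfsgLib.SmallSimple.index_normalizer Pb, ← CfsgLib.SmallSimple.index_normalizer P₀]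
      refine dvd_trans (Subgroup.index_dvd_of_le ?_) ((normalizer ((P₀ : Subgroup G) : Set G)).index_map_dvd hfs)
      rw [Sylow.coe_mapSurjective]
      exact Subgroup.le_normalizer_map _
    have hmod : Nat.card (Sylow 17 (G ⧸ N)) % 17 = 1 := card_sylow_modEq_one 17 (G ⧸ N)
    have hne21 := hquot N hN1
    have hone : Nat.card (Sylow 17 (G ⧸ N)) = 1 := by
      have : Nat.card (Sylow 17 (G ⧸ N)) ∈ Nat.divisors 35 := Nat.mem_divisors.mpr ⟨hdvd, by norm_num⟩
      rw [show Nat.divisors 35 = {1, 5, 7, 35} by decide] at this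
      simp only [Finset.mem_insert, Finset.mem_singleton] at this
      omega
    haveI : Subsingleton (Sylow 17 (G ⧸ N)) := Finite.card_le_one_iff_subsingleton.mp hone.le
    haveI hPbn : (Pb : Subgroup (G ⧸ N)).Normal := Sylow.normal_of_subsingleton Pb
    set M := ((P₀ : Subgroup G) ⊔ N) with hM
    have hMn : M.Normal := by
      rw [hM, ← QuotientGroup.ker_mk' N, ← Subgroup.comap_map_eq, ← Sylow.coe_mapSurjective hfs]
      exact hPbn.comap _
    by_cases hMt : M = ⊤
    · exact coprime_case h P₀ (hP17 P₀) N hN5 hMt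
    refine hsub M hMt fun P => ?_
    obtain ⟨g, rfl⟩ := MulAction.exists_smul_eq G P₀ P
    rintro _ ⟨y, hy, rfl⟩
    exact hMn.conj_mem y (Subgroup.mem_sup_left hy) g

end CfsgLib.ThirtyFive
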