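import Mathlib
import Cfsg.Agent.Lib.FgsSylowFew

/-!
Twenty-two Sylow 3-subgroups: two Sylow subgroups meeting in index 3 meet in a normal subgroup of the group.
-/

set_option autoImplicit false

namespace CfsgLib.TwentyTwo

open Subgroup
open scoped Pointwise

universe u

local instance : Fact (Nat.Prime 3) := ⟨Nat.prime_three⟩

variable {G : Type u} [Group G] [Finite G]

/-- The intersection has index three in the first subgroup. -/
def Near (P R : Sylow 3 G) : Prop := R ≠ P ∧ Nat.card ↥((P : Subgroup G) ⊓ R) * 3 = Nat.card (P : Subgroup G)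

theorem near_symm {P R : Sylow 3 G} (h : Near P R) : Near R P := by
  refine ⟨h.1.symm, ?_⟩
  rw [inf_comm, FewSylow.card_eq R P]
  exact h.2

omit [Finite G] in
theorem relIndex_mul (P R : Sylow 3 G) :
    Nat.card ↥((P : Subgroup G) ⊓ R) * (R : Subgroup G).relIndex P = Nat.card (P : Subgroup G) := by
  rw [← Subgroup.inf_relIndex_left, Subgroup.relIndex, ← Nat.card_congr (Subgroup.subgroupOfEquivOfLe (inf_le_left :
    (P : Subgroup G) ⊓ R ≤ P)).toEquiv, Subgroup.card_mul_index]

omit [Finite G] in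
theorem relIndex_eq_orbit (P R : Sylow 3 G) :
    (R : Subgroup G).relIndex P = Nat.card (MulAction.orbit (P : Subgroup G) R) := by
  rw [Subgroup.relIndex, ← FewSylow.stabilizer_eq, MulAction.index_stabilizer]
  rfl

omit [Finite G] in
theorem smul_self_eq (P : Sylow 3 G) {x : G} (hx : x ∈ (P : Subgroup G)) : x • P = P :=
  Sylow.smul_eq_iff_mem_normalizer.mpr (Subgroup.le_normalizer hx)

theorem not_mem_orbit {P R : Sylow 3 G} (hne : R ≠ P) : P ∉ MulAction.orbit (P : Subgroup G) R := fun ⟨x, hx⟩ => by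
  refine hne ?_
  have := congrArg (fun S => (x : G)⁻¹ • S) (show (x : G) • R = P from hx)
  simp only [inv_smul_smul] at this
  rw [this, smul_self_eq P ((P : Subgroup G).inv_mem x.2)]

theorem relIndex_cases (h : Nat.card (Sylow 3 G) = 22) {P R : Sylow 3 G} (hne : R ≠ P) :
    (R : Subgroup G).relIndex P = 3 ∨ (R : Subgroup G).relIndex P = 9 := by
  obtain ⟨a, ha⟩ := (P.2).card_orbit R
  have hlt : Nat.card (MulAction.orbit (P : Subgroup G) R) < 22 := by
    rw [← h]
    exact Set.ncard_lt_card (fun e => not_mem_orbit hne (e ▸ Set.mem_univ P))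
  rw [relIndex_eq_orbit, ha]
  rw [ha] at hlt
  rcases a with _ | _ | _ | a
  · exfalso
    have h1 := relIndex_mul P R
    rw [relIndex_eq_orbit, ha, pow_zero, mul_one] at h1
    have h2 := Subgroup.eq_of_le_of_card_ge (inf_le_left : (P : Subgroup G) ⊓ R ≤ P) h1.ge
    exact hne (Sylow.ext (Subgroup.eq_of_le_of_card_ge (h2.ge.trans inf_le_right) (FewSylow.card_eq R P).le).symm)
  · exact Or.inl rfl
  · exact Or.inr rfl
  · exfalso
    have : 3 ^ 3 ≤ 3 ^ (a + 1 + 1 + 1) := Nat.pow_le_pow_right (by norm_num) (by omega)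
    omega

theorem near_iff {P R : Sylow 3 G} (hne : R ≠ P) : Near P R ↔ (R : Subgroup G).relIndex P = 3 := by
  have h1 := relIndex_mul P R
  refine ⟨fun hn => ?_, fun e => ⟨hne, by rwa [e] at h1⟩⟩
  exact Nat.eq_of_mul_eq_mul_left Nat.card_pos (h1.trans hn.2.symm)

theorem near_smul {P R : Sylow 3 G} (g : G) (hn : Near P R) : Near (g • P) (g • R) := by
  refine ⟨fun e => hn.1 (smul_left_cancel g e), ?_⟩
  rw [FewSylow.card_eq (g • P) P, ← hn.2]
  congr 1
  refine Eq.trans ?_ (Nat.card_congr ((MulAut.conj g).subgroupMap ((P : Subgroup G) ⊓ R)).toEquiv).symm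
  rw [Subgroup.map_inf _ _ _ (MulAut.conj g).injective]
  rfl

open Classical in
/-- A finset of Sylow subgroups stable under `P`, all orbits of size `q`. -/
theorem dvd_card (P : Sylow 3 G) (S : Finset (Sylow 3 G)) (q : ℕ)
    (hst : ∀ R ∈ S, ∀ x ∈ (P : Subgroup G), x • R ∈ S)
    (hq : ∀ R ∈ S, (R : Subgroup G).relIndex P = q) : q ∣ S.card := by
  haveI := Fintype.ofFinite (Sylow 3 G)
  let f : Sylow 3 G → Set (Sylow 3 G) := fun R => MulAction.orbit (P : Subgroup G) R
  rw [Finset.card_eq_sum_card_image f S]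
  refine Finset.dvd_sum fun b hb => ?_
  obtain ⟨R, hR, rfl⟩ := Finset.mem_image.mp hb
  refine dvd_of_eq ?_
  rw [← hq R hR, relIndex_eq_orbit, Nat.card_eq_fintype_card, ← Set.toFinset_card]
  congr 1
  ext γ
  rw [Set.mem_toFinset, Finset.mem_filter]
  refine ⟨fun hγ => ?_, fun hγ => MulAction.orbit_eq_iff.mp hγ.2⟩
  obtain ⟨⟨x, hx⟩, rfl⟩ := hγ
  exact ⟨hst R hR x hx, MulAction.orbit_smul (⟨x, hx⟩ : (P : Subgroup G)) R⟩

open Classical in
/-- The near neighbours. -/
noncomputable def nb [Fintype (Sylow 3 G)] (P : Sylow 3 G) : Finset (Sylow 3 G) := Finset.univ.filter (Near P)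

open Classical in
theorem mem_nb [Fintype (Sylow 3 G)] {P R : Sylow 3 G} : R ∈ nb P ↔ Near P R := by
  simp [nb]

theorem nb_card_smul [Fintype (Sylow 3 G)] (g : G) (P : Sylow 3 G) : (nb (g • P)).card = (nb P).card := by
  refine (Finset.card_bij (fun R _ => g • R) (fun R hR => mem_nb.mpr (near_smul g (mem_nb.mp hR)))
    (fun a _ b _ e => smul_left_cancel g e) fun R hR => ⟨g⁻¹ • R, mem_nb.mpr ?_, smul_inv_smul g R⟩).symm
  have := near_smul g⁻¹ (mem_nb.mp hR)
  rwa [inv_smul_smul] at this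

theorem nb_card [Fintype (Sylow 3 G)] (h : Nat.card (Sylow 3 G) = 22) (P : Sylow 3 G) :
    (nb P).card = 3 ∨ (nb P).card = 12 ∨ (nb P).card = 21 := by
  classical
  have h3 : 3 ∣ (nb P).card := dvd_card P (nb P) 3
    (fun R hR x hx => mem_nb.mpr (by
      have := near_smul x (mem_nb.mp hR)
      rwa [smul_self_eq P hx] at this))
    (fun R hR => (near_iff (mem_nb.mp hR).1).mp (mem_nb.mp hR))
  let S := (Finset.univ.erase P).filter fun R => ¬ Near P R
  have h9 : 9 ∣ S.card := dvd_card P S 9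
    (fun R hR x hx => by
      simp only [S, Finset.mem_filter, Finset.mem_erase] at hR ⊢
      refine ⟨⟨fun e => hR.1.1 (smul_left_cancel x (e.trans (smul_self_eq P hx).symm)), Finset.mem_univ _⟩, fun hn => ?_⟩
      have := near_smul x⁻¹ hn
      rw [inv_smul_smul, smul_self_eq P ((P : Subgroup G).inv_mem hx)] at this
      exact hR.2 this)
    (fun R hR => by
      simp only [S, Finset.mem_filter, Finset.mem_erase] at hR
      exact (relIndex_cases h hR.1.1).resolve_left fun e => hR.2 ((near_iff hR.1.1).mpr e))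
  have hsum : (nb P).card + S.card = 21 := by
    have e1 := Finset.card_filter_add_card_filter_not (s := Finset.univ.erase P) (Near P)
    rw [Finset.card_erase_of_mem (Finset.mem_univ P), Finset.card_univ, ← Nat.card_eq_fintype_card, h] at e1
    have e2 : (Finset.univ.erase P).filter (Near P) = nb P := by
      ext R
      rw [Finset.mem_filter, Finset.mem_erase, mem_nb]
      exact ⟨fun a => a.2, fun a => ⟨⟨a.1, Finset.mem_univ _⟩, a⟩⟩
    rw [e2] at e1
    exact e1
  omega

open Classical in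
/-- The Sylow subgroups through a given intersection. -/
noncomputable def line [Fintype (Sylow 3 G)] (D : Subgroup G) : Finset (Sylow 3 G) :=
  Finset.univ.filter fun γ : Sylow 3 G => D ≤ (γ : Subgroup G)

open Classical in
theorem mem_line [Fintype (Sylow 3 G)] {D : Subgroup G} {γ : Sylow 3 G} : γ ∈ line D ↔ D ≤ (γ : Subgroup G) := by
  simp [line]

theorem index_three_eq {γ γ' : Sylow 3 G} {E : Subgroup G} (hne : γ' ≠ γ)
    (hE : E ≤ (γ : Subgroup G) ⊓ γ') (hc : Nat.card E * 3 = Nat.card (γ : Subgroup G)) :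
    (γ : Subgroup G) ⊓ γ' = E ∧ Near γ γ' := by
  have h1 := relIndex_mul γ γ'
  have h3 : 3 ≤ (γ' : Subgroup G).relIndex γ := by
    rw [relIndex_eq_orbit]
    obtain ⟨a, ha⟩ := (γ.2).card_orbit γ'
    rw [ha]
    rcases a with _ | a
    · exfalso
      rw [relIndex_eq_orbit, ha, pow_zero, mul_one] at h1
      have h2 := Subgroup.eq_of_le_of_card_ge (inf_le_left : (γ : Subgroup G) ⊓ γ' ≤ γ) h1.ge
      exact hne (Sylow.ext (Subgroup.eq_of_le_of_card_ge (h2.ge.trans inf_le_right) (FewSylow.card_eq γ' γ).le).symm)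
    · calc 3 = 3 ^ 1 := (pow_one 3).symm
        _ ≤ 3 ^ (a + 1) := Nat.pow_le_pow_right (by norm_num) (by omega)
  have h4 : Nat.card ↥((γ : Subgroup G) ⊓ γ') * 3 ≤ Nat.card E * 3 := by
    rw [hc, ← h1]; exact Nat.mul_le_mul_left _ h3
  have e : E = (γ : Subgroup G) ⊓ γ' :=
    Subgroup.eq_of_le_of_card_ge hE (Nat.le_of_mul_le_mul_right h4 (by norm_num))
  exact ⟨e.symm, hne, by rw [← e, hc]⟩

theorem near_le_normalizer {P R : Sylow 3 G} (hn : Near P R) :
    (P : Subgroup G) ≤ normalizer (((P : Subgroup G) ⊓ R : Subgroup G) : Set G) := by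
  rw [← normal_subgroupOf_iff_le_normalizer inf_le_left]
  refine Subgroup.normal_of_index_eq_minFac_card ?_
  have h5 : ((P : Subgroup G) ⊓ R).relIndex P = 3 := by
    rw [Subgroup.inf_relIndex_left]; exact (near_iff hn.1).mp hn
  rw [Subgroup.relIndex] at h5
  rw [h5]
  obtain ⟨k, hk⟩ := P.2.exists_card_eq
  have hk0 : k ≠ 0 := fun e => by
    have := hn.2
    rw [hk, e, pow_zero] at this
    omega
  rw [hk, Nat.pow_minFac hk0, Nat.Prime.minFac_eq Nat.prime_three]

/-- Every line is the full neighbourhood of each of its points. -/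
theorem line_eq [Fintype (Sylow 3 G)] (h : Nat.card (Sylow 3 G) = 22) {P R : Sylow 3 G} (hn : Near P R)
    {Q : Sylow 3 G} (hQ : Q ∈ line ((P : Subgroup G) ⊓ R)) :
    (line ((P : Subgroup G) ⊓ R)).card = (nb P).card + 1 ∧
      (open Classical in line ((P : Subgroup G) ⊓ R) = insert Q (nb Q)) := by
  classical
  set D := (P : Subgroup G) ⊓ R with hD
  set B := line D with hB
  have hDc : ∀ γ : Sylow 3 G, Nat.card D * 3 = Nat.card (γ : Subgroup G) := fun γ => hn.2.trans (FewSylow.card_eq P γ)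
  have hpair : ∀ γ ∈ B, ∀ γ' ∈ B, γ' ≠ γ → (γ : Subgroup G) ⊓ γ' = D ∧ Near γ γ' := fun γ hγ γ' hγ' hne =>
    index_three_eq hne (le_inf (mem_line.mp hγ) (mem_line.mp hγ')) (hDc γ)
  have hPB : P ∈ B := mem_line.mpr inf_le_left
  have hRB : R ∈ B := mem_line.mpr inf_le_right
  have hsub : ∀ γ ∈ B, B.erase γ ⊆ nb γ := fun γ hγ γ' hγ' =>
    mem_nb.mpr (hpair γ hγ γ' (Finset.mem_erase.mp hγ').2 (Finset.mem_erase.mp hγ').1).2
  have hT : ∀ γ : Sylow 3 G, (nb γ).card = (nb P).card := fun γ => by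
    obtain ⟨g, rfl⟩ := MulAction.exists_smul_eq G P γ
    exact nb_card_smul g P
  have hk : 3 ∣ (B.erase P).card := dvd_card P (B.erase P) 3
    (fun γ hγ x hx => by
      obtain ⟨hne, hγB⟩ := Finset.mem_erase.mp hγ
      refine Finset.mem_erase.mpr ⟨fun e => hne (smul_left_cancel x (e.trans (smul_self_eq P hx).symm)), mem_line.mpr ?_⟩
      intro d hd
      have hxN := near_le_normalizer hn ((P : Subgroup G).inv_mem hx)
      have hd' := mem_line.mp hγB ((mem_normalizer_iff.mp hxN d).mp hd)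
      refine (Subgroup.mem_smul_pointwise_iff_exists _ _ _).mpr ⟨_, hd', ?_⟩
      show x * (x⁻¹ * d * x⁻¹⁻¹) * x⁻¹ = d
      group)
    (fun γ hγ => (near_iff (Finset.mem_erase.mp hγ).1).mp
      (hpair P hPB γ (Finset.mem_erase.mp hγ).2 (Finset.mem_erase.mp hγ).1).2)
  have hdisj : ∀ γ ∈ B, ∀ γ' ∈ B, γ ≠ γ' → Disjoint ((nb γ) \ B) ((nb γ') \ B) := by
    intro γ hγ γ' hγ' hne
    rw [Finset.disjoint_left]
    intro Y hY hY'
    rw [Finset.mem_sdiff, mem_nb] at hY hY'
    obtain ⟨d, hd, hdY⟩ : ∃ d ∈ D, d ∉ (Y : Subgroup G) := by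
      by_contra hc
      push Not at hc
      exact hY.2 (mem_line.mpr hc)
    have hne' : d • Y ≠ Y := fun e => hdY (by
      have hdN : d ∈ normalizer ((Y : Subgroup G) : Set G) := Sylow.smul_eq_iff_mem_normalizer.mp e
      have hdz : IsPGroup 3 (Subgroup.zpowers d) := γ.2.to_le (Subgroup.zpowers_le.mpr (mem_line.mp hγ hd))
      exact ((hdz.inf_normalizer_sylow Y).le ⟨Subgroup.mem_zpowers d, hdN⟩).2)
    have key : ∀ δ ∈ B, Near δ Y → (Y : Subgroup G) ⊓ (d • Y : Sylow 3 G) = (δ : Subgroup G) ⊓ Y := by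
      intro δ hδ hδY
      refine (index_three_eq hne' (le_inf inf_le_right ?_) (hδY.2.trans (FewSylow.card_eq δ Y))).1
      intro e he
      have hdN := near_le_normalizer hδY ((δ : Subgroup G).inv_mem (mem_line.mp hδ hd))
      refine (Subgroup.mem_smul_pointwise_iff_exists _ _ _).mpr ⟨_, ((mem_normalizer_iff.mp hdN e).mp he).2, ?_⟩
      show d * (d⁻¹ * e * d⁻¹⁻¹) * d⁻¹ = e
      group
    have e1 := (key γ hγ hY.1).symm.trans (key γ' hγ' hY'.1)
    have hle : (γ : Subgroup G) ⊓ Y ≤ D :=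
      (le_inf inf_le_left (e1.le.trans inf_le_left)).trans (hpair γ hγ γ' hγ' hne.symm).1.le
    have e2 : (γ : Subgroup G) ⊓ Y = D := Subgroup.eq_of_le_of_card_ge hle
      (Nat.le_of_mul_le_mul_right ((hDc γ).trans hY.1.2.symm).le (by norm_num))
    exact hY.2 (mem_line.mpr (e2.ge.trans inf_le_right))
  have hcount : B.card * ((nb P).card + 1 - B.card) + B.card ≤ 22 := by
    have e1 : (B.biUnion fun γ => nb γ \ B).card = ∑ γ ∈ B, (nb γ \ B).card := Finset.card_biUnion hdisj
    have e2 : Disjoint (B.biUnion fun γ => nb γ \ B) B := by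
      rw [Finset.disjoint_left]
      intro Y hY
      obtain ⟨γ, -, hγY⟩ := Finset.mem_biUnion.mp hY
      exact (Finset.mem_sdiff.mp hγY).2
    have e3 : ∑ γ ∈ B, ((nb P).card + 1 - B.card) ≤ ∑ γ ∈ B, (nb γ \ B).card := by
      refine Finset.sum_le_sum fun γ hγ => ?_
      have h1 := Finset.le_card_sdiff (B.erase γ) (nb γ)
      have h2 : nb γ \ B.erase γ ⊆ nb γ \ B := fun Y hY => by
        rw [Finset.mem_sdiff] at hY ⊢
        exact ⟨hY.1, fun hYB => hY.2 (Finset.mem_erase.mpr ⟨(mem_nb.mp hY.1).1, hYB⟩)⟩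
      have h3 := Finset.card_le_card h2
      have h4 := Finset.card_erase_add_one hγ
      have h5 := hT γ
      omega
    have e4 := Finset.card_le_univ ((B.biUnion fun γ => nb γ \ B) ∪ B)
    rw [Finset.card_union_of_disjoint e2, ← Nat.card_eq_fintype_card, h, e1] at e4
    rw [Finset.sum_const, smul_eq_mul] at e3
    omega
  have hkB : B.card = (nb P).card + 1 := by
    have h1 := Finset.card_le_card (hsub P hPB)
    have h4 := Finset.card_erase_add_one hPB
    have h2 : 2 ≤ B.card := by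
      have : ({P, R} : Finset (Sylow 3 G)) ⊆ B := by
        intro z hz
        rcases Finset.mem_insert.mp hz with rfl | hz
        · exact hPB
        · rw [Finset.mem_singleton.mp hz]; exact hRB
      have := Finset.card_le_card this
      rwa [Finset.card_pair hn.1.symm] at this
    obtain ⟨j, hj⟩ := hk
    rcases nb_card h P with e | e | e <;> rw [e] at hcount h1 ⊢ <;>
      (have hB22 : B.card ≤ 22 := by omega) <;> interval_cases hb : B.card <;> omega
  refine ⟨hkB, ?_⟩
  refine (Finset.eq_of_subset_of_card_le (fun γ hγ => ?_) ?_)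
  · by_cases e : γ = Q
    · rw [e]; exact Finset.mem_insert_self _ _
    · exact Finset.mem_insert_of_mem (hsub Q hQ (Finset.mem_erase.mpr ⟨e, hγ⟩))
  · refine (Finset.card_insert_le _ _).trans ?_
    rw [hT Q, hkB]

/-- An intersection of index three is normal in the whole group. -/
theorem near_normal (h : Nat.card (Sylow 3 G) = 22) {P₀ R₀ : Sylow 3 G} (hn : Near P₀ R₀) :
    ((P₀ : Subgroup G) ⊓ R₀).Normal := by
  classical
  haveI := Fintype.ofFinite (Sylow 3 G)
  have hex : ∀ P : Sylow 3 G, ∃ R, Near P R := fun P => by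
    obtain ⟨g, rfl⟩ := MulAction.exists_smul_eq G P₀ P
    exact ⟨g • R₀, near_smul g hn⟩
  let f : Sylow 3 G → Finset (Sylow 3 G) := fun γ => insert γ (nb γ)
  have hfib : ∀ b ∈ Finset.univ.image f, (Finset.univ.filter fun γ => f γ = b).card = (nb P₀).card + 1 := by
    intro b hb
    obtain ⟨P, -, rfl⟩ := Finset.mem_image.mp hb
    obtain ⟨R, hR⟩ := hex P
    have hTP : (nb P).card = (nb P₀).card := by
      obtain ⟨g, rfl⟩ := MulAction.exists_smul_eq G P₀ P
      exact nb_card_smul g P₀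
    obtain ⟨hk, hP⟩ := line_eq h hR (Q := P) (mem_line.mpr inf_le_left)
    rw [← hTP, ← hk]
    congr 1
    ext γ
    rw [Finset.mem_filter]
    refine ⟨fun e => ?_, fun hγ => ⟨Finset.mem_univ _, ?_⟩⟩
    · rw [hP]
      show γ ∈ f P
      rw [← e.2]
      exact Finset.mem_insert_self _ _
    · show insert γ (nb γ) = insert P (nb P)
      rw [← (line_eq h hR hγ).2, hP]
  have hdvd : (nb P₀).card + 1 ∣ 22 := by
    rw [← h, Nat.card_eq_fintype_card, ← Finset.card_univ, Finset.card_eq_sum_card_image f Finset.univ,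
      Finset.sum_congr rfl hfib, Finset.sum_const, smul_eq_mul]
    exact Dvd.intro_left _ rfl
  have hT : (nb P₀).card = 21 := by
    rcases nb_card h P₀ with e | e | e <;> rw [e] at hdvd <;> omega
  have hall : ∀ γ : Sylow 3 G, (P₀ : Subgroup G) ⊓ R₀ ≤ (γ : Subgroup G) := by
    intro γ
    refine mem_line.mp ?_
    have hk := (line_eq h hn (Q := P₀) (mem_line.mpr inf_le_left)).1
    rw [hT] at hk
    rw [Finset.eq_univ_of_card _ (hk.trans (by rw [← Nat.card_eq_fintype_card, h]))]
    exact Finset.mem_univ _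
  refine ⟨fun d hd g => ?_⟩
  have hle : (P₀ : Subgroup G) ⊓ R₀ ≤ ((g • P₀ : Sylow 3 G) : Subgroup G) ⊓ (g • R₀ : Sylow 3 G) :=
    le_inf (hall _) (hall _)
  have heq := Subgroup.eq_of_le_of_card_ge hle (by
    have h1 := (near_smul g hn).2
    rw [FewSylow.card_eq (g • P₀) P₀, ← hn.2] at h1
    omega)
  rw [heq]
  exact ⟨(Subgroup.mem_smul_pointwise_iff_exists _ _ _).mpr ⟨d, hd.1, rfl⟩,
    (Subgroup.mem_smul_pointwise_iff_exists _ _ _).mpr ⟨d, hd.2, rfl⟩⟩

theorem exists_near (h : Nat.card (Sylow 3 G) = 22) (P : Sylow 3 G) : ∃ R, Near P R := by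
  classical
  haveI := Fintype.ofFinite (Sylow 3 G)
  have : (nb P).Nonempty := Finset.card_pos.mp (by rcases nb_card h P with e | e | e <;> omega)
  exact ⟨_, mem_nb.mp this.choose_spec⟩

end CfsgLib.TwentyTwo
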