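import Mathlib
import Cfsg.Agent.Lib.SmallSimple
import Cfsg.Agent.Lib.FgsSylowTwentyTwo
import Cfsg.Agent.Lib.FgsSylowTwentyOneSimple

/-!
No simple group has 22 Sylow 3-subgroups of order 3.
-/

set_option autoImplicit false

namespace CfsgLib.TwentyTwo

open Subgroup
open scoped Pointwise

universe u

local instance : Fact (Nat.Prime 3) := ⟨Nat.prime_three⟩
local instance : Fact (Nat.Prime 11) := ⟨by norm_num⟩
local instance : Fact (Nat.Prime 7) := ⟨by norm_num⟩
local instance : Fact (Nat.Prime 2) := ⟨Nat.prime_two⟩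

variable {G : Type u} [Group G] [Finite G]

/-- A subgroup of the permutations of seven points with order dividing 560 and divisible by 35 does not exist. -/
theorem no_thirtyfive {α : Type*} [Fintype α] [DecidableEq α] (hα : Fintype.card α = 7)
    (H : Subgroup (Equiv.Perm α)) (h560 : Nat.card H ∣ 560) (h35 : 35 ∣ Nat.card H) : False := by
  obtain ⟨Q⟩ : Nonempty (Sylow 7 H) := inferInstance
  obtain ⟨m, hm⟩ := (Dvd.dvd.trans ⟨5, rfl⟩ h35 : 7 ∣ Nat.card H)
  have hm80 : m ∣ 80 := by
    rw [hm, show (560 : ℕ) = 7 * 80 from rfl] at h560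
    exact (Nat.mul_dvd_mul_iff_left (by norm_num)).mp h560
  have h7m : ¬ 7 ∣ m := fun e => absurd (e.trans hm80) (by norm_num)
  have h5m : 5 ∣ m := by
    rw [hm, show (35 : ℕ) = 7 * 5 from rfl] at h35
    exact (Nat.mul_dvd_mul_iff_left (by norm_num)).mp h35
  have hQ : Nat.card (Q : Subgroup H) = 7 := by
    rw [CfsgLib.Perm.sylow_card Q (k := 1) (m := m) (by rw [pow_one]; exact hm) h7m, pow_one]
  set W := (Q : Subgroup H).map H.subtype with hW
  have hWc : Nat.card W = 7 := by rw [hW, Subgroup.card_map_of_injective H.subtype_injective, hQ]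
  have hC : centralizer (W : Set (Equiv.Perm α)) ≤ W := by
    intro g hg
    haveI : Nontrivial W := Finite.one_lt_card_iff_nontrivial.mp (by omega)
    obtain ⟨⟨c, hcW⟩, hc1⟩ := exists_ne (1 : W)
    have hc : orderOf c = 7 := by
      have hd : orderOf c ∣ 7 := hWc ▸ Subgroup.orderOf_dvd_natCard _ hcW
      exact ((Nat.dvd_prime (by norm_num)).mp hd).resolve_left fun e => hc1 (Subtype.ext (orderOf_eq_one_iff.mp e))
    have hz : Subgroup.zpowers c = W :=
      Subgroup.eq_of_le_of_card_ge (Subgroup.zpowers_le.mpr hcW) (by rw [hWc, Nat.card_zpowers, hc])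
    have hcy : c.IsCycle := Equiv.Perm.isCycle_of_prime_order' (hc ▸ (by norm_num : Nat.Prime 7)) (by rw [hα, hc]; omega)
    have hsupp : c.support = Finset.univ := Finset.eq_univ_of_card _ (by rw [← hcy.orderOf, hc, hα])
    obtain ⟨a₀⟩ : Nonempty α := Fintype.card_pos_iff.mp (by omega)
    have hmem : ∀ a : α, c a ≠ a := fun a => Equiv.Perm.mem_support.mp (hsupp ▸ Finset.mem_univ a)
    obtain ⟨i, hi⟩ := hcy.sameCycle (hmem a₀) (hmem (g a₀))
    have hgc : Commute g c := (hg c hcW).symm
    rw [← hz]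
    refine ⟨i, Equiv.ext fun a => ?_⟩
    obtain ⟨k, rfl⟩ := hcy.sameCycle (hmem a₀) (hmem a)
    show (c ^ i) ((c ^ k) a₀) = g ((c ^ k) a₀)
    rw [← Equiv.Perm.mul_apply, ← Equiv.Perm.mul_apply g, (Commute.zpow_zpow_self c i k).eq, (hgc.zpow_right k).eq,
      Equiv.Perm.mul_apply, Equiv.Perm.mul_apply, hi]
  have h42 := CfsgLib.SmallSimple.card_normalizer_dvd hWc hC
  have hle : Nat.card (normalizer ((Q : Subgroup H) : Set H)) ∣ 42 := by
    refine dvd_trans ?_ h42
    rw [← Subgroup.card_map_of_injective (K := normalizer ((Q : Subgroup H) : Set H)) H.subtype_injective]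
    exact Subgroup.card_dvd_of_le (Subgroup.le_normalizer_map _)
  have hn := (normalizer ((Q : Subgroup H) : Set H)).card_mul_index
  rw [CfsgLib.SmallSimple.index_normalizer Q] at hn
  have hmod : Nat.card (Sylow 7 H) % 7 = 1 := card_sylow_modEq_one 7 H
  have hn80 : Nat.card (Sylow 7 H) ∣ 80 := by
    have h1 : Nat.card (Sylow 7 H) ∣ (Q : Subgroup H).index := Q.card_dvd_index
    have h2 : (Q : Subgroup H).index = m := by
      have h3 := (Q : Subgroup H).card_mul_index
      rw [hQ, hm] at h3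
      omega
    exact (h2 ▸ h1).trans hm80
  have h5n : 5 ∣ Nat.card (Sylow 7 H) := by
    have h1 : 5 ∣ Nat.card (normalizer ((Q : Subgroup H) : Set H)) * Nat.card (Sylow 7 H) := by
      rw [hn, hm]; exact h5m.mul_left _
    exact ((Nat.prime_five.dvd_mul).mp h1).resolve_left fun e => absurd (e.trans hle) (by norm_num)
  have hmem : Nat.card (Sylow 7 H) ∈ Nat.divisors 80 := Nat.mem_divisors.mpr ⟨hn80, by norm_num⟩
  rw [show Nat.divisors 80 = {1, 2, 4, 5, 8, 10, 16, 20, 40, 80} by decide] at hmem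
  simp only [Finset.mem_insert, Finset.mem_singleton] at hmem
  omega

/-- The support of an element of prime order is a multiple of that prime. -/
theorem prime_dvd_support {α : Type*} [Fintype α] [DecidableEq α] {g : Equiv.Perm α} {r : ℕ} (hr : r.Prime)
    (hg : g ^ r = 1) (hg1 : g ≠ 1) : r ∣ g.support.card ∧ g.support.card ≠ 0 := by
  haveI := Fact.mk hr
  have ho : orderOf g = r := orderOf_eq_prime hg hg1
  obtain ⟨k, hk⟩ := Equiv.Perm.cycleType_prime_order (σ := g) (by rw [ho]; exact hr)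
  refine ⟨?_, fun e => hg1 (Equiv.Perm.support_eq_empty_iff.mp (Finset.card_eq_zero.mp e))⟩
  rw [← Equiv.Perm.sum_cycleType, hk, ho, Multiset.sum_replicate, smul_eq_mul]
  exact Dvd.intro_left _ rfl

section Setup

variable [IsSimpleGroup G] (h : Nat.card (Sylow 3 G) = 22) (P : Sylow 3 G) (hP : Nat.card (P : Subgroup G) = 3)

include h in
theorem noncomm' : ¬ IsMulCommutative G := by
  intro hc
  letI : CommGroup G := { ‹Group G› with mul_comm := hc.is_comm.comm }
  haveI : Unique (Sylow 3 G) := Sylow.unique_of_normal default inferInstance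
  rw [Nat.card_unique] at h
  exact absurd h (by norm_num)

theorem faithful {p : ℕ} [Fact p.Prime] (hn : 1 < Nat.card (Sylow p G)) {g : G}
    (hg : ∀ R : Sylow p G, g • R = R) : g = 1 := by
  have hk : g ∈ (MulAction.toPermHom G (Sylow p G)).ker := Equiv.ext hg
  rcases (inferInstance : (MulAction.toPermHom G (Sylow p G)).ker.Normal).eq_bot_or_eq_top with e | e
  · rw [e] at hk; exact hk
  · exfalso
    haveI : Subsingleton (Sylow p G) := ⟨fun a b => by
      obtain ⟨x, hx⟩ := MulAction.exists_smul_eq G a b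
      rw [← hx]
      exact (Equiv.Perm.ext_iff.mp (MonoidHom.mem_ker.mp (e.symm ▸ Subgroup.mem_top x)) a).symm⟩
    have := Finite.card_le_one_iff_subsingleton.mpr ‹Subsingleton (Sylow p G)›
    omega

omit [Finite G] [IsSimpleGroup G] in
include hP in
theorem pow_three {x : G} (hx : x ∈ (P : Subgroup G)) : x ^ 3 = 1 :=
  orderOf_dvd_iff_pow_eq_one.mp (hP ▸ Subgroup.orderOf_dvd_natCard _ hx)

/-- The orbits of `P` on the Sylow subgroups. -/
abbrev Orb : Type u := MulAction.orbitRel.Quotient (P : Subgroup G) (Sylow 3 G)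

local notation "N" => normalizer ((P : Subgroup G) : Set G)

instance orbAction : MulAction N (Orb P) where
  smul n := Quotient.map ((n : G) • ·) (fun a b hab => by
    obtain ⟨⟨x, hx⟩, rfl⟩ := hab
    refine ⟨⟨(n : G) * x * (n : G)⁻¹, (mem_normalizer_iff.mp n.2 x).mp hx⟩, ?_⟩
    show ((n : G) * x * (n : G)⁻¹) • (n : G) • b = (n : G) • x • b
    rw [smul_smul, smul_smul, inv_mul_cancel_right])
  one_smul := by
    rintro ⟨a⟩
    exact congrArg Quotient.mk'' (one_smul G a)
  mul_smul a b := by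
    rintro ⟨c⟩
    exact congrArg Quotient.mk'' (mul_smul (a : G) (b : G) c)

omit [Finite G] [IsSimpleGroup G] in
theorem smul_mk_eq (n : N) (β : Sylow 3 G) :
    n • (Quotient.mk'' β : Orb P) = Quotient.mk'' β ↔ ∃ x ∈ (P : Subgroup G), x • β = (n : G) • β := by
  show (Quotient.mk'' ((n : G) • β) : Orb P) = Quotient.mk'' β ↔ _
  rw [Quotient.eq'', MulAction.orbitRel_apply]
  exact ⟨fun ⟨x, hx⟩ => ⟨x, x.2, hx⟩, fun ⟨x, hx, e⟩ => ⟨⟨x, hx⟩, e⟩⟩

omit [IsSimpleGroup G] in
theorem smul_self (x : G) (hx : x ∈ N) : x • P = P := Sylow.smul_eq_iff_mem_normalizer.mpr hx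


omit [IsSimpleGroup G] in
include h hP in
theorem orbit_three {R : Sylow 3 G} (hne : R ≠ P) : Nat.card (MulAction.orbit (P : Subgroup G) R) = 3 := by
  rw [← relIndex_eq_orbit]
  refine (relIndex_cases h hne).resolve_right fun e => ?_
  have := relIndex_mul P R
  rw [e, hP] at this
  omega

omit [IsSimpleGroup G] in
include h hP in
theorem card_orb : Nat.card (Orb P) = 8 := by
  classical
  haveI := Fintype.ofFinite (Orb P)
  have e := Nat.card_congr (MulAction.selfEquivSigmaOrbits (P : Subgroup G) (Sylow 3 G))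
  rw [h, Nat.card_sigma] at e
  have hone : ∀ ω : Orb P, ω ≠ Quotient.mk'' P →
      Nat.card (MulAction.orbit (P : Subgroup G) ω.out) = 3 := fun ω hω =>
    orbit_three h P hP (fun he => hω ((Quotient.out_eq' ω).symm.trans (congrArg Quotient.mk'' he)))
  have hP1 : Nat.card (MulAction.orbit (P : Subgroup G) (Quotient.mk'' P : Orb P).out) = 1 := by
    obtain ⟨x, hx⟩ : (Quotient.mk'' P : Orb P).out ∈ MulAction.orbit (P : Subgroup G) P :=
      MulAction.orbitRel_apply.mp (Quotient.eq''.mp (Quotient.out_eq' (Quotient.mk'' P : Orb P)))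
    have hxP : (Quotient.mk'' P : Orb P).out = P := hx ▸ smul_self P x (Subgroup.le_normalizer x.2)
    rw [hxP, Nat.card_eq_one_iff_unique]
    refine ⟨⟨fun a b => Subtype.ext ?_⟩, ⟨⟨P, MulAction.mem_orbit_self P⟩⟩⟩
    obtain ⟨x, hx⟩ := a.2
    obtain ⟨y, hy⟩ := b.2
    rw [← hx, ← hy]
    exact (smul_self P x (Subgroup.le_normalizer x.2)).trans (smul_self P y (Subgroup.le_normalizer y.2)).symm
  rw [← Finset.sum_erase_add _ _ (Finset.mem_univ (Quotient.mk'' P : Orb P)), hP1,
    Finset.sum_congr rfl fun ω hω => hone ω (Finset.mem_erase.mp hω).1, Finset.sum_const,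
    Finset.card_erase_of_mem (Finset.mem_univ _), Finset.card_univ, ← Nat.card_eq_fintype_card, smul_eq_mul] at e
  omega

omit [IsSimpleGroup G] in
include hP in
/-- An element of the normalizer centralizes or inverts. -/
theorem comm_or_inverts {n : G} (hn : n ∈ N) :
    (∀ x ∈ (P : Subgroup G), x * n = n * x) ∨ (∀ x ∈ (P : Subgroup G), n * x * n⁻¹ = x⁻¹) := by
  haveI : IsCyclic (P : Subgroup G) := isCyclic_of_prime_card hP
  obtain ⟨⟨t, ht⟩, hgen⟩ := IsCyclic.exists_generator (α := (P : Subgroup G))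
  have hall : ∀ x ∈ (P : Subgroup G), ∃ k : ℤ, t ^ k = x := fun x hx => by
    obtain ⟨k, hk⟩ := hgen ⟨x, hx⟩
    exact ⟨k, congrArg Subtype.val hk⟩
  obtain ⟨i, hi⟩ := hall _ ((mem_normalizer_iff.mp hn t).mp ht)
  have hconj : ∀ x ∈ (P : Subgroup G), n * x * n⁻¹ = x ^ i := fun x hx => by
    obtain ⟨k, rfl⟩ := hall x hx
    rw [← conj_zpow, ← hi, ← zpow_mul, ← zpow_mul, mul_comm]
  have hper : ∀ x ∈ (P : Subgroup G), ∀ a : ℤ, x ^ a = x ^ (a % 3) := fun x hx a => by
    conv_lhs => rw [← Int.emod_add_mul_ediv a 3, zpow_add, zpow_mul, show x ^ (3 : ℤ) = 1 from mod_cast pow_three P hP hx,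
      one_zpow, mul_one]
  have hi3 : i % 3 = 0 ∨ i % 3 = 1 ∨ i % 3 = 2 := by omega
  rcases hi3 with e | e | e
  · left; intro x hx
    have h1 := hconj x hx
    rw [hper x hx i, e, zpow_zero] at h1
    have hx1 : x = 1 := by
      calc x = n⁻¹ * (n * x * n⁻¹) * n := by group
        _ = 1 := by rw [h1]; group
    rw [hx1]; simp
  · left; intro x hx
    have h1 := hconj x hx
    rw [hper x hx i, e, zpow_one, mul_inv_eq_iff_eq_mul] at h1
    exact h1.symm
  · right; intro x hx
    rw [hconj x hx, hper x hx, e, eq_inv_iff_mul_eq_one, ← zpow_add_one]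
    exact_mod_cast pow_three P hP hx

include h hP in
/-- Elements fixing every orbit lie in `P`. -/
theorem mem_of_fix {c : N} (hfix : ∀ ω : Orb P, c • ω = ω) : (c : G) ∈ (P : Subgroup G) := by
  classical
  haveI := Fintype.ofFinite (Sylow 3 G)
  rcases comm_or_inverts P hP c.2 with hc | hinv
  · have h5 : (c : G) ^ 3 = 1 := faithful (p := 3) (by omega) fun β => by
      obtain ⟨x, hx, hxe⟩ := (smul_mk_eq P c β).mp (hfix _)
      have key : ∀ k : ℕ, (c : G) ^ k • β = x ^ k • β := by
        intro k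
        induction k with
        | zero => simp
        | succ k ih =>
          rw [pow_succ', mul_smul, ih, ← mul_smul, ← hc _ (pow_mem hx k), mul_smul, ← hxe, ← mul_smul, ← pow_succ]
      rw [key, pow_three P hP hx, one_smul]
    have hz : IsPGroup 3 (Subgroup.zpowers (c : G)) := by
      rcases (Nat.dvd_prime Nat.prime_three).mp (orderOf_dvd_of_pow_eq_one h5) with e | e
      · exact IsPGroup.of_card (n := 0) (by rw [Nat.card_zpowers, e, pow_zero])
      · exact IsPGroup.of_card (n := 1) (by rw [Nat.card_zpowers, e, pow_one])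
    exact ((hz.inf_normalizer_sylow P).le ⟨Subgroup.mem_zpowers _, c.2⟩).2
  · exfalso
    set f := MulAction.toPermHom G (Sylow 3 G) with hf
    have hc2 : (c : G) ^ 2 = 1 := faithful (p := 3) (by omega) fun β => by
      obtain ⟨x, hx, hxe⟩ := (smul_mk_eq P c β).mp (hfix _)
      calc (c : G) ^ 2 • β = (c : G) • x • β := by rw [pow_two, mul_smul, hxe]
        _ = ((c : G) * x * (c : G)⁻¹) • (c : G) • β := by rw [smul_smul, smul_smul, inv_mul_cancel_right]
        _ = β := by rw [hinv x hx, ← hxe, inv_smul_smul]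
    have hF : Nat.card {γ : Sylow 3 G // (c : G) • γ = γ} = Nat.card (Orb P) := by
      refine Nat.card_eq_of_bijective (fun γ => Quotient.mk'' γ.1) ⟨?_, ?_⟩
      · rintro ⟨γ, hγ⟩ ⟨γ', hγ'⟩ he
        obtain ⟨⟨x, hx⟩, hxe⟩ := MulAction.orbitRel_apply.mp (Quotient.eq''.mp he)
        have hxe' : x • γ' = γ := hxe
        have e1 : x⁻¹ • γ' = x • γ' := by
          rw [← hinv x hx, mul_smul, mul_smul, inv_smul_eq_iff.mpr hγ'.symm, hxe', hγ]
        have e2 : (x * x) • γ' = γ' := by rw [mul_smul, ← e1, smul_inv_smul]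
        have e3 : x • γ' = γ' := by
          have : x = (x * x) * (x * x) := by
            rw [show (x * x) * (x * x) = x ^ 3 * x by simp [pow_succ, mul_assoc], pow_three P hP hx, one_mul]
          rw [this, mul_smul, e2, e2]
        exact Subtype.ext (hxe'.symm.trans e3)
      · intro ω
        induction ω using Quotient.inductionOn' with
        | h β =>
          obtain ⟨x, hx, hxe⟩ := (smul_mk_eq P c β).mp (hfix _)
          refine ⟨⟨x ^ 2 • β, ?_⟩, Quotient.eq''.mpr ⟨⟨x ^ 2, pow_mem hx 2⟩, rfl⟩⟩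
          calc (c : G) • x ^ 2 • β = ((c : G) * x ^ 2 * (c : G)⁻¹) • (c : G) • β := by
                rw [smul_smul, smul_smul, inv_mul_cancel_right]
            _ = ((x ^ 2)⁻¹ * x) • β := by rw [hinv _ (pow_mem hx 2), ← hxe, smul_smul]
            _ = x ^ 2 • β := by
              rw [show (x ^ 2)⁻¹ * x = (x ^ 3)⁻¹ * x ^ 2 by group, pow_three P hP hx, inv_one, one_mul]
    rw [card_orb h P hP] at hF
    have hne : f (c : G) ≠ 1 := fun e => by
      have e2 : (c : G) = 1 := faithful (by omega) fun R => Equiv.Perm.ext_iff.mp e R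
      rw [Nat.card_congr (Equiv.subtypeUnivEquiv fun γ => by rw [e2, one_smul]), h] at hF
      omega
    have hsupp := CfsgLib.TwentyOne.support_add_fixed (f (c : G))
    rw [← Nat.card_eq_fintype_card (α := Sylow 3 G), h] at hsupp
    have : Nat.card {x : Sylow 3 G // f (c : G) x = x} = 8 := hF
    have hs := CfsgLib.TwentyOne.sign_involution (g := f (c : G)) (by rw [← map_pow, hc2, map_one]) hne (k := 7)
      (by omega) ⟨3, rfl⟩
    rw [show Equiv.Perm.sign (f (c : G)) = 1 from DFunLike.congr_fun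
      (CfsgLib.Perm.sign_comp_eq_one (noncomm' h) (Equiv.Perm.sign.comp f)) (c : G)] at hs
    exact absurd hs (by decide)

/-- The action on the seven non-trivial orbits. -/
noncomputable def quad : N →* Equiv.Perm {ω : Orb P // ω ≠ Quotient.mk'' P} where
  toFun n := (MulAction.toPerm n).subtypeEquiv fun ω => by
    show ω ≠ _ ↔ n • ω ≠ _
    have : n • (Quotient.mk'' P : Orb P) = Quotient.mk'' P := congrArg Quotient.mk'' (smul_self P n n.2)
    conv_rhs => rw [← this, Ne, smul_left_cancel_iff]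
  map_one' := Equiv.ext fun ω => Subtype.ext (one_smul _ ω.1)
  map_mul' a b := Equiv.ext fun ω => Subtype.ext (mul_smul a b ω.1)

include h hP in
/-- No simple group has 22 Sylow 3-subgroups of order 3. -/
theorem not_simple : False := by
  classical
  haveI := Fintype.ofFinite (Orb P)
  haveI := Fintype.ofFinite (Sylow 3 G)
  haveI := Fintype.ofFinite (Sylow 11 G)
  have hna := noncomm' h
  set f := quad P with hf
  have hker : f.ker = (P : Subgroup G).subgroupOf N := by
    ext n
    rw [MonoidHom.mem_ker, Subgroup.mem_subgroupOf]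
    refine ⟨fun e => mem_of_fix h P hP fun ω => ?_, fun hn => Equiv.ext fun ω => Subtype.ext ?_⟩
    · by_cases hω : ω = Quotient.mk'' P
      · rw [hω]; exact congrArg Quotient.mk'' (smul_self P n n.2)
      · exact congrArg Subtype.val (Equiv.Perm.ext_iff.mp e ⟨ω, hω⟩)
    · show n • ω.1 = ω.1
      induction ω.1 using Quotient.inductionOn' with
      | h β => exact (smul_mk_eq P n β).mpr ⟨n, hn, rfl⟩
  have h7 : Fintype.card {ω : Orb P // ω ≠ Quotient.mk'' P} = 7 := by
    rw [Fintype.card_subtype_compl, Fintype.card_subtype_eq, ← Nat.card_eq_fintype_card, card_orb h P hP]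
  set d := Nat.card f.range with hd
  have hcardN : Nat.card N = 3 * d := by
    rw [← Subgroup.card_mul_index f.ker, Subgroup.index_ker, hker,
      Nat.card_congr (Subgroup.subgroupOfEquivOfLe Subgroup.le_normalizer).toEquiv, hP]
  have hNγ : ∀ γ : Sylow 3 G, Nat.card (normalizer ((γ : Subgroup G) : Set G)) * 22 = Nat.card G := fun γ => by
    have h1 := (normalizer ((γ : Subgroup G) : Set G)).card_mul_index
    rwa [CfsgLib.SmallSimple.index_normalizer γ, h] at h1
  have hcardG : Nat.card G = 66 * d := by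
    have h1 := hNγ P
    rw [hcardN] at h1
    omega
  have h3d : ¬ 3 ∣ d := by
    intro e
    obtain ⟨j, hj⟩ := e
    have h1 := (P : Subgroup G).card_mul_index
    rw [hP, hcardG, hj] at h1
    exact P.not_dvd_index ⟨22 * j, by omega⟩
  have h560 : d ∣ 560 := by
    have h1 : d ∣ 9 * 560 := by
      have := Subgroup.card_subgroup_dvd_card f.range
      rw [Nat.card_perm, show Nat.card {ω : Orb P // ω ≠ Quotient.mk'' P} = 7 by rw [Nat.card_eq_fintype_card, h7]] at this
      exact this
    exact (Nat.Coprime.pow_right 2 ((Nat.prime_three.coprime_iff_not_dvd.mpr h3d).symm) :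
      Nat.Coprime d (3 ^ 2)).dvd_of_dvd_mul_left h1
  have h35 : ¬ 35 ∣ d := fun e => no_thirtyfive h7 f.range h560 e
  haveI : IsCyclic (P : Subgroup G) := isCyclic_of_prime_card hP
  set ψ := (P : Subgroup G).normalizerMonoidHom with hψ
  have hψker : ψ.ker = (centralizer ((P : Subgroup G) : Set G)).subgroupOf N := Subgroup.normalizerMonoidHom_ker _
  have hψrange : Nat.card ψ.range = 2 := by
    have h1 : Nat.card ψ.range ∣ 2 := by
      refine (Subgroup.card_subgroup_dvd_card _).trans (dvd_of_eq ?_)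
      rw [IsCyclic.card_mulAut, hP]; decide
    refine ((Nat.dvd_prime Nat.prime_two).mp h1).resolve_left fun e => ?_
    have hle : N ≤ centralizer ((P : Subgroup G) : Set G) := fun n hn => by
      have : (⟨n, hn⟩ : N) ∈ ψ.ker := by
        rw [MonoidHom.mem_ker]
        have := Subgroup.card_eq_one.mp e
        exact Subgroup.mem_bot.mp (this ▸ ⟨⟨n, hn⟩, rfl⟩ : ψ ⟨n, hn⟩ ∈ (⊥ : Subgroup _))
      rw [hψker] at this
      exact this
    rcases (inferInstance : (MonoidHom.transferSylow P hle).ker.Normal).eq_bot_or_eq_top with e2 | e2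
    · have h2 := (MonoidHom.ker_transferSylow_isComplement' P hle).card_mul_card
      rw [e2, Subgroup.card_bot, one_mul, hP, hcardG] at h2
      omega
    · have h2 := MonoidHom.not_dvd_card_ker_transferSylow P hle
      rw [e2, Subgroup.card_top, hcardG] at h2
      exact h2 ⟨22 * d, by ring⟩
  have hCc : 2 * Nat.card ψ.ker = 3 * d := by
    rw [← hcardN, ← Subgroup.card_mul_index ψ.ker, Subgroup.index_ker, hψrange, mul_comm]
  have hd2 : 2 ∣ d := (Nat.prime_two.dvd_mul.mp ⟨_, hCc.symm⟩).resolve_left (by norm_num)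
  -- the prime eleven
  obtain ⟨Q⟩ : Nonempty (Sylow 11 G) := inferInstance
  have h11 : Nat.card G = 11 ^ 1 * (6 * d) := by rw [hcardG]; ring
  have h11' : ¬ 11 ∣ 6 * d := fun e => by
    rcases (Nat.Prime.dvd_mul (by norm_num)).mp e with e | e
    · norm_num at e
    · exact absurd (e.trans h560) (by norm_num)
  have hQ : Nat.card (Q : Subgroup G) = 11 := by rw [CfsgLib.Perm.sylow_card Q h11 h11', pow_one]
  have hd0 : 0 < d := Nat.card_pos
  obtain ⟨hn11, hn11m, hn111⟩ := CfsgLib.SmallSimple.sylow_number h11 h11' (by omega) one_ne_zero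
  haveI : IsCyclic (Q : Subgroup G) := isCyclic_of_prime_card hQ
  have hprime : ∀ y : G, ∀ r : ℕ, r.Prime → orderOf y = r →
      (∀ q ∈ (Q : Subgroup G), q * y = y * q) → r = 11 := by
    intro y r hr hy hyc
    by_contra hr11
    letI : MulAction (Q : Subgroup G) {γ : Sylow 3 G // y • γ = γ} :=
      { smul := fun x γ => ⟨(x : G) • γ.1, by rw [smul_smul, ← hyc x x.2, mul_smul, γ.2]⟩
        one_smul := fun γ => Subtype.ext (one_smul G γ.1)
        mul_smul := fun a b γ => Subtype.ext (mul_smul (a : G) (b : G) γ.1) }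
    have hmod := Q.2.card_modEq_card_fixedPoints {γ : Sylow 3 G // y • γ = γ}
    have h0 : IsEmpty (MulAction.fixedPoints (Q : Subgroup G) {γ : Sylow 3 G // y • γ = γ}) := by
      refine ⟨fun ⟨γ, hγ⟩ => ?_⟩
      have hle : (Q : Subgroup G) ≤ normalizer ((γ.1 : Subgroup G) : Set G) := fun q hq =>
        Sylow.smul_eq_iff_mem_normalizer.mp (congrArg Subtype.val (hγ ⟨q, hq⟩))
      have h6 := Subgroup.card_dvd_of_le hle
      have h7N := hNγ γ.1
      rw [hQ] at h6
      obtain ⟨j, hj⟩ := h6
      rw [hj, hcardG] at h7N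
      exact h11' ⟨2 * j * 1, by omega⟩
    rw [Nat.card_of_isEmpty (α := MulAction.fixedPoints (Q : Subgroup G) {γ : Sylow 3 G // y • γ = γ})] at hmod
    have hdvd : 11 ∣ Nat.card {γ : Sylow 3 G // y • γ = γ} := Nat.modEq_zero_iff_dvd.mp hmod
    set g := MulAction.toPermHom G (Sylow 3 G) y with hg
    have hyr : y ^ r = 1 := hy ▸ pow_orderOf_eq_one y
    have hgr : g ^ r = 1 := by rw [hg, ← map_pow, hyr, map_one]
    have hg1 : g ≠ 1 := fun e2 => by
      rw [faithful (p := 3) (g := y) (by omega) fun R => Equiv.Perm.ext_iff.mp e2 R, orderOf_one] at hy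
      exact hr.ne_one hy.symm
    obtain ⟨hsd, hs0⟩ := prime_dvd_support hr hgr hg1
    have hsupp := CfsgLib.TwentyOne.support_add_fixed g
    rw [← Nat.card_eq_fintype_card, h] at hsupp
    have hfix : Nat.card {x : Sylow 3 G // g x = x} = Nat.card {γ : Sylow 3 G // y • γ = γ} := rfl
    have hs22 : g.support.card = 22 ∨ g.support.card = 11 := by omega
    rcases hs22 with e | e
    · rw [e] at hsd
      rcases (Nat.Prime.dvd_mul hr).mp (show r ∣ 2 * 11 from hsd) with e2 | e2
      · obtain rfl := (Nat.prime_dvd_prime_iff_eq hr Nat.prime_two).mp e2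
        have hs := CfsgLib.TwentyOne.sign_involution hgr hg1 (k := 11) (by omega) ⟨5, rfl⟩
        rw [show Equiv.Perm.sign g = 1 from DFunLike.congr_fun
          (CfsgLib.Perm.sign_comp_eq_one hna (Equiv.Perm.sign.comp (MulAction.toPermHom G (Sylow 3 G)))) y] at hs
        exact absurd hs (by decide)
      · exact hr11 ((Nat.prime_dvd_prime_iff_eq hr (by norm_num)).mp e2)
    · rw [e] at hsd
      exact hr11 ((Nat.prime_dvd_prime_iff_eq hr (by norm_num)).mp hsd)
  have hCQ : centralizer ((Q : Subgroup G) : Set G) ≤ (Q : Subgroup G) := by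
    have hp : IsPGroup 11 (centralizer ((Q : Subgroup G) : Set G)) := by
      refine IsPGroup.of_card (n := (Nat.card (centralizer ((Q : Subgroup G) : Set G))).primeFactorsList.length) ?_
      refine Nat.eq_prime_pow_of_unique_prime_dvd Nat.card_pos.ne' fun {r} hr hrd => ?_
      haveI := Fact.mk hr
      obtain ⟨y, hy⟩ := exists_prime_orderOf_dvd_card' r hrd
      exact hprime y r hr (by rw [Subgroup.orderOf_coe, hy]) fun q hq => y.2 q hq
    intro g hg
    exact ((hp.inf_normalizer_sylow Q).le ⟨hg, Subgroup.centralizer_le_normalizer _ hg⟩).2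
  set w := Nat.card (normalizer ((Q : Subgroup G) : Set G)) with hw
  have hw110 : w ∣ 110 := CfsgLib.SmallSimple.card_normalizer_dvd hQ hCQ
  have hwQ : 11 ∣ w := hQ ▸ Subgroup.card_dvd_of_le Subgroup.le_normalizer
  have hw11 : w ≠ 11 := by
    intro e
    have hle : normalizer ((Q : Subgroup G) : Set G) ≤ centralizer ((Q : Subgroup G) : Set G) := by
      have hQN : (Q : Subgroup G) = normalizer ((Q : Subgroup G) : Set G) :=
        Subgroup.eq_of_le_of_card_ge Subgroup.le_normalizer (by rw [hQ, ← hw, e])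
      rw [← hQN]
      exact Subgroup.le_centralizer (Q : Subgroup G)
    rcases (inferInstance : (MonoidHom.transferSylow Q hle).ker.Normal).eq_bot_or_eq_top with e2 | e2
    · have h1 := (MonoidHom.ker_transferSylow_isComplement' Q hle).card_mul_card
      rw [e2, Subgroup.card_bot, one_mul, hQ, hcardG] at h1
      omega
    · have h1 := MonoidHom.not_dvd_card_ker_transferSylow Q hle
      rw [e2, Subgroup.card_top, h11] at h1
      exact h1 ⟨6 * d, by ring⟩
  have hwn : w * Nat.card (Sylow 11 G) = 66 * d := by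
    rw [hw, ← CfsgLib.SmallSimple.index_normalizer Q, Subgroup.card_mul_index, hcardG]
  have hcases : Nat.card (Sylow 11 G) = 12 ∧ ((d = 4 ∧ w = 22) ∨ (5 ∣ d ∧ 5 ∣ w)) ∧ ¬ 3 ∣ w := by
    have hd' : d ∈ Nat.divisors 560 := Nat.mem_divisors.mpr ⟨h560, by norm_num⟩
    have hw' : w ∈ Nat.divisors 110 := Nat.mem_divisors.mpr ⟨hw110, by norm_num⟩
    rw [show Nat.divisors 110 = {1, 2, 5, 10, 11, 22, 55, 110} by decide] at hw'
    rw [show Nat.divisors 560 = {1, 2, 4, 5, 7, 8, 10, 14, 16, 20, 28, 35, 40, 56, 70, 80, 112, 140, 280, 560} by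
      decide] at hd'
    simp only [Finset.mem_insert, Finset.mem_singleton] at hd' hw'
    generalize Nat.card (Sylow 11 G) = n at hwn hn11m
    rcases hw' with e | e | e | e | e | e | e | e <;> rw [e] at hwn hwQ hw11 ⊢ <;>
      rcases hd' with e' | e' | e' | e' | e' | e' | e' | e' | e' | e' | e' | e' | e' | e' | e' | e' | e' | e' | e' | e' <;>
      rw [e'] at hwn hd2 h35 ⊢ <;> omega
  obtain ⟨hn12, hdw, hw3⟩ := hcases
  haveI : Nontrivial (P : Subgroup G) := Finite.one_lt_card_iff_nontrivial.mp (by omega)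
  obtain ⟨⟨x, hxP⟩, hx1⟩ := exists_ne (1 : (P : Subgroup G))
  rcases hdw with ⟨hd4, hw22⟩ | ⟨h5d, -⟩
  swap
  · have h5C : 5 ∣ Nat.card ψ.ker := by
      refine (Nat.prime_five.dvd_mul.mp (show 5 ∣ 2 * Nat.card ψ.ker from ?_)).resolve_left (by norm_num)
      rw [hCc]; exact h5d.mul_left 3
    haveI := Fact.mk Nat.prime_five
    obtain ⟨⟨⟨c, hcN⟩, hck⟩, hc⟩ := exists_prime_orderOf_dvd_card' 5 h5C
    rw [Subgroup.orderOf_mk, Subgroup.orderOf_mk] at hc
    rw [hψker] at hck
    have hcc : ∀ q ∈ (P : Subgroup G), q * c = c * q := fun q hq => hck q hq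
    letI : MulAction (P : Subgroup G) {γ : Sylow 11 G // c • γ = γ} :=
      { smul := fun x γ => ⟨(x : G) • γ.1, by rw [smul_smul, ← hcc x x.2, mul_smul, γ.2]⟩
        one_smul := fun γ => Subtype.ext (one_smul G γ.1)
        mul_smul := fun a b γ => Subtype.ext (mul_smul (a : G) (b : G) γ.1) }
    have hmod := P.2.card_modEq_card_fixedPoints {γ : Sylow 11 G // c • γ = γ}
    have h0 : IsEmpty (MulAction.fixedPoints (P : Subgroup G) {γ : Sylow 11 G // c • γ = γ}) := by
      refine ⟨fun ⟨γ, hγ⟩ => ?_⟩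
      have hle : (P : Subgroup G) ≤ normalizer ((γ.1 : Subgroup G) : Set G) := fun q hq =>
        Sylow.smul_eq_iff_mem_normalizer.mp (congrArg Subtype.val (hγ ⟨q, hq⟩))
      have h6 := Subgroup.card_dvd_of_le hle
      have h7 : Nat.card (normalizer ((γ.1 : Subgroup G) : Set G)) = w := by
        have h1 := (normalizer ((γ.1 : Subgroup G) : Set G)).card_mul_index
        rw [CfsgLib.SmallSimple.index_normalizer γ.1, hn12, hcardG, ← hwn, hn12] at h1
        omega
      rw [hP, h7] at h6
      exact hw3 h6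
    rw [Nat.card_of_isEmpty (α := MulAction.fixedPoints (P : Subgroup G) {γ : Sylow 11 G // c • γ = γ})] at hmod
    have hdvd : 3 ∣ Nat.card {γ : Sylow 11 G // c • γ = γ} := Nat.modEq_zero_iff_dvd.mp hmod
    set g := MulAction.toPermHom G (Sylow 11 G) c with hg
    have hc5 : c ^ 5 = 1 := hc ▸ pow_orderOf_eq_one c
    have hg1 : g ≠ 1 := fun e2 => by
      rw [faithful (p := 11) (g := c) (by omega) fun R => Equiv.Perm.ext_iff.mp e2 R, orderOf_one] at hc
      omega
    obtain ⟨hsd, hs0⟩ := prime_dvd_support Nat.prime_five (g := g) (by rw [hg, ← map_pow, hc5, map_one]) hg1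
    have hsupp := CfsgLib.TwentyOne.support_add_fixed g
    rw [← Nat.card_eq_fintype_card, hn12] at hsupp
    have hfix : Nat.card {x : Sylow 11 G // g x = x} = Nat.card {γ : Sylow 11 G // c • γ = γ} := rfl
    omega
  -- order 264
  have h2w : 2 ∣ w := by omega
  obtain ⟨⟨t, htN⟩, ht⟩ := exists_prime_orderOf_dvd_card' 2 h2w
  rw [Subgroup.orderOf_mk] at ht
  have ht2 : t ^ 2 = 1 := ht ▸ pow_orderOf_eq_one t
  have ht1 : t ≠ 1 := fun e => by rw [e, orderOf_one] at ht; omega
  have hQQ : ∀ R : Sylow 11 G, R ≠ Q → ∀ q ∈ (Q : Subgroup G), q • R = R → q = 1 := by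
    intro R hR q hq hqR
    have hqn : q ∈ (R : Subgroup G) :=
      ((Q.2.inf_normalizer_sylow R).le ⟨hq, Sylow.smul_eq_iff_mem_normalizer.mp hqR⟩).2
    by_contra hq1
    haveI := Fact.mk (show Nat.Prime (Nat.card (Q : Subgroup G)) by rw [hQ]; norm_num)
    refine hR (Sylow.ext (Subgroup.eq_of_le_of_card_ge ?_ (FewSylow.card_eq R Q).le).symm)
    rcases ((R : Subgroup G).subgroupOf (Q : Subgroup G)).eq_bot_or_eq_top_of_prime_card with e | e
    · have h1 : (⟨q, hq⟩ : (Q : Subgroup G)) ∈ (R : Subgroup G).subgroupOf (Q : Subgroup G) :=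
        Subgroup.mem_subgroupOf.mpr hqn
      rw [e, Subgroup.mem_bot] at h1
      exact absurd (congrArg Subtype.val h1) hq1
    · exact fun z hz => Subgroup.mem_subgroupOf.mp (e.symm ▸ Subgroup.mem_top (⟨z, hz⟩ : (Q : Subgroup G)))
  have horb : ∀ R R' : Sylow 11 G, R ≠ Q → R' ≠ Q → ∃ q ∈ (Q : Subgroup G), q • R = R' := by
    intro R R' hR hR'
    have hinj : Function.Injective fun q : (Q : Subgroup G) => (q : G) • R := fun a b e => by
      refine Subtype.ext (inv_mul_eq_one.mp (hQQ R hR _ (mul_mem ((Q : Subgroup G).inv_mem a.2) b.2) ?_))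
      rw [mul_smul, inv_smul_eq_iff]
      exact e.symm
    haveI := Fintype.ofFinite (Q : Subgroup G)
    have hsub : Finset.univ.image (fun q : (Q : Subgroup G) => (q : G) • R) = Finset.univ.erase Q := by
      refine Finset.eq_of_subset_of_card_le ?_ ?_
      · intro z hz
        obtain ⟨q, -, rfl⟩ := Finset.mem_image.mp hz
        refine Finset.mem_erase.mpr ⟨fun e => hR ?_, Finset.mem_univ _⟩
        have := congrArg (fun S => (q : G)⁻¹ • S) e
        simp only [inv_smul_smul] at this
        rw [this]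
        exact Sylow.smul_eq_iff_mem_normalizer.mpr (Subgroup.le_normalizer ((Q : Subgroup G).inv_mem q.2))
      · rw [Finset.card_image_of_injective _ hinj, Finset.card_univ, ← Nat.card_eq_fintype_card, hQ,
          Finset.card_erase_of_mem (Finset.mem_univ _), Finset.card_univ, ← Nat.card_eq_fintype_card, hn12]
    obtain ⟨q, -, hq⟩ := Finset.mem_image.mp (hsub.symm ▸ Finset.mem_erase.mpr ⟨hR', Finset.mem_univ _⟩)
    exact ⟨q, q.2, hq⟩
  have htQ : t • Q = Q := Sylow.smul_eq_iff_mem_normalizer.mpr htN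
  have huniq : ∀ R R' : Sylow 11 G, R ≠ Q → R' ≠ Q → t • R = R → t • R' = R' → R = R' := by
    intro R R' hR hR' hRt hR't
    obtain ⟨q, hq, rfl⟩ := horb R R' hR hR'
    have hs : (q⁻¹ * t * q) • R = R := by rw [mul_smul, mul_smul, hR't, inv_smul_smul]
    have hcomm : t * (q⁻¹ * t * q) = 1 := by
      refine hQQ R hR _ ?_ (by rw [mul_smul, hs, hRt])
      have h1 : t * q⁻¹ * t⁻¹ ∈ (Q : Subgroup G) := (mem_normalizer_iff.mp htN q⁻¹).mp ((Q : Subgroup G).inv_mem hq)
      have htinv : t⁻¹ = t := inv_eq_of_mul_eq_one_right (by rw [← pow_two, ht2])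
      rw [htinv] at h1
      have := mul_mem h1 hq
      simpa [mul_assoc] using this
    have hqt : q * t = t * q := by
      have htinv : t⁻¹ = t := inv_eq_of_mul_eq_one_right (by rw [← pow_two, ht2])
      have e : q⁻¹ * t * q = t := by rw [← inv_eq_of_mul_eq_one_right hcomm, htinv]
      calc q * t = q * (q⁻¹ * t * q) := by rw [e]
        _ = t * q := by simp [mul_assoc]
    by_contra hne
    have hq1 : q ≠ 1 := fun e => hne (by rw [e, one_smul])
    have hgen : ∀ z ∈ (Q : Subgroup G), z ∈ Subgroup.zpowers q := by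
      have hoq : orderOf q = 11 := ((Nat.dvd_prime (by norm_num)).mp
        (hQ ▸ Subgroup.orderOf_dvd_natCard _ hq)).resolve_left fun e => hq1 (orderOf_eq_one_iff.mp e)
      have : Subgroup.zpowers q = (Q : Subgroup G) :=
        Subgroup.eq_of_le_of_card_ge (Subgroup.zpowers_le.mpr hq) (by rw [hQ, Nat.card_zpowers, hoq])
      exact fun z hz => this.symm ▸ hz
    have := hprime t 2 Nat.prime_two ht fun z hz => by
      obtain ⟨k, rfl⟩ := hgen z hz
      exact (Commute.zpow_left (show Commute q t from hqt) k).eq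
    omega
  set g := MulAction.toPermHom G (Sylow 11 G) t with hg
  have hg1 : g ≠ 1 := fun e2 => ht1 (faithful (p := 11) (by omega) fun R => Equiv.Perm.ext_iff.mp e2 R)
  have hg2 : g ^ 2 = 1 := by rw [hg, ← map_pow, ht2, map_one]
  obtain ⟨hsd, hs0⟩ := prime_dvd_support Nat.prime_two hg2 hg1
  have hsupp := CfsgLib.TwentyOne.support_add_fixed g
  rw [← Nat.card_eq_fintype_card, hn12] at hsupp
  have hF : Nat.card {R : Sylow 11 G // g R = R} ≤ 2 := by
    rw [Nat.card_eq_fintype_card, Fintype.card_subtype]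
    have hsub : ((Finset.univ.filter fun R => g R = R).erase Q).card ≤ 1 := by
      rw [Finset.card_le_one]
      intro a ha b hb
      simp only [Finset.mem_erase, Finset.mem_filter] at ha hb
      exact huniq a b ha.1 hb.1 ha.2.2 hb.2.2
    have := Finset.pred_card_le_card_erase (a := Q) (s := Finset.univ.filter fun R => g R = R)
    omega
  have hF1 : 0 < Nat.card {R : Sylow 11 G // g R = R} := by
    haveI : Nonempty {R : Sylow 11 G // g R = R} := ⟨⟨Q, htQ⟩⟩
    exact Nat.card_pos
  have hs := CfsgLib.TwentyOne.sign_involution hg2 hg1 (k := 5) (by omega) ⟨2, rfl⟩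
  rw [show Equiv.Perm.sign g = 1 from DFunLike.congr_fun
    (CfsgLib.Perm.sign_comp_eq_one hna (Equiv.Perm.sign.comp (MulAction.toPermHom G (Sylow 11 G)))) t] at hs
  exact absurd hs (by decide)

end Setup

end CfsgLib.TwentyTwo
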