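import Cfsg.Agent.Lib.FgsTIHall
import Cfsg.Agent.Lib.CharFrobenius
import Cfsg.Agent.Lib.CharBrauer3
import Cfsg.Agent.Lib.CoreCoprime2
import Cfsg.Agent.Lib.CoreFrobenius

/-!
Trivial intersection Hall subgroups: normal complements and Frobenius complements.
-/

set_option autoImplicit false

namespace CfsgLib.FgsTIComplement

open Subgroup

universe u

variable {G : Type u} [Group G] [Finite G] {H : Subgroup G}

theorem mem_of_mem_normalizer (hcoH : (Nat.card H).Coprime H.index) {x : G}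
    (hx : x ∈ normalizer (H : Set G)) (ho : orderOf x ∣ Nat.card H) : x ∈ H := by
  set N := normalizer (H : Set G) with hN
  haveI : (H.subgroupOf N).Normal := Subgroup.normal_in_normalizer
  rw [← Subgroup.mem_subgroupOf (h := ⟨x, hx⟩) |> (fun h => h), ← QuotientGroup.eq_one_iff,
    ← orderOf_eq_one_iff]
  refine Nat.eq_one_of_dvd_coprimes
    (hcoH.coprime_dvd_right (Subgroup.relIndex_dvd_index_of_le (Subgroup.le_normalizer (H := H))))
    ((orderOf_map_dvd (QuotientGroup.mk' (H.subgroupOf N)) ⟨x, hx⟩).trans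
      (by rw [Subgroup.orderOf_mk]; exact ho)) ?_
  exact orderOf_dvd_natCard (QuotientGroup.mk' (H.subgroupOf N) ⟨x, hx⟩)

theorem le_of_le_normalizer (hcoH : (Nat.card H).Coprime H.index) {E : Subgroup G}
    (hE : E ≤ normalizer (H : Set G)) (ho : Nat.card E ∣ Nat.card H) : E ≤ H := fun x hx =>
  mem_of_mem_normalizer hcoH (hE hx)
    (((Subgroup.orderOf_mk x hx) ▸ orderOf_dvd_natCard (⟨x, hx⟩ : E)).trans ho)

theorem conj_mem_of_primeOrder (hcoH : (Nat.card H).Coprime H.index) {x : G}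
    (ho : (orderOf x).Prime) (hd : orderOf x ∣ Nat.card H) : ∃ g : G, g * x * g⁻¹ ∈ H := by
  haveI := Fact.mk ho
  set q := orderOf x
  obtain ⟨P⟩ := (inferInstance : Nonempty (Sylow q H))
  have hP : ¬ q ∣ ((P : Subgroup H).map H.subtype).index := by
    rw [Subgroup.index_map_subtype]
    exact ho.not_dvd_mul P.not_dvd_index
      fun h => ho.ne_one (Nat.eq_one_of_dvd_coprimes hcoH hd h)
  let PG : Sylow q G := (P.isPGroup'.map H.subtype).toSylow hP
  obtain ⟨Q, hQ⟩ := (IsPGroup.of_card (n := 1) (by rw [Nat.card_zpowers, pow_one]) :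
    IsPGroup q (zpowers x)).exists_le_sylow
  obtain ⟨g, hg⟩ := MulAction.exists_smul_eq G Q PG
  refine ⟨g, Subgroup.map_subtype_le (P : Subgroup H) ?_⟩
  change g * x * g⁻¹ ∈ (PG : Subgroup G)
  rw [← hg, Sylow.coe_subgroup_smul, Subgroup.mem_pointwise_smul_iff_inv_smul_mem]
  generalize x = u at hQ ⊢
  simpa [MulAut.smul_def, mul_assoc] using hQ (mem_zpowers u)

/-- A nilpotent subgroup of order dividing `|H|` is conjugate into `H`. -/
theorem nilpotent_conj_le (hTI : Cfsg.IsTISubset (H : Set G))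
    (hcoH : (Nat.card H).Coprime H.index) {E : Subgroup G} (hnil : Group.IsNilpotent E)
    (ho : Nat.card E ∣ Nat.card H) : ∃ g : G, E.map (MulAut.conj g).toMonoidHom ≤ H := by
  by_cases hE : E = ⊥
  · exact ⟨1, by rw [hE, Subgroup.map_bot]; exact bot_le⟩
  haveI : Nontrivial E := (Subgroup.nontrivial_iff_ne_bot E).2 hE
  haveI := hnil
  haveI : Nontrivial (Subgroup.center E) := (Subgroup.nontrivial_iff_ne_bot _).2 (by
    have h := CfsgLib.Core.nilpotent_inf_center_ne_bot (N := (⊤ : Subgroup E)) top_ne_bot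
    rwa [top_inf_eq] at h)
  obtain ⟨q, hq, hqd⟩ := Nat.exists_prime_and_dvd
    (Finite.one_lt_card (α := Subgroup.center E)).ne'
  haveI := Fact.mk hq
  obtain ⟨z, hz⟩ := exists_prime_orderOf_dvd_card' q hqd
  have hzo : orderOf ((z : E) : G) = q :=
    (Subgroup.orderOf_coe (z : E)).trans ((Subgroup.orderOf_coe z).trans hz)
  obtain ⟨g, hg⟩ := conj_mem_of_primeOrder hcoH (x := ((z : E) : G)) (by rw [hzo]; exact hq)
    (by rw [hzo]; exact (hqd.trans ((Subgroup.center E).card_subgroup_dvd_card)).trans ho)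
  refine ⟨g, le_of_le_normalizer hcoH ?_ ?_⟩
  · rintro _ ⟨e, he, rfl⟩
    by_contra hn
    have hfix : (MulAut.conj g e) * (g * ((z : E) : G) * g⁻¹) * (MulAut.conj g e)⁻¹ =
        g * ((z : E) : G) * g⁻¹ := by
      have hc : e * ((z : E) : G) = ((z : E) : G) * e :=
        congrArg Subtype.val (Subgroup.mem_center_iff.1 z.2 ⟨e, he⟩)
      rw [MulAut.conj_apply]
      calc g * e * g⁻¹ * (g * ((z : E) : G) * g⁻¹) * (g * e * g⁻¹)⁻¹
          = g * (e * ((z : E) : G)) * e⁻¹ * g⁻¹ := by group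
        _ = g * (((z : E) : G) * e) * e⁻¹ * g⁻¹ := by rw [hc]
        _ = g * ((z : E) : G) * g⁻¹ := by group
    have := hTI (MulAut.conj g e) hn _ hg (by rw [hfix]; exact hg)
    rw [conj_eq_one_iff] at this
    rw [this, orderOf_one] at hzo
    exact hq.ne_one hzo.symm
  · rw [Subgroup.card_map_of_injective (MulEquiv.injective _)]; exact ho

/-- Brauer–Suzuki for trivial intersection Hall subgroups. -/
theorem exists_normal_complement (hTI : Cfsg.IsTISubset (H : Set G))
    (hcoH : (Nat.card H).Coprime H.index) (K : Subgroup (normalizer (H : Set G))) (hKn : K.Normal)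
    (hK : K.IsComplement' (H.subgroupOf (normalizer (H : Set G)))) :
    ∃ N : Subgroup G, N.Normal ∧ N.IsComplement' H := by
  letI := Fintype.ofFinite G
  haveI := hKn
  haveI : (H.subgroupOf (normalizer (H : Set G))).Normal := Subgroup.normal_in_normalizer
  obtain ⟨M, hMn, hsup, hinf⟩ := CfsgLib.Char.exists_normal_complement H hcoH
    (fun x hx y hy hxy => by
      by_cases hx1 : x = 1
      · refine ⟨1, one_mem H, ?_⟩
        subst hx1
        rw [isConj_one_right] at hxy
        rw [hxy]; group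
      obtain ⟨g, hg⟩ := isConj_iff.1 hxy
      have hgN : g ∈ (normalizer (H : Set G)) := by
        by_contra hgN
        exact hx1 (hTI g hgN x hx (by rw [hg]; exact hy))
      obtain ⟨k, hk, h, hh, hkh⟩ := Subgroup.mem_sup_of_normal_left.1
        (show (⟨g, hgN⟩ : (normalizer (H : Set G))) ∈ K ⊔ H.subgroupOf (normalizer (H : Set G)) by rw [hK.sup_eq_top]; exact Subgroup.mem_top _)
      refine ⟨h, hh, ?_⟩
      have hgkh : (k : G) * h = g := congrArg Subtype.val hkh
      set w : (normalizer (H : Set G)) := ⟨(h : G) * x * (h : G)⁻¹,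
        mul_mem (mul_mem h.2 (Subgroup.le_normalizer hx)) (inv_mem h.2)⟩
      have hwH : w ∈ H.subgroupOf (normalizer (H : Set G)) :=
        mul_mem (mul_mem hh (show ((⟨x, Subgroup.le_normalizer hx⟩ : normalizer (H : Set G))) ∈ H.subgroupOf (normalizer (H : Set G)) from hx)) (inv_mem hh)
      have hd : Disjoint K (H.subgroupOf (normalizer (H : Set G))) := hK.disjoint
      have hcomm := Subgroup.commute_of_normal_of_disjoint K (H.subgroupOf (normalizer (H : Set G))) inferInstance
        inferInstance hd k w hk hwH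
      have hcomm' : (k : G) * ((h : G) * x * (h : G)⁻¹) = ((h : G) * x * (h : G)⁻¹) * k :=
        congrArg Subtype.val hcomm
      rw [← hg, ← hgkh]
      calc (h : G) * x * (h : G)⁻¹ = ((h : G) * x * (h : G)⁻¹) * k * (k : G)⁻¹ := by group
        _ = (k : G) * ((h : G) * x * (h : G)⁻¹) * (k : G)⁻¹ := by rw [hcomm']
        _ = _ := by group)
    (fun E p hp hE hd => nilpotent_conj_le hTI hcoH (by
      haveI := Fact.mk hp
      obtain ⟨x, hxc, -, k, hk⟩ := hE
      haveI : (zpowers x).Normal := ⟨fun w hw g => by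
        rw [Subgroup.mem_center_iff.1 (zpowers_le.2 hxc hw) g, mul_inv_cancel_right]; exact hw⟩
      haveI : Group.IsNilpotent (E ⧸ zpowers x) :=
        (IsPGroup.of_card (n := k) (by rw [← Subgroup.index_eq_card, hk])).isNilpotent
      exact Subgroup.isNilpotent_of_ker_le_center (QuotientGroup.mk' (zpowers x))
        (by rw [QuotientGroup.ker_mk']; exact zpowers_le.2 hxc)) hd)
  haveI := hMn
  exact ⟨M, hMn, Subgroup.isComplement'_of_disjoint_and_mul_eq_univ (disjoint_iff.2 hinf)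
    (by rw [← Subgroup.normal_mul M H, hsup, Subgroup.coe_top])⟩

/-- A subgroup of the order of a complemented trivial intersection Hall subgroup is conjugate to it. -/
theorem exists_conj_eq (hTI : Cfsg.IsTISubset (H : Set G))
    (hcoH : (Nat.card H).Coprime H.index) (hH : H ≠ ⊥) {H₁ : Subgroup G}
    (h1 : Nat.card H₁ = Nat.card H) : ∃ g : G, H₁.map (MulAut.conj g).toMonoidHom = H := by
  classical
  have hH1 : H₁ ≠ ⊥ := fun e => hH (Subgroup.eq_bot_of_card_eq H (by rw [← h1, e, Subgroup.card_bot]))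
  suffices h : ∃ g : G, H₁.map (MulAut.conj g).toMonoidHom ≤ H by
    obtain ⟨g, hg⟩ := h
    exact ⟨g, Subgroup.eq_of_le_of_card_ge hg
      (by rw [Subgroup.card_map_of_injective (MulEquiv.injective _), h1])⟩
  by_contra hno
  push Not at hno
  haveI : Nontrivial H₁ := (Subgroup.nontrivial_iff_ne_bot _).2 hH1
  let A : G → Subgroup H₁ := fun g => (H.comap (MulAut.conj g).toMonoidHom).subgroupOf H₁
  have hAmem : ∀ g : G, ∀ x : H₁, x ∈ A g ↔ g * (x : G) * g⁻¹ ∈ H := fun g x => Iff.rfl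
  have hAtop : ∀ g, A g ≠ ⊤ := fun g e => hno g (by
    rintro _ ⟨x, hx, rfl⟩
    exact (hAmem g ⟨x, hx⟩).1 (e ▸ Subgroup.mem_top _))
  have hmal : ∀ g (y : H₁), y ∉ A g → ∀ a ∈ A g, y * a * y⁻¹ ∈ A g → a = 1 := by
    intro g y hy a ha hya
    by_contra ha1
    apply hy
    rw [hAmem] at ha hya ⊢
    refine mem_of_mem_normalizer hcoH ?_ ?_
    · by_contra hn
      have := hTI (g * (y : G) * g⁻¹) hn _ ha (by
        have e : g * (y : G) * g⁻¹ * (g * (a : G) * g⁻¹) * (g * (y : G) * g⁻¹)⁻¹ =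
            g * ((y * a * y⁻¹ : H₁) : G) * g⁻¹ := by
          simp only [Subgroup.coe_mul, Subgroup.coe_inv]; group
        rw [e]; exact hya)
      rw [conj_eq_one_iff] at this
      exact ha1 (Subtype.ext this)
    · rw [← MulAut.conj_apply, MulEquiv.orderOf_eq, Subgroup.orderOf_coe, ← h1]
      exact orderOf_dvd_natCard y
  have hcover : ∀ x : H₁, ∃ g, x ∈ A g := by
    intro x
    have hnil : Group.IsNilpotent (zpowers (x : G)) := by
      letI : CommGroup (zpowers (x : G)) :=
        { (inferInstance : Group (zpowers (x : G))) with mul_comm := fun u v => mul_comm' u v }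
      exact CommGroup.isNilpotent
    obtain ⟨g, hg⟩ := nilpotent_conj_le hTI hcoH (E := zpowers (x : G)) hnil
      (by rw [Nat.card_zpowers, Subgroup.orderOf_coe, ← h1]; exact orderOf_dvd_natCard x)
    exact ⟨g, hg ⟨x, mem_zpowers _, rfl⟩⟩
  obtain ⟨a, ha⟩ := exists_ne (1 : H₁)
  obtain ⟨g, hg⟩ := hcover a
  obtain ⟨K, -, hKinf, -, hKc, hKmem⟩ :=
    CfsgLib.Char.exists_frobenius_kernel (A g) (hmal g)
  have hK1 : 1 < Nat.card K := by
    rw [hKc]
    exact Subgroup.one_lt_index_of_ne_top (hAtop g)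
  obtain ⟨⟨x, hxK⟩, hx1⟩ := @exists_ne K (Finite.one_lt_card_iff_nontrivial.1 hK1) 1
  replace hx1 : x ≠ 1 := fun e => hx1 (Subtype.ext e)
  obtain ⟨g', hg'⟩ := hcover x
  obtain ⟨K', -, -, -, hKc', hKmem'⟩ :=
    CfsgLib.Char.exists_frobenius_kernel (A g') (hmal g')
  have hlarge : ∀ g₀, 2 ≤ (A g₀).index := fun g₀ => Subgroup.one_lt_index_of_ne_top (hAtop g₀)
  have hA1 : 2 ≤ Nat.card (A g) := by
    have : A g ≠ ⊥ := fun e => ha (Subgroup.mem_bot.1 (e ▸ hg))
    exact (Subgroup.one_lt_card_iff_ne_bot _).2 this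
  have hA1' : 2 ≤ Nat.card (A g') := by
    have : A g' ≠ ⊥ := fun e => hx1 (Subgroup.mem_bot.1 (e ▸ hg'))
    exact (Subgroup.one_lt_card_iff_ne_bot _).2 this
  -- every element lies in one of the two kernels
  have hun : ∀ y : H₁, y ∈ K ∨ y ∈ K' := by
    intro y
    by_contra hy
    push Not at hy
    obtain ⟨h2, h3⟩ := hy
    rw [hKmem] at h2
    rw [hKmem'] at h3
    push Not at h2 h3
    obtain ⟨u, hu, hu1⟩ := h2
    obtain ⟨v, hv, hv1⟩ := h3
    apply hx1
    have hwA : ∀ w : H₁, w ∈ A g' → (u⁻¹ * v) * w * (u⁻¹ * v)⁻¹ ∈ A g := by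
      intro w hw
      rw [hAmem] at hu hv hw ⊢
      simp only [Subgroup.coe_mul, Subgroup.coe_inv] at hu hv hw ⊢
      set d : G := g * ((u : G)⁻¹ * v) * g'⁻¹
      have hd : d ∈ normalizer (H : Set G) := by
        by_contra hd
        have := hTI d hd _ hv (by
          have e : d * (g' * ((v : G)⁻¹ * y * v) * g'⁻¹) * d⁻¹ = g * ((u : G)⁻¹ * y * u) * g⁻¹ := by
            simp only [d]; group
          rw [e]; exact hu)
        rw [conj_eq_one_iff] at this
        exact hv1 (Subtype.ext (by simpa using this))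
      have := (Subgroup.mem_normalizer_iff.1 hd _).1 hw
      have e : g * ((u : G)⁻¹ * v * w * ((u : G)⁻¹ * v)⁻¹) * g⁻¹ = d * (g' * w * g'⁻¹) * d⁻¹ := by
        simp only [d]; group
      rw [e]; exact this
    have h5 := hwA x hg'
    have h6 := (hKmem x).1 hxK (u⁻¹ * v)⁻¹ (by simpa using h5)
    rwa [inv_inv, conj_eq_one_iff] at h6
  have hc1 := (A g).card_mul_index
  have hc2 := (A g').card_mul_index
  rw [← hKc] at hc1
  rw [← hKc'] at hc2
  have hle : Nat.card H₁ + 1 ≤ Nat.card K + Nat.card K' := by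
    have h1 : ((K : Set H₁) ∪ (K' : Set H₁)) = Set.univ := Set.eq_univ_of_forall hun
    have h2 := Set.ncard_union_add_ncard_inter (K : Set H₁) (K' : Set H₁)
    rw [h1, Set.ncard_univ, ← Nat.card_coe_set_eq, ← Nat.card_coe_set_eq (K : Set H₁),
      ← Nat.card_coe_set_eq (K' : Set H₁)] at h2
    have h3 : 0 < Nat.card ((K : Set H₁) ∩ (K' : Set H₁) : Set H₁) := by
      haveI : Nonempty ((K : Set H₁) ∩ (K' : Set H₁) : Set H₁) := ⟨⟨1, one_mem K, one_mem K'⟩⟩
      exact Nat.card_pos
    change _ ≤ Nat.card (K : Set H₁) + Nat.card (K' : Set H₁)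
    omega
  nlinarith [hc1, hc2, hA1, hA1', hle]

end CfsgLib.FgsTIComplement
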