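import Cfsg.Agent.Lib.FgsTIComplement
import Cfsg.Agent.Lib.CorePGroup

/-!
A nonnormal complemented trivial intersection Hall subgroup is a Frobenius complement.
-/

set_option autoImplicit false

namespace CfsgLib.FgsTIFrobenius

open Subgroup
open scoped commutatorElement
open CfsgLib.FgsTIComplement

universe u

variable {G : Type u} [Group G] [Finite G] {H : Subgroup G}

theorem exists_invariant_sylow (hTI : Cfsg.IsTISubset (H : Set G))
    (hcoH : (Nat.card H).Coprime H.index) (hH : H ≠ ⊥) {M : Subgroup G} [M.Normal]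
    (hM : M.IsComplement' H) (q : ℕ) [Fact q.Prime] :
    ∃ P : Subgroup G, IsPGroup q P ∧ P ≤ M ∧ ¬ q ∣ P.relIndex M ∧
      H ≤ normalizer (P : Set G) := by
  have hcardM : Nat.card M = H.index := hM.index_eq_card.symm
  have hidxM : M.index = Nat.card H := hM.symm.index_eq_card
  obtain ⟨Q⟩ := (inferInstance : Nonempty (Sylow q M))
  set P := (Q : Subgroup M).map M.subtype with hP
  have hPM : P ≤ M := Subgroup.map_subtype_le _
  set W := normalizer (P : Set G)
  have hfr : W ⊔ M = ⊤ := Sylow.normalizer_sup_eq_top Q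
  set D := M.subgroupOf W with hD
  have hDi : D.index = Nat.card H := by
    rw [← hidxM]
    change M.relIndex W = M.index
    rw [← Subgroup.relIndex_sup_right, hfr, Subgroup.relIndex_top_right]
  have hDc : Nat.card D ∣ Nat.card M := by
    rw [← (Subgroup.card_map_of_injective W.subtype_injective : Nat.card (D.map W.subtype) = Nat.card D)]
    exact Subgroup.card_dvd_of_le (by rintro _ ⟨x, hx, rfl⟩; exact hx)
  obtain ⟨C, hC⟩ := Subgroup.exists_right_complement'_of_coprime (N := D)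
    (by rw [hDi]; exact (hcoH.symm.coprime_dvd_left (hcardM ▸ hDc)))
  have hCc : Nat.card C = Nat.card H := by
    rw [← hDi, hC.symm.index_eq_card]
  obtain ⟨g, hg⟩ := exists_conj_eq hTI hcoH hH (H₁ := C.map W.subtype)
    (by rw [Subgroup.card_map_of_injective W.subtype_injective, hCc])
  refine ⟨P.map (MulAut.conj g).toMonoidHom, (Q.isPGroup'.map _).map _, ?_, ?_, ?_⟩
  · rintro _ ⟨x, hx, rfl⟩
    exact ‹M.Normal›.conj_mem x (hPM hx) g
  · have e : M.map (MulAut.conj g).toMonoidHom = M := Subgroup.normal_iff_map_conj_eq.1 ‹M.Normal› g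
    conv => enter [1, 2, 2]; rw [← e]
    rw [      Subgroup.relIndex_map_map_of_injective _ _ (MulEquiv.injective _), hP, Subgroup.relIndex,
      ← Subgroup.comap_subtype, Subgroup.comap_map_eq_self_of_injective M.subtype_injective]
    exact Q.not_dvd_index
  · rw [← hg]
    rintro _ ⟨x, ⟨y, -, rfl⟩, rfl⟩
    exact Subgroup.le_normalizer_map _ ⟨y, y.2, rfl⟩

theorem exists_moved_sylow (hTI : Cfsg.IsTISubset (H : Set G))
    (hcoH : (Nat.card H).Coprime H.index) (hnn : ¬ H.Normal) {M : Subgroup G} [M.Normal]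
    (hM : M.IsComplement' H) :
    ∃ (q : ℕ) (_ : Fact q.Prime) (P : Subgroup G), IsPGroup q P ∧ P ≤ M ∧
      H ≤ normalizer (P : Set G) ∧ ¬ P ≤ centralizer (H : Set G) := by
  by_contra hcon
  push Not at hcon
  have hH : H ≠ ⊥ := fun e => hnn (by rw [e]; infer_instance)
  apply hnn
  set C := centralizer (H : Set G) with hC
  have hMC : M ≤ C := by
    rw [← Subgroup.relIndex_eq_one]
    refine Nat.eq_one_iff_not_exists_prime_dvd.2 fun q hq hd => ?_
    haveI := Fact.mk hq
    obtain ⟨P, hP, hPM, hPi, hHP⟩ := exists_invariant_sylow hTI hcoH hH hM q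
    exact hPi (hd.trans (Subgroup.relIndex_dvd_of_le_left _ (hcon q ⟨hq⟩ P hP hPM hHP)))
  rw [← Subgroup.normalizer_eq_top_iff, eq_top_iff, ← hM.sup_eq_top]
  exact sup_le (hMC.trans (CfsgLib.Core.centralizer_le_normalizer H)) Subgroup.le_normalizer

theorem exists_frobenius (hTI : Cfsg.IsTISubset (H : Set G))
    (hcoH : (Nat.card H).Coprime H.index) (hnn : ¬ H.Normal) {M : Subgroup G} [M.Normal]
    (hM : M.IsComplement' H) :
    ∃ (F : Type u) (_ : Group F) (_ : Finite F) (C : Subgroup F),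
      Cfsg.IsFrobeniusComplement C ∧ Nonempty (H ≃* C) := by
  have hH : H ≠ ⊥ := fun e => hnn (by rw [e]; infer_instance)
  obtain ⟨q, _, P, hP, hPM, hHP, hPC⟩ := exists_moved_sylow hTI hcoH hnn hM
  set Φ := (frattini P).map P.subtype with hΦ
  set D := P ⊓ centralizer (H : Set G) with hD
  set R := Φ ⊔ D with hR
  have hRP : R ≤ P := sup_le (Subgroup.map_subtype_le _) inf_le_left
  have hΦc : ⁅P, P⁆ ≤ Φ := by
    rw [hΦ, ← map_subtype_commutator]
    exact Subgroup.map_mono (CfsgLib.Core.pgroup_commutator_le_frattini hP)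
  have hPR : ∀ x ∈ P, ∀ r ∈ R, x * r * x⁻¹ ∈ R := by
    intro x hx r hr
    have h1 : ⁅x, r⁆ ∈ R :=
      (hΦc.trans le_sup_left) (Subgroup.commutator_mem_commutator hx (hRP hr))
    have := mul_mem h1 hr
    rwa [commutatorElement_def, inv_mul_cancel_right] at this
  have hHR : ∀ x ∈ H, ∀ r ∈ R, x * r * x⁻¹ ∈ R := by
    intro x hx r hr
    have hle : R.map (MulAut.conj x).toMonoidHom ≤ R := by
      rw [hR, Subgroup.map_sup]
      refine sup_le (le_sup_of_le_left ?_) (le_sup_of_le_right ?_)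
      · rintro _ ⟨_, ⟨y, hy, rfl⟩, rfl⟩
        let φ : MulAut P := P.normalizerMonoidHom ⟨x, hHP hx⟩
        exact ⟨φ y, (Subgroup.characteristic_iff_map_eq.1 frattini_characteristic φ).le ⟨y, hy, rfl⟩,
          rfl⟩
      · rintro _ ⟨y, hy, rfl⟩
        have : x * y * x⁻¹ = y := by
          rw [Subgroup.mem_centralizer_iff.1 hy.2 x hx, mul_inv_cancel_right]
        change x * y * x⁻¹ ∈ _
        rw [this]
        exact hy
    exact hle ⟨r, hr, rfl⟩
  set L := P ⊔ H with hL
  have hLR : L ≤ normalizer (R : Set G) :=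
    sup_le (CfsgLib.Core.le_normalizer_iff_forall.mpr hPR) (CfsgLib.Core.le_normalizer_iff_forall.mpr hHR)
  haveI hRn : (R.subgroupOf L).Normal :=
    (Subgroup.normal_subgroupOf_iff_le_normalizer (hRP.trans le_sup_left)).2 hLR
  haveI hPn : (P.subgroupOf L).Normal :=
    (Subgroup.normal_subgroupOf_iff_le_normalizer le_sup_left).2 (sup_le Subgroup.le_normalizer hHP)
  set π := QuotientGroup.mk' (R.subgroupOf L) with hπ
  set K := (P.subgroupOf L).map π with hK
  set C := (H.subgroupOf L).map π with hC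
  haveI : K.Normal := hPn.map π (QuotientGroup.mk'_surjective _)
  have hπ1 : ∀ x : L, π x = 1 ↔ (x : G) ∈ R := fun x =>
    (QuotientGroup.eq_one_iff x).trans Subgroup.mem_subgroupOf
  have hdisj : ∀ x : G, x ∈ P → x ∈ H → x = 1 := fun x hx hx' =>
    Subgroup.disjoint_def.1 hM.disjoint (hPM hx) hx'
  have hinj : Function.Injective (π.comp (Subgroup.inclusion (le_sup_right : H ≤ L))) := by
    rw [← MonoidHom.ker_eq_bot_iff, Subgroup.eq_bot_iff_forall]
    intro x hx
    exact Subtype.ext (hdisj x (hRP ((hπ1 _).1 hx)) x.2)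
  have hCrange : (π.comp (Subgroup.inclusion (le_sup_right : H ≤ L))).range = C := by
    rw [MonoidHom.range_comp, Subgroup.inclusion_range]
  have hcomp : K.IsComplement' C := by
    refine Subgroup.isComplement'_of_disjoint_and_mul_eq_univ ?_ ?_
    · rw [Subgroup.disjoint_def]
      rintro z ⟨a, ha, rfl⟩ ⟨b, hb, hba⟩
      have h1 : π (a⁻¹ * b) = 1 := by rw [map_mul, map_inv, hba, inv_mul_cancel]
      rw [hπ1] at h1
      have hbP : (b : G) ∈ P := by
        have := mul_mem (Subgroup.mem_subgroupOf.1 ha) (hRP h1)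
        rwa [Subgroup.coe_mul, Subgroup.coe_inv, mul_inv_cancel_left] at this
      have hb1 : b = 1 := Subtype.ext (hdisj b hbP hb)
      rw [← hba, hb1, map_one]
    · refine Set.eq_univ_of_forall fun z => ?_
      obtain ⟨x, rfl⟩ := QuotientGroup.mk'_surjective _ z
      obtain ⟨a, ha, b, hb, hab⟩ := (CfsgLib.Core.mem_sup_iff_of_le_normalizer' hHP).1
        (show (x : G) ∈ H ⊔ P by rw [sup_comm]; exact x.2)
      refine ⟨π ⟨a, (le_sup_left : P ≤ L) ha⟩, ⟨_, ha, rfl⟩,
        π ⟨b, (le_sup_right : H ≤ L) hb⟩, ⟨_, hb, rfl⟩, ?_⟩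
      change π _ * π _ = π x
      rw [← map_mul]
      exact congrArg π (Subtype.ext hab)
  have hK0 : K ≠ ⊥ := by
    intro h
    apply hPC
    have hle : P ≤ R := fun x hx => (hπ1 ⟨x, (le_sup_left : P ≤ L) hx⟩).1
      (Subgroup.mem_bot.1 (h ▸ ⟨_, hx, rfl⟩))
    have htop : D.subgroupOf P ⊔ frattini P = ⊤ := by
      apply Subgroup.map_injective P.subtype_injective
      rw [Subgroup.map_sup, Subgroup.map_subgroupOf_eq_of_le inf_le_left, ← MonoidHom.range_eq_map,
        Subgroup.range_subtype, sup_comm]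
      exact le_antisymm hRP hle
    exact (Subgroup.subgroupOf_eq_top.1 (frattini_nongenerating htop)).trans inf_le_right
  have hC0 : C ≠ ⊥ := by
    rw [← hCrange]
    intro h
    apply hH
    rw [Subgroup.eq_bot_iff_forall]
    intro x hx
    have : π.comp (Subgroup.inclusion (le_sup_right : H ≤ L)) ⟨x, hx⟩ = 1 :=
      Subgroup.mem_bot.1 (h ▸ ⟨⟨x, hx⟩, rfl⟩)
    exact congrArg Subtype.val (hinj (this.trans (map_one _).symm))
  refine ⟨L ⧸ R.subgroupOf L, inferInstance, inferInstance, C,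
    CfsgLib.Core.isFrobeniusComplement_of_fpf hcomp hK0 hC0 ?_,
    ⟨(MonoidHom.ofInjective hinj).trans (MulEquiv.subgroupCongr hCrange)⟩⟩
  rintro _ ⟨b, hb, rfl⟩ hb1 _ ⟨a, ha, rfl⟩ hba
  rw [hπ1]
  have hb0 : (b : G) ≠ 1 := fun e => hb1 (by
    rw [show b = 1 from Subtype.ext e, map_one])
  have hfix : (b : G) * a * (b : G)⁻¹ * (a : G)⁻¹ ∈ R := by
    have : π (b * a * b⁻¹ * a⁻¹) = 1 := by
      rw [map_mul, map_mul, map_mul, map_inv, map_inv, hba]; group
    rw [hπ1] at this
    exact this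
  have hz : Subgroup.zpowers (b : G) ≤ H := Subgroup.zpowers_le.2 hb
  have hcopzP : (Nat.card (Subgroup.zpowers (b : G))).Coprime (Nat.card P) :=
    (hcoH.coprime_dvd_left (Subgroup.card_dvd_of_le hz)).coprime_dvd_right
      (hM.index_eq_card ▸ Subgroup.card_dvd_of_le hPM)
  obtain ⟨c, hc, hcR⟩ := CfsgLib.Core.exists_fixed_of_fixed_mod (A := Subgroup.zpowers (b : G))
    (K := P) (N := R) (hz.trans hHP) (CfsgLib.Core.inf_eq_bot_of_coprime hcopzP) hRP
    (CfsgLib.Core.le_normalizer_iff_forall.mpr hPR)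
    (hz.trans (CfsgLib.Core.le_normalizer_iff_forall.mpr hHR))
    (hcopzP.coprime_dvd_right (Subgroup.card_dvd_of_le hRP))
    (Or.inr (by
      haveI : Group.IsNilpotent R := (hP.to_le hRP).isNilpotent
      infer_instance)) (k := (a : G)) ha (fun w hw => by
      obtain ⟨i, hi⟩ := Subgroup.mem_zpowers_iff.1 hw
      subst hi
      have hbZ : π b ∈ Subgroup.centralizer ({π a} : Set (L ⧸ R.subgroupOf L)) :=
        Subgroup.mem_centralizer_singleton_iff.2 hba
      have h1 := Subgroup.mem_centralizer_singleton_iff.1 (zpow_mem hbZ i)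
      have h2 : π (b ^ i * a * (b ^ i)⁻¹ * a⁻¹) = 1 := by
        rw [map_mul, map_mul, map_mul, map_inv, map_inv, map_zpow, h1]; group
      rw [hπ1] at h2
      simpa using h2)
  have hcN : c ∈ normalizer (H : Set G) := by
    by_contra hcN
    refine hb0 (hTI c hcN b hb ?_)
    have : c * (b : G) * c⁻¹ = b := by
      rw [← Subgroup.mem_centralizer_iff.1 hc.2 b (Subgroup.mem_zpowers _), mul_inv_cancel_right]
    rw [this]; exact hb
  have hcC : c ∈ D := by
    refine ⟨hc.1, Subgroup.mem_centralizer_iff.2 fun y hy => ?_⟩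
    have h1 : c * y * c⁻¹ * y⁻¹ ∈ M := by
      have := mul_mem (hPM hc.1) (‹M.Normal›.conj_mem _ (inv_mem (hPM hc.1)) y)
      simpa [mul_assoc] using this
    have h2 : c * y * c⁻¹ * y⁻¹ ∈ H :=
      mul_mem ((Subgroup.mem_normalizer_iff.1 hcN y).1 hy) (inv_mem hy)
    have h3 := Subgroup.disjoint_def.1 hM.disjoint h1 h2
    exact (mul_inv_eq_iff_eq_mul.1 (mul_inv_eq_one.1 h3)).symm
  have := mul_mem ((le_sup_right : D ≤ R) hcC) (inv_mem hcR)
  simpa [mul_assoc] using this

end CfsgLib.FgsTIFrobenius
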