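import Cfsg.Agent.Lib.PermFpfStructure
import Cfsg.Agent.Lib.CoreFrobeniusOrder
import Cfsg.Agent.Lib.FgsAutFrattini
import Cfsg.Agent.Lib.CoreSZ
import Cfsg.Agent.Lib.CoreLayer
import Cfsg.Agent.Lib.LocalPowerWeak
import Cfsg.Prelude.Def_OddOrderLocal

/-!
Automorphism groups of solvable groups with a fixed-point-free representation.
-/

set_option autoImplicit false

namespace CfsgLib.TISep

open Subgroup
open scoped commutatorElement Pointwise

universe u v

/-- A `p`-group with small Frattini quotient has solvable automorphism group. -/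
theorem aut_solvable_two {P : Type u} [Group P] [Finite P] {p : ℕ} [Fact p.Prime] (hP : IsPGroup p P)
    (h4 : (frattini P).index ≤ 4) : Group.IsSolvable (MulAut P) := by
  obtain ⟨n, hn⟩ := hP.exists_card_eq
  obtain ⟨r, hr⟩ := hP.index (frattini P)
  set f := CfsgLib.Core.permModFrattini P
  haveI : Group.IsSolvable (Equiv.Perm (P ⧸ frattini P)) :=
    CfsgLib.FpfQuat.FpfRep.isSolvable_perm_small (by rwa [← Subgroup.index_eq_card])
  have hker : ∀ α ∈ f.ker, ∀ x : P, α x * x⁻¹ ∈ frattini P := by
    intro α hα x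
    have h1 : f α (QuotientGroup.mk x) = QuotientGroup.mk x := by
      rw [MonoidHom.mem_ker.mp hα]; rfl
    have h2 : QuotientGroup.mk' (frattini P) (α x) = QuotientGroup.mk' (frattini P) x := h1
    rw [← QuotientGroup.eq_one_iff (N := frattini P), ← QuotientGroup.mk'_apply, map_mul, map_inv, h2,
      mul_inv_cancel]
  haveI : Group.IsSolvable f.ker := by
    obtain ⟨k, -, hk⟩ := (Nat.dvd_prime_pow (Fact.out : p.Prime)).mp
      (CfsgLib.FgsAutFrattini.card_kernel_dvd hn hr f.ker hker)
    haveI := (IsPGroup.of_card hk).isNilpotent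
    infer_instance
  exact Group.isSolvable_of_ker_le_range f.ker.subtype f (by rw [Subgroup.range_subtype])

/-- A cyclic group has abelian automorphism group. -/
theorem aut_comm_of_cyclic {P : Type u} [Group P] [IsCyclic P] (α β : MulAut P) : α * β = β * α := by
  obtain ⟨m, hm⟩ := MonoidHom.map_cyclic α.toMonoidHom
  obtain ⟨k, hk⟩ := MonoidHom.map_cyclic β.toMonoidHom
  ext x
  show α (β x) = β (α x)
  have e1 : β x = x ^ k := hk x
  have e2 : α x = x ^ m := hm x
  rw [e1, map_zpow, e2, map_zpow, e1, ← zpow_mul, ← zpow_mul, mul_comm]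

variable {G : Type u} [Group G] [Finite G] {A : Type v} [Ring A] [Algebra ℚ A]

theorem sylSmall [Nontrivial A] (R : CfsgLib.FpfQuat.FpfRep G A) : CfsgLib.Core.SylSmall G := by
  intro q hq Q hQ
  haveI := Fact.mk hq
  rcases R.cyclic_or_quaternion hQ with hc | ⟨-, n, ⟨e⟩⟩
  · obtain ⟨a, ha⟩ := hc.exists_generator
    exact ⟨a, by rw [Subgroup.index_eq_one.2 ((Subgroup.eq_top_iff' _).2 ha)]; exact one_dvd _⟩
  · haveI : NeZero (2 ^ n) := ⟨by positivity⟩
    refine ⟨e.symm (QuaternionGroup.a 1), ?_⟩
    have h1 := (Subgroup.zpowers (e.symm (QuaternionGroup.a 1))).index_mul_card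
    rw [Nat.card_zpowers, MulEquiv.orderOf_eq, QuaternionGroup.orderOf_a_one, Nat.card_congr e.toEquiv,
      Nat.card_eq_fintype_card, QuaternionGroup.card] at h1
    refine Dvd.intro 1 ?_
    have : 0 < 2 ^ n := by positivity
    nlinarith

theorem aut_solvable_sub [Nontrivial A] (R : CfsgLib.FpfQuat.FpfRep G A) {q : ℕ} [hq : Fact q.Prime]
    (Q : Subgroup G) (hQ : IsPGroup q Q) : Group.IsSolvable (MulAut Q) := by
  by_cases h2 : q = 2
  · subst h2
    exact aut_solvable_two hQ (((sylSmall R).frattini_index_le hq.out hQ).trans (by norm_num))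
  · haveI := (sylSmall R).isCyclic hq.out h2 hQ
    exact Group.isSolvable_of_comm aut_comm_of_cyclic

/-- The automorphism group of a solvable group with a fixed-point-free representation is solvable. -/
theorem aut_solvable [Nontrivial A] (R : CfsgLib.FpfQuat.FpfRep G A) [Group.IsSolvable G] :
    Group.IsSolvable (MulAut G) := by
  classical
  haveI hchar : ∀ q : ℕ, (Cfsg.pCore q G).Characteristic := CfsgLib.Core.characteristic_pCore
  have hq : ∀ q : ℕ, q.Prime → ∃ N : ℕ, derivedSeries (MulAut (Cfsg.pCore q G)) N = ⊥ := fun q hq => by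
    haveI := Fact.mk hq
    haveI := aut_solvable_sub R _ (CfsgLib.Core.isPGroup_pCore q)
    exact (Group.isSolvable_def _).mp inferInstance
  choose! N hN using hq
  set M := (Nat.card G).primeFactors.sup N
  have hfix : ∀ α ∈ derivedSeries (MulAut G) M, ∀ x ∈ Cfsg.fittingSubgroup G, α x = x := by
    intro α hα
    suffices h : Cfsg.fittingSubgroup G ≤ MonoidHom.eqLocus α.toMonoidHom (MonoidHom.id G) from
      fun x hx => h hx
    rw [CfsgLib.Core.fittingSubgroup_eq_iSup_pCore]
    refine iSup_le fun q => ?_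
    haveI := Fact.mk q.2
    by_cases hd : (q : ℕ) ∣ Nat.card G
    · intro x hx
      let res : MulAut G →* MulAut (Cfsg.pCore (q : ℕ) G) :=
        { toFun := fun β => ((β.subgroupMap _).trans (MulEquiv.subgroupCongr
            (Subgroup.characteristic_iff_map_eq.1 (hchar q) β)))
          map_one' := by ext; rfl
          map_mul' := fun _ _ => by ext; rfl }
      have h1 : res α = 1 := by
        have h2 := map_derivedSeries_le_derivedSeries res M ⟨α, hα, rfl⟩
        rw [← Subgroup.mem_bot, ← hN q q.2]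
        exact derivedSeries_antitone _ (Finset.le_sup (Nat.mem_primeFactors.2 ⟨q.2, hd, Nat.card_pos.ne'⟩)) h2
      exact congrArg Subtype.val (DFunLike.congr_fun h1 ⟨x, hx⟩)
    · have : Cfsg.pCore (q : ℕ) G = ⊥ := by
        obtain ⟨k, hk⟩ := (CfsgLib.Core.isPGroup_pCore (G := G) (q : ℕ)).exists_card_eq
        rw [← Subgroup.card_eq_one, hk]
        rcases k.eq_zero_or_pos with rfl | hk0
        · rfl
        · exact absurd ((dvd_pow_self _ hk0.ne').trans (hk ▸ Subgroup.card_subgroup_dvd_card _)) hd
      rw [this]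
      exact bot_le
  haveI : (Cfsg.fittingSubgroup G).Characteristic := CfsgLib.Core.characteristic_fittingSubgroup
  have hz : ∀ α ∈ derivedSeries (MulAut G) M, ∀ h : G,
      h⁻¹ * α h ∈ Subgroup.centralizer (Cfsg.fittingSubgroup G : Set G) := by
    intro α hα h f hf
    have hn : h * f * h⁻¹ ∈ Cfsg.fittingSubgroup G := (inferInstance : (Cfsg.fittingSubgroup G).Normal).conj_mem f hf h
    have e := hfix α hα _ hn
    rw [map_mul, map_mul, map_inv, hfix α hα f hf] at e
    calc f * (h⁻¹ * α h) = h⁻¹ * (h * f * h⁻¹) * α h := by group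
      _ = h⁻¹ * (α h * f * (α h)⁻¹) * α h := by rw [e]
      _ = h⁻¹ * α h * f := by group
  refine (Group.isSolvable_def _).mpr ⟨M + 1, ?_⟩
  rw [derivedSeries_succ, Subgroup.commutator_eq_bot_iff_le_centralizer]
  intro α hα β hβ
  ext h
  show β (α h) = α (β h)
  have ha := CfsgLib.Core.centralizer_fitting_le (hz α hα h)
  have hb := CfsgLib.Core.centralizer_fitting_le (hz β hβ h)
  calc β (α h) = β h * β (h⁻¹ * α h) := by rw [← map_mul, mul_inv_cancel_left]
    _ = h * ((h⁻¹ * β h) * (h⁻¹ * α h)) := by rw [hfix β hβ _ ha, ← mul_assoc h, mul_inv_cancel_left]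
    _ = h * ((h⁻¹ * α h) * (h⁻¹ * β h)) := by rw [(hz β hβ h _ ha).symm]
    _ = α h * α (h⁻¹ * β h) := by rw [hfix α hα _ hb, ← mul_assoc h, mul_inv_cancel_left]
    _ = α (β h) := by rw [← map_mul, mul_inv_cancel_left]

section Local

variable {X : Type u} [Group X] [Finite X]

theorem coprime_sSup (n : ℕ) (S : Set (Subgroup X)) (hn : ∀ K ∈ S, K.Normal)
    (hc : ∀ K ∈ S, (Nat.card K).Coprime n) : (Nat.card ↥(sSup S)).Coprime n := by
  induction S, S.toFinite using Set.Finite.induction_on with
  | empty => simp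
  | @insert K T _ _ ih =>
    rw [sSup_insert]
    haveI := hn K (Set.mem_insert _ _)
    have hT := ih (fun L hL => hn L (Set.mem_insert_of_mem _ hL)) fun L hL => hc L (Set.mem_insert_of_mem _ hL)
    have h := CfsgLib.Core.card_sup_mul_card_inf (A := sSup T) (K := K)
      (le_top.trans (Subgroup.normalizer_eq_top (H := K)).ge)
    rw [sup_comm] at h
    exact Nat.Coprime.coprime_dvd_left (Dvd.intro _ h)
      (Nat.Coprime.mul_left hT (hc K (Set.mem_insert _ _)))

theorem relIndex_dvd_index_normal (S M : Subgroup X) [M.Normal] : S.relIndex M ∣ S.index := by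
  have h1 : M.relIndex (S ⊔ M) = M.relIndex S := Subgroup.relIndex_sup_right S M
  have h2 := CfsgLib.Core.card_sup_mul_card_inf (A := S) (K := M)
    (le_top.trans (Subgroup.normalizer_eq_top (H := M)).ge)
  have h3 := CfsgLib.Core.card_mul_relIndex (le_sup_left : S ≤ S ⊔ M)
  have h4 := CfsgLib.Core.card_mul_relIndex (inf_le_right : S ⊓ M ≤ M)
  rw [Subgroup.inf_relIndex_right] at h4
  have h5 : S.relIndex (S ⊔ M) = S.relIndex M := by
    refine Nat.eq_of_mul_eq_mul_left (Nat.mul_pos (Nat.card_pos (α := S)) (Nat.card_pos (α := ↥(S ⊓ M)))) ?_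
    calc Nat.card S * Nat.card ↥(S ⊓ M) * S.relIndex (S ⊔ M)
        = Nat.card ↥(S ⊔ M) * Nat.card ↥(S ⊓ M) := by rw [← h3]; ring
      _ = Nat.card S * Nat.card M := h2
      _ = _ := by rw [← h4]; ring
  exact h5 ▸ Subgroup.relIndex_dvd_index_of_le le_sup_left

theorem frattini_inf {p : ℕ} [Fact p.Prime] (S : Sylow p X) (M : Subgroup X) [M.Normal] (g : X) :
    ∃ m ∈ M, m⁻¹ * g ∈ Subgroup.normalizer (((S : Subgroup X) ⊓ M : Subgroup X) : Set X) := by
  obtain ⟨k, hk, n, -, hn, rfl⟩ := CfsgLib.Local.PowerWeak.frattini_in (H := ⊤) (T := (S : Subgroup X)) (K := M)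
    le_top S.2 (by rw [Subgroup.relIndex_top_right]; exact S.not_dvd_index) le_top
    (Subgroup.normalizer_eq_top (H := M)).ge (Subgroup.mem_top g)
  rw [inf_comm] at hn
  exact ⟨k, hk, by rwa [inv_mul_cancel_left]⟩

/-- A trivial-intersection subgroup acts fixed-point-freely on a section of a coprime solvable normal subgroup. -/
theorem exists_fpf_action (H O : Subgroup X) [O.Normal] [Group.IsSolvable O] (hTI : Cfsg.IsTISubset (H : Set X))
    (hc : (Nat.card O).Coprime (Nat.card H)) (hO : ¬ O ≤ Subgroup.normalizer (H : Set X)) :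
    ∃ (V : Type u) (_ : Group V) (_ : Finite V) (_ : Nontrivial V) (σ : H →* MulAut V),
      ∀ h : H, h ≠ 1 → ∀ v : V, σ h v = v → v = 1 := by
  classical
  set N := Subgroup.normalizer (H : Set X)
  obtain ⟨m, hm⟩ := (Group.isSolvable_def _).mp (inferInstance : Group.IsSolvable O)
  have hex : ∃ i, (derivedSeries O i).map O.subtype ≤ N := ⟨m, by rw [hm, Subgroup.map_bot]; exact bot_le⟩
  obtain ⟨j, hj⟩ : ∃ j, Nat.find hex = j + 1 := Nat.exists_eq_succ_of_ne_zero fun h => hO (by
    have := Nat.find_spec hex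
    rwa [h, derivedSeries_zero, ← MonoidHom.range_eq_map, Subgroup.range_subtype] at this)
  set D := (derivedSeries O j).map O.subtype with hD
  haveI hDn : D.Normal := inferInstance
  have hnot : ¬ D ≤ N := Nat.find_min hex (by omega)
  have hcomm : commutator D ≤ N.subgroupOf D := by
    have h : ⁅D, D⁆ ≤ N := by
      have := Nat.find_spec hex
      rwa [hj, derivedSeries_succ, Subgroup.map_commutator] at this
    intro x hx
    exact h (Subgroup.map_subtype_commutator D ▸ ⟨x, hx, rfl⟩)
  haveI : (N.subgroupOf D).Normal := CfsgLib.Core.normal_of_commutator_le hcomm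
  have hcent : ∀ c ∈ O ⊓ N, ∀ h ∈ H, c * h = h * c := by
    intro c hc' h hh
    have h1 : ⁅c, h⁆ ∈ O ⊓ H := ⟨by
        have := mul_mem hc'.1 ((inferInstance : O.Normal).conj_mem c⁻¹ (O.inv_mem hc'.1) h)
        simpa [commutatorElement_def, mul_assoc] using this,
      by
        simpa [commutatorElement_def] using mul_mem ((Subgroup.mem_normalizer_iff.mp hc'.2 h).mp hh) (H.inv_mem hh)⟩
    rw [CfsgLib.Core.inf_eq_bot_of_coprime hc, Subgroup.mem_bot] at h1
    exact commutatorElement_eq_one_iff_mul_comm.mp h1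
  have hDO : D ≤ O := Subgroup.map_subtype_le _
  have hmap : ∀ h : H, (N.subgroupOf D).map (MulAut.conjNormal (h : X) : MulAut D).toMonoidHom = N.subgroupOf D := by
    intro h
    ext y
    constructor
    · rintro ⟨x, hx, rfl⟩
      show ((MulAut.conjNormal (h : X) x : D) : X) ∈ N
      rw [MulAut.conjNormal_apply]
      exact mul_mem (mul_mem (Subgroup.le_normalizer h.2) hx) (N.inv_mem (Subgroup.le_normalizer h.2))
    · intro hy
      refine ⟨(MulAut.conjNormal (h : X)).symm y, ?_, MulEquiv.apply_symm_apply _ _⟩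
      show (((MulAut.conjNormal (h : X)).symm y : D) : X) ∈ N
      rw [MulAut.conjNormal_symm_apply]
      exact mul_mem (mul_mem (N.inv_mem (Subgroup.le_normalizer h.2)) hy) (Subgroup.le_normalizer h.2)
  let σ : H →* MulAut (D ⧸ N.subgroupOf D) :=
    { toFun := fun h => QuotientGroup.congr _ _ (MulAut.conjNormal (h : X)) (hmap h)
      map_one' := by
        apply MulEquiv.ext; intro v
        induction v using QuotientGroup.induction_on with
        | H x => exact congrArg QuotientGroup.mk (Subtype.ext (by simp [mul_assoc]))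
      map_mul' := fun a b => by
        apply MulEquiv.ext; intro v
        induction v using QuotientGroup.induction_on with
        | H x => exact congrArg QuotientGroup.mk (Subtype.ext (by simp [mul_assoc])) }
  refine ⟨D ⧸ N.subgroupOf D, inferInstance, inferInstance, ?_, σ, ?_⟩
  · rw [← not_subsingleton_iff_nontrivial, QuotientGroup.subsingleton_iff]
    exact fun h => hnot (Subgroup.subgroupOf_eq_top.mp h)
  intro h h1 v
  induction v using QuotientGroup.induction_on with
  | H x =>
    intro hv
    rw [QuotientGroup.eq_one_iff]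
    have hv' : QuotientGroup.mk (s := N.subgroupOf D) x = QuotientGroup.mk (MulAut.conjNormal (h : X) x) := hv.symm
    have hcN := QuotientGroup.eq.mp hv'
    set c := (x : X)⁻¹ * ((h : X) * x * (h : X)⁻¹) with hcdef
    have hcmem : c ∈ O ⊓ N := by
      refine ⟨mul_mem (O.inv_mem (hDO x.2)) ((inferInstance : O.Normal).conj_mem _ (hDO x.2) _), ?_⟩
      have : (((x⁻¹ * MulAut.conjNormal (h : X) x : D)) : X) ∈ N := hcN
      rwa [Subgroup.coe_mul, Subgroup.coe_inv, MulAut.conjNormal_apply] at this
    have hconj : (x : X)⁻¹ * (h : X) * x = c * (h : X) := by rw [hcdef]; group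
    have hpow : c ^ orderOf (h : X) = 1 := by
      have h2 : ((x : X)⁻¹ * (h : X) * x) ^ orderOf (h : X) = 1 := by
        rw [show (x : X)⁻¹ * (h : X) * x = (x : X)⁻¹ * (h : X) * ((x : X)⁻¹)⁻¹ by rw [inv_inv], conj_pow,
          pow_orderOf_eq_one, mul_one, mul_inv_cancel]
      rwa [hconj, (show Commute c (h : X) from hcent c hcmem h h.2).mul_pow, pow_orderOf_eq_one, mul_one] at h2
    have hc1 : c = 1 := orderOf_eq_one_iff.mp (Nat.eq_one_of_dvd_coprimes hc
      (Subgroup.orderOf_dvd_natCard O hcmem.1)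
      ((orderOf_dvd_of_pow_eq_one hpow).trans (Subgroup.orderOf_dvd_natCard H h.2)))
    rw [hc1, one_mul] at hconj
    by_contra hx
    refine h1 (Subtype.ext (hTI (x : X) hx h h.2 ?_))
    rw [show (x : X) * (h : X) * (x : X)⁻¹ = h by
      calc (x : X) * (h : X) * (x : X)⁻¹ = (x : X) * ((x : X)⁻¹ * (h : X) * x) * (x : X)⁻¹ := by rw [hconj]
        _ = h := by group]
    exact h.2

/-- The normalizer of a Hall subgroup is solvable when its automorphism group is. -/
theorem normalizer_solvable (H O : Subgroup X) [O.Normal] [Group.IsSolvable (MulAut H)] (hOs : Group.IsSolvable O)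
    (hHall : (Nat.card H).Coprime (H.subgroupOf (Subgroup.normalizer (H : Set X))).index)
    (hOmax : ∀ K : Subgroup X, K.Normal → (Nat.card K).Coprime (Nat.card H) → K ≤ O)
    (hON : O ⊔ Subgroup.normalizer (H : Set X) = ⊤) (hOc : (Nat.card O).Coprime (Nat.card H)) :
    Group.IsSolvable (Subgroup.normalizer (H : Set X)) := by
  set N := Subgroup.normalizer (H : Set X)
  set C := Subgroup.centralizer (H : Set X)
  have hCN : C ≤ N := Subgroup.centralizer_le_normalizer _
  haveI : (H.subgroupOf N).Normal := Subgroup.normal_in_normalizer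
  haveI : (H.subgroupOf C).Normal := ⟨fun x hx c => by
    show (c : X) * x * (c : X)⁻¹ ∈ H
    exact (Subgroup.mem_normalizer_iff.mp (hCN c.2) _).mp hx⟩
  have hZc : ∀ z ∈ H.subgroupOf C, ∀ c : C, z * c = c * z := fun z hz c =>
    Subtype.ext (c.2 (z : X) hz)
  have hidx : (Nat.card H).Coprime (H.subgroupOf C).index := by
    refine hHall.coprime_dvd_right ?_
    rw [show (H.subgroupOf C).index = (H.subgroupOf N).relIndex (C.subgroupOf N) by
      rw [Subgroup.relIndex_subgroupOf hCN]; rfl]
    exact Subgroup.relIndex_dvd_index_of_normal _ _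
  have hZcard : Nat.card (H.subgroupOf C) ∣ Nat.card H := by
    rw [← Subgroup.card_map_of_injective C.subtype_injective, Subgroup.subgroupOf_map_subtype]
    exact Subgroup.card_dvd_of_le inf_le_left
  obtain ⟨W, hW⟩ := Subgroup.exists_right_complement'_of_coprime (hidx.coprime_dvd_left hZcard)
  have hWcard : (Nat.card W).Coprime (Nat.card H) := hW.symm.index_eq_card ▸ hidx.symm
  have hdec : ∀ c : C, ∃ z ∈ H.subgroupOf C, ∃ w ∈ W, z * w = c := fun c =>
    Set.mem_mul.mp ((hW.mul_eq).symm ▸ Set.mem_univ c : c ∈ (H.subgroupOf C : Set C) * (W : Set C))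
  haveI hWn : W.Normal := ⟨fun w hw c => by
    obtain ⟨z, hz, v, hv, rfl⟩ := hdec c
    have : z * v * w * (z * v)⁻¹ = v * w * v⁻¹ := by
      have h1 := hZc z hz (v * w * v⁻¹)
      calc z * v * w * (z * v)⁻¹ = z * (v * w * v⁻¹) * z⁻¹ := by group
        _ = v * w * v⁻¹ := by rw [h1, mul_inv_cancel_right]
    rw [this]
    exact mul_mem (mul_mem hv hw) (W.inv_mem hv)⟩
  have hWuniq : ∀ x : C, (orderOf x).Coprime (Nat.card H) → x ∈ W := by
    intro x hx
    rw [← QuotientGroup.eq_one_iff (N := W), ← orderOf_eq_one_iff]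
    refine Nat.eq_one_of_dvd_coprimes hx (orderOf_map_dvd (QuotientGroup.mk' W) x) ?_
    refine (_root_.orderOf_dvd_natCard _).trans ?_
    rw [← Subgroup.index_eq_card, hW.index_eq_card]
    exact hZcard
  set W' := W.map C.subtype
  have hW'O : W' ≤ O := by
    refine le_sup_right.trans (hOmax (O ⊔ W') ?_ ?_)
    · refine Subgroup.normalizer_eq_top_iff.mp (top_le_iff.mp ?_)
      rw [← hON]
      refine sup_le (le_sup_left.trans Subgroup.le_normalizer) fun g hg => ?_
      rw [← CfsgLib.Core.conj_smul_eq_self_iff, CfsgLib.Core.conj_smul_eq_map, Subgroup.map_sup]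
      congr 1
      · exact Subgroup.Normal.map_conj_eq O g
      refine CfsgLib.Core.eq_of_le_of_card_le ?_ (Subgroup.card_map_of_injective (MulAut.conj g).injective).ge
      rintro _ ⟨_, ⟨w, hw, rfl⟩, rfl⟩
      have hgC : g * (w : X) * g⁻¹ ∈ C := (Subgroup.mem_normalizer_iff.mp
        (CfsgLib.Core.le_normalizer_centralizer le_rfl hg) _).mp w.2
      refine ⟨⟨_, hgC⟩, hWuniq _ ?_, rfl⟩
      rw [← Subgroup.orderOf_coe, show ((⟨g * (w : X) * g⁻¹, hgC⟩ : C) : X) = MulAut.conj g (w : X) from rfl,
        MulEquiv.orderOf_eq, Subgroup.orderOf_coe]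
      exact hWcard.coprime_dvd_left (Subgroup.orderOf_dvd_natCard W hw)
    · have h := CfsgLib.Core.card_sup_mul_card_inf (A := W') (K := O)
        (le_top.trans (Subgroup.normalizer_eq_top (H := O)).ge)
      rw [sup_comm] at h
      refine Nat.Coprime.coprime_dvd_left (Dvd.intro _ h) (Nat.Coprime.mul_left ?_ hOc)
      rwa [Subgroup.card_map_of_injective C.subtype_injective]
  haveI := hOs
  haveI : Group.IsSolvable W := by
    haveI := CfsgLib.Core.solvable_of_le hW'O hOs
    exact Group.isSolvable_of_surjective (f := (W.equivMapOfInjective C.subtype C.subtype_injective).symm.toMonoidHom)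
      (MulEquiv.surjective _)
  haveI : Group.IsSolvable (C ⧸ W) := by
    refine Group.isSolvable_of_comm fun a b => ?_
    induction a using QuotientGroup.induction_on with
    | H a =>
      induction b using QuotientGroup.induction_on with
      | H b =>
        obtain ⟨z, hz, w, hw, rfl⟩ := hdec a
        rw [QuotientGroup.mk_mul, (QuotientGroup.eq_one_iff w).mpr hw, mul_one, ← QuotientGroup.mk_mul,
          hZc z hz b, QuotientGroup.mk_mul]
  haveI : Group.IsSolvable C := Group.isSolvable_of_ker_le_range W.subtype (QuotientGroup.mk' W)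
    (by rw [QuotientGroup.ker_mk', Subgroup.range_subtype])
  haveI : Group.IsSolvable (C.subgroupOf N) :=
    Group.isSolvable_of_surjective (f := (Subgroup.subgroupOfEquivOfLe hCN).symm.toMonoidHom) (MulEquiv.surjective _)
  exact Group.isSolvable_of_ker_le_range (C.subgroupOf N).subtype H.normalizerMonoidHom
    (by rw [Subgroup.normalizerMonoidHom_ker, Subgroup.range_subtype])

end Local

end CfsgLib.TISep
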