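import Mathlib
import Cfsg.Agent.Lib.FgsAutFrattini
import Cfsg.Agent.Lib.CorePGroup

/-!
# Two-groups with abelianization of order four and an automorphism of odd order
-/

set_option autoImplicit false

namespace CfsgLib.Fgs.Taussky

open Subgroup
open scoped commutatorElement

section Four

variable {V : Type*} [Group V] [Finite V]

theorem mem_four (h : Nat.card V = 4) {a b c d : V} (hab : a ≠ b) (hac : a ≠ c) (had : a ≠ d)
    (hbc : b ≠ c) (hbd : b ≠ d) (hcd : c ≠ d) (u : V) : u = a ∨ u = b ∨ u = c ∨ u = d := by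
  classical
  letI := Fintype.ofFinite V
  have hs : ({a, b, c, d} : Finset V) = Finset.univ := by
    apply Finset.eq_univ_of_card
    rw [← Nat.card_eq_fintype_card, h]
    simp [hab, hac, had, hbc, hbd, hcd]
  simpa using hs.ge (Finset.mem_univ u)

theorem four_orbit (h : Nat.card V = 4) {ψ : MulAut V} {q : ℕ} (hq : Odd q) (hψq : ψ ^ q = 1)
    (hψ : ψ ≠ 1) {v : V} (hv : v ≠ 1) :
    v * v = 1 ∧ ψ (ψ v) = v * ψ v ∧ ∀ u : V, u ≠ 1 → u = v ∨ u = ψ v ∨ u = ψ (ψ v) := by
  have htwo : ∀ u : V, ψ (ψ u) = u → ψ u = u := by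
    intro u hu
    have hpow : ∀ k : ℕ, (ψ ^ (2 * k + 1)) u = ψ u := by
      intro k
      induction k with
      | zero => simp
      | succ k ih =>
        rw [show 2 * (k + 1) + 1 = (2 * k + 1) + 2 by ring, pow_add, MulAut.mul_apply, pow_two,
          MulAut.mul_apply, hu, ih]
    obtain ⟨k, rfl⟩ := hq
    rw [← hpow k, hψq, MulAut.one_apply]
  have hnofix : ∀ u : V, u ≠ 1 → ψ u ≠ u := by
    intro u hu hfix
    apply hψ
    ext w
    by_contra hw
    rw [MulAut.one_apply] at hw
    have hw1 : w ≠ 1 := fun e => hw (by rw [e, map_one])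
    have hwu : w ≠ u := fun e => hw (by rw [e, hfix])
    have h1 : ψ w ≠ 1 := fun e => hw1 (ψ.injective (by rw [e, map_one]))
    have h2 : ψ w ≠ u := fun e => hwu (ψ.injective (by rw [e, hfix]))
    have h3 : ψ (ψ w) ≠ ψ w := fun e => hw (ψ.injective e)
    have h4 : ψ (ψ w) ≠ 1 := fun e => h1 (ψ.injective (by rw [e, map_one]))
    have h5 : ψ (ψ w) ≠ u := fun e => h2 (ψ.injective (by rw [e, hfix]))
    rcases mem_four h hu.symm hw1.symm h1.symm hwu.symm h2.symm (Ne.symm hw) (ψ (ψ w)) with
      e | e | e | e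
    · exact h4 e
    · exact h5 e
    · exact hw (htwo w e)
    · exact h3 e
  have h1 : ψ v ≠ 1 := fun e => hv (ψ.injective (by rw [e, map_one]))
  have h2 : ψ (ψ v) ≠ 1 := fun e => h1 (ψ.injective (by rw [e, map_one]))
  have h3 : ψ v ≠ v := hnofix v hv
  have h4 : ψ (ψ v) ≠ ψ v := fun e => h3 (ψ.injective e)
  have h5 : ψ (ψ v) ≠ v := fun e => h3 (htwo v e)
  have hall : ∀ u : V, u ≠ 1 → u = v ∨ u = ψ v ∨ u = ψ (ψ v) := by
    intro u hu
    rcases mem_four h hv.symm h1.symm h2.symm h3.symm h5.symm h4.symm u with e | e | e | e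
    · exact absurd e hu
    · exact Or.inl e
    · exact Or.inr (Or.inl e)
    · exact Or.inr (Or.inr e)
  have hsq : v * v = 1 := by
    by_contra hne
    have hord : orderOf (v * v) = orderOf v := by
      rcases hall _ hne with e | e | e <;> rw [e]
      · exact MulEquiv.orderOf_eq ψ v
      · rw [MulEquiv.orderOf_eq ψ, MulEquiv.orderOf_eq ψ]
    have hv4 : v ^ 4 = 1 := h ▸ pow_card_eq_one'
    have : orderOf v ∣ 2 := by
      rw [← hord]
      apply orderOf_dvd_of_pow_eq_one
      rw [← hv4]
      simp [pow_succ, mul_assoc]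
    exact hne (by rw [← pow_two]; exact orderOf_dvd_iff_pow_eq_one.mp this)
  refine ⟨hsq, ?_, hall⟩
  have hne : v * ψ v ≠ 1 := fun e => h3 (mul_left_cancel (e.trans hsq.symm))
  rcases hall _ hne with e | e | e
  · exact absurd (mul_eq_left.mp e) h1
  · exact absurd (mul_eq_right.mp e) hv
  · exact e.symm

end Four

variable {R : Type*} [Group R]

theorem commutator_le_zpowers {a b : R} (hgen : closure {a, b} ⊔ commutator R = ⊤)
    (hC : commutator R ≤ center R) (ha : a * a ∈ commutator R) :
    commutator R ≤ zpowers ⁅a, b⁆ ∧ ⁅a, b⁆ * ⁅a, b⁆ = 1 := by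
  have hc0 : ⁅a, b⁆ ∈ center R :=
    hC (commutator_mem_commutator (mem_top a) (mem_top b))
  constructor
  · haveI : (zpowers ⁅a, b⁆).Normal := ⟨fun x hx g => by rw [mem_center_iff.mp ((zpowers_le.mpr hc0) hx) g, mul_inv_cancel_right]; exact hx⟩
    set π := QuotientGroup.mk' (zpowers ⁅a, b⁆)
    have htop : (⊤ : Subgroup R) ≤ (center (R ⧸ zpowers ⁅a, b⁆)).comap π := by
      have key : ∀ x : R, Commute (π a) (π x) → Commute (π b) (π x) →
          (∀ c ∈ commutator R, Commute (π c) (π x)) → x ∈ (center (R ⧸ zpowers ⁅a, b⁆)).comap π := by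
        intro x hax hbx hcx
        rw [mem_comap, mem_center_iff]
        intro y
        obtain ⟨y, rfl⟩ := QuotientGroup.mk'_surjective _ y
        have hy : y ∈ (centralizer {π x}).comap π := by
          have : closure {a, b} ⊔ commutator R ≤ (centralizer {π x}).comap π := by
            refine sup_le ((closure_le _).mpr ?_) fun c hc => ?_
            · rintro _ (rfl | rfl)
              · exact mem_centralizer_singleton_iff.mpr hax.eq
              · exact mem_centralizer_singleton_iff.mpr hbx.eq
            · exact mem_centralizer_singleton_iff.mpr (hcx c hc).eq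
          exact this (hgen ▸ mem_top y)
        exact mem_centralizer_singleton_iff.mp hy
      have hcomm : Commute (π a) (π b) := by
        have : π ⁅a, b⁆ = 1 := (QuotientGroup.eq_one_iff _).mpr (mem_zpowers _)
        rw [map_commutatorElement] at this
        exact commutatorElement_eq_one_iff_commute.mp this
      have hcen : ∀ c ∈ commutator R, ∀ x, Commute (π c) (π x) := fun c hc x => by
        show π c * π x = π x * π c
        rw [← map_mul, ← map_mul, mem_center_iff.mp (hC hc) x]
      rw [← hgen]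
      refine sup_le ((closure_le _).mpr ?_) fun c hc => ?_
      · rintro _ (rfl | rfl)
        · exact key _ (Commute.refl _) hcomm.symm fun c hc => hcen c hc _
        · exact key _ hcomm (Commute.refl _) fun c hc => hcen c hc _
      · exact key _ ((hcen c hc _).symm) ((hcen c hc _).symm) fun c' hc' => hcen c' hc' _
    rw [_root_.commutator_def, commutator_le]
    intro x hx y hy
    apply (QuotientGroup.eq_one_iff _).mp
    show π ⁅x, y⁆ = 1
    rw [map_commutatorElement, commutatorElement_eq_one_iff_commute]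
    exact mem_center_iff.mp (htop hy) (π x)
  · have h1 : ⁅a * a, b⁆ = 1 :=
      commutatorElement_eq_one_iff_commute.mpr (mem_center_iff.mp (hC ha) b).symm
    rw [← h1, commutatorElement_def, commutatorElement_def]
    have h2 : a * ⁅a, b⁆ = ⁅a, b⁆ * a := mem_center_iff.mp hc0 a
    rw [commutatorElement_def] at h2
    calc a * b * a⁻¹ * b⁻¹ * (a * b * a⁻¹ * b⁻¹)
        = (a * b * a⁻¹ * b⁻¹) * a * (b * a⁻¹ * b⁻¹) := by group
      _ = a * (a * b * a⁻¹ * b⁻¹) * (b * a⁻¹ * b⁻¹) := by rw [h2]
      _ = a * a * b * (a * a)⁻¹ * b⁻¹ := by group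

/-- If `[C,R]` is central and `C` is generated modulo it by a common square of two generators,
`C` is central. -/
theorem commutator_le_center_of_sq {a b : R} (hgen : closure {a, b} ⊔ commutator R = ⊤)
    (hD : ⁅commutator R, (⊤ : Subgroup R)⁆ ≤ center R)
    (hC : commutator R ≤ zpowers (a * a) ⊔ ⁅commutator R, (⊤ : Subgroup R)⁆)
    (hab : (a * a) * (b * b)⁻¹ ∈ ⁅commutator R, (⊤ : Subgroup R)⁆) :
    commutator R ≤ center R := by
  have hcen : a * a ∈ center R := by
    rw [mem_center_iff]
    intro y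
    have hy : y ∈ centralizer {a * a} := by
      have hle : zpowers (a * a) ⊔ ⁅commutator R, (⊤ : Subgroup R)⁆ ≤ centralizer {a * a} :=
        sup_le (zpowers_le.mpr (mem_centralizer_singleton_iff.mpr rfl)) fun d hd =>
          mem_centralizer_singleton_iff.mpr (mem_center_iff.mp (hD hd) _).symm
      have : closure {a, b} ⊔ commutator R ≤ centralizer {a * a} := by
        refine sup_le ((closure_le _).mpr ?_) (hC.trans hle)
        rintro w (e | e) <;> rw [e]
        · exact mem_centralizer_singleton_iff.mpr (mul_assoc _ _ _).symm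
        · refine mem_centralizer_singleton_iff.mpr ?_
          have h := mem_center_iff.mp (hD hab) b
          calc b * (a * a) = b * ((a * a) * (b * b)⁻¹) * (b * b) := by group
            _ = (a * a) * (b * b)⁻¹ * b * (b * b) := by rw [h]
            _ = a * a * b := by group
      exact this (hgen ▸ mem_top y)
    exact mem_centralizer_singleton_iff.mp hy
  exact hC.trans (sup_le (zpowers_le.mpr hcen) hD)

theorem eq_bot_of_commutator_eq [Group.IsNilpotent R] {X : Subgroup R}
    (h : X ≤ ⁅X, (⊤ : Subgroup R)⁆) : X = ⊥ := by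
  have key : ∀ n, X ≤ Subgroup.lowerCentralSeries (⊤ : Subgroup R) n := by
    intro n
    induction n with
    | zero => rw [Subgroup.lowerCentralSeries_zero]; exact le_top
    | succ n ih =>
      rw [Subgroup.lowerCentralSeries_succ]
      exact h.trans (commutator_mono ih le_rfl)
  obtain ⟨n, hn⟩ := Subgroup.nilpotent_iff_lowerCentralSeries.mp ‹Group.IsNilpotent R›
  exact eq_bot_iff.mpr ((key n).trans hn.le)

theorem map_commutator_surj {P : Type*} [Group P] {π : R →* P} (hπ : Function.Surjective π) :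
    (commutator R).map π = commutator P := by
  rw [_root_.commutator_def, _root_.commutator_def, Subgroup.map_commutator,
    Subgroup.map_top_of_surjective π hπ]

theorem map_gamma3 {P : Type*} [Group P] {π : R →* P} (hπ : Function.Surjective π) :
    (⁅commutator R, (⊤ : Subgroup R)⁆).map π = ⁅commutator P, (⊤ : Subgroup P)⁆ := by
  rw [Subgroup.map_commutator, map_commutator_surj hπ, Subgroup.map_top_of_surjective π hπ]

/-- A non-abelian 2-group with abelianization of order 4 and an automorphism group that is not a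
2-group has order 8 and one involution. -/
theorem card_eight_unique_involution {P : Type*} [Group P] [Finite P] (hP : IsPGroup 2 P)
    (hna : ¬ IsMulCommutative P) (h4 : (commutator P).index = 4)
    (haut : ¬ IsPGroup 2 (MulAut P)) :
    Nat.card P = 8 ∧ ∃ z : P, ∀ t : P, t ≠ 1 → t * t = 1 → t = z := by
  classical
  haveI := hP.isNilpotent
  haveI : Fact (Nat.Prime 2) := ⟨Nat.prime_two⟩
  set C := commutator P with hC
  have hC0 : C ≠ ⊥ := by
    intro e
    refine hna ⟨⟨fun x y => ?_⟩⟩
    have h1 : ⁅x, y⁆ ∈ C := commutator_mem_commutator (mem_top x) (mem_top y)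
    rw [e, mem_bot] at h1
    exact commutatorElement_eq_one_iff_mul_comm.mp h1
  -- an automorphism of odd prime order
  obtain ⟨q, hqp, hq2, φ, hφ⟩ : ∃ q : ℕ, q.Prime ∧ q ≠ 2 ∧ ∃ φ : MulAut P, orderOf φ = q := by
    by_contra hcon
    push Not at hcon
    apply haut
    refine IsPGroup.of_card (Nat.eq_prime_pow_of_unique_prime_dvd Nat.card_pos.ne' ?_)
    intro d hd hdvd
    by_contra hne
    haveI : Fact d.Prime := ⟨hd⟩
    obtain ⟨φ, hφ⟩ := exists_prime_orderOf_dvd_card' (G := MulAut P) d hdvd
    exact hcon d hd hne φ hφ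
  have hφC : C.map φ.toMonoidHom = C := map_commutator_surj φ.surjective
  set ψ : MulAut (P ⧸ C) := QuotientGroup.congr C C φ hφC with hψdef
  have hψmk : ∀ x : P, ψ (x : P ⧸ C) = ((φ x : P) : P ⧸ C) := fun x =>
    QuotientGroup.congr_mk _ _ _ _ x
  have hψpow : ∀ (k : ℕ) (x : P), (ψ ^ k) (x : P ⧸ C) = (((φ ^ k) x : P) : P ⧸ C) := by
    intro k
    induction k with
    | zero => intro x; rfl
    | succ k ih =>
      intro x
      rw [pow_succ, pow_succ, MulAut.mul_apply, MulAut.mul_apply, hψmk, ih]
  have hψq : ψ ^ q = 1 := by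
    ext v
    obtain ⟨x, rfl⟩ := QuotientGroup.mk_surjective v
    rw [hψpow, ← hφ, pow_orderOf_eq_one, MulAut.one_apply, MulAut.one_apply]
  have hψ1 : ψ ≠ 1 := by
    intro e
    obtain ⟨n, hn⟩ := hP.exists_card_eq
    obtain ⟨r, -, hr⟩ := (Nat.dvd_prime_pow Nat.prime_two).mp (hn ▸ (frattini P).index_dvd_card)
    have hdvd := CfsgLib.FgsAutFrattini.card_kernel_dvd hn hr (zpowers φ) (fun α hα x => by
      obtain ⟨k, rfl⟩ := (isOfFinOrder_of_finite φ).mem_zpowers_iff_mem_range_orderOf.mp hα |>
        fun h => (Finset.mem_image.mp h).imp fun _ h' => h'.2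
      apply CfsgLib.Core.pgroup_commutator_le_frattini hP
      apply (QuotientGroup.eq_one_iff _).mp
      rw [QuotientGroup.mk_mul, QuotientGroup.mk_inv, ← hψpow, e, one_pow, MulAut.one_apply,
        mul_inv_cancel])
    rw [Nat.card_zpowers, hφ] at hdvd
    exact hq2 ((Nat.prime_dvd_prime_iff_eq hqp Nat.prime_two).mp (hqp.dvd_of_dvd_pow hdvd))
  have hV : Nat.card (P ⧸ C) = 4 := by rw [← Subgroup.index_eq_card]; exact h4
  have hqodd : Odd q := hqp.odd_of_ne_two hq2
  have horb : ∀ p : P, p ∉ C → ∀ x : P, x ∈ C ∨ x * p⁻¹ ∈ C ∨ x * (φ p)⁻¹ ∈ C ∨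
      x * (φ (φ p))⁻¹ ∈ C := by
    intro p hp x
    have := (four_orbit hV hqodd hψq hψ1
      (v := (p : P ⧸ C)) (fun e => hp ((QuotientGroup.eq_one_iff _).mp e))).2.2
    simp only [← QuotientGroup.eq_one_iff, QuotientGroup.mk_mul, QuotientGroup.mk_inv,
      mul_inv_eq_one, ← hψmk]
    by_cases hx : ((x : P) : P ⧸ C) = 1
    · exact Or.inl hx
    · exact Or.inr (this _ hx)
  have hsqC : ∀ p : P, p * p ∈ C := by
    intro p
    by_cases hp : p ∈ C
    · exact mul_mem hp hp
    · exact (QuotientGroup.eq_one_iff _).mp (four_orbit hV hqodd hψq hψ1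
        (v := (p : P ⧸ C)) (fun e => hp ((QuotientGroup.eq_one_iff _).mp e))).1
  have hgen : ∀ p : P, p ∉ C → closure {p, φ p} ⊔ C = ⊤ := by
    intro p hp
    rw [eq_top_iff]
    intro x _
    set M := closure {p, φ p} ⊔ C
    have hC' : C ≤ M := le_sup_right
    have hp1 : p ∈ M := le_sup_left (a := closure {p, φ p}) (subset_closure (Or.inl rfl))
    have hp2 : φ p ∈ M := le_sup_left (a := closure {p, φ p}) (subset_closure (Or.inr rfl))
    have hp3 : φ (φ p) ∈ M := by
      have h := (four_orbit hV hqodd hψq hψ1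
        (v := (p : P ⧸ C)) (fun e => hp ((QuotientGroup.eq_one_iff _).mp e))).2.1
      rw [hψmk, hψmk, ← QuotientGroup.mk_mul, QuotientGroup.eq] at h
      have := mul_mem (mul_mem hp1 hp2) (inv_mem (hC' h))
      simpa [mul_assoc] using this
    have key : ∀ y ∈ M, x * y⁻¹ ∈ C → x ∈ M := fun y hy h => by
      simpa [mul_assoc] using mul_mem (hC' h) hy
    rcases horb p hp x with h | h | h | h
    · exact hC' h
    · exact key _ hp1 h
    · exact key _ hp2 h
    · exact key _ hp3 h
  obtain ⟨p₀, hp₀⟩ : ∃ p : P, p ∉ C := by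
    by_contra hcon
    push Not at hcon
    rw [(eq_top_iff' C).mpr hcon, index_top] at h4
    norm_num at h4
  -- C modulo D has order two
  set D := ⁅C, (⊤ : Subgroup P)⁆ with hD
  have hDC : D ≤ C := commutator_le_left C ⊤
  set π := QuotientGroup.mk' D with hπ
  have hπs : Function.Surjective π := QuotientGroup.mk'_surjective D
  have hcen : commutator (P ⧸ D) ≤ center (P ⧸ D) := by
    rw [← centralizer_univ, ← coe_top, ← commutator_eq_bot_iff_le_centralizer,
      ← map_gamma3 hπs, Subgroup.map_eq_bot_iff, QuotientGroup.ker_mk']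
  obtain ⟨hle, hsq⟩ := commutator_le_zpowers (a := π p₀) (b := π (φ p₀))
    (by
      rw [← map_commutator_surj hπs, show ({π p₀, π (φ p₀)} : Set (P ⧸ D)) = π '' {p₀, φ p₀} from
        (Set.image_pair _ _ _).symm, ← MonoidHom.map_closure, ← Subgroup.map_sup, hgen p₀ hp₀,
        Subgroup.map_top_of_surjective π hπs])
    hcen (by rw [← map_mul, ← map_commutator_surj hπs]; exact mem_map_of_mem π (hsqC p₀))
  set c₀ := ⁅p₀, φ p₀⁆ with hc₀
  have htwo : ∀ x ∈ C, π x = 1 ∨ π x = π c₀ := by
    intro x hx
    have hm : π x ∈ zpowers ⁅π p₀, π (φ p₀)⁆ :=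
      hle (map_commutator_surj hπs ▸ mem_map_of_mem π hx)
    obtain ⟨i, hi⟩ := hm
    rw [hc₀, map_commutatorElement, ← hi]
    rcases Int.even_or_odd i with ⟨k, rfl⟩ | ⟨k, rfl⟩
    · left
      show _ ^ (k + k) = _
      rw [zpow_add, ← (Commute.refl _).mul_zpow, hsq, one_zpow]
    · right
      show _ ^ (2 * k + 1) = _
      rw [zpow_add, zpow_mul, zpow_two, hsq, one_zpow, one_mul, zpow_one]
  have hne : ¬ C ≤ D := fun h => hC0 (eq_bot_of_commutator_eq h)
  have hpair : ∀ x ∈ C, ∀ y ∈ C, x ∉ D → y ∉ D → x * y⁻¹ ∈ D := by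
    intro x hx y hy hxD hyD
    have h : ∀ u ∈ C, u ∉ D → π u = π c₀ := fun u hu huD =>
      (htwo u hu).resolve_left fun e => huD ((QuotientGroup.eq_one_iff _).mp e)
    apply (QuotientGroup.eq_one_iff _).mp
    show π (x * y⁻¹) = 1
    rw [map_mul, map_inv, h x hx hxD, h y hy hyD, mul_inv_cancel]
  obtain ⟨p, hpD⟩ : ∃ p : P, p * p ∉ D := by
    by_contra hcon
    push Not at hcon
    apply hne
    rw [hC, _root_.commutator_def, commutator_le]
    intro x _ y _
    apply (QuotientGroup.eq_one_iff _).mp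
    have hinv : ∀ u : P ⧸ D, u⁻¹ = u := fun u => by
      obtain ⟨u, rfl⟩ := hπs u
      exact inv_eq_of_mul_eq_one_right ((map_mul π u u).symm.trans
        ((QuotientGroup.eq_one_iff _).mpr (hcon u)))
    show π ⁅x, y⁆ = 1
    rw [map_commutatorElement, commutatorElement_eq_one_iff_commute]
    calc π x * π y = (π x * π y)⁻¹ := (hinv _).symm
      _ = π y * π x := by rw [mul_inv_rev, hinv, hinv]
  have hpC : p ∉ C := by
    intro hp
    refine hpD ((QuotientGroup.eq_one_iff _).mp ?_)
    show π (p * p) = 1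
    rw [map_mul]
    rcases htwo p hp with e | e <;> rw [e]
    · exact one_mul _
    · rw [hc₀, map_commutatorElement, hsq]
  have hφD : ∀ x, φ x ∈ D ↔ x ∈ D := by
    intro x
    have h : D.map φ.toMonoidHom = D := map_gamma3 φ.surjective
    constructor
    · intro hx
      obtain ⟨y, hy, hxy⟩ := h.ge hx
      exact φ.injective hxy ▸ hy
    · exact fun hx => h.le (mem_map_of_mem _ hx)
  have hφpD : φ p * φ p ∉ D := by rw [← map_mul, hφD]; exact hpD
  -- D is trivial
  have hD0 : D = ⊥ := by
    apply eq_bot_of_commutator_eq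
    set E := ⁅D, (⊤ : Subgroup P)⁆ with hE
    set ρ := QuotientGroup.mk' E with hρ
    have hρs : Function.Surjective ρ := QuotientGroup.mk'_surjective E
    have hCc : commutator (P ⧸ E) ≤ center (P ⧸ E) := by
      refine commutator_le_center_of_sq (a := ρ p) (b := ρ (φ p)) ?_ ?_ ?_ ?_
      · rw [← map_commutator_surj hρs, show ({ρ p, ρ (φ p)} : Set (P ⧸ E)) = ρ '' {p, φ p} from
          (Set.image_pair _ _ _).symm, ← MonoidHom.map_closure, ← Subgroup.map_sup, hgen p hpC,
          Subgroup.map_top_of_surjective ρ hρs]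
      · rw [← centralizer_univ, ← coe_top, ← commutator_eq_bot_iff_le_centralizer,
          ← map_gamma3 hρs, ← Subgroup.map_top_of_surjective ρ hρs, ← Subgroup.map_commutator,
          Subgroup.map_eq_bot_iff, QuotientGroup.ker_mk']
      · rw [← map_gamma3 hρs, ← map_commutator_surj hρs, ← map_mul, ← MonoidHom.map_zpowers,
          ← Subgroup.map_sup]
        refine Subgroup.map_mono fun x hx => ?_
        by_cases hxD : x ∈ D
        · exact le_sup_right (a := zpowers (p * p)) hxD
        · have := mul_mem (mem_sup_right (S := zpowers (p * p))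
              (inv_mem (hpair _ (hsqC p) _ hx hpD hxD)))
            (mem_sup_left (T := D) (mem_zpowers (p * p)))
          simpa [mul_assoc] using this
      · rw [← map_mul, ← map_mul, ← map_inv, ← map_mul, ← map_gamma3 hρs]
        exact mem_map_of_mem ρ (hpair _ (hsqC p) _ (hsqC (φ p)) hpD hφpD)
    rw [← QuotientGroup.ker_mk' E, ← Subgroup.map_eq_bot_iff, map_gamma3 hρs,
      commutator_eq_bot_iff_le_centralizer, coe_top, centralizer_univ]
    exact hCc
  have hmemD : ∀ x, x ∈ D ↔ x = 1 := fun x => by rw [hD0, mem_bot]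
  have hCc : ∀ x ∈ C, ∀ y : P, x * y = y * x := by
    intro x hx y
    exact commutatorElement_eq_one_iff_mul_comm.mp
      ((hmemD _).mp (commutator_mem_commutator hx (mem_top y)))
  set z := p * p with hz
  have hz1 : z ≠ 1 := fun e => hpD ((hmemD _).mpr e)
  have hCz : ∀ x ∈ C, x = 1 ∨ x = z := by
    intro x hx
    by_cases hx1 : x = 1
    · exact Or.inl hx1
    · have := (hmemD _).mp (hpair x hx z (hsqC p) (fun e => hx1 ((hmemD _).mp e)) hpD)
      exact Or.inr (mul_inv_eq_one.mp this)
  have hcardC : Nat.card C = 2 := by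
    have : (C : Set P) = {1, z} := by
      ext x
      refine ⟨hCz x, ?_⟩
      rintro (rfl | rfl)
      · exact one_mem C
      · exact hsqC p
    show Nat.card (C : Set P) = 2
    rw [Nat.card_coe_set_eq, this, Set.ncard_pair hz1.symm]
  refine ⟨by rw [← C.card_mul_index, hcardC, h4], z, fun t ht1 htt => ?_⟩
  by_contra htz
  have htC : t ∉ C := fun h => (hCz t h).elim ht1 htz
  have hφz : φ z = z :=
    (hCz _ (hφC.le (mem_map_of_mem _ (hsqC p)))).resolve_left fun e =>
      hz1 (φ.injective (e.trans φ.map_one.symm))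
  have key : ∀ y : P, y * y = z → t * y⁻¹ ∈ C → False := by
    intro y hy h
    have h' := hCz _ h
    have h2 : t = (t * y⁻¹) * y := by group
    rcases h' with e | e <;> rw [e] at h2
    · rw [h2, one_mul, hy] at htt
      exact hz1 htt
    · have : z * z = 1 := by
        rcases hCz _ (mul_mem (hsqC p) (hsqC p)) with h3 | h3
        · exact h3
        · exact absurd (mul_eq_left.mp h3) hz1
      rw [h2] at htt
      apply hz1
      calc z = z * z * z := by rw [this, one_mul]
        _ = z * z * (y * y) := by rw [hy]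
        _ = z * (z * y) * y := by group
        _ = z * (y * z) * y := by rw [hCc z (hsqC p) y]
        _ = z * y * (z * y) := by simp only [mul_assoc]
        _ = 1 := htt
  rcases horb p hpC t with h | h | h | h
  · exact htC h
  · exact key p rfl h
  · exact key (φ p) (by rw [← map_mul, hφz]) h
  · exact key (φ (φ p)) (by rw [← map_mul, ← map_mul, hφz, hφz]) h

end CfsgLib.Fgs.Taussky
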