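import Mathlib.GroupTheory.Transfer
import Cfsg.Prelude
import Cfsg.Agent.Lib.CoreGen
import Cfsg.Agent.Lib.CoreBasic
import Cfsg.Agent.Lib.FgsInvariantRigid

/-!
Thompson's transitivity theorem.
-/

set_option autoImplicit false

namespace CfsgLib.Transitivity

open scoped commutatorElement Pointwise
open Subgroup

universe u

variable {H : Type u} [Group H] [Finite H] {p : ℕ} [hp : Fact p.Prime]

/-- The image of a Sylow subgroup in a `p`-group is everything. -/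
theorem sylow_map_range {M : Type*} [Group M] (f : H →* M) (hr : IsPGroup p f.range) (S : Sylow p H) :
    (S : Subgroup H).map f = f.range := by
  have h1 : ((S : Subgroup H).map f.rangeRestrict).index = 1 := by
    have hd := Subgroup.index_map_dvd (S : Subgroup H) f.rangeRestrict_surjective
    haveI : Finite f.range := Finite.of_surjective _ f.rangeRestrict_surjective
    obtain ⟨k, hk⟩ := IsPGroup.iff_card.mp hr
    obtain ⟨j, -, hj⟩ := (Nat.dvd_prime_pow hp.out).mp (hk ▸ ((S : Subgroup H).map f.rangeRestrict).index_dvd_card)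
    rcases j with _ | j
    · rw [hj, pow_zero]
    · exact absurd (((dvd_pow_self p (Nat.succ_ne_zero j)).trans (dvd_of_eq hj.symm)).trans hd) S.not_dvd_index
  have h2 := congrArg (fun K => Subgroup.map f.range.subtype K) (Subgroup.index_eq_one.mp h1)
  simpa [Subgroup.map_map, ← MonoidHom.range_eq_map, MonoidHom.subtype_comp_rangeRestrict] using h2

/-- A `p`-subgroup fixing a coset of a `p'`-subgroup fixes an element of it. -/
theorem lift_centralizes {A W : Subgroup H} (hA : IsPGroup p A) (hW : (Nat.card W).Coprime p)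
    (hAW : A ≤ normalizer (W : Set H)) {k : H} (hk : k ∈ normalizer (W : Set H))
    (hfix : ∀ a ∈ A, k * a * k⁻¹ * a⁻¹ ∈ W) : ∃ n ∈ W, n * k ∈ centralizer (A : Set H) := by
  obtain ⟨j, hj⟩ := IsPGroup.iff_card.mp hA
  have hcop : (Nat.card A).Coprime (Nat.card W) := by rw [hj]; exact (hW.pow_right j).symm
  obtain ⟨n, hn, hnk⟩ := CfsgLib.Core.exists_centralizer_mem_coset hAW hcop
    (Or.inl (by haveI := hA.isNilpotent; infer_instance)) hfix
  refine ⟨n, hn, mem_centralizer_iff.mpr fun a ha => ?_⟩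
  have h1 : n * k * a * (n * k)⁻¹ ∈ A := (mem_normalizer_iff.mp hnk a).mp ha
  have hd := CfsgLib.Core.inf_eq_bot_of_coprime hcop
  have h2 : n * k * a * (n * k)⁻¹ * a⁻¹ ∈ A ⊓ W := by
    refine ⟨A.mul_mem h1 (A.inv_mem ha), ?_⟩
    have e : n * k * a * (n * k)⁻¹ * a⁻¹ = n * (k * a * k⁻¹ * a⁻¹) * (a * n⁻¹ * a⁻¹) := by group
    rw [e]
    exact W.mul_mem (W.mul_mem hn (hfix a ha)) ((mem_normalizer_iff.mp (hAW ha) _).mp (W.inv_mem hn))
  rw [hd, mem_bot, mul_inv_eq_one] at h2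
  exact (mul_inv_eq_iff_eq_mul.mp h2).symm

/-- In a `p`-constrained group, invariant `p'`-subgroups lie in `O_p'`. -/
theorem local_le (hcon : Cfsg.IsPConstrained p H) {E X : Subgroup H} (hE : IsPGroup p E)
    (hX : (Nat.card X).Coprime p) (hEX : E ≤ normalizer (X : Set H))
    (hfull : ∀ x ∈ centralizer (E : Set H), IsPGroup p (zpowers x) → x ∈ E)
    (hq : p ≠ 2 ∨ ∀ R : Subgroup H, IsPGroup p R → ∀ a ∈ R, ∀ b ∈ R, ∀ c ∈ R, ⁅⁅a, b⁆, c⁆ = 1) :
    X ≤ Cfsg.pPrimeCore p H := by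
  set W := Cfsg.pPrimeCore p H with hWd
  haveI hWn : W.Normal := CfsgLib.Core.normal_pPrimeCore p
  have hWc : (Nat.card W).Coprime p := CfsgLib.Core.coprime_card_pPrimeCore p
  set π := QuotientGroup.mk' W with hπ
  have hπs : Function.Surjective π := QuotientGroup.mk'_surjective W
  have hWN : ∀ K : Subgroup H, K ≤ normalizer (W : Set H) := fun K => by
    rw [normalizer_eq_top]; exact le_top
  set P := Cfsg.pCore p (H ⧸ W) with hPd
  haveI : P.Normal := CfsgLib.Core.normal_pCore p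
  have hPp : IsPGroup p P := CfsgLib.Core.isPGroup_pCore p
  set L := Cfsg.pPrimePCore p H with hLd
  have hLmem : ∀ y, y ∈ L ↔ π y ∈ P := fun y => Iff.rfl
  -- lifting a `p`-subgroup of the quotient
  have hlift : ∀ R : Subgroup (H ⧸ W), IsPGroup p R →
      ∃ R0 : Subgroup H, IsPGroup p R0 ∧ R0.map π = R := by
    intro R hR
    let S : Sylow p (R.comap π) := Classical.arbitrary _
    refine ⟨(S : Subgroup (R.comap π)).map (R.comap π).subtype, S.2.map _, ?_⟩
    have hrange : (π.comp (R.comap π).subtype).range = R := by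
      rw [MonoidHom.range_comp, Subgroup.range_subtype, map_comap_eq_self_of_surjective hπs]
    rw [map_map, sylow_map_range _ (by rw [hrange]; exact hR), hrange]
  have hcop : ∀ {K : Subgroup (H ⧸ W)}, IsPGroup p K → K ⊓ X.map π = ⊥ := by
    intro K hK
    obtain ⟨j, hj⟩ := IsPGroup.iff_card.mp hK
    refine CfsgLib.Core.inf_eq_bot_of_coprime ?_
    rw [hj]
    exact ((hX.coprime_dvd_left (card_map_dvd X π)).pow_right j).symm
  have hPn : ∀ K : Subgroup (H ⧸ W), K ≤ normalizer (P : Set (H ⧸ W)) := fun K => by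
    rw [normalizer_eq_top]; exact le_top
  have hEX' : E.map π ≤ normalizer ((X.map π : Subgroup (H ⧸ W)) : Set (H ⧸ W)) :=
    (map_mono hEX).trans (le_normalizer_map π)
  have hC : P ⊓ centralizer ((E.map π : Subgroup (H ⧸ W)) : Set (H ⧸ W)) ≤
      centralizer ((X.map π : Subgroup (H ⧸ W)) : Set (H ⧸ W)) := by
    rintro y ⟨hyP, hyC⟩
    obtain ⟨k, rfl⟩ := hπs y
    obtain ⟨n, hn, hnk⟩ := lift_centralizes hE hWc (hWN E) (hWN ⊤ (mem_top k)) fun a ha => by
      refine (QuotientGroup.eq_one_iff _).mp ?_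
      show π (k * a * k⁻¹ * a⁻¹) = 1
      rw [map_mul, map_mul, map_mul, map_inv, map_inv, ← mem_centralizer_iff.mp hyC (π a) ⟨a, ha, rfl⟩]
      group
    have hc : π (n * k) = π k := by
      rw [map_mul, show π n = 1 from (QuotientGroup.eq_one_iff n).mpr hn, one_mul]
    let S : Sylow p (zpowers (n * k)) := Classical.arbitrary _
    have hrange : (π.comp (zpowers (n * k)).subtype).range ≤ P := by
      rw [MonoidHom.range_comp, Subgroup.range_subtype, MonoidHom.map_zpowers, hc, zpowers_le]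
      exact hyP
    have hmap := sylow_map_range (π.comp (zpowers (n * k)).subtype) (hPp.to_le hrange) S
    have hmem : π k ∈ (π.comp (zpowers (n * k)).subtype).range := ⟨⟨_, mem_zpowers _⟩, hc⟩
    rw [← hmap] at hmem
    obtain ⟨⟨s, hs⟩, hsS, hse⟩ := hmem
    have hsC : s ∈ centralizer (E : Set H) := zpowers_le.mpr hnk hs
    have hsE : s ∈ E := hfull s hsC ((S.2.map (zpowers (n * k)).subtype).to_le (zpowers_le.mpr ⟨⟨s, hs⟩, hsS, rfl⟩))
    refine mem_centralizer_iff.mpr fun x hx => ?_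
    have hy : π k ∈ E.map π := ⟨s, hsE, hse⟩
    have h1 : x * π k * x⁻¹ * (π k)⁻¹ ∈ P ⊓ X.map π := by
      refine ⟨P.mul_mem (‹P.Normal›.conj_mem _ hyP x) (P.inv_mem hyP), ?_⟩
      have := (mem_normalizer_iff.mp (hEX' hy) x⁻¹).mp (inv_mem hx)
      have h2 := (X.map π).mul_mem hx this
      rwa [show x * (π k * x⁻¹ * (π k)⁻¹) = x * π k * x⁻¹ * (π k)⁻¹ by group] at h2
    rw [hcop hPp, mem_bot, mul_inv_eq_one] at h1
    exact mul_inv_eq_iff_eq_mul.mp h1
  have hquad : p ≠ 2 ∨ ∀ u ∈ P, ∀ e ∈ E.map π, ∀ f ∈ E.map π, ⁅⁅u, e⁆, f⁆ = 1 := by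
    refine hq.imp id fun h u hu e he f hf => ?_
    obtain ⟨R0, hR0, hR0e⟩ := hlift (P ⊔ E.map π) (hPp.to_sup_of_normal_left (hE.map π))
    obtain ⟨a, ha, rfl⟩ := hR0e.ge (mem_sup_left hu)
    obtain ⟨b, hb, rfl⟩ := hR0e.ge (mem_sup_right he)
    obtain ⟨c, hc, rfl⟩ := hR0e.ge (mem_sup_right hf)
    rw [← map_commutatorElement, ← map_commutatorElement, h R0 hR0 a ha b hb c hc, map_one]
  have hXP : X.map π ≤ centralizer (P : Set (H ⧸ W)) :=
    CfsgLib.InvRigid.rigid (hE.map π) (hX.coprime_dvd_left (card_map_dvd X π)) hEX' _ P le_rfl hPp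
      (hPn _) (hPn _) hC hquad
  let S : Sylow p L := Classical.arbitrary _
  have hS : IsPGroup p ((S : Subgroup L).map L.subtype) := S.2.map _
  have hSP : ((S : Subgroup L).map L.subtype).map π = P := by
    have hrange : (π.comp L.subtype).range = P := by
      rw [MonoidHom.range_comp, Subgroup.range_subtype]
      exact map_comap_eq_self_of_surjective hπs P
    rw [map_map, sylow_map_range _ (by rw [hrange]; exact hPp), hrange]
  intro x hx
  obtain ⟨n, hn, hnx⟩ := lift_centralizes hS hWc (hWN _) (hWN ⊤ (mem_top x)) fun a ha => by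
    refine (QuotientGroup.eq_one_iff _).mp ?_
    show π (x * a * x⁻¹ * a⁻¹) = 1
    rw [map_mul, map_mul, map_mul, map_inv, map_inv,
      ← mem_centralizer_iff.mp (hXP ⟨x, hx, rfl⟩) (π a) (hSP.le ⟨a, ha, rfl⟩)]
    group
  have h1 : π x ∈ P ⊓ X.map π := by
    refine ⟨?_, x, hx, rfl⟩
    have := (hLmem _).mp (hcon S hnx)
    rwa [map_mul, show π n = 1 from (QuotientGroup.eq_one_iff n).mpr hn, one_mul] at this
  rw [hcop hPp, mem_bot] at h1
  exact (QuotientGroup.eq_one_iff x).mp h1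

section main

variable {G : Type u} [Group G] [Finite G]

theorem commutator_commutator_mem {K : Subgroup G} {a b c : G} (ha : a ∈ K) (hb : b ∈ K) (hc : c ∈ K)
    (hK : ⁅⁅K, K⁆, K⁆ = ⊥) : ⁅⁅a, b⁆, c⁆ = 1 :=
  mem_bot.mp (hK ▸ commutator_mem_commutator (commutator_mem_commutator ha hb) hc)

theorem class_two_mem (h : ∀ S : Sylow p G, Group.IsNilpotent (S : Subgroup G) ∧ Group.nilpotencyClass (S : Subgroup G) ≤ 2)
    {R : Subgroup G} (hR : IsPGroup p R) {a b c : G} (ha : a ∈ R) (hb : b ∈ R) (hc : c ∈ R) :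
    ⁅⁅a, b⁆, c⁆ = 1 := by
  obtain ⟨S, hS⟩ := hR.exists_le_sylow
  haveI := (h S).1
  have h2 : (⊤ : Subgroup (S : Subgroup G)).lowerCentralSeries 2 = ⊥ :=
    _root_.lowerCentralSeries_eq_bot_iff_nilpotencyClass_le.mpr (h S).2
  rw [_root_.lowerCentralSeries_succ, Subgroup.top_lowerCentralSeries_one] at h2
  obtain ⟨a', rfl⟩ : ∃ x : (S : Subgroup G), (x : G) = a := ⟨⟨a, hS ha⟩, rfl⟩
  obtain ⟨b', rfl⟩ : ∃ x : (S : Subgroup G), (x : G) = b := ⟨⟨b, hS hb⟩, rfl⟩
  obtain ⟨c', rfl⟩ : ∃ x : (S : Subgroup G), (x : G) = c := ⟨⟨c, hS hc⟩, rfl⟩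
  have key : ⁅⁅a', b'⁆, c'⁆ = 1 := by
    refine mem_bot.mp (h2 ▸ ?_)
    refine commutator_mem_commutator ?_ (mem_top _)
    rw [_root_.commutator_def]
    exact commutator_mem_commutator (mem_top _) (mem_top _)
  simpa [map_commutatorElement] using congrArg (S : Subgroup G).subtype key

theorem core_mem {E : Subgroup G} (hEc : IsMulCommutative E) (hEp : IsPGroup p E)
    (hEfull : ∀ x ∈ centralizer (E : Set G), IsPGroup p (zpowers x) → x ∈ E) {k : G}
    (hk : k ∈ centralizer (E : Set G)) (hkp : (orderOf k).Coprime p) :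
    k ∈ Cfsg.piCoreOf (Cfsg.primesNotDvd p) (centralizer (E : Set G)) := by
  set C := centralizer (E : Set G) with hC
  let P : Sylow p C := Classical.arbitrary _
  have hPE : ∀ y : C, y ∈ (P : Subgroup C) → (y : G) ∈ E := fun y hy =>
    hEfull y y.2 ((P.2.map C.subtype).to_le (zpowers_le.mpr ⟨y, hy, rfl⟩))
  have hnc : normalizer ((P : Subgroup C) : Set C) ≤ centralizer ((P : Subgroup C) : Set C) := fun n _ =>
    mem_centralizer_iff.mpr fun y hy => Subtype.ext (mem_centralizer_iff.mp n.2 y (hPE y hy))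
  let N := (MonoidHom.transferSylow P hnc).ker
  haveI : N.Normal := (MonoidHom.transferSylow P hnc).normal_ker
  have hN : IsComplement' N (P : Subgroup C) := MonoidHom.ker_transferSylow_isComplement' P hnc
  have hcard : ¬ p ∣ Nat.card N := by
    have h1 : (P : Subgroup C).index = Nat.card N := hN.index_eq_card
    rw [← h1]; exact P.not_dvd_index
  refine ⟨⟨k, hk⟩, ?_, rfl⟩
  refine (le_sSup (show N ∈ {M : Subgroup C | M.Normal ∧ ∀ q : ℕ, q.Prime → q ∣ Nat.card M → q ∈ Cfsg.primesNotDvd p} from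
    ⟨inferInstance, fun q hq hqd => ⟨hq, fun hqp => hcard ?_⟩⟩)) ?_
  · rwa [← (Nat.prime_dvd_prime_iff_eq hq hp.out).mp hqp]
  · obtain ⟨j, hj⟩ := IsPGroup.iff_card.mp P.2
    have h1 : orderOf (QuotientGroup.mk' N (⟨k, hk⟩ : C)) = 1 := by
      refine Nat.eq_one_of_dvd_coprimes (hkp.pow_right j) ((orderOf_map_dvd _ _).trans ?_) ?_
      · exact dvd_of_eq (Subgroup.orderOf_mk k hk)
      · rw [← hj, ← hN.symm.index_eq_card, Subgroup.index_eq_card]
        exact orderOf_dvd_natCard _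
    exact (QuotientGroup.eq_one_iff _).mp (orderOf_eq_one_iff.mp h1)

omit hp in
theorem isPGroup_of_primes {q : ℕ} [Fact q.Prime] {Y : Subgroup G}
    (h : ∀ r : ℕ, r.Prime → r ∣ Nat.card Y → r ∈ ({q} : Set ℕ)) : IsPGroup q Y :=
  IsPGroup.iff_card.mpr ⟨_, Nat.eq_prime_pow_of_unique_prime_dvd Nat.card_pos.ne' fun hr hd =>
    Set.mem_singleton_iff.mp (h _ hr hd)⟩

theorem transitivity
    (hloc : ∀ T : Subgroup G, IsPGroup p T → T ≠ ⊥ → Cfsg.IsPConstrained p ↥(normalizer (T : Set G)))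
    (h2 : p = 2 → ∀ S : Sylow p G, Group.IsNilpotent (S : Subgroup G) ∧ Group.nilpotencyClass (S : Subgroup G) ≤ 2)
    (E : Subgroup G) (hEp : IsPGroup p E) (hEc : IsMulCommutative E) (hE3 : ¬ Cfsg.PRankLE p 2 E)
    (hEfull : ∀ x ∈ centralizer (E : Set G), IsPGroup p (zpowers x) → x ∈ E)
    (q : ℕ) [hqF : Fact q.Prime] (hqp : q ≠ p) :
    ∀ Q₁ ∈ Cfsg.maxInvSubgroups ⊤ E {q}, ∀ Q₂ ∈ Cfsg.maxInvSubgroups ⊤ E {q},
        ∃ k ∈ Cfsg.piCoreOf (Cfsg.primesNotDvd p) (centralizer (E : Set G)), Q₂ = Q₁.map (MulAut.conj k).toMonoidHom := by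
  classical
  set K := Cfsg.piCoreOf (Cfsg.primesNotDvd p) (centralizer (E : Set G)) with hKd
  have hKC : K ≤ centralizer (E : Set G) := map_subtype_le _
  obtain ⟨e, he⟩ : ∃ e : ℕ, Nat.card E = p ^ e := IsPGroup.iff_card.mp hEp
  -- an elementary subgroup of order at least `p³`
  obtain ⟨E0, hE0le, hE0c, hE0x, hE0card⟩ : ∃ E0 : Subgroup G, E0 ≤ E ∧ IsMulCommutative E0 ∧
      (∀ a ∈ E0, a ^ p = 1) ∧ p ^ 2 < Nat.card E0 := by
    unfold Cfsg.PRankLE at hE3
    push Not at hE3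
    obtain ⟨A, hA, hAp, hAcard⟩ := hE3
    refine ⟨A.map E.subtype, map_subtype_le _, inferInstance, ?_, ?_⟩
    · rintro _ ⟨a, ha, rfl⟩
      rw [← map_pow, hAp a ha, map_one]
    · rwa [card_map_of_injective E.subtype_injective]
  have hIp : ∀ Y ∈ Cfsg.invSubgroups ⊤ E {q}, IsPGroup q Y := fun Y hY => isPGroup_of_primes hY.2.1
  have hmkI : ∀ Y : Subgroup G, IsPGroup q Y → E ≤ normalizer (Y : Set G) → Y ∈ Cfsg.invSubgroups ⊤ E {q} :=
    fun Y hY hEY => ⟨le_top, fun r hr hd => by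
      obtain ⟨j, hj⟩ := IsPGroup.iff_card.mp hY
      exact Set.mem_singleton_iff.mpr ((Nat.prime_dvd_prime_iff_eq hr hqF.out).mp (hr.dvd_of_dvd_pow (hj ▸ hd))), hEY⟩
  have hext : ∀ Y ∈ Cfsg.invSubgroups ⊤ E {q}, ∃ R ∈ Cfsg.maxInvSubgroups ⊤ E {q}, Y ≤ R := fun Y hY => by
    obtain ⟨R, ⟨hR, hYR⟩, hmax⟩ := (Set.toFinite {R | R ∈ Cfsg.invSubgroups ⊤ E {q} ∧ Y ≤ R}).exists_maximal ⟨Y, hY, le_rfl⟩
    exact ⟨R, ⟨hR, fun R' hR' hle => le_antisymm (hmax ⟨hR', hYR.trans hle⟩ hle) hle⟩, hYR⟩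
  have hconjI : ∀ k ∈ K, ∀ Y ∈ Cfsg.invSubgroups ⊤ E {q},
      Y.map (MulAut.conj k).toMonoidHom ∈ Cfsg.invSubgroups ⊤ E {q} := by
    intro k hk Y hY
    refine hmkI _ ((hIp Y hY).map _) fun a ha => ?_
    have e1 : k⁻¹ * a * k = a := by
      rw [mul_assoc, mem_centralizer_iff.mp (hKC hk) a ha]; group
    rw [← CfsgLib.Core.conj_smul_eq_self_iff, CfsgLib.Core.conj_smul_eq_map, map_map]
    conv_rhs => rw [← (CfsgLib.Core.conj_smul_eq_self_iff.mpr (hY.2.2 ha) : MulAut.conj a • Y = Y), CfsgLib.Core.conj_smul_eq_map, map_map]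
    refine congrArg (fun f => Y.map f) (MonoidHom.ext fun y => ?_)
    show a * (k * y * k⁻¹) * a⁻¹ = k * (a * y * a⁻¹) * k⁻¹
    have e2 : a * k = k * a := mem_centralizer_iff.mp (hKC hk) a ha
    calc a * (k * y * k⁻¹) * a⁻¹ = (a * k) * y * (a * k)⁻¹ := by group
      _ = (k * a) * y * (k * a)⁻¹ := by rw [e2]
      _ = _ := by group
  have hmapmap : ∀ (k l : G) (Y : Subgroup G),
      (Y.map (MulAut.conj k).toMonoidHom).map (MulAut.conj l).toMonoidHom = Y.map (MulAut.conj (l * k)).toMonoidHom := by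
    intro k l Y
    rw [map_map]
    exact congrArg (fun f => Y.map f) (MonoidHom.ext fun y => by simp [mul_assoc])
  have hmapone : ∀ Y : Subgroup G, Y.map (MulAut.conj (1 : G)).toMonoidHom = Y := fun Y => by
    ext y; simp [mem_map]
  have hconjM : ∀ k ∈ K, ∀ Y ∈ Cfsg.maxInvSubgroups ⊤ E {q},
      Y.map (MulAut.conj k).toMonoidHom ∈ Cfsg.maxInvSubgroups ⊤ E {q} := by
    intro k hk Y hY
    refine ⟨hconjI k hk Y hY.1, fun R hR hle => ?_⟩
    have h1 := hY.2 _ (hconjI k⁻¹ (K.inv_mem hk) R hR) (by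
      have := map_mono (f := (MulAut.conj k⁻¹).toMonoidHom) hle
      rwa [hmapmap, inv_mul_cancel, hmapone] at this)
    rw [← h1, hmapmap, mul_inv_cancel, hmapone]
  suffices key : ∀ n : ℕ, ∀ Q₁ ∈ Cfsg.maxInvSubgroups ⊤ E {q}, ∀ Q₂ ∈ Cfsg.maxInvSubgroups ⊤ E {q},
      Nat.card G - Nat.card ↥(Q₁ ⊓ Q₂) ≤ n → ∃ k ∈ K, Q₂ = Q₁.map (MulAut.conj k).toMonoidHom from
    fun Q₁ h₁ Q₂ h₂ => key _ Q₁ h₁ Q₂ h₂ le_rfl
  intro n
  induction n using Nat.strong_induction_on with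
  | _ n ih =>
  intro Q₁ h₁ Q₂ h₂ hn
  by_cases heq : Q₁ = Q₂
  · exact ⟨1, K.one_mem, by rw [hmapone, heq]⟩
  set D := Q₁ ⊓ Q₂ with hDd
  have hDE : E ≤ normalizer (D : Set G) := CfsgLib.Core.le_normalizer_inf h₁.1.2.2 h₂.1.2.2
  have hbig : ∀ A B : Subgroup G, A ∈ Cfsg.maxInvSubgroups ⊤ E {q} → B ∈ Cfsg.maxInvSubgroups ⊤ E {q} →
      D < A ⊓ B → ∃ k ∈ K, B = A.map (MulAut.conj k).toMonoidHom := by
    intro A B hA hB hlt
    have h3 : Nat.card D < Nat.card ↥(A ⊓ B) :=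
      lt_of_le_of_ne (Nat.le_of_dvd Nat.card_pos (card_dvd_of_le hlt.le))
        fun e => hlt.ne (CfsgLib.Core.eq_of_le_of_card_le hlt.le e.ge)
    have h4 : Nat.card ↥(A ⊓ B) ≤ Nat.card G := Nat.le_of_dvd Nat.card_pos (card_subgroup_dvd_card _)
    exact ih (Nat.card G - Nat.card ↥(A ⊓ B)) (by omega) A hA B hB le_rfl
  have hcopq : ∀ {Y : Subgroup G}, IsPGroup q Y → (Nat.card Y).Coprime p := fun {Y} hY => by
    obtain ⟨j, hj⟩ := IsPGroup.iff_card.mp hY
    rw [hj]; exact ((Nat.coprime_primes hqF.out hp.out).mpr hqp).pow_left j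
  -- normalizers grow
  have hgrow : ∀ Q ∈ Cfsg.maxInvSubgroups ⊤ E {q}, D ≤ Q → D ≠ Q →
      ∃ B : Subgroup G, B ≤ E0 ∧ (∃ a ∈ E0, B ⊔ zpowers a = E0) ∧
        ¬ Q ⊓ normalizer (D : Set G) ⊓ centralizer (B : Set G) ≤ D := by
    intro Q hQ hDQ hne
    set N := Q ⊓ normalizer (D : Set G) with hN
    have hNnot : ¬ N ≤ D := by
      intro hle
      haveI := (hIp Q hQ.1).isNilpotent
      have hlt : D.subgroupOf Q < ⊤ := lt_top_iff_ne_top.mpr fun h => hne (le_antisymm hDQ (subgroupOf_eq_top.mp h))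
      have hnc := Group.normalizerCondition_of_isNilpotent (G := Q) (D.subgroupOf Q) hlt
      obtain ⟨x, hx1, hx2⟩ := SetLike.exists_of_lt hnc
      exact hx2 (hle ⟨x.2, by
        rw [← Subgroup.subgroupOf_normalizer_eq hDQ] at hx1
        exact hx1⟩)
    haveI := hE0c
    have hEN : E ≤ normalizer (N : Set G) :=
      CfsgLib.Core.le_normalizer_inf hQ.1.2.2 (hDE.trans Subgroup.le_normalizer)
    have hcop : (Nat.card E0).Coprime (Nat.card N) := by
      refine Nat.Coprime.coprime_dvd_left (card_dvd_of_le hE0le) ?_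
      rw [he]
      exact ((hcopq ((hIp Q hQ.1).to_le inf_le_left)).pow_right e).symm
    by_contra hno
    push Not at hno
    apply hNnot
    rw [← CfsgLib.Core.generated_by_cocyclic (hE0le.trans hEN) hcop]
    exact iSup₂_le fun B hB => hno B hB.1 hB.2
  have hD1 : D ≠ Q₁ := fun h => heq (h₁.2 Q₂ h₂.1 (h ▸ inf_le_right)).symm
  have hD2 : D ≠ Q₂ := fun h => heq (h₂.2 Q₁ h₁.1 (h ▸ inf_le_left))
  obtain ⟨B1, hB1, ⟨a1, ha1, hB1a⟩, hB1N⟩ := hgrow Q₁ h₁ inf_le_left hD1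
  obtain ⟨B2, hB2, ⟨a2, ha2, hB2a⟩, hB2N⟩ := hgrow Q₂ h₂ inf_le_right hD2
  have hidx : ∀ (B : Subgroup G) (a : G), B ≤ E0 → a ∈ E0 → B ⊔ zpowers a = E0 → Nat.card E0 ≤ Nat.card B * p := by
    intro B a hB ha hBa
    have hnb : zpowers a ≤ normalizer (B : Set G) := by
      refine zpowers_le.mpr (CfsgLib.Core.centralizer_le_normalizer B ?_)
      haveI := hE0c
      exact mem_centralizer_iff.mpr fun b hb => congrArg Subtype.val (hE0c.is_comm.comm (⟨b, hB hb⟩ : E0) ⟨a, ha⟩)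
    rw [← hBa, sup_comm, mul_comm]
    refine (Nat.le_of_dvd (Nat.mul_pos Nat.card_pos Nat.card_pos) (CfsgLib.Core.card_sup_dvd_mul hnb)).trans
      (Nat.mul_le_mul_right _ ?_)
    rw [Nat.card_zpowers]
    exact Nat.le_of_dvd hp.out.pos (orderOf_dvd_of_pow_eq_one (hE0x a ha))
  obtain ⟨x0, hx0, hx01⟩ : ∃ x ∈ B1 ⊓ B2, x ≠ 1 := by
    by_contra hcon
    push Not at hcon
    have hbot : B1 ⊓ B2 = ⊥ := (eq_bot_iff_forall _).mpr hcon
    have h3 : B1.relIndex E0 ≤ p := by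
      have h4 := CfsgLib.Core.card_mul_relIndex hB1
      have h5 := hidx B1 a1 hB1 ha1 hB1a
      by_contra h6
      have : Nat.card B1 * p < Nat.card B1 * B1.relIndex E0 := Nat.mul_lt_mul_of_pos_left (not_le.mp h6) Nat.card_pos
      omega
    have h7 : Nat.card B2 ≤ p := by
      rw [← relIndex_bot_left, ← hbot, inf_relIndex_right]
      exact (Subgroup.relIndex_le_of_le_right hB2 (by
        intro h0
        have h4 := CfsgLib.Core.card_mul_relIndex hB1
        rw [h0, mul_zero] at h4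
        exact Nat.card_pos.ne' h4.symm)).trans h3
    have h8 := hidx B2 a2 hB2 ha2 hB2a
    have : Nat.card B2 * p ≤ p * p := Nat.mul_le_mul_right p h7
    rw [sq] at hE0card
    omega
  -- the local subgroup
  set T := zpowers x0 with hT
  have hx0E : x0 ∈ E := hE0le (hB1 hx0.1)
  have hTp : IsPGroup p T := hEp.to_le (zpowers_le.mpr hx0E)
  have hT1 : T ≠ ⊥ := fun h => hx01 (zpowers_eq_bot.mp h)
  set M := normalizer (T : Set G) with hM
  have hEM : E ≤ M := by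
    haveI := hEc
    refine fun a ha => CfsgLib.Core.centralizer_le_normalizer T (mem_centralizer_iff.mpr fun t ht => ?_)
    exact congrArg Subtype.val (hEc.is_comm.comm (⟨t, zpowers_le.mpr hx0E ht⟩ : E) ⟨a, ha⟩)
  set W := (Cfsg.pPrimeCore p M).map M.subtype with hWd
  have hWle : ∀ X : Subgroup G, X ≤ M → (Nat.card X).Coprime p → E ≤ normalizer (X : Set G) → X ≤ W := by
    intro X hXM hXc hEX x hx
    have := local_le (H := M) (p := p) (hloc T hTp hT1) (E := E.subgroupOf M) (X := X.subgroupOf M)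
      (hEp.of_equiv (subgroupOfEquivOfLe hEM).symm)
      (by rwa [Nat.card_congr (subgroupOfEquivOfLe hXM).toEquiv])
      (fun a ha => by
        rw [← Subgroup.subgroupOf_normalizer_eq hXM]
        exact hEX ha)
      (fun y hy hyp => hEfull y (mem_centralizer_iff.mpr fun a ha =>
          congrArg Subtype.val (mem_centralizer_iff.mp hy ⟨a, hEM ha⟩ ha))
        (by
          have := hyp.map M.subtype
          rwa [MonoidHom.map_zpowers] at this))
      (by
        by_cases hp2 : p = 2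
        · refine Or.inr fun R hR a ha b hb c hc => Subtype.ext ?_
          have := class_two_mem (h2 hp2) (hR.map M.subtype) ⟨a, ha, rfl⟩ ⟨b, hb, rfl⟩ ⟨c, hc, rfl⟩
          rw [← map_commutatorElement, ← map_commutatorElement] at this
          exact this
        · exact Or.inl hp2)
    exact ⟨⟨x, hXM hx⟩, this hx, rfl⟩
  have hWc : (Nat.card W).Coprime p := by
    rw [hWd, card_map_of_injective M.subtype_injective]
    exact CfsgLib.Core.coprime_card_pPrimeCore p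
  have hEW : E ≤ normalizer (W : Set G) := by
    intro a ha
    rw [mem_normalizer_iff]
    have hn : (Cfsg.pPrimeCore p M).Normal := CfsgLib.Core.normal_pPrimeCore p
    intro y
    constructor
    · rintro ⟨w, hw, rfl⟩
      exact ⟨⟨a, hEM ha⟩ * w * ⟨a, hEM ha⟩⁻¹, hn.conj_mem w hw _, rfl⟩
    · rintro ⟨w, hw, hwy⟩
      refine ⟨⟨a, hEM ha⟩⁻¹ * w * ⟨a, hEM ha⟩, by simpa using hn.conj_mem w hw ⟨a, hEM ha⟩⁻¹, ?_⟩
      show a⁻¹ * (w : G) * a = y
      rw [show (w : G) = a * y * a⁻¹ from hwy]; group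
  -- the two pieces
  set C0 := centralizer ({x0} : Set G) with hC0
  have hEC0 : E ≤ C0 := fun a ha => by
    haveI := hEc
    exact mem_centralizer_singleton_iff.mpr (congrArg Subtype.val (hEc.is_comm.comm (⟨a, ha⟩ : E) ⟨x0, hx0E⟩))
  have hC0M : C0 ≤ M := by
    refine fun y hy => CfsgLib.Core.centralizer_le_normalizer T (mem_centralizer_iff.mpr fun t ht => ?_)
    obtain ⟨i, rfl⟩ := ht
    exact (Commute.zpow_left (mem_centralizer_singleton_iff.mp hy : Commute y x0).symm i).eq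
  set Y := W ⊓ normalizer (D : Set G) with hYd
  set Z := Y ⊔ D with hZd
  have hYD : Y ≤ normalizer (D : Set G) := inf_le_right
  have hEZ : E ≤ normalizer (Z : Set G) :=
    CfsgLib.Core.le_normalizer_sup (CfsgLib.Core.le_normalizer_inf hEW (hDE.trans Subgroup.le_normalizer)) hDE
  have hDp : IsPGroup q D := (hIp _ h₁.1).to_le inf_le_left
  have hZc : (Nat.card Z).Coprime p :=
    ((hWc.coprime_dvd_left (card_dvd_of_le inf_le_left)).mul_left (hcopq hDp)).coprime_dvd_left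
      (CfsgLib.Core.card_sup_dvd_mul hYD)
  have hcopEZ : (Nat.card E).Coprime (Nat.card Z) := by rw [he]; exact (hZc.pow_right e).symm
  have hEsol : Group.IsSolvable E := by haveI := hEp.isNilpotent; infer_instance
  have hpiece : ∀ Q ∈ Cfsg.maxInvSubgroups ⊤ E {q}, D ≤ Q → ∀ B : Subgroup G, x0 ∈ B →
      ¬ Q ⊓ normalizer (D : Set G) ⊓ centralizer (B : Set G) ≤ D →
      ∃ S : Sylow q Z, E ≤ normalizer (((S : Subgroup Z).map Z.subtype : Subgroup G) : Set G) ∧
        D < Q ⊓ (S : Subgroup Z).map Z.subtype := by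
    intro Q hQ hDQ B hB hBN
    set X := Q ⊓ normalizer (D : Set G) ⊓ C0 with hX
    have hBX : Q ⊓ normalizer (D : Set G) ⊓ centralizer (B : Set G) ≤ X :=
      inf_le_inf_left _ (centralizer_le (Set.singleton_subset_iff.mpr hB))
    have hEX : E ≤ normalizer (X : Set G) :=
      CfsgLib.Core.le_normalizer_inf (CfsgLib.Core.le_normalizer_inf hQ.1.2.2 (hDE.trans Subgroup.le_normalizer))
        (hEC0.trans Subgroup.le_normalizer)
    have hXQ : X ≤ Q := inf_le_left.trans inf_le_left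
    have hXW : X ≤ W := hWle X (inf_le_right.trans hC0M) (hcopq ((hIp _ hQ.1).to_le hXQ)) hEX
    have hXY : X ≤ Y := le_inf hXW (inf_le_left.trans inf_le_right)
    have hXD : X ⊔ D ≤ Q := sup_le hXQ hDQ
    obtain ⟨S, hS, hSE⟩ := CfsgLib.Core.exists_invariant_sylow_ge q hEZ hcopEZ (Or.inl hEsol)
      (sup_le_sup_right hXY D) ((hIp _ hQ.1).to_le hXD) (CfsgLib.Core.le_normalizer_sup hEX hDE)
    refine ⟨S, hSE, lt_of_lt_of_le (lt_of_le_of_ne le_sup_right fun e => hBN ?_) (le_inf hXD hS)⟩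
    exact hBX.trans (le_sup_left.trans e.ge)
  obtain ⟨S1, hS1E, hlt1⟩ := hpiece Q₁ h₁ inf_le_left B1 hx0.1 hB1N
  obtain ⟨S2, hS2E, hlt2⟩ := hpiece Q₂ h₂ inf_le_right B2 hx0.2 hB2N
  obtain ⟨c, hc, hcS⟩ := (CfsgLib.Core.exists_invariant_sylow_aux q hEZ hcopEZ (Or.inl hEsol)).2 _ _
    (CfsgLib.Core.isHallIn_singleton_iff_exists_sylow.mpr ⟨S1, rfl⟩) hS1E
    (CfsgLib.Core.isHallIn_singleton_iff_exists_sylow.mpr ⟨S2, rfl⟩) hS2E
  have hcK : c ∈ K := core_mem hEc hEp hEfull hc.2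
    (hZc.coprime_dvd_left (Subgroup.orderOf_dvd_natCard Z hc.1))
  obtain ⟨R1, hR1, hSR1⟩ := hext _ (hmkI _ (S1.2.map Z.subtype) hS1E)
  obtain ⟨R2, hR2, hSR2⟩ := hext _ (hmkI _ (S2.2.map Z.subtype) hS2E)
  obtain ⟨k1, hk1, e1⟩ := hbig Q₁ R1 h₁ hR1 (hlt1.trans_le (inf_le_inf_left _ hSR1))
  obtain ⟨k2, hk2, e2⟩ := hbig Q₂ R2 h₂ hR2 (hlt2.trans_le (inf_le_inf_left _ hSR2))
  obtain ⟨k3, hk3, e3⟩ := hbig (R1.map (MulAut.conj c).toMonoidHom) R2 (hconjM c hcK R1 hR1) hR2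
    ((hlt2.trans_le inf_le_right).trans_le (le_inf (by
      rw [← hcS, CfsgLib.Core.conj_smul_eq_map]
      exact map_mono hSR1) hSR2))
  refine ⟨k2⁻¹ * (k3 * (c * k1)), K.mul_mem (K.inv_mem hk2) (K.mul_mem hk3 (K.mul_mem hcK hk1)), ?_⟩
  have : Q₂ = R2.map (MulAut.conj k2⁻¹).toMonoidHom := by rw [e2, hmapmap, inv_mul_cancel, hmapone]
  rw [this, e3, e1, hmapmap, hmapmap, hmapmap]
  simp only [mul_assoc]

end main

end CfsgLib.Transitivity
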