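import Cfsg.Agent.Lib.CharBurnside
import Cfsg.Agent.Lib.CoreHall

/-!
# Groups with an abelian complement to a Sylow 2-subgroup
-/

set_option autoImplicit false

namespace CfsgLib.Fgs.TwoAbelianProduct

universe u

open scoped Pointwise

/-- An abelian subgroup of odd order and 2-power index. -/
def HasAbelianComplement (H : Type u) [Group H] : Prop :=
  ∃ C : Subgroup H, IsMulCommutative C ∧ Odd (Nat.card C) ∧ ∃ k : ℕ, C.index = 2 ^ k

theorem of_complement {H : Type u} [Group H] [Finite H] (S : Sylow 2 H) (C : Subgroup H) (hC : IsMulCommutative C)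
    (hSC : Subgroup.IsComplement' (S : Subgroup H) C) : HasAbelianComplement H := by
  haveI : Fact (Nat.Prime 2) := ⟨Nat.prime_two⟩
  refine ⟨C, hC, ?_, ?_⟩
  · rw [← hSC.symm.index_eq_card, ← Nat.not_even_iff_odd, even_iff_two_dvd]
    exact S.not_dvd_index
  · obtain ⟨k, hk⟩ := IsPGroup.iff_card.mp S.2
    exact ⟨k, by rw [hSC.index_eq_card, hk]⟩

theorem exists_complement {H : Type u} [Group H] [Finite H] (h : HasAbelianComplement H) :
    ∃ (P : Sylow 2 H) (D : Subgroup H), IsMulCommutative D ∧ Subgroup.IsComplement' (P : Subgroup H) D := by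
  haveI : Fact (Nat.Prime 2) := ⟨Nat.prime_two⟩
  obtain ⟨C, hC, hodd, k, hk⟩ := h
  obtain ⟨P⟩ : Nonempty (Sylow 2 H) := inferInstance
  have hnd : ¬ 2 ∣ Nat.card C := fun h2 => Nat.not_even_iff_odd.2 hodd (even_iff_two_dvd.2 h2)
  have hcard : Nat.card (P : Subgroup H) = 2 ^ k := by
    rw [P.card_eq_multiplicity, ← C.card_mul_index, hk,
      Nat.factorization_mul Nat.card_pos.ne' (pow_ne_zero _ two_ne_zero), Finsupp.add_apply,
      Nat.factorization_eq_zero_of_not_dvd hnd, zero_add, Nat.Prime.factorization_pow Nat.prime_two, Finsupp.single_eq_same]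
  refine ⟨P, C, hC, Subgroup.isComplement'_of_coprime ?_ ?_⟩
  · rw [hcard, ← hk, mul_comm, Subgroup.card_mul_index]
  · rw [hcard]
    exact Nat.Coprime.pow_left k (Nat.coprime_two_left.2 hodd)

theorem quotient {H : Type u} [Group H] [Finite H] (h : HasAbelianComplement H) (N : Subgroup H) [N.Normal] :
    HasAbelianComplement (H ⧸ N) := by
  obtain ⟨C, hC, hodd, k, hk⟩ := h
  refine ⟨C.map (QuotientGroup.mk' N), ?_, ?_, ?_⟩
  · refine ⟨⟨?_⟩⟩
    rintro ⟨_, a, ha, rfl⟩ ⟨_, b, hb, rfl⟩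
    apply Subtype.ext
    show QuotientGroup.mk' N a * QuotientGroup.mk' N b = QuotientGroup.mk' N b * QuotientGroup.mk' N a
    rw [← map_mul, ← map_mul]
    exact congrArg _ (congrArg Subtype.val (hC.is_comm.comm (⟨a, ha⟩ : C) ⟨b, hb⟩))
  · exact hodd.of_dvd_nat (Subgroup.card_map_dvd C (QuotientGroup.mk' N))
  · have h1 : (C.map (QuotientGroup.mk' N)).index ∣ C.index := Subgroup.index_map_dvd _ (QuotientGroup.mk'_surjective N)
    rw [hk] at h1
    obtain ⟨j, -, hj⟩ := (Nat.dvd_prime_pow Nat.prime_two).1 h1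
    exact ⟨j, hj⟩

theorem normal {H : Type u} [Group H] [Finite H] (h : HasAbelianComplement H) (N : Subgroup H) [hN : N.Normal] :
    HasAbelianComplement N := by
  obtain ⟨C, hC, hodd, k, hk⟩ := h
  refine ⟨C.subgroupOf N, ⟨⟨?_⟩⟩, ?_, ?_⟩
  · intro a b
    apply Subtype.ext
    apply Subtype.ext
    show ((a : N) : H) * ((b : N) : H) = ((b : N) : H) * ((a : N) : H)
    exact congrArg Subtype.val (hC.is_comm.comm (⟨_, a.2⟩ : C) ⟨_, b.2⟩)
  · refine hodd.of_dvd_nat ?_
    rw [← Subgroup.card_map_of_injective N.subtype_injective, Subgroup.subgroupOf_map_subtype]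
    exact Subgroup.card_dvd_of_le inf_le_left
  · have h1 : C.relIndex N ∣ C.index := by
      obtain ⟨t, ht⟩ : N.relIndex C ∣ N.index := N.relIndex_dvd_index_of_normal C
      have e1 := Subgroup.relIndex_mul_index (inf_le_left : C ⊓ N ≤ C)
      have e2 := Subgroup.relIndex_mul_index (inf_le_right : C ⊓ N ≤ N)
      rw [Subgroup.inf_relIndex_right] at e2
      rw [Subgroup.inf_relIndex_left] at e1
      rw [← e2, ht, mul_comm (C.relIndex N), mul_assoc] at e1
      exact ⟨t, (Nat.eq_of_mul_eq_mul_left (Nat.pos_of_dvd_of_pos (Subgroup.relIndex_dvd_card N C) Nat.card_pos) e1).trans (mul_comm _ _)⟩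
    rw [hk] at h1
    obtain ⟨j, -, hj⟩ := (Nat.dvd_prime_pow Nat.prime_two).1 h1
    exact ⟨j, hj⟩

theorem isSolvable : ∀ (m : ℕ) (H : Type u) [Group H] [Finite H], Nat.card H = m → HasAbelianComplement H →
    Group.IsSolvable H := by
  intro m
  induction m using Nat.strong_induction_on with
  | _ m ih =>
    intro H _ _ hm h
    rcases subsingleton_or_nontrivial H with hs | hs
    · infer_instance
    haveI : Fact (Nat.Prime 2) := ⟨Nat.prime_two⟩
    by_cases hsimp : IsSimpleGroup H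
    · obtain ⟨C, hC, hodd, k, hk⟩ := h
      by_cases hC1 : C = ⊥
      · have hP : IsPGroup 2 H := IsPGroup.of_card (n := k) (by rw [← C.card_mul_index, hk, hC1, Subgroup.card_bot, one_mul])
        haveI := hP.isNilpotent
        infer_instance
      · obtain ⟨c, hc, hc1⟩ := (Subgroup.bot_or_exists_ne_one C).resolve_left hC1
        have hle : C ≤ Subgroup.centralizer ({c} : Set H) := fun x hx =>
          Subgroup.mem_centralizer_singleton_iff.2 (congrArg Subtype.val (hC.is_comm.comm (⟨x, hx⟩ : C) ⟨c, hc⟩))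
        have h1 := Subgroup.index_dvd_of_le hle
        rw [hk] at h1
        obtain ⟨j, -, hj⟩ := (Nat.dvd_prime_pow Nat.prime_two).1 h1
        have hp := CfsgLib.Char.prime_card_of_class_prime_pow Nat.prime_two hc1 hj
        haveI : Fact (Nat.card H).Prime := ⟨hp⟩
        haveI : IsCyclic H := isCyclic_of_prime_card rfl
        exact Group.isSolvable_of_comm fun a b => IsCyclic.commGroup.mul_comm a b
    · have hex : ∃ N : Subgroup H, N.Normal ∧ N ≠ ⊥ ∧ N ≠ ⊤ := by
        by_contra hcon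
        push Not at hcon
        exact hsimp ⟨fun N hN => (eq_or_ne N ⊥).imp id (hcon N hN)⟩
      obtain ⟨N, hN, hN1, hN2⟩ := hex
      haveI := hN
      have hNlt : Nat.card N < m := hm ▸ lt_of_le_of_ne (Nat.le_of_dvd Nat.card_pos N.card_subgroup_dvd_card)
        (fun e => hN2 (Subgroup.eq_top_of_card_eq N e))
      have hQlt : Nat.card (H ⧸ N) < m := by
        have h1 := Subgroup.card_eq_card_quotient_mul_card_subgroup N
        have h2 : 1 < Nat.card N := (Subgroup.one_lt_card_iff_ne_bot N).2 hN1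
        have h3 : 0 < Nat.card (H ⧸ N) := Nat.card_pos
        rw [← hm, h1]
        exact lt_mul_of_one_lt_right h3 h2
      haveI : Group.IsSolvable N := ih _ hNlt N rfl (normal h N)
      haveI : Group.IsSolvable (H ⧸ N) := ih _ hQlt (H ⧸ N) rfl (quotient h N)
      exact solvable_of_ker_le_range N.subtype (QuotientGroup.mk' N) (by rw [QuotientGroup.ker_mk', Subgroup.range_subtype])

theorem subgroup {H : Type u} [Group H] [Finite H] (h : HasAbelianComplement H) (L : Subgroup H) :
    HasAbelianComplement L := by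
  haveI := isSolvable _ H rfl h
  obtain ⟨C, hC, hodd, k, hk⟩ := h
  have hCH : CfsgLib.Core.IsHall ({2}ᶜ : Set ℕ) C := by
    refine ⟨fun p hp hpd h2 => ?_, fun p hp hpd => ?_⟩
    · rw [Set.mem_singleton_iff.1 h2] at hpd
      exact Nat.not_even_iff_odd.2 hodd (even_iff_two_dvd.2 hpd)
    · rw [compl_compl, Set.mem_singleton_iff]
      rw [hk] at hpd
      exact (Nat.prime_dvd_prime_iff_eq hp Nat.prime_two).1 (hp.dvd_of_dvd_pow hpd)
  obtain ⟨D, hD⟩ := CfsgLib.Core.exists_isHall (G := L) ({2}ᶜ : Set ℕ)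
  have hDc : CfsgLib.Core.IsPiNat ({2}ᶜ : Set ℕ) (Nat.card (D.map L.subtype)) := by
    rw [Subgroup.card_subtype]; exact hD.1
  obtain ⟨g, hg⟩ := CfsgLib.Core.exists_conj_le_isHall hDc hCH
  refine ⟨D, ⟨⟨fun a b => Subtype.ext (Subtype.ext ?_)⟩⟩, ?_, ?_⟩
  · have e := hC.is_comm.comm (⟨_, hg (Subgroup.smul_mem_pointwise_smul _ (MulAut.conj g) _ ⟨a.1, a.2, rfl⟩)⟩ : C)
      ⟨_, hg (Subgroup.smul_mem_pointwise_smul _ (MulAut.conj g) _ ⟨b.1, b.2, rfl⟩)⟩
    have e' := congrArg Subtype.val e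
    simp only [MulAut.smul_def, Subgroup.coe_mul, Subgroup.coe_subtype] at e' ⊢
    rw [← map_mul, ← map_mul] at e'
    exact (MulAut.conj g).injective e'
  · rw [← Nat.not_even_iff_odd, even_iff_two_dvd]
    exact fun h2 => hD.1 2 Nat.prime_two h2 rfl
  · refine ⟨_, Nat.eq_prime_pow_of_unique_prime_dvd Subgroup.index_ne_zero_of_finite fun {p} hp hpd => ?_⟩
    have := hD.2 p hp hpd
    simpa using this

end CfsgLib.Fgs.TwoAbelianProduct
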