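import Mathlib

/-!
# `p`-groups with two class sizes

Isaacs' theorem: if the class sizes of a `p`-group are `1` and `p ^ a`, then `P ⧸ Z(P)` has
exponent `p`.
-/

set_option autoImplicit false

namespace CfsgLib.Fgs.TwoClass

open Subgroup
open scoped commutatorElement IsMulCommutative

variable {P : Type*} [Group P]

theorem pow_conj_pow (y a : P) (i : ℕ) :
    ((MulAut.conj y) ^ i) a = y ^ i * a * (y ^ i)⁻¹ := by
  rw [← map_pow, MulAut.conj_apply]

theorem mul_pow_eq_prod {A : Subgroup P} [A.Normal] [IsMulCommutative A] (a : A) (y : P) (n : ℕ) :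
    ((a : P) * y) ^ n =
      ((∏ i ∈ Finset.range n, (MulAut.conjNormal (y ^ i) a : A) : A) : P) * y ^ n := by
  induction n with
  | zero => simp
  | succ n ih =>
    rw [pow_succ, ih, Finset.prod_range_succ, Subgroup.coe_mul, MulAut.conjNormal_apply, pow_succ]
    group

variable [Finite P] {p : ℕ} [hp : Fact p.Prime]

theorem pow_mem_center (hP : IsPGroup p P) {a : ℕ}
    (hidx : ∀ x : P, (centralizer ({x} : Set P)).index = 1 ∨ (centralizer ({x} : Set P)).index = p ^ a)
    (ha : 1 ≤ a) (x : P) : x ^ p ∈ center P := by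
  classical
  have hcl : ∀ u : P, u ∈ center P ↔ (centralizer ({u} : Set P)).index = 1 := fun u => by
    rw [index_eq_one, eq_top_iff']
    simp [mem_centralizer_singleton_iff, mem_center_iff]
  have hmem : ∀ u v : P, v ∈ centralizer ({u} : Set P) ↔ v * u = u * v := fun u v =>
    mem_centralizer_singleton_iff
  rcases ha.eq_or_lt with ha1 | ha2
  · -- all centralizers are maximal
    rw [mem_center_iff]
    intro g
    rcases hidx g with h | h
    · exact ((mem_center_iff.mp ((hcl g).mpr h)) (x ^ p)).symm
    · rw [← ha1, pow_one] at h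
      haveI hn : (centralizer ({g} : Set P)).Normal := by
        obtain ⟨n, hn⟩ := hP.exists_card_eq
        exact Subgroup.normal_of_index_eq_minFac_card (by
          have hn0 : n ≠ 0 := by
            rintro rfl
            have := (centralizer ({g} : Set P)).index_dvd_card
            rw [h, hn, pow_zero, Nat.dvd_one] at this
            exact hp.out.one_lt.ne' this
          rw [h, hn, Nat.pow_minFac hn0, hp.out.minFac_eq])
      have := Subgroup.pow_index_mem (centralizer ({g} : Set P)) x
      rw [h] at this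
      exact ((hmem g _).mp this).symm
  by_contra hx
  have heq : ∀ u : P, u ^ p ∉ center P → centralizer ({u} : Set P) = centralizer ({u ^ p} : Set P) := by
    intro u hu
    have hle : centralizer ({u} : Set P) ≤ centralizer ({u ^ p} : Set P) := fun v hv =>
      (hmem _ v).mpr ((show Commute v u from (hmem u v).mp hv).pow_right p).eq
    refine eq_of_le_of_card_ge hle ?_
    have h1 := (hidx u).resolve_left fun h => hu (pow_mem ((hcl u).mpr h) p)
    have h2 := (hidx (u ^ p)).resolve_left fun h => hu ((hcl _).mpr h)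
    have e1 := (centralizer ({u} : Set P)).card_mul_index
    have e2 := (centralizer ({u ^ p} : Set P)).card_mul_index
    rw [h1, ← e2, h2] at e1
    exact (Nat.eq_of_mul_eq_mul_right (pow_pos hp.out.pos a) e1).ge
  -- an element of order `p` in the centre of `P ⧸ Z(P)`
  have hZtop : center P ≠ ⊤ := fun h => hx (h ▸ mem_top _)
  haveI : Nontrivial (P ⧸ center P) := by
    rw [← Finite.one_lt_card_iff_nontrivial, ← index_eq_card]
    exact one_lt_index_of_ne_top hZtop
  haveI := (hP.to_quotient (center P)).center_nontrivial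
  obtain ⟨n, hn⟩ := ((hP.to_quotient (center P)).to_subgroup (center (P ⧸ center P))).exists_card_eq
  have hn0 : n ≠ 0 := by
    rintro rfl
    exact (Finite.one_lt_card (α := center (P ⧸ center P))).ne' (by rw [hn, pow_zero])
  obtain ⟨⟨w', hw'c⟩, hw'⟩ := exists_prime_orderOf_dvd_card' (G := center (P ⧸ center P)) p
    (hn ▸ dvd_pow_self p hn0)
  obtain ⟨w, rfl⟩ := QuotientGroup.mk_surjective w'
  rw [← Subgroup.orderOf_coe] at hw'
  have hwZ : w ∉ center P := fun h => hp.out.one_lt.ne' (by
    rw [← hw', orderOf_eq_one_iff]; exact (QuotientGroup.eq_one_iff _).mpr h)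
  have hwp : w ^ p ∈ center P := by
    rw [← QuotientGroup.eq_one_iff, QuotientGroup.mk_pow]
    exact orderOf_dvd_iff_pow_eq_one.mp hw'.dvd
  have hwcomm : ∀ g : P, ⁅g, w⁆ ∈ center P := fun g => by
    rw [← QuotientGroup.eq_one_iff]
    have : (QuotientGroup.mk' (center P)) ⁅g, w⁆ = 1 := by
      rw [map_commutatorElement, commutatorElement_eq_one_iff_commute]
      exact mem_center_iff.mp hw'c _
    exact this
  set C := centralizer ({w} : Set P) with hC
  have hconjpow : ∀ (g : P) (k : ℕ), g ^ k * w * (g ^ k)⁻¹ = ⁅g, w⁆ ^ k * w := by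
    intro g k
    have hc := mem_center_iff.mp (hwcomm g)
    induction k with
    | zero => simp
    | succ k ih =>
      calc g ^ (k + 1) * w * (g ^ (k + 1))⁻¹ = g * (g ^ k * w * (g ^ k)⁻¹) * g⁻¹ := by
            rw [pow_succ']; group
        _ = g * (⁅g, w⁆ ^ k * w) * g⁻¹ := by rw [ih]
        _ = (g * ⁅g, w⁆ ^ k * g⁻¹) * (g * w * g⁻¹) := by group
        _ = ⁅g, w⁆ ^ k * (⁅g, w⁆ * w) := by
            have h1 : g * ⁅g, w⁆ ^ k = ⁅g, w⁆ ^ k * g :=
              ((show Commute g ⁅g, w⁆ from hc g).pow_right k).eq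
            rw [h1, mul_inv_cancel_right, commutatorElement_def]
            group
        _ = ⁅g, w⁆ ^ (k + 1) * w := by rw [pow_succ, mul_assoc]
  have hCn : C.Normal := by
    refine ⟨fun c hc g => ?_⟩
    rw [hC, hmem] at hc ⊢
    have hz := mem_center_iff.mp (hwcomm g⁻¹)
    have hg : g⁻¹ * w * g = ⁅g⁻¹, w⁆ * w := by rw [commutatorElement_def]; group
    calc g * c * g⁻¹ * w = g * (c * (g⁻¹ * w * g)) * g⁻¹ := by group
      _ = g * ((g⁻¹ * w * g) * c) * g⁻¹ := by
          rw [hg, ← mul_assoc c, hz c, mul_assoc _ c w, hc, ← mul_assoc _ w c]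
      _ = w * (g * c * g⁻¹) := by group
  haveI := hCn
  have hcw : ∀ u : P, u ^ p ∉ center P → centralizer ({u} : Set P) = C := by
    intro u hu
    have huC : ∀ v : P, v ^ p ∉ center P → v ∈ C := by
      intro v hv
      have hzp : ⁅v, w⁆ ^ p = 1 := by
        have hwc : ∀ k : ℕ, (v * w * v⁻¹) ^ k = ⁅v, w⁆ ^ k * w ^ k := fun k => by
          rw [← (show Commute ⁅v, w⁆ w from (mem_center_iff.mp (hwcomm v) w).symm).mul_pow]
          congr 1
          rw [commutatorElement_def]; group
        have h := hwc p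
        rw [conj_pow, mem_center_iff.mp hwp v, mul_inv_cancel_right] at h
        exact mul_eq_right.mp h.symm
      have h2 : v ^ p * w = w * v ^ p := by
        have h := hconjpow v p
        rw [hzp, one_mul] at h
        exact mul_inv_eq_iff_eq_mul.mp h
      have h3 : w ∈ centralizer ({v ^ p} : Set P) := (hmem _ w).mpr h2.symm
      rw [← heq v hv] at h3
      exact (hmem w v).mpr ((hmem v w).mp h3).symm
    have hle : centralizer ({u} : Set P) ≤ C := by
      intro v hv
      by_contra hvC
      have hvp : v ^ p ∈ center P := by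
        by_contra h; exact hvC (huC v h)
      have hvu : v * u ∉ C := fun h => hvC (by simpa using C.mul_mem h (C.inv_mem (huC u hu)))
      have h2 : (v * u) ^ p ∈ center P := by
        by_contra h; exact hvu (huC _ h)
      rw [(show Commute v u from (hmem u v).mp hv).mul_pow] at h2
      exact hu (by simpa using mul_mem (inv_mem hvp) h2)
    refine eq_of_le_of_card_ge hle ?_
    have h1 := (hidx u).resolve_left fun h => hu (pow_mem ((hcl u).mpr h) p)
    have h2 := (hidx w).resolve_left fun h => hwZ ((hcl w).mpr h)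
    have e1 := (centralizer ({u} : Set P)).card_mul_index
    have e2 := C.card_mul_index
    rw [h1, ← e2, hC, h2] at e1
    exact (Nat.eq_of_mul_eq_mul_right (pow_pos hp.out.pos a) e1).ge
  -- the abelian normal subgroup `Z(C)`
  set A := C ⊓ centralizer (C : Set P) with hA
  haveI hAn : A.Normal := inferInstance
  haveI hAc : IsMulCommutative A := ⟨⟨fun s t => Subtype.ext (mem_centralizer_iff.mp t.2.2 (s : P) s.2.1)⟩⟩
  have hxA : x ∈ A := by
    have e := hcw x hx
    refine ⟨e ▸ (hmem x x).mpr rfl, mem_centralizer_iff.mpr fun c hc => ?_⟩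
    have hc' : c ∈ centralizer ({x} : Set P) := by rw [e]; exact hc
    exact (hmem x c).mp hc'
  have houtp : ∀ y : P, y ∉ C → y ^ p ∈ center P := by
    intro y hy
    by_contra h
    exact hy (hcw y h ▸ (hmem y y).mpr rfl)
  have hnorm : ∀ y : P, y ∉ C → ∀ s : A,
      ((∏ i ∈ Finset.range p, (MulAut.conjNormal (y ^ i) s : A) : A) : P) ∈ center P := by
    intro y hy s
    have hsy : (s : P) * y ∉ C := fun h => hy (by simpa using C.mul_mem (C.inv_mem s.2.1) h)
    have h := mul_mem (houtp _ hsy) (inv_mem (houtp y hy))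
    rwa [mul_pow_eq_prod, mul_inv_cancel_right] at h
  -- two independent elements modulo `C`
  have hCidx : C.index = p ^ a := (hidx w).resolve_left fun h => hwZ ((hcl w).mpr h)
  have hqp : IsPGroup p (P ⧸ C) := hP.to_quotient C
  haveI : Nontrivial (P ⧸ C) := by
    rw [← Finite.one_lt_card_iff_nontrivial, ← index_eq_card, hCidx]
    exact Nat.one_lt_pow (by omega) hp.out.one_lt
  haveI := hqp.center_nontrivial
  obtain ⟨⟨y', hy'c⟩, hy'1⟩ := exists_ne (1 : center (P ⧸ C))
  obtain ⟨y, rfl⟩ := QuotientGroup.mk_surjective y'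
  have hyC : y ∉ C := fun h => hy'1 (Subtype.ext ((QuotientGroup.eq_one_iff _).mpr h))
  have hypC : (y : P ⧸ C) ^ p = 1 := by
    rw [← QuotientGroup.mk_pow, QuotientGroup.eq_one_iff]
    exact Subgroup.center_le_centralizer _ (houtp y hyC)
  obtain ⟨u', hu'⟩ : ∃ u' : P ⧸ C, u' ∉ zpowers (y : P ⧸ C) := by
    by_contra hcon
    push Not at hcon
    have htop : zpowers (y : P ⧸ C) = ⊤ := eq_top_iff.mpr fun z _ => hcon z
    have h1 : p ^ a = orderOf (y : P ⧸ C) := by
      rw [← Nat.card_zpowers, htop, card_top, ← index_eq_card, hCidx]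
    have h2 : orderOf (y : P ⧸ C) ∣ p := orderOf_dvd_of_pow_eq_one hypC
    rw [← h1] at h2
    have := Nat.le_of_dvd hp.out.pos h2
    have h3 := Nat.pow_lt_pow_right hp.out.one_lt ha2
    rw [pow_one] at h3
    omega
  obtain ⟨u, rfl⟩ := QuotientGroup.mk_surjective u'
  have hout : ∀ j : ℕ, y ^ j * u ∉ C := by
    intro j h
    apply hu'
    rw [← QuotientGroup.eq_one_iff, QuotientGroup.mk_mul, QuotientGroup.mk_pow] at h
    rw [eq_inv_of_mul_eq_one_right h]
    exact inv_mem (pow_mem (mem_zpowers _) j)
  exact hx (by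
    have htriv : ∀ g ∈ C, MulAut.conjNormal (H := A) g = 1 := fun g hg => by
      ext s
      rw [MulAut.conjNormal_apply, MulAut.one_apply, mem_centralizer_iff.mp s.2.2 g hg, mul_inv_cancel_right]
    set φ : MulAut A := MulAut.conjNormal y with hφ
    set ψ : MulAut A := MulAut.conjNormal u with hψ
    have hcomm : Commute φ ψ := by
      have hmk : ((u * y : P) : P ⧸ C) = ((y * u : P) : P ⧸ C) := by
        rw [QuotientGroup.mk_mul, QuotientGroup.mk_mul]; exact mem_center_iff.mp hy'c _
      have h := htriv _ (QuotientGroup.eq.mp hmk)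
      rw [map_mul, map_inv, inv_mul_eq_one, map_mul, map_mul] at h
      exact h.symm
    have hφp : φ ^ p = 1 := by
      rw [hφ, ← map_pow]
      exact htriv _ (Subgroup.center_le_centralizer _ (houtp y hyC))
    let s : A := ⟨x, hxA⟩
    set N : A := ∏ i ∈ Finset.range p, (φ ^ i) s with hN
    have hNy : ∀ s' : A, ((∏ i ∈ Finset.range p, (φ ^ i) s' : A) : P) ∈ center P := fun s' => by
      have := hnorm y hyC s'
      simpa only [hφ, ← map_pow] using this
    have hperm : ∀ (i : ℕ), i % p ≠ 0 → ∀ s' : A, ∏ j ∈ Finset.range p, (φ ^ (j * i)) s' =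
        ∏ j ∈ Finset.range p, (φ ^ j) s' := by
      intro i hi s'
      have hmod : ∀ k, φ ^ k = φ ^ (k % p) := fun k => pow_eq_pow_mod k hφp
      have hinj : Set.InjOn (fun j => j * i % p) (Finset.range p : Set ℕ) := by
        intro b hb c hc hbc
        rw [Finset.coe_range, Set.mem_Iio] at hb hc
        have hcop : Nat.gcd p i = 1 := (hp.out.coprime_iff_not_dvd).mpr (fun h => hi (Nat.mod_eq_zero_of_dvd h))
        have h := Nat.ModEq.cancel_right_of_coprime hcop (show b * i ≡ c * i [MOD p] from hbc)
        rwa [Nat.ModEq, Nat.mod_eq_of_lt hb, Nat.mod_eq_of_lt hc] at h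
      have himg : (Finset.range p).image (fun j => j * i % p) = Finset.range p := by
        refine Finset.eq_of_subset_of_card_le (fun b hb => ?_) ?_
        · obtain ⟨c, -, rfl⟩ := Finset.mem_image.mp hb
          exact Finset.mem_range.mpr (Nat.mod_lt _ hp.out.pos)
        · rw [Finset.card_image_of_injOn hinj]
      conv_rhs => rw [← himg, Finset.prod_image hinj]
      exact Finset.prod_congr rfl fun j _ => by rw [hmod (j * i)]
    have hsum : ∏ j ∈ Finset.range p, ∏ i ∈ Finset.range p, ((φ ^ j * ψ) ^ i) s = s ^ p * N ^ (p - 1) := by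
      rw [Finset.prod_comm]
      have hstep : ∀ i ∈ Finset.range p, ∏ j ∈ Finset.range p, ((φ ^ j * ψ) ^ i) s =
          if i = 0 then s ^ p else N := by
        intro i hi
        split_ifs with h
        · subst h; simp
        · have e : ∀ j, ((φ ^ j * ψ) ^ i) s = (φ ^ (j * i)) ((ψ ^ i) s) := fun j => by
            rw [(hcomm.pow_left j).mul_pow, ← pow_mul, MulAut.mul_apply]
          rw [Finset.prod_congr rfl fun j _ => e j,
            hperm i (by rwa [Nat.mod_eq_of_lt (Finset.mem_range.mp hi)])]
          have hfix : (ψ ^ i) N = N := by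
            apply Subtype.ext
            rw [hψ, ← map_pow, MulAut.conjNormal_apply,
              mem_center_iff.mp (hNy s) (u ^ i), mul_inv_cancel_right]
          rw [← hfix, hN, map_prod]
          refine Finset.prod_congr rfl fun j _ => ?_
          rw [← MulAut.mul_apply, ← MulAut.mul_apply, ((hcomm.pow_left j).pow_right i).eq]
      rw [Finset.prod_congr rfl hstep, ← Finset.mul_prod_erase _ _ (Finset.mem_range.mpr hp.out.pos), if_pos rfl,
        Finset.prod_congr rfl (fun i hi => if_neg (Finset.ne_of_mem_erase hi)), Finset.prod_const,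
        Finset.card_erase_of_mem (Finset.mem_range.mpr hp.out.pos), Finset.card_range]
    have hmemc : ((∏ j ∈ Finset.range p, ∏ i ∈ Finset.range p, ((φ ^ j * ψ) ^ i) s : A) : P) ∈ center P := by
      have hmem' : (∏ j ∈ Finset.range p, ∏ i ∈ Finset.range p, ((φ ^ j * ψ) ^ i) s : A) ∈
          (center P).subgroupOf A := Subgroup.prod_mem _ fun j _ => by
        have h := hnorm (y ^ j * u) (hout j) s
        rw [Finset.prod_congr rfl fun i _ => show MulAut.conjNormal ((y ^ j * u) ^ i) s = ((φ ^ j * ψ) ^ i) s by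
          rw [map_pow, map_mul, map_pow]] at h
        exact h
      exact hmem'
    rw [hsum, Subgroup.coe_mul, Subgroup.coe_pow, Subgroup.coe_pow] at hmemc
    have h := mul_mem hmemc (inv_mem (pow_mem (hNy s) (p - 1)))
    rwa [mul_inv_cancel_right] at h)

end CfsgLib.Fgs.TwoClass
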