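import Cfsg.Agent.Lib.FusionFunctor
import Cfsg.Agent.Lib.FusionEssential
import Mathlib.GroupTheory.Nilpotent

/-!
# A unique abelian subgroup of index `p` which is not essential

If the core is trivial, some `Z(S)⟨x⟩` is essential, the centre has order `p` and lies in the
commutator subgroup, and `S` has maximal class. The key tool is the reflection of the centre
induced by an automorphism of such an essential subgroup.
-/

set_option autoImplicit false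
set_option linter.style.haveILetI false

namespace CfsgLib.FusionAbelianIndex

open Cfsg Cfsg.FusionSystem CfsgLib.Fusion Subgroup

universe u

variable {Ω : Type u} [Group Ω] {S : Subgroup Ω} {A : Subgroup Ω} {p : ℕ}

/-- The standing hypotheses on `S` and its abelian subgroup. -/
structure Setting (S A : Subgroup Ω) (p : ℕ) : Prop where
  le : A ≤ S
  comm : ∀ a ∈ A, ∀ b ∈ A, a * b = b * a
  conj : ∀ g ∈ S, ∀ a ∈ A, g * a * g⁻¹ ∈ A
  gen : ∀ x ∈ S, x ∉ A → ∀ g ∈ S, ∃ a ∈ A, ∃ k : ℤ, g = a * x ^ k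
  pow : ∀ x ∈ S, x ^ p ∈ A
  nonab : ∃ g ∈ S, ∃ h ∈ S, g * h ≠ h * g

/-- The centre of `S`. -/
def Zc (S : Subgroup Ω) : Subgroup Ω := S ⊓ centralizer (S : Set Ω)

theorem setting_of [Finite S] [hp : Fact p.Prime] (hS : IsPGroup p S) (hle : A ≤ S)
    (hcomm : IsMulCommutative A) (hidx : (A.subgroupOf S).index = p)
    (hna : ¬ IsMulCommutative S) : Setting S A p := by
  haveI : (A.subgroupOf S).Normal := by
    obtain ⟨n, hn⟩ := IsPGroup.iff_card.1 hS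
    refine Subgroup.normal_of_index_eq_minFac_card ?_
    rcases n with _ | n
    · exfalso
      have h := (A.subgroupOf S).index_dvd_card
      rw [hn, pow_zero, hidx] at h
      exact hp.out.one_lt.ne' (Nat.dvd_one.1 h)
    · rw [hn, Nat.pow_minFac n.succ_ne_zero, hp.out.minFac_eq, hidx]
  have hcard : Nat.card (S ⧸ A.subgroupOf S) = p := hidx
  refine ⟨hle, fun a ha b hb => congrArg Subtype.val (hcomm.is_comm.comm ⟨a, ha⟩ ⟨b, hb⟩),
    fun g hg a ha => ?_, fun x hx hxA g hg => ?_, fun x hx => ?_, ?_⟩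
  · have h1 := Normal.conj_mem (H := A.subgroupOf S) inferInstance (⟨a, hle ha⟩ : S)
      (mem_subgroupOf.2 ha) ⟨g, hg⟩
    simpa [mem_subgroupOf] using h1
  · have hne : (QuotientGroup.mk' (A.subgroupOf S) ⟨x, hx⟩) ≠ 1 := fun h =>
      hxA ((QuotientGroup.eq_one_iff (N := A.subgroupOf S) _).1 h)
    obtain ⟨k, hk⟩ := mem_zpowers_iff.1 (mem_zpowers_of_prime_card hcard (g' := QuotientGroup.mk'
      (A.subgroupOf S) ⟨g, hg⟩) hne)
    rw [← map_zpow] at hk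
    refine ⟨g * (x ^ k)⁻¹, ?_, k, by group⟩
    have h1 : ((⟨g, hg⟩ : S) * ((⟨x, hx⟩ : S) ^ k)⁻¹) ∈ A.subgroupOf S := by
      rw [← QuotientGroup.eq_one_iff (N := A.subgroupOf S), ← QuotientGroup.mk'_apply, map_mul,
        map_inv, hk, mul_inv_cancel]
    simpa [mem_subgroupOf] using h1
  · have h1 : (⟨x, hx⟩ : S) ^ p ∈ A.subgroupOf S := by
      rw [← hidx]; exact Subgroup.pow_index_mem _ _
    simpa [mem_subgroupOf] using h1
  · by_contra h
    push Not at h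
    exact hna ⟨⟨fun a b => Subtype.ext (h a a.2 b b.2)⟩⟩

namespace Setting

variable (h : Setting S A p)
include h

theorem cen {x : Ω} (hx : x ∈ S) (hxA : x ∉ A) {a : Ω} (ha : a ∈ A) (hc : a * x = x * a) :
    a ∈ Zc S := by
  refine ⟨h.le ha, fun g hg => ?_⟩
  obtain ⟨b, hb, k, rfl⟩ := h.gen x hx hxA g hg
  exact (Commute.mul_right (h.comm a ha b hb : Commute a b) ((show Commute a x from hc).zpow_right k)).eq.symm

theorem zc_comm {z g : Ω} (hz : z ∈ Zc S) (hg : g ∈ S) : Commute z g := (hz.2 g hg).symm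

theorem zc_le : Zc S ≤ A := by
  intro z hz
  by_contra hzA
  obtain ⟨g, hg, g', hg', hne⟩ := h.nonab
  obtain ⟨a, ha, k, rfl⟩ := h.gen z hz.1 hzA g hg
  obtain ⟨b, hb, l, rfl⟩ := h.gen z hz.1 hzA g' hg'
  refine hne (Commute.mul_left (Commute.mul_right (h.comm a ha b hb) ?_) ?_).eq
  · exact ((h.zc_comm hz (h.le ha)).symm).zpow_right l
  · exact Commute.mul_right ((h.zc_comm hz (h.le hb)).zpow_left k)
      (((Commute.refl z).zpow_left k).zpow_right l)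

omit h in
/-- The commutator with `x`. -/
def dl (x a : Ω) : Ω := a * x * a⁻¹ * x⁻¹

theorem dl_mem {x a : Ω} (hx : x ∈ S) (ha : a ∈ A) : dl x a ∈ A := by
  rw [show dl x a = a * (x * a⁻¹ * x⁻¹) by simp [dl, mul_assoc]]
  exact A.mul_mem ha (h.conj x hx _ (A.inv_mem ha))

theorem dl_mul {x a b : Ω} (hx : x ∈ S) (ha : a ∈ A) (hb : b ∈ A) :
    dl x (a * b) = dl x a * dl x b := by
  have e : dl x (a * b) = a * dl x b * (x * a⁻¹ * x⁻¹) := by simp only [dl]; group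
  rw [e, h.comm a ha _ (h.dl_mem hx hb), mul_assoc,
    show a * (x * a⁻¹ * x⁻¹) = dl x a by simp [dl, mul_assoc],
    h.comm _ (h.dl_mem hx hb) _ (h.dl_mem hx ha)]

/-- The commutator map as a homomorphism. -/
def dlHom {x : Ω} (hx : x ∈ S) : A →* A where
  toFun a := ⟨dl x a, h.dl_mem hx a.2⟩
  map_one' := Subtype.ext (by simp [dl])
  map_mul' a b := Subtype.ext (h.dl_mul hx a.2 b.2)

theorem dlHom_ker {x : Ω} (hx : x ∈ S) (hxA : x ∉ A) : (h.dlHom hx).ker = (Zc S).subgroupOf A := by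
  ext a
  rw [MonoidHom.mem_ker, mem_subgroupOf]
  constructor
  · intro e
    have e' : dl x (a : Ω) = 1 := congrArg Subtype.val e
    exact h.cen hx hxA a.2 (mul_inv_eq_iff_eq_mul.1 (mul_inv_eq_one.1 e'))
  · intro hz
    refine Subtype.ext ?_
    show dl x (a : Ω) = 1
    rw [dl, (h.zc_comm hz hx).eq, mul_inv_cancel_right, mul_inv_cancel]

theorem commutator_le_dl {x : Ω} (hx : x ∈ S) (hxA : x ∉ A) :
    ⁅S, S⁆ ≤ ((h.dlHom hx).range).map A.subtype := by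
  have hD : ∀ g ∈ S, ∀ d ∈ ((h.dlHom hx).range).map A.subtype,
      g * d * g⁻¹ ∈ ((h.dlHom hx).range).map A.subtype := by
    rintro g hg _ ⟨_, ⟨a, rfl⟩, rfl⟩
    obtain ⟨b, hb, k, rfl⟩ := h.gen x hx hxA g hg
    have hk : x ^ k * (a : Ω) * (x ^ k)⁻¹ ∈ A := h.conj _ (S.zpow_mem hx k) _ a.2
    refine ⟨_, ⟨⟨_, hk⟩, rfl⟩, ?_⟩
    show dl x (x ^ k * (a : Ω) * (x ^ k)⁻¹) = b * x ^ k * dl x a * (b * x ^ k)⁻¹
    have e1 : dl x (x ^ k * (a : Ω) * (x ^ k)⁻¹) = x ^ k * dl x a * (x ^ k)⁻¹ := by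
      have hc : Commute x (x ^ k) := (Commute.refl x).zpow_right k
      simp only [dl]
      have e2 : (x ^ k)⁻¹ * x = x * (x ^ k)⁻¹ := hc.inv_right.eq.symm
      calc x ^ k * ↑a * (x ^ k)⁻¹ * x * (x ^ k * ↑a * (x ^ k)⁻¹)⁻¹ * x⁻¹
          = x ^ k * ↑a * ((x ^ k)⁻¹ * x) * (x ^ k) * (↑a)⁻¹ * ((x ^ k)⁻¹ * x⁻¹) := by group
        _ = x ^ k * ↑a * (x * (x ^ k)⁻¹) * (x ^ k) * (↑a)⁻¹ * ((x ^ k)⁻¹ * x⁻¹) := by rw [e2]
        _ = x ^ k * ↑a * x * (↑a)⁻¹ * ((x ^ k)⁻¹ * x⁻¹) := by group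
        _ = x ^ k * ↑a * x * (↑a)⁻¹ * (x⁻¹ * (x ^ k)⁻¹) := by rw [hc.inv_inv.eq.symm]
        _ = _ := by group
    have hmem : x ^ k * dl x a * (x ^ k)⁻¹ ∈ A := h.conj _ (S.zpow_mem hx k) _ (h.dl_mem hx a.2)
    rw [e1, show b * x ^ k * dl x a * (b * x ^ k)⁻¹ = b * (x ^ k * dl x a * (x ^ k)⁻¹) * b⁻¹ by group,
      h.comm b hb _ hmem, mul_inv_cancel_right]
  have hbx : ∀ g ∈ S, ∀ a ∈ A, ∀ k : ℤ, g = a * x ^ k →
      g * x * g⁻¹ * x⁻¹ ∈ ((h.dlHom hx).range).map A.subtype := by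
    rintro g hg a ha k rfl
    refine ⟨_, ⟨⟨a, ha⟩, rfl⟩, ?_⟩
    show dl x a = a * x ^ k * x * (a * x ^ k)⁻¹ * x⁻¹
    have hc : Commute (x ^ k) x := (Commute.refl x).zpow_left k
    rw [mul_inv_rev, show a * x ^ k * x * ((x ^ k)⁻¹ * a⁻¹) * x⁻¹ =
      a * (x ^ k * x * (x ^ k)⁻¹) * a⁻¹ * x⁻¹ by group, hc.eq, mul_inv_cancel_right, dl]
  -- every element of `S` commutes with `x` and with `A` modulo the image
  rw [Subgroup.commutator_le]
  intro g hg g' hg'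
  obtain ⟨b, hb, l, rfl⟩ := h.gen x hx hxA g' hg'
  obtain ⟨a, ha, k, hgk⟩ := h.gen x hx hxA g hg
  have hxl : ∀ m : ℤ, g * x ^ m * g⁻¹ * (x ^ m)⁻¹ ∈ ((h.dlHom hx).range).map A.subtype := by
    intro m
    induction m using Int.induction_on with
    | zero => simp
    | succ n ih =>
      have h2 := hD _ (S.zpow_mem hx n) _ (hbx g hg a ha k hgk)
      have e : g * x ^ ((n : ℤ) + 1) * g⁻¹ * (x ^ ((n : ℤ) + 1))⁻¹ =
          g * x ^ (n : ℤ) * g⁻¹ * (x ^ (n : ℤ))⁻¹ * (x ^ (n : ℤ) * (g * x * g⁻¹ * x⁻¹) * (x ^ (n : ℤ))⁻¹) := by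
        rw [zpow_add_one]; group
      rw [e]; exact mul_mem ih h2
    | pred n ih =>
      have h2 := hD _ (S.zpow_mem hx (-(n : ℤ) - 1)) _ (hbx g hg a ha k hgk)
      have e : g * x ^ (-(n : ℤ) - 1) * g⁻¹ * (x ^ (-(n : ℤ) - 1))⁻¹ =
          g * x ^ (-(n : ℤ)) * g⁻¹ * (x ^ (-(n : ℤ)))⁻¹ *
            (x ^ (-(n : ℤ) - 1) * (g * x * g⁻¹ * x⁻¹) * (x ^ (-(n : ℤ) - 1))⁻¹)⁻¹ := by
        rw [zpow_sub_one]; group
      rw [e]; exact mul_mem ih (inv_mem h2)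
  have hbg : g * b * g⁻¹ * b⁻¹ ∈ ((h.dlHom hx).range).map A.subtype := by
    have hxb : ∀ m : ℤ, x ^ m * b * (x ^ m)⁻¹ * b⁻¹ ∈ ((h.dlHom hx).range).map A.subtype := by
      have h1 : x * b * x⁻¹ * b⁻¹ ∈ ((h.dlHom hx).range).map A.subtype := by
        rw [show x * b * x⁻¹ * b⁻¹ = (dl x b)⁻¹ by simp [dl, mul_assoc]]
        exact inv_mem ⟨_, ⟨⟨b, hb⟩, rfl⟩, rfl⟩
      intro m
      induction m using Int.induction_on with
      | zero => simp
      | succ n ih =>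
        have e : x ^ ((n : ℤ) + 1) * b * (x ^ ((n : ℤ) + 1))⁻¹ * b⁻¹ =
            x ^ (n : ℤ) * (x * b * x⁻¹ * b⁻¹) * (x ^ (n : ℤ))⁻¹ * (x ^ (n : ℤ) * b * (x ^ (n : ℤ))⁻¹ * b⁻¹) := by
          rw [zpow_add_one]; group
        rw [e]; exact mul_mem (hD _ (S.zpow_mem hx _) _ h1) ih
      | pred n ih =>
        have e : x ^ (-(n : ℤ) - 1) * b * (x ^ (-(n : ℤ) - 1))⁻¹ * b⁻¹ =
            (x ^ (-(n : ℤ) - 1) * (x * b * x⁻¹ * b⁻¹) * (x ^ (-(n : ℤ) - 1))⁻¹)⁻¹ *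
              (x ^ (-(n : ℤ)) * b * (x ^ (-(n : ℤ)))⁻¹ * b⁻¹) := by
          rw [zpow_sub_one]; group
        rw [e]; exact mul_mem (inv_mem (hD _ (S.zpow_mem hx _) _ h1)) ih
    have hm : x ^ k * b * (x ^ k)⁻¹ ∈ A := h.conj _ (S.zpow_mem hx k) _ hb
    rw [hgk, show a * x ^ k * b * (a * x ^ k)⁻¹ = a * (x ^ k * b * (x ^ k)⁻¹) * a⁻¹ by group,
      h.comm a ha _ hm, mul_inv_cancel_right]
    exact hxb k
  rw [commutatorElement_def, show g * (b * x ^ l) * g⁻¹ * (b * x ^ l)⁻¹ =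
    g * b * g⁻¹ * b⁻¹ * (b * (g * x ^ l * g⁻¹ * (x ^ l)⁻¹) * b⁻¹) by group]
  exact mul_mem hbg (hD b (h.le hb) _ (hxl l))

end Setting

/-! ### Automorphisms which move the points by elements of a subgroup -/

theorem isPGroup_shift {E : Subgroup Ω} [Finite E] [Fact p.Prime] (hEp : IsPGroup p E)
    (K : Subgroup (MulAut E)) (X : Subgroup Ω)
    (hfix : ∀ α ∈ K, ∀ x ∈ X, x ∈ E → autFun α x = x)
    (hsh : ∀ α ∈ K, ∀ e ∈ E, e⁻¹ * autFun α e ∈ X) : IsPGroup p K := by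
  obtain ⟨n, hn⟩ := IsPGroup.iff_card.1 hEp
  rintro ⟨α, hα⟩
  refine ⟨n, Subtype.ext (autFun_inj fun e he => ?_)⟩
  have hd : e⁻¹ * autFun α e ∈ X := hsh α hα e he
  have hdE : e⁻¹ * autFun α e ∈ E := E.mul_mem (E.inv_mem he) (autFun_mem α he)
  have key : ∀ m : ℕ, autFun (α ^ m) e = e * (e⁻¹ * autFun α e) ^ m := by
    intro m
    induction m with
    | zero => rw [pow_zero, pow_zero, autFun_one he, mul_one]
    | succ m ih =>
      rw [pow_succ', autFun_mul _ _ he, ih, autFun_apply α (E.mul_mem he (E.pow_mem hdE m))]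
      show ((α (⟨e, he⟩ * (⟨_, hdE⟩ : E) ^ m) : E) : Ω) = _
      rw [map_mul, map_pow, Subgroup.coe_mul, SubgroupClass.coe_pow, ← autFun_apply α he,
        ← autFun_apply α hdE, hfix α hα _ hd hdE, pow_succ' (e⁻¹ * autFun α e) m, ← mul_assoc e,
        mul_inv_cancel_left]
  show autFun (α ^ p ^ n) e = autFun 1 e
  rw [key, autFun_one he]
  have h1 : (⟨_, hdE⟩ : E) ^ p ^ n = 1 := by rw [← hn]; exact pow_card_eq_one'
  have h2 : (e⁻¹ * autFun α e) ^ p ^ n = 1 := by simpa using congrArg Subtype.val h1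
  rw [h2, mul_one]

variable [Finite S] [hp : Fact p.Prime] {F : FusionSystem S}

theorem autFun_mul' {E : Subgroup Ω} (α : MulAut E) {a b : Ω} (ha : a ∈ E) (hb : b ∈ E) :
    autFun α (a * b) = autFun α a * autFun α b := by
  rw [autFun_apply α (E.mul_mem ha hb), autFun_apply α ha, autFun_apply α hb, ← Subgroup.coe_mul,
    ← map_mul]
  rfl

theorem autFun_inv' {E : Subgroup Ω} (α : MulAut E) {a : Ω} (ha : a ∈ E) :
    autFun α a⁻¹ = (autFun α a)⁻¹ := by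
  rw [autFun_apply α (E.inv_mem ha), autFun_apply α ha, ← Subgroup.coe_inv, ← map_inv]
  rfl

theorem autFun_one' {E : Subgroup Ω} (α : MulAut E) : autFun α (1 : Ω) = 1 := by
  rw [autFun_apply α E.one_mem, show (⟨1, E.one_mem⟩ : E) = 1 from rfl, map_one]; rfl

/-- The subgroup of automorphisms fixing `X` and shifting by elements of `X`. -/
def shiftGroup {E : Subgroup Ω} (G : Subgroup (MulAut E)) (X : Subgroup Ω) (hX : X ≤ E) :
    Subgroup (MulAut E) where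
  carrier := {α | α ∈ G ∧ (∀ x ∈ X, autFun α x = x) ∧ ∀ e ∈ E, e⁻¹ * autFun α e ∈ X}
  one_mem' := ⟨G.one_mem, fun x hx => autFun_one (hX hx), fun e he => by
    rw [autFun_one he, inv_mul_cancel]; exact X.one_mem⟩
  mul_mem' := by
    rintro a b ⟨ha, ha1, ha2⟩ ⟨hb, hb1, hb2⟩
    refine ⟨G.mul_mem ha hb, fun x hx => ?_, fun e he => ?_⟩
    · rw [autFun_mul a b (hX hx), hb1 x hx, ha1 x hx]
    · rw [autFun_mul a b he, show e⁻¹ * autFun a (autFun b e) =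
        (e⁻¹ * autFun b e) * ((autFun b e)⁻¹ * autFun a (autFun b e)) by group]
      exact X.mul_mem (hb2 e he) (ha2 _ (autFun_mem b he))
  inv_mem' := by
    rintro a ⟨ha, ha1, ha2⟩
    refine ⟨G.inv_mem ha, fun x hx => ?_, fun e he => ?_⟩
    · have := autFun_inv_apply a (hX hx)
      rwa [ha1 x hx] at this
    · have h1 := ha2 _ (autFun_mem a⁻¹ he)
      rw [autFun_apply_inv a he] at h1
      have h2 := X.inv_mem h1
      rwa [mul_inv_rev, inv_inv] at h2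

/-- The reflection data of the centre coming from an abelian essential subgroup. -/
def IsRefl (F : FusionSystem S) (p : ℕ) (r : Ω → Ω) : Prop :=
  Map F (Zc S) r ∧ img r (Zc S) = Zc S ∧ (∀ z ∈ Zc S ⊓ ⁅S, S⁆, r z = z⁻¹) ∧
    ∀ z ∈ Zc S, z⁻¹ * r z ∈ ⁅S, S⁆

theorem autZc_trivial (hS : IsPGroup p S) (hF : F.IsSaturated p) {r : MulAut (Zc S)}
    (hr : r ∈ F.autGroup (Zc S)) {k : ℕ} (hk : r ^ p ^ k = 1) : r = 1 := by
  have hle : Zc S ≤ S := inf_le_left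
  have := finite_of_le hle
  have hN : normalizerIn S (Zc S) = S := inf_eq_left.2 fun s hs => by
    refine mem_normalizer_of_conj_mem fun z hz => ?_
    rw [hz.2 s hs, mul_inv_cancel_right]
    exact hz
  have hfn : F.IsFullyNormalized (Zc S) := ⟨hle, fun R _ => by
    rw [hN]; exact Subgroup.card_le_of_le (normalizerIn_le S R)⟩
  obtain ⟨-, R, hR⟩ := isFullyAutomized_of_fullyNormalized hS hF hfn
  have htriv : autInducedBy S (Zc S) = ⊥ := by
    rw [eq_bot_iff]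
    intro α hα
    obtain ⟨g, hg, -, he⟩ := mem_autInducedBy_iff.1 hα
    refine Subgroup.mem_bot.2 (autFun_inj fun z hz => ?_)
    rw [he z hz, autFun_one hz, hz.2 g hg, mul_inv_cancel_right]
  have hbot : (R : Subgroup (F.autGroup (Zc S))) = ⊥ := by
    rw [hR, htriv]; exact bot_subgroupOf _
  have := finite_autGroup F hle
  have h1 : IsPGroup p (zpowers (⟨r, hr⟩ : F.autGroup (Zc S))) := fun ⟨y, hy⟩ => by
    obtain ⟨i, rfl⟩ := hy
    refine ⟨k, Subtype.ext (Subtype.ext ?_)⟩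
    show (r ^ i) ^ p ^ k = 1
    rw [← zpow_natCast, ← zpow_mul, mul_comm, zpow_mul, zpow_natCast, hk, one_zpow]
  obtain ⟨R', hR'⟩ := h1.exists_le_sylow
  obtain ⟨g, hg⟩ := MulAction.exists_smul_eq (F.autGroup (Zc S)) R R'
  have hR'bot : (R' : Subgroup (F.autGroup (Zc S))) = ⊥ := by
    rw [← hg, Sylow.coe_subgroup_smul, hbot, Subgroup.smul_bot]
  have := hR'bot ▸ hR' (mem_zpowers (⟨r, hr⟩ : F.autGroup (Zc S)))
  exact congrArg Subtype.val (Subgroup.mem_bot.1 this)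

end CfsgLib.FusionAbelianIndex
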