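import Cfsg.Agent.Lib.FusionAbelianIndexPShape

/-!
# Consequences for the second centre and the derived subgroup
-/

set_option autoImplicit false
set_option linter.style.haveILetI false

namespace CfsgLib.FusionAbelianIndex

open Cfsg Cfsg.FusionSystem CfsgLib.Fusion Subgroup
open Setting (dl)
open scoped commutatorElement

universe u

variable {Ω : Type u} [Group Ω] {S : Subgroup Ω} [Finite S] {A : Subgroup Ω} {p : ℕ}
  [hp : Fact p.Prime] {F : FusionSystem S}

theorem shape (hS : IsPGroup p S) (hF : F.IsSaturated p) (hp2 : p ≠ 2) (h : Setting S A p)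
    (hidx : (A.subgroupOf S).index = p)
    (huniq : ∀ B : Subgroup Ω, B ≤ S → IsMulCommutative B → (B.subgroupOf S).index = p → B = A)
    {P : Subgroup Ω} (hP : F.IsEssential p P) :
    (P = A ∨ (∃ x ∈ S, x ∉ A ∧ P = Zc S ⊔ zpowers x) ∨
      ((Subgroup.upperCentralSeries S 2).map S.subtype ≤ A ∧ ∃ x ∈ S, x ∉ A ∧
        P = (Subgroup.upperCentralSeries S 2).map S.subtype ⊔ zpowers x)) ∧
      (P.subgroupOf (normalizerIn S P)).index = p := by
  by_cases hPA : P = A
  · subst hPA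
    have : normalizerIn S P = S := inf_eq_left.2 fun s hs => by
      have := finite_of_le h.le
      exact mem_normalizer_of_conj_mem (h.conj s hs)
    exact ⟨Or.inl rfl, by rw [this]; exact hidx⟩
  obtain ⟨x, hx, hxA⟩ := exists_not_mem h hP hPA
  have hxS := hP.1.1 hx
  obtain ⟨a₁, ha₁, ha₁Z, hd, hp₁, hgen, hshape, hindex⟩ := essential_data hS hF hp2 h hP hPA hx hxA
  refine ⟨Or.inr ?_, hindex⟩
  rcases hshape with hs | ⟨ha₁P, hs⟩
  · exact Or.inl ⟨x, hxS, hxA, hs⟩
  · have hle := second_le hS h hidx huniq hxS hxA ha₁ ha₁Z hd hp₁ hgen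
    refine Or.inr ⟨hle, x, hxS, hxA, le_antisymm (fun e he => ?_) (sup_le (fun b hb => ?_) (zpowers_le.2 hx))⟩
    · obtain ⟨b, hb, k, rfl⟩ := h.gen x hxS hxA e (hP.1.1 he)
      have hbP : b ∈ P := by
        have := P.mul_mem he (P.inv_mem (P.zpow_mem hx k))
        rwa [mul_inv_cancel_right] at this
      exact mul_mem (mem_sup_left ((mem_second_iff_dl h hxS hxA hle).2 ⟨hb, hs b hbP hb⟩))
        (mem_sup_right (zpow_mem (mem_zpowers x) k))
    · obtain ⟨hbA, hbd⟩ := (mem_second_iff_dl h hxS hxA hle).1 hb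
      obtain ⟨k, hk⟩ := hgen b hbA hbd
      have := P.mul_mem (zc_le_centric hP.1 hk) (P.zpow_mem ha₁P k)
      rwa [inv_mul_cancel_right] at this

theorem facts (hS : IsPGroup p S) (hF : F.IsSaturated p) (hp2 : p ≠ 2) (h : Setting S A p)
    (hidx : (A.subgroupOf S).index = p)
    (huniq : ∀ B : Subgroup Ω, B ≤ S → IsMulCommutative B → (B.subgroupOf S).index = p → B = A)
    {P : Subgroup Ω} (hP : F.IsEssential p P) (hPA : P ≠ A) :
    (Subgroup.upperCentralSeries S 2).map S.subtype ≤ A ∧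
      Nat.card (Zc S ⊓ ⁅S, S⁆ : Subgroup Ω) = p ∧
      ((Zc S ⊔ ⁅S, S⁆).subgroupOf A).index = p ∧
      ((Zc S).subgroupOf ((Subgroup.upperCentralSeries S 2).map S.subtype)).index = p ∧
      ∀ m : ℕ, ((Zc S).subgroupOf S).index = p ^ m → 3 ≤ m →
        ¬ Subgroup.lowerCentralSeries S (m - 2) ≤ Zc S := by
  classical
  obtain ⟨x, hx, hxA⟩ := exists_not_mem h hP hPA
  have hxS := hP.1.1 hx
  obtain ⟨a₁, ha₁, ha₁Z, hd, hp₁, hgen, -, -⟩ := essential_data hS hF hp2 h hP hPA hx hxA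
  have hle := second_le hS h hidx huniq hxS hxA ha₁ ha₁Z hd hp₁ hgen
  have := finite_of_le h.le
  obtain ⟨N, hN⟩ : ∃ N, N = (h.dlHom hxS).ker := ⟨_, rfl⟩
  obtain ⟨D, hD⟩ : ∃ D, D = (h.dlHom hxS).range := ⟨_, rfl⟩
  have hNeq : N = (Zc S).subgroupOf A := hN ▸ h.dlHom_ker hxS hxA
  have hDeq : D.map A.subtype = ⁅S, S⁆ := by
    refine le_antisymm ?_ (hD ▸ h.commutator_le_dl hxS hxA)
    rintro _ ⟨_, hd', rfl⟩
    rw [hD] at hd'
    obtain ⟨a, rfl⟩ := hd'
    exact commutator_mem_commutator (h.le a.2) hxS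
  have hd1 : dl x a₁ ≠ 1 := fun e => ha₁Z ((dl_eq_one_iff h hxS hxA ha₁).1 e)
  have hd1p : dl x a₁ ^ p = 1 := by
    rw [← zpow_natCast, ← dl_zpow h hxS ha₁, zpow_natCast]
    exact (dl_eq_one_iff h hxS hxA (A.pow_mem ha₁ p)).2 hp₁
  have hZD : Zc S ⊓ ⁅S, S⁆ = zpowers (dl x a₁) := by
    refine le_antisymm (fun z hz => ?_) (zpowers_le.2 ⟨hd, commutator_mem_commutator (h.le ha₁) hxS⟩)
    obtain ⟨_, ⟨⟨a, ha⟩, rfl⟩, hza⟩ := h.commutator_le_dl hxS hxA hz.2
    have hza' : dl x a = z := hza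
    obtain ⟨k, hk⟩ := hgen a ha (hza' ▸ hz.1)
    refine ⟨k, ?_⟩
    show dl x a₁ ^ k = z
    have e := h.dl_mul hxS (A.mul_mem ha (A.inv_mem (A.zpow_mem ha₁ k))) (A.zpow_mem ha₁ k)
    rw [inv_mul_cancel_right, (dl_eq_one_iff h hxS hxA (A.mul_mem ha (A.inv_mem (A.zpow_mem ha₁ k)))).2 hk,
      one_mul, dl_zpow h hxS ha₁, hza'] at e
    exact e.symm
  have hcard : Nat.card (Zc S ⊓ ⁅S, S⁆ : Subgroup Ω) = p := by
    rw [hZD, Nat.card_zpowers, orderOf_eq_prime hd1p hd1]
  have hND : Nat.card ↥(N ⊓ D) = p := by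
    rw [← hcard, ← Subgroup.card_map_of_injective (K := N ⊓ D) A.subtype_injective,
      Subgroup.map_inf _ _ _ A.subtype_injective, hDeq, hNeq,
      Subgroup.map_subgroupOf_eq_of_le h.zc_le]
  have hNidx : N.index = Nat.card D := by rw [hN, hD, index_ker]
  haveI : N.Normal := hN ▸ inferInstance
  refine ⟨hle, hcard, ?_, ?_, fun m hm hm3 hlc => ?_⟩
  · have hsub : (Zc S ⊔ ⁅S, S⁆).subgroupOf A = N ⊔ D := by
      apply Subgroup.map_injective A.subtype_injective
      rw [Subgroup.map_sup, hDeq, hNeq, Subgroup.map_subgroupOf_eq_of_le h.zc_le,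
        Subgroup.map_subgroupOf_eq_of_le (sup_le h.zc_le (hDeq ▸ Subgroup.map_subtype_le _))]
    rw [hsub]
    have h1 : N.relIndex (N ⊔ D) * (N ⊔ D).index = N.index := relIndex_mul_index le_sup_left
    have h2 : N.relIndex (N ⊔ D) = N.relIndex D := by rw [sup_comm]; exact relIndex_sup_right _ _
    have h3 : p * N.relIndex D = Nat.card D := by
      rw [← hND, ← inf_relIndex_right N D, ← relIndex_bot_left (N ⊓ D), ← relIndex_bot_left D]
      exact relIndex_mul_relIndex ⊥ (N ⊓ D) D bot_le inf_le_right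
    rw [h2, hNidx, ← h3, mul_comm p] at h1
    exact Nat.eq_of_mul_eq_mul_left (Nat.pos_of_ne_zero fun e => by
      rw [e, mul_zero] at h3; exact Nat.card_pos.ne' h3.symm) h1
  · have hZle : Zc S ≤ (Subgroup.upperCentralSeries S 2).map S.subtype := fun z hz =>
      (mem_second_iff_dl h hxS hxA hle).2 ⟨h.zc_le hz,
        by rw [(dl_eq_one_iff h hxS hxA (h.zc_le hz)).2 hz]; exact one_mem _⟩
    have hmS : (Subgroup.upperCentralSeries S 2).map S.subtype ≤ S := Subgroup.map_subtype_le _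
    have := finite_of_le hmS
    refine index_eq_prime (hS.to_le hmS) hZle ((mem_second_iff_dl h hxS hxA hle).2 ⟨ha₁, hd⟩) ha₁Z hp₁
      fun y hy => ?_
    obtain ⟨hyA, hyd⟩ := (mem_second_iff_dl h hxS hxA hle).1 hy
    exact hgen y hyA hyd
  · have hAidx : N.index = p ^ (m - 1) := by
      have h1 : (Zc S).relIndex A * A.relIndex S = (Zc S).relIndex S :=
        relIndex_mul_relIndex _ _ _ h.zc_le h.le
      rw [show (Zc S).relIndex S = p ^ m from hm, show A.relIndex S = p from hidx] at h1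
      rw [hNeq]
      refine Nat.eq_of_mul_eq_mul_right hp.out.pos (h1.trans ?_)
      rw [← pow_succ, Nat.sub_add_cancel (by omega)]
    have key : ∀ i : ℕ, i ≤ m - 2 → ∃ M : Subgroup A, M.map A.subtype ≤ Subgroup.lowerCentralSeries S i ∧
        p ^ (m - 1 - i) ≤ Nat.card (M.map (h.dlHom hxS)) := by
      intro i hi
      induction i with
      | zero =>
        refine ⟨⊤, ?_, ?_⟩
        · rw [Subgroup.lowerCentralSeries_zero]
          rintro _ ⟨a, -, rfl⟩; exact h.le a.2
        · rw [← MonoidHom.range_eq_map, ← hD, ← hNidx, hAidx, Nat.sub_zero]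
      | succ i ih =>
        obtain ⟨M, hM, hMc⟩ := ih (by omega)
        refine ⟨M.map (h.dlHom hxS), ?_, ?_⟩
        · rintro _ ⟨_, ⟨a, ha, rfl⟩, rfl⟩
          rw [Subgroup.lowerCentralSeries_succ]
          exact Subgroup.commutator_mem_commutator (hM ⟨a, ha, rfl⟩) hxS
        · obtain ⟨M', hM'⟩ : ∃ M', M' = M.map (h.dlHom hxS) := ⟨_, rfl⟩
          rw [← hM'] at hMc ⊢
          have h1 : Nat.card M' =
              Nat.card ((h.dlHom hxS).comp M'.subtype).ker * Nat.card (M'.map (h.dlHom hxS)) := by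
            have := ((h.dlHom hxS).comp M'.subtype).ker.card_mul_index
            rw [index_ker, MonoidHom.range_comp, range_subtype] at this
            exact this.symm
          have h2 : Nat.card ((h.dlHom hxS).comp M'.subtype).ker ≤ p := by
            refine le_of_le_of_eq ?_ hND
            refine Nat.card_le_card_of_injective
              (fun y : ((h.dlHom hxS).comp M'.subtype).ker =>
                (⟨((y : M') : A), hN ▸ y.2, hD ▸ Subgroup.map_le_range _ M (hM' ▸ (y : M').2)⟩ :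
                  (N ⊓ D : Subgroup A))) fun a b e => Subtype.ext (Subtype.ext ?_)
            exact congrArg (fun z : (N ⊓ D : Subgroup A) => (z : A)) e
          have h3 : p ^ (m - 1 - i) = p * p ^ (m - 1 - (i + 1)) := by
            rw [← pow_succ']; congr 1; omega
          refine Nat.le_of_mul_le_mul_left (le_trans (h3 ▸ hMc) ?_) hp.out.pos
          rw [h1]; exact Nat.mul_le_mul_right _ h2
    obtain ⟨M, hM, hMc⟩ := key (m - 2) le_rfl
    have hbot : M.map (h.dlHom hxS) = ⊥ := by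
      rw [Subgroup.map_eq_bot_iff, ← hN, hNeq]
      intro a ha
      rw [mem_subgroupOf]
      exact hlc (hM ⟨a, ha, rfl⟩)
    rw [hbot, card_bot] at hMc
    have h1 : p ≤ 1 := le_trans (Nat.le_self_pow (by omega) p) hMc
    exact absurd h1 (not_le.2 hp.out.one_lt)

end CfsgLib.FusionAbelianIndex
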