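import Cfsg.Agent.Lib.FusionAbelianIndexP
import Cfsg.Agent.Lib.CorePGroup

/-!
# The reflection of the centre, and the theorem on a unique abelian subgroup of index `p`
-/

set_option autoImplicit false
set_option linter.style.haveILetI false
set_option maxHeartbeats 1000000

namespace CfsgLib.FusionAbelianIndex

open Cfsg Cfsg.FusionSystem CfsgLib.Fusion Subgroup
open Setting (dl)

universe u

variable {Ω : Type u} [Group Ω] {S : Subgroup Ω} [Finite S] {A : Subgroup Ω} {p : ℕ}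
  [hp : Fact p.Prime] {F : FusionSystem S}

theorem zc_le_centric {E : Subgroup Ω} (hE : F.IsCentric E) : Zc S ≤ E := fun z hz =>
  hE.2 E (isConj_refl F hE.1) ⟨hz.1, fun e he => hz.2 e (hE.1 he)⟩

theorem exists_not_mem (h : Setting S A p) {E : Subgroup Ω} (hE : F.IsEssential p E)
    (hEA : E ≠ A) : ∃ x ∈ E, x ∉ A := by
  by_contra hc
  push Not at hc
  have : A ≤ E := fun a ha => hE.1.2 E (isConj_refl F hE.1.1)
    ⟨h.le ha, fun e he => h.comm e (hc e he) a ha⟩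
  exact hEA (le_antisymm hc this)

theorem abelian_shape (h : Setting S A p) {E : Subgroup Ω} (hE : F.IsCentric E)
    (hab : ∀ a ∈ E, ∀ b ∈ E, a * b = b * a) {x : Ω} (hx : x ∈ E) (hxA : x ∉ A) :
    (∀ e ∈ E, e ∈ A → e ∈ Zc S) ∧ ∀ e ∈ E, ∃ z ∈ Zc S, ∃ k : ℤ, e = z * x ^ k := by
  have h1 : ∀ e ∈ E, e ∈ A → e ∈ Zc S := fun e he heA =>
    h.cen (hE.1 hx) hxA heA (hab e he x hx)
  refine ⟨h1, fun e he => ?_⟩
  obtain ⟨a, ha, k, rfl⟩ := h.gen x (hE.1 hx) hxA e (hE.1 he)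
  have haE : a ∈ E := by simpa using E.mul_mem he (E.inv_mem (E.zpow_mem hx k))
  exact ⟨a, h1 a haE ha, k, rfl⟩

theorem nonabelian_center (h : Setting S A p) {E : Subgroup Ω} (hE : F.IsCentric E)
    (hab : ¬ ∀ a ∈ E, ∀ b ∈ E, a * b = b * a) {x : Ω} (hx : x ∈ E) (hxA : x ∉ A) {z : Ω}
    (hz : z ∈ E) (hc : ∀ e ∈ E, z * e = e * z) : z ∈ Zc S := by
  by_cases hzA : z ∈ A
  · exact h.cen (hE.1 hx) hxA hzA (hc x hx)
  · refine absurd (fun a ha b hb => ?_) hab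
    obtain ⟨a', ha', k, hak⟩ := h.gen z (hE.1 hz) hzA a (hE.1 ha)
    obtain ⟨b', hb', l, hbl⟩ := h.gen z (hE.1 hz) hzA b (hE.1 hb)
    have hma : a' ∈ E := by
      have : a * (z ^ k)⁻¹ ∈ E := E.mul_mem ha (E.inv_mem (E.zpow_mem hz k))
      rwa [hak, mul_inv_cancel_right] at this
    have hza : a' ∈ Zc S := h.cen (hE.1 hz) hzA ha' (hc a' hma).symm
    have hzb : Commute a' b := h.zc_comm hza (hE.1 hb)
    have hzk : Commute (z ^ k) b := (show Commute z b from hc b hb).zpow_left k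
    rw [hak]
    exact (hzb.mul_left hzk).eq

omit hp in
/-- The automorphism induced by conjugation. -/
theorem exists_conjAut {E : Subgroup Ω} [Finite E] {g : Ω} (hg : g ∈ normalizerIn S E) :
    ∃ α ∈ autInducedBy S E, ∀ e ∈ E, autFun α e = g * e * g⁻¹ :=
  ⟨normalizerInToAut S E ⟨g, hg⟩, mem_autInducedBy_iff.2
    ⟨g, hg.1, hg.2, fun e he => autFun_normalizerInToAut _ he⟩,
    fun e he => autFun_normalizerInToAut _ he⟩

/-- The data attached to an abelian essential subgroup. -/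
theorem reflection (hS : IsPGroup p S) (hF : F.IsSaturated p) (hp2 : p ≠ 2) (h : Setting S A p)
    {E : Subgroup Ω} (hE : F.IsEssential p E) (hEA' : E ≠ A)
    (hab : ∀ a ∈ E, ∀ b ∈ E, a * b = b * a) :
    (∃ z₀ ∈ Zc S ⊓ ⁅S, S⁆, z₀ ≠ 1 ∧ z₀ ^ p = 1 ∧ ∀ z ∈ Zc S ⊓ ⁅S, S⁆, ∃ k : ℤ, z = z₀ ^ k) ∧
    (∃ β ∈ F.autGroup E, ∃ z ∈ Zc S, autFun β z ∉ Zc S) ∧
    ∀ β ∈ F.autGroup E, (∃ z ∈ Zc S, autFun β z ∉ Zc S) →
      ∃ r, IsRefl F p r ∧ ∀ z ∈ Zc S, (r z = z ↔ autFun β⁻¹ z ∈ Zc S) := by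
  classical
  have hES : E ≤ S := hE.1.1
  have := finite_of_le hES
  have := finite_autGroup F hES
  have hZE : Zc S ≤ E := zc_le_centric hE.1
  obtain ⟨x₀, hx₀, hx₀A⟩ := exists_not_mem h hE hEA'
  obtain ⟨hEA, hgen₀⟩ := abelian_shape h hE.1 hab hx₀ hx₀A
  have hnZA : ∀ e ∈ E, e ∉ Zc S → e ∉ A := fun e he hne heA => hne (hEA e he heA)
  have hgenx : ∀ x ∈ E, x ∉ Zc S → ∀ e ∈ E, ∃ z ∈ Zc S, ∃ k : ℤ, e = z * x ^ k := fun x hx hne =>
    (abelian_shape h hE.1 hab hx (hnZA x hx hne)).2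
  have hpow : ∀ x ∈ E, x ^ p ∈ Zc S := fun x hx => hEA _ (E.pow_mem hx p) (h.pow x (hES hx))
  obtain ⟨G, hG⟩ : ∃ G, G = F.autGroup E := ⟨_, rfl⟩
  obtain ⟨-, R, hR⟩ := isFullyAutomized_of_fullyNormalized hS hF hE.2.1
  have hUG : autInducedBy S E ≤ F.autGroup E := autInducedBy_le_autGroup hES
  have hUp : IsPGroup p (autInducedBy S E) := isPGroup_autInducedBy hS
  have hmax : ∀ K : Subgroup (MulAut E), K ≤ F.autGroup E → IsPGroup p K → autInducedBy S E ≤ K →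
      K ≤ autInducedBy S E := by
    intro K hK hKp hUK
    have h1 : K.subgroupOf (F.autGroup E) = (R : Subgroup (F.autGroup E)) :=
      R.3 (hKp.of_equiv (subgroupOfEquivOfLe hK).symm) (by rw [hR]; exact comap_mono hUK)
    rw [hR] at h1
    intro α hα
    have h2 : (⟨α, hK hα⟩ : F.autGroup E) ∈ K.subgroupOf (F.autGroup E) := mem_subgroupOf.2 hα
    rw [h1] at h2
    exact mem_subgroupOf.1 h2
  -- the induced automorphisms fix the centre and shift into it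
  have hP₀p : IsPGroup p (shiftGroup (F.autGroup E) (Zc S) hZE) :=
    isPGroup_shift (hS.to_le hES) _ (Zc S) (fun α hα x hx _ => hα.2.1 x hx) fun α hα => hα.2.2
  have hUP₀ : autInducedBy S E ≤ shiftGroup (F.autGroup E) (Zc S) hZE := by
    intro α hα
    obtain ⟨g, hg, hgn, he⟩ := mem_autInducedBy_iff.1 hα
    refine ⟨hUG hα, fun z hz => by rw [he z (hZE hz), (h.zc_comm hz hg).symm.eq, mul_inv_cancel_right],
      fun e he' => ?_⟩
    have hmemE : e⁻¹ * autFun α e ∈ E := E.mul_mem (E.inv_mem he') (autFun_mem α he')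
    refine hEA _ hmemE ?_
    obtain ⟨b, hb, k, rfl⟩ := h.gen x₀ (hES hx₀) hx₀A g hg
    rw [he e he', show e⁻¹ * (b * x₀ ^ k * e * (b * x₀ ^ k)⁻¹) =
      (e⁻¹ * b * e) * (e⁻¹ * (x₀ ^ k * e) * (x₀ ^ k)⁻¹) * b⁻¹ by group,
      show x₀ ^ k * e = e * x₀ ^ k from hab _ (E.zpow_mem hx₀ k) _ he',
      inv_mul_cancel_left, mul_inv_cancel, mul_one]
    refine A.mul_mem ?_ (A.inv_mem hb)
    simpa using h.conj e⁻¹ (S.inv_mem (hES he')) b hb
  have hP₀U : shiftGroup (F.autGroup E) (Zc S) hZE ≤ autInducedBy S E :=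
    hmax _ (fun α hα => hα.1) hP₀p hUP₀
  -- an element of `A` outside `E` normalising `E`
  have hEltS : E < S := lt_of_le_of_ne hES fun e' => by
    obtain ⟨g, hg, g', hg', hne⟩ := h.nonab
    exact hne (hab g (e' ▸ hg) g' (e' ▸ hg'))
  obtain ⟨a₀, ha₀, ha₀N, ha₀E⟩ : ∃ a ∈ A, a ∈ normalizerIn S E ∧ a ∉ E := by
    obtain ⟨g, hg, hgE⟩ := SetLike.exists_of_lt (lt_normalizerIn hS hEltS)
    obtain ⟨b, hb, k, rfl⟩ := h.gen x₀ (hES hx₀) hx₀A g hg.1
    have hxk := le_normalizerIn hES (E.zpow_mem hx₀ k)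
    refine ⟨b, hb, ?_, fun hbE => hgE (E.mul_mem hbE (E.zpow_mem hx₀ k))⟩
    have := (normalizerIn S E).mul_mem hg ((normalizerIn S E).inv_mem hxk)
    rwa [mul_inv_cancel_right] at this
  have hUne : ∃ α ∈ autInducedBy S E, α ≠ 1 := by
    obtain ⟨α, hα, he⟩ := exists_conjAut ha₀N
    refine ⟨α, hα, fun h1 => ha₀E (hE.1.2 E (isConj_refl F hES) ⟨ha₀N.1, fun e he' => ?_⟩)⟩
    have := he e he'
    rw [h1, autFun_one he'] at this
    exact eq_mul_inv_iff_mul_eq.1 this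
  have hexists : ∃ β ∈ F.autGroup E, ∃ z ∈ Zc S, autFun β z ∉ Zc S := by
    by_contra hc
    push Not at hc
    have hnorm : ((shiftGroup (F.autGroup E) (Zc S) hZE).subgroupOf (F.autGroup E)).Normal := by
      refine ⟨fun α hα β => ?_⟩
      rw [mem_subgroupOf] at hα ⊢
      refine ⟨SetLike.coe_mem (β * α * β⁻¹), fun z hz => ?_, fun e he => ?_⟩
      · show autFun ((β : MulAut E) * (α : MulAut E) * (β : MulAut E)⁻¹) z = z
        rw [autFun_mul _ _ (hZE hz), autFun_mul _ _ (autFun_mem _ (hZE hz)),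
          hα.2.1 _ (hc _ ((F.autGroup E).inv_mem β.2) z hz), autFun_apply_inv _ (hZE hz)]
      · show e⁻¹ * autFun ((β : MulAut E) * (α : MulAut E) * (β : MulAut E)⁻¹) e ∈ Zc S
        have he' := autFun_mem (β : MulAut E)⁻¹ he
        have h1 := hc _ β.2 _ (hα.2.2 _ he')
        rw [autFun_mul' _ (E.inv_mem he') (autFun_mem _ he'), autFun_inv' _ he',
          autFun_apply_inv _ he] at h1
        rw [autFun_mul _ _ he, autFun_mul _ _ (autFun_mem _ he)]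
        exact h1
    have hrad := (isRadical_of_isEssential hS hF hE).2
    have hle : (shiftGroup (F.autGroup E) (Zc S) hZE).subgroupOf (F.autGroup E) ≤
        pCore p (F.autGroup E) :=
      le_sSup ⟨hnorm, hP₀p.of_equiv (subgroupOfEquivOfLe
        (fun α hα => hα.1 : shiftGroup (F.autGroup E) (Zc S) hZE ≤ F.autGroup E)).symm⟩
    obtain ⟨α, hα, hα1⟩ := hUne
    have hmem : α ∈ Inn E := hrad ▸ ⟨⟨α, hUG hα⟩, hle (hUP₀ hα), rfl⟩
    obtain ⟨g, hg, he⟩ := mem_inn_iff.1 hmem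
    exact hα1 (autFun_inj fun e he' => by
      rw [he e he', autFun_one he', hab g hg e he', mul_inv_cancel_right])
  -- subgroups shifting into `Z ∩ β(Z)` consist of induced automorphisms
  have hKU : ∀ (γ : MulAut E) (α : MulAut E), α ∈ F.autGroup E →
      (∀ w ∈ Zc S, autFun γ⁻¹ w ∈ Zc S → autFun α w = w) →
      (∀ e ∈ E, e⁻¹ * autFun α e ∈ Zc S ∧ autFun γ⁻¹ (e⁻¹ * autFun α e) ∈ Zc S) →
      α ∈ autInducedBy S E := by
    intro γ α hα hfix hsh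
    let W : Subgroup Ω :=
      { carrier := {w | w ∈ Zc S ∧ autFun γ⁻¹ w ∈ Zc S}
        one_mem' := ⟨one_mem _, by rw [autFun_one']; exact one_mem _⟩
        mul_mem' := fun {a b} ha hb => ⟨mul_mem ha.1 hb.1, by
          rw [autFun_mul' _ (hZE ha.1) (hZE hb.1)]; exact mul_mem ha.2 hb.2⟩
        inv_mem' := fun {a} ha => ⟨inv_mem ha.1, by
          rw [autFun_inv' _ (hZE ha.1)]; exact inv_mem ha.2⟩ }
    have hWE : W ≤ E := fun w hw => hZE hw.1
    obtain ⟨K, hK⟩ : ∃ K, K = shiftGroup (F.autGroup E) W hWE := ⟨_, rfl⟩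
    have hKp : IsPGroup p K := hK ▸
      isPGroup_shift (hS.to_le hES) _ W (fun α hα x hx _ => hα.2.1 x hx) fun α hα => hα.2.2
    have hUN : autInducedBy S E ≤ normalizer (K : Set (MulAut E)) := by
      have hconj : ∀ u ∈ autInducedBy S E, ∀ k ∈ K, u * k * u⁻¹ ∈ K := by
        intro u hu k hk
        rw [hK] at hk ⊢
        obtain ⟨-, hu1, -⟩ := hUP₀ hu
        obtain ⟨-, hu1', -⟩ := hUP₀ (inv_mem hu)
        refine ⟨mul_mem (mul_mem (hUG hu) hk.1) (inv_mem (hUG hu)), fun w hw => ?_, fun e he => ?_⟩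
        · rw [autFun_mul _ _ (hWE hw), autFun_mul _ _ (autFun_mem _ (hWE hw)), hu1' w hw.1,
            hk.2.1 w hw, hu1 w hw.1]
        · have he' := autFun_mem u⁻¹ he
          have hd := hk.2.2 _ he'
          have e1 := hu1 _ hd.1
          rw [autFun_mul' _ (E.inv_mem he') (autFun_mem _ he'), autFun_inv' _ he',
            autFun_apply_inv _ he] at e1
          rw [autFun_mul _ _ he, autFun_mul _ _ (autFun_mem _ he), e1]
          exact hd
      intro u hu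
      rw [mem_normalizer_iff]
      refine fun k => ⟨hconj u hu k, fun hk => ?_⟩
      have h1 := hconj u⁻¹ (inv_mem hu) _ hk
      rwa [show u⁻¹ * (u * k * u⁻¹) * u⁻¹⁻¹ = k by group] at h1
    have hsup : IsPGroup p (autInducedBy S E ⊔ K : Subgroup (MulAut E)) :=
      hUp.to_sup_of_normal_right' hKp hUN
    have := hmax _ (sup_le hUG (hK ▸ fun α hα => hα.1)) hsup le_sup_left
    exact this (mem_sup_right (hK ▸ ⟨hα, fun w hw => hfix w hw.1 hw.2, fun e he => hsh e he⟩))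
  have hmoveinv : ∀ β ∈ F.autGroup E, (∃ z ∈ Zc S, autFun β z ∉ Zc S) →
      ∃ z ∈ Zc S, autFun β⁻¹ z ∉ Zc S := by
    intro β hβ ⟨z, hz, hzn⟩
    by_contra hc
    push Not at hc
    have : Finite (Zc S) := finite_of_le inf_le_left
    have hinj : Function.Injective fun w : Zc S => (⟨autFun β⁻¹ (w : Ω), hc w w.2⟩ : Zc S) :=
      fun a b e => Subtype.ext (by
        have e' : autFun β⁻¹ (a : Ω) = autFun β⁻¹ (b : Ω) := congrArg Subtype.val e
        rw [← autFun_apply_inv β (hZE a.2), e', autFun_apply_inv β (hZE b.2)])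
    obtain ⟨w, hw⟩ := Finite.injective_iff_surjective.1 hinj ⟨z, hz⟩
    have hw' : autFun β⁻¹ (w : Ω) = z := congrArg Subtype.val hw
    rw [← hw', autFun_apply_inv β (hZE w.2)] at hzn
    exact hzn w.2
  -- the key: a shift of the centre by `Z ∩ β(Z)` is trivial
  have hstar : ∀ β ∈ F.autGroup E, ∀ z₂ ∈ Zc S, autFun β z₂ ∉ Zc S → ∀ a ∈ A,
      dl (autFun β z₂) a ∈ Zc S → autFun β⁻¹ (dl (autFun β z₂) a) ∈ Zc S →
      dl (autFun β z₂) a = 1 := by
    intro β hβ z₂ hz₂ hne a ha hd hd'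
    obtain ⟨e₂, he₂⟩ : ∃ e₂, e₂ = autFun β z₂ := ⟨_, rfl⟩
    rw [← he₂] at hne hd hd' ⊢
    have he₂E : e₂ ∈ E := he₂ ▸ autFun_mem β (hZE hz₂)
    have he₂back : autFun β⁻¹ e₂ = z₂ := he₂ ▸ autFun_inv_apply β (hZE hz₂)
    have hconj : ∀ e ∈ E, ∃ k : ℤ, e⁻¹ * (a * e * a⁻¹) = dl e₂ a ^ k := by
      intro e he
      obtain ⟨z, hz, k, rfl⟩ := hgenx e₂ he₂E hne e he
      refine ⟨k, ?_⟩
      have h1 : a * e₂ * a⁻¹ = dl e₂ a * e₂ := by simp [dl, mul_assoc]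
      have h2 : a * e₂ ^ k * a⁻¹ = dl e₂ a ^ k * e₂ ^ k := by
        rw [← conj_zpow, h1, (h.zc_comm hd (hES he₂E)).mul_zpow]
      rw [show a * (z * e₂ ^ k) * a⁻¹ = (a * z * a⁻¹) * (a * e₂ ^ k * a⁻¹) by group, h2,
        ← (h.zc_comm hz (h.le ha)).eq, mul_inv_cancel_right,
        ((h.zc_comm (zpow_mem hd k) (hES (E.zpow_mem he₂E k))).eq), mul_inv_rev]
      group
    have haN : a ∈ normalizerIn S E := by
      refine ⟨h.le ha, mem_normalizer_of_conj_mem fun e he => ?_⟩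
      obtain ⟨k, hk⟩ := hconj e he
      rw [show a * e * a⁻¹ = e * dl e₂ a ^ k by rw [← hk, mul_inv_cancel_left]]
      exact E.mul_mem he (E.zpow_mem (hZE hd) k)
    obtain ⟨α, hα, hαe⟩ := exists_conjAut haN
    have hαG := hUG hα
    obtain ⟨-, hα1, -⟩ := hUP₀ hα
    have hshift : ∀ e ∈ E, e⁻¹ * autFun α e ∈ Zc S ∧ autFun β⁻¹ (e⁻¹ * autFun α e) ∈ Zc S := by
      intro e he
      obtain ⟨k, hk⟩ := hconj e he
      rw [hαe e he, hk]
      refine ⟨zpow_mem hd k, ?_⟩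
      have e1 : autFun β⁻¹ (dl e₂ a ^ k) = autFun β⁻¹ (dl e₂ a) ^ k := by
        rw [autFun_apply _ (E.zpow_mem (hZE hd) k), autFun_apply _ (hZE hd)]
        exact (congrArg Subtype.val (map_zpow (β⁻¹ : MulAut E) (⟨_, hZE hd⟩ : E) k)).trans
          (SubgroupClass.coe_zpow _ _)
      rw [e1]; exact zpow_mem hd' k
    have hback : β⁻¹ * α * β ∈ autInducedBy S E := by
      refine hKU β⁻¹ _ (mul_mem (mul_mem (inv_mem hβ) hαG) hβ) (fun w hw hw' => ?_) fun e he => ?_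
      · rw [inv_inv] at hw'
        rw [autFun_mul _ _ (hZE hw), autFun_mul _ _ (autFun_mem _ (hZE hw)),
          hα1 _ hw', autFun_inv_apply _ (hZE hw)]
      · have he' := autFun_mem β he
        obtain ⟨h1, h2⟩ := hshift _ he'
        have e1 : e⁻¹ * autFun (β⁻¹ * α * β) e =
            autFun β⁻¹ ((autFun β e)⁻¹ * autFun α (autFun β e)) := by
          rw [autFun_mul _ _ he, autFun_mul _ _ he', autFun_mul' _ (E.inv_mem he') (autFun_mem _ he'),
            autFun_inv' _ he', autFun_inv_apply _ he]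
        rw [e1, inv_inv, autFun_apply_inv _ (E.mul_mem (E.inv_mem he') (autFun_mem _ he'))]
        exact ⟨h2, h1⟩
    obtain ⟨-, hb1, -⟩ := hUP₀ hback
    have hfix2 : autFun α e₂ = e₂ := by
      have h1 := hb1 z₂ hz₂
      rw [autFun_mul _ _ (hZE hz₂), autFun_mul _ _ (autFun_mem _ (hZE hz₂)), ← he₂] at h1
      have h2 := congrArg (autFun β) h1
      rwa [autFun_apply_inv _ (autFun_mem _ he₂E), ← he₂] at h2
    rw [hαe e₂ he₂E] at hfix2
    rw [dl, hfix2, mul_inv_cancel]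
  obtain ⟨β₀, hβ₀, hmove₀⟩ := hexists
  -- the data of one automorphism
  have hdata : ∀ β ∈ F.autGroup E, (∃ z ∈ Zc S, autFun β z ∉ Zc S) →
      (∃ z₀ ∈ Zc S ⊓ ⁅S, S⁆, z₀ ≠ 1 ∧ z₀ ^ p = 1 ∧ ∀ z ∈ Zc S ⊓ ⁅S, S⁆, ∃ k : ℤ, z = z₀ ^ k) ∧
      ∃ r, IsRefl F p r ∧ ∀ z ∈ Zc S, (r z = z ↔ autFun β⁻¹ z ∈ Zc S) := by
    intro β hβ hmove
    obtain ⟨z₂, hz₂, hne⟩ := hmove
    obtain ⟨e₂, he₂⟩ : ∃ e₂, e₂ = autFun β z₂ := ⟨_, rfl⟩
    have he₂E : e₂ ∈ E := he₂ ▸ autFun_mem β (hZE hz₂)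
    have hne' : e₂ ∉ Zc S := he₂ ▸ hne
    have he₂S := hES he₂E
    have he₂A := hnZA e₂ he₂E hne'
    have he₂back : autFun β⁻¹ e₂ = z₂ := he₂ ▸ autFun_inv_apply β (hZE hz₂)
    have hbE : ∀ w ∈ E, autFun β (autFun β⁻¹ w) = w := fun w hw => autFun_apply_inv β hw
    obtain ⟨z₀, hz₀⟩ : ∃ z₀, z₀ = dl e₂ a₀ := ⟨_, rfl⟩
    have hz₀Z : z₀ ∈ Zc S := by
      refine hz₀ ▸ hEA _ ?_ (h.dl_mem he₂S ha₀)
      exact E.mul_mem (conj_mem_of_mem_normalizer ha₀N.2 he₂E) (E.inv_mem he₂E)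
    have hdlS : ∀ a ∈ A, dl e₂ a ∈ ⁅S, S⁆ := fun a ha =>
      Subgroup.commutator_mem_commutator (h.le ha) he₂S
    have hz₀C : z₀ ∈ ⁅S, S⁆ := hz₀ ▸ hdlS a₀ ha₀
    have hz₀1 : z₀ ≠ 1 := fun e => ha₀E (hZE (h.cen he₂S he₂A ha₀ (by
      rw [hz₀, dl, mul_inv_eq_one, mul_inv_eq_iff_eq_mul] at e; exact e)))
    have hstar' : ∀ a ∈ A, dl e₂ a ∈ Zc S → autFun β⁻¹ (dl e₂ a) ∈ Zc S → dl e₂ a = 1 := by
      subst he₂; exact hstar β hβ z₂ hz₂ hne
    have hz₀W : autFun β⁻¹ z₀ ∉ Zc S := fun hc => hz₀1 (by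
      subst hz₀; exact hstar' a₀ ha₀ hz₀Z hc)
    obtain ⟨y₀, hy₀⟩ : ∃ y₀, y₀ = autFun β⁻¹ z₀ := ⟨_, rfl⟩
    have hy₀E : y₀ ∈ E := hy₀ ▸ autFun_mem _ (hZE hz₀Z)
    have hy₀Z : y₀ ∉ Zc S := hy₀ ▸ hz₀W
    have hβy₀ : autFun β y₀ = z₀ := hy₀ ▸ hbE _ (hZE hz₀Z)
    have hpowE : ∀ (w : Ω) (k : ℤ) (γ : MulAut E), w ∈ E → autFun γ (w ^ k) = autFun γ w ^ k := by
      intro w k γ hw
      rw [autFun_apply _ (E.zpow_mem hw k), autFun_apply _ hw]
      exact (congrArg Subtype.val (map_zpow γ (⟨w, hw⟩ : E) k)).trans (SubgroupClass.coe_zpow _ _)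
    -- every central element is a product
    have hdec : ∀ z ∈ Zc S, ∃ w ∈ Zc S, autFun β⁻¹ w ∈ Zc S ∧ ∃ k : ℤ, z = w * z₀ ^ k := by
      intro z hz
      obtain ⟨c, hc, k, hck⟩ := hgenx y₀ hy₀E hy₀Z _ (autFun_mem β⁻¹ (hZE hz))
      have h1 := congrArg (autFun β) hck
      rw [hbE _ (hZE hz), autFun_mul' _ (hZE hc) (E.zpow_mem hy₀E k), hpowE _ _ _ hy₀E, hβy₀] at h1
      refine ⟨autFun β c, ?_, by rwa [autFun_inv_apply _ (hZE hc)], k, h1⟩
      have : autFun β c = z * (z₀ ^ k)⁻¹ := by rw [h1, mul_inv_cancel_right]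
      rw [this]; exact mul_mem hz (inv_mem (zpow_mem hz₀Z k))
    have hz₀p : z₀ ^ p = 1 := by
      have h1 : dl e₂ (a₀ ^ p) = z₀ ^ p := by
        rw [hz₀]
        exact congrArg Subtype.val (map_pow (h.dlHom he₂S) (⟨a₀, ha₀⟩ : A) p)
      rw [← h1]
      refine hstar' _ (A.pow_mem ha₀ p) (h1 ▸ pow_mem hz₀Z p) ?_
      rw [h1, ← zpow_natCast, hpowE _ _ _ (hZE hz₀Z), zpow_natCast, ← hy₀]
      exact hpow _ hy₀E
    have hzcyc : ∀ z ∈ Zc S ⊓ ⁅S, S⁆, ∃ k : ℤ, z = z₀ ^ k := by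
      rintro z ⟨hz, hzC⟩
      obtain ⟨w, hw, hw', k, rfl⟩ := hdec z hz
      obtain ⟨_, ⟨⟨a, ha⟩, rfl⟩, hae⟩ := h.commutator_le_dl he₂S he₂A hzC
      have hae' : dl e₂ a = w * z₀ ^ k := hae
      refine ⟨k, ?_⟩
      have hk : dl e₂ (a₀ ^ k) = z₀ ^ k := by
        rw [hz₀]
        exact congrArg Subtype.val (map_zpow (h.dlHom he₂S) (⟨a₀, ha₀⟩ : A) k)
      have h2 : dl e₂ (a * (a₀ ^ k)⁻¹) = w := by
        have e0 := h.dl_mul he₂S (A.mul_mem ha (A.inv_mem (A.zpow_mem ha₀ k))) (A.zpow_mem ha₀ k)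
        rw [inv_mul_cancel_right, hae', hk] at e0
        exact (mul_right_cancel e0).symm
      have h3 := hstar' _ (A.mul_mem ha (A.inv_mem (A.zpow_mem ha₀ k))) (h2 ▸ hw) (h2 ▸ hw')
      rw [h2] at h3
      rw [h3, one_mul]
    -- exponents
    have hdvd : ∀ (x : Ω) (k : ℤ), x ∈ E → x ∉ Zc S → x ^ k ∈ Zc S → (p : ℤ) ∣ k := by
      intro x k hxE hx hk
      by_contra hd
      obtain ⟨a, b, hab'⟩ := (Nat.prime_iff_prime_int.1 hp.out).coprime_iff_not_dvd.2 hd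
      refine hx ?_
      rw [show x = (x ^ p) ^ a * (x ^ k) ^ b by
        rw [← zpow_natCast x p, ← zpow_mul, ← zpow_mul, ← zpow_add,
          show (p : ℤ) * a + k * b = 1 by linarith [hab'], zpow_one]]
      exact mul_mem (zpow_mem (hpow x hxE) a) (zpow_mem hk b)
    -- the two transvections
    obtain ⟨ua, hua, huae⟩ := exists_conjAut ha₀N
    obtain ⟨-, hu1, -⟩ := hUP₀ hua
    have hue₂ : autFun ua e₂ = z₀ * e₂ := by
      rw [huae e₂ he₂E, hz₀]; simp [dl, mul_assoc]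
    obtain ⟨c₁, hc₁, i, hi⟩ := hgenx e₂ he₂E hne' y₀ hy₀E
    have hipd : ¬ (p : ℤ) ∣ i := fun ⟨m, hm⟩ => hy₀Z (by
      rw [hi, hm, zpow_mul, zpow_natCast]
      exact mul_mem hc₁ (zpow_mem (hpow _ he₂E) m))
    obtain ⟨c₂, hc₂, l, hl⟩ := hgenx e₂ he₂E hne' _ (autFun_mem β (hZE hz₀Z))
    have hc₂W : autFun β⁻¹ c₂ ∈ Zc S := by
      have h1 := congrArg (autFun β⁻¹) hl
      rw [autFun_inv_apply _ (hZE hz₀Z), autFun_mul' _ (hZE hc₂) (E.zpow_mem he₂E l),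
        hpowE _ _ _ he₂E, he₂back] at h1
      rw [show autFun β⁻¹ c₂ = z₀ * (z₂ ^ l)⁻¹ by rw [h1, mul_inv_cancel_right]]
      exact mul_mem hz₀Z (inv_mem (zpow_mem hz₂ l))
    have hlpd : ¬ (p : ℤ) ∣ l := fun ⟨m, hm⟩ => by
      have hmv : ∃ z ∈ Zc S, autFun β⁻¹ z ∉ Zc S := hmoveinv β hβ ⟨z₂, hz₂, hne⟩
      obtain ⟨z₃, hz₃, hne₃⟩ := hmv
      obtain ⟨e₃, he₃⟩ : ∃ e₃, e₃ = autFun β⁻¹ z₃ := ⟨_, rfl⟩
      have he₃E : e₃ ∈ E := he₃ ▸ autFun_mem _ (hZE hz₃)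
      have he₃A := hnZA e₃ he₃E (he₃ ▸ hne₃)
      have hbz : autFun β z₀ ∈ Zc S := by
        rw [hl, hm, zpow_mul, zpow_natCast]
        exact mul_mem hc₂ (zpow_mem (hpow _ he₂E) m)
      obtain ⟨_, ⟨⟨a, ha⟩, rfl⟩, hae⟩ := h.commutator_le_dl (hES he₃E) he₃A hz₀C
      have hae' : dl e₃ a = z₀ := hae
      subst he₃
      have h5 := hstar β⁻¹ (inv_mem hβ) z₃ hz₃ hne₃ a ha (hae' ▸ hz₀Z) (by rw [inv_inv, hae']; exact hbz)
      exact hz₀1 (hae'.symm.trans h5)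
    have hil : ¬ (p : ℤ) ∣ i * l := fun hd =>
      ((Nat.prime_iff_prime_int.1 hp.out).dvd_or_dvd hd).elim hipd hlpd
    obtain ⟨aa, bb, hab'⟩ := (Nat.prime_iff_prime_int.1 hp.out).coprime_iff_not_dvd.2 hil
    obtain ⟨j, hj⟩ : ∃ j : ℤ, j = -bb := ⟨_, rfl⟩
    have hajN : a₀ ^ j ∈ normalizerIn S E := zpow_mem ha₀N j
    obtain ⟨uj, huj, huje⟩ := exists_conjAut hajN
    obtain ⟨-, huj1, -⟩ := hUP₀ huj
    have huje₂ : autFun uj e₂ = z₀ ^ j * e₂ := by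
      rw [huje e₂ he₂E, show z₀ ^ j = dl e₂ (a₀ ^ j) by
        rw [hz₀]; exact (congrArg Subtype.val (map_zpow (h.dlHom he₂S) (⟨a₀, ha₀⟩ : A) j)).symm]
      simp [dl, mul_assoc]
    obtain ⟨v, hv⟩ : ∃ v, v = β * uj * β⁻¹ := ⟨_, rfl⟩
    have hvG : v ∈ F.autGroup E := hv ▸ mul_mem (mul_mem hβ (hUG huj)) (inv_mem hβ)
    have hvfix : ∀ w ∈ E, autFun β⁻¹ w ∈ Zc S → autFun v w = w := fun w hw hw' => by
      rw [hv, autFun_mul _ _ hw, autFun_mul _ _ (autFun_mem _ hw), huj1 _ hw', hbE w hw]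
    have hve₂ : autFun v e₂ = e₂ := hvfix e₂ he₂E (he₂back ▸ hz₂)
    obtain ⟨w₁, hw₁, hw₁W, hvz⟩ : ∃ w₁ ∈ Zc S, autFun β⁻¹ w₁ ∈ Zc S ∧
        autFun v z₀ = z₀ * e₂⁻¹ * w₁ := by
      have h1 : autFun uj y₀ = y₀ * z₀ ^ (j * i) := by
        rw [hi, autFun_mul' _ (hZE hc₁) (E.zpow_mem he₂E i), huj1 _ hc₁, hpowE _ _ _ he₂E, huje₂,
          (h.zc_comm (zpow_mem hz₀Z j) he₂S).mul_zpow, ← zpow_mul,
          (h.zc_comm (zpow_mem hz₀Z (j * i)) (hES (E.zpow_mem he₂E i))).eq, mul_assoc]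
      have h2 : autFun v z₀ = z₀ * (c₂ * e₂ ^ l) ^ (j * i) := by
        rw [hv, autFun_mul _ _ (hZE hz₀Z), autFun_mul _ _ (autFun_mem _ (hZE hz₀Z)), ← hy₀, h1,
          autFun_mul' _ hy₀E (E.zpow_mem (hZE hz₀Z) _), hpowE _ _ _ (hZE hz₀Z), hβy₀, hl]
      have h3 : l * (j * i) = -1 + (p : ℤ) * aa := by rw [hj]; linarith [hab']
      refine ⟨c₂ ^ (j * i) * (e₂ ^ p) ^ aa, mul_mem (zpow_mem hc₂ _) (zpow_mem (hpow _ he₂E) _),
        ?_, ?_⟩
      · rw [autFun_mul' _ (E.zpow_mem (hZE hc₂) _) (E.zpow_mem (E.pow_mem he₂E p) _), hpowE _ _ _ (hZE hc₂),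
          hpowE _ _ _ (E.pow_mem he₂E p), ← zpow_natCast e₂ p, hpowE _ _ _ he₂E, zpow_natCast, he₂back]
        exact mul_mem (zpow_mem hc₂W _) (zpow_mem (pow_mem hz₂ p) _)
      · rw [h2, (h.zc_comm hc₂ (hES (E.zpow_mem he₂E l))).mul_zpow, ← zpow_mul, h3, zpow_add,
          zpow_neg_one, zpow_mul e₂ (p : ℤ), zpow_natCast, mul_assoc z₀, ← mul_assoc e₂⁻¹,
          ← (h.zc_comm (zpow_mem hc₂ (j * i)) (S.inv_mem he₂S)).eq, mul_assoc]
    obtain ⟨W₀, hW₀⟩ : ∃ W₀ : MulAut E, W₀ = ua * v * ua := ⟨_, rfl⟩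
    have hW₀G : W₀ ∈ F.autGroup E := hW₀ ▸ mul_mem (mul_mem (hUG hua) hvG) (hUG hua)
    have hW₀fix : ∀ w ∈ Zc S, autFun β⁻¹ w ∈ Zc S → autFun W₀ w = w := fun w hw hw' => by
      rw [hW₀, autFun_mul _ _ (hZE hw), autFun_mul _ _ (autFun_mem _ (hZE hw)), hu1 w hw,
        hvfix w (hZE hw) hw', hu1 w hw]
    have hcomm' : ∀ a b : Ω, a ∈ E → b ∈ E → Commute a b := fun a b ha hb => hab a ha b hb
    have hz₀E := hZE hz₀Z
    have hw₁E := hZE hw₁
    have hWz : autFun W₀ z₀ = e₂⁻¹ * w₁ := by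
      rw [hW₀, autFun_mul _ _ hz₀E, autFun_mul _ _ (autFun_mem _ hz₀E), hu1 z₀ hz₀Z, hvz,
        autFun_mul' _ (E.mul_mem hz₀E (E.inv_mem he₂E)) hw₁E,
        autFun_mul' _ hz₀E (E.inv_mem he₂E), autFun_inv' _ he₂E, hu1 z₀ hz₀Z, hu1 w₁ hw₁, hue₂,
        (hcomm' z₀ e₂ hz₀E he₂E).eq, mul_inv_rev, mul_inv_cancel_left]
    have hWe : autFun W₀ e₂ = z₀ * w₁ := by
      rw [hW₀, autFun_mul _ _ he₂E, autFun_mul _ _ (autFun_mem _ he₂E), hue₂,
        autFun_mul' _ hz₀E he₂E, hvz, hve₂, mul_assoc (z₀ * e₂⁻¹), (hcomm' w₁ e₂ hw₁E he₂E).eq,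
        ← mul_assoc (z₀ * e₂⁻¹), inv_mul_cancel_right, autFun_mul' _ hz₀E hw₁E, hu1 z₀ hz₀Z, hu1 w₁ hw₁]
    obtain ⟨t, ht⟩ : ∃ t, t = W₀ * W₀ := ⟨_, rfl⟩
    have htG : t ∈ F.autGroup E := ht ▸ mul_mem hW₀G hW₀G
    have htz : autFun t z₀ = z₀⁻¹ := by
      rw [ht, autFun_mul _ _ hz₀E, hWz, autFun_mul' _ (E.inv_mem he₂E) hw₁E, autFun_inv' _ he₂E,
        hWe, hW₀fix w₁ hw₁ hw₁W, (hcomm' z₀ w₁ hz₀E hw₁E).eq, mul_inv_rev, inv_mul_cancel_right]
    have htfix : ∀ w ∈ Zc S, autFun β⁻¹ w ∈ Zc S → autFun t w = w := fun w hw hw' => by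
      rw [ht, autFun_mul _ _ (hZE hw), hW₀fix w hw hw', hW₀fix w hw hw']
    have htdec : ∀ w ∈ Zc S, autFun β⁻¹ w ∈ Zc S → ∀ k : ℤ,
        autFun t (w * z₀ ^ k) = w * z₀ ^ (-k) := fun w hw hw' k => by
      rw [autFun_mul' _ (hZE hw) (E.zpow_mem hz₀E k), htfix w hw hw', hpowE _ _ _ hz₀E, htz,
        inv_zpow']
    refine ⟨⟨z₀, ⟨hz₀Z, hz₀C⟩, hz₀1, hz₀p, hzcyc⟩, autFun t, ⟨?_, ?_, ?_, ?_⟩, ?_⟩
    · exact ((mem_autGroup_iff hES).1 htG).restrict hZE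
    · have hmapr : Map F (Zc S) (autFun t) := ((mem_autGroup_iff hES).1 htG).restrict hZE
      refine eq_of_le_of_card_le inf_le_left (img_le_iff.2 fun z hz => ?_) hmapr.card_img.ge
      obtain ⟨w, hw, hw', k, rfl⟩ := hdec z hz
      rw [htdec w hw hw']
      exact mul_mem hw (zpow_mem hz₀Z _)
    · intro z hz
      obtain ⟨k, rfl⟩ := hzcyc z hz
      rw [hpowE _ _ _ hz₀E, htz, inv_zpow]
    · intro z hz
      obtain ⟨w, hw, hw', k, rfl⟩ := hdec z hz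
      rw [htdec w hw hw', mul_inv_rev, mul_assoc, inv_mul_cancel_left, ← zpow_neg, ← zpow_add]
      exact zpow_mem hz₀C _
    · intro z hz
      refine ⟨fun e => ?_, fun e => htfix z hz e⟩
      obtain ⟨w, hw, hw', k, rfl⟩ := hdec z hz
      rw [htdec w hw hw', mul_right_inj] at e
      have h2k : z₀ ^ (2 * k) = 1 := by
        rw [two_mul, zpow_add]; nth_rw 1 [← e]; rw [← zpow_add, neg_add_cancel, zpow_zero]
      have hd : (p : ℤ) ∣ 2 * k := hdvd y₀ (2 * k) hy₀E hy₀Z (by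
        rw [hy₀, ← hpowE _ _ _ hz₀E, h2k, autFun_one']; exact one_mem _)
      rcases (Nat.prime_iff_prime_int.1 hp.out).dvd_or_dvd hd with hd | ⟨m, rfl⟩
      · exact absurd ((Nat.prime_dvd_prime_iff_eq hp.out Nat.prime_two).1 (by exact_mod_cast hd)) hp2
      · rwa [zpow_mul, zpow_natCast, hz₀p, one_zpow, mul_one]
  exact ⟨(hdata β₀ hβ₀ hmove₀).1, ⟨β₀, hβ₀, hmove₀⟩, fun β hβ hm => (hdata β hβ hm).2⟩

/-- Two reflections of the centre agree. -/
theorem refl_unique (hS : IsPGroup p S) (hF : F.IsSaturated p) {r₁ r₂ : Ω → Ω}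
    (h₁ : IsRefl F p r₁) (h₂ : IsRefl F p r₂) : ∀ z ∈ Zc S, r₁ z = r₂ z := by
  have hle : Zc S ≤ S := inf_le_left
  have := finite_of_le hle
  have key : ∀ r r' : Ω → Ω, IsRefl F p r → IsRefl F p r' → ∀ z ∈ Zc S, r (r' z) = z := by
    intro r r' hr hr'
    obtain ⟨hm, himg, hinv, hsh⟩ := hr
    obtain ⟨hm', himg', hinv', hsh'⟩ := hr'
    have hmem : ∀ z ∈ Zc S, r z ∈ Zc S := fun z hz => himg.le (mem_img_of_mem r hz)
    have hmem' : ∀ z ∈ Zc S, r' z ∈ Zc S := fun z hz => himg'.le (mem_img_of_mem r' hz)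
    have hc : Map F (Zc S) fun z => r (r' z) := hm'.comp hm hmem'
    have hcimg : img (fun z => r (r' z)) (Zc S) = Zc S :=
      eq_of_le_of_card_le hle (img_le_iff.2 fun z hz => hmem _ (hmem' z hz)) hc.card_img.ge
    obtain ⟨α, hα, he⟩ := hc.exists_aut hcimg
    have hXle : Zc S ⊓ ⁅S, S⁆ ≤ Zc S := inf_le_left
    have hαK : α ∈ shiftGroup (F.autGroup (Zc S)) (Zc S ⊓ ⁅S, S⁆) hXle := by
      refine ⟨hα, fun x hx => ?_, fun e he' => ?_⟩
      · rw [he x (hXle hx), hinv' x hx, hinv x⁻¹ (inv_mem hx), inv_inv]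
      · rw [he e he']
        refine ⟨mul_mem (Subgroup.inv_mem _ he') (hmem _ (hmem' e he')), ?_⟩
        rw [show e⁻¹ * r (r' e) = e⁻¹ * r' e * ((r' e)⁻¹ * r (r' e)) by group]
        exact mul_mem (hsh' e he') (hsh _ (hmem' e he'))
    obtain ⟨k, hk⟩ := isPGroup_shift (hS.to_le hle) (shiftGroup (F.autGroup (Zc S)) _ hXle) _
      (fun α hα x hx _ => hα.2.1 x hx) (fun α hα => hα.2.2) ⟨α, hαK⟩
    have h1 : α = 1 := autZc_trivial hS hF hα (congrArg Subtype.val hk)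
    intro z hz
    rw [← he z hz, h1, autFun_one hz]
  intro z hz
  have e1 := key r₁ r₁ h₁ h₁ z hz
  have e2 := key r₁ r₂ h₁ h₂ z hz
  obtain ⟨hm, himg, -, -⟩ := h₁
  exact hm.injOn (himg.le (mem_img_of_mem r₁ hz))
    (h₂.2.1.le (mem_img_of_mem r₂ hz)) (e1.trans e2.symm)

/-- A map preserving the centre and its intersection with the derived subgroup commutes with the
reflection. -/
theorem fixed_invariant (hS : IsPGroup p S) (hF : F.IsSaturated p) {r k : Ω → Ω}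
    (hr : IsRefl F p r) (hk : Map F (Zc S) k) (hkZ : img k (Zc S) = Zc S)
    (hk0 : ∀ z ∈ Zc S ⊓ ⁅S, S⁆, k z ∈ Zc S ⊓ ⁅S, S⁆) :
    ∀ z ∈ Zc S, r z = z → r (k z) = k z := by
  have hle : Zc S ≤ S := inf_le_left
  have := finite_of_le hle
  obtain ⟨hm, himg, hinv, hsh⟩ := hr
  obtain ⟨i, hi, hik, himem, -⟩ := hk.exists_inv
  rw [hkZ] at hi
  have hmem : ∀ z ∈ Zc S, r z ∈ Zc S := fun z hz => himg.le (mem_img_of_mem r hz)
  have hkmem : ∀ z ∈ Zc S, k z ∈ Zc S := fun z hz => hkZ.le (mem_img_of_mem k hz)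
  have himem' : ∀ z ∈ Zc S, i z ∈ Zc S ∧ k (i z) = z := fun z hz => himem z (hkZ.ge hz)
  have hi0 : ∀ z ∈ Zc S ⊓ ⁅S, S⁆, i z ∈ Zc S ⊓ ⁅S, S⁆ := by
    intro z hz
    have : Finite (Zc S ⊓ ⁅S, S⁆ : Subgroup Ω) := finite_of_le (inf_le_left.trans hle)
    have hinj : Function.Injective fun w : (Zc S ⊓ ⁅S, S⁆ : Subgroup Ω) =>
        (⟨k w, hk0 w w.2⟩ : (Zc S ⊓ ⁅S, S⁆ : Subgroup Ω)) := fun a b e =>
      Subtype.ext (hk.injOn a.2.1 b.2.1 (congrArg Subtype.val e))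
    obtain ⟨w, hw⟩ := Finite.injective_iff_surjective.1 hinj ⟨z, hz⟩
    have hw' : k (w : Ω) = z := congrArg Subtype.val hw
    rw [← hw', hik w w.2.1]
    exact w.2
  have hc : Map F (Zc S) fun z => k (r (i z)) :=
    (hi.comp hm fun z hz => (himem' z hz).1).comp hk fun z hz => hmem _ (himem' z hz).1
  have hconj : IsRefl F p fun z => k (r (i z)) := by
    refine ⟨hc, eq_of_le_of_card_le hle (img_le_iff.2 fun z hz => hkmem _ (hmem _ (himem' z hz).1))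
      hc.card_img.ge, fun z hz => ?_, fun z hz => ?_⟩
    · show k (r (i z)) = z⁻¹
      rw [hinv _ (hi0 z hz), hk.map_inv (himem' z hz.1).1, (himem' z hz.1).2]
    · show z⁻¹ * k (r (i z)) ∈ ⁅S, S⁆
      have hw := (himem' z hz).1
      have h1 := hk0 _ ⟨mul_mem (Subgroup.inv_mem _ hw) (hmem _ hw), hsh _ hw⟩
      rw [hk.map_mul (inv_mem hw) (hmem _ hw), hk.map_inv hw, (himem' z hz).2] at h1
      exact h1.2
  intro z hz hfix
  have h1 := refl_unique hS hF hconj ⟨hm, himg, hinv, hsh⟩ (k z) (hkmem z hz)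
  have h1' : k (r (i (k z))) = r (k z) := h1
  rw [hik z hz, hfix] at h1'
  exact h1'.symm

/-- The theorem. -/
theorem main (hS : IsPGroup p S) (hF : F.IsSaturated p) (hp2 : p ≠ 2) (h : Setting S A p)
    (hcore : F.core = ⊥) (hAe : ¬ F.IsEssential p A) :
    (∃ x ∈ S, x ∉ A ∧ F.IsEssential p (Zc S ⊔ zpowers x)) ∧ Zc S ≤ ⁅S, S⁆ ∧
      Nat.card (Zc S) = p := by
  classical
  have hneA : ∀ {Q : Subgroup Ω}, F.IsEssential p Q → Q ≠ A := fun hQ e => hAe (e ▸ hQ)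
  have hle : Zc S ≤ S := inf_le_left
  have := finite_of_le hle
  have normal_of : ∀ X : Subgroup Ω, X ≤ Zc S →
      (∀ P : Subgroup Ω, (P = S ∨ F.IsEssential p P) → ∀ α ∈ F.autGroup P, ∀ x ∈ X, autFun α x ∈ X) →
      X = ⊥ := by
    intro X hX hinv
    have hXS : X ≤ S := hX.trans hle
    have := finite_of_le hXS
    have hn : F.IsNormal X := by
      refine isNormal_of_vmap hXS fun P f hf => ?_
      have hPr : Propagates F (fun R g => VMap F X R g) := {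
        congr := fun h he => h.congr he
        comp := fun {P R g g'} _ _ h h' hmem => h.comp h' hmem
        inv := fun {P g g'} _ _ hgg h => h.inv hgg
        id := fun hR => VMap.id hR hXS }
      refine alperin hS hF hPr (fun R hR α hα => ?_) hf
      have hXR : X ≤ R := hX.trans (by
        rcases hR with rfl | hR
        · exact hle
        · exact zc_le_centric hR.1)
      have hRS : R ≤ S := by rcases hR with rfl | hR; exacts [le_rfl, hR.1.1]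
      have hα' := (mem_autGroup_iff hRS).1 hα
      refine ⟨autFun α, hα'.restrict (sup_le le_rfl hXR), fun _ _ => rfl, ?_⟩
      exact eq_of_le_of_card_le hXS (img_le_iff.2 fun x hx => hinv R hR α hα x hx)
        (hα'.restrict hXR).card_img.ge
    exact le_bot_iff.1 (hcore ▸ le_sSup hn)
  have hZS : ∀ α ∈ F.autGroup S, ∀ z ∈ Zc S, autFun α z ∈ Zc S := fun α _ z hz => by
    refine ⟨autFun_mem α (hle hz), fun g hg => ?_⟩
    obtain ⟨g', hg', rfl⟩ : ∃ g' ∈ S, autFun α g' = g :=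
      ⟨_, autFun_mem α⁻¹ hg, autFun_apply_inv α hg⟩
    rw [← autFun_mul' α hg' (hle hz), ← autFun_mul' α (hle hz) hg', hz.2 g' hg']
  have hZnab : ∀ E : Subgroup Ω, F.IsEssential p E → (¬ ∀ a ∈ E, ∀ b ∈ E, a * b = b * a) →
      ∀ α ∈ F.autGroup E, ∀ z ∈ Zc S, autFun α z ∈ Zc S := by
    intro E hE hnab α hα z hz
    obtain ⟨x, hx, hxA⟩ := exists_not_mem h hE (hneA hE)
    have hzE := zc_le_centric hE.1 hz
    refine nonabelian_center h hE.1 hnab hx hxA (autFun_mem α hzE) fun e he => ?_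
    obtain ⟨e', he', rfl⟩ : ∃ e' ∈ E, autFun α e' = e :=
      ⟨_, autFun_mem α⁻¹ he, autFun_apply_inv α he⟩
    rw [← autFun_mul' α hzE he', ← autFun_mul' α he' hzE, (h.zc_comm hz (hE.1.1 he')).eq]
  have hZne : Zc S ≠ ⊥ := by
    haveI : Nontrivial S := by
      obtain ⟨g, hg, g', hg', hne⟩ := h.nonab
      exact nontrivial_of_ne (⟨g, hg⟩ : S) 1 fun e => hne (by
        have : g = 1 := congrArg Subtype.val e
        rw [this, one_mul, mul_one])
    haveI := hS.center_nontrivial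
    obtain ⟨⟨z, hz⟩, hz1⟩ := exists_ne (1 : Subgroup.center S)
    intro e
    have hzc : (z : Ω) ∈ Zc S :=
      ⟨z.2, fun g hg => congrArg Subtype.val (mem_center_iff.1 hz ⟨g, hg⟩)⟩
    rw [e] at hzc
    exact hz1 (Subtype.ext (Subtype.ext (mem_bot.1 hzc)))
  obtain ⟨E, hE, hab⟩ : ∃ E, F.IsEssential p E ∧ ∀ a ∈ E, ∀ b ∈ E, a * b = b * a := by
    by_contra hc
    refine hZne (normal_of (Zc S) le_rfl fun P hP α hα z hz => ?_)
    rcases hP with rfl | hP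
    · exact hZS α hα z hz
    · exact hZnab P hP (fun hh => hc ⟨P, hP, hh⟩) α hα z hz
  obtain ⟨x, hx, hxA⟩ := exists_not_mem h hE (hneA hE)
  have hEeq : Zc S ⊔ zpowers x = E := by
    refine le_antisymm (sup_le (zc_le_centric hE.1) (zpowers_le.2 hx)) fun e he => ?_
    obtain ⟨z, hz, k, rfl⟩ := (abelian_shape h hE.1 hab hx hxA).2 e he
    exact mul_mem (mem_sup_left hz) (mem_sup_right (zpow_mem (mem_zpowers x) k))
  obtain ⟨⟨z₀, hz₀, hz₀1, hz₀p, hcyc⟩, ⟨β, hβ, hmove⟩, hrefl⟩ := reflection hS hF hp2 h hE (hneA hE) hab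
  obtain ⟨r, hr, hrfix⟩ := hrefl β hβ hmove
  let W : Subgroup Ω :=
    { carrier := {z | z ∈ Zc S ∧ r z = z}
      one_mem' := ⟨one_mem _, hr.1.map_one⟩
      mul_mem' := fun {a b} ha hb => ⟨mul_mem ha.1 hb.1, by rw [hr.1.map_mul ha.1 hb.1, ha.2, hb.2]⟩
      inv_mem' := fun {a} ha => ⟨inv_mem ha.1, by rw [hr.1.map_inv ha.1, ha.2]⟩ }
  have hWbot : W = ⊥ := by
    refine normal_of W (fun z hz => hz.1) fun P hP α hα z hz => ?_
    have hcommS : ∀ {R : Subgroup Ω} {f : Ω → Ω}, Map F R f → ∀ c ∈ ⁅R, R⁆, f c ∈ ⁅S, S⁆ := by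
      intro R f hf c hc
      have hcR : ⁅R, R⁆ ≤ R := Subgroup.commutator_le_self R
      rw [Subgroup.commutator_def] at hc hcR
      induction hc using Subgroup.closure_induction with
      | mem c hc =>
        obtain ⟨a, ha, b, hb, rfl⟩ := hc
        rw [commutatorElement_def, hf.map_mul (mul_mem (mul_mem ha hb) (inv_mem ha)) (inv_mem hb),
          hf.map_conj ha hb, hf.map_inv hb]
        exact Subgroup.commutator_mem_commutator (hf.apply_mem ha) (hf.apply_mem hb)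
      | one => rw [hf.map_one]; exact one_mem _
      | mul a b ha hb iha ihb => rw [hf.map_mul (hcR ha) (hcR hb)]; exact mul_mem iha ihb
      | inv a ha iha => rw [hf.map_inv (hcR ha)]; exact inv_mem iha
    rcases hP with rfl | hP
    · have hα' := ((mem_autGroup_iff le_rfl).1 hα)
      have hk := hα'.restrict hle
      have himg : img (autFun α) _ = _ :=
        eq_of_le_of_card_le hle (img_le_iff.2 (hZS α hα)) hk.card_img.ge
      exact ⟨hZS α hα z hz.1, fixed_invariant hS hF hr hk himg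
        (fun c hc => ⟨hZS α hα c hc.1, hcommS hα' c hc.2⟩) z hz.1 hz.2⟩
    · by_cases hPab : ∀ a ∈ P, ∀ b ∈ P, a * b = b * a
      · obtain ⟨-, -, hrefl'⟩ := reflection hS hF hp2 h hP (hneA hP) hPab
        have hall : ∀ γ ∈ F.autGroup P, autFun γ z ∈ Zc S := by
          intro γ hγ
          by_contra hne
          obtain ⟨r', hr', hfix'⟩ := hrefl' γ⁻¹ (inv_mem hγ) (by
            by_contra hc
            push Not at hc
            have hinj : Function.Injective fun w : Zc S => (⟨autFun γ⁻¹ (w : Ω), hc w w.2⟩ : Zc S) :=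
              fun a b e => Subtype.ext (by
                have e' : autFun γ⁻¹ (a : Ω) = autFun γ⁻¹ (b : Ω) := congrArg Subtype.val e
                rw [← autFun_apply_inv γ (zc_le_centric hP.1 a.2), e',
                  autFun_apply_inv γ (zc_le_centric hP.1 b.2)])
            obtain ⟨w, hw⟩ := Finite.injective_iff_surjective.1 hinj ⟨z, hz.1⟩
            have hw' : autFun γ⁻¹ (w : Ω) = z := congrArg Subtype.val hw
            rw [← hw', autFun_apply_inv γ (zc_le_centric hP.1 w.2)] at hne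
            exact hne w.2)
          have h1 := (hfix' z hz.1).1 ((refl_unique hS hF hr' hr z hz.1).trans hz.2)
          rw [inv_inv] at h1
          exact hne h1
        have hαz := hall α hα
        refine ⟨hαz, ?_⟩
        obtain ⟨-, ⟨β', hβ', hmove'⟩, -⟩ := reflection hS hF hp2 h hP (hneA hP) hPab
        obtain ⟨r', hr', hfix'⟩ := hrefl' β' hβ' hmove'
        refine (refl_unique hS hF hr hr' _ hαz).trans ((hfix' _ hαz).2 ?_)
        have h1 := hall _ (mul_mem (inv_mem hβ') hα)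
        rwa [autFun_mul _ _ (zc_le_centric hP.1 hz.1)] at h1
      · have hα' := ((mem_autGroup_iff hP.1.1).1 hα)
        have hk := hα'.restrict (zc_le_centric hP.1)
        have hZ := hZnab P hP hPab α hα
        have himg : img (autFun α) (Zc S) = Zc S :=
          eq_of_le_of_card_le hle (img_le_iff.2 hZ) hk.card_img.ge
        obtain ⟨c, hcZ, hcP, hc1⟩ : ∃ c, c ∈ Zc S ∧ c ∈ ⁅P, P⁆ ∧ c ≠ 1 := by
          have := finite_of_le hP.1.1
          haveI := (hS.to_le hP.1.1).isNilpotent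
          have hne : _root_.commutator P ≠ ⊥ := fun e => hPab fun a ha b hb =>
            congrArg Subtype.val (commutatorElement_eq_one_iff_mul_comm.1 (mem_bot.1 (e.le
              (_root_.commutator_def P ▸ commutator_mem_commutator (mem_top (⟨a, ha⟩ : P))
                (mem_top (⟨b, hb⟩ : P))))))
          haveI : (_root_.commutator P).Normal := _root_.commutator_def P ▸ commutator_normal ⊤ ⊤
          obtain ⟨w, hw, hw1⟩ : ∃ w : P, w ∈ _root_.commutator P ⊓ center P ∧ w ≠ 1 := by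
            by_contra hh
            push Not at hh
            exact CfsgLib.Core.nilpotent_inf_center_ne_bot hne ((eq_bot_iff_forall _).2 hh)
          obtain ⟨x', hx', hx'A⟩ := exists_not_mem h hP (hneA hP)
          refine ⟨w, nonabelian_center h hP.1 hPab hx' hx'A w.2 fun e he =>
            (congrArg Subtype.val (mem_center_iff.1 hw.2 ⟨e, he⟩)).symm, ?_,
            fun e => hw1 (Subtype.ext e)⟩
          rw [← map_subtype_commutator]
          exact ⟨w, hw.1, rfl⟩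
        have hcS : c ∈ Zc S ⊓ ⁅S, S⁆ := ⟨hcZ, Subgroup.commutator_mono hP.1.1 hP.1.1 hcP⟩
        obtain ⟨i, rfl⟩ := hcyc c hcS
        have hpow : ∀ (d : ℤ), autFun α ((z₀ ^ i) ^ d) = autFun α (z₀ ^ i) ^ d := fun d => by
          have hzE := zc_le_centric hP.1 hcZ
          rw [autFun_apply _ (P.zpow_mem hzE d), autFun_apply _ hzE]
          exact (congrArg Subtype.val (map_zpow α (⟨_, hzE⟩ : P) d)).trans (SubgroupClass.coe_zpow _ _)
        refine ⟨hZ z hz.1, fixed_invariant hS hF hr hk himg (fun d hd => ?_) z hz.1 hz.2⟩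
        refine ⟨hZ d hd.1, ?_⟩
        obtain ⟨m, rfl⟩ := hcyc d hd
        have hi : ¬ (p : ℤ) ∣ i := fun ⟨q, hq⟩ => hc1 (by rw [hq, zpow_mul, zpow_natCast, hz₀p, one_zpow])
        obtain ⟨aa, bb, hab'⟩ := (Nat.prime_iff_prime_int.1 hp.out).coprime_iff_not_dvd.2 hi
        have e : z₀ ^ m = (z₀ ^ i) ^ (bb * m) := by
          rw [← zpow_mul, show i * (bb * m) = m + (p : ℤ) * (-(aa * m)) by linear_combination m * hab',
            zpow_add, zpow_mul z₀ (p : ℤ), zpow_natCast, hz₀p, one_zpow, mul_one]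
        rw [e, hpow]
        exact zpow_mem (hcommS hα' _ hcP) _
  -- the centre is generated by the commutator part
  have hZeq : Zc S ≤ ⁅S, S⁆ := by
    intro z hz
    have hd : z⁻¹ * r z ∈ Zc S ⊓ ⁅S, S⁆ :=
      ⟨mul_mem (Subgroup.inv_mem _ hz) (hr.2.1.le (mem_img_of_mem r hz)), hr.2.2.2 z hz⟩
    -- choose a half of the shift
    obtain ⟨m, hm⟩ := hcyc _ hd
    obtain ⟨q, hq⟩ : ∃ q : ℕ, p = 2 * q + 1 := hp.out.odd_of_ne_two hp2
    obtain ⟨c, hc⟩ : ∃ c, c = z₀ ^ (m * (q + 1 : ℤ)) := ⟨_, rfl⟩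
    have hcmem : c ∈ Zc S ⊓ ⁅S, S⁆ := hc ▸ zpow_mem hz₀ _
    have hfix : z * c ∈ W := by
      refine ⟨mul_mem hz hcmem.1, ?_⟩
      rw [hr.1.map_mul hz hcmem.1, hr.2.2.1 c hcmem, show r z = z * z₀ ^ m by rw [← hm, mul_inv_cancel_left],
        mul_assoc, hc, ← zpow_neg, ← zpow_add]
      congr 1
      rw [show m + -(m * (q + 1 : ℤ)) = m * (q + 1 : ℤ) + (p : ℤ) * (-m) by rw [hq]; push_cast; ring,
        zpow_add, zpow_mul z₀ (p : ℤ), zpow_natCast, hz₀p, one_zpow, mul_one]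
    rw [hWbot, mem_bot] at hfix
    rw [eq_inv_of_mul_eq_one_left hfix]
    exact inv_mem hcmem.2
  refine ⟨⟨x, hE.1.1 hx, hxA, hEeq ▸ hE⟩, hZeq, ?_⟩
  have hz : Zc S = zpowers z₀ := le_antisymm (fun z hz' => by
      obtain ⟨k, rfl⟩ := hcyc z ⟨hz', hZeq hz'⟩
      exact zpow_mem (mem_zpowers _) k) (zpowers_le.2 hz₀.1)
  rw [hz, Nat.card_zpowers, orderOf_eq_prime hz₀p hz₀1]

/-- Maximal class. -/
theorem maxClass (h : Setting S A p) {x : Ω} (hx : x ∈ S) (hxA : x ∉ A)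
    (hZ : Nat.card (Zc S) = p) {n : ℕ} (hA : Nat.card A = p ^ (n - 1)) (hn : 3 ≤ n) :
    Subgroup.lowerCentralSeries S (n - 2) ≠ ⊥ := by
  have := finite_of_le h.le
  have hker : Nat.card (h.dlHom hx).ker = p := by
    rw [h.dlHom_ker hx hxA, Nat.card_congr (subgroupOfEquivOfLe h.zc_le).toEquiv, hZ]
  have key : ∀ i : ℕ, i ≤ n - 2 → ∃ M : Subgroup A, M.map A.subtype ≤ Subgroup.lowerCentralSeries S i ∧
      p ^ (n - 1 - i) ≤ Nat.card M := by
    intro i hi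
    induction i with
    | zero =>
      refine ⟨⊤, ?_, by rw [card_top, hA, Nat.sub_zero]⟩
      rw [Subgroup.lowerCentralSeries_zero]
      rintro _ ⟨a, -, rfl⟩; exact h.le a.2
    | succ i ih =>
      obtain ⟨M, hM, hMc⟩ := ih (by omega)
      refine ⟨M.map (h.dlHom hx), ?_, ?_⟩
      · rintro _ ⟨_, ⟨a, ha, rfl⟩, rfl⟩
        rw [Subgroup.lowerCentralSeries_succ]
        exact Subgroup.commutator_mem_commutator (hM ⟨a, ha, rfl⟩) hx
      · have h1 : Nat.card M = Nat.card ((h.dlHom hx).comp M.subtype).ker * Nat.card (M.map (h.dlHom hx)) := by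
          have := ((h.dlHom hx).comp M.subtype).ker.card_mul_index
          rw [index_ker, MonoidHom.range_comp, range_subtype] at this
          exact this.symm
        have h2 : Nat.card ((h.dlHom hx).comp M.subtype).ker ≤ p := by
          refine le_of_le_of_eq ?_ hker
          exact Nat.card_le_card_of_injective
            (fun y : ((h.dlHom hx).comp M.subtype).ker => (⟨((y : M) : A), y.2⟩ : (h.dlHom hx).ker))
            (fun a b e => Subtype.ext (Subtype.ext (congrArg (fun z : (h.dlHom hx).ker => (z : A)) e)))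
        have h3 : p ^ (n - 1 - i) = p * p ^ (n - 1 - (i + 1)) := by
          rw [← pow_succ']; congr 1; omega
        refine Nat.le_of_mul_le_mul_left (le_trans (h3 ▸ hMc) ?_) hp.out.pos
        rw [h1]; exact Nat.mul_le_mul_right _ h2
  obtain ⟨M, hM, hMc⟩ := key (n - 2) le_rfl
  intro e
  rw [e, le_bot_iff, map_eq_bot_iff_of_injective _ A.subtype_injective] at hM
  rw [hM, card_bot] at hMc
  have h1 : p ≤ 1 := le_trans (Nat.le_self_pow (by omega) p) hMc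
  exact absurd h1 (not_le.2 hp.out.one_lt)

end CfsgLib.FusionAbelianIndex
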