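import Cfsg.Agent.Lib.FusionAbelianIndexPMain
import Cfsg.Agent.Lib.FusionGeneration

/-!
# The shapes of essential subgroups when there is a unique abelian subgroup of index `p`
-/

set_option autoImplicit false
set_option linter.style.haveILetI false

namespace CfsgLib.FusionAbelianIndex

open Cfsg Cfsg.FusionSystem CfsgLib.Fusion Subgroup
open Setting (dl)
open scoped commutatorElement

universe u

variable {Ω : Type u} [Group Ω] {S : Subgroup Ω} [Finite S] {A : Subgroup Ω} {p : ℕ}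
  [hp : Fact p.Prime] {F : FusionSystem S}

omit [Finite S] in
/-- An overgroup obtained by adjoining one element with `p`-th power below. -/
theorem index_eq_prime {X Y : Subgroup Ω} [Finite Y] (hY : IsPGroup p Y) (hXY : X ≤ Y) {c : Ω}
    (hc : c ∈ Y) (hcX : c ∉ X) (hcp : c ^ p ∈ X)
    (hgen : ∀ y ∈ Y, ∃ k : ℤ, y * (c ^ k)⁻¹ ∈ X) : (X.subgroupOf Y).index = p := by
  classical
  have hsurj : Function.Surjective fun k : Fin p =>
      ((⟨c ^ (k : ℕ), Y.pow_mem hc k⟩ : Y) : Y ⧸ X.subgroupOf Y) := by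
    intro q
    obtain ⟨⟨y, hy⟩, rfl⟩ := QuotientGroup.mk_surjective q
    obtain ⟨k, hk⟩ := hgen y⁻¹ (Y.inv_mem hy)
    have hp0 : (p : ℤ) ≠ 0 := by exact_mod_cast hp.out.ne_zero
    refine ⟨⟨((-k) % p).toNat, ?_⟩, ?_⟩
    · have h1 := Int.emod_lt_of_pos (-k) (by exact_mod_cast hp.out.pos : (0 : ℤ) < p)
      have h2 := Int.emod_nonneg (-k) hp0
      omega
    · refine (QuotientGroup.eq.2 ?_).symm
      rw [mem_subgroupOf, Subgroup.coe_mul, Subgroup.coe_inv]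
      show y⁻¹ * c ^ ((-k) % p).toNat ∈ X
      have h3 : c ^ ((-k) % p).toNat = c ^ (-k) * ((c ^ p) ^ ((-k) / p))⁻¹ := by
        rw [← zpow_natCast, Int.toNat_of_nonneg (Int.emod_nonneg (-k) hp0), ← zpow_natCast c p,
          ← zpow_mul, ← zpow_neg, ← zpow_add, Int.emod_def]
        congr 1 <;> ring
      rw [h3, ← mul_assoc, zpow_neg]
      exact X.mul_mem hk (X.inv_mem (X.zpow_mem hcp _))
  have hle : (X.subgroupOf Y).index ≤ p := by
    have := Nat.card_le_card_of_surjective _ hsurj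
    rwa [Nat.card_fin] at this
  obtain ⟨j, hj⟩ := hY.index (X.subgroupOf Y)
  rcases j with _ | _ | j
  · exfalso
    rw [pow_zero, index_eq_one, subgroupOf_eq_top] at hj
    exact hcX (hj hc)
  · rwa [pow_one] at hj
  · exfalso
    rw [hj] at hle
    have h1 : p ^ 2 ≤ p ^ (j + 2) := Nat.pow_le_pow_right hp.out.pos (by omega)
    nlinarith [hp.out.two_le]

omit [Finite S] hp in
theorem mem_second_iff {g : Ω} : g ∈ (Subgroup.upperCentralSeries S 2).map S.subtype ↔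
    g ∈ S ∧ ∀ y ∈ S, g * y * g⁻¹ * y⁻¹ ∈ Zc S := by
  constructor
  · rintro ⟨⟨g, hg⟩, hm, rfl⟩
    refine ⟨hg, fun y hy => ?_⟩
    have h1 := (Subgroup.mem_upperCentralSeries_succ_iff.1 hm) ⟨y, hy⟩
    rw [Subgroup.upperCentralSeries_one, mem_center_iff] at h1
    exact ⟨S.mul_mem (S.mul_mem (S.mul_mem hg hy) (S.inv_mem hg)) (S.inv_mem hy),
      fun z hz => congrArg Subtype.val (h1 ⟨z, hz⟩)⟩
  · rintro ⟨hg, h⟩
    refine ⟨⟨g, hg⟩, Subgroup.mem_upperCentralSeries_succ_iff.2 fun y => ?_, rfl⟩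
    rw [Subgroup.upperCentralSeries_one, mem_center_iff]
    exact fun z => Subtype.ext ((h y y.2).2 z z.2)

theorem dl_eq_one_iff (h : Setting S A p) {x : Ω} (hx : x ∈ S) (hxA : x ∉ A) {a : Ω} (ha : a ∈ A) :
    dl x a = 1 ↔ a ∈ Zc S := by
  constructor
  · intro e
    refine h.cen hx hxA ha ?_
    rwa [dl, mul_inv_eq_one, mul_inv_eq_iff_eq_mul] at e
  · intro hz
    rw [dl, (h.zc_comm hz hx).eq, mul_inv_cancel_right, mul_inv_cancel]

omit hp in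
theorem dl_zpow (h : Setting S A p) {x : Ω} (hx : x ∈ S) {a : Ω} (ha : a ∈ A) (k : ℤ) :
    dl x (a ^ k) = dl x a ^ k :=
  congrArg Subtype.val (map_zpow (h.dlHom hx) (⟨a, ha⟩ : A) k)

/-- Every element of `A` moved by `x` into the centre is a power of one of them modulo the centre,
and the normalizer of `P` exceeds `P` by one element. -/
theorem essential_data (hS : IsPGroup p S) (hF : F.IsSaturated p) (hp2 : p ≠ 2) (h : Setting S A p)
    {P : Subgroup Ω} (hP : F.IsEssential p P) (hPA : P ≠ A) {x : Ω} (hx : x ∈ P) (hxA : x ∉ A) :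
    ∃ a₁ ∈ A, a₁ ∉ Zc S ∧ dl x a₁ ∈ Zc S ∧ a₁ ^ p ∈ Zc S ∧
      (∀ a ∈ A, dl x a ∈ Zc S → ∃ k : ℤ, a * (a₁ ^ k)⁻¹ ∈ Zc S) ∧
      (P = Zc S ⊔ zpowers x ∨ (a₁ ∈ P ∧ ∀ e ∈ P, e ∈ A → dl x e ∈ Zc S)) ∧
      (P.subgroupOf (normalizerIn S P)).index = p := by
  classical
  have hPS : P ≤ S := hP.1.1
  have := finite_of_le hPS
  have hxS := hPS hx
  have hZP : Zc S ≤ P := zc_le_centric hP.1
  have hNfin := finite_of_le (normalizerIn_le S P)
  have hNp : IsPGroup p (normalizerIn S P) := hS.to_le (normalizerIn_le S P)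
  have hxN : ∀ k : ℤ, x ^ k ∈ normalizerIn S P := fun k => le_normalizerIn hPS (P.zpow_mem hx k)
  have hNdec : ∀ g ∈ normalizerIn S P, ∃ a ∈ A, a ∈ normalizerIn S P ∧ ∃ k : ℤ, g = a * x ^ k := by
    intro g hg
    obtain ⟨a, ha, k, rfl⟩ := h.gen x hxS hxA g hg.1
    refine ⟨a, ha, ?_, k, rfl⟩
    have := (normalizerIn S P).mul_mem hg ((normalizerIn S P).inv_mem (hxN k))
    rwa [mul_inv_cancel_right] at this
  have hdlP : ∀ a ∈ normalizerIn S P, dl x a ∈ P := fun a ha =>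
    P.mul_mem (conj_mem_of_mem_normalizer ha.2 hx) (P.inv_mem hx)
  by_cases hab : ∀ a ∈ P, ∀ b ∈ P, a * b = b * a
  · obtain ⟨hEA, hgen⟩ := abelian_shape h hP.1 hab hx hxA
    have hPeq : P = Zc S ⊔ zpowers x := by
      refine le_antisymm (fun e he => ?_) (sup_le hZP (zpowers_le.2 hx))
      obtain ⟨z, hz, k, rfl⟩ := hgen e he
      exact mul_mem (mem_sup_left hz) (mem_sup_right (zpow_mem (mem_zpowers x) k))
    have hlt : P < S := lt_of_le_of_ne hPS fun e' => by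
      obtain ⟨g, hg, g', hg', hne⟩ := h.nonab
      exact hne (hab g (e' ▸ hg) g' (e' ▸ hg'))
    obtain ⟨a₁, ha₁, ha₁N, ha₁P⟩ : ∃ a ∈ A, a ∈ normalizerIn S P ∧ a ∉ P := by
      obtain ⟨g, hg, hgP⟩ := SetLike.exists_of_lt (lt_normalizerIn hS hlt)
      obtain ⟨a, ha, haN, k, rfl⟩ := hNdec g hg
      exact ⟨a, ha, haN, fun haP => hgP (P.mul_mem haP (P.zpow_mem hx k))⟩
    have hd : dl x a₁ ∈ Zc S := hEA _ (hdlP a₁ ha₁N) (h.dl_mem hxS ha₁)
    have ha₁Z : a₁ ∉ Zc S := fun hc => ha₁P (hZP hc)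
    have hd1 : dl x a₁ ≠ 1 := fun e => ha₁Z ((dl_eq_one_iff h hxS hxA ha₁).1 e)
    obtain ⟨⟨z₀, hz₀, hz₀1, hz₀p, hcyc⟩, -, -⟩ := reflection hS hF hp2 h hP hPA hab
    obtain ⟨i, hi⟩ := hcyc _ ⟨hd, commutator_mem_commutator (h.le ha₁) hxS⟩
    have hip : ¬ (p : ℤ) ∣ i := fun ⟨m, hm⟩ =>
      hd1 (by rw [hi, hm, zpow_mul, zpow_natCast, hz₀p, one_zpow])
    obtain ⟨aa, bb, hab'⟩ := (Nat.prime_iff_prime_int.1 hp.out).coprime_iff_not_dvd.2 hip
    have ha₁p : a₁ ^ p ∈ Zc S := by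
      refine (dl_eq_one_iff h hxS hxA (A.pow_mem ha₁ p)).1 ?_
      rw [← zpow_natCast a₁ p, dl_zpow h hxS ha₁, hi, ← zpow_mul, mul_comm, zpow_mul, zpow_natCast,
        hz₀p, one_zpow]
    have hgenA : ∀ a ∈ A, dl x a ∈ Zc S → ∃ k : ℤ, a * (a₁ ^ k)⁻¹ ∈ Zc S := by
      intro a ha hda
      obtain ⟨m, hm⟩ := hcyc _ ⟨hda, commutator_mem_commutator (h.le ha) hxS⟩
      refine ⟨bb * m, (dl_eq_one_iff h hxS hxA (A.mul_mem ha (A.inv_mem (A.zpow_mem ha₁ _)))).1 ?_⟩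
      have e := h.dl_mul hxS (A.mul_mem ha (A.inv_mem (A.zpow_mem ha₁ (bb * m)))) (A.zpow_mem ha₁ (bb * m))
      rw [inv_mul_cancel_right, dl_zpow h hxS ha₁, hi, hm, ← zpow_mul,
        show i * (bb * m) = m + (p : ℤ) * (-(aa * m)) by linear_combination m * hab',
        zpow_add, zpow_mul z₀ (p : ℤ), zpow_natCast, hz₀p, one_zpow, mul_one] at e
      exact mul_eq_right.1 e.symm
    refine ⟨a₁, ha₁, ha₁Z, hd, ha₁p, hgenA, Or.inl hPeq, ?_⟩
    refine index_eq_prime hNp (le_normalizerIn hPS) ha₁N ha₁P (hZP ha₁p) fun g hg => ?_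
    obtain ⟨a, ha, haN, k, rfl⟩ := hNdec g hg
    obtain ⟨m, hm⟩ := hgenA a ha (hEA _ (hdlP a haN) (h.dl_mem hxS ha))
    refine ⟨m, ?_⟩
    have hconj : a₁ ^ m * x ^ k * (a₁ ^ m)⁻¹ ∈ P :=
      conj_mem_of_mem_normalizer ((normalizerIn S P).zpow_mem ha₁N m).2 (P.zpow_mem hx k)
    rw [show a * x ^ k * (a₁ ^ m)⁻¹ = a * (a₁ ^ m)⁻¹ * (a₁ ^ m * x ^ k * (a₁ ^ m)⁻¹) by group]
    exact P.mul_mem (hZP hm) hconj
  · -- nonabelian
    have hZinv : ∀ γ ∈ F.autGroup P, ∀ z ∈ Zc S, autFun γ z ∈ Zc S := by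
      intro γ hγ z hz
      refine nonabelian_center h hP.1 hab hx hxA (autFun_mem γ (hZP hz)) fun e he => ?_
      obtain ⟨e', he', rfl⟩ : ∃ e' ∈ P, autFun γ e' = e :=
        ⟨_, autFun_mem γ⁻¹ he, autFun_apply_inv γ he⟩
      rw [← autFun_mul' γ (hZP hz) he', ← autFun_mul' γ he' (hZP hz), (h.zc_comm hz (hPS he')).eq]
    have hrad := (isRadical_of_isEssential hS hF hP).2
    -- a subgroup of shifts normalised by all automorphisms is inner
    have hinner : ∀ (X : Subgroup Ω) (hX : X ≤ P), (∀ γ ∈ F.autGroup P, ∀ z ∈ X, autFun γ z ∈ X) →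
        ∀ a ∈ normalizerIn S P, (∀ z ∈ X, a * z * a⁻¹ = z) →
          (∀ e ∈ P, e⁻¹ * (a * e * a⁻¹) ∈ X) → a ∈ P := by
      intro X hX hinv a haN hfix hsh
      obtain ⟨α, hα, hαe⟩ := exists_conjAut haN
      have hmem : α ∈ shiftGroup (F.autGroup P) X hX := ⟨autInducedBy_le_autGroup hPS hα,
        fun z hz => by rw [hαe z (hX hz), hfix z hz], fun e he => by rw [hαe e he]; exact hsh e he⟩
      have hnorm : ((shiftGroup (F.autGroup P) X hX).subgroupOf (F.autGroup P)).Normal := by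
        refine ⟨fun α hα β => ?_⟩
        rw [mem_subgroupOf] at hα ⊢
        refine ⟨SetLike.coe_mem (β * α * β⁻¹), fun z hz => ?_, fun e he => ?_⟩
        · show autFun ((β : MulAut P) * (α : MulAut P) * (β : MulAut P)⁻¹) z = z
          rw [autFun_mul _ _ (hX hz), autFun_mul _ _ (autFun_mem _ (hX hz)),
            hα.2.1 _ (hinv _ ((F.autGroup P).inv_mem β.2) z hz), autFun_apply_inv _ (hX hz)]
        · show e⁻¹ * autFun ((β : MulAut P) * (α : MulAut P) * (β : MulAut P)⁻¹) e ∈ X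
          have he' := autFun_mem (β : MulAut P)⁻¹ he
          have h1 := hinv _ β.2 _ (hα.2.2 _ he')
          rw [autFun_mul' _ (P.inv_mem he') (autFun_mem _ he'), autFun_inv' _ he',
            autFun_apply_inv _ he] at h1
          rw [autFun_mul _ _ he, autFun_mul _ _ (autFun_mem _ he)]
          exact h1
      have hpg : IsPGroup p (shiftGroup (F.autGroup P) X hX) :=
        isPGroup_shift (hS.to_le hPS) _ X (fun α hα x hx _ => hα.2.1 x hx) fun α hα => hα.2.2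
      have hle : (shiftGroup (F.autGroup P) X hX).subgroupOf (F.autGroup P) ≤ pCore p (F.autGroup P) :=
        le_sSup ⟨hnorm, hpg.of_equiv (subgroupOfEquivOfLe
          (fun α hα => hα.1 : shiftGroup (F.autGroup P) X hX ≤ F.autGroup P)).symm⟩
      have hinn : α ∈ Inn P := hrad ▸ ⟨⟨α, hmem.1⟩, hle hmem, rfl⟩
      obtain ⟨g, hg, he⟩ := mem_inn_iff.1 hinn
      have hga : g⁻¹ * a ∈ P := hP.1.2 P (isConj_refl F hPS)
        ⟨S.mul_mem (S.inv_mem (hPS hg)) haN.1, fun e he' => by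
          have h1 := (hαe e he').symm.trans (he e he')
          calc e * (g⁻¹ * a) = g⁻¹ * (g * e * g⁻¹) * a := by group
            _ = g⁻¹ * (a * e * a⁻¹) * a := by rw [h1]
            _ = g⁻¹ * a * e := by group⟩
      simpa using P.mul_mem hg hga
    obtain ⟨B, hB⟩ : ∃ B, B = P ⊓ A := ⟨_, rfl⟩
    have hBP : B ≤ P := hB ▸ inf_le_left
    have hBA : B ≤ A := hB ▸ inf_le_right
    have hBN : ∀ a ∈ A, ∀ e ∈ P, a ∈ normalizerIn S P → e⁻¹ * (a * e * a⁻¹) ∈ B := by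
      intro a ha e he haN
      refine hB ▸ ⟨P.mul_mem (P.inv_mem he) (conj_mem_of_mem_normalizer haN.2 he), ?_⟩
      rw [show e⁻¹ * (a * e * a⁻¹) = e⁻¹ * a * e * a⁻¹ by group]
      refine A.mul_mem ?_ (A.inv_mem ha)
      simpa using h.conj e⁻¹ (S.inv_mem (hPS he)) a ha
    have hlt : P < S := essential_lt hS hF hP
    obtain ⟨γ, hγ, hmove⟩ : ∃ γ ∈ F.autGroup P, ∃ b ∈ B, autFun γ b ∉ B := by
      by_contra hc
      push Not at hc
      obtain ⟨g, hg, hgP⟩ := SetLike.exists_of_lt (lt_normalizerIn hS hlt)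
      obtain ⟨a, ha, haN, k, rfl⟩ := hNdec g hg
      refine hgP (P.mul_mem (hinner B hBP hc a haN (fun z hz => ?_) fun e he => hBN a ha e he haN)
        (P.zpow_mem hx k))
      rw [h.comm a ha z (hBA hz), mul_inv_cancel_right]
    obtain ⟨b₀, hb₀, hb₀n⟩ := hmove
    have hnA : ∀ e ∈ P, e ∉ B → e ∉ A := fun e he hne heA => hne (hB ▸ ⟨he, heA⟩)
    obtain ⟨x₁, hx₁⟩ : ∃ x₁, x₁ = autFun γ b₀ := ⟨_, rfl⟩
    have hx₁P : x₁ ∈ P := hx₁ ▸ autFun_mem γ (hBP hb₀)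
    have hx₁A : x₁ ∉ A := hnA _ hx₁P (hx₁ ▸ hb₀n)
    have hmeet : ∀ w ∈ B, autFun γ⁻¹ w ∈ B → w ∈ Zc S := by
      intro w hw hw'
      refine h.cen (hPS hx₁P) hx₁A (hBA hw) ?_
      have h1 : autFun γ⁻¹ w * b₀ = b₀ * autFun γ⁻¹ w := h.comm _ (hBA hw') _ (hBA hb₀)
      have h2 := congrArg (autFun γ) h1
      rwa [autFun_mul' _ (hBP hw') (hBP hb₀), autFun_mul' _ (hBP hb₀) (hBP hw'),
        autFun_apply_inv γ (hBP hw), ← hx₁] at h2
    have hZB : Zc S ≤ B := hB ▸ le_inf hZP h.zc_le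
    obtain ⟨y, hy, hyZ⟩ : ∃ y ∈ B, y ∉ Zc S := by
      by_contra hc
      push Not at hc
      refine hab fun a ha b hb => ?_
      obtain ⟨a', ha', k, hak⟩ := h.gen x hxS hxA a (hPS ha)
      obtain ⟨b', hb', l, hbl⟩ := h.gen x hxS hxA b (hPS hb)
      have hA' : a' ∈ Zc S := hc a' (hB ▸ ⟨by
        have := P.mul_mem ha (P.inv_mem (P.zpow_mem hx k))
        rwa [hak, mul_inv_cancel_right] at this, ha'⟩)
      have hB' : b' ∈ Zc S := hc b' (hB ▸ ⟨by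
        have := P.mul_mem hb (P.inv_mem (P.zpow_mem hx l))
        rwa [hbl, mul_inv_cancel_right] at this, hb'⟩)
      subst hak
      exact (Commute.mul_left (h.zc_comm hA' (hPS hb)) (by
        rw [hbl]
        exact Commute.mul_right ((h.zc_comm hB' (S.zpow_mem hxS k)).symm)
          ((Commute.refl x).zpow_zpow k l))).eq
    obtain ⟨y', hy'⟩ : ∃ y', y' = autFun γ⁻¹ y := ⟨_, rfl⟩
    have hy'P : y' ∈ P := hy' ▸ autFun_mem _ (hBP hy)
    have hy'B : y' ∉ B := fun hc => hyZ (hmeet y hy (hy' ▸ hc))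
    have hy'A := hnA y' hy'P hy'B
    have hgenB : ∀ b ∈ B, ∃ k : ℤ, b * (y ^ k)⁻¹ ∈ Zc S := by
      intro b hb
      obtain ⟨a, ha, k, hak⟩ := h.gen y' (hPS hy'P) hy'A _ (hPS (autFun_mem γ⁻¹ (hBP hb)))
      refine ⟨k, hmeet _ (mul_mem hb (inv_mem (zpow_mem hy k))) ?_⟩
      have e : autFun γ⁻¹ (y ^ k) = y' ^ k := by
        rw [hy', autFun_apply _ (P.zpow_mem (hBP hy) k), autFun_apply _ (hBP hy)]
        exact (congrArg Subtype.val (map_zpow (γ⁻¹ : MulAut P) (⟨y, hBP hy⟩ : P) k)).trans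
          (SubgroupClass.coe_zpow _ _)
      have hval : autFun γ⁻¹ (b * (y ^ k)⁻¹) = a := by
        rw [autFun_mul' _ (hBP hb) (P.inv_mem (P.zpow_mem (hBP hy) k)),
          autFun_inv' _ (P.zpow_mem (hBP hy) k), e, hak, mul_inv_cancel_right]
      rw [hval]
      exact hB ▸ ⟨hval ▸ autFun_mem _ (P.mul_mem (hBP hb) (P.inv_mem (P.zpow_mem (hBP hy) k))), ha⟩
    have hyp : y ^ p ∈ Zc S := by
      refine hmeet _ (pow_mem hy p) ?_
      have e : autFun γ⁻¹ (y ^ p) = y' ^ p := by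
        rw [hy', autFun_apply _ (P.pow_mem (hBP hy) p), autFun_apply _ (hBP hy)]
        exact (congrArg Subtype.val (map_pow (γ⁻¹ : MulAut P) (⟨y, hBP hy⟩ : P) p)).trans
          (SubmonoidClass.coe_pow _ _)
      rw [e]
      exact hB ▸ ⟨P.pow_mem hy'P p, h.pow y' (hPS hy'P)⟩
    have hcommB : ∀ a ∈ P, ∀ b ∈ P, a * b * a⁻¹ * b⁻¹ ∈ B := fun a ha b hb => by
      refine hB ▸ ⟨P.mul_mem (P.mul_mem (P.mul_mem ha hb) (P.inv_mem ha)) (P.inv_mem hb), ?_⟩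
      obtain ⟨_, ⟨c, -, rfl⟩, hc⟩ := h.commutator_le_dl hxS hxA
        (commutator_mem_commutator (hPS ha) (hPS hb))
      rw [show a * b * a⁻¹ * b⁻¹ = ⁅a, b⁆ from rfl, ← hc]
      exact SetLike.coe_mem _
    have hcommZ : ∀ e ∈ P, e ∈ A → dl x e ∈ Zc S := by
      intro e he _
      refine hmeet _ (hcommB e he x hx) ?_
      rw [dl, autFun_mul' _ (P.mul_mem (P.mul_mem he hx) (P.inv_mem he)) (P.inv_mem hx),
        autFun_mul' _ (P.mul_mem he hx) (P.inv_mem he), autFun_mul' _ he hx, autFun_inv' _ he,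
        autFun_inv' _ hx]
      exact hcommB _ (autFun_mem _ he) _ (autFun_mem _ hx)
    -- elements of `A` moved into the centre lie in `P`
    have hsecond : ∀ a ∈ A, dl x a ∈ Zc S → a ∈ B := by
      intro a ha hd
      have hsh : ∀ e ∈ P, e⁻¹ * (a * e * a⁻¹) ∈ Zc S := by
        intro e he
        obtain ⟨b, hb, k, rfl⟩ := h.gen x hxS hxA e (hPS he)
        have h2 : a * x ^ k * a⁻¹ = dl x a ^ k * x ^ k := by
          rw [← conj_zpow, show a * x * a⁻¹ = dl x a * x by simp [dl, mul_assoc],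
            (h.zc_comm hd hxS).mul_zpow]
        rw [show a * (b * x ^ k) * a⁻¹ = a * b * a⁻¹ * (a * x ^ k * a⁻¹) by group, h2, h.comm a ha b hb,
          mul_inv_cancel_right, (h.zc_comm (zpow_mem hd k) (S.zpow_mem hxS k)).eq,
          ← mul_assoc b, inv_mul_cancel_left]
        exact zpow_mem hd k
      refine hB ▸ ⟨hinner (Zc S) hZP hZinv a ?_ (fun z hz => ?_) hsh, ha⟩
      · refine ⟨h.le ha, mem_normalizer_of_conj_mem fun e he => ?_⟩
        have := P.mul_mem he (hZP (hsh e he))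
        rwa [mul_inv_cancel_left] at this
      · rw [(h.zc_comm hz (h.le ha)).symm.eq, mul_inv_cancel_right]
    have hgenA : ∀ a ∈ A, dl x a ∈ Zc S → ∃ k : ℤ, a * (y ^ k)⁻¹ ∈ Zc S := fun a ha hd =>
      hgenB a (hsecond a ha hd)
    refine ⟨y, hBA hy, hyZ, hcommZ y (hBP hy) (hBA hy), hyp, hgenA, Or.inr ⟨hBP hy, hcommZ⟩, ?_⟩
    obtain ⟨g, hg, hgP⟩ := SetLike.exists_of_lt (lt_normalizerIn hS hlt)
    obtain ⟨a₀, ha₀, ha₀N, k₀, hgk⟩ := hNdec g hg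
    have ha₀P : a₀ ∉ P := fun hc => hgP (hgk ▸ P.mul_mem hc (P.zpow_mem hx k₀))
    have hdB : ∀ a ∈ A, a ∈ normalizerIn S P → dl x a ∈ B := fun a ha haN =>
      hB ▸ ⟨hdlP a haN, h.dl_mem hxS ha⟩
    obtain ⟨i, hi⟩ := hgenB _ (hdB a₀ ha₀ ha₀N)
    have hy' : y ∈ A := hBA hy
    have hip : ¬ (p : ℤ) ∣ i := fun ⟨m, hm⟩ => ha₀P (hBP (hsecond a₀ ha₀ (by
      have h1 := mul_mem hi (zpow_mem (pow_mem hyp 1) m)
      rw [pow_one, hm, zpow_mul, zpow_natCast, inv_mul_cancel_right] at h1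
      exact h1)))
    obtain ⟨aa, bb, hab'⟩ := (Nat.prime_iff_prime_int.1 hp.out).coprime_iff_not_dvd.2 hip
    have ha₀p : a₀ ^ p ∈ P := by
      refine hBP (hsecond _ (A.pow_mem ha₀ p) ?_)
      rw [← zpow_natCast a₀ p, dl_zpow h hxS ha₀, zpow_natCast]
      have e : dl x a₀ ^ p = (dl x a₀ * (y ^ i)⁻¹) ^ p * (y ^ p) ^ i := by
        rw [← zpow_natCast y p, ← zpow_mul, mul_comm (p : ℤ) i, zpow_mul, zpow_natCast,
          ← (h.zc_comm hi (S.zpow_mem (h.le hy') i)).mul_pow, inv_mul_cancel_right]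
      rw [e]; exact mul_mem (pow_mem hi p) (zpow_mem hyp i)
    refine index_eq_prime hNp (le_normalizerIn hPS) ha₀N ha₀P ha₀p fun g hg => ?_
    obtain ⟨a, ha, haN, k, rfl⟩ := hNdec g hg
    obtain ⟨m, hm⟩ := hgenB _ (hdB a ha haN)
    refine ⟨bb * m, ?_⟩
    have hin : a * (a₀ ^ (bb * m))⁻¹ ∈ P := by
      refine hBP (hsecond _ (A.mul_mem ha (A.inv_mem (A.zpow_mem ha₀ _))) ?_)
      have e := h.dl_mul hxS (A.mul_mem ha (A.inv_mem (A.zpow_mem ha₀ (bb * m)))) (A.zpow_mem ha₀ (bb * m))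
      rw [inv_mul_cancel_right, dl_zpow h hxS ha₀] at e
      rw [eq_mul_inv_of_mul_eq e.symm]
      obtain ⟨u, hu, hdu⟩ : ∃ u ∈ Zc S, dl x a = u * y ^ m := ⟨_, hm, (inv_mul_cancel_right _ _).symm⟩
      obtain ⟨w, hw, hdw⟩ : ∃ w ∈ Zc S, dl x a₀ = w * y ^ i := ⟨_, hi, (inv_mul_cancel_right _ _).symm⟩
      rw [hdu, hdw, (h.zc_comm hw (S.zpow_mem (h.le hy') i)).mul_zpow, ← zpow_mul, mul_inv_rev]
      rw [show u * y ^ m * ((y ^ (i * (bb * m)))⁻¹ * (w ^ (bb * m))⁻¹) =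
        u * (y ^ m * (y ^ (i * (bb * m)))⁻¹) * (w ^ (bb * m))⁻¹ by group, ← zpow_neg, ← zpow_add,
        show m + -(i * (bb * m)) = (p : ℤ) * (aa * m) by linear_combination (-m) * hab',
        zpow_mul, zpow_natCast]
      exact mul_mem (mul_mem hu (zpow_mem hyp _)) (inv_mem (zpow_mem hw _))
    have hconj : a₀ ^ (bb * m) * x ^ k * (a₀ ^ (bb * m))⁻¹ ∈ P :=
      conj_mem_of_mem_normalizer ((normalizerIn S P).zpow_mem ha₀N _).2 (P.zpow_mem hx k)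
    rw [show a * x ^ k * (a₀ ^ (bb * m))⁻¹ =
      a * (a₀ ^ (bb * m))⁻¹ * (a₀ ^ (bb * m) * x ^ k * (a₀ ^ (bb * m))⁻¹) by group]
    exact P.mul_mem hin hconj

theorem mem_second_iff_dl (h : Setting S A p) {x : Ω} (hx : x ∈ S) (hxA : x ∉ A)
    (hle : (Subgroup.upperCentralSeries S 2).map S.subtype ≤ A) {a : Ω} :
    a ∈ (Subgroup.upperCentralSeries S 2).map S.subtype ↔ a ∈ A ∧ dl x a ∈ Zc S := by
  refine ⟨fun ha => ⟨hle ha, (mem_second_iff.1 ha).2 x hx⟩, fun ⟨ha, hd⟩ => ?_⟩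
  refine mem_second_iff.2 ⟨h.le ha, fun y hy => ?_⟩
  obtain ⟨b, hb, k, rfl⟩ := h.gen x hx hxA y hy
  have h2 : a * x ^ k * a⁻¹ = dl x a ^ k * x ^ k := by
    rw [← conj_zpow, show a * x * a⁻¹ = dl x a * x by simp [dl, mul_assoc],
      (h.zc_comm hd hx).mul_zpow]
  rw [show a * (b * x ^ k) * a⁻¹ = a * b * a⁻¹ * (a * x ^ k * a⁻¹) by group, h2, h.comm a ha b hb,
    mul_inv_cancel_right, ← mul_assoc, ← (h.zc_comm (zpow_mem hd k) (h.le hb)).eq, mul_assoc (dl x a ^ k),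
    mul_inv_cancel_right]
  exact zpow_mem hd k

theorem second_le (hS : IsPGroup p S) (h : Setting S A p) (hidx : (A.subgroupOf S).index = p)
    (huniq : ∀ B : Subgroup Ω, B ≤ S → IsMulCommutative B → (B.subgroupOf S).index = p → B = A)
    {x : Ω} (hx : x ∈ S) (hxA : x ∉ A) {a₁ : Ω} (ha₁ : a₁ ∈ A) (ha₁Z : a₁ ∉ Zc S)
    (hd₁ : dl x a₁ ∈ Zc S) (hp₁ : a₁ ^ p ∈ Zc S)
    (hgen : ∀ a ∈ A, dl x a ∈ Zc S → ∃ k : ℤ, a * (a₁ ^ k)⁻¹ ∈ Zc S) :
    (Subgroup.upperCentralSeries S 2).map S.subtype ≤ A := by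
  intro g hg
  by_contra hgA
  obtain ⟨hgS, -⟩ := mem_second_iff.1 hg
  have hall : ∀ a ∈ A, dl x a ∈ Zc S := by
    intro a ha
    obtain ⟨b, hb, l, hxl⟩ := h.gen g hgS hgA x hx
    have hgl : g ^ l ∈ (Subgroup.upperCentralSeries S 2).map S.subtype := zpow_mem hg l
    have h1 := inv_mem ((mem_second_iff.1 hgl).2 a (h.le ha))
    have e : dl x a = b * (g ^ l * a * (g ^ l)⁻¹ * a⁻¹)⁻¹ * b⁻¹ := by
      rw [dl, hxl, show a * (b * g ^ l) * a⁻¹ * (b * g ^ l)⁻¹ =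
        (a * b) * g ^ l * a⁻¹ * (g ^ l)⁻¹ * b⁻¹ by group, h.comm a ha b hb]
      group
    rw [e, ← (h.zc_comm h1 (h.le hb)).eq, mul_inv_cancel_right]
    exact h1
  obtain ⟨B, hBdef⟩ : ∃ B, B = Zc S ⊔ zpowers x := ⟨_, rfl⟩
  have hBS : B ≤ S := hBdef ▸ sup_le inf_le_left (zpowers_le.2 hx)
  have hBmem : ∀ {z : Ω}, z ∈ Zc S → ∀ k : ℤ, z * x ^ k ∈ B := fun hz k =>
    hBdef ▸ mul_mem (mem_sup_left hz) (mem_sup_right (zpow_mem (mem_zpowers x) k))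
  let T : Subgroup Ω :=
    { carrier := {e | ∃ z ∈ Zc S, ∃ k : ℤ, e = z * x ^ k}
      one_mem' := ⟨1, one_mem _, 0, by simp⟩
      mul_mem' := by
        rintro _ _ ⟨z, hz, k, rfl⟩ ⟨w, hw, l, rfl⟩
        refine ⟨z * w, mul_mem hz hw, k + l, ?_⟩
        rw [mul_assoc z (x ^ k), ← mul_assoc (x ^ k), ← (h.zc_comm hw (S.zpow_mem hx k)).eq, zpow_add]
        group
      inv_mem' := by
        rintro _ ⟨z, hz, k, rfl⟩
        refine ⟨z⁻¹, inv_mem hz, -k, ?_⟩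
        rw [mul_inv_rev, zpow_neg, (h.zc_comm (inv_mem hz) (S.inv_mem (S.zpow_mem hx k))).eq] }
  have hTB : B ≤ T := hBdef ▸ sup_le (fun z hz => ⟨z, hz, 0, by simp⟩)
    (zpowers_le.2 ⟨1, one_mem _, 1, by simp⟩)
  have hBab : IsMulCommutative B := ⟨⟨fun u v => Subtype.ext (by
    obtain ⟨z, hz, k, hu⟩ := hTB u.2
    obtain ⟨w, hw, l, hv⟩ := hTB v.2
    show (u : Ω) * v = v * u
    rw [hu, hv]
    exact (Commute.mul_left
      (Commute.mul_right (h.zc_comm hz hw.1) (h.zc_comm hz (S.zpow_mem hx l)))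
      (Commute.mul_right (h.zc_comm hw (S.zpow_mem hx k)).symm ((Commute.refl x).zpow_zpow k l))).eq)⟩⟩
  refine hxA ((huniq B hBS hBab (index_eq_prime hS hBS (h.le ha₁) (fun hc => ?_) (hBdef ▸ mem_sup_left hp₁)
    fun y hy => ?_)).le (hBdef ▸ mem_sup_right (mem_zpowers x)))
  · obtain ⟨z, hz, k, e⟩ := hTB hc
    refine ha₁Z (h.cen hx hxA ha₁ ?_)
    rw [e]
    exact (Commute.mul_left (h.zc_comm hz hx) ((Commute.refl x).zpow_left k)).eq
  · obtain ⟨a, ha, k, rfl⟩ := h.gen x hx hxA y hy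
    obtain ⟨j, hj⟩ := hgen a ha (hall a ha)
    refine ⟨j, ?_⟩
    obtain ⟨d, hd⟩ : ∃ d, d = dl x (a₁ ^ j) := ⟨_, rfl⟩
    have hdZ : d ∈ Zc S := hd ▸ hall _ (A.zpow_mem ha₁ j)
    have h2 : a₁ ^ j * x ^ k * (a₁ ^ j)⁻¹ = d ^ k * x ^ k := by
      rw [← conj_zpow, show a₁ ^ j * x * (a₁ ^ j)⁻¹ = d * x by rw [hd]; simp [dl, mul_assoc],
        (h.zc_comm hdZ hx).mul_zpow]
    rw [show a * x ^ k * (a₁ ^ j)⁻¹ = a * (a₁ ^ j)⁻¹ * (a₁ ^ j * x ^ k * (a₁ ^ j)⁻¹) by group, h2,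
      ← mul_assoc]
    exact hBmem (mul_mem hj (zpow_mem hdZ k)) k

end CfsgLib.FusionAbelianIndex
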