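import Mathlib.GroupTheory.Sylow
import Cfsg.Agent.Lib.FusionZJ
import Cfsg.Agent.Lib.StableSeries
import Cfsg.Agent.Lib.StableBridge

/-!
# The axiomatic form of Glauberman's theorem
-/

set_option autoImplicit false

set_option linter.unusedSectionVars false
set_option linter.style.haveILetI false

universe u

namespace CfsgLib.Stable

open Cfsg

variable {G : Type u} [Group G] {p : ℕ} [hp : Fact p.Prime]

/-- The intersection of the members of a family lying in `Q`. -/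
def famInt (𝔄 : Set (Subgroup G)) (Q : Subgroup G) : Subgroup G :=
  ⨅ A ∈ {A : Subgroup G | A ∈ 𝔄 ∧ A ≤ Q}, A

theorem mem_famInt {𝔄 : Set (Subgroup G)} {Q : Subgroup G} {x : G} :
    x ∈ famInt 𝔄 Q ↔ ∀ A ∈ 𝔄, A ≤ Q → x ∈ A := by
  simp [famInt, Subgroup.mem_iInf]

theorem famInt_mono {𝔄 : Set (Subgroup G)} {Q R : Subgroup G} (h : Q ≤ R) :
    famInt 𝔄 R ≤ famInt 𝔄 Q := fun _ hx => mem_famInt.mpr fun A hA hAQ =>
  mem_famInt.mp hx A hA (hAQ.trans h)

/-- An axiomatic family in a Sylow subgroup `P`. -/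
structure IsFamily (P : Subgroup G) (𝔄 : Set (Subgroup G)) : Prop where
  nonempty : 𝔄.Nonempty
  le : ∀ A ∈ 𝔄, A ≤ P
  comm : ∀ A ∈ 𝔄, ∀ a ∈ A, ∀ b ∈ A, a * b = b * a
  inv : ∀ Q : Subgroup G, Q ≤ P → (∃ A ∈ 𝔄, A ≤ Q) → ∀ g ∈ Subgroup.normalizer (Q : Set G),
    ∀ x ∈ famInt 𝔄 Q, g * x * g⁻¹ ∈ famInt 𝔄 Q
  rep : ∀ B : Subgroup G, B ≤ P → ⁅⁅B, B⁆, B⁆ = ⊥ → (∃ A ∈ 𝔄, ⁅B, B⁆ ≤ A ∧ ¬ B ≤ A) →
    ∃ A ∈ 𝔄, ⁅B, B⁆ ≤ A ∧ ¬ B ≤ A ∧ B ≤ Subgroup.normalizer (A : Set G)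

variable [Finite G] {P : Sylow p G} {𝔄 : Set (Subgroup G)}

theorem IsFamily.le_normalizer (h : IsFamily (P : Subgroup G) 𝔄) :
    (P : Subgroup G) ≤ Subgroup.normalizer (famInt 𝔄 (P : Subgroup G) : Set G) := by
  obtain ⟨A, hA⟩ := h.nonempty
  intro g hg
  exact mem_normalizer_of_map_eq fun x hx =>
    h.inv _ le_rfl ⟨A, hA, h.le A hA⟩ g (Subgroup.le_normalizer hg) x hx

theorem inf_famInt_normal (hst : Stab p G) (h : IsFamily (P : Subgroup G) 𝔄) :
    ∀ (B : Subgroup G), B.Normal → IsPGroup p B → (B ⊓ famInt 𝔄 (P : Subgroup G)).Normal := by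
  have hPI := h.le_normalizer
  set I := famInt 𝔄 (P : Subgroup G) with hI
  have hIc : ∀ a ∈ I, ∀ b ∈ I, a * b = b * a := fun a ha b hb => by
    obtain ⟨A, hA⟩ := h.nonempty
    exact h.comm A hA a (mem_famInt.mp ha A hA (h.le A hA)) b (mem_famInt.mp hb A hA (h.le A hA))
  intro B
  induction hn : Nat.card B using Nat.strong_induction_on generalizing B with
  | _ n ih =>
  subst hn
  intro hBn hB
  haveI := hBn
  set W := B ⊓ I with hW
  have hcl : Subgroup.normalClosure (W : Set G) ≤ B := Subgroup.normalClosure_le_normal inf_le_left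
  rcases lt_or_eq_of_le hcl with hlt | heq
  · have hcard : Nat.card ↥(Subgroup.normalClosure (W : Set G)) < Nat.card B := by
      by_contra hc
      exact hlt.ne (Subgroup.eq_of_le_of_card_ge hlt.le (not_lt.1 hc))
    have h1 := ih _ hcard _ rfl Subgroup.normalClosure_normal (hB.to_le hlt.le)
    have e1 : Subgroup.normalClosure (W : Set G) ⊓ I = W := by
      refine le_antisymm (le_inf (inf_le_left.trans hlt.le) inf_le_right) (le_inf ?_ inf_le_right)
      exact Subgroup.le_normalClosure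
    rwa [e1] at h1
  by_cases hB1 : B = ⊥
  · rw [hW, hB1, bot_inf_eq]; infer_instance
  have hBP : B ≤ (P : Subgroup G) :=
    (CfsgLib.Core.le_pCore hBn hB).trans (CfsgLib.Core.pCore_le_sylow P)
  have hPW : (P : Subgroup G) ≤ Subgroup.normalizer (W : Set G) := fun g hg =>
    mem_normalizer_of_map_eq fun x hx =>
      ⟨hBn.conj_mem x hx.1 g, (Subgroup.mem_normalizer_iff.1 (hPI hg) x).1 hx.2⟩
  -- the derived group of `B`
  have hBB : ⁅B, B⁆ ≤ B := Subgroup.commutator_le_right B B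
  have hBB' : ⁅B, B⁆ ≠ B := by
    intro e1
    haveI := hB.isNilpotent
    haveI : Nontrivial B := (Subgroup.nontrivial_iff_ne_bot B).2 hB1
    haveI : Group.IsPerfect B := Subgroup.isPerfect_iff.2 e1
    exact Group.IsPerfect.not_isNilpotent B inferInstance
  have hW'n : (⁅B, B⁆ ⊓ I).Normal := by
    refine ih _ ?_ _ rfl (Subgroup.commutator_normal B B) (hB.to_le hBB)
    by_contra hc
    exact hBB' (Subgroup.eq_of_le_of_card_ge hBB (not_lt.1 hc))
  set W' := ⁅B, B⁆ ⊓ I with hW'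
  haveI := hW'n
  have hBle : B ≤ (Subgroup.centralizer
      ((B.map (QuotientGroup.mk' W') : Subgroup (G ⧸ W')) : Set (G ⧸ W'))).comap
        (QuotientGroup.mk' W') := by
    conv_lhs => rw [← heq]
    haveI : (B.map (QuotientGroup.mk' W')).Normal := hBn.map _ (QuotientGroup.mk'_surjective _)
    refine Subgroup.normalClosure_le_normal ?_
    intro w hw
    rw [SetLike.mem_coe, Subgroup.mem_comap, Subgroup.mem_centralizer_iff]
    rintro _ ⟨b, hb, rfl⟩
    have hmem : b * w * b⁻¹ * w⁻¹ ∈ W' := by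
      refine ⟨?_, I.mul_mem ((Subgroup.mem_normalizer_iff.1 (hPW (hBP hb)) w).1 hw).2
        (I.inv_mem hw.2)⟩
      have := Subgroup.commutator_mem_commutator hb (show w ∈ B from hw.1)
      rwa [commutatorElement_def] at this
    have h1 : QuotientGroup.mk' W' (b * w * b⁻¹ * w⁻¹) = 1 := (QuotientGroup.eq_one_iff _).2 hmem
    simp only [map_mul, map_inv] at h1
    rwa [mul_inv_eq_one, mul_inv_eq_iff_eq_mul] at h1
  have hBBI : ⁅B, B⁆ ≤ I := by
    refine le_trans ?_ (inf_le_right : W' ≤ I)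
    rw [Subgroup.commutator_le]
    intro x hx y hy
    rw [← QuotientGroup.eq_one_iff]
    have h1 := Subgroup.mem_centralizer_iff.1 (hBle hx) _ (Subgroup.mem_map_of_mem _ hy)
    show QuotientGroup.mk' W' (x * y * x⁻¹ * y⁻¹) = 1
    rw [map_mul, map_mul, map_mul, map_inv, map_inv, mul_inv_eq_one, mul_inv_eq_iff_eq_mul]
    exact h1.symm
  have hclass : ⁅⁅B, B⁆, B⁆ = ⊥ := by
    haveI : (⁅B, B⁆).Normal := Subgroup.commutator_normal B B
    have hle : B ≤ Subgroup.centralizer ((⁅B, B⁆ : Subgroup G) : Set G) := by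
      conv_lhs => rw [← heq]
      refine Subgroup.normalClosure_le_normal ?_
      intro w hw
      rw [SetLike.mem_coe, Subgroup.mem_centralizer_iff]
      exact fun c hc => hIc c (hBBI hc) w hw.2
    rw [Subgroup.commutator_eq_bot_iff_le_centralizer]
    intro c hc
    rw [Subgroup.mem_centralizer_iff]
    exact fun z hz => (Subgroup.mem_centralizer_iff.1 (hle hz) c hc).symm
  by_contra hWn
  -- some member contains `[B, B]` but not `B`
  obtain ⟨A, hA, hBBA, hBA, hBNA⟩ := h.rep B hBP hclass (by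
    by_contra hne
    apply hWn
    have : W = B := inf_eq_left.mpr fun x hx => mem_famInt.mpr fun A hA _ => by
      by_contra hxA
      exact hne ⟨A, hA, hBBI.trans fun y hy => mem_famInt.mp hy A hA (h.le A hA),
        fun hle => hxA (hle hx)⟩
    rw [this]
    exact hBn)
  set C := Subgroup.centralizer (B : Set G)
  set K := (Cfsg.pCore p (G ⧸ C)).comap (QuotientGroup.mk' C)
  haveI : (Cfsg.pCore p (G ⧸ C)).Normal := CfsgLib.Core.normal_pCore p
  haveI : K.Normal := Subgroup.Normal.comap inferInstance _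
  have hCW : C ≤ Subgroup.normalizer (W : Set G) := fun c hc => mem_normalizer_of_map_eq fun x hx => by
    rwa [← Subgroup.mem_centralizer_iff.1 hc x hx.1, mul_inv_cancel_right]
  have hKW : K ≤ Subgroup.normalizer (W : Set G) := fun k hk =>
    (sup_le hCW hPW) (preimage_pCore_le P _ hk)
  set L := (Subgroup.normalizer (W : Set G)).normalCore with hL
  have hLW : L ≤ Subgroup.normalizer (W : Set G) := Subgroup.normalCore_le _
  have hAL : A ≤ L := by
    intro a ha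
    have hquad : ⁅⁅B, Subgroup.zpowers a⁆, Subgroup.zpowers a⁆ = ⊥ := by
      rw [Subgroup.commutator_eq_bot_iff_le_centralizer]
      refine le_trans (?_ : _ ≤ A) ?_
      · rw [Subgroup.commutator_le]
        intro x hx y hy
        rw [commutatorElement_def]
        have hy' : y ∈ A := (Subgroup.zpowers_le.2 ha) hy
        exact mul_mem ((Subgroup.mem_normalizer_iff.1 (hBNA hx) y).1 hy') (inv_mem hy')
      · intro c hc
        rw [Subgroup.mem_centralizer_iff]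
        exact fun y hy => h.comm A hA y ((Subgroup.zpowers_le.2 ha) hy) c hc
    have hpel : ∃ k : ℕ, a ^ p ^ k = 1 := by
      obtain ⟨k, hk⟩ := P.2 ⟨a, h.le A hA ha⟩
      exact ⟨k, congrArg Subtype.val hk⟩
    exact Subgroup.normal_le_normalCore.2 hKW (hst B hB a hpel hquad)
  set Q := (P : Subgroup G) ⊓ L with hQ
  have hfr : ∀ g : G, ∃ n ∈ Subgroup.normalizer (Q : Set G), ∃ l ∈ L, g = n * l := by
    have hQp : IsPGroup p ↥((P : Subgroup G).subgroupOf L) :=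
      P.2.comap_of_injective L.subtype L.subtype_injective
    have hidx : ¬ p ∣ ((P : Subgroup G).subgroupOf L).index := by
      have : ((P : Subgroup G).subgroupOf L).index = ((P : Subgroup G) ⊓ L).relIndex L := by
        rw [Subgroup.inf_relIndex_right]; rfl
      rw [this]
      exact not_dvd_relIndex P L
    have hs := Sylow.normalizer_sup_eq_top (hQp.toSylow hidx)
    have e1 : ((hQp.toSylow hidx : Sylow p L) : Subgroup L).map L.subtype = Q := by
      rw [IsPGroup.toSylow_coe, Subgroup.subgroupOf_map_subtype, hQ]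
    rw [e1] at hs
    intro g
    have hg : g ∈ Subgroup.normalizer (Q : Set G) ⊔ L := by rw [hs]; exact Subgroup.mem_top g
    rw [Subgroup.mem_sup_of_normal_right] at hg
    obtain ⟨n, hn, l, hl, rfl⟩ := hg
    exact ⟨n, hn, l, hl, rfl⟩
  have hAQ : A ≤ Q := le_inf (h.le A hA) hAL
  apply hBA
  rw [← heq, Subgroup.normalClosure, Subgroup.closure_le]
  intro y hy
  obtain ⟨w, hw, hc⟩ := Group.mem_conjugatesOfSet_iff.1 hy
  obtain ⟨g, rfl⟩ := isConj_iff.1 hc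
  obtain ⟨n, hn, l, hl, rfl⟩ := hfr g
  have hlw : l * w * l⁻¹ ∈ W := (Subgroup.mem_normalizer_iff.1 (hLW hl) w).1 hw
  have h1 := h.inv Q inf_le_left ⟨A, hA, hAQ⟩ n hn _ (famInt_mono inf_le_left hlw.2)
  have h2 := mem_famInt.mp h1 A hA hAQ
  simpa [mul_assoc] using h2

theorem famInt_normal (hst : Stab p G) (h : IsFamily (P : Subgroup G) 𝔄)
    (hc : Subgroup.centralizer (Cfsg.pCore p G : Set G) ≤ Cfsg.pCore p G) :
    (famInt 𝔄 (P : Subgroup G)).Normal := by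
  obtain ⟨A, hA⟩ := h.nonempty
  have hIA : famInt 𝔄 (P : Subgroup G) ≤ A := fun x hx => mem_famInt.mp hx A hA (h.le A hA)
  have hle : famInt 𝔄 (P : Subgroup G) ≤ Cfsg.pCore p G := le_pCore_of_abelian hc hst
    (P.2.to_le (hIA.trans (h.le A hA))) (fun a ha b hb => h.comm A hA a (hIA ha) b (hIA hb))
    ((CfsgLib.Core.pCore_le_sylow P).trans h.le_normalizer)
  have h1 := inf_famInt_normal hst h _ (CfsgLib.Core.normal_pCore p)
    (CfsgLib.Core.isPGroup_pCore p)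
  rwa [inf_eq_right.2 hle] at h1

/-- The complement criterion for an axiomatic family. -/
theorem isPGroup_of_family (hodd : p ≠ 2) : ∀ {G : Type u} [Group G] [Finite G] {P : Sylow p G}
    {𝔄 : Set (Subgroup G)}, IsFamily (P : Subgroup G) 𝔄 →
    Subgroup.centralizer (Cfsg.pCore p G : Set G) ≤ Cfsg.pCore p G →
    IsPGroup p ↥(Subgroup.normalizer (famInt 𝔄 (P : Subgroup G) : Set G)) → IsPGroup p G := by
  intro G _ _ P 𝔄 h hc hN
  induction hn : Nat.card G using Nat.strong_induction_on generalizing G with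
  | _ n ih =>
  subst hn
  haveI := CfsgLib.Core.normal_pCore (G := G) p
  have hOP := CfsgLib.Core.pCore_le_sylow P
  by_contra hnp
  have hmax : ∀ Y : Subgroup G, (P : Subgroup G) ≤ Y → Y ≠ ⊤ → Y ≤ (P : Subgroup G) := by
    intro Y hPY hY
    have hcard : Nat.card Y < Nat.card G := by
      by_contra hcd
      exact hY (Subgroup.eq_top_of_card_eq _ (le_antisymm (Subgroup.card_le_card_group Y) (not_lt.1 hcd)))
    set P' : Sylow p Y := P.subtype hPY
    set 𝔄' : Set (Subgroup Y) := (fun A => A.subgroupOf Y) '' 𝔄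
    have hP' : ((P' : Subgroup Y)) = (P : Subgroup G).subgroupOf Y := P.coe_subtype hPY
    have hmem : ∀ (Q : Subgroup Y) (x : Y),
        x ∈ famInt 𝔄' Q ↔ (x : G) ∈ famInt 𝔄 (Q.map Y.subtype) := by
      intro Q x
      rw [mem_famInt, mem_famInt]
      constructor
      · intro hx A hA hAQ
        refine hx _ ⟨A, hA, rfl⟩ fun a ha => ?_
        obtain ⟨b, hb, hbe⟩ := hAQ ha
        rwa [show a = b from Subtype.ext hbe.symm]
      · rintro hx _ ⟨A, hA, rfl⟩ hAQ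
        exact hx A hA fun a ha => ⟨⟨a, hPY (h.le A hA ha)⟩, hAQ ha, rfl⟩
    have hfam : IsFamily (P' : Subgroup Y) 𝔄' := by
      refine ⟨h.nonempty.image _, ?_, ?_, fun Q hQ hex g hg x hx => ?_, fun B hB hcls hex => ?_⟩
      · rintro _ ⟨A, hA, rfl⟩
        exact hP'.symm ▸ Subgroup.comap_mono (h.le A hA)
      · rintro _ ⟨A, hA, rfl⟩ a ha b hb
        exact Subtype.ext (h.comm A hA a ha b hb)
      · rw [hmem] at hx ⊢
        obtain ⟨_, ⟨A, hA, rfl⟩, hAQ⟩ := hex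
        refine h.inv (Q.map Y.subtype) ?_
          ⟨A, hA, fun a ha => Subgroup.mem_map_of_mem Y.subtype
            (hAQ (show (⟨a, hPY (h.le A hA ha)⟩ : Y) ∈ A.subgroupOf Y from ha))⟩ (g : G)
          ?_ _ hx
        · rintro _ ⟨q, hq, rfl⟩
          exact (hP' ▸ hQ) hq
        · refine mem_normalizer_of_map_eq ?_
          rintro _ ⟨q, hq, rfl⟩
          exact ⟨g * q * g⁻¹, (Subgroup.mem_normalizer_iff.1 hg q).1 hq, rfl⟩
      · obtain ⟨_, ⟨A, hA, rfl⟩, hBA, hnB⟩ := hex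
        have e : ⁅B.map Y.subtype, B.map Y.subtype⁆ = ⁅B, B⁆.map Y.subtype :=
          (Subgroup.map_commutator B B Y.subtype).symm
        obtain ⟨A', hA', h1, h2, h3⟩ := h.rep (B.map Y.subtype) (by
            rintro _ ⟨q, hq, rfl⟩
            exact (hP' ▸ hB) hq) (by
            rw [e, ← Subgroup.map_commutator, hcls, Subgroup.map_bot]) ⟨A, hA, by
            rw [e]; rintro _ ⟨q, hq, rfl⟩; exact hBA hq,
            fun hle => hnB fun q hq => hle ⟨q, hq, rfl⟩⟩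
        refine ⟨_, ⟨A', hA', rfl⟩, fun q hq => h1 (e ▸ ⟨q, hq, rfl⟩), fun hle => h2 ?_, ?_⟩
        · rintro _ ⟨q, hq, rfl⟩
          exact hle hq
        · intro q hq
          refine mem_normalizer_of_map_eq fun a ha => ?_
          exact (Subgroup.mem_normalizer_iff.1 (h3 ⟨q, hq, rfl⟩) (a : G)).1 ha
    have hOY : (Cfsg.pCore p G).subgroupOf Y ≤ Cfsg.pCore p Y :=
      CfsgLib.Core.le_pCore inferInstance
        ((CfsgLib.Core.isPGroup_pCore p).comap_of_injective Y.subtype Y.subtype_injective)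
    have hcY : Subgroup.centralizer (Cfsg.pCore p Y : Set Y) ≤ Cfsg.pCore p Y := fun c hc' => by
      refine hOY (hc ?_)
      rw [Subgroup.mem_centralizer_iff]
      intro o ho
      exact congrArg Subtype.val
        (Subgroup.mem_centralizer_iff.1 hc' ⟨o, hPY (hOP ho)⟩ (hOY ho))
    have hNY : IsPGroup p ↥(Subgroup.normalizer (famInt 𝔄' (P' : Subgroup Y) : Set Y)) := by
      rintro ⟨g, hg⟩
      have hmapP : (P' : Subgroup Y).map Y.subtype = (P : Subgroup G) := by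
        rw [hP', Subgroup.map_subgroupOf_eq_of_le hPY]
      have hgN : (g : G) ∈ Subgroup.normalizer (famInt 𝔄 (P : Subgroup G) : Set G) := by
        refine mem_normalizer_of_map_eq fun x hx => ?_
        obtain ⟨A, hA⟩ := h.nonempty
        have hxY : x ∈ Y := hPY (h.le A hA (mem_famInt.mp hx A hA (h.le A hA)))
        rw [← hmapP] at hx ⊢
        exact (hmem _ _).1 ((Subgroup.mem_normalizer_iff.1 hg ⟨x, hxY⟩).1 ((hmem _ ⟨x, hxY⟩).2 hx))
      obtain ⟨k, hk⟩ := hN ⟨g, hgN⟩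
      exact ⟨k, Subtype.ext (Subtype.ext (congrArg Subtype.val hk :))⟩
    have hYp : IsPGroup p Y := ih _ hcard hfam hcY hNY rfl
    exact (P.is_maximal' hYp hPY).le
  have hPne : (P : Subgroup G) ≠ ⊤ := fun e => hnp (IsPGroup.of_equiv (e ▸ P.2) Subgroup.topEquiv)
  have hPc : IsCoatom (P : Subgroup G) :=
    ⟨hPne, fun Y hY => by_contra fun hYt => not_le_of_gt hY (hmax Y hY.le hYt)⟩
  set f := QuotientGroup.mk' (Cfsg.pCore p G) with hf
  have hfs : Function.Surjective f := QuotientGroup.mk'_surjective _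
  have hnpc : Cfsg.HasNormalPComplement p (G ⧸ Cfsg.pCore p G) := by
    set P₁ := P.mapSurjective hfs
    rcases eq_or_ne (P₁ : Subgroup (G ⧸ Cfsg.pCore p G)) ⊥ with hb | hb
    · exact npc_of_sylow_eq_bot P₁ hb
    refine npc_of_Zsub hodd (Or.inl rfl) P₁ (npc_of_pGroup ?_)
    set Z := Zsub 0 (P₁ : Subgroup (G ⧸ Cfsg.pCore p G))
    set N := Subgroup.normalizer (Z : Set (G ⧸ Cfsg.pCore p G)) with hNdef
    have hP₁N : (P₁ : Subgroup (G ⧸ Cfsg.pCore p G)) ≤ N :=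
      (le_normalizer_D (sclosed_self _)).trans
        ((normalizer_le_Jsub 0 _).trans (normalizer_Jsub_le_Zsub 0 _))
    have hPle : (P : Subgroup G) ≤ N.comap f := fun x hx => hP₁N (by
      rw [Sylow.coe_mapSurjective]; exact ⟨x, hx, rfl⟩)
    have hne : N.comap f ≠ ⊤ := by
      intro e
      have hNtop : N = ⊤ := by
        rw [← Subgroup.map_comap_eq_self_of_surjective hfs N, e, Subgroup.map_top_of_surjective f hfs]
      haveI : Z.Normal := Subgroup.normalizer_eq_top_iff.mp hNtop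
      have hker : IsPGroup p f.ker := by
        rw [hf, QuotientGroup.ker_mk']; exact CfsgLib.Core.isPGroup_pCore p
      have hpre : (Z.comap f) ≤ Cfsg.pCore p G := CfsgLib.Core.le_pCore inferInstance
        ((P₁.2.to_le (Zsub_le 0 _)).comap_of_ker_isPGroup f hker)
      apply Zsub_ne_bot (Or.inl rfl) P₁.2 hb
      rw [eq_bot_iff]
      intro z hz
      obtain ⟨y, rfl⟩ := hfs z
      exact Subgroup.mem_bot.mpr ((QuotientGroup.eq_one_iff y).mpr (hpre hz))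
    have hle : N ≤ (P₁ : Subgroup (G ⧸ Cfsg.pCore p G)) := fun z hz => by
      obtain ⟨y, rfl⟩ := hfs z
      rw [Sylow.coe_mapSurjective]
      exact ⟨y, hmax _ hPle hne hz, rfl⟩
    exact P₁.2.to_le hle
  have hI := famInt_normal (stab_of_hasSeries hodd (hasSeries_of_reduced hnpc P hPc)) h hc
  haveI := hI
  rw [Subgroup.normalizer_eq_top] at hN
  exact hnp (hN.of_equiv Subgroup.topEquiv)

end CfsgLib.Stable

namespace CfsgLib.Fusion

open Cfsg Cfsg.FusionSystem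

variable {Ω : Type u} [Group Ω] {S : Subgroup Ω} [Finite S] {p : ℕ} [Fact p.Prime]
  {F : FusionSystem S}

theorem normalizer_push_isPGroup (hS : IsPGroup p S) {Q V : Subgroup Ω} (hQ : F.IsNormal Q)
    (hQc : F.IsCentric Q) {L : Type*} [Group L] {ι : S →* L} (hL : F.IsModel p L ι) (hVS : V ≤ S)
    (hVn : normalizerIn S V = S) (h : PInnerAt p F V False) :
    IsPGroup p ↥(Subgroup.normalizer ((push ι V : Subgroup L) : Set L)) := by
  obtain ⟨hfin, hreal, -, -⟩ := id hL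
  obtain ⟨ρ, hρ, -, hρk⟩ := exists_modelAct hL hQ hQc
  have hpushQ := push_normal_of_model hL hQ
  rintro ⟨g, hg⟩
  have hQS := hQc.1
  obtain ⟨f, hf, hfg, -⟩ := exists_aut_of_normalizes hreal (sup_le hQS hVS) (g := g) fun y hy => by
    obtain ⟨x, hx, hxS, rfl⟩ := mem_push.mp hy
    have hle : Q ⊔ V ≤
        (((push ι (Q ⊔ V)).comap (MulAut.conj g).toMonoidHom).comap ι).map S.subtype := by
      refine sup_le (fun z hz => ⟨⟨z, hQS hz⟩, ?_, rfl⟩) fun z hz => ⟨⟨z, hVS hz⟩, ?_, rfl⟩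
      · obtain ⟨w, hw, hwT, hwe⟩ := mem_push.mp
          (hpushQ.conj_mem _ (mem_push.mpr ⟨z, hz, hQS hz, ext_apply ι (hQS hz)⟩) g)
        exact mem_push.mpr ⟨w, Subgroup.mem_sup_left hw, hwT, hwe⟩
      · obtain ⟨w, hw, hwT, hwe⟩ := mem_push.mp (conj_mem_of_mem_normalizer hg
          (mem_push.mpr ⟨z, hz, hVS hz, ext_apply ι (hVS hz)⟩))
        exact mem_push.mpr ⟨w, Subgroup.mem_sup_right hw, hwT, hwe⟩
    obtain ⟨w, hw, rfl⟩ := hle hx
    rw [show ext ι (S.subtype w) = ι w from ext_coe ι w]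
    exact hw
  have := finite_of_le hQS
  have := finite_of_le hVS
  have hfQ : img f Q = Q :=
    img_eq_of_stronglyClosed (isNormal_stronglyClosed hQ) le_rfl (hf.restrict le_sup_left)
  obtain ⟨α, -, hαf⟩ := (hf.restrict le_sup_left).exists_aut hfQ
  have hfV : img f V = V := by
    refine eq_of_le_of_card_le hVS (img_le_iff.mpr fun x hx => ?_)
      (hf.restrict le_sup_right).card_img.ge
    obtain ⟨w, hw, hwT, hwe⟩ := mem_push.mp
      (conj_mem_of_mem_normalizer hg (mem_push.mpr ⟨x, hx, hVS hx, rfl⟩))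
    rwa [extι_inj hreal.1 (hf.apply_mem (Subgroup.mem_sup_right hx)) hwT
      ((hfg x (Subgroup.mem_sup_right hx)).trans hwe.symm)]
  obtain ⟨n, hn⟩ := h Q α f (hVn.symm ▸ hQS) hf hfV False.elim hαf
  have hg1 : ρ (g ^ p ^ n) = 1 := by
    refine MulEquiv.ext fun x => Subgroup.inclusion_injective hQS (hreal.1 ?_)
    rw [← hρ]
    have h2 := aut_pow_conj (ι := ι) (g := g) (α := α)
      (fun y hy => by rw [hαf y hy]; exact hfg y (Subgroup.mem_sup_left hy)) (p ^ n) x x.2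
    rw [hn, autFun_one x.2, ext_apply ι (hQS x.2)] at h2
    exact h2.symm
  obtain ⟨c, hc⟩ := hρk _ hg1
  obtain ⟨m, hm⟩ := hS (Subgroup.inclusion hQS (c : Q))
  exact ⟨n + m, Subtype.ext (by
    show g ^ p ^ (n + m) = 1
    rw [pow_add, pow_mul, hc, ← map_pow, hm, map_one])⟩

theorem inner_iff_axiomatic (hS : IsPGroup p S) (hF : F.IsSaturated p) (hp : p ≠ 2)
    (𝒜 : Set (Subgroup Ω)) (h𝒜 : ∀ A ∈ 𝒜, A ≤ S ∧ IsMulCommutative ↥A) (hne : 𝒜.Nonempty)
    (hinv : ∀ Q : Subgroup Ω, Q ≤ S → (∃ A ∈ 𝒜, A ≤ Q) → ∀ α ∈ F.autGroup Q, ∀ x : ↥Q,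
      (x : Ω) ∈ (⨅ A ∈ {A : Subgroup Ω | A ∈ 𝒜 ∧ A ≤ Q}, A) →
        (((α : MulAut ↥Q) x : ↥Q) : Ω) ∈ (⨅ A ∈ {A : Subgroup Ω | A ∈ 𝒜 ∧ A ≤ Q}, A))
    (hrep : ∀ B : Subgroup Ω, B ≤ S → ⁅⁅B, B⁆, B⁆ = ⊥ → (∃ A ∈ 𝒜, ⁅B, B⁆ ≤ A ∧ ¬ B ≤ A) →
      ∃ A ∈ 𝒜, ⁅B, B⁆ ≤ A ∧ ¬ B ≤ A ∧ B ≤ Subgroup.normalizer (A : Set Ω)) :
    (∀ P : Subgroup Ω, F.Hom P = (innerFusionSystem S).Hom P) ↔
      ∀ N : FusionSystem (normalizerIn S (⨅ A ∈ 𝒜, A)), F.IsNormalizerSystem (⨅ A ∈ 𝒜, A) N →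
        ∀ P : Subgroup Ω, N.Hom P = (innerFusionSystem (normalizerIn S (⨅ A ∈ 𝒜, A))).Hom P := by
  obtain ⟨A₀, hA₀⟩ := hne
  set V : Subgroup Ω := ⨅ A ∈ 𝒜, A with hV
  have hmemV : ∀ {x : Ω}, x ∈ V ↔ ∀ A ∈ 𝒜, x ∈ A := by simp [hV, Subgroup.mem_iInf]
  have hmemQ : ∀ {Q : Subgroup Ω} {x : Ω}, x ∈ (⨅ A ∈ {A : Subgroup Ω | A ∈ 𝒜 ∧ A ≤ Q}, A) ↔
      ∀ A ∈ 𝒜, A ≤ Q → x ∈ A := by
    intro Q x
    simp [Subgroup.mem_iInf]
  have hVS : V ≤ S := fun x hx => (h𝒜 A₀ hA₀).1 (hmemV.mp hx A₀ hA₀)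
  have := finite_of_le hVS
  have hVn : normalizerIn S V = S := inf_eq_left.mpr fun s hs => by
    refine mem_normalizer_of_conj_mem fun x hx => hmemV.mpr fun A hA => ?_
    have hsN : s ∈ normalizerIn S S := (normalizerIn_self S).symm ▸ hs
    have hα : normalizerInToAut S S ⟨s, hsN⟩ ∈ F.autGroup S :=
      autInducedBy_le_autGroup le_rfl (range_normalizerInToAut (S := S) (P := S) ▸ ⟨_, rfl⟩)
    have h1 := hinv S le_rfl ⟨A₀, hA₀, (h𝒜 A₀ hA₀).1⟩ _ hα ⟨x, hVS hx⟩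
      (hmemQ.mpr fun A hA _ => hmemV.mp hx A hA)
    rw [← autFun_coe, autFun_normalizerInToAut _ (hVS hx)] at h1
    exact hmemQ.mp h1 A hA (h𝒜 A hA).1
  refine inner_iff_normalizerSystem hS hF hVS hVn fun h => ?_
  by_contra hni
  obtain ⟨E, hE, hEc, hEn⟩ := exists_constrained_not_pInner
    (fun _ : Unit => isPFunctor_zFunctor p) (functorComplement_zFunctor hp) _ S inferInstance hS F
    hF (sectionFree_int F) rfl hni
  have hsub := fusion_le_iff.mp hE
  obtain ⟨hEs, Q, hQ, hQc⟩ := hEc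
  obtain ⟨L, _, ι, hL⟩ := exists_model hS hEs hQ hQc
  obtain ⟨hfin, hreal, ⟨Tl, hTl⟩, hcen⟩ := id hL
  set 𝔄 : Set (Subgroup L) := (fun A => push ι A) '' 𝒜
  let pull : Subgroup L → Subgroup Ω := fun R => (R.comap ι).map S.subtype
  have hpull : ∀ {R : Subgroup L} {x : Ω}, x ∈ pull R ↔ ∃ hx : x ∈ S, ι ⟨x, hx⟩ ∈ R := by
    intro R x
    exact ⟨fun ⟨y, hy, he⟩ => he ▸ ⟨y.2, hy⟩, fun ⟨hx, h⟩ => ⟨⟨x, hx⟩, h, rfl⟩⟩
  have hpm : ∀ {A : Subgroup Ω} (_ : A ≤ S) {x : Ω} (hx : x ∈ S),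
      ι ⟨x, hx⟩ ∈ push ι A ↔ x ∈ A := by
    intro A _ x hx
    rw [push, Subgroup.mem_map_iff_mem hreal.1, Subgroup.mem_subgroupOf]
  have hAR : ∀ {A : Subgroup Ω} {R : Subgroup L}, A ≤ S → (push ι A ≤ R ↔ A ≤ pull R) := by
    intro A R hA
    constructor
    · exact fun h a ha => hpull.mpr ⟨hA ha, h ((hpm hA (hA ha)).mpr ha)⟩
    · intro h y hy
      obtain ⟨x, hx, hxS, rfl⟩ := mem_push.mp hy
      obtain ⟨_, h2⟩ := hpull.mp (h hx)
      rwa [ext_apply ι hxS]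
  have hmemF : ∀ {R : Subgroup L} {x : Ω} (hx : x ∈ S), ι ⟨x, hx⟩ ∈ Stable.famInt 𝔄 R ↔
      x ∈ (⨅ A ∈ {A : Subgroup Ω | A ∈ 𝒜 ∧ A ≤ pull R}, A) := by
    intro R x hx
    rw [Stable.mem_famInt, hmemQ]
    constructor
    · exact fun h A hA hAQ => (hpm (h𝒜 A hA).1 hx).mp (h _ ⟨A, hA, rfl⟩ ((hAR (h𝒜 A hA).1).mpr hAQ))
    · rintro h _ ⟨A, hA, rfl⟩ hAQ
      exact (hpm (h𝒜 A hA).1 hx).mpr (h A hA ((hAR (h𝒜 A hA).1).mp hAQ))
  have hfam : Stable.IsFamily (Tl : Subgroup L) 𝔄 := by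
    refine ⟨⟨_, A₀, hA₀, rfl⟩, ?_, ?_, ?_, ?_⟩
    · rintro _ ⟨A, hA, rfl⟩
      exact (push_le_range ι A).trans hTl.ge
    · rintro _ ⟨A, hA, rfl⟩ a ha b hb
      obtain ⟨x, hx, hxS, rfl⟩ := mem_push.mp ha
      obtain ⟨y, hy, hyS, rfl⟩ := mem_push.mp hb
      rw [← extι_mul ι hxS hyS, ← extι_mul ι hyS hxS]
      exact congrArg (ext ι) (congrArg Subtype.val ((h𝒜 A hA).2.is_comm.comm ⟨x, hx⟩ ⟨y, hy⟩))
    · rintro R hR ⟨_, ⟨A, hA, rfl⟩, hAR'⟩ g hg z hz
      have hzR : z ∈ R := hAR' (Stable.mem_famInt.mp hz _ ⟨A, hA, rfl⟩ hAR')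
      obtain ⟨x, rfl⟩ := hTl.le (hR hzR)
      have hQS : pull R ≤ S := Subgroup.map_subtype_le _
      have hxQ : (x : Ω) ∈ pull R := hpull.mpr ⟨x.2, hzR⟩
      have hpush : ∀ y ∈ push ι (pull R), g * y * g⁻¹ ∈ push ι (pull R) := by
        intro y hy
        obtain ⟨w, hw, hwS, rfl⟩ := mem_push.mp hy
        obtain ⟨_, hwR⟩ := hpull.mp hw
        rw [ext_apply ι hwS]
        have h1 := (Subgroup.mem_normalizer_iff.mp hg _).mp hwR
        obtain ⟨v, hv⟩ := hTl.le (hR h1)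
        exact mem_push.mpr ⟨v, hpull.mpr ⟨v.2, hv.symm ▸ h1⟩, v.2, (ext_coe ι v).trans hv⟩
      obtain ⟨f, hf, hfg, hfimg⟩ := exists_aut_of_normalizes hreal hQS hpush
      obtain ⟨α, hα, hαf⟩ := hf.exists_aut hfimg
      have hαF : α ∈ F.autGroup (pull R) :=
        (mem_autGroup_iff hQS).mpr (hsub _ _ ((mem_autGroup_iff hQS).mp hα))
      have h1 := hinv (pull R) hQS ⟨A, hA, (hAR (h𝒜 A hA).1).mp hAR'⟩ α hαF ⟨x, hxQ⟩
        ((hmemF x.2).mp hz)
      rw [← autFun_coe, hαf _ hxQ] at h1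
      have h2 := hfg _ hxQ
      rw [ext_coe, ext_apply ι (hf.apply_mem hxQ)] at h2
      rw [← h2]
      exact (hmemF _).mpr h1
    · intro B hB hcls hex
      have hBr : B ≤ ι.range := hB.trans hTl.le
      set B₀ := B.comap ι with hB₀
      have hB₀B : B₀.map ι = B := Subgroup.map_comap_eq_self hBr
      have hBB : ⁅B, B⁆ = ⁅B₀, B₀⁆.map ι := by rw [Subgroup.map_commutator, hB₀B]
      have hpb : ⁅pull B, pull B⁆ = ⁅B₀, B₀⁆.map S.subtype :=
        (Subgroup.map_commutator _ _ _).symm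
      have hcls₀ : ⁅⁅B₀, B₀⁆, B₀⁆ = ⊥ := Subgroup.map_injective hreal.1 (by
        rw [Subgroup.map_commutator, ← hBB, hB₀B, hcls, Subgroup.map_bot])
      obtain ⟨_, ⟨A, hA, rfl⟩, hBA, hnB⟩ := hex
      obtain ⟨A', hA', h1, h2, h3⟩ := hrep (pull B) (Subgroup.map_subtype_le _) (by
        rw [hpb, ← Subgroup.map_commutator, hcls₀, Subgroup.map_bot]) ⟨A, hA, by
          rw [hpb]
          rintro _ ⟨c, hc, rfl⟩
          exact (hpm (h𝒜 A hA).1 c.2).mp (hBA (hBB ▸ ⟨c, hc, rfl⟩)), fun hle => hnB fun b hb => by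
          obtain ⟨x, rfl⟩ := hBr hb
          exact (hpm (h𝒜 A hA).1 x.2).mpr (hle (hpull.mpr ⟨x.2, hb⟩))⟩
      refine ⟨_, ⟨A', hA', rfl⟩, ?_, fun hle => h2 fun x hx => ?_, ?_⟩
      · rw [hBB]
        rintro _ ⟨c, hc, rfl⟩
        exact (hpm (h𝒜 A' hA').1 c.2).mpr (h1 (hpb ▸ ⟨c, hc, rfl⟩))
      · obtain ⟨hxS, hxB⟩ := hpull.mp hx
        exact (hpm (h𝒜 A' hA').1 hxS).mp (hle hxB)
      · intro b hb
        obtain ⟨x, rfl⟩ := hBr hb
        have hxN := h3 (hpull.mpr ⟨x.2, hb⟩)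
        refine Stable.mem_normalizer_of_map_eq fun y hy => ?_
        obtain ⟨w, hw, hwS, rfl⟩ := mem_push.mp hy
        rw [← ext_coe ι x, ← extι_conj ι x.2 hwS]
        exact mem_push.mpr ⟨_, (Subgroup.mem_normalizer_iff.mp hxN w).mp hw,
          mul_mem (mul_mem x.2 hwS) (inv_mem x.2), rfl⟩
  have hpush : Stable.famInt 𝔄 (Tl : Subgroup L) = push ι V := by
    ext y
    constructor
    · intro hy
      have hy' := Stable.mem_famInt.mp hy _ ⟨A₀, hA₀, rfl⟩ ((push_le_range ι A₀).trans hTl.ge)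
      obtain ⟨x, rfl⟩ := push_le_range ι A₀ hy'
      refine (hpm hVS x.2).mpr (hmemV.mpr fun A hA => ?_)
      exact (hpm (h𝒜 A hA).1 x.2).mp
        (Stable.mem_famInt.mp hy _ ⟨A, hA, rfl⟩ ((push_le_range ι A).trans hTl.ge))
    · intro hy
      obtain ⟨x, hx, hxS, rfl⟩ := mem_push.mp hy
      rw [ext_apply ι hxS]
      refine Stable.mem_famInt.mpr ?_
      rintro _ ⟨A, hA, rfl⟩ -
      exact (hpm (h𝒜 A hA).1 hxS).mpr (hmemV.mp hx A hA)
  have hLp : IsPGroup p L := Stable.isPGroup_of_family hp hfam hcen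
    (hpush ▸ normalizer_push_isPGroup hS hQ hQc hL hVS hVn (h.of_le le_rfl hsub))
  refine hEn fun P hP α hα => ?_
  obtain ⟨-, -, g, hg⟩ := (realized_map_iff hreal).mp ((mem_autGroup_iff hP).mp hα)
  obtain ⟨a, ha⟩ := hLp g
  refine ⟨a, autFun_inj fun x hx => extι_inj hreal.1 (hP (autFun_mem _ hx))
    (hP (autFun_mem _ hx)) ?_⟩
  rw [aut_pow_conj (ι := ι) hg _ x hx, ha, autFun_one hx]
  simp

end CfsgLib.Fusion
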