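import Cfsg.Agent.Lib.FusionEssential
import Cfsg.Agent.Lib.FusionGroup
import Cfsg.Agent.Lib.FusionNormal
import Mathlib.GroupTheory.SemidirectProduct

/-!
# Extremely sparse systems
-/

set_option autoImplicit false

namespace CfsgLib.Fusion.Sparse

open Cfsg Cfsg.FusionSystem CfsgLib.Fusion

set_option linter.unusedSectionVars false

variable {p : ℕ} [hp : Fact p.Prime] {Ω : Type*} [Group Ω] {T : Subgroup Ω}

theorem autFun_conj (t : T) {x : Ω} (hx : x ∈ T) :
    autFun (MulAut.conj t : MulAut T) x = (t : Ω) * x * (t : Ω)⁻¹ := by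
  rw [autFun_apply _ hx, MulAut.conj_apply]
  rfl

/-- The system of automorphisms in `A`. -/
def autSystem (A : Subgroup (MulAut T)) (hA : Cfsg.Inn T ≤ A) : FusionSystem T where
  Hom P := {φ | P ≤ T ∧ ∃ α ∈ A, ∀ x : P, φ x = autFun α x}
  le_of_mem := by
    rintro P φ ⟨hP, α, -, h⟩
    exact ⟨hP, fun x => (h x).symm ▸ autFun_mem α (hP x.2)⟩
  injective_of_mem := by
    rintro P φ ⟨hP, α, -, h⟩ a b hab
    rw [h, h, autFun_apply α (hP a.2), autFun_apply α (hP b.2)] at hab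
    have h1 := α.injective (Subtype.ext hab)
    exact Subtype.ext (Subtype.mk.inj h1)
  conj_mem := by
    intro P g hP hg
    exact ⟨hP, MulAut.conj (⟨g, hg⟩ : T), hA ⟨_, rfl⟩, fun x => (autFun_conj ⟨g, hg⟩ (hP x.2)).symm⟩
  comp_mem := by
    rintro P Q φ ψ ⟨hP, α, hα, h⟩ ⟨hQ, β, hβ, h'⟩ hmem
    refine ⟨hP, β * α, A.mul_mem hβ hα, fun x => ?_⟩
    rw [autFun_mul _ _ (hP x.2), ← h]
    exact h' _
  inv_mem := by
    rintro P φ ⟨hP, α, hα, h⟩
    have hr : φ.range ≤ T := by rintro _ ⟨x, rfl⟩; rw [h]; exact autFun_mem α (hP x.2)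
    refine ⟨(T.subtype.comp α⁻¹.toMonoidHom).comp (Subgroup.inclusion hr),
      ⟨hr, α⁻¹, A.inv_mem hα, fun y => (autFun_apply α⁻¹ (hr y.2)).symm⟩, fun x => ?_⟩
    show ((α⁻¹ ⟨φ x, _⟩ : T) : Ω) = x
    rw [← autFun_apply, h, autFun_inv_apply α (hP x.2)]

theorem autSystem_map_iff {A : Subgroup (MulAut T)} {hA : Cfsg.Inn T ≤ A} {P : Subgroup Ω}
    {f : Ω → Ω} :
    Map (autSystem A hA) P f ↔ P ≤ T ∧ ∃ α ∈ A, ∀ x ∈ P, f x = autFun α x := by
  constructor
  · rintro ⟨φ, ⟨hP, α, hα, h⟩, he⟩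
    exact ⟨hP, α, hα, fun x hx => (he ⟨x, hx⟩).symm.trans (h ⟨x, hx⟩)⟩
  · rintro ⟨hP, α, hα, h⟩
    exact ⟨(T.subtype.comp α.toMonoidHom).comp (Subgroup.inclusion hP),
      ⟨hP, α, hα, fun x => (autFun_apply α (hP x.2)).symm⟩,
      fun x => ((h x x.2).trans (autFun_apply α (hP x.2))).symm⟩

theorem autSystem_saturated [Finite T] (hT : IsPGroup p T) {β : MulAut T} {q : ℕ} (hq : q.Prime)
    (hqp : q ≠ p) (hβ : orderOf β = q) :
    (autSystem (Cfsg.Inn T ⊔ Subgroup.zpowers β) le_sup_left).IsSaturated p := by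
  set C := Subgroup.zpowers β
  set φc : C →* MulAut T := C.subtype
  haveI : Finite (MulAut T) := Finite.of_injective _ DFunLike.coe_injective
  haveI : Finite (↥T ⋊[φc] ↥C) := Finite.of_equiv _ SemidirectProduct.equivProd.symm
  have hconj : ∀ (t : T) (c : C) (x : T),
      (⟨t, c⟩ : ↥T ⋊[φc] ↥C) * SemidirectProduct.inl x * (⟨t, c⟩ : ↥T ⋊[φc] ↥C)⁻¹ =
        SemidirectProduct.inl (t * (c : MulAut T) x * t⁻¹) := by
    intro t c x
    rw [SemidirectProduct.mk_eq_inl_mul_inr, mul_inv_rev, map_mul, map_mul, map_inv,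
      show (c : MulAut T) x = φc c x from rfl, SemidirectProduct.inl_aut, map_inv]
    group
  have hreal : (autSystem (Cfsg.Inn T ⊔ C) le_sup_left).IsRealizedBy
      (SemidirectProduct.inl : T →* ↥T ⋊[φc] ↥C) := by
    refine ⟨SemidirectProduct.inl_injective, fun P hP φ hφ => ⟨?_, ?_⟩⟩
    · rintro ⟨-, α, hα, h⟩
      obtain ⟨_, ⟨t, rfl⟩, c, hc, rfl⟩ := Subgroup.mem_sup_of_normal_left.1 hα
      refine ⟨⟨t, ⟨c, hc⟩⟩, fun x => ?_⟩
      rw [hconj]
      refine congrArg _ (Subtype.ext ?_)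
      show φ x = _
      rw [h x, autFun_mul _ _ (hP x.2), autFun_apply c (hP x.2), autFun_coe, MulAut.conj_apply]
    · rintro ⟨⟨t, c⟩, hg⟩
      refine ⟨hP, MulAut.conj t * c, Subgroup.mul_mem_sup ⟨t, rfl⟩ c.2, fun x => ?_⟩
      have h := hg x
      rw [hconj] at h
      have h' := congrArg Subtype.val (SemidirectProduct.inl_injective h)
      rw [autFun_mul _ _ (hP x.2), autFun_apply _ (hP x.2), autFun_coe, MulAut.conj_apply]
      exact h'
  set ι : T →* ↥T ⋊[φc] ↥C := SemidirectProduct.inl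
  have hrp : IsPGroup p ι.range := hT.of_surjective _ ι.rangeRestrict_surjective
  have hcard : Nat.card ι.range = Nat.card T :=
    (Nat.card_congr (MonoidHom.ofInjective SemidirectProduct.inl_injective).toEquiv).symm
  have hi : ¬ p ∣ ι.range.index := by
    have h1 := ι.range.card_mul_index
    rw [hcard, Nat.card_congr SemidirectProduct.equivProd, Nat.card_prod] at h1
    rw [Nat.eq_of_mul_eq_mul_left Nat.card_pos h1, Nat.card_zpowers, hβ]
    exact fun hd => hqp.symm ((Nat.prime_dvd_prime_iff_eq hp.out hq).1 hd)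
  exact realized_saturated hreal (hrp.toSylow hi) rfl

variable {S : Subgroup Ω} {F : FusionSystem S}

theorem autSystem_sub (hTS : T ≤ S) {A : Subgroup (MulAut T)} {hA : Cfsg.Inn T ≤ A}
    (hAF : A ≤ F.autGroup T) : (autSystem A hA).IsSubsystemOf F := by
  rintro P φ ⟨hP, α, hα, h⟩
  exact (((mem_autGroup_iff hTS).1 (hAF hα)).restrict hP).mem_hom h

theorem inn_le_autGroup (hTS : T ≤ S) : Cfsg.Inn T ≤ F.autGroup T := by
  rintro _ ⟨t, rfl⟩
  exact (mem_autGroup_iff hTS).2 ((map_conj hTS (hTS t.2)).congr fun x hx => (autFun_conj t hx).symm)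

theorem sparse_main [Finite S] (hS : IsPGroup p S) (hF : F.IsSaturated p)
    (hne : ¬ (∀ P : Subgroup Ω, F.Hom P = (innerFusionSystem S).Hom P))
    (hsp : ∀ (T : Subgroup Ω) (E : FusionSystem T), E.IsSaturated p → E.IsSubsystemOf F →
      (T = S ∧ ∀ P : Subgroup Ω, E.Hom P = F.Hom P) ∨
      (∀ P : Subgroup Ω, E.Hom P = (innerFusionSystem T).Hom P)) :
    F.IsNormal S ∧ F.focalSubgroup = S ∧ F.hyperfocalSubgroup p = S ∧
      ∃ (q : ℕ) (β : MulAut ↥S), q.Prime ∧ q ≠ p ∧ β ∈ F.autGroup S ∧ orderOf β = q ∧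
        (F.autGroup S : Subgroup (MulAut ↥S)) = Cfsg.Inn ↥S ⊔ Subgroup.zpowers β := by
  classical
  -- an automorphism of prime order different from `p` forces the subgroup to be `S`
  have key : ∀ T : Subgroup Ω, T ≤ S → ∀ β ∈ F.autGroup T, ∀ q : ℕ, q.Prime → q ≠ p → orderOf β = q →
      T = S ∧ ∀ P : Subgroup Ω,
        (autSystem (Cfsg.Inn T ⊔ Subgroup.zpowers β) le_sup_left).Hom P = F.Hom P := by
    intro T hTS β hβ q hq hqp hord
    have := finite_of_le hTS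
    refine (hsp T _ (autSystem_saturated (hS.to_le hTS) hq hqp hord)
      (autSystem_sub hTS (sup_le (inn_le_autGroup hTS) (Subgroup.zpowers_le.2 hβ)))).resolve_right
      fun hin => ?_
    have hm : Map (autSystem (Cfsg.Inn T ⊔ Subgroup.zpowers β) le_sup_left) T (autFun β) :=
      autSystem_map_iff.2 ⟨le_rfl, β, Subgroup.mem_sup_right (Subgroup.mem_zpowers β), fun _ _ => rfl⟩
    obtain ⟨φ, hφ, he⟩ := hm
    rw [hin T] at hφ
    obtain ⟨-, t, ht, hφt⟩ := hφ
    have hconj : β = MulAut.conj (⟨t, ht⟩ : T) := autFun_inj fun x hx => by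
      rw [autFun_conj ⟨t, ht⟩ hx]
      exact (he ⟨x, hx⟩).symm.trans (hφt ⟨x, hx⟩)
    obtain ⟨k, hk⟩ := (hS.to_le hTS) ⟨t, ht⟩
    have h1 : orderOf β ∣ p ^ k := by
      rw [hconj]
      exact (orderOf_map_dvd _ _).trans (orderOf_dvd_of_pow_eq_one hk)
    rw [hord] at h1
    exact hqp ((Nat.prime_dvd_prime_iff_eq hq hp.out).1 (hq.dvd_of_dvd_pow h1))
  -- some automorphism group is not a `p`-group
  obtain ⟨Q, hQS, hQ⟩ : ∃ Q : Subgroup Ω, Q ≤ S ∧ ¬ IsPGroup p (F.autGroup Q) := by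
    by_contra h
    push Not at h
    exact hne fun P => by rw [eq_inner_of_pGroup_autGroups hS hF h]
  obtain ⟨q, β, hq, hqp, hβ, hord⟩ : ∃ (q : ℕ) (β : MulAut Q), q.Prime ∧ q ≠ p ∧ β ∈ F.autGroup Q ∧
      orderOf β = q := by
    have := finite_of_le hQS
    haveI : Finite (MulAut Q) := Finite.of_injective _ DFunLike.coe_injective
    obtain ⟨q, hq, hdvd, hqp⟩ : ∃ q : ℕ, q.Prime ∧ q ∣ Nat.card (F.autGroup Q) ∧ q ≠ p := by
      by_contra h
      push Not at h
      exact hQ (IsPGroup.of_card (Nat.eq_prime_pow_of_unique_prime_dvd Nat.card_pos.ne' fun {d} hd hd' => h d hd hd'))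
    haveI := Fact.mk hq
    obtain ⟨β, hβ⟩ := exists_prime_orderOf_dvd_card' q hdvd
    exact ⟨q, β, hq, hqp, β.2, by rw [Subgroup.orderOf_coe, hβ]⟩
  obtain ⟨rfl, hEF⟩ := key Q hQS β hβ q hq hqp hord
  set A := Cfsg.Inn Q ⊔ Subgroup.zpowers β
  have hmap : ∀ {P : Subgroup Ω} {f : Ω → Ω}, Map F P f → ∃ α ∈ A, ∀ x ∈ P, f x = autFun α x := by
    intro P f hf
    obtain ⟨φ, hφ, he⟩ := hf
    rw [← hEF P] at hφ
    exact (autSystem_map_iff.1 ⟨φ, hφ, he⟩).2
  have hA : F.autGroup Q = A := by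
    refine le_antisymm (fun α hα => ?_) (sup_le (inn_le_autGroup le_rfl) (Subgroup.zpowers_le.2 hβ))
    obtain ⟨α', hα', he⟩ := hmap ((mem_autGroup_iff le_rfl).1 hα)
    rwa [autFun_inj he]
  have hQn : F.IsNormal Q := by
    refine isNormal_iff.2 ⟨le_rfl, fun P f hf => ?_⟩
    obtain ⟨α, hα, he⟩ := hmap hf
    have hm : Map F Q (autFun α) := (mem_autGroup_iff le_rfl).1 (hA.ge hα)
    exact ⟨autFun α, hm.restrict (sup_le hf.le le_rfl), fun x hx => (he x hx).symm, img_autFun α⟩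
  -- the subgroup of commutators with `β`
  set T₁ := Subgroup.closure {y : Ω | ∃ x ∈ Q, y = x⁻¹ * autFun β x} with hT₁
  have hT₁S : T₁ ≤ Q := by
    refine (Subgroup.closure_le _).2 ?_
    rintro _ ⟨x, hx, rfl⟩
    exact Q.mul_mem (Q.inv_mem hx) (autFun_mem β hx)
  have hβm : Map F Q (autFun β) := (mem_autGroup_iff le_rfl).1 hβ
  have hm₁ : Map F T₁ (autFun β) := hβm.restrict hT₁S
  have himg : img (autFun β) T₁ = T₁ := by
    refine eq_of_le_of_card_le hT₁S (img_le_iff.2 fun y hy => ?_) hm₁.card_img.ge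
    induction hy using Subgroup.closure_induction with
    | mem y h =>
      obtain ⟨x, hx, rfl⟩ := h
      rw [hβm.map_mul (Q.inv_mem hx) (autFun_mem β hx), hβm.map_inv hx]
      exact Subgroup.subset_closure ⟨autFun β x, autFun_mem β hx, rfl⟩
    | one => rw [hβm.map_one]; exact T₁.one_mem
    | mul a b ha hb iha ihb => rw [hβm.map_mul (hT₁S ha) (hT₁S hb)]; exact T₁.mul_mem iha ihb
    | inv a ha iha => rw [hβm.map_inv (hT₁S ha)]; exact T₁.inv_mem iha
  obtain ⟨e, he⟩ := hm₁.exists_equiv himg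
  have heF : ∀ x ∈ T₁, autFun e x = autFun β x := fun x hx => by
    rw [autFun_apply e hx]
    exact he ⟨x, hx⟩
  have heg : e ∈ F.autGroup T₁ := (mem_autGroup_iff hT₁S).2 (hm₁.congr fun x hx => (heF x hx).symm)
  have hne1 : e ≠ 1 := by
    intro h1
    have hfix : ∀ y ∈ T₁, autFun β y = y := fun y hy => by rw [← heF y hy, h1, autFun_one hy]
    refine hq.ne_one (hord.symm.trans (orderOf_eq_one_iff.2 (autFun_inj fun x hx => ?_)))
    rw [autFun_one hx]
    set d := x⁻¹ * autFun β x with hd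
    have hdT : d ∈ T₁ := Subgroup.subset_closure ⟨x, hx, rfl⟩
    have hdS := hT₁S hdT
    have hxd : autFun β x = x * d := by rw [hd, mul_inv_cancel_left]
    have hk : ∀ k : ℕ, autFun (β ^ k) x = x * d ^ k := by
      intro k
      induction k with
      | zero => rw [pow_zero, pow_zero, mul_one, autFun_one hx]
      | succ k ih =>
        rw [pow_succ', autFun_mul _ _ hx, ih, hβm.map_mul hx (Q.pow_mem hdS k), hxd,
          hfix _ (T₁.pow_mem hdT k), pow_succ', mul_assoc]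
    have hdq : d ^ q = 1 := by
      have h := hk q
      rw [← hord, pow_orderOf_eq_one, autFun_one hx] at h
      rw [← hord]
      exact left_eq_mul.1 h
    obtain ⟨j, hj⟩ := hS ⟨d, hdS⟩
    have hd1 : d = 1 := orderOf_eq_one_iff.1 (Nat.eq_one_of_dvd_coprimes
      ((Nat.coprime_primes hq hp.out).2 hqp |>.pow_right j) (orderOf_dvd_of_pow_eq_one hdq)
      (orderOf_dvd_of_pow_eq_one (congrArg Subtype.val hj)))
    rw [hxd, hd1, mul_one]
  have heq : orderOf e = q := by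
    haveI := Fact.mk hq
    refine orderOf_eq_prime (autFun_inj fun x hx => ?_) hne1
    have hk : ∀ k : ℕ, autFun (e ^ k) x = autFun (β ^ k) x := by
      intro k
      induction k with
      | zero => rw [pow_zero, pow_zero, autFun_one hx, autFun_one (hT₁S hx)]
      | succ k ih =>
        rw [pow_succ', pow_succ', autFun_mul _ _ hx, autFun_mul _ _ (hT₁S hx),
          heF _ (autFun_mem _ hx), ih]
    rw [hk, ← hord, pow_orderOf_eq_one, autFun_one hx, autFun_one (hT₁S hx)]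
  have hT₁Q : T₁ = Q := (key T₁ hT₁S e heg q hq hqp heq).1
  have hfocle : F.focalSubgroup ≤ Q := by
    refine (Subgroup.closure_le _).2 ?_
    rintro _ ⟨P, φ, x, hφ, rfl⟩
    exact Q.mul_mem (Q.inv_mem ((F.le_of_mem hφ).1 x.2)) ((F.le_of_mem hφ).2 x)
  have hhyple : F.hyperfocalSubgroup p ≤ Q := by
    refine (Subgroup.closure_le _).2 ?_
    rintro _ ⟨P, α, x, hP, -, rfl⟩
    exact Q.mul_mem (Q.inv_mem (hP x.2)) (hP (((α : MulAut P) x).2))
  have hfoc : Q ≤ F.focalSubgroup := by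
    refine hT₁Q.ge.trans ((Subgroup.closure_le _).2 ?_)
    rintro _ ⟨x, hx, rfl⟩
    exact Subgroup.subset_closure ⟨Q, Q.subtype.comp β.toMonoidHom, ⟨x, hx⟩,
      (map_autFun_iff β).1 hβm, by rw [autFun_apply β hx]; rfl⟩
  have hhyp : Q ≤ F.hyperfocalSubgroup p := by
    refine hT₁Q.ge.trans ((Subgroup.closure_le _).2 ?_)
    rintro _ ⟨x, hx, rfl⟩
    refine Subgroup.subset_closure ⟨Q, ⟨β, hβ⟩, ⟨x, hx⟩, le_rfl, Subgroup.subset_closure ?_,
      by rw [autFun_apply β hx]⟩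
    show (orderOf (⟨β, hβ⟩ : F.autGroup Q)).Coprime p
    rw [← Subgroup.orderOf_coe, hord]
    exact (Nat.coprime_primes hq hp.out).2 hqp
  exact ⟨hQn, le_antisymm hfocle hfoc, le_antisymm hhyple hhyp, q, β, hq, hqp, hβ, hord, hA⟩

end CfsgLib.Fusion.Sparse
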