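import Cfsg.Agent.Lib.FusionTransferControl
import Cfsg.Agent.Lib.FusionFactorApps
import Cfsg.Agent.Lib.LocalKInfApps

/-!
# The focal subgroup is proper when only `p`-automorphisms of `S` occur, `p ≥ 5`
-/

set_option autoImplicit false

namespace CfsgLib.Fusion.FocalKInf

open Cfsg Cfsg.FusionSystem CfsgLib.Fusion
open scoped commutatorElement

set_option linter.unusedSectionVars false

universe u

variable {p : ℕ} [hp : Fact p.Prime]

theorem transferLocal_kInf (h5 : 5 ≤ p) : TransferLocal.{u} p Cfsg.kInfLower := by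
  intro G _ _ P _
  have h := CfsgLib.Local.TransferCtl.controlsTransfer_of_ctl (CfsgLib.Local.KInf.ctl_kInfLower (G := G) h5) P
  rw [Subgroup.map_subtype_commutator]
  have hD := CfsgLib.Fusion.pCore_le_sylow (p := p) P
  calc Cfsg.pCore p G ⊓ commutator G
      = Cfsg.pCore p G ⊓ ((P : Subgroup G) ⊓ commutator G) := by rw [← inf_assoc, inf_eq_left.mpr hD]
    _ = _ := by
      rw [h, ← inf_assoc, inf_eq_left.mpr hD]
      rfl

theorem isPFunctor_kInf : IsPFunctor.{u} p Cfsg.kInfLower :=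
  ⟨(CfsgLib.Local.KInf.isCharPFunctor_kInfLower p).1, (CfsgLib.Local.KInf.isCharPFunctor_kInfLower p).2⟩

theorem commutator_lt {Ω : Type u} [Group Ω] {S : Subgroup Ω} [Finite S] (hS : IsPGroup p S) (hS1 : S ≠ ⊥) :
    ⁅S, S⁆ < S := by
  refine lt_of_le_of_ne (Subgroup.commutator_le_self S) fun e => ?_
  haveI : Nontrivial ↥S := (Subgroup.nontrivial_iff_ne_bot S).2 hS1
  haveI := hS.isNilpotent
  refine (Group.IsSolvable.commutator_lt_top_of_nontrivial ↥S).ne (top_le_iff.1 fun s _ => ?_)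
  have h : (s : Ω) ∈ (commutator ↥S).map S.subtype := by
    rw [Subgroup.map_subtype_commutator, e]; exact s.2
  obtain ⟨t, ht, hts⟩ := h
  rwa [← Subtype.ext hts]

theorem focal_lt (h5 : 5 ≤ p) :
    ∀ (a b : ℕ) (Ω : Type u) [Group Ω] (S : Subgroup Ω) [Finite S], IsPGroup p S →
      ∀ F : FusionSystem S, F.IsSaturated p → S ≠ ⊥ → IsPGroup p (F.autGroup S) →
        Nat.card S = a → mapsCard F = b → F.focalSubgroup < S := by
  intro a
  induction a using Nat.strong_induction_on with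
  | _ a ihS =>
  intro b
  induction b using Nat.strong_induction_on with
  | _ b ihM =>
  intro Ω _ S _ hS F hF hS1 haut ha hb
  refine lt_of_le_of_ne (focalSubgroup_le F) fun hfoc => ?_
  set V := (Cfsg.kInfLower ↥S).map S.subtype with hV
  have hW : IsPFunctor.{u} p Cfsg.kInfLower := isPFunctor_kInf
  have hVS : V ≤ S := Subgroup.map_subtype_le _
  have hVrel : relW Cfsg.kInfLower ⊥ S = V := relW_bot hW hS
  have hNS : normalizerIn S V = S := hVrel ▸ normalizerIn_relW hW hS (isNormal_bot F)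
  have hV1 : V ≠ ⊥ := fun e => by
    have h := hW.ne_bot ↥S hS ((Subgroup.nontrivial_iff_ne_bot S).2 hS1)
    exact h ((Subgroup.map_eq_bot_iff_of_injective _ S.subtype_injective).1 e)
  have hVn : F.IsFullyNormalized V :=
    ⟨hVS, fun R _ => by rw [hNS]; exact Subgroup.card_le_of_le (normalizerIn_le S R)⟩
  obtain ⟨N, hN⟩ := exists_normalizerSystem F hVS
  have := finite_of_le (normalizerIn_le S V)
  by_cases hall : ∀ P f, Map F P f → Map N P f
  swap
  · have hTp : IsPGroup p (N.autGroup (normalizerIn S V)) := by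
      have h' : IsPGroup p (F.autGroup (normalizerIn S V)) := by rw [hNS]; exact haut
      refine h'.to_le fun α hα => (mem_autGroup_iff (normalizerIn_le S V)).mpr ?_
      exact map_F_of_normalizerSystem hN ((mem_autGroup_iff le_rfl).mp hα)
    have h := ihM _ (hb ▸ mapsCard_lt (fun P f => map_F_of_normalizerSystem hN) hall) Ω (normalizerIn S V)
      (hS.to_le (normalizerIn_le S V)) N (normalizerSystem_saturated hS hF hVn hN) (hNS.symm ▸ hS1) hTp
      (by rw [hNS]; exact ha) rfl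
    rw [focalSubgroup_eq_of_transferLocal hW (transferLocal_kInf h5) hS hF rfl hN, hfoc, hNS] at h
    exact lt_irrefl _ h
  have hVnorm : F.IsNormal V := isNormal_iff.mpr ⟨hVS, fun P f hf => by
    obtain ⟨w, hw, hwg, hwU⟩ := (isNormal_iff.mp (normal_in_normalizerSystem hVS hN)).2 P f (hall P f hf)
    exact ⟨w, map_F_of_normalizerSystem hN hw, hwg, hwU⟩⟩
  rcases eq_or_lt_of_le hVS with hVeq | hVlt
  · -- `S` is normal
    have hSN : F.IsNormal S := by
      have h := hVnorm
      rw [hVeq] at h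
      exact h
    have hle : F.focalSubgroup ≤ ⁅S, S⁆ := focIn_iff.mp fun P f hf x hx => by
      obtain ⟨k, hk, hkf, hkS⟩ := (isNormal_iff.mp hSN).2 P f hf
      obtain ⟨α, hα, hαk⟩ := (hk.restrict le_sup_right).exists_aut hkS
      obtain ⟨s, hs, -, hse⟩ := mem_autInducedBy_iff.mp (autGroup_le_autInducedBy_of_pGroup hS hF
        ⟨le_rfl, fun R _ => by rw [normalizerIn_self S]; exact Subgroup.card_le_of_le (normalizerIn_le S R)⟩
        haut hα)
      rw [← hkf x hx, ← hαk x (hf.le hx), hse x (hf.le hx),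
        show x⁻¹ * (s * x * s⁻¹) = ⁅x⁻¹, s⁆ by rw [commutatorElement_def, inv_inv]; group]
      exact Subgroup.commutator_mem_commutator (S.inv_mem (hf.le hx)) hs
    exact (commutator_lt hS hS1).not_ge (hfoc.ge.trans hle)
  -- the quotient by `V`
  have := finite_of_le hVS
  have hVsc := isNormal_stronglyClosed hVnorm
  haveI := normal_subgroupOf_of_le hVS (stronglyClosed_normalized hVsc)
  set θ := QuotientGroup.mk' (V.subgroupOf S) with hθ
  have d : FacData F V θ (⊤ : Subgroup (↥S ⧸ V.subgroupOf S)) :=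
    ⟨hVsc, fun s => by rw [hθ, QuotientGroup.mk'_apply, QuotientGroup.eq_one_iff]; rfl,
      MonoidHom.range_eq_top.2 (QuotientGroup.mk'_surjective _)⟩
  obtain ⟨E, hE'⟩ := exists_factorSystem d
  have hE := isFac_of_isFactorSystem hVsc hE'
  have := d.finite
  have hSp := d.isPGroup hS
  have hlt : Nat.card (⊤ : Subgroup (↥S ⧸ V.subgroupOf S)) < a := by
    rw [Subgroup.card_top, ← ha, (V.subgroupOf S).card_eq_card_quotient_mul_card_subgroup]
    refine lt_mul_of_one_lt_right Nat.card_pos (Finite.one_lt_card_iff_nontrivial.2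
      ((Subgroup.nontrivial_iff_ne_bot _).2 fun e => hV1 ?_))
    rw [← Subgroup.map_subgroupOf_eq_of_le hVS, e, Subgroup.map_bot]
  have hne : (⊤ : Subgroup (↥S ⧸ V.subgroupOf S)) ≠ ⊥ := fun e => by
    obtain ⟨x, hx, hxV⟩ := SetLike.exists_of_lt hVlt
    refine hxV (Subgroup.mem_subgroupOf.mp ((QuotientGroup.eq_one_iff (⟨x, hx⟩ : ↥S)).mp ?_))
    exact Subgroup.mem_bot.1 (e ▸ Subgroup.mem_top _)
  have hEaut : IsPGroup p (E.autGroup (⊤ : Subgroup (↥S ⧸ V.subgroupOf S))) := by
    rintro ⟨β, hβ⟩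
    obtain ⟨-, k, hk, hkg⟩ := hE.map_iff.mp ((mem_autGroup_iff le_rfl).mp hβ)
    rw [d.pre_top] at hk hkg
    obtain ⟨α, hα, hαk⟩ := hk.exists_aut (eq_of_le_of_card_le le_rfl hk.img_le hk.card_img.ge)
    obtain ⟨i, hi⟩ := haut ⟨α, hα⟩
    have hpow : ∀ j : ℕ, ∀ x ∈ S, autFun (β ^ j) (ext θ x) = ext θ (autFun (α ^ j) x) := by
      intro j
      induction j with
      | zero => intro x hx; rw [pow_zero, pow_zero, autFun_one hx, autFun_one (Subgroup.mem_top _)]
      | succ j ih =>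
        intro x hx
        rw [pow_succ', autFun_mul _ _ (Subgroup.mem_top _), ih x hx, hkg _ (autFun_mem _ hx), pow_succ',
          autFun_mul _ _ hx, hαk _ (autFun_mem _ hx)]
    refine ⟨i, Subtype.ext ?_⟩
    rw [Subgroup.coe_pow, Subgroup.coe_one]
    refine autFun_inj fun y hy => ?_
    obtain ⟨x, hx, rfl⟩ := d.th_surj hy
    rw [hpow _ x hx, show α ^ p ^ i = 1 from congrArg Subtype.val hi, autFun_one hx,
      autFun_one (Subgroup.mem_top _)]
  have h := ihS _ hlt _ (↥S ⧸ V.subgroupOf S) ⊤ hSp E (hE.saturated hS hF) hne hEaut rfl rfl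
  refine h.ne (top_le_iff.1 fun y _ => ?_)
  obtain ⟨x, hx, rfl⟩ := d.th_surj (Subgroup.mem_top y)
  have hle : F.focalSubgroup ≤ preimageAlong θ E.focalSubgroup := focIn_iff.mp fun P f hf z hz => by
    obtain ⟨k, hk, hkf⟩ := exists_modExt hS hF hVsc hf
    rw [← d.pre_push hf.le] at hk
    obtain ⟨g, hg, hind⟩ := hE.exists_map le_top hk
    have hz' : z ∈ preimageAlong θ (push θ P) := d.pre_push hf.le ▸ Subgroup.mem_sup_left hz
    have hm := mem_focalSubgroup hg (mem_push.mpr ⟨z, hz, hf.le hz, rfl⟩ : ext θ z ∈ push θ P)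
    rw [hind z hz', (d.th_eq_iff (hk.apply_mem hz') (hf.apply_mem hz)).mpr (hkf z hz)] at hm
    refine mem_preimageAlong.mpr ⟨S.mul_mem (S.inv_mem (hf.le hz)) (hf.apply_mem hz), ?_⟩
    have hz1 : ext θ z * ext θ (z⁻¹ * f z) = ext θ (f z) := by
      rw [← extι_mul θ (hf.le hz) (S.mul_mem (S.inv_mem (hf.le hz)) (hf.apply_mem hz)), mul_inv_cancel_left]
    rwa [← hz1, inv_mul_cancel_left] at hm
  exact (mem_preimageAlong.mp (hle (hfoc.symm ▸ hx))).2

end CfsgLib.Fusion.FocalKInf
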