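import Cfsg.Agent.Lib.LocalJFactorization
import Cfsg.Agent.Lib.FusionGlaubermanCenter
import Cfsg.Agent.Lib.LocalQuadCenter

/-!
# Generation by `C_F(℧¹Z(S))` and `N_F(J(S))`
-/

set_option autoImplicit false

namespace CfsgLib.Fusion.GenJC

open Cfsg Cfsg.FusionSystem CfsgLib.Fusion CfsgLib.Fusion.CenterGen

set_option linter.unusedSectionVars false

universe u

variable {p : ℕ} [Fact p.Prime] {Ω : Type u} [Group Ω] {S : Subgroup Ω} [Finite S] {F : FusionSystem S}

theorem powerClosure_mem {v : Ω}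
    (hv : v ∈ Cfsg.powerClosure p 1 (S ⊓ Subgroup.centralizer (S : Set Ω))) :
    ∃ z ∈ S ⊓ Subgroup.centralizer (S : Set Ω), v = z ^ p := by
  have hcom : ∀ a ∈ S ⊓ Subgroup.centralizer (S : Set Ω), ∀ b ∈ S ⊓ Subgroup.centralizer (S : Set Ω),
      Commute a b := fun a ha b hb => Subgroup.mem_centralizer_iff.1 hb.2 a ha.1
  have hle : Cfsg.powerClosure p 1 (S ⊓ Subgroup.centralizer (S : Set Ω)) ≤
      { carrier := {y | ∃ z ∈ S ⊓ Subgroup.centralizer (S : Set Ω), y = z ^ p}
        one_mem' := ⟨1, one_mem _, (one_pow p).symm⟩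
        mul_mem' := by
          rintro a b ⟨z, hz, rfl⟩ ⟨w, hw, rfl⟩
          exact ⟨z * w, mul_mem hz hw, ((hcom z hz w hw).mul_pow p).symm⟩
        inv_mem' := by
          rintro a ⟨z, hz, rfl⟩
          exact ⟨z⁻¹, inv_mem hz, (inv_pow z p).symm⟩ } := by
    refine (Subgroup.closure_le _).2 ?_
    rintro y ⟨x, hx, rfl⟩
    exact ⟨x, hx, by rw [pow_one]⟩
  exact hle hv

theorem map_of_le {T : Subgroup Ω} {C : FusionSystem T} {E : FusionSystem S} (h : C.IsSubsystemOf E)
    {P : Subgroup Ω} {f : Ω → Ω} (hf : Map C P f) : Map E P f := by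
  obtain ⟨φ, hφ, he⟩ := hf
  exact ⟨φ, h P hφ, he⟩

theorem map_le (hS : IsPGroup p S) (hF : F.IsSaturated p)
    {C : FusionSystem (centralizerIn S (Cfsg.powerClosure p 1 (S ⊓ Subgroup.centralizer (S : Set Ω))))}
    (hC : F.IsCentralizerSystem (Cfsg.powerClosure p 1 (S ⊓ Subgroup.centralizer (S : Set Ω))) C)
    {N : FusionSystem (normalizerIn S (Cfsg.thompsonSubgroupAOf S))}
    (hN : F.IsNormalizerSystem (Cfsg.thompsonSubgroupAOf S) N) {E : FusionSystem S}
    (hCE : C.IsSubsystemOf E) (hNE : N.IsSubsystemOf E) :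
    ∀ (P : Subgroup Ω) (f : Ω → Ω), Map F P f → Map E P f := by
  set Zs := S ⊓ Subgroup.centralizer (S : Set Ω) with hZs
  set V := Cfsg.powerClosure p 1 Zs with hV
  have hVZ : V ≤ Zs := fun v hv => by
    obtain ⟨z, hz, rfl⟩ := powerClosure_mem hv
    exact pow_mem hz p
  have hCS : centralizerIn S V = S := inf_eq_left.mpr fun s hs =>
    Subgroup.mem_centralizer_iff.2 fun v hv => (Subgroup.mem_centralizer_iff.1 (hVZ hv).2 s hs).symm
  have hJS : Cfsg.thompsonSubgroupAOf S ≤ S := Subgroup.map_subtype_le _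
  have hNS := normalizerIn_jFun hS F
  have hCmap : ∀ {P : Subgroup Ω} {f k : Ω → Ω}, Map F P f → Map F (P ⊔ V) k → (∀ x ∈ P, k x = f x) →
      (∀ x ∈ V, k x = x) → Map E P f := fun {P f k} hf hk hkf hkV =>
    map_of_le hCE ((map_of_isCentralizerSystem hC).mpr
      ⟨hf, hCS.symm ▸ hf.le, fun x hx => hCS.symm ▸ hf.apply_mem hx, k, hk, hkf, hkV⟩)
  suffices ∀ (n : ℕ) (P : Subgroup Ω) (f : Ω → Ω), Map F P f → Nat.card S - Nat.card P = n → Map E P f from
    fun P f hf => this _ P f hf rfl
  intro n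
  induction n using Nat.strong_induction_on with
  | _ n ihn =>
  intro P₀ f₀ hf₀ hn
  have larger : ∀ (R : Subgroup Ω) (g : Ω → Ω), Map F R g → Nat.card P₀ < Nat.card R → Map E R g :=
    fun R g hg hlt => by
      have := Subgroup.card_le_of_le hg.le
      exact ihn _ (by omega) R g hg rfl
  have hSid : Map E S fun x => x := map_id le_rfl
  have hstep : ∀ (m : ℕ) (U P : Subgroup Ω) (k : Ω → Ω),
      Nat.card S - Nat.card (normalizerIn S U) = m → U ≤ S →
      (∀ g, Map F (normalizerIn S U) g → Zs ≤ img g U) → P ≤ normalizerIn S U →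
      (Nat.card P₀ < Nat.card (normalizerIn S U) ∨ normalizerIn S U = S) →
      Map F (P ⊔ U) k → img k U = U → Map E P k := by
    intro m
    induction m using Nat.strong_induction_on with
    | _ m ihm =>
    intro U P k hm hUS hUZ hPN hbig hk hkU
    obtain ⟨U', k₀, hU', hk₀, hk₀E, hk₀U⟩ : ∃ U' k₀, F.IsFullyNormalized U' ∧
        Map F (normalizerIn S U) k₀ ∧ Map E (normalizerIn S U) k₀ ∧ img k₀ U = U' := by
      rcases hbig with hb' | hb'
      · obtain ⟨U', k₀, hU', hk₀, hk₀U⟩ := exists_fullyNormalized_map hS hF hUS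
        exact ⟨U', k₀, hU', hk₀, larger _ _ hk₀ hb', hk₀U⟩
      · exact ⟨U, fun x => x, ⟨hUS, fun R _ => by
          rw [hb']; exact Subgroup.card_le_of_le (normalizerIn_le S R)⟩,
          map_id (normalizerIn_le S U), hSid.restrict (normalizerIn_le S U), img_id U⟩
    have hUN : U ≤ normalizerIn S U := le_normalizerIn hUS
    have hZU' : Zs ≤ U' := hk₀U ▸ hUZ k₀ hk₀
    have hPU : P ⊔ U ≤ normalizerIn S U := sup_le hPN hUN
    obtain ⟨i, hi, hik, himem, -⟩ := hk₀.exists_inv
    have hiE : Map E (img k₀ (normalizerIn S U)) i := by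
      obtain ⟨i', hi', hik', -, -⟩ := hk₀E.exists_inv
      refine hi'.congr fun y hy => ?_
      obtain ⟨x, hx, rfl⟩ := hk₀.mem_img.mp hy
      rw [hik x hx, hik' x hx]
    have hkP : ∀ x ∈ P ⊔ U, k x ∈ normalizerIn S U := fun x hx => by
      have := hk.apply_mem_normalizerIn le_sup_right hx (hPU hx).2
      rwa [hkU] at this
    set D₀ := img k₀ (P ⊔ U) with hD₀
    have hk₀' := hk₀.restrict hPU
    have hD₀mem : ∀ y ∈ D₀, i y ∈ P ⊔ U ∧ k₀ (i y) = y := fun y hy => by
      obtain ⟨x, hx, rfl⟩ := hk₀'.mem_img.mp hy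
      rw [hik x (hPU hx)]
      exact ⟨hx, rfl⟩
    have hf' : Map F D₀ fun y => k₀ (k (i y)) :=
      ((hi.restrict (img_mono k₀ hPU)).comp hk fun y hy => (hD₀mem y hy).1).comp hk₀
        fun y hy => hkP _ (hD₀mem y hy).1
    have hU'D : U' ≤ D₀ := hk₀U ▸ img_mono k₀ le_sup_right
    have hk₀N : ∀ x ∈ normalizerIn S U, k₀ x ∈ normalizerIn S U' := fun x hx => by
      have := hk₀.apply_mem_normalizerIn hUN hx hx.2
      rwa [hk₀U] at this
    set T' := normalizerIn S U' with hT'
    have hT'S : T' ≤ S := normalizerIn_le S U'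
    have := finite_of_le hT'S
    have hT'p := hS.to_le hT'S
    obtain ⟨E', hE'⟩ := exists_normalizerSystem F hU'.1
    have hrel := relSys_normalizer hS hF hU' hE'
    have hE's := hrel.saturated hS hF
    have hU'n : E'.IsNormal U' := normal_in_normalizerSystem hU'.1 hE'
    have hU'T : U' ≤ T' := le_normalizerIn hU'.1
    have hT'card : Nat.card (normalizerIn S U) ≤ Nat.card T' :=
      hk₀.card_img ▸ Subgroup.card_le_of_le (img_le_iff.mpr hk₀N)
    have hEf' : Map E' D₀ fun y => k₀ (k (i y)) := by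
      refine (map_of_isNormalizerSystem hE').mpr ⟨hf', fun y hy => ?_,
        fun y hy => hk₀N _ (hkP _ (hD₀mem y hy).1), _,
        hf'.restrict (sup_le le_rfl hU'D), fun _ _ => rfl, ?_⟩
      · obtain ⟨x, hx, rfl⟩ := hk₀'.mem_img.mp hy
        exact hk₀N x (hPU hx)
      · refine eq_of_le_of_card_le hU'.1 (img_le_iff.mpr fun y hy => ?_)
          (hf'.restrict hU'D).card_img.ge
        obtain ⟨x, hx, rfl⟩ := (hk₀.restrict hUN).mem_img.mp (hk₀U.ge hy)
        rw [hik x (hUN hx), ← hk₀U]
        exact mem_img_of_mem k₀ (hkU.le (mem_img_of_mem k hx))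
    -- every map of the normalizer system of `U'` lies in `E`
    suffices hall : ∀ (R : Subgroup Ω) (g : Ω → Ω), Map E' R g → Map E R g by
      have h1 := hall _ _ hEf'
      have h2 : Map E P fun x => i (k₀ (k (i (k₀ x)))) := by
        refine (((hk₀E.restrict hPN).comp h1 fun x hx => ?_).comp hiE fun x hx => ?_)
        · exact mem_img_of_mem k₀ (Subgroup.mem_sup_left hx)
        · show k₀ (k (i (k₀ x))) ∈ img k₀ (normalizerIn S U)
          rw [hik x (hPN hx)]
          exact mem_img_of_mem k₀ (hkP x (Subgroup.mem_sup_left hx))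
      refine h2.congr fun x hx => ?_
      rw [hik x (hPN hx), hik _ (hkP x (Subgroup.mem_sup_left hx))]
    intro R g hg
    obtain ⟨E'', hE''⟩ := exists_innerSystem hT'p hE's hU'n
    obtain ⟨D, j, i', k', hDc, hND, hj, hjD, hij, -, hkg, huE⟩ := exists_factor hT'p hE's hU'n hE'' hg
    have hinner : Map E (img j (R ⊔ U')) fun y => k' (i' y) := by
      obtain ⟨hu, -, -, w, hw, hwu, s, hs, hws⟩ := hE''.map_iff.mp huE
      have hVU : V ≤ U' := hVZ.trans hZU'
      refine hCmap (map_F_of_normalizerSystem hE' hu)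
        ((map_F_of_normalizerSystem hE' hw).restrict (sup_le_sup_left hVU _)) hwu fun v hv => ?_
      rw [hws v (hVU hv), Subgroup.mem_centralizer_iff.1 (hVZ hv).2 s (hT'S hs), mul_inv_cancel_right]
    have hD' : E'.IsFullyNormalized D :=
      ⟨hDc.1, fun R _ => by rw [hND]; exact Subgroup.card_le_of_le (normalizerIn_le T' R)⟩
    have hjE : Map E R j := by
      obtain ⟨E1, hE1, -, L, _, ι, hL⟩ := exists_localModel hT'p hE's hD' hDc
      obtain ⟨hfin, hreal, ⟨Tl, hTl⟩, hcen⟩ := id hL
      let T1 := normalizerIn T' D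
      have hT1 : T1 = T' := hND
      have := finite_of_le (normalizerIn_le T' D)
      have hE1F : ∀ {X : Subgroup Ω} {f : Ω → Ω}, Map E1 X f → Map F X f := fun h =>
        map_F_of_normalizerSystem hE' (map_F_of_normalizerSystem hE1 h)
      have hlift : ∀ {X : Subgroup Ω}, X ≤ T1 → ∀ {g : L}, (∀ x ∈ X, g * ext ι x * g⁻¹ ∈ ι.range) →
          ∃ f, Map E1 X f ∧ ∀ x ∈ X, ext ι (f x) = g * ext ι x * g⁻¹ := fun hX g hg =>
        realized_exists_map hreal hX g hg
      set Ok : Subgroup L → L → Prop := fun X g => ∀ (R : Subgroup Ω) (f : Ω → Ω),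
        (∀ x ∈ R, ext ι x ∈ X) → Map E1 R f → (∀ x ∈ R, ext ι (f x) = g * ext ι x * g⁻¹) → Map E R f
      have hTrange : ∀ {y : L}, y ∈ (Tl : Subgroup L) → y ∈ ι.range := fun {y} hy => hTl ▸ hy
      have hOk : Local.JFactor.OkRel (Tl : Subgroup L) Ok := {
        restrict := fun hle _ h R f hR hf he => h R f (fun x hx => hle (hR x hx)) hf he
        comp := fun {X g h} hg hgh h1 h2 R f hR hf he => by
          obtain ⟨f1, hf1, hf1e⟩ := hlift hf.le fun x hx => hTrange (hg.2 _ (hR x hx))
          obtain ⟨f2, hf2, hf2e⟩ := hlift (X := img f1 R) hf1.img_le (g := h) fun y hy => by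
            obtain ⟨x, hx, rfl⟩ := hf1.mem_img.mp hy
            refine hTrange ?_
            rw [hf1e x hx, show h * (g * ext ι x * g⁻¹) * h⁻¹ = h * g * ext ι x * (h * g)⁻¹ by group]
            exact hgh.2 _ (hR x hx)
          have h2' := h2 (img f1 R) f2 (fun y hy => by
            obtain ⟨x, hx, rfl⟩ := hf1.mem_img.mp hy
            exact ⟨ext ι x, hR x hx, (hf1e x hx).symm⟩) hf2 hf2e
          refine ((h1 R f1 hR hf1 hf1e).comp h2' fun x hx => mem_img_of_mem f1 hx).congr fun x hx => ?_
          refine extι_inj hreal.1 (hf2.apply_mem (mem_img_of_mem f1 hx)) (hf.apply_mem hx) ?_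
          rw [hf2e _ (mem_img_of_mem f1 hx), hf1e x hx, he x hx]
          group
        inv := fun {X g} hg h1 R f hR hf he => by
          have hR' : ∀ y ∈ R, g⁻¹ * ext ι y * g ∈ X := fun y hy => Local.JFactor.mem_cj.1 (hR y hy)
          have hX0 : ∀ x ∈ img f R, ext ι x ∈ X := fun x hx => by
            obtain ⟨y, hy, rfl⟩ := hf.mem_img.mp hx
            rw [he y hy, inv_inv]
            exact hR' y hy
          obtain ⟨f1, hf1, hf1e⟩ := hlift (X := img f R) hf.img_le (g := g) fun x hx =>
            hTrange (hg.2 _ (hX0 x hx))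
          have hff : ∀ y ∈ R, f1 (f y) = y := fun y hy =>
            extι_inj hreal.1 (hf1.apply_mem (mem_img_of_mem f hy)) (hf.le hy)
              (by rw [hf1e _ (mem_img_of_mem f hy), he y hy]; group)
          obtain ⟨i2, hi2, hi2k, -, -⟩ := (h1 _ f1 hX0 hf1 hf1e).exists_inv
          have hle : R ≤ img f1 (img f R) := fun y hy =>
            hff y hy ▸ mem_img_of_mem f1 (mem_img_of_mem f hy)
          refine (hi2.restrict hle).congr fun y hy => ?_
          conv_lhs => rw [← hff y hy]
          exact hi2k _ (mem_img_of_mem f hy) }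
      have hext : ∀ {R X : Subgroup Ω} {g : L} {f : Ω → Ω}, Map E1 R f → X ≤ T1 →
          (∀ x ∈ R, ext ι (f x) = g * ext ι x * g⁻¹) → (∀ x ∈ X, g * ext ι x * g⁻¹ ∈ ι.range) →
          ∃ k, Map E1 (R ⊔ X) k ∧ (∀ x ∈ R, k x = f x) ∧
            ∀ x ∈ R ⊔ X, ext ι (k x) = g * ext ι x * g⁻¹ := by
        intro R X g f hf hX he hgX
        have hle : R ⊔ X ≤ ((ι.range.comap (MulAut.conj g).toMonoidHom).comap ι).map T1.subtype :=
          sup_le
            (fun x hx => ⟨⟨x, hf.le hx⟩, show g * ι ⟨x, hf.le hx⟩ * g⁻¹ ∈ ι.range by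
              rw [← ext_apply ι (hf.le hx), ← he x hx, ext_apply ι (hf.apply_mem hx)]
              exact ⟨_, rfl⟩, rfl⟩)
            (fun x hx => ⟨⟨x, hX hx⟩, show g * ι ⟨x, hX hx⟩ * g⁻¹ ∈ ι.range by
              rw [← ext_apply ι (hX hx)]
              exact hgX x hx, rfl⟩)
        obtain ⟨k, hk, hke⟩ := hlift (sup_le hf.le hX) (g := g) fun x hx => by
          obtain ⟨w, hw, rfl⟩ := hle hx
          rw [show ext ι (T1.subtype w) = ι w from ext_apply ι w.2]
          exact hw
        exact ⟨k, hk, fun x hx => extι_inj hreal.1 (hk.apply_mem (Subgroup.mem_sup_left hx))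
          (hf.apply_mem hx) (by rw [hke x (Subgroup.mem_sup_left hx), he x hx]), hke⟩
      -- the centralizer of `℧¹Z(T')`
      have hOkC : ∀ (X : Subgroup L) (g : L), (∀ z ∈ (Tl : Subgroup L),
          (∀ t ∈ (Tl : Subgroup L), t * z = z * t) → g * z ^ p = z ^ p * g) →
          Local.JFactor.Mv (Tl : Subgroup L) X g → Ok X g := by
        intro X g hgz _ R f hR hf he
        have hVT : V ≤ T1 := hT1 ▸ (hVZ.trans hZU').trans hU'T
        have hfix : ∀ v ∈ V, g * ext ι v * g⁻¹ = ext ι v := fun v hv => by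
          obtain ⟨z, hz, rfl⟩ := powerClosure_mem hv
          have hzT : z ∈ T1 := hT1 ▸ hU'T (hZU' hz)
          have hzTl : ext ι z ∈ (Tl : Subgroup L) := hTl.symm ▸ ⟨_, (ext_apply ι hzT).symm⟩
          have h1 := hgz _ hzTl fun t ht => by
            obtain ⟨w, rfl⟩ := hTrange ht
            rw [ext_apply ι hzT, ← map_mul, ← map_mul]
            exact congrArg ι (Subtype.ext (Subgroup.mem_centralizer_iff.1 hz.2 w
              (hT'S (hT1.le w.2))))
          rw [show ext ι (z ^ p) = ext ι z ^ p by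
            rw [ext_apply ι hzT, ext_apply ι (pow_mem hzT p), ← map_pow]; rfl, h1, mul_inv_cancel_right]
        obtain ⟨k, hk, hkf, hke⟩ := hext hf hVT he fun v hv => by
          rw [hfix v hv, ext_apply ι (hVT hv)]; exact ⟨_, rfl⟩
        exact hCmap (hE1F hf) (hE1F hk) hkf fun v hv =>
          extι_inj hreal.1 (hk.apply_mem (Subgroup.mem_sup_right hv)) (hVT hv)
            (by rw [hke v (Subgroup.mem_sup_right hv), hfix v hv])
      -- the normalizer of `J(T')`
      have hOkJ : ∀ (X : Subgroup L), ∀ g ∈ Subgroup.normalizer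
          (Stable.Jsub 0 (Tl : Subgroup L) : Set L), Local.JFactor.Mv (Tl : Subgroup L) X g → Ok X g := by
        intro X g hgJ _ R f hR hf he
        set U₁ := Cfsg.thompsonSubgroupAOf T1 with hU₁
        have hU₁T : U₁ ≤ T1 := Subgroup.map_subtype_le _
        have hpush : push ι U₁ = Stable.Jsub 0 (Tl : Subgroup L) := by
          rw [push, hU₁, ← jFun_map, Subgroup.subgroupOf,
            Subgroup.comap_map_eq_self_of_injective T1.subtype_injective, hTl, MonoidHom.range_eq_map,
            ← Stable.map_Jsub 0 _ ι (Set.injOn_of_injective hreal.1)]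
          rfl
        have hgU : ∀ x ∈ U₁, g * ext ι x * g⁻¹ ∈ push ι U₁ := fun x hx => by
          rw [hpush]
          refine (Subgroup.mem_normalizer_iff.1 hgJ _).1 ?_
          rw [← hpush]
          exact mem_push.mpr ⟨x, hx, hU₁T hx, rfl⟩
        obtain ⟨k, hk, hkf, hke⟩ := hext hf hU₁T he fun x hx => push_le_range ι U₁ (hgU x hx)
        have := finite_of_le hU₁T
        have hkU₁ : img k U₁ = U₁ := by
          refine eq_of_le_of_card_le ((hU₁T.trans hT1.le).trans hT'S) (img_le_iff.mpr fun x hx => ?_)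
            (hk.restrict le_sup_right).card_img.ge
          obtain ⟨y, hy, hyT, hye⟩ := mem_push.mp (hgU x hx)
          rw [← extι_inj hreal.1 hyT (hk.apply_mem (Subgroup.mem_sup_right hx))
            (hye.trans (hke x (Subgroup.mem_sup_right hx)).symm)]
          exact hy
        have hkF : Map F (R ⊔ U₁) k := hE1F hk
        refine Map.congr ?_ fun x hx => hkf x hx
        have hT'p1 : IsPGroup p T1 := hT'p.to_le (normalizerIn_le T' D)
        rcases eq_or_lt_of_le hT'S with heq | hlt'
        · have hU₁J : U₁ = Cfsg.thompsonSubgroupAOf S := by rw [hU₁, hT1, heq]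
          refine map_of_le hNE ((map_of_isNormalizerSystem hN).mpr ⟨hkF.restrict le_sup_left,
            hNS.symm ▸ (hkF.restrict le_sup_left).le,
            fun x hx => hNS.symm ▸ hkF.apply_mem (Subgroup.mem_sup_left hx), k,
            hU₁J ▸ hkF, fun _ _ => rfl, hU₁J ▸ hkU₁⟩)
        · have hU₁S : U₁ ≤ S := (hU₁T.trans hT1.le).trans hT'S
          have hgrow : normalizerIn S T' ≤ normalizerIn S U₁ := fun s hs => by
            refine ⟨hs.1, ?_⟩
            rw [hU₁, ← jFun_map]
            exact Local.QuadCenter.normalizer_le_Wsub (isPFunctor_thompson true) T1 hT'p1 (hT1.symm ▸ hs.2)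
          have h1 : Nat.card T' < Nat.card (normalizerIn S T') :=
            card_lt_of_lt (normalizerIn_le S T') (lt_normalizerIn hS hlt')
          have := finite_of_le (normalizerIn_le S U₁)
          have h2 := Subgroup.card_le_of_le hgrow
          have h3 : Nat.card P₀ < Nat.card (normalizerIn S U₁) := by
            rcases hbig with hb' | hb'
            · omega
            · exfalso
              rw [hb'] at hT'card
              exact absurd (card_lt_of_lt le_rfl hlt') (not_lt.mpr hT'card)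
          have h4 := Subgroup.card_le_of_le (normalizerIn_le S U₁)
          refine ihm _ (by omega) U₁ R k rfl hU₁S (fun g' hg' z hz => ?_)
            ((hk.restrict le_sup_left).le.trans (hT1.le.trans ((le_normalizerIn hT'S).trans hgrow)))
            (Or.inl h3) hkF hkU₁
          have hTU : T' ≤ normalizerIn S U₁ := (le_normalizerIn hT'S).trans hgrow
          have hgT := hg'.restrict hTU
          have hU'c := isFullyCentralized_of_fullyNormalized hS hF hU'
          have hCle : centralizerIn S U' ≤ T' := fun c hc =>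
            ⟨hc.1, Subgroup.centralizer_le_normalizer _ hc.2⟩
          have hgC : img g' (centralizerIn S U') = centralizerIn S (img g' U') := by
            have := finite_of_le (centralizerIn_le S (img g' U'))
            refine eq_of_le_of_card_le (centralizerIn_le S _) (img_le_iff.mpr fun c hc =>
              hgT.apply_mem_centralizerIn hU'T (hCle hc) hc.2) ?_
            rw [(hgT.restrict hCle).card_img]
            exact hU'c.2 _ (isConj_iff.mpr ⟨g', hgT.restrict hU'T, rfl⟩)
          have hzc : z ∈ centralizerIn S (img g' U') := ⟨hz.1, fun y hy => by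
            obtain ⟨x, hx, rfl⟩ := (hgT.restrict hU'T).mem_img.mp hy
            exact Subgroup.mem_centralizer_iff.1 hz.2 _ (hgT.apply_mem (hU'T hx))⟩
          obtain ⟨z₀, hz₀, rfl⟩ := (hgT.restrict hCle).mem_img.mp (hgC.ge hzc)
          refine mem_img_of_mem g' ?_
          have hz₀T : z₀ ∈ T' := hCle hz₀
          rw [hU₁, ← jFun_map]
          refine ⟨⟨z₀, hT1.symm ▸ hz₀T⟩, center_le_jFun _ (Subgroup.mem_center_iff.2 fun t => Subtype.ext ?_), rfl⟩
          have ht : (t : Ω) ∈ T' := hT1 ▸ t.2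
          show (t : Ω) * z₀ = z₀ * t
          refine hgT.injOn (T'.mul_mem ht hz₀T) (T'.mul_mem hz₀T ht) ?_
          rw [hgT.map_mul ht hz₀T, hgT.map_mul hz₀T ht]
          exact Subgroup.mem_centralizer_iff.1 hz.2 _ (hgT.apply_mem ht)
      have hRj := hj.restrict (le_sup_left.trans le_sup_left : R ≤ (R ⊔ U') ⊔ D)
      have hjE1 : Map E1 R j := (map_of_isNormalizerSystem hE1).mpr ⟨hRj, hRj.le.trans hT1.ge,
        fun x hx => hT1.ge (hRj.apply_mem hx), j,
        hj.restrict (sup_le (le_sup_left.trans le_sup_left) le_sup_right), fun _ _ => rfl, hjD⟩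
      obtain ⟨-, -, g1, hg1⟩ := (realized_map_iff hreal).mp hjE1
      refine Local.JFactor.factorization _ L le_rfl hcen Tl Ok hOk hOkC hOkJ (push ι R) g1 ?_ R j
        (fun x hx => mem_push.mpr ⟨x, hx, hjE1.le hx, rfl⟩) hjE1 hg1
      refine ⟨hTl.symm ▸ push_le_range ι R, ?_⟩
      rintro _ hy
      obtain ⟨x, hx, hxT, rfl⟩ := mem_push.mp hy
      rw [← hg1 x hx, hTl, ext_apply ι (hjE1.apply_mem hx)]
      exact ⟨_, rfl⟩
    refine (hjE.comp (hinner.restrict (img_mono j le_sup_left)) fun x hx => mem_img_of_mem j hx).congr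
      fun x hx => ?_
    rw [hij x (Subgroup.mem_sup_left hx), hkg x hx]
  let Pr : Subgroup Ω → (Ω → Ω) → Prop := fun R g => Nat.card P₀ ≤ Nat.card R → Map E R g
  have hPr : Propagates F Pr := {
    congr := fun h he hd => (h hd).congr he
    comp := fun {P R g g'} hg hg' h h' hmem hd => by
      have hle : Nat.card P ≤ Nat.card R := by
        rw [← hg.card_img]
        have := finite_of_le hg'.le
        exact Subgroup.card_le_of_le (img_le_iff.mpr hmem)
      exact (h hd).comp (h' (hd.trans hle)) hmem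
    inv := fun {P g g'} hg hg' hgg h hd => by
      obtain ⟨i2, hi2, hi2k, -, -⟩ := (h (hg.card_img ▸ hd)).exists_inv
      refine hi2.congr fun y hy => ?_
      obtain ⟨x, hx, rfl⟩ := hg.mem_img.mp hy
      rw [hi2k x hx, hgg x hx]
    id := fun hR _ => map_id hR }
  refine alperin hS hF hPr (fun R hR α hα hd => ?_) hf₀ le_rfl
  have hRS : R ≤ S := hR.elim (fun h => h.le) fun h => h.1.1
  have hα' := (mem_autGroup_iff hRS).mp hα
  refine hstep _ R R (autFun α) rfl hRS (fun g hg => ?_) (le_normalizerIn hRS) ?_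
    (hα'.restrict (sup_le le_rfl le_rfl)) (img_autFun α)
  · rcases hR with rfl | hR
    · have hgS := hg.restrict (le_normalizerIn le_rfl)
      rw [eq_of_le_of_card_le le_rfl hgS.img_le hgS.card_img.ge]
      exact fun z hz => hz.1
    · intro z hz
      refine hR.1.2 _ (isConj_iff.mpr ⟨g, hg.restrict (le_normalizerIn hRS), rfl⟩) ⟨hz.1, fun y hy => ?_⟩
      exact Subgroup.mem_centralizer_iff.1 hz.2 y (((hg.restrict (le_normalizerIn hRS)).img_le) hy)
  · rcases eq_or_lt_of_le hRS with hRS' | hRS'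
    · exact Or.inr (by rw [hRS']; exact normalizerIn_self S)
    · exact Or.inl (lt_of_le_of_lt hd (card_lt_of_lt (normalizerIn_le S R) (lt_normalizerIn hS hRS')))

end CfsgLib.Fusion.GenJC
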