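import Cfsg.Agent.Lib.TwoFusionSmallOrder
import Cfsg.Agent.Lib.TwoFusionEssentialSmall
import Cfsg.Agent.Lib.LocalCyclicMax
import Cfsg.Agent.Lib.FusionSimple

/-!
# Strongly closed metacyclic subgroups, odd prime
-/

set_option autoImplicit false

universe u

namespace CfsgLib.TwoFusion.MetacyclicClosed

open CfsgLib.Fusion Cfsg Cfsg.FusionSystem
open CfsgLib.TwoFusion.SmallOrder (fix_of_small Small)

variable {p : ℕ} [hp : Fact p.Prime]

theorem pElement_pow_eq_one {W : Type u} [Group W] [Finite W] (hW : Nat.card W = p ^ 2) {g : MulAut W}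
    {k : ℕ} (hg : g ^ p ^ k = 1) : g ^ p = 1 := by
  haveI : Finite (MulAut W) := Finite.of_injective _ DFunLike.coe_injective
  have hA : IsPGroup p (Subgroup.zpowers g) := by
    obtain ⟨i, -, hi⟩ := (Nat.dvd_prime_pow hp.out).1 (orderOf_dvd_of_pow_eq_one hg)
    exact IsPGroup.of_card (n := i) (by rw [Nat.card_zpowers, hi])
  refine MulEquiv.ext fun x => ?_
  rcases eq_or_ne x 1 with rfl | hx
  · simp
  set T := MulAction.stabilizer (Subgroup.zpowers g) x
  obtain ⟨i, hi⟩ := hA.index T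
  haveI : IsMulCommutative (Subgroup.zpowers g) := inferInstance
  have hlt : p ^ i < p ^ 2 := by
    rw [← hi, MulAction.index_stabilizer, ← hW]
    refine Set.ncard_lt_card ?_
    intro h
    have h1 : (1 : W) ∈ MulAction.orbit (Subgroup.zpowers g) x := h ▸ Set.mem_univ _
    obtain ⟨γ, hγ⟩ := h1
    exact hx ((γ : MulAut W).injective (by rw [map_one]; exact hγ))
  have hi1 : i < 2 := (Nat.pow_lt_pow_iff_right hp.out.one_lt).1 hlt
  have hdvd : T.index ∣ p := by
    rw [hi]; interval_cases i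
    · simp
    · simp
  obtain ⟨c, hc⟩ := hdvd
  have hmem : (⟨g, Subgroup.mem_zpowers g⟩ : Subgroup.zpowers g) ^ p ∈ T := by
    rw [hc, pow_mul]
    exact pow_mem (Subgroup.pow_index_mem T _) c
  exact hmem

/-- A group of automorphisms of a group of order `p ^ 2` with two Sylow subgroups contains the inversion. -/
theorem exists_inversion {W : Type u} [Group W] [Finite W] (hW : Nat.card W = p ^ 2)
    (hexp : ∀ x : W, x ^ p = 1)
    {u v : MulAut W} (hu : orderOf u = p) (hv : orderOf v = p) (hne : v ∉ Subgroup.zpowers u) :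
    ∃ w ∈ Subgroup.closure ({u, v} : Set (MulAut W)), ∀ x, w x = x⁻¹ := by
  have hc := IsPGroup.isMulCommutative_of_card_eq_prime_sq hW
  obtain ⟨x, hxo, hux, hufix, hud⟩ := EssentialSmall.transvection hW hu
  obtain ⟨y, hyo, hvy, hvfix, hvd⟩ := EssentialSmall.transvection hW hv
  have hgen : ∀ z, z ∉ Subgroup.zpowers x → Subgroup.zpowers x ⊔ Subgroup.zpowers z = (⊤ : Subgroup W) := fun z hz => by
    have hlt : Subgroup.zpowers x < Subgroup.zpowers x ⊔ Subgroup.zpowers z :=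
      lt_of_le_of_ne le_sup_left fun h => hz (h ▸ Subgroup.mem_sup_right (Subgroup.mem_zpowers z))
    refine Subgroup.eq_top_of_card_eq _ ?_
    obtain ⟨i, hi2, hi⟩ := (Nat.dvd_prime_pow hp.out).1
      (hW ▸ Subgroup.card_subgroup_dvd_card (Subgroup.zpowers x ⊔ Subgroup.zpowers z))
    have h1 : Nat.card (Subgroup.zpowers x) < p ^ i := by
      rw [← hi]
      exact CfsgLib.Fusion.card_lt_of_lt (le_top : (Subgroup.zpowers x ⊔ Subgroup.zpowers z) ≤ ⊤) hlt
    rw [Nat.card_zpowers, hxo] at h1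
    have h2 : 1 < i := by
      by_contra h
      have := Nat.pow_le_pow_right hp.out.pos (show i ≤ 1 by omega)
      rw [pow_one] at this
      omega
    rw [hi, hW, show i = 2 by omega]
  have hext : ∀ z, z ∉ Subgroup.zpowers x → ∀ a b : MulAut W, a x = b x → a z = b z → a = b := fun z hz a b h1 h2 => by
    refine MulEquiv.ext fun w => ?_
    have h3 : Subgroup.zpowers x ⊔ Subgroup.zpowers z ≤ MonoidHom.eqLocus a.toMonoidHom b.toMonoidHom :=
      sup_le (Subgroup.zpowers_le.2 h1) (Subgroup.zpowers_le.2 h2)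
    exact h3 (hgen z hz ▸ Subgroup.mem_top w)
  have hpz : ∀ (z : W) (l : ℤ), ¬ (p : ℤ) ∣ l → ∀ t, t ∈ Subgroup.zpowers z → ∃ i : ℤ, (z ^ l) ^ i = t := by
    intro z l hl t ht
    obtain ⟨j, rfl⟩ := ht
    have hco : IsCoprime l (p : ℤ) := by
      rw [isCoprime_comm]
      exact (Nat.prime_iff_prime_int.1 hp.out).coprime_iff_not_dvd.2 hl
    obtain ⟨s, t, hst⟩ := hco
    refine ⟨s * j, ?_⟩
    show (z ^ l) ^ (s * j) = z ^ j
    have hzp : z ^ (p : ℤ) = 1 := by rw [zpow_natCast, hexp]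
    calc (z ^ l) ^ (s * j) = z ^ ((s * l + t * p) * j) := by
          rw [add_mul, zpow_add, mul_comm t, mul_assoc (p : ℤ), zpow_mul z (p : ℤ), hzp, one_zpow, mul_one,
            ← zpow_mul]; ring_nf
      _ = z ^ j := by rw [hst, one_mul]
  -- the fixed lines differ
  have hyx : y ∉ Subgroup.zpowers x := by
    intro hyx
    have hxy : x ∈ Subgroup.zpowers y := by
      obtain ⟨l, hl⟩ := hyx
      have hld : ¬ (p : ℤ) ∣ l := fun ⟨c, hc⟩ => by
        rw [hc] at hl; simp only [zpow_mul, zpow_natCast, hexp, one_zpow] at hl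
        rw [← hl, orderOf_one] at hyo
        exact hp.out.one_lt.ne hyo
      obtain ⟨i, hi⟩ := hpz x l hld x (Subgroup.mem_zpowers x)
      exact ⟨i, by show y ^ i = x; rw [← hl]; exact hi⟩
    have hvx : v x = x := by
      obtain ⟨l, rfl⟩ := hxy
      rw [map_zpow, hvy]
    obtain ⟨z, hz⟩ : ∃ z, z ∉ Subgroup.zpowers x := by
      by_contra h
      push Not at h
      have := congrArg Nat.card (congrArg (fun K : Subgroup W => ↥K) ((Subgroup.eq_top_iff' _).2 h))
      rw [Nat.card_zpowers, hxo, Subgroup.card_top, hW] at this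
      nlinarith [hp.out.one_lt]
    obtain ⟨a, ha⟩ := hud z
    obtain ⟨c, hc'⟩ := (Subgroup.zpowers_le.2 hyx) (hvd z)
    have ha' : ¬ (p : ℤ) ∣ a := fun ⟨d, hd⟩ => by
      rw [hd] at ha; simp only [zpow_mul, zpow_natCast, hexp, one_zpow] at ha
      exact hz (hufix z (mul_inv_eq_one.1 ha.symm))
    have hiter : ∀ i : ℤ, (u ^ i) z = z * (x ^ a) ^ i ∧ (u ^ i) x = x := by
      intro i
      induction i using Int.induction_on with
      | zero => simp
      | succ i ih =>
        refine ⟨?_, by rw [zpow_add_one, MulAut.mul_apply, hux, ih.2]⟩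
        rw [zpow_add_one, MulAut.mul_apply, show u z = z * x ^ a by
          rw [show x ^ a = u z * z⁻¹ from ha, hc.is_comm.comm (u z), mul_inv_cancel_left], map_mul, map_zpow,
          ih.1, ih.2, mul_assoc, ← zpow_add_one]
      | pred i ih =>
        have hx1 : (u⁻¹) x = x := by conv_lhs => rw [← hux]; rw [← MulAut.mul_apply, inv_mul_cancel, MulAut.one_apply]
        refine ⟨?_, by rw [zpow_sub_one, MulAut.mul_apply, hx1, ih.2]⟩
        rw [zpow_sub_one, MulAut.mul_apply, show u⁻¹ z = z * (x ^ a)⁻¹ by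
          apply u.injective
          rw [← MulAut.mul_apply, mul_inv_cancel, MulAut.one_apply, map_mul, map_inv, map_zpow, hux,
            show x ^ a = u z * z⁻¹ from ha]
          rw [mul_inv_rev, inv_inv, hc.is_comm.comm z, mul_inv_cancel_left], map_mul, map_inv, map_zpow,
          ih.1, ih.2, mul_assoc, ← zpow_sub_one]
    obtain ⟨i, hi⟩ := hpz x a ha' (x ^ c) ⟨c, rfl⟩
    refine hne ⟨i, hext z hz _ _ ((hiter i).2.trans hvx.symm) ?_⟩
    rw [(hiter i).1, hi, show x ^ c = v z * z⁻¹ from hc', hc.is_comm.comm (v z), mul_inv_cancel_left]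
  obtain ⟨a, ha⟩ := hud y
  obtain ⟨b, hb⟩ := hvd x
  have ha' : ¬ (p : ℤ) ∣ a := fun ⟨d, hd⟩ => by
    rw [hd] at ha; simp only [zpow_mul, zpow_natCast, hexp, one_zpow] at ha
    exact hyx (hufix y (mul_inv_eq_one.1 ha.symm))
  have hxy' : x ∉ Subgroup.zpowers y := fun h => by
    obtain ⟨l, hl⟩ := h
    have hld : ¬ (p : ℤ) ∣ l := fun ⟨d, hd⟩ => by
      rw [hd] at hl; simp only [zpow_mul, zpow_natCast, hexp, one_zpow] at hl
      rw [← hl, orderOf_one] at hxo
      exact hp.out.one_lt.ne hxo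
    obtain ⟨i, hi⟩ := hpz y l hld y (Subgroup.mem_zpowers y)
    exact hyx ⟨i, by show x ^ i = y; rw [← hl]; exact hi⟩
  have hb' : ¬ (p : ℤ) ∣ b := fun ⟨d, hd⟩ => by
    rw [hd] at hb; simp only [zpow_mul, zpow_natCast, hexp, one_zpow] at hb
    exact hxy' (hvfix x (mul_inv_eq_one.1 hb.symm))
  have key : ∀ (s : MulAut W) (x y : W) (a : ℤ), s x = x → x ^ a = s y * y⁻¹ →
      ∀ i : ℕ, (s ^ i) x = x ∧ (s ^ i) y = y * (x ^ a) ^ i := by
    intro s x y a hsx hsy i
    induction i with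
    | zero => simp
    | succ i ih =>
      refine ⟨by rw [pow_succ, MulAut.mul_apply, hsx, ih.1], ?_⟩
      rw [pow_succ, MulAut.mul_apply, show s y = y * x ^ a by
        rw [hsy, hc.is_comm.comm (s y), mul_inv_cancel_left], map_mul, map_zpow, ih.1, ih.2, mul_assoc, ← pow_succ]
  have hnat : ∀ (z : W) (l : ℤ), ¬ (p : ℤ) ∣ l → ∀ t, t ∈ Subgroup.zpowers z → ∃ i : ℕ, (z ^ l) ^ i = t := by
    intro z l hl t ht
    obtain ⟨i, hi⟩ := hpz z l hl t ht
    have := (isOfFinOrder_of_finite (z ^ l)).mem_powers_iff_mem_zpowers.2 ⟨i, hi⟩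
    exact this
  obtain ⟨i, hi⟩ := hnat x a ha' x (Subgroup.mem_zpowers x)
  obtain ⟨j, hj⟩ := hnat y b hb' y⁻¹ (inv_mem (Subgroup.mem_zpowers y))
  obtain ⟨hu1, hu2⟩ := key u x y a hux ha i
  obtain ⟨hv1, hv2⟩ := key v y x b hvy hb j
  rw [hi] at hu2
  rw [hj] at hv2
  set w := u ^ i * v ^ j * u ^ i
  have hwx : w x = y⁻¹ := by
    simp only [w, MulAut.mul_apply, hu1, hv2, map_mul, map_inv, hu2]
    rw [mul_inv_rev, ← mul_assoc, mul_inv_cancel, one_mul]
  have hwy : w y = x := by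
    simp only [w, MulAut.mul_apply, hu2, map_mul, hv1, hv2, map_inv, hu1]
    rw [hc.is_comm.comm y x, mul_inv_rev]
    letI : CommGroup W := { (inferInstance : Group W) with mul_comm := hc.is_comm.comm }
    simp [mul_left_comm]
  refine ⟨w * w, ?_, fun t => ?_⟩
  · have huc : u ∈ Subgroup.closure ({u, v} : Set (MulAut W)) := Subgroup.subset_closure (by simp)
    have hvc : v ∈ Subgroup.closure ({u, v} : Set (MulAut W)) := Subgroup.subset_closure (by simp)
    have hwc : w ∈ Subgroup.closure ({u, v} : Set (MulAut W)) := mul_mem (mul_mem (pow_mem huc i) (pow_mem hvc j)) (pow_mem huc i)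
    exact mul_mem hwc hwc
  · letI : CommGroup W := { (inferInstance : Group W) with mul_comm := hc.is_comm.comm }
    have h3 : Subgroup.zpowers x ⊔ Subgroup.zpowers y ≤ MonoidHom.eqLocus (w * w).toMonoidHom (MulEquiv.inv W).toMonoidHom :=
      sup_le (Subgroup.zpowers_le.2 (show (w * w) x = x⁻¹ by rw [MulAut.mul_apply, hwx, map_inv, hwy]))
        (Subgroup.zpowers_le.2 (show (w * w) y = y⁻¹ by rw [MulAut.mul_apply, hwy, hwx]))
    exact h3 (hgen y hyx ▸ Subgroup.mem_top t)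

variable {Ω : Type u} [Group Ω] {S : Subgroup Ω} [Finite S] {F : FusionSystem S} {P : Subgroup Ω}

/-- A strongly closed subgroup with small omega subgroup lies in every centric radical subgroup. -/
theorem le_centric_radical (hS : IsPGroup p S) (hF : F.IsSaturated p) (hp2 : p ≠ 2) (hP : F.StronglyClosed P)
    {W : Subgroup Ω} (hWN : F.IsNormal W) (hWc : Nat.card W = p ^ 2)
    (hWmem : ∀ x, x ∈ W ↔ x ∈ P ∧ x ^ p = 1)
    {R : Subgroup Ω} (hRc : F.IsCentric R) (hRr : F.IsRadical p R) : P ≤ R := by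
  have hRS := hRc.1
  haveI := finite_of_le hRS
  haveI := finite_autGroup F hRS
  have hWR : W ≤ R := isNormal_le_centric_radical hS hWN hRc hRr
  have hWP : W ≤ P := fun x hx => ((hWmem x).1 hx).1
  have hWsc := isNormal_stronglyClosed hWN
  haveI := finite_of_le (hWR.trans hRS)
  have hPinv : ∀ α ∈ F.autGroup R, ∀ x ∈ R, x ∈ P → autFun α x ∈ P := fun α hα x hx hxP =>
    stronglyClosed_apply hP ((mem_autGroup_iff hRS).1 hα) hx hxP
  have hWinv : ∀ α ∈ F.autGroup R, ∀ x ∈ W, autFun α x ∈ W := fun α hα x hx =>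
    stronglyClosed_apply hWsc ((mem_autGroup_iff hRS).1 hα) (hWR hx) hx
  set A := F.autGroup R
  -- restriction to `W`
  have hres : ∀ α : A, ∃ β : MulAut W, ∀ x ∈ W, autFun β x = autFun (α : MulAut R) x := fun α => by
    obtain ⟨β, -, he⟩ := SmallOrder.exists_restrict hRS α.2 hWR (hWinv α α.2)
    refine ⟨β, fun x hx => ?_⟩
    have := he 1 x hx
    rwa [pow_one, pow_one] at this
  choose res hres using hres
  let ρ : A →* MulAut W := MonoidHom.mk' res fun a b => autFun_inj fun x hx => by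
    rw [hres _ x hx, autFun_mul _ _ hx, Subgroup.coe_mul, autFun_mul _ _ (hWR hx),
      hres a _ (autFun_mem _ hx), hres b x hx]
  let A1 : Subgroup A :=
    { carrier := {α | Stab (α : MulAut R) R P}
      one_mem' := fun x hx _ => by simp [autFun_one hx]
      mul_mem' := fun {a b} ha hb x hx _ => by
        rw [Subgroup.coe_mul, autFun_mul _ _ hx]
        have := mul_mem (hb x hx hx) (ha _ (autFun_mem (b : MulAut R) hx) (autFun_mem (b : MulAut R) hx))
        rwa [mul_assoc, mul_inv_cancel_left] at this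
      inv_mem' := fun {a} ha x hx _ => by
        have h1 := inv_mem (ha _ (autFun_mem (a : MulAut R)⁻¹ hx) (autFun_mem (a : MulAut R)⁻¹ hx))
        rw [autFun_apply_inv _ hx, mul_inv_rev, inv_inv] at h1
        exact h1 }
  haveI hA1n : A1.Normal := ⟨fun a ha g x hx _ => by
    have hm := (mem_autGroup_iff hRS).mp g.2
    set y := autFun (g : MulAut R)⁻¹ x with hy
    have hyR : y ∈ R := autFun_mem _ hx
    have h1 := hPinv _ g.2 _ (mul_mem (inv_mem hyR) (autFun_mem _ hyR)) (ha y hyR hyR)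
    rw [hm.map_mul (inv_mem hyR) (autFun_mem _ hyR), hm.map_inv hyR, hy, autFun_apply_inv _ hx] at h1
    show x⁻¹ * autFun ((g : MulAut R) * (a : MulAut R) * (g : MulAut R)⁻¹) x ∈ P
    rwa [autFun_mul _ _ hx, autFun_mul _ _ hyR]⟩
  set K1 : Subgroup A := A1 ⊓ ρ.ker
  haveI : K1.Normal := inferInstance
  have hK1 : IsPGroup p K1 := by
    rintro ⟨α, hα1, hαρ⟩
    obtain ⟨k, hk⟩ := pPower_of_all_powers (p := p) F hRS (α := (α : MulAut R)) fun j m hm hjm => by
      have hmem : α ^ j ∈ A1 ⊓ ρ.ker := pow_mem (show α ∈ A1 ⊓ ρ.ker from ⟨hα1, hαρ⟩) j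
      refine autFun_inj fun x hx => ?_
      rw [autFun_one hx]
      have hst : Stab ((α : MulAut R) ^ j) R P := by
        have := hmem.1
        rwa [← Subgroup.coe_pow]
      refine fixed_of_series hS hRS hm hjm hst
        (fix_of_small hS hRS (pow_mem α.2 j) hm hjm P
          (fun y hy hyP => hPinv _ (pow_mem α.2 j) y hy hyP) fun y hy hyP sy => ?_) x hx hx
      have hyW : y ∈ W := (hWmem y).2 ⟨hyP, sy.resolve_right fun e => hp2 e.1⟩
      rw [← Subgroup.coe_pow, ← hres (α ^ j) y hyW]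
      have : ρ (α ^ j) = 1 := hmem.2
      rw [show res (α ^ j) = 1 from this, autFun_one hyW]
    exact ⟨k, Subtype.ext (Subtype.ext (by simpa using hk))⟩
  have hK1I : ∀ α ∈ K1, ∃ r ∈ R, ∀ x ∈ R, autFun (α : MulAut R) x = r * x * r⁻¹ := fun α hα => by
    have : (α : MulAut R) ∈ Inn R :=
      hRr.2.le (Subgroup.mem_map_of_mem A.subtype (le_pCore_of_normal K1 hK1 hα))
    exact mem_inn_iff.mp this
  by_contra hne
  have hPn : R ≤ Subgroup.normalizer (P : Set Ω) := hRS.trans (stronglyClosed_normalized hP)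
  obtain ⟨n, hnP, hnn, hnR⟩ : ∃ n ∈ P, n ∈ Subgroup.normalizer (R : Set Ω) ∧ n ∉ R := by
    have hlt : R < R ⊔ P := lt_of_le_of_ne le_sup_left fun h => hne (h ▸ le_sup_right)
    haveI := finite_of_le (sup_le hRS hP.1)
    obtain ⟨g, hg, hgn, hgR⟩ := exists_mem_normalizer_not_mem (hS.to_le (sup_le hRS hP.1)) hlt
    rw [← SetLike.mem_coe, Subgroup.coe_mul_of_left_le_normalizer_right R P hPn] at hg
    obtain ⟨r, hr, n, hn, rfl⟩ := Set.mem_mul.mp hg
    refine ⟨n, hn, ?_, fun h => hgR (mul_mem hr h)⟩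
    have := mul_mem (inv_mem (Subgroup.le_normalizer hr)) hgn
    rwa [inv_mul_cancel_left] at this
  have hconjA : ∀ m ∈ P, ∀ hm : m ∈ Subgroup.normalizer (R : Set Ω),
      ∃ γ : A, γ ∈ A1 ∧ (∀ x ∈ R, autFun (γ : MulAut R) x = m * x * m⁻¹) ∧ ∃ k, γ ^ p ^ k = 1 := fun m hm hmn => by
    have hmem : normalizerInToAut S R ⟨m, hP.1 hm, hmn⟩ ∈ A :=
      autInducedBy_le_autGroup hRS (by rw [← range_normalizerInToAut]; exact ⟨_, rfl⟩)
    refine ⟨⟨_, hmem⟩, fun x hx _ => ?_, fun x hx => autFun_normalizerInToAut (⟨m, hP.1 hm, hmn⟩ : normalizerIn S R) hx, ?_⟩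
    · show x⁻¹ * autFun (normalizerInToAut S R ⟨m, hP.1 hm, hmn⟩) x ∈ P
      rw [autFun_normalizerInToAut (⟨m, hP.1 hm, hmn⟩ : normalizerIn S R) hx,
        show x⁻¹ * (m * x * m⁻¹) = (x⁻¹ * m * x) * m⁻¹ by group]
      exact mul_mem (conj_inv_mem_of_mem_normalizer (hPn hx) hm) (inv_mem hm)
    · obtain ⟨k, hk⟩ := hS ⟨m, hP.1 hm⟩
      refine ⟨k, Subtype.ext ?_⟩
      rw [Subgroup.coe_pow, ← map_pow, show (⟨m, hP.1 hm, hmn⟩ : normalizerIn S R) ^ p ^ k = 1 from
        Subtype.ext (by simpa using congrArg Subtype.val hk), map_one]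
      rfl
  obtain ⟨γ, hγ1, hγe, kγ, hγk⟩ := hconjA n hnP hnn
  -- a normal `p`-subgroup containing all the conjugations is impossible
  have hY : ∀ Y : Subgroup A, Y.Normal → IsPGroup p Y →
      (∀ α : A, α ∈ A1 → (∃ k, α ^ p ^ k = 1) → α ∈ Y) → False := fun Y hYn hYp hall => by
    haveI := hYn
    obtain ⟨r, hr, he⟩ := mem_inn_iff.mp
      (hRr.2.le (Subgroup.mem_map_of_mem A.subtype (le_pCore_of_normal Y hYp (hall γ hγ1 ⟨kγ, hγk⟩))))
    have hc : r⁻¹ * n ∈ centralizerIn S R := by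
      refine ⟨S.mul_mem (S.inv_mem (hRS hr)) (hP.1 hnP), fun y hy => ?_⟩
      have h2 : n * y * n⁻¹ = r * y * r⁻¹ := (hγe y hy).symm.trans (he y hy)
      calc y * (r⁻¹ * n) = r⁻¹ * (r * y * r⁻¹) * n := by group
        _ = r⁻¹ * n * y := by rw [← h2]; group
    have := mul_mem hr (hRc.2 R (isConj_refl F hRS) hc)
    rw [mul_inv_cancel_left] at this
    exact hnR this
  set T := A1.map ρ
  have hordp : ∀ g : MulAut W, (∃ k, g ^ p ^ k = 1) → g ^ p = 1 := fun g ⟨k, hk⟩ => pElement_pow_eq_one hWc hk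
  by_cases hB : ∃ u ∈ T, ∃ v ∈ T, orderOf u = p ∧ orderOf v = p ∧ v ∉ Subgroup.zpowers u
  swap
  · push Not at hB
    refine hY (A1 ⊓ Subgroup.comap ρ (Subgroup.closure {g | g ∈ T ∧ g ^ p = 1})) ?_ ?_ fun α hα hk => ?_
    · haveI : (Subgroup.comap ρ (Subgroup.closure {g | g ∈ T ∧ g ^ p = 1})).Normal := by
        refine ⟨fun a ha g => ?_⟩
        rw [Subgroup.mem_comap, map_mul, map_mul, map_inv] at *
        generalize ρ a = y at ha ⊢
        induction ha using Subgroup.closure_induction with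
        | mem z hz =>
          refine Subgroup.subset_closure ⟨?_, by rw [conj_pow, hz.2, mul_one, mul_inv_cancel]⟩
          obtain ⟨b, hb, hbz⟩ := hz.1
          exact ⟨g * b * g⁻¹, hA1n.conj_mem b hb g, by rw [map_mul, map_mul, map_inv, hbz]⟩
        | one => rw [mul_one, mul_inv_cancel]; exact one_mem _
        | mul y z _ _ iy iz =>
          have := mul_mem iy iz
          rwa [show ρ g * y * (ρ g)⁻¹ * (ρ g * z * (ρ g)⁻¹) = ρ g * (y * z) * (ρ g)⁻¹ by group] at this
        | inv y _ iy =>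
          have := inv_mem iy
          rwa [show (ρ g * y * (ρ g)⁻¹)⁻¹ = ρ g * y⁻¹ * (ρ g)⁻¹ by group] at this
      exact inferInstance
    · rintro ⟨α, hα1, hαc⟩
      have hpow : ∀ g ∈ Subgroup.closure {g | g ∈ T ∧ g ^ p = 1}, g ^ p = 1 := by
        by_cases h1 : ∃ u ∈ T, orderOf u = p
        · obtain ⟨u, hu, huo⟩ := h1
          intro g hg
          have : Subgroup.closure {g | g ∈ T ∧ g ^ p = 1} ≤ Subgroup.zpowers u := by
            rw [Subgroup.closure_le]
            rintro z ⟨hz, hzp⟩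
            rcases (Nat.dvd_prime hp.out).1 (orderOf_dvd_of_pow_eq_one hzp) with e | e
            · rw [orderOf_eq_one_iff] at e; rw [e]; exact one_mem _
            · exact hB u hu z hz huo e
          obtain ⟨l, rfl⟩ := this hg
          show (u ^ l) ^ p = 1
          rw [← zpow_natCast (u ^ l), ← zpow_mul, mul_comm, zpow_mul, zpow_natCast,
            orderOf_dvd_iff_pow_eq_one.1 huo.dvd, one_zpow]
        · intro g hg
          have : Subgroup.closure {g | g ∈ T ∧ g ^ p = 1} ≤ (⊥ : Subgroup (MulAut W)) := by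
            rw [Subgroup.closure_le]
            rintro z ⟨hz, hzp⟩
            rcases (Nat.dvd_prime hp.out).1 (orderOf_dvd_of_pow_eq_one hzp) with e | e
            · exact Subgroup.mem_bot.2 (orderOf_eq_one_iff.1 e)
            · exact absurd ⟨z, hz, e⟩ h1
          rw [Subgroup.mem_bot.1 (this hg), one_pow]
      have hker : α ^ p ∈ K1 := ⟨pow_mem hα1 p, by
        show ρ (α ^ p) = 1
        rw [map_pow]; exact hpow _ hαc⟩
      obtain ⟨k, hk⟩ := hK1 ⟨_, hker⟩
      have hk' : (α ^ p) ^ p ^ k = 1 := congrArg Subtype.val hk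
      exact ⟨k + 1, Subtype.ext (by
        show α ^ p ^ (k + 1) = 1
        rwa [pow_succ', pow_mul])⟩
    · obtain ⟨k, hk⟩ := hk
      refine ⟨hα, Subgroup.subset_closure ⟨⟨α, hα, rfl⟩, hordp _ ⟨k, ?_⟩⟩⟩
      rw [← map_pow, hk, map_one]
  obtain ⟨u, hu, v, hv, huo, hvo, huv⟩ := hB
  obtain ⟨w, hw, hwinv⟩ := exists_inversion hWc (fun x => Subtype.ext (by
    simpa using ((hWmem x).1 x.2).2)) huo hvo huv
  obtain ⟨z, hz1, hzw⟩ : w ∈ T := (Subgroup.closure_le T).2 (by
    rintro g (rfl | rfl) <;> assumption) hw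
  have hzinv : ∀ x ∈ W, autFun (z : MulAut R) x = x⁻¹ := fun x hx => by
    rw [← hres z x hx, show res z = w from hzw, autFun_apply w hx, hwinv]
    rfl
  -- extend to `R ⊔ ⟨n⟩`
  have hRec := isReceptive_of_isCentric hS hF hRc
  have hzm := (mem_autGroup_iff hRS).1 z.2
  obtain ⟨r, hr, hre⟩ := hK1I (z * γ * z⁻¹ * γ⁻¹) ⟨A1.mul_mem (A1.mul_mem (A1.mul_mem hz1 hγ1) (A1.inv_mem hz1)) (A1.inv_mem hγ1), by
    show ρ (z * γ * z⁻¹ * γ⁻¹) = 1
    rw [map_mul, map_mul, map_mul, map_inv, map_inv, hzw]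
    have hcom : w * ρ γ = ρ γ * w := MulEquiv.ext fun x => by
      rw [MulAut.mul_apply, MulAut.mul_apply, hwinv, hwinv, map_inv]
    rw [hcom, mul_inv_cancel_right, mul_inv_cancel]⟩
  have hstep : ∀ y ∈ R, autFun (z : MulAut R) (n * y * n⁻¹) = r * n * autFun (z : MulAut R) y * (r * n)⁻¹ := by
    intro y hy
    have h1 : ((z * γ * z⁻¹ * γ⁻¹ : A) : MulAut R) * (γ : MulAut R) * (z : MulAut R) = (z : MulAut R) * (γ : MulAut R) := by
      simp only [Subgroup.coe_mul, Subgroup.coe_inv]; group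
    have h2 := congrArg (fun e => autFun e y) h1
    rw [autFun_mul _ _ hy, autFun_mul _ _ (autFun_mem _ hy), autFun_mul _ _ hy, hre _ (autFun_mem _ (autFun_mem _ hy)),
      hγe _ (autFun_mem _ hy), hγe y hy] at h2
    rw [← h2]
    group
  have hnS : n ∈ S := hP.1 hnP
  set R' := R ⊔ Subgroup.zpowers n
  have hR'S : R' ≤ S := sup_le hRS (Subgroup.zpowers_le.2 hnS)
  haveI := finite_of_le hR'S
  obtain ⟨k, hk, hkz⟩ := receptive_extend hRec hzm (img_autFun _) (R := R') le_sup_left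
    (inExtender_sup (fun g hg => inExtender_of_mem hzm hg) (fun g hg => by
      obtain ⟨l, rfl⟩ := hg
      obtain ⟨φ, -, he⟩ := id hzm
      have hE : ∀ g ∈ Subgroup.zpowers n, g ∈ extender S R φ := fun g hg =>
        (Subgroup.zpowers_le.2 ((mem_extender_iff he).mpr
          ⟨hnS, hnn, r * n, S.mul_mem (hRS hr) hnS, hstep⟩)) hg
      exact (mem_extender_iff he).mp (hE _ ⟨l, rfl⟩))
      (by obtain ⟨φ, -, he⟩ := hzm; exact ⟨φ, he⟩))
  set D := R ⊓ P
  have hcoset : ∀ g ∈ R', n⁻¹ * g ∈ D → n⁻¹ * k g ∈ D := by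
    intro g hg hgD
    have hkn : n⁻¹ * k n ∈ D := by
      have hknS : k n ∈ S := hk.apply_mem (Subgroup.mem_sup_right (Subgroup.mem_zpowers n))
      have hc : (r * n)⁻¹ * k n ∈ centralizerIn S R := by
        refine ⟨S.mul_mem (S.inv_mem (S.mul_mem (hRS hr) hnS)) hknS, fun y hy => ?_⟩
        obtain ⟨y', hy', rfl⟩ := hzm.mem_img.1 ((img_autFun (z : MulAut R)).ge hy)
        have h1 := hk.map_conj (Subgroup.mem_sup_right (Subgroup.mem_zpowers n) : n ∈ R') (Subgroup.mem_sup_left hy')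
        rw [hkz _ (conj_mem_of_mem_normalizer hnn hy'), hkz y' hy', hstep y' hy'] at h1
        calc autFun (z : MulAut R) y' * ((r * n)⁻¹ * k n)
            = (r * n)⁻¹ * (r * n * autFun (z : MulAut R) y' * (r * n)⁻¹) * k n := by group
          _ = _ := by rw [h1]; group
      have hcR := hRc.2 R (isConj_refl F hRS) hc
      refine ⟨?_, P.mul_mem (P.inv_mem hnP) (stronglyClosed_apply hP hk (Subgroup.mem_sup_right (Subgroup.mem_zpowers n)) hnP)⟩
      rw [show n⁻¹ * k n = (n⁻¹ * r * n) * ((r * n)⁻¹ * k n) by group]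
      exact mul_mem (conj_inv_mem_of_mem_normalizer hnn hr) hcR
    have hgR : n⁻¹ * g ∈ R := hgD.1
    have : n⁻¹ * k g = (n⁻¹ * k n) * autFun (z : MulAut R) (n⁻¹ * g) := by
      rw [← hkz _ hgR, hk.map_mul (inv_mem (Subgroup.mem_sup_right (Subgroup.mem_zpowers n) : n ∈ R')) hg,
        hk.map_inv (Subgroup.mem_sup_right (Subgroup.mem_zpowers n) : n ∈ R')]
      group
    rw [this]
    exact mul_mem hkn ⟨autFun_mem _ hgR, hPinv _ z.2 _ hgR hgD.2⟩
  have hkR' : img k R' = R' := eq_of_le_of_card_le hR'S (img_le_iff.mpr fun g hg => by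
    refine hk.apply_mem_sup le_sup_left le_sup_right (A := R') (B := R') (fun y hy => ?_) (fun y hy => ?_) g hg
      |> fun h => (sup_le le_rfl le_rfl : R' ⊔ R' ≤ R') h
    · rw [hkz y hy]; exact Subgroup.mem_sup_left (autFun_mem _ hy)
    · obtain ⟨φ, -, he⟩ := id hk
      obtain ⟨l, rfl⟩ := hy
      have hn' : k n ∈ R' := by
        have := hcoset n (Subgroup.mem_sup_right (Subgroup.mem_zpowers n)) (by rw [inv_mul_cancel]; exact one_mem _)
        have h2 := mul_mem (Subgroup.mem_sup_right (Subgroup.mem_zpowers n) : n ∈ R') (Subgroup.mem_sup_left this.1 : n⁻¹ * k n ∈ R')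
        rwa [mul_inv_cancel_left] at h2
      have hnR' : n ∈ R' := Subgroup.mem_sup_right (Subgroup.mem_zpowers n)
      have hval : ((⟨n, hnR'⟩ : R') ^ l : R') = (⟨n ^ l, zpow_mem hnR' l⟩ : R') := Subtype.ext (by simp)
      show k (n ^ l) ∈ R'
      rw [← he ⟨n ^ l, zpow_mem hnR' l⟩, ← hval, map_zpow, he]
      exact zpow_mem hn' l) hk.card_img.ge
  obtain ⟨β, -, hβk⟩ := hk.exists_aut hkR'
  haveI := finite_mulAut R'
  obtain ⟨a, m, hm, he⟩ := Nat.exists_eq_pow_mul_and_not_dvd (orderOf_pos β).ne' 2 (by norm_num)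
  set δ := β ^ m
  have hδ2 : δ ^ 2 ^ a = 1 := by rw [← pow_mul, mul_comm, ← he, pow_orderOf_eq_one]
  have hβR : ∀ j : ℕ, ∀ x ∈ R, autFun (β ^ j) x = autFun ((z : MulAut R) ^ j) x :=
    fun j x hx => (autFun_pow_agree le_sup_left
      (fun y hy => (hβk y (Subgroup.mem_sup_left hy)).trans (hkz y hy)) j x hx)
  have hδW : ∀ x ∈ W, autFun δ x = x⁻¹ := by
    intro x hx
    rw [hβR m x (hWR hx)]
    have key : ∀ j : ℕ, autFun ((z : MulAut R) ^ (2 * j + 1)) x = x⁻¹ := by
      intro j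
      induction j with
      | zero => simpa using hzinv x hx
      | succ j ih =>
        rw [show 2 * (j + 1) + 1 = 1 + (1 + (2 * j + 1)) by ring, pow_add, pow_one, autFun_mul _ _ (hWR hx),
          pow_add, pow_one, autFun_mul _ _ (hWR hx), ih, hzinv _ (inv_mem hx), inv_inv, hzinv x hx]
    obtain ⟨j, hj⟩ : ∃ j, m = 2 * j + 1 := ⟨m / 2, by omega⟩
    rw [hj]; exact key j
  have hδcoset : ∀ g ∈ R', n⁻¹ * g ∈ D → n⁻¹ * autFun δ g ∈ D := by
    show ∀ g ∈ R', n⁻¹ * g ∈ D → n⁻¹ * autFun (β ^ m) g ∈ D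
    have : ∀ j : ℕ, ∀ g ∈ R', n⁻¹ * g ∈ D → n⁻¹ * autFun (β ^ j) g ∈ D := by
      intro j
      induction j with
      | zero => intro g hg h; rwa [pow_zero, autFun_one hg]
      | succ j ih =>
        intro g hg h
        rw [pow_succ', autFun_mul _ _ hg, hβk _ (autFun_mem _ hg)]
        exact hcoset _ (autFun_mem _ hg) (ih g hg h)
    exact this m
  have hnD : ∀ d : D, n * (d : Ω) ∈ R' := fun d =>
    mul_mem (Subgroup.mem_sup_right (Subgroup.mem_zpowers n)) (Subgroup.mem_sup_left d.2.1)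
  haveI : Finite D := finite_of_le ((inf_le_left : D ≤ R).trans hRS)
  let τ : D → D := fun d => ⟨n⁻¹ * autFun δ (n * d), hδcoset _ (hnD d) (by rw [inv_mul_cancel_left]; exact d.2)⟩
  have hτ : Function.Injective τ := fun d e h => by
    have h1 := congrArg (fun x => n * x) (congrArg Subtype.val h)
    simp only [τ, mul_inv_cancel_left] at h1
    rw [autFun_apply δ (hnD d), autFun_apply δ (hnD e)] at h1
    exact Subtype.ext (mul_left_cancel (congrArg Subtype.val (δ.injective (Subtype.ext h1))))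
  let σ : Equiv.Perm D := Equiv.ofBijective τ ⟨hτ, Finite.surjective_of_injective hτ⟩
  have hσ : ∀ (j : ℕ) (d : D), ((((σ ^ j) d : D)) : Ω) = n⁻¹ * autFun (δ ^ j) (n * d) := by
    intro j
    induction j with
    | zero => intro d; rw [pow_zero, pow_zero, autFun_one (hnD d), inv_mul_cancel_left]; rfl
    | succ j ih =>
      intro d
      rw [pow_succ', Equiv.Perm.mul_apply, pow_succ', autFun_mul _ _ (hnD d)]
      show n⁻¹ * autFun δ (n * ((σ ^ j) d : D)) = _
      rw [ih, mul_inv_cancel_left]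
  haveI : Fintype D := Fintype.ofFinite D
  obtain ⟨d, hd⟩ := Equiv.Perm.exists_fixed_point_of_prime (p := 2) (n := a) (by
      rw [← Nat.card_eq_fintype_card]
      obtain ⟨e, he⟩ := IsPGroup.iff_card.mp (hS.to_le ((inf_le_left : D ≤ R).trans hRS))
      rw [he]
      intro h
      exact hp2 ((Nat.prime_dvd_prime_iff_eq Nat.prime_two hp.out).1 (Nat.prime_two.dvd_of_dvd_pow h)).symm)
    (σ := σ) (Equiv.ext fun d => Subtype.ext (by
      rw [hσ, hδ2, autFun_one (hnD d), inv_mul_cancel_left]; rfl))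
  set g := n * (d : Ω)
  have hgfix : autFun δ g = g := by
    have h2 : τ d = d := hd
    have := congrArg (fun x => n * x) (congrArg Subtype.val h2)
    simpa [τ, g] using this
  have hgP : g ∈ P := mul_mem hnP d.2.2
  have hgR : g ∉ R := fun h => hnR (by
    have := mul_mem h (inv_mem d.2.1)
    rwa [mul_inv_cancel_right] at this)
  have hgR' : g ∈ R' := hnD d
  have hfixD : ∀ y ∈ R, y ∈ P → autFun δ y = y → y = 1 := by
    intro y hy hyP hfix
    by_contra hy1
    obtain ⟨e, he⟩ := IsPGroup.iff_orderOf.1 (hS.to_le hRS) (⟨y, hy⟩ : R)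
    rw [Subgroup.orderOf_mk] at he
    have he0 : e ≠ 0 := fun h0 => hy1 (orderOf_eq_one_iff.1 (by rw [he, h0, pow_zero]))
    set x := y ^ p ^ (e - 1)
    have hxp : x ^ p = 1 := by
      rw [← pow_mul, ← pow_succ, Nat.sub_add_cancel (Nat.pos_of_ne_zero he0), ← he, pow_orderOf_eq_one]
    have hx1 : x ≠ 1 := fun h => by
      have := orderOf_dvd_of_pow_eq_one h
      rw [he, Nat.pow_dvd_pow_iff_le_right hp.out.one_lt] at this
      omega
    have hxW : x ∈ W := (hWmem x).2 ⟨pow_mem hyP _, hxp⟩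
    have hxfix : autFun δ x = x := by
      have hyR' : y ∈ R' := Subgroup.mem_sup_left hy
      rw [autFun_apply δ (pow_mem hyR' _), show (⟨x, pow_mem hyR' _⟩ : R') = (⟨y, hyR'⟩ : R') ^ p ^ (e - 1) from
        Subtype.ext (by simp [x]), map_pow, Subgroup.coe_pow, ← autFun_apply δ hyR', hfix]
    rw [hδW x hxW] at hxfix
    have hx2 : x ^ 2 = 1 := by
      rw [sq]; nth_rewrite 1 [← hxfix]; exact inv_mul_cancel x
    have h1 := Nat.eq_one_of_dvd_coprimes ((Nat.coprime_primes hp.out Nat.prime_two).2 hp2)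
      (orderOf_dvd_of_pow_eq_one hxp) (orderOf_dvd_of_pow_eq_one hx2)
    exact hx1 (orderOf_eq_one_iff.1 h1)
  -- descend to an element of order `p`
  have hdesc : ∀ e : ℕ, ∀ g ∈ R', g ∈ P → g ∉ R → autFun δ g = g → g ^ p ^ e = 1 → False := by
    intro e
    induction e with
    | zero => intro g _ _ hgR _ h; rw [pow_zero, pow_one] at h; exact hgR (h ▸ one_mem _)
    | succ e ih =>
      intro g hg hgP hgR hfix h
      have hfixp : autFun δ (g ^ p) = g ^ p := by
        rw [autFun_apply δ (pow_mem hg _), show (⟨g ^ p, pow_mem hg p⟩ : R') = (⟨g, hg⟩ : R') ^ p from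
          Subtype.ext (by simp), map_pow, Subgroup.coe_pow, ← autFun_apply δ hg, hfix]
      by_cases hp' : g ^ p ∈ R
      · have := hfixD _ hp' (pow_mem hgP p) hfixp
        exact hgR (hWR ((hWmem g).2 ⟨hgP, this⟩))
      · exact ih _ (pow_mem hg p) (pow_mem hgP p) hp' hfixp (by rw [← pow_mul, ← pow_succ']; exact h)
  obtain ⟨e, he⟩ := hS ⟨g, hP.1 hgP⟩
  exact hdesc e g hgR' hgP hgR hgfix (by simpa using congrArg Subtype.val he)

/-- The main statement. -/
theorem main (hS : IsPGroup p S) (hF : F.IsSaturated p) (hp2 : p ≠ 2) (hP : F.StronglyClosed P)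
    (hm : Cfsg.IsMetacyclic P) : F.IsNormal P := by
  haveI := finite_of_le hP.1
  by_cases hc : IsCyclic P
  · exact isNormal_of_abelian_stronglyClosed hS hF hP (by
      letI : CommGroup P := IsCyclic.commGroup
      exact ⟨⟨fun a b => mul_comm a b⟩⟩)
  obtain ⟨⟨hE1, hE2⟩, hEc⟩ := CfsgLib.LocalCyclicMax.metacyclic_omega hp2 (hS.to_le hP.1) hm hc
  set E := Cfsg.omegaOne p (⊤ : Subgroup P)
  set W := E.map P.subtype
  have hWmem : ∀ x, x ∈ W ↔ x ∈ P ∧ x ^ p = 1 := fun x => by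
    constructor
    · rintro ⟨y, hy, rfl⟩
      exact ⟨y.2, by simpa using congrArg Subtype.val (hE2 y hy)⟩
    · rintro ⟨hx, hxp⟩
      exact ⟨⟨x, hx⟩, Subgroup.subset_closure ⟨Subgroup.mem_top _, Subtype.ext hxp⟩, rfl⟩
  have hWsc : F.StronglyClosed W := stronglyClosed_iff.mpr ⟨(Subgroup.map_subtype_le E).trans hP.1, fun R f hR hf x hx => by
    obtain ⟨hxP, hxp⟩ := (hWmem x).1 (hR hx)
    refine (hWmem _).2 ⟨stronglyClosed_apply hP hf hx hxP, ?_⟩
    obtain ⟨φ, -, he⟩ := hf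
    rw [← he ⟨x, hx⟩, ← map_pow, show (⟨x, hx⟩ : R) ^ p = 1 from Subtype.ext hxp, map_one]⟩
  have hWN : F.IsNormal W := isNormal_of_abelian_stronglyClosed hS hF hWsc (by
    refine ⟨⟨fun a b => ?_⟩⟩
    obtain ⟨a', ha, hae⟩ := a.2
    obtain ⟨b', hb, hbe⟩ := b.2
    haveI := hE1
    have := congrArg (fun w : E => ((w : P) : Ω)) (hE1.is_comm.comm ⟨a', ha⟩ ⟨b', hb⟩)
    simp only [Subgroup.coe_mul] at this
    refine Subtype.ext ?_
    show (a : Ω) * b = b * a
    rw [← hae, ← hbe]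
    exact this)
  refine isNormal_of_le_centric_radical hS hF hP fun R hRc hRr =>
    le_centric_radical hS hF hp2 hP hWN ?_ hWmem hRc hRr
  rw [Subgroup.card_map_of_injective P.subtype_injective]
  exact hEc

end CfsgLib.TwoFusion.MetacyclicClosed
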