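import Cfsg.Agent.Lib.MetacyclicTwoShape
import Cfsg.Agent.Lib.TwoFusionMetacyclicClosed
import Cfsg.Agent.Lib.TransferMaximalClass
import Cfsg.Agent.Lib.FgsAutFrattini
import Cfsg.Agent.Lib.CoreMetacyclicSub

/-!
# Strongly closed metacyclic subgroups, the prime two
-/

set_option autoImplicit false

universe u

namespace CfsgLib.FusionMetacyclicTwo

open Subgroup

section group

variable {H : Type u} [Group H]

/-- The automorphisms acting trivially modulo the Frattini subgroup. -/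
def trivMod (H : Type u) [Group H] : Subgroup (MulAut H) where
  carrier := {a | ∀ x : H, x⁻¹ * a x ∈ frattini H}
  one_mem' := fun x => by rw [MulAut.one_apply, inv_mul_cancel]; exact one_mem _
  mul_mem' := fun {a b} ha hb x => by
    have := mul_mem (hb x) (ha (b x))
    rwa [mul_assoc, mul_inv_cancel_left] at this
  inv_mem' := fun {a} ha x => by
    have := inv_mem (ha (a⁻¹ x))
    rw [← MulAut.mul_apply, mul_inv_cancel, MulAut.one_apply, mul_inv_rev, inv_inv] at this
    exact this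

theorem mem_trivMod {a : MulAut H} : a ∈ trivMod H ↔ ∀ x : H, x⁻¹ * a x ∈ frattini H :=
  Iff.rfl

instance trivMod_normal : (trivMod H).Normal := by
  refine ⟨fun a ha g x => ?_⟩
  have h1 := frattini_le_comap_frattini_of_surjective (φ := g.toMonoidHom) g.surjective
    (ha (g⁻¹ x))
  rw [mem_comap, MulEquiv.coe_toMonoidHom, map_mul, map_inv, MulAut.apply_inv_self] at h1
  exact h1

theorem eq_one_of_trivMod [Finite H] (hH : IsPGroup 2 H) {a : MulAut H} (ha : a ∈ trivMod H)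
    {m : ℕ} (hm : ¬ 2 ∣ m) (ham : a ^ m = 1) : a = 1 := by
  haveI : Fact (Nat.Prime 2) := ⟨Nat.prime_two⟩
  obtain ⟨n, hn⟩ := IsPGroup.iff_card.1 hH
  obtain ⟨r, hr, hrr⟩ := (Nat.dvd_prime_pow Nat.prime_two).1 (hn ▸ (frattini H).index_dvd_card)
  have hd := CfsgLib.FgsAutFrattini.card_kernel_dvd hn hrr (zpowers a) fun β hβ x => by
    have h1 := mem_trivMod.1 ((zpowers_le.2 ha) hβ) x
    have h2 := (inferInstance : (frattini H).Normal).conj_mem _ h1 x
    rwa [mul_inv_cancel_left] at h2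
  rw [Nat.card_zpowers] at hd
  have hc : Nat.Coprime (2 ^ (r * (n - r))) m :=
    Nat.Coprime.pow_left _ ((Nat.prime_two.coprime_iff_not_dvd).2 hm)
  exact orderOf_eq_one_iff.1 (Nat.eq_one_of_dvd_coprimes hc hd (orderOf_dvd_of_pow_eq_one ham))

theorem frattini_equiv {K : Type u} [Group K] (e : H ≃* K) {x : H} :
    e x ∈ frattini K ↔ x ∈ frattini H := by
  refine ⟨fun h => ?_, fun h =>
    frattini_le_comap_frattini_of_surjective (φ := e.toMonoidHom) e.surjective h⟩
  have := frattini_le_comap_frattini_of_surjective (φ := e.symm.toMonoidHom) e.symm.surjective h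
  rwa [mem_comap, MulEquiv.coe_toMonoidHom, MulEquiv.symm_apply_apply] at this

theorem metacyclic_subgroup {X : Type u} [Group X] (hm : Cfsg.IsMetacyclic X) (U : Subgroup X) :
    Cfsg.IsMetacyclic ↥U :=
  CfsgLib.Core.Metacyclic.isMetacyclic_subgroup hm U

/-- A self-centralizing quaternion subgroup of order eight: the shape modulo the centre. -/
theorem quaternion_core {X : Type u} [Group X] [Finite X] (hX : IsPGroup 2 X) (Q : Subgroup X)
    (ι : Q ≃* QuaternionGroup 2) (hC : centralizer (Q : Set X) ≤ Q) :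
    Nat.card (center X) = 2 ∧ Nat.card (Q.map (QuotientGroup.mk' (center X))) = 4 ∧
      centralizer ((Q.map (QuotientGroup.mk' (center X)) : Subgroup (X ⧸ center X)) :
        Set (X ⧸ center X)) = Q.map (QuotientGroup.mk' (center X)) := by
  haveI : Fact (Nat.Prime 2) := ⟨Nat.prime_two⟩
  obtain ⟨A, hA⟩ : ∃ A : Q, A = ι.symm (QuaternionGroup.a 1) := ⟨_, rfl⟩
  obtain ⟨B, hB⟩ : ∃ B : Q, B = ι.symm (QuaternionGroup.xa 0) := ⟨_, rfl⟩
  obtain ⟨z, hz⟩ : ∃ z : Q, z = ι.symm (QuaternionGroup.a 2) := ⟨_, rfl⟩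
  have hiA : ι A = QuaternionGroup.a 1 := by rw [hA]; exact ι.apply_symm_apply _
  have hiB : ι B = QuaternionGroup.xa 0 := by rw [hB]; exact ι.apply_symm_apply _
  have hiz : ι z = QuaternionGroup.a 2 := by rw [hz]; exact ι.apply_symm_apply _
  have d1 : ∀ x : QuaternionGroup 2, (∀ y, x * y = y * x) → x = 1 ∨ x = QuaternionGroup.a 2 := by
    decide
  have d2 : QuaternionGroup.xa (0 : ZMod (2 * 2)) * QuaternionGroup.a 1 *
      (QuaternionGroup.xa 0)⁻¹ = QuaternionGroup.a 2 * QuaternionGroup.a 1 := by decide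
  have d3 : QuaternionGroup.a (1 : ZMod (2 * 2)) * QuaternionGroup.xa 0 *
      (QuaternionGroup.a 1)⁻¹ = QuaternionGroup.a 2 * QuaternionGroup.xa 0 := by decide
  have d4 : ∀ x : QuaternionGroup 2, ∃ i : Fin 4, ∃ j : Fin 2,
      x = QuaternionGroup.a 1 ^ (i : ℕ) * QuaternionGroup.xa 0 ^ (j : ℕ) := by decide
  have d5 : QuaternionGroup.a (2 : ZMod (2 * 2)) ≠ 1 := by decide
  have hgen : ∀ v : X, v * A = A * v → v * B = B * v → v ∈ Q := fun v hvA hvB =>
    hC (mem_centralizer_iff.2 fun q hq => by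
      obtain ⟨i, j, hij⟩ := d4 (ι ⟨q, hq⟩)
      have hq' : (⟨q, hq⟩ : Q) = A ^ (i : ℕ) * B ^ (j : ℕ) :=
        ι.injective (by rw [map_mul, map_pow, map_pow, hiA, hiB]; exact hij)
      have hq2 : q = (A : X) ^ (i : ℕ) * (B : X) ^ (j : ℕ) := by
        simpa using congrArg Subtype.val hq'
      rw [hq2]
      exact (((show Commute v (A : X) from hvA).pow_right _).mul_right
        ((show Commute v (B : X) from hvB).pow_right _)).symm.eq)
  have hZQ : center X ≤ Q := fun c hc => hC (mem_centralizer_iff.2 fun q _ =>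
    mem_center_iff.1 hc q)
  have hZ1 : ∀ c ∈ center X, c = 1 ∨ c = (z : X) := fun c hc => by
    rcases d1 (ι ⟨c, hZQ hc⟩) fun y => by
      obtain ⟨w, rfl⟩ := ι.surjective y
      rw [← map_mul, ← map_mul]
      exact congrArg ι (Subtype.ext (mem_center_iff.1 hc (w : X)).symm) with h | h
    · left
      exact congrArg Subtype.val (ι.injective (h.trans (map_one ι).symm))
    · right
      exact congrArg Subtype.val (ι.injective (h.trans hiz.symm))
  haveI : Nontrivial X := by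
    refine nontrivial_of_ne (z : X) 1 fun h => d5 ?_
    rw [← hiz, show z = 1 from Subtype.ext h, map_one]
  obtain ⟨c, hc⟩ := (nontrivial_iff_exists_ne (1 : center X)).1 hX.center_nontrivial
  have hzc : (z : X) ∈ center X := by
    rcases hZ1 c c.2 with h | h
    · exact absurd (Subtype.ext h) hc
    · exact h ▸ c.2
  have hz1 : (z : X) ≠ 1 := fun h => d5 (by
    rw [← hiz, show z = 1 from Subtype.ext h, map_one])
  have hZc : Nat.card (center X) = 2 := by
    rw [Nat.card_eq_two_iff' (⟨1, one_mem _⟩ : center X)]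
    refine ⟨⟨z, hzc⟩, fun h => hz1 (congrArg Subtype.val h), fun w hw => ?_⟩
    rcases hZ1 w w.2 with h | h
    · exact absurd (Subtype.ext h) hw
    · exact Subtype.ext h
  have hBA : (B : X) * A * (B : X)⁻¹ = z * A := by
    have : B * A * B⁻¹ = z * A := ι.injective (by
      rw [map_mul, map_mul, map_inv, map_mul, hiA, hiB, hiz]; exact d2)
    simpa using congrArg Subtype.val this
  have hAB : (A : X) * B * (A : X)⁻¹ = z * B := by
    have : A * B * A⁻¹ = z * B := ι.injective (by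
      rw [map_mul, map_mul, map_inv, map_mul, hiA, hiB, hiz]; exact d3)
    simpa using congrArg Subtype.val this
  have hQc : Nat.card Q = 8 := by
    rw [Nat.card_congr ι.toEquiv, Nat.card_eq_fintype_card, QuaternionGroup.card]
  obtain ⟨π, hπ⟩ : ∃ π : X →* X ⧸ center X, π = QuotientGroup.mk' (center X) := ⟨_, rfl⟩
  rw [← hπ]
  have hker : π.ker = center X := by rw [hπ, QuotientGroup.ker_mk']
  have hQ4 : Nat.card (Q.map π) = 4 := by
    have h1 := Subgroup.card_mul_index (MonoidHom.ker (π.comp Q.subtype))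
    rw [Subgroup.index_ker, MonoidHom.range_comp, Q.range_subtype] at h1
    have h2 : Nat.card (MonoidHom.ker (π.comp Q.subtype)) = 2 := by
      rw [← MonoidHom.comap_ker, hker]
      exact (Nat.card_congr (Subgroup.subgroupOfEquivOfLe hZQ).toEquiv).trans hZc
    rw [h2, hQc] at h1
    omega
  refine ⟨hZc, hQ4, le_antisymm (fun y hy => ?_) ?_⟩
  · obtain ⟨v, rfl⟩ : ∃ v, π v = y := by
      rw [hπ]; exact QuotientGroup.mk'_surjective _ y
    have hcomm : ∀ q : Q, v * q * v⁻¹ = q ∨ v * q * v⁻¹ = z * q := fun q => by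
      have h1 := mem_centralizer_iff.1 hy (π q) (mem_map_of_mem π q.2)
      have h2 : v * q * v⁻¹ * (q : X)⁻¹ ∈ center X := by
        rw [← hker, MonoidHom.mem_ker, map_mul, map_mul, map_mul, map_inv, map_inv, ← h1]
        group
      rcases hZ1 _ h2 with h | h
      · left; exact mul_inv_eq_one.1 h
      · right; exact mul_inv_eq_iff_eq_mul.1 h
    have hfin : ∀ w ∈ Q, v * A * v⁻¹ = w * A * w⁻¹ → v * B * v⁻¹ = w * B * w⁻¹ → v ∈ Q := by
      intro w hw h1 h2
      have hcm : ∀ q : X, v * q * v⁻¹ = w * q * w⁻¹ → w⁻¹ * v * q = q * (w⁻¹ * v) := fun q h =>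
        calc w⁻¹ * v * q = w⁻¹ * (v * q * v⁻¹) * v := by group
          _ = q * (w⁻¹ * v) := by rw [h]; group
      have := mul_mem hw (hgen (w⁻¹ * v) (hcm _ h1) (hcm _ h2))
      rwa [mul_inv_cancel_left] at this
    refine mem_map_of_mem π ?_
    have hzA : ∀ u : X, u * z = z * u := fun u => mem_center_iff.1 hzc u
    rcases hcomm A with ha | ha <;> rcases hcomm B with hb | hb
    · exact hfin 1 (one_mem _) (by rw [ha]; group) (by rw [hb]; group)
    · exact hfin A A.2 (by rw [ha]; group) (by rw [hb, hAB])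
    · exact hfin B B.2 (by rw [ha, hBA]) (by rw [hb]; group)
    · refine hfin (A * B) (mul_mem A.2 B.2) ?_ ?_
      · rw [ha, show (A : X) * B * A * ((A : X) * B)⁻¹ = A * (B * A * (B : X)⁻¹) * (A : X)⁻¹ by group,
          hBA, ← mul_assoc, hzA, mul_inv_cancel_right]
      · rw [hb, show (A : X) * B * B * ((A : X) * B)⁻¹ = A * B * (A : X)⁻¹ by group, hAB]
  · rintro _ ⟨q, hq, rfl⟩
    refine mem_centralizer_iff.2 ?_
    rintro _ ⟨q', hq', rfl⟩
    rw [← map_mul, ← map_mul]
    have key : (q' * q)⁻¹ * (q * q') ∈ center X := by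
      obtain ⟨a, rfl⟩ : ∃ a : Q, (a : X) = q := ⟨⟨q, hq⟩, rfl⟩
      obtain ⟨b, rfl⟩ : ∃ b : Q, (b : X) = q' := ⟨⟨q', hq'⟩, rfl⟩
      have d6 : ∀ x y : QuaternionGroup 2, (y * x)⁻¹ * (x * y) = 1 ∨
          (y * x)⁻¹ * (x * y) = QuaternionGroup.a 2 := by decide
      rcases d6 (ι a) (ι b) with h | h
      · have : (b * a)⁻¹ * (a * b) = 1 := ι.injective (by simpa using h)
        have h' := congrArg Subtype.val this
        simp only [Subgroup.coe_mul, Subgroup.coe_inv, Subgroup.coe_one] at h'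
        rw [h']; exact one_mem _
      · have : (b * a)⁻¹ * (a * b) = z := ι.injective (by rw [hiz]; simpa using h)
        have h' := congrArg Subtype.val this
        simp only [Subgroup.coe_mul, Subgroup.coe_inv] at h'
        rw [h']; exact hzc
    rw [hπ]
    exact QuotientGroup.eq.2 key

/-- The shape of a metacyclic `2`-group with a self-centralizing subgroup of this kind. -/
theorem shape_of_core {X : Type u} [Group X] [Finite X] (hX : IsPGroup 2 X)
    (hm : Cfsg.IsMetacyclic X) (Q : Subgroup X) {g : X} (hg : g ∉ Q)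
    (hgn : ∀ q ∈ Q, g * q * g⁻¹ ∈ Q) (hg2 : g * g ∈ Q) (hC : centralizer (Q : Set X) ≤ Q)
    (β : MulAut Q) (hβ1 : β ≠ 1) (hodd : Odd (orderOf β))
    (hmove : ∃ q : Q, q⁻¹ * ⟨g * q * g⁻¹, hgn _ q.2⟩ ∉ frattini Q) :
    (∃ m : ℕ, Nonempty (X ≃* DihedralGroup m)) ∨ (∃ m : ℕ, Nonempty (X ≃* QuaternionGroup m)) ∨
      Cfsg.IsQuasiDihedral X := by
  haveI : Fact (Nat.Prime 2) := ⟨Nat.prime_two⟩
  haveI := hX.isNilpotent
  obtain ⟨n, hn⟩ := IsPGroup.iff_card.1 hX
  have hlt : Nat.card Q < Nat.card X := by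
    rcases lt_or_eq_of_le (Subgroup.card_le_card_group Q) with h | h
    · exact h
    · exact absurd ((Subgroup.eq_top_of_card_eq Q h) ▸ mem_top g) hg
  by_cases hab : IsMulCommutative Q
  · have hab' : ∀ u ∈ Q, ∀ v ∈ Q, u * v = v * u := fun u hu v hv =>
      congrArg Subtype.val (hab.is_comm.comm (⟨u, hu⟩ : Q) ⟨v, hv⟩)
    obtain ⟨T, hT⟩ : ∃ T : Subgroup X, T = Q ⊔ zpowers g := ⟨_, rfl⟩
    have hgN : g ∈ normalizer (Q : Set X) := by
      refine mem_normalizer_iff.2 fun q => ⟨fun h => hgn q h, fun h => ?_⟩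
      have h1 := hgn _ h
      have h2 := mul_mem (mul_mem (inv_mem hg2) h1) hg2
      rwa [show (g * g)⁻¹ * (g * (g * q * g⁻¹) * g⁻¹) * (g * g) = q by group] at h2
    have hgT : g ∈ T := hT ▸ mem_sup_right (mem_zpowers g)
    have hQT : Q ≤ T := hT ▸ le_sup_left
    have hdec : ∀ b ∈ T, b ∈ Q ∨ b * g ∈ Q := by
      intro b hb
      rw [hT, ← SetLike.mem_coe,
        Subgroup.coe_mul_of_right_le_normalizer_left Q (zpowers g) (zpowers_le.2 hgN)] at hb
      obtain ⟨q, hq, _, ⟨i, rfl⟩, rfl⟩ := Set.mem_mul.mp hb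
      have hev : ∀ k : ℤ, g ^ (2 * k) ∈ Q := fun k => by
        rw [zpow_mul, zpow_two]; exact zpow_mem hg2 k
      rcases Int.even_or_odd i with ⟨k, rfl⟩ | ⟨k, rfl⟩
      · left
        exact mul_mem hq (by show g ^ (k + k) ∈ Q; rw [← two_mul]; exact hev k)
      · right
        show q * g ^ (2 * k + 1) * g ∈ Q
        rw [mul_assoc, ← zpow_add_one, add_assoc, show (1 : ℤ) + 1 = 2 * 1 by norm_num, ← mul_add]
        exact mul_mem hq (hev _)
    have hi2 : (Q.subgroupOf T).index = 2 := by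
      rw [Subgroup.index_eq_two_iff]
      refine ⟨⟨g, hgT⟩, fun b => ?_⟩
      rcases hdec b b.2 with h | h
      · exact Or.inr ⟨h, fun h' => hg (by
          have := mul_mem (inv_mem h) (show (b : X) * g ∈ Q from h')
          rwa [inv_mul_cancel_left] at this)⟩
      · exact Or.inl ⟨h, fun h' => hg (by
          have := mul_mem (inv_mem (show (b : X) ∈ Q from h')) h
          rwa [inv_mul_cancel_left] at this)⟩
    haveI := Subgroup.normal_of_index_eq_two hi2
    obtain ⟨e, he⟩ : ∃ e : (Q.subgroupOf T) ≃* Q, e = Subgroup.subgroupOfEquivOfLe hQT := ⟨_, rfl⟩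
    obtain ⟨q, hq⟩ := hmove
    obtain ⟨hc4, -⟩ := CfsgLib.MetacyclicTwo.klein_of_transvection (hX.to_subgroup T)
      (metacyclic_subgroup hm T) (Q.subgroupOf T) hi2
      (fun u hu v hv => Subtype.ext (hab' u hu v hv))
      (α := MulAut.congr e.symm β)
      (fun h => hβ1 ((MulAut.congr e.symm).injective (by rw [h, map_one])))
      (by rwa [MulEquiv.orderOf_eq])
      (g := ⟨g, hgT⟩) hg
      ⟨e.symm q, fun h => hq (by
        have := (frattini_equiv e).2 h
        rw [map_mul, map_inv, MulEquiv.apply_symm_apply] at this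
        convert this using 2
        subst he
        rfl)⟩
    have hQ4 : Nat.card Q = 2 ^ 2 := by
      rw [← Nat.card_congr e.toEquiv, hc4]; norm_num
    have hn3 : 3 ≤ n := by
      rw [hQ4, hn] at hlt
      exact (Nat.pow_lt_pow_iff_right (by norm_num)).1 hlt
    have hcent : centralizer (Q : Set X) = Q := le_antisymm hC fun u hu =>
      mem_centralizer_iff.2 fun v hv => hab' v hv u hu
    exact CfsgLib.MetacyclicTwo.maximal_class_shape hn3 hn
      (CfsgLib.Transfer.maximal_class_of_self_centralizing n hn Q hQ4 hcent)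
  · obtain ⟨ι⟩ := CfsgLib.MetacyclicTwo.quaternion_of_aut (hX.to_subgroup Q)
      (metacyclic_subgroup hm Q) hab hβ1 hodd
    obtain ⟨hZ, h4, hc⟩ := quaternion_core hX Q ι hC
    have hQ8 : Nat.card Q = 2 ^ 3 := by
      rw [Nat.card_congr ι.toEquiv, Nat.card_eq_fintype_card, QuaternionGroup.card]; norm_num
    have hn4 : 4 ≤ n := by
      rw [hQ8, hn] at hlt
      exact (Nat.pow_lt_pow_iff_right (by norm_num)).1 hlt
    have hXZ : Nat.card (X ⧸ center X) = 2 ^ (n - 1) := by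
      have h1 := (center X).card_mul_index
      obtain ⟨m, rfl⟩ : ∃ m, n = m + 1 := ⟨n - 1, by omega⟩
      rw [hZ, hn, pow_succ, Subgroup.index_eq_card] at h1
      rw [Nat.add_sub_cancel]
      omega
    have hcl := CfsgLib.Transfer.maximal_class_of_self_centralizing (n - 1) hXZ _
      (h4.trans (by norm_num)) hc
    rw [Group.nilpotencyClass_quotient_center] at hcl
    exact CfsgLib.MetacyclicTwo.maximal_class_shape (by omega) hn (by omega)

end group

section fusion

open CfsgLib.Fusion Cfsg Cfsg.FusionSystem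
open CfsgLib.TwoFusion.SmallOrder (exists_restrict)

variable {Ω : Type u} [Group Ω] {S : Subgroup Ω} [Finite S] {F : FusionSystem S} {P : Subgroup Ω}

/-- **Strongly closed metacyclic subgroups for the prime two.** -/
theorem isNormal_of_metacyclic (hS : IsPGroup 2 S) (hF : F.IsSaturated 2) (hP : F.StronglyClosed P)
    (hm : Cfsg.IsMetacyclic ↥P) (hd : ¬ ∃ m : ℕ, Nonempty (↥P ≃* DihedralGroup m))
    (hq : ¬ ∃ m : ℕ, Nonempty (↥P ≃* QuaternionGroup m)) (hsd : ¬ Cfsg.IsQuasiDihedral ↥P) :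
    F.IsNormal P := by
  haveI : Fact (Nat.Prime 2) := ⟨Nat.prime_two⟩
  refine isNormal_of_le_centric_radical hS hF hP fun R hRc hRr => ?_
  by_contra hne
  have hRS := hRc.1
  haveI := finite_of_le hRS
  haveI := finite_autGroup F hRS
  haveI := finite_of_le hP.1
  obtain ⟨D, hD⟩ : ∃ D : Subgroup Ω, D = R ⊓ P := ⟨_, rfl⟩
  have hDR : D ≤ R := hD ▸ inf_le_left
  have hDP : D ≤ P := hD ▸ inf_le_right
  haveI := finite_of_le (hDR.trans hRS)
  have hDp : IsPGroup 2 D := hS.to_le (hDR.trans hRS)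
  set A := F.autGroup R
  have hPinv : ∀ α ∈ A, ∀ x ∈ R, x ∈ P → autFun α x ∈ P := fun α hα x hx hxP =>
    stronglyClosed_apply hP ((mem_autGroup_iff hRS).1 hα) hx hxP
  have hres : ∀ α : A, ∃ β : MulAut D, ∀ x ∈ D, autFun β x = autFun (α : MulAut R) x := fun α => by
    obtain ⟨β, -, he⟩ := exists_restrict hRS α.2 hDR fun x hx =>
      hD.ge ⟨autFun_mem _ (hDR hx), hPinv _ α.2 x (hDR hx) (hDP hx)⟩
    refine ⟨β, fun x hx => ?_⟩
    have := he 1 x hx
    rwa [pow_one, pow_one] at this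
  choose res hres using hres
  let ρ : A →* MulAut D := MonoidHom.mk' res fun a b => autFun_inj fun x hx => by
    rw [hres _ x hx, autFun_mul _ _ hx, Subgroup.coe_mul, autFun_mul _ _ (hDR hx),
      hres a _ (autFun_mem _ hx), hres b x hx]
  have hρ : ∀ (α : A) (x : Ω), x ∈ D → autFun (ρ α) x = autFun (α : MulAut R) x := hres
  let A1 : Subgroup A :=
    { carrier := {α | Stab (α : MulAut R) R P}
      one_mem' := fun x hx _ => by simp [autFun_one hx]
      mul_mem' := fun {a b} ha hb x hx _ => by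
        rw [Subgroup.coe_mul, autFun_mul _ _ hx]
        have := mul_mem (hb x hx hx) (ha _ (autFun_mem (b : MulAut R) hx) (autFun_mem (b : MulAut R) hx))
        rwa [mul_assoc, mul_inv_cancel_left] at this
      inv_mem' := fun {a} ha x hx _ => by
        have h1 := inv_mem (ha _ (autFun_mem (a : MulAut R)⁻¹ hx) (autFun_mem (a : MulAut R)⁻¹ hx))
        rw [autFun_apply_inv _ hx, mul_inv_rev, inv_inv] at h1
        exact h1 }
  haveI hA1n : A1.Normal := ⟨fun a ha g x hx _ => by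
    have hm := (mem_autGroup_iff hRS).mp g.2
    set y := autFun (g : MulAut R)⁻¹ x with hy
    have hyR : y ∈ R := autFun_mem _ hx
    have h1 := hPinv _ g.2 _ (mul_mem (inv_mem hyR) (autFun_mem _ hyR)) (ha y hyR hyR)
    rw [hm.map_mul (inv_mem hyR) (autFun_mem _ hyR), hm.map_inv hyR, hy, autFun_apply_inv _ hx] at h1
    show x⁻¹ * autFun ((g : MulAut R) * (a : MulAut R) * (g : MulAut R)⁻¹) x ∈ P
    rwa [autFun_mul _ _ hx, autFun_mul _ _ hyR]⟩
  -- an element of `A1` of odd order fixing `D` is trivial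
  have hfix : ∀ α ∈ A1, ∀ m : ℕ, ¬ 2 ∣ m → α ^ m = 1 → ρ α = 1 → (α : MulAut R) = 1 := by
    intro α hα m hm hαm hρ1
    refine autFun_inj fun x hx => ?_
    rw [autFun_one hx]
    refine fixed_of_series hS hRS hm (by rw [← Subgroup.coe_pow, hαm]; rfl) hα
      (fun y hy hyP => ?_) x hx hx
    have hyD : y ∈ D := hD.ge ⟨hy, hyP⟩
    rw [← hρ α y hyD, hρ1, autFun_one hyD]
  -- a normal `2`-subgroup of the automizer only contains conjugations by `R`
  have hY : ∀ Y : Subgroup A, Y.Normal → IsPGroup 2 Y → ∀ α : A, α ∈ Y → ∀ n ∈ S,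
      (∀ x ∈ R, autFun (α : MulAut R) x = n * x * n⁻¹) → n ∈ R := by
    intro Y hYn hYp α hαY n hnS hαe
    haveI := hYn
    obtain ⟨r, hr, he⟩ := mem_inn_iff.mp
      (hRr.2.le (Subgroup.mem_map_of_mem A.subtype (le_pCore_of_normal Y hYp hαY)))
    have hc : r⁻¹ * n ∈ centralizerIn S R := by
      refine ⟨S.mul_mem (S.inv_mem (hRS hr)) hnS, fun y hy => ?_⟩
      have h2 : n * y * n⁻¹ = r * y * r⁻¹ := (hαe y hy).symm.trans (he y hy)
      calc y * (r⁻¹ * n) = r⁻¹ * (r * y * r⁻¹) * n := by group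
        _ = r⁻¹ * n * y := by rw [← h2]; group
    have := mul_mem hr (hRc.2 R (isConj_refl F hRS) hc)
    rwa [mul_inv_cancel_left] at this
  obtain ⟨L, hL⟩ : ∃ L : Subgroup A, L = A1 ⊓ (trivMod D).comap ρ := ⟨_, rfl⟩
  have hLn : L.Normal := by
    rw [hL]; exact Subgroup.normal_inf_normal _ _
  have hLp : IsPGroup 2 L := by
    rintro ⟨α, hα⟩
    rw [hL] at hα
    obtain ⟨k, hk⟩ := pPower_of_all_powers (p := 2) F hRS (α := (α : MulAut R)) fun j m hm hjm => by
      rw [← Subgroup.coe_pow]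
      have hmem : α ^ j ∈ A1 ⊓ (trivMod D).comap ρ := pow_mem hα j
      have hjm' : (α ^ j) ^ m = 1 := Subtype.ext (by simpa using hjm)
      refine hfix _ hmem.1 m hm hjm' (eq_one_of_trivMod hDp hmem.2 hm ?_)
      rw [← map_pow, hjm', map_one]
    exact ⟨k, Subtype.ext (Subtype.ext (by simpa using hk))⟩
  have hPn : R ≤ Subgroup.normalizer (P : Set Ω) := hRS.trans (stronglyClosed_normalized hP)
  have hconjA : ∀ n ∈ P, n ∈ Subgroup.normalizer (R : Set Ω) →
      ∃ γ : A, γ ∈ A1 ∧ ∀ x ∈ R, autFun (γ : MulAut R) x = n * x * n⁻¹ := fun n hn hnn => by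
    have hmem : normalizerInToAut S R ⟨n, hP.1 hn, hnn⟩ ∈ A :=
      autInducedBy_le_autGroup hRS (by rw [← range_normalizerInToAut]; exact ⟨_, rfl⟩)
    refine ⟨⟨_, hmem⟩, fun x hx _ => ?_, fun x hx =>
      autFun_normalizerInToAut (⟨n, hP.1 hn, hnn⟩ : normalizerIn S R) hx⟩
    show x⁻¹ * autFun (normalizerInToAut S R ⟨n, hP.1 hn, hnn⟩) x ∈ P
    rw [autFun_normalizerInToAut (⟨n, hP.1 hn, hnn⟩ : normalizerIn S R) hx,
      show x⁻¹ * (n * x * n⁻¹) = (x⁻¹ * n * x) * n⁻¹ by group]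
    exact mul_mem (conj_inv_mem_of_mem_normalizer (hPn hx) hn) (inv_mem hn)
  have hout : ∀ C : Subgroup Ω, C ≤ P → R ≤ Subgroup.normalizer (C : Set Ω) → ¬ C ≤ R →
      ∃ c ∈ C, c ∈ Subgroup.normalizer (R : Set Ω) ∧ c ∉ R := by
    intro C hCP hRC hCR
    have hlt : R < R ⊔ C := lt_of_le_of_ne le_sup_left fun h => hCR (h ▸ le_sup_right)
    haveI := finite_of_le (sup_le hRS (hCP.trans hP.1))
    obtain ⟨g, hg, hgn, hgR⟩ :=
      exists_mem_normalizer_not_mem (hS.to_le (sup_le hRS (hCP.trans hP.1))) hlt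
    rw [← SetLike.mem_coe, Subgroup.coe_mul_of_left_le_normalizer_right R C hRC] at hg
    obtain ⟨r, hr, c, hc, rfl⟩ := Set.mem_mul.mp hg
    refine ⟨c, hc, ?_, fun h => hgR (mul_mem hr h)⟩
    have := mul_mem (inv_mem (Subgroup.le_normalizer hr)) hgn
    rwa [inv_mul_cancel_left] at this
  -- the centralizer of `D` in `P` lies in `R`
  have hCD : P ⊓ Subgroup.centralizer (D : Set Ω) ≤ R := by
    by_contra hCR
    have hRN : R ≤ Subgroup.normalizer ((P ⊓ Subgroup.centralizer (D : Set Ω) : Subgroup Ω) : Set Ω) := by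
      intro x hx
      haveI := finite_of_le ((inf_le_left : P ⊓ Subgroup.centralizer (D : Set Ω) ≤ P).trans hP.1)
      refine mem_normalizer_of_conj_mem fun c hc =>
        ⟨conj_mem_of_mem_normalizer (hPn hx) hc.1, Subgroup.mem_centralizer_iff.2 fun d hd => ?_⟩
      have hd' : x⁻¹ * d * x ∈ D := hD.ge
        ⟨R.mul_mem (R.mul_mem (R.inv_mem hx) (hDR hd)) hx,
          conj_inv_mem_of_mem_normalizer (hPn hx) (hDP hd)⟩
      have h1 := Subgroup.mem_centralizer_iff.1 hc.2 _ hd'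
      calc d * (x * c * x⁻¹) = x * (x⁻¹ * d * x * c) * x⁻¹ := by group
        _ = x * c * x⁻¹ * d := by rw [h1]; group
    obtain ⟨c, hc, hcn, hcR⟩ := hout _ inf_le_left hRN hCR
    obtain ⟨γ, hγ1, hγe⟩ := hconjA c hc.1 hcn
    refine hcR (hY L hLn hLp γ ?_ c (hP.1 hc.1) hγe)
    rw [hL]
    refine ⟨hγ1, ?_⟩
    have h1 : ρ γ = 1 := autFun_inj fun x hx => by
      rw [hρ γ x hx, hγe x (hDR hx), autFun_one hx,
        ← Subgroup.mem_centralizer_iff.1 hc.2 x hx, mul_inv_cancel_right]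
    show ρ γ ∈ trivMod D
    rw [h1]; exact one_mem _
  obtain ⟨n, hnP, hnn, hnR⟩ := hout P le_rfl hPn hne
  obtain ⟨g, hgP, hgn, hgR, hgg⟩ : ∃ g ∈ P, g ∈ Subgroup.normalizer (R : Set Ω) ∧ g ∉ R ∧ g * g ∈ R := by
    have key : ∀ k : ℕ, ∀ x ∈ P, x ∈ Subgroup.normalizer (R : Set Ω) → x ∉ R → x ^ 2 ^ k = 1 →
        ∃ g ∈ P, g ∈ Subgroup.normalizer (R : Set Ω) ∧ g ∉ R ∧ g * g ∈ R := by
      intro k
      induction k with
      | zero =>
        intro x _ _ hxR h
        rw [pow_zero, pow_one] at h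
        exact absurd (h ▸ one_mem _) hxR
      | succ k ih =>
        intro x hxP hxn hxR h
        by_cases hxx : x * x ∈ R
        · exact ⟨x, hxP, hxn, hxR, hxx⟩
        · exact ih (x * x) (mul_mem hxP hxP) (mul_mem hxn hxn) hxx
            (by rw [← pow_two, ← pow_mul, ← pow_succ']; exact h)
    obtain ⟨k, hk⟩ := hS ⟨n, hP.1 hnP⟩
    exact key k n hnP hnn hnR (by simpa using congrArg Subtype.val hk)
  obtain ⟨γ, hγ1, hγe⟩ := hconjA g hgP hgn
  have hγL : ρ γ ∉ trivMod D := fun h => hgR (hY L hLn hLp γ (hL.ge ⟨hγ1, h⟩) g (hP.1 hgP) hγe)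
  -- an element of odd order acting non-trivially on `D`
  obtain ⟨β, hβ1, hβodd⟩ : ∃ β : MulAut D, β ≠ 1 ∧ Odd (orderOf β) := by
    by_contra hcon
    refine hgR (hY A1 hA1n ?_ γ hγ1 g (hP.1 hgP) hγe)
    rintro ⟨α, hα⟩
    obtain ⟨k, hk⟩ := pPower_of_all_powers (p := 2) F hRS (α := (α : MulAut R)) fun j m hm hjm => by
      rw [← Subgroup.coe_pow]
      have hjm' : (α ^ j) ^ m = 1 := Subtype.ext (by simpa using hjm)
      refine hfix _ (pow_mem hα j) m hm hjm' (by_contra fun h1 => hcon ⟨_, h1, ?_⟩)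
      have hd : orderOf (ρ (α ^ j)) ∣ m :=
        orderOf_dvd_of_pow_eq_one (by rw [← map_pow, hjm', map_one])
      exact Nat.not_even_iff_odd.1 fun he => hm ((even_iff_two_dvd.1 he).trans hd)
    exact ⟨k, Subtype.ext (Subtype.ext (by simpa using hk))⟩
  -- transport to `↥P`
  let e : D ≃* R.subgroupOf P :=
    { toFun := fun x => ⟨⟨x, hDP x.2⟩, hDR x.2⟩
      invFun := fun x => ⟨((x : P) : Ω), hD.ge ⟨x.2, (x : P).2⟩⟩
      left_inv := fun _ => rfl
      right_inv := fun _ => rfl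
      map_mul' := fun _ _ => rfl }
  have hgnQ : ∀ q ∈ R.subgroupOf P, (⟨g, hgP⟩ : P) * q * (⟨g, hgP⟩ : P)⁻¹ ∈ R.subgroupOf P :=
    fun q hq => by
      show g * (q : Ω) * g⁻¹ ∈ R
      exact conj_mem_of_mem_normalizer hgn hq
  have hmove : ∃ q : R.subgroupOf P,
      q⁻¹ * ⟨(⟨g, hgP⟩ : P) * q * (⟨g, hgP⟩ : P)⁻¹, hgnQ _ q.2⟩ ∉ frattini (R.subgroupOf P) := by
    by_contra hcon
    push Not at hcon
    refine hγL fun x => (frattini_equiv e).1 ?_
    convert hcon (e x) using 1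
    rw [map_mul, map_inv]
    congr 1
    refine Subtype.ext (Subtype.ext ?_)
    show ((ρ γ x : D) : Ω) = g * (x : Ω) * g⁻¹
    rw [← autFun_coe, hρ γ x x.2, hγe x (hDR x.2)]
  have hC : Subgroup.centralizer ((R.subgroupOf P : Subgroup P) : Set P) ≤ R.subgroupOf P := by
    intro c hc
    refine hCD ⟨c.2, Subgroup.mem_centralizer_iff.2 fun d hd => ?_⟩
    exact congrArg Subtype.val
      (Subgroup.mem_centralizer_iff.1 hc ⟨d, hDP hd⟩ (show d ∈ R from hDR hd))
  rcases shape_of_core (hS.to_le hP.1) hm (R.subgroupOf P) (g := ⟨g, hgP⟩) hgR hgnQ hgg hC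
      (MulAut.congr e β) (fun h => hβ1 ((MulAut.congr e).injective (by rw [h, map_one])))
      (by rwa [MulEquiv.orderOf_eq]) hmove with h | h | h
  · exact hd h
  · exact hq h
  · exact hsd h

end fusion

end CfsgLib.FusionMetacyclicTwo
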