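import Cfsg.Agent.Lib.FusionAlperin
import Cfsg.Agent.Lib.FusionHyperfocal
import Cfsg.Agent.Lib.LocalChain

/-!
# A normal subsystem lies in a subsystem of `p`-power index containing its group
-/

set_option autoImplicit false

namespace CfsgLib.NormalPPower

open Cfsg Cfsg.FusionSystem CfsgLib.Fusion

universe u

theorem subsystem {Ω : Type u} [Group Ω] {S T U : Subgroup Ω} [Finite S] {p : ℕ} [Fact p.Prime]
    (hS : IsPGroup p S) (F : FusionSystem S) (E : FusionSystem T) (hTS : T ≤ S) (hEs : E.IsSaturated p)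
    (hEF : E.IsSubsystemOf F) (F₀ : FusionSystem U) (hTU : T ≤ U)
    (hres : ∀ P : Subgroup Ω, P ≤ U →
      (pResidual p (F.autGroup P)).map (F.autGroup P).subtype ≤ F₀.autGroup P) :
    E.IsSubsystemOf F₀ := by
  haveI : Finite T := finite_of_le hTS
  have hT : IsPGroup p T := hS.to_le hTS
  have hpr : Propagates E (fun P f => Map F₀ P f) :=
    { congr := fun h he => h.congr he
      comp := fun _ _ hf hg h => hf.comp hg h
      inv := by
        intro P f g _ _ hgf hM
        obtain ⟨g', hg', hg'f, -, -⟩ := hM.exists_inv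
        refine hg'.congr fun y hy => ?_
        obtain ⟨x, hx, rfl⟩ := hM.mem_img.mp hy
        rw [hg'f x hx, hgf x hx]
      id := fun h => map_id (h.trans hTU) }
  intro P φ hφ
  refine (alperin hT hEs hpr (fun Q hQ α hα => ?_) (map_ext hφ)).mem_hom fun x => (ext_coe φ x).symm
  have hfn : E.IsFullyNormalized Q := hQ.elim (fun e => e ▸ isFullyNormalized_top E) fun e => e.2.1
  have hQT := hfn.1
  haveI := finite_of_le (hQT.trans hTS)
  haveI := finite_autGroup E hQT
  refine (mem_autGroup_iff (hQT.trans hTU)).1 ?_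
  obtain ⟨R, hR⟩ := (isFullyAutomized_of_fullyNormalized hT hEs hfn).2
  have hle : E.autGroup Q ≤ F.autGroup Q := fun β hβ => by
    obtain ⟨φ, hφ', he⟩ := (mem_autGroup_iff hQT).1 hβ
    exact (mem_autGroup_iff (hQT.trans hTS)).2 ⟨φ, hEF _ hφ', he⟩
  have hsub : (⊤ : Subgroup (E.autGroup Q)) ≤ (F₀.autGroup Q).comap (E.autGroup Q).subtype := by
    rw [← CfsgLib.Local.sylow_sup_pResidual R, sup_le_iff]
    constructor
    · intro β hβ
      rw [hR, Subgroup.mem_subgroupOf] at hβ
      obtain ⟨s, hs, -, he⟩ := mem_autInducedBy_iff.1 hβ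
      exact (mem_autGroup_iff (hQT.trans hTU)).2
        ((map_conj (hQT.trans hTU) (hTU hs)).congr fun x hx => (he x hx).symm)
    · intro β hβ
      exact hres Q (hQT.trans hTU)
        ⟨Subgroup.inclusion hle β, pResidual_map_le (Subgroup.inclusion hle) ⟨β, hβ, rfl⟩, rfl⟩
  exact hsub (Subgroup.mem_top (⟨α, hα⟩ : E.autGroup Q))

end CfsgLib.NormalPPower
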