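import Cfsg.Agent.Lib.FusionCriteria
import Cfsg.Agent.Lib.FusionSat
import Cfsg.Agent.Lib.FusionAlperin

/-!
# A centric subgroup meeting a normal subsystem in a non-centric subgroup is not radical
-/

set_option autoImplicit false
set_option linter.style.haveILetI false

namespace CfsgLib.NormalRadical

open Cfsg Cfsg.FusionSystem CfsgLib.Fusion

universe u

variable {Ω : Type u} [Group Ω] {S T : Subgroup Ω} [Finite S] {p : ℕ} [Fact p.Prime] {F : FusionSystem S}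

theorem mem_core (hS : IsPGroup p S) (hT : F.StronglyClosed T) {P : Subgroup Ω} (hP : P ≤ S)
    {α : MulAut P} (hα : α ∈ F.autGroup P) (h1 : ∀ x ∈ P, x ∈ T → autFun α x = x)
    (h2 : ∀ x ∈ P, x⁻¹ * autFun α x ∈ P ⊓ T) :
    α ∈ (Cfsg.pCore p (F.autGroup P)).map (F.autGroup P).subtype := by
  haveI := finite_of_le hP
  haveI := finite_autGroup F hP
  have hinv : ∀ β ∈ F.autGroup P, ∀ x ∈ P, x ∈ T → autFun β x ∈ T := fun β hβ x hx hxT =>
    stronglyClosed_apply hT ((mem_autGroup_iff hP).1 hβ) hx hxT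
  have hmul : ∀ (β : MulAut P) (x y : Ω), x ∈ P → y ∈ P → autFun β (x * y) = autFun β x * autFun β y :=
    fun β x y hx hy => by
      rw [autFun_apply β hx, autFun_apply β hy, autFun_apply β (mul_mem hx hy), ← Subgroup.coe_mul,
        ← map_mul]
      rfl
  have hinvm : ∀ (β : MulAut P) (x : Ω), x ∈ P → autFun β x⁻¹ = (autFun β x)⁻¹ := fun β x hx => by
    rw [autFun_apply β hx, autFun_apply β (inv_mem hx), ← Subgroup.coe_inv, ← map_inv]
    rfl
  let Y : Subgroup (F.autGroup P) :=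
    { carrier := {β | (∀ x ∈ P, x ∈ T → autFun (β : MulAut P) x = x) ∧
        ∀ x ∈ P, x⁻¹ * autFun (β : MulAut P) x ∈ P ⊓ T}
      one_mem' := ⟨fun x hx _ => by rw [OneMemClass.coe_one, autFun_one hx],
        fun x hx => by rw [OneMemClass.coe_one, autFun_one hx, inv_mul_cancel]; exact one_mem _⟩
      mul_mem' := by
        rintro β γ ⟨b1, b2⟩ ⟨c1, c2⟩
        refine ⟨fun x hx hxT => by rw [Subgroup.coe_mul, autFun_mul _ _ hx, c1 x hx hxT, b1 x hx hxT],
          fun x hx => ?_⟩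
        have hy := autFun_mem (γ : MulAut P) hx
        rw [Subgroup.coe_mul, autFun_mul _ _ hx]
        have := mul_mem (c2 x hx) (b2 _ hy)
        rwa [mul_assoc, mul_inv_cancel_left] at this
      inv_mem' := by
        rintro β ⟨b1, b2⟩
        refine ⟨fun x hx hxT => ?_, fun x hx => ?_⟩
        · rw [Subgroup.coe_inv]
          conv_lhs => rw [← b1 x hx hxT]
          rw [autFun_inv_apply _ hx]
        · rw [Subgroup.coe_inv]
          have hy := autFun_mem ((β : MulAut P))⁻¹ hx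
          have h := b2 _ hy
          rw [autFun_apply_inv _ hx] at h
          have h' := inv_mem h
          rwa [mul_inv_rev, inv_inv] at h' }
  haveI hY : Y.Normal := ⟨fun β hβ g => by
    obtain ⟨b1, b2⟩ := hβ
    have hg := g.2
    have hg' := inv_mem g.2
    refine ⟨fun x hx hxT => ?_, fun x hx => ?_⟩
    · have hy := autFun_mem ((g : MulAut P))⁻¹ hx
      rw [Subgroup.coe_mul, Subgroup.coe_mul, Subgroup.coe_inv, autFun_mul _ _ hx, autFun_mul _ _ hy,
        b1 _ hy (hinv _ hg' x hx hxT), autFun_apply_inv _ hx]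
    · have hy := autFun_mem ((g : MulAut P))⁻¹ hx
      have hz := autFun_mem (β : MulAut P) hy
      have h := b2 _ hy
      rw [Subgroup.coe_mul, Subgroup.coe_mul, Subgroup.coe_inv, autFun_mul _ _ hx, autFun_mul _ _ hy]
      have h3 : x⁻¹ * autFun (g : MulAut P) (autFun (β : MulAut P) (autFun ((g : MulAut P))⁻¹ x)) =
          autFun (g : MulAut P) ((autFun ((g : MulAut P))⁻¹ x)⁻¹ *
            autFun (β : MulAut P) (autFun ((g : MulAut P))⁻¹ x)) := by
        rw [hmul _ _ _ (inv_mem hy) hz, hinvm _ _ hy, autFun_apply_inv _ hx]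
      rw [h3]
      exact ⟨autFun_mem _ h.1, hinv _ hg _ h.1 h.2⟩⟩
  have hYp : IsPGroup p Y := by
    haveI := finite_of_le (inf_le_left.trans hP : P ⊓ T ≤ S)
    obtain ⟨a, ha⟩ := IsPGroup.iff_card.mp (hS.to_le (inf_le_left.trans hP : P ⊓ T ≤ S))
    rintro ⟨β, b1, b2⟩
    refine ⟨a, Subtype.ext (Subtype.ext (autFun_inj fun x hx => ?_))⟩
    have hit : ∀ m : ℕ, autFun ((β : MulAut P) ^ m) x = x * (x⁻¹ * autFun (β : MulAut P) x) ^ m := by
      intro m
      induction m with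
      | zero => rw [pow_zero, pow_zero, autFun_one hx, mul_one]
      | succ m ih =>
        have hd := pow_mem (b2 x hx) m
        rw [pow_succ', autFun_mul _ _ hx, ih, hmul _ _ _ hx hd.1, b1 _ hd.1 hd.2, pow_succ',
          ← mul_assoc x, mul_inv_cancel_left]
    simp only [SubgroupClass.coe_pow, OneMemClass.coe_one]
    rw [hit, autFun_one hx]
    have h3 : (⟨_, b2 x hx⟩ : ↥(P ⊓ T)) ^ p ^ a = 1 := by rw [← ha]; exact pow_card_eq_one'
    have h4 : (x⁻¹ * autFun (β : MulAut P) x) ^ p ^ a = 1 := by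
      simpa using congrArg Subtype.val h3
    rw [h4, mul_one]
  exact ⟨⟨α, hα⟩, le_pCore_of_normal Y hYp ⟨h1, h2⟩, rfl⟩

theorem main (hS : IsPGroup p S) (hF : F.IsSaturated p) (E : FusionSystem T) (hE : E.IsNormalIn F p)
    (P : Subgroup Ω) (hP : F.IsCentric P) (hPT : ¬ E.IsCentric (P ⊓ T)) :
    (∃ φ ∈ F.Hom P, ∃ x ∈ S ⊓ Subgroup.normalizer (φ.range : Set Ω), x ∉ φ.range ∧
      ∃ α ∈ ((Cfsg.pCore p (F.autGroup φ.range)).map (F.autGroup φ.range).subtype :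
        Subgroup (MulAut φ.range)),
        ∀ y : φ.range, ((α y : φ.range) : Ω) = x * (y : Ω) * x⁻¹) ∧ ¬ F.IsRadical p P := by
  obtain ⟨hsub, hT, -, -⟩ := hE.1.2.2
  have hPS := hP.1
  have hTS := hT.1
  haveI := finite_of_le hPS
  have hUS : P ⊓ T ≤ S := inf_le_left.trans hPS
  -- move `P ⊓ T` to a fully normalized conjugate
  obtain ⟨W, k, hW, hk, hkW⟩ := exists_fullyNormalized_map hS hF hUS
  have hPN : P ≤ normalizerIn S (P ⊓ T) := fun x hx => ⟨hPS hx, by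
    haveI : Finite ↥(P ⊓ T) := finite_of_le hUS
    exact mem_normalizer_of_conj_mem fun y hy => ⟨P.mul_mem (P.mul_mem hx hy.1) (P.inv_mem hx),
      stronglyClosed_apply hT (map_conj le_rfl (hPS hx)) (hTS hy.2) hy.2⟩⟩
  have hkP := hk.restrict hPN
  -- a centralizing element outside
  obtain ⟨d, hdT, hdc, hdW⟩ : ∃ d ∈ T, (∀ y ∈ W, y * d = d * y) ∧ d ∉ W := by
    simp only [FusionSystem.IsCentric, not_and, not_forall] at hPT
    obtain ⟨U', hU', hno⟩ := hPT inf_le_right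
    obtain ⟨c, hc, hcU⟩ := SetLike.not_le_iff_exists.1 hno
    obtain ⟨ψ, hψ, hψr⟩ := hU'
    have hFc : F.IsConj U' W := isConj_trans (isConj_symm ⟨ψ, hsub _ hψ, hψr⟩)
      (isConj_iff.2 ⟨k, hk.restrict (le_normalizerIn hUS), hkW⟩)
    obtain ⟨f, hf, hfimg⟩ := isConj_iff.1 hFc
    have hU'S : U' ≤ S := hf.le
    obtain ⟨g, hg, hgf⟩ := receptive_extend (R := U' ⊔ centralizerIn S U')
      (isReceptive_of_fullyNormalized hS hF hW) hf hfimg le_sup_left
      (inExtender_sup (fun _ h => inExtender_of_mem hf h) (fun _ h => inExtender_of_centralizerIn _ h)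
        (let ⟨φ, _, he⟩ := hf; ⟨φ, he⟩))
    have hcS : c ∈ centralizerIn S U' := ⟨hTS hc.1, hc.2⟩
    have hcR : c ∈ U' ⊔ centralizerIn S U' := Subgroup.mem_sup_right hcS
    have himg : img g U' = W := (img_congr hgf).trans hfimg
    refine ⟨g c, stronglyClosed_apply hT hg hcR hc.1, fun y hy => ?_, fun hgc => ?_⟩
    · obtain ⟨y', hy', rfl⟩ := (hg.restrict le_sup_left).mem_img.1 (himg.ge hy)
      rw [← hg.map_mul (Subgroup.mem_sup_left hy') hcR, ← hg.map_mul hcR (Subgroup.mem_sup_left hy'),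
        Subgroup.mem_centralizer_iff.1 hc.2 y' hy']
    · obtain ⟨y', hy', he⟩ := (hg.restrict le_sup_left).mem_img.1 (himg.ge hgc)
      exact hcU (hg.injOn (Subgroup.mem_sup_left hy') hcR he ▸ hy')
  -- the conjugate of `P`
  obtain ⟨φ, hφ, hφk⟩ := hkP
  set P' := φ.range with hP'
  have hφm : Map F P k := ⟨φ, hφ, hφk⟩
  have hP'k : P' = img k P := range_eq_img_of_eq hφk
  have hP'S : P' ≤ S := hP'k ▸ hφm.img_le
  haveI := finite_of_le hP'S
  have hP'T : P' ⊓ T = W := by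
    refine le_antisymm (fun y hy => ?_) fun y hy => ?_
    · obtain ⟨x, hx, rfl⟩ := hφm.mem_img.1 (hP'k ▸ hy.1)
      obtain ⟨g, hg, hgk, -, -⟩ := hφm.exists_inv
      have hxT : x ∈ T := hgk x hx ▸ stronglyClosed_apply hT hg (mem_img_of_mem k hx) hy.2
      exact hkW.le (mem_img_of_mem k ⟨hx, hxT⟩)
    · obtain ⟨x, hx, rfl⟩ := (hk.restrict (le_normalizerIn hUS)).mem_img.1 (hkW.ge hy)
      exact ⟨hP'k ▸ mem_img_of_mem k hx.1, stronglyClosed_apply hT hφm hx.1 hx.2⟩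
  let C := T ⊓ Subgroup.centralizer (W : Set Ω)
  have hdC : d ∈ C := ⟨hdT, Subgroup.mem_centralizer_iff.2 hdc⟩
  have hCS : C ≤ S := inf_le_left.trans hTS
  have hWn : ∀ x ∈ P', ∀ y ∈ W, x * y * x⁻¹ ∈ W := fun x hx y hy => by
    rw [← hP'T] at hy ⊢
    exact ⟨P'.mul_mem (P'.mul_mem hx hy.1) (P'.inv_mem hx),
      stronglyClosed_apply hT (map_conj le_rfl (hP'S hx)) (hTS hy.2) hy.2⟩
  have hCn : P' ≤ Subgroup.normalizer (C : Set Ω) := fun x hx => by
    haveI := finite_of_le hCS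
    refine mem_normalizer_of_conj_mem fun c hc => ⟨stronglyClosed_apply hT (map_conj le_rfl (hP'S hx))
      (hCS hc) hc.1, Subgroup.mem_centralizer_iff.2 fun y hy => ?_⟩
    have h := Subgroup.mem_centralizer_iff.1 hc.2 _ (hWn x⁻¹ (inv_mem hx) y hy)
    rw [inv_inv] at h
    calc y * (x * c * x⁻¹) = x * (x⁻¹ * y * x * c) * x⁻¹ := by group
      _ = x * (c * (x⁻¹ * y * x)) * x⁻¹ := by rw [h]
      _ = x * c * x⁻¹ * y := by group
  have hlt : P' < P' ⊔ C := lt_of_le_of_ne le_sup_left fun h =>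
    hdW (hP'T ▸ ⟨h.ge (Subgroup.mem_sup_right hdC), hdT⟩)
  haveI := finite_of_le (sup_le hP'S hCS)
  obtain ⟨g, hg, hgn, hgP⟩ := exists_mem_normalizer_not_mem (hS.to_le (sup_le hP'S hCS)) hlt
  rw [← SetLike.mem_coe, Subgroup.coe_mul_of_left_le_normalizer_right P' C hCn] at hg
  obtain ⟨u, hu, c, hc, rfl⟩ := Set.mem_mul.mp hg
  have hcn : c ∈ Subgroup.normalizer (P' : Set Ω) := by
    have := mul_mem (inv_mem (Subgroup.le_normalizer hu)) hgn
    rwa [inv_mul_cancel_left] at this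
  have hcP : c ∉ P' := fun h => hgP (mul_mem hu h)
  set α := normalizerInToAut S P' ⟨c, hCS hc, hcn⟩ with hαdef
  have hαc : ∀ y ∈ P', autFun α y = c * y * c⁻¹ := fun y hy => autFun_normalizerInToAut _ hy
  have hα : α ∈ F.autGroup P' :=
    autInducedBy_le_autGroup hP'S (by rw [← range_normalizerInToAut]; exact ⟨_, rfl⟩)
  have hα1 : ∀ y ∈ P', y ∈ T → autFun α y = y := fun y hy hyT => by
    rw [hαc y hy, ← Subgroup.mem_centralizer_iff.1 hc.2 y (hP'T ▸ ⟨hy, hyT⟩), mul_inv_cancel_right]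
  have hα2 : ∀ y ∈ P', y⁻¹ * autFun α y ∈ P' ⊓ T := fun y hy => by
    refine ⟨P'.mul_mem (P'.inv_mem hy) (autFun_mem α hy), ?_⟩
    rw [hαc y hy, show y⁻¹ * (c * y * c⁻¹) = (y⁻¹ * c * y⁻¹⁻¹) * c⁻¹ by group]
    exact T.mul_mem (stronglyClosed_apply hT (map_conj le_rfl (inv_mem (hP'S hy))) (hCS hc) hc.1)
      (T.inv_mem hc.1)
  refine ⟨⟨φ, hφ, c, ⟨hCS hc, hcn⟩, hcP, α, mem_core hS hT hP'S hα hα1 hα2, fun y => ?_⟩, fun hrad => ?_⟩
  · rw [← autFun_coe]; exact hαc y y.2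
  -- transport to `P`
  obtain ⟨g', hg', hgk, hkg, himg'⟩ := hφm.exists_inv
  have hkP' : ∀ x ∈ P, k x ∈ P' := fun x hx => hP'k ▸ mem_img_of_mem k hx
  have hg'P : ∀ y ∈ P', g' y ∈ P := fun y hy => by
    obtain ⟨x, hx, rfl⟩ := hφm.mem_img.1 (hP'k ▸ hy)
    rw [hgk x hx]; exact hx
  have hkg' : ∀ y ∈ P', k (g' y) = y := fun y hy => by
    obtain ⟨x, hx, rfl⟩ := hφm.mem_img.1 (hP'k ▸ hy)
    rw [hgk x hx]
  have hm : Map F P (fun x => g' (autFun α (k x))) :=
    (hφm.comp ((mem_autGroup_iff hP'S).1 hα) hkP').comp hg' fun x hx =>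
      hP'k ▸ autFun_mem α (hkP' x hx)
  have himgm : img (fun x => g' (autFun α (k x))) P = P := by
    refine CfsgLib.Fusion.eq_of_le_of_card_le hPS (img_le_iff.2 fun x hx => hg'P _ (autFun_mem α (hkP' x hx))) ?_
    rw [hm.card_img]
  obtain ⟨β, hβ, hβe⟩ := hm.exists_aut himgm
  have hβ1 : ∀ x ∈ P, x ∈ T → autFun β x = x := fun x hx hxT => by
    rw [hβe x hx, hα1 _ (hkP' x hx) (stronglyClosed_apply hT hφm hx hxT), hgk x hx]
  have hβ2 : ∀ x ∈ P, x⁻¹ * autFun β x ∈ P ⊓ T := fun x hx => by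
    have h := hα2 _ (hkP' x hx)
    have h1 : (k x)⁻¹ * autFun α (k x) ∈ img k P := hP'k ▸ h.1
    have e : g' ((k x)⁻¹ * autFun α (k x)) = x⁻¹ * autFun β x := by
      rw [hg'.map_mul (inv_mem (mem_img_of_mem k hx)) (hP'k ▸ autFun_mem α (hkP' x hx)),
        hg'.map_inv (mem_img_of_mem k hx), hgk x hx, hβe x hx]
    rw [← e]
    exact ⟨hg'P _ h.1, stronglyClosed_apply hT hg' h1 h.2⟩
  obtain ⟨v, hv, hve⟩ := mem_inn_iff.1 (hrad.2.le (mem_core hS hT hPS hβ hβ1 hβ2))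
  have hcc : (k v)⁻¹ * c ∈ centralizerIn S P' := by
    refine ⟨S.mul_mem (S.inv_mem (hP'S (hkP' v hv))) (hCS hc), fun y hy => ?_⟩
    obtain ⟨x, hx, rfl⟩ := hφm.mem_img.1 (hP'k ▸ hy)
    have h2 : k (v * x * v⁻¹) = c * k x * c⁻¹ := by
      rw [← hve x hx, hβe x hx, hkg' _ (autFun_mem α (hkP' x hx)), hαc _ (hkP' x hx)]
    rw [hφm.map_conj hv hx] at h2
    calc k x * ((k v)⁻¹ * c) = (k v)⁻¹ * (k v * k x * (k v)⁻¹) * c := by group
      _ = (k v)⁻¹ * c * k x := by rw [h2]; group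
  have := mul_mem (hkP' v hv) (hP.2 P' (isConj_iff.2 ⟨k, hφm, hP'k.symm⟩) hcc)
  rw [mul_inv_cancel_left] at this
  exact hcP this

end CfsgLib.NormalRadical
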