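import Cfsg.Agent.Lib.FusionFunctor
import Cfsg.Agent.Lib.FusionGeneration
import Cfsg.Agent.Lib.StableZJ
import Cfsg.Prelude.Def_PLocal

/-!
# Powers of the centre under a bound on the class
-/

set_option autoImplicit false

namespace CfsgLib.Fusion.PowerCenter

open Cfsg Cfsg.FusionSystem CfsgLib.Fusion
open scoped commutatorElement IsMulCommutative

set_option linter.unusedSectionVars false

variable {p : ℕ} [hp : Fact p.Prime]

/-- In a ring, a unipotent element of order `p` and bounded degree is close to one. -/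
theorem pow_mul_eq_zero {R : Type*} [Ring R] {d : R} {c : ℕ} (hd : d ^ c = 0)
    (h1 : (1 + d) ^ p = 1) : ∀ a j : ℕ, 1 ≤ j → c ≤ j + a * (p - 1) → (p : R) ^ a * d ^ j = 0 := by
  have hp2 := hp.out.two_le
  intro a
  induction a with
  | zero =>
    intro j _ hj
    rw [pow_zero, one_mul, pow_eq_zero_of_le (by omega) hd]
  | succ a iha =>
    suffices ∀ m j : ℕ, 1 ≤ j → c ≤ j + m → c ≤ j + (a + 1) * (p - 1) →
        (p : R) ^ (a + 1) * d ^ j = 0 from fun j h2 h3 => this c j h2 (by omega) h3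
    intro m
    induction m with
    | zero =>
      intro j _ hj _
      rw [pow_eq_zero_of_le (by omega) hd, mul_zero]
    | succ m ihm =>
      intro j hj hm hc
      have e : (1 + d) ^ p = ∑ k ∈ Finset.range (p + 1), d ^ k * (p.choose k : R) := by
        rw [add_comm, (Commute.one_right d).add_pow]
        simp
      rw [h1, Finset.sum_range_succ'] at e
      simp only [pow_zero, Nat.choose_zero_right, Nat.cast_one, mul_one, right_eq_add] at e
      have e2 : ∑ k ∈ Finset.range p, (p : R) ^ a * d ^ (j - 1) * (d ^ (k + 1) * (p.choose (k + 1) : R))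
          = 0 := by rw [← Finset.mul_sum, e, mul_zero]
      rw [Finset.sum_eq_single 0] at e2
      · rw [zero_add, Nat.choose_one_right, pow_one, ← mul_assoc, mul_assoc ((p : R) ^ a),
          ← pow_succ, Nat.sub_add_cancel hj, mul_assoc, ← (Nat.cast_commute p (d ^ j)).eq,
          ← mul_assoc, ← pow_succ] at e2
        exact e2
      · intro k hk hk0
        rw [Finset.mem_range] at hk
        rw [← mul_assoc, mul_assoc ((p : R) ^ a), ← pow_add]
        rcases eq_or_ne (k + 1) p with hkp | hkp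
        · rw [iha (j - 1 + (k + 1)) (by omega) ?_, zero_mul]
          rw [hkp]
          have : (a + 1) * (p - 1) = a * (p - 1) + (p - 1) := by ring
          omega
        · obtain ⟨t, ht⟩ := hp.out.dvd_choose_self (Nat.succ_ne_zero k) (by omega)
          rw [ht, Nat.cast_mul, ← mul_assoc, mul_assoc ((p : R) ^ a),
            ← (Nat.cast_commute p (d ^ (j - 1 + (k + 1)))).eq, ← mul_assoc, ← pow_succ,
            ihm (j - 1 + (k + 1)) (by omega) (by omega) (by omega), zero_mul]
      · intro h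
        exact absurd (Finset.mem_range.2 (by omega)) h

variable {Ω : Type*} [Group Ω] {S : Subgroup Ω} {R : Subgroup Ω} {F : FusionSystem S}

/-- An element of `N_S(R)` with `p`-th power in `R` fixes the powers of the centre of `R`. -/
theorem conj_pow_center {n : ℕ} (hcl : Subgroup.lowerCentralSeries S (n * (p - 1) + 1) = ⊥)
    (hR : R ≤ S) {s : Ω} (hs : s ∈ normalizerIn S R) (hsp : s ^ p ∈ R) {z : Ω} (hz : z ∈ R)
    (hzc : ∀ y ∈ R, y * z = z * y) : s * z ^ p ^ n * s⁻¹ = z ^ p ^ n := by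
  set A := R ⊓ Subgroup.centralizer (R : Set Ω) with hA
  have hAc : ∀ x y : A, x * y = y * x := fun x y => Subtype.ext ((y.2.2 _ x.2.1))
  haveI : IsMulCommutative A := ⟨⟨hAc⟩⟩
  have hAn : ∀ x ∈ A, s * x * s⁻¹ ∈ A := fun x hx =>
    ⟨conj_mem_of_mem_normalizer hs.2 hx.1, fun y hy => by
      have h := hx.2 _ (conj_inv_mem_of_mem_normalizer hs.2 hy)
      calc y * (s * x * s⁻¹) = s * (s⁻¹ * y * s * x) * s⁻¹ := by group
        _ = s * (x * (s⁻¹ * y * s)) * s⁻¹ := by rw [h]
        _ = _ := by group⟩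
  let f : A →* A := ((MulAut.conj s).toMonoidHom.comp A.subtype).codRestrict A fun x => hAn x x.2
  let F' : AddMonoid.End (Additive A) := MonoidHom.toAdditive f
  have hpow : ∀ (k : ℕ) (x : A), ((Additive.toMul ((F' ^ k) (Additive.ofMul x)) : A) : Ω)
      = s ^ k * x * (s ^ k)⁻¹ := by
    intro k
    induction k with
    | zero => intro x; simp
    | succ k ih =>
      intro x
      rw [pow_succ']
      show s * ((Additive.toMul ((F' ^ k) (Additive.ofMul x)) : A) : Ω) * s⁻¹ = _
      rw [ih, pow_succ']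
      group
  have hF : F' ^ p = 1 := by
    refine AddMonoidHom.ext fun x => Additive.toMul.injective (Subtype.ext ?_)
    obtain ⟨x, rfl⟩ := Additive.ofMul.surjective x
    refine (hpow p x).trans ?_
    rw [x.2.2 _ hsp, mul_inv_cancel_right]
    rfl
  set d := F' - 1 with hd
  have hγ : ∀ (k : ℕ) (x : A), ((Additive.toMul ((d ^ k) (Additive.ofMul x)) : A) : Ω) ∈
      Subgroup.lowerCentralSeries S k := by
    intro k
    induction k with
    | zero => intro x; exact hR x.2.1
    | succ k ih =>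
      intro x
      rw [pow_succ']
      set y := (Additive.toMul ((d ^ k) (Additive.ofMul x)) : A)
      show s * (y : Ω) * s⁻¹ / (y : Ω) ∈ _
      rw [div_eq_mul_inv, ← commutatorElement_def, ← commutatorElement_inv]
      exact Subgroup.inv_mem _ (Subgroup.commutator_mem_commutator (ih x) hs.1)
  have hd0 : d ^ (n * (p - 1) + 1) = 0 := by
    refine AddMonoidHom.ext fun x => Additive.toMul.injective (Subtype.ext ?_)
    obtain ⟨x, rfl⟩ := Additive.ofMul.surjective x
    have h := hγ (n * (p - 1) + 1) x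
    rw [hcl, Subgroup.mem_bot] at h
    exact h
  have key := pow_mul_eq_zero (p := p) hd0 (by rw [hd, add_sub_cancel, hF]) n 1 le_rfl (by omega)
  rw [pow_one, ← Nat.cast_pow] at key
  have h2 := congrArg (fun e : AddMonoid.End (Additive A) =>
    ((Additive.toMul (e (Additive.ofMul ⟨z, hz, hzc⟩)) : A) : Ω)) key
  have h3 : (s * z * s⁻¹ / z) ^ p ^ n = 1 := h2
  have hc : Commute (s * z * s⁻¹) z := congrArg Subtype.val (hAc ⟨_, hAn z ⟨hz, hzc⟩⟩ ⟨z, hz, hzc⟩)
  rw [div_eq_mul_inv, Commute.mul_pow (Commute.inv_right hc), inv_pow, mul_inv_eq_one, conj_pow] at h3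
  exact h3

theorem powerClosure_le {n : ℕ} : powerClosure p n (S ⊓ Subgroup.centralizer (S : Set Ω)) ≤
    S ⊓ Subgroup.centralizer (S : Set Ω) := by
  refine (Subgroup.closure_le _).2 ?_
  rintro _ ⟨x, hx, rfl⟩
  exact Subgroup.pow_mem _ hx _

theorem isNormal_powerCenter [Finite S] (hS : IsPGroup p S) (hF : F.IsSaturated p) (n : ℕ)
    (hcl : Subgroup.lowerCentralSeries S (n * (p - 1) + 1) = ⊥) :
    F.IsNormal (powerClosure p n (S ⊓ Subgroup.centralizer (S : Set Ω))) := by
  set Z := S ⊓ Subgroup.centralizer (S : Set Ω) with hZ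
  set V := powerClosure p n Z with hV
  have hVS : V ≤ S := powerClosure_le.trans inf_le_left
  refine isNormal_of_vmap hVS ?_
  suffices ∀ (m : ℕ) (P : Subgroup Ω) (f : Ω → Ω), Map F P f → Nat.card S - Nat.card P = m →
      VMap F V P f from fun P f hf => this _ P f hf rfl
  intro m
  induction m using Nat.strong_induction_on with
  | _ m ihm =>
  intro P₀ f₀ hf₀ hm
  have larger : ∀ (R : Subgroup Ω) (g : Ω → Ω), Map F R g → Nat.card P₀ < Nat.card R →
      VMap F V R g := fun R g hg hlt' => by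
    have := Subgroup.card_le_of_le hg.le
    exact ihm _ (by omega) R g hg rfl
  let Pr : Subgroup Ω → (Ω → Ω) → Prop := fun R g => Nat.card P₀ ≤ Nat.card R → VMap F V R g
  have hPr : Propagates F Pr := {
    congr := fun h he hc => (h hc).congr he
    comp := fun {P R g g'} hg hg' h h' hmem hc => by
      have hle : Nat.card P ≤ Nat.card R := by
        rw [← hg.card_img]
        have := finite_of_le hg'.le
        exact Subgroup.card_le_of_le (img_le_iff.mpr hmem)
      exact (h hc).comp (h' (hc.trans hle)) hmem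
    inv := fun {P g g'} hg hg' hgg h hc => (h (hg.card_img ▸ hc)).inv hgg
    id := fun hR hc => VMap.id hR hVS }
  refine alperin hS hF hPr (fun R hR α hα hc => ?_) hf₀ le_rfl
  -- it suffices that `α` carries `V` into itself
  have done : ∀ (hRS : R ≤ S) (hVR : V ≤ R), (∀ x ∈ V, autFun α x ∈ V) →
      VMap F V R (autFun α) := fun hRS hVR h => by
    have hm := (mem_autGroup_iff hRS).mp hα
    refine ⟨autFun α, hm.restrict (sup_le le_rfl hVR), fun _ _ => rfl, ?_⟩
    exact eq_of_le_of_card_le hVS (img_le_iff.mpr h) (hm.restrict hVR).card_img.ge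
  rcases hR with rfl | hR
  · refine done le_rfl hVS ?_
    intro x hx
    have hle : V.subgroupOf R ≤ (V.subgroupOf R).comap α.toMonoidHom := by
      intro y hy
      have : (y : Ω) ∈ (((V.subgroupOf R).comap α.toMonoidHom).map R.subtype) := by
        refine (Subgroup.closure_le _).2 ?_ (Subgroup.mem_subgroupOf.1 hy)
        rintro _ ⟨z, hz, rfl⟩
        refine ⟨⟨z, hz.1⟩ ^ p ^ n, ?_, rfl⟩
        show α.toMonoidHom (⟨z, hz.1⟩ ^ p ^ n) ∈ V.subgroupOf R
        rw [map_pow]
        refine Subgroup.subset_closure ⟨_, ⟨(α ⟨z, hz.1⟩).2, fun w hw => ?_⟩, rfl⟩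
        obtain ⟨u, hu⟩ := α.surjective ⟨w, hw⟩
        have h1 : (u : R) * ⟨z, hz.1⟩ = ⟨z, hz.1⟩ * u := Subtype.ext (hz.2 _ u.2)
        have h2 := congrArg α h1
        rw [map_mul, map_mul, hu] at h2
        exact congrArg Subtype.val h2
      obtain ⟨y', hy', he⟩ := this
      exact (Subtype.ext he : y' = y) ▸ hy'
    rw [autFun_apply α (hVS hx)]
    exact hle (show (⟨x, hVS hx⟩ : R) ∈ V.subgroupOf R from hx)
  have hRS := hR.1.1
  have hRS' : R < S := essential_lt hS hF hR
  have := finite_of_le hRS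
  have hZR : Z ≤ R := fun z hz => hR.1.2 R (isConj_refl F hRS) ⟨hz.1, fun y hy => hz.2 y (hRS hy)⟩
  have hVR : V ≤ R := powerClosure_le.trans hZR
  have hfn := hR.2.1
  -- the kernel of the action on the powers of the centre
  set G₀ := F.autGroup R
  let K : Subgroup G₀ :=
    { carrier := {β | ∀ z ∈ R, (∀ y ∈ R, y * z = z * y) →
        autFun (β : MulAut R) (z ^ p ^ n) = z ^ p ^ n}
      one_mem' := fun z hz _ => autFun_one (R.pow_mem hz _)
      mul_mem' := fun {a b} ha hb z hz hzc => by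
        rw [Subgroup.coe_mul, autFun_mul _ _ (R.pow_mem hz _), hb z hz hzc, ha z hz hzc]
      inv_mem' := fun {a} ha z hz hzc => by
        conv_lhs => rw [← ha z hz hzc]
        exact autFun_inv_apply _ (R.pow_mem hz _) }
  have hKn : K.Normal := ⟨fun a ha g z hz hzc => by
    set w := autFun (g : MulAut R)⁻¹ z with hw
    have hwR : w ∈ R := autFun_mem _ hz
    have hwc : ∀ y ∈ R, y * w = w * y := fun y hy => by
      have h1 : ((g : MulAut R) ⟨y, hy⟩) * ⟨z, hz⟩ = ⟨z, hz⟩ * ((g : MulAut R) ⟨y, hy⟩) :=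
        Subtype.ext (hzc _ ((g : MulAut R) ⟨y, hy⟩).2)
      have h2 := congrArg (fun t => (((g : MulAut R)⁻¹ : MulAut R) t : Ω)) h1
      simp only [map_mul, Subgroup.coe_mul, MulAut.inv_apply_self] at h2
      rw [hw, autFun_apply _ hz]
      exact h2
    have hwp : w ^ p ^ n = autFun (g : MulAut R)⁻¹ (z ^ p ^ n) := by
      rw [hw, autFun_apply _ hz, autFun_apply _ (R.pow_mem hz _)]
      exact (congrArg Subtype.val (map_pow ((g : MulAut R)⁻¹) ⟨z, hz⟩ (p ^ n))).symm
    rw [Subgroup.coe_mul, Subgroup.coe_mul, Subgroup.coe_inv,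
      autFun_mul _ _ (R.pow_mem hz _), autFun_mul _ _ (autFun_mem _ (R.pow_mem hz _)), ← hwp,
      ha w hwR hwc, hwp, autFun_apply_inv _ (R.pow_mem hz _)]⟩
  obtain ⟨R₀, hR₀⟩ := (isFullyAutomized_of_fullyNormalized hS hF hfn).2
  set I := (R₀ : Subgroup G₀) ⊓ K with hI
  have hIp : IsPGroup p (I.subgroupOf K) :=
    (R₀.2.to_le inf_le_left).comap_of_injective K.subtype K.subtype_injective
  have hIi : ¬ p ∣ (I.subgroupOf K).index := Stable.not_dvd_relIndex R₀ K
  obtain ⟨β, hβ⟩ : ∃ β : G₀, (β : MulAut R) = α := ⟨⟨α, hα⟩, rfl⟩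
  have hβmem : β ∈ Subgroup.normalizer (I : Set G₀) ⊔ K := by
    have h := Sylow.normalizer_sup_eq_top (hIp.toSylow hIi)
    rw [IsPGroup.toSylow_coe, Subgroup.map_subgroupOf_eq_of_le (inf_le_right : I ≤ K)] at h
    rw [h]
    exact Subgroup.mem_top β
  obtain ⟨h, hh, κ, hκ, hhκ⟩ := Subgroup.mem_sup_of_normal_right.1 hβmem
  have hfix : ∀ x ∈ V, autFun (κ : MulAut R) x = x := by
    intro x hx
    have : x ∈ ((κ : MulAut R).toMonoidHom.eqLocus (MonoidHom.id R)).map R.subtype := by
      refine (Subgroup.closure_le _).2 ?_ hx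
      rintro _ ⟨z, hz, rfl⟩
      refine ⟨⟨z ^ p ^ n, R.pow_mem (hZR hz) _⟩, Subtype.ext ?_, rfl⟩
      show (((κ : MulAut R) ⟨z ^ p ^ n, R.pow_mem (hZR hz) _⟩ : R) : Ω) = _
      rw [← autFun_apply]
      exact hκ z (hZR hz) (fun y hy => hz.2 y (hRS hy))
    obtain ⟨y, hy, rfl⟩ := this
    rw [Subgroup.subtype_apply, autFun_coe]
    exact congrArg Subtype.val hy
  refine done hRS hVR fun x hx => ?_
  rw [← hβ, ← hhκ, Subgroup.coe_mul, autFun_mul _ _ (hVR hx), hfix x hx]
  -- the factor normalizing `I` extends to a larger subgroup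
  set T := ((K.map G₀.subtype).comap (normalizerInToAut S R)).map (normalizerIn S R).subtype
    with hT
  have hmemT : ∀ {s : Ω} (hs : s ∈ normalizerIn S R),
      normalizerInToAut S R ⟨s, hs⟩ ∈ K.map G₀.subtype → s ∈ T := fun hs h => ⟨⟨_, hs⟩, h, rfl⟩
  have hnia : ∀ g : ↥(normalizerIn S R), normalizerInToAut S R g ∈ G₀ := fun g =>
    autInducedBy_le_autGroup hRS (range_normalizerInToAut (S := S) (P := R) ▸ ⟨g, rfl⟩)
  have hRT : R ≤ T := fun r hr => hmemT (le_normalizerIn hRS hr) ⟨⟨_, hnia _⟩, fun z hz hzc => by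
    rw [autFun_normalizerInToAut _ (R.pow_mem hz _)]
    show r * z ^ p ^ n * r⁻¹ = _
    rw [((Commute.pow_right (hzc r hr : Commute r z)) _).eq, mul_inv_cancel_right], rfl⟩
  have hlt : R < T := by
    refine lt_of_le_of_ne hRT fun he => ?_
    obtain ⟨g, hg, hgR⟩ := SetLike.exists_of_lt (lt_normalizerIn hS hRS')
    obtain ⟨k, hk⟩ := (hS.to_le (normalizerIn_le S R)) ⟨g, hg⟩
    have hk' : g ^ p ^ k = 1 := congrArg Subtype.val hk
    obtain ⟨s, hs, hsR, hsp⟩ : ∃ s ∈ normalizerIn S R, s ∉ R ∧ s ^ p ∈ R := by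
      have hex : ∃ j, g ^ p ^ j ∈ R := ⟨k, by rw [hk']; exact R.one_mem⟩
      classical
      have h0 : Nat.find hex ≠ 0 := fun h0 => hgR (by
        have := Nat.find_spec hex
        rwa [h0, pow_zero, pow_one] at this)
      obtain ⟨j, hj⟩ := Nat.exists_eq_succ_of_ne_zero h0
      refine ⟨g ^ p ^ j, Subgroup.pow_mem _ hg _, fun h => ?_, ?_⟩
      · exact Nat.find_min hex (by omega) h
      · rw [← pow_mul, ← pow_succ]
        have := Nat.find_spec hex
        rwa [hj] at this
    refine hsR (he ▸ hmemT hs ⟨⟨_, hnia _⟩, fun z hz hzc => ?_, rfl⟩)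
    rw [autFun_normalizerInToAut _ (R.pow_mem hz _)]
    exact conj_pow_center hcl hRS hs hsp hz hzc
  have hext : ∀ t ∈ T, InExtender S R (autFun (h : MulAut R)) t := by
    rintro _ ⟨t, ⟨a, ha, hat⟩, rfl⟩
    refine ⟨t.2.1, t.2.2, ?_⟩
    have haI : a ∈ I := ⟨hR₀.ge (show (a : MulAut R) ∈ autInducedBy S R from
      range_normalizerInToAut (S := S) (P := R) ▸ ⟨t, hat.symm⟩), ha⟩
    have h1 : h * a * h⁻¹ ∈ I := (Subgroup.mem_normalizer_iff.1 hh a).1 haI
    have h2 : ((h * a * h⁻¹ : G₀) : MulAut R) ∈ autInducedBy S R := hR₀.le h1.1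
    rw [mem_autInducedBy_iff] at h2
    obtain ⟨u, hu, -, hu2⟩ := h2
    refine ⟨u, hu, fun y hy => ?_⟩
    have h3 := hu2 _ (autFun_mem (h : MulAut R) hy)
    rw [Subgroup.coe_mul, Subgroup.coe_mul, Subgroup.coe_inv,
      autFun_mul _ _ (autFun_mem _ hy), autFun_inv_apply _ hy,
      autFun_mul _ _ hy, show (a : MulAut R) = normalizerInToAut S R t from hat,
      autFun_normalizerInToAut t hy] at h3
    exact h3
  obtain ⟨k, hk, hkh⟩ := receptive_extend (isReceptive_of_fullyNormalized hS hF hfn)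
    ((mem_autGroup_iff hRS).mp h.2) (img_autFun _) hRT hext
  obtain ⟨w, -, hwk, hwV⟩ := larger T k hk (lt_of_le_of_lt hc (card_lt_of_lt hk.le hlt))
  rw [← hkh x (hVR hx), ← hwk x (hRT (hVR hx))]
  exact hwV.le (mem_img_of_mem w hx)

end CfsgLib.Fusion.PowerCenter
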