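import Cfsg.Agent.Lib.FusionPowerCenter

/-!
# The exponent of a `p`-group with a bound on class and on the exponent of the centre
-/

set_option autoImplicit false

namespace CfsgLib.Fusion.PowerCenter

open Cfsg Cfsg.FusionSystem CfsgLib.Fusion
open scoped commutatorElement

variable {G : Type*} [Group G]

theorem conj_pow_eq_of_central {Q : Type*} [Group Q] {x y c : Q} (h : x * y * x⁻¹ = c * y)
    (hc : ∀ z, z * c = c * z) (k : ℕ) : x ^ k * y * (x ^ k)⁻¹ = c ^ k * y := by
  induction k with
  | zero => simp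
  | succ k ih =>
    calc x ^ (k + 1) * y * (x ^ (k + 1))⁻¹ = x * (x ^ k * y * (x ^ k)⁻¹) * x⁻¹ := by
          rw [pow_succ']; group
      _ = x * c ^ k * x⁻¹ * (x * y * x⁻¹) := by rw [ih]; group
      _ = c ^ k * (c * y) := by
          rw [h, ((Commute.pow_right (hc x : Commute x c)) k).eq, mul_inv_cancel_right]
      _ = c ^ (k + 1) * y := by rw [pow_succ, mul_assoc]

/-- If the centre has exponent dividing `N`, so has each factor of the upper central series. -/
theorem pow_mem_upperCentralSeries {N : ℕ} (hN : ∀ z ∈ Subgroup.center G, z ^ N = 1) :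
    ∀ (k : ℕ) (x : G), x ∈ Subgroup.upperCentralSeries G (k + 1) →
      x ^ N ∈ Subgroup.upperCentralSeries G k := by
  intro k
  induction k with
  | zero =>
    intro x hx
    rw [Subgroup.upperCentralSeries_zero, Subgroup.mem_bot]
    exact hN x (by rwa [zero_add, Subgroup.upperCentralSeries_one] at hx)
  | succ k ih =>
    intro x hx
    rw [Subgroup.mem_upperCentralSeries_succ_iff] at hx ⊢
    intro y
    set c := ⁅x, y⁆ with hc
    have hcZ : c ∈ Subgroup.upperCentralSeries G (k + 1) := hx y
    let q := QuotientGroup.mk' (Subgroup.upperCentralSeries G k)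
    have hcen : ∀ z, z * q c = q c * z := by
      intro z
      obtain ⟨w, rfl⟩ := QuotientGroup.mk'_surjective _ z
      have h1 : q ⁅c, w⁆ = 1 :=
        (QuotientGroup.eq_one_iff _).2 ((Subgroup.mem_upperCentralSeries_succ_iff).1 hcZ w)
      rw [map_commutatorElement, commutatorElement_eq_one_iff_mul_comm] at h1
      exact h1.symm
    have h := conj_pow_eq_of_central (x := q x) (y := q y) (c := q c)
      (by rw [hc, map_commutatorElement, commutatorElement_def]; group) hcen N
    have h2 : q ⁅x ^ N, y⁆ = q (c ^ N) := by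
      rw [map_commutatorElement, commutatorElement_def, map_pow, map_pow]
      rw [h]
      group
    have h3 := QuotientGroup.eq.1 h2.symm
    exact (Subgroup.mul_mem_cancel_left _ (inv_mem (ih c hcZ))).1 h3

theorem pow_pow_eq_one {N c : ℕ} (hN : ∀ z ∈ Subgroup.center G, z ^ N = 1)
    (hc : Subgroup.upperCentralSeries G c = ⊤) (x : G) : x ^ N ^ c = 1 := by
  suffices ∀ j, ∀ x ∈ Subgroup.upperCentralSeries G j, x ^ N ^ j = 1 from
    this c x (hc ▸ Subgroup.mem_top x)
  intro j
  induction j with
  | zero => intro x hx; simpa using hx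
  | succ j ih =>
    intro x hx
    rw [pow_succ', pow_mul]
    exact ih _ (pow_mem_upperCentralSeries hN j x hx)

variable {p : ℕ} [hp : Fact p.Prime] {Ω : Type*} [Group Ω] {S : Subgroup Ω}

theorem exponent_dvd [Finite S] (hS : IsPGroup p S) {F : FusionSystem S} (hF : F.IsSaturated p)
    (n : ℕ) (hcl : Subgroup.lowerCentralSeries S (n * (p - 1) + 1) = ⊥) (hcore : F.core = ⊥) :
    Monoid.exponent ↥S ∣ p ^ (n ^ 2 * (p - 1) + n) := by
  have hV : powerClosure p n (S ⊓ Subgroup.centralizer (S : Set Ω)) = ⊥ :=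
    le_bot_iff.1 (hcore ▸ le_sSup (isNormal_powerCenter hS hF n hcl))
  have hcen : ∀ z ∈ Subgroup.center S, z ^ p ^ n = 1 := fun z hz => Subtype.ext (by
    have h : (z : Ω) ^ p ^ n ∈ powerClosure p n (S ⊓ Subgroup.centralizer (S : Set Ω)) :=
      Subgroup.subset_closure ⟨z, ⟨z.2, fun y hy =>
        congrArg Subtype.val (Subgroup.mem_center_iff.1 hz ⟨y, hy⟩)⟩, rfl⟩
    rw [hV, Subgroup.mem_bot] at h
    simpa using h)
  have hnil : Group.IsNilpotent S := hS.isNilpotent
  have hlow : (⊤ : Subgroup S).lowerCentralSeries (n * (p - 1) + 1) = ⊥ := by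
    apply Subgroup.map_injective S.subtype_injective
    rw [Subgroup.map_lowerCentralSeries, Subgroup.map_bot, ← MonoidHom.range_eq_map,
      Subgroup.range_subtype, hcl]
  refine Monoid.exponent_dvd_of_forall_pow_eq_one fun x => ?_
  have h := pow_pow_eq_one hcen
    (Subgroup.lowerCentralSeries_eq_bot_iff_upperCentralSeries_eq_top.1 hlow) x
  rw [← pow_mul] at h
  rwa [show n ^ 2 * (p - 1) + n = n * (n * (p - 1) + 1) by ring]

end CfsgLib.Fusion.PowerCenter
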