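import Cfsg.Agent.Lib.FusionQdSolvable

/-!
# A group involving `Qd(p)` has a local model involving `Qd(p)`
-/

set_option autoImplicit false

namespace CfsgLib.Fusion.QdInvolved

open Cfsg Cfsg.FusionSystem CfsgLib.Fusion CfsgLib.QuadPair CfsgLib.Dickson
open scoped Pointwise

set_option linter.unusedSectionVars false

universe u v

variable {p : ℕ} [hp : Fact p.Prime] {X : Type u} [Group X]

/-- Conjugation by `n` induces `M` on the plane quotient `θ` of `P₁`. -/
def Acts {P₁ : Subgroup X} (θ : P₁ →* Multiplicative (Fin 2 → ZMod p)) (n : X) (M : SL (ZMod p)) :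
    Prop :=
  ∃ hn : ∀ x ∈ P₁, n * x * n⁻¹ ∈ P₁, ∀ x : P₁,
    θ ⟨n * x * n⁻¹, hn x x.2⟩ = Multiplicative.ofAdd (M.1.mulVec (Multiplicative.toAdd (θ x)))

/-- A `p`-subgroup whose normalizer induces `SL₂(p)` on a plane quotient of one of its
subgroups. -/
def Good (p : ℕ) [Fact p.Prime] (Q : Subgroup X) : Prop :=
  IsPGroup p Q ∧ ∃ (P₁ : Subgroup X) (θ : P₁ →* Multiplicative (Fin 2 → ZMod p)),
    P₁ ≤ Q ∧ Function.Surjective θ ∧
      ∀ M : SL (ZMod p), ∃ n ∈ Subgroup.normalizer (Q : Set X), Acts θ n M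

theorem acts_one {P₁ : Subgroup X} (θ : P₁ →* Multiplicative (Fin 2 → ZMod p)) : Acts θ 1 1 := by
  refine ⟨fun x hx => by simpa using hx, fun x => ?_⟩
  simp

theorem Acts.mul {P₁ : Subgroup X} {θ : P₁ →* Multiplicative (Fin 2 → ZMod p)} {a b : X}
    {M N : SL (ZMod p)} (ha : Acts θ a M) (hb : Acts θ b N) : Acts θ (a * b) (M * N) := by
  obtain ⟨ha1, ha2⟩ := ha
  obtain ⟨hb1, hb2⟩ := hb
  have e : ∀ x : X, a * b * x * (a * b)⁻¹ = a * (b * x * b⁻¹) * a⁻¹ := fun x => by group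
  refine ⟨fun x hx => by rw [e]; exact ha1 _ (hb1 x hx), fun x => ?_⟩
  calc θ ⟨a * b * x * (a * b)⁻¹, _⟩ = θ ⟨a * (b * x * b⁻¹) * a⁻¹, ha1 _ (hb1 x x.2)⟩ :=
        congrArg θ (Subtype.ext (e x))
    _ = _ := by
      rw [ha2 ⟨_, hb1 x x.2⟩, hb2, toAdd_ofAdd, Matrix.mulVec_mulVec,
        Matrix.SpecialLinearGroup.coe_mul]

theorem Acts.inv [Finite X] {P₁ : Subgroup X} {θ : P₁ →* Multiplicative (Fin 2 → ZMod p)} {a : X}
    {M : SL (ZMod p)} (ha : Acts θ a M) : Acts θ a⁻¹ M⁻¹ := by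
  obtain ⟨ha1, ha2⟩ := ha
  have hN := mem_normalizer_of_conj_mem ha1
  refine ⟨fun x hx => by rw [inv_inv]; exact conj_inv_mem_of_mem_normalizer hN hx, fun x => ?_⟩
  set y : P₁ := ⟨a⁻¹ * x * a⁻¹⁻¹, by rw [inv_inv]; exact conj_inv_mem_of_mem_normalizer hN x.2⟩
  have h := ha2 y
  rw [show (⟨a * (y : X) * a⁻¹, ha1 y y.2⟩ : P₁) = x from Subtype.ext (by
    show a * (a⁻¹ * x * a⁻¹⁻¹) * a⁻¹ = x
    group)] at h
  apply Multiplicative.toAdd.injective
  rw [h, toAdd_ofAdd, toAdd_ofAdd, Matrix.mulVec_mulVec, ← Matrix.SpecialLinearGroup.coe_mul,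
    inv_mul_cancel, Matrix.SpecialLinearGroup.coe_one, Matrix.one_mulVec]

theorem Acts.unique {P₁ : Subgroup X} {θ : P₁ →* Multiplicative (Fin 2 → ZMod p)}
    (hθ : Function.Surjective θ) {a : X}
    {M N : SL (ZMod p)} (ha : Acts θ a M) (hb : Acts θ a N) : M = N := by
  apply Subtype.ext
  refine Matrix.ext_of_mulVec_single fun j => ?_
  obtain ⟨x, hx⟩ := hθ (Multiplicative.ofAdd (Pi.single j 1))
  have h := (ha.2 x).symm.trans (hb.2 x)
  rw [hx] at h
  simpa using h

/-- A plane quotient with all of `SL₂(p)` induced on it gives `Qd(p)`. -/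
theorem involves_of_acts [Finite X] (hodd : p ≠ 2) {P₁ : Subgroup X} (hP₁ : IsPGroup p P₁)
    (θ : P₁ →* Multiplicative (Fin 2 → ZMod p)) (hθ : Function.Surjective θ)
    (h : ∀ M : SL (ZMod p), ∃ n : X, Acts θ n M) : Involves ↥(Cfsg.qd p) X := by
  let K : Subgroup X :=
    { carrier := {k | ∃ M, Acts θ k M}
      one_mem' := ⟨1, acts_one θ⟩
      mul_mem' := fun ⟨M, hM⟩ ⟨N, hN⟩ => ⟨M * N, hM.mul hN⟩
      inv_mem' := fun ⟨M, hM⟩ => ⟨M⁻¹, hM.inv⟩ }
  let ψ : K →* SL (ZMod p) := MonoidHom.mk' (fun k => k.2.choose) fun a b =>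
    (a * b).2.choose_spec.unique hθ (a.2.choose_spec.mul b.2.choose_spec)
  have hψ : ∀ k : K, Acts θ k (ψ k) := fun k => k.2.choose_spec
  have hψs : Function.Surjective ψ := fun M => by
    obtain ⟨n, hn⟩ := h M
    exact ⟨⟨n, M, hn⟩, (hψ ⟨n, M, hn⟩).unique hθ hn⟩
  obtain ⟨Y, Φ, hΦ⟩ := exists_onto_qd hodd θ ψ hP₁ (fun k hk => hk.choose_spec.1) hθ hψs
    (fun k x => (hψ k).2 x)
  exact involves_of_hom Φ hΦ

theorem Good.involves [Finite X] (hodd : p ≠ 2) {Q : Subgroup X} (h : Good p Q) :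
    Involves ↥(Cfsg.qd p) X := by
  obtain ⟨hQ, P₁, θ, hle, hθ, hact⟩ := h
  exact involves_of_acts hodd (hQ.to_le hle) θ hθ fun M => let ⟨n, _, hn⟩ := hact M; ⟨n, hn⟩

/-- Transport along a map which is injective on the subgroup. -/
theorem Good.map {L : Type v} [Group L] {Q : Subgroup X} (h : Good p Q) (f : X →* L)
    (hf : ∀ x ∈ Q, f x = 1 → x = 1) : Good p (Q.map f) := by
  obtain ⟨hQ, P₁, θ, hle, hθ, hact⟩ := h
  set g := f.comp P₁.subtype with hg
  have hgi : Function.Injective g := (injective_iff_map_eq_one g).2 fun x hx =>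
    Subtype.ext (hf x (hle x.2) hx)
  set e := MonoidHom.ofInjective hgi with he
  refine ⟨hQ.map f, g.range, θ.comp e.symm.toMonoidHom, ?_, hθ.comp e.symm.surjective, fun M => ?_⟩
  · rintro _ ⟨x, rfl⟩
    exact ⟨x, hle x.2, rfl⟩
  obtain ⟨n, hn, hn1, hn2⟩ := hact M
  refine ⟨f n, Subgroup.le_normalizer_map f ⟨n, hn, rfl⟩, ?_⟩
  have hmem : ∀ y ∈ g.range, f n * y * (f n)⁻¹ ∈ g.range := by
    rintro _ ⟨x, rfl⟩
    exact ⟨⟨n * x * n⁻¹, hn1 x x.2⟩, by simp [hg]⟩
  refine ⟨hmem, fun y => ?_⟩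
  obtain ⟨x, rfl⟩ := e.surjective y
  show θ (e.symm _) = Multiplicative.ofAdd (M.1.mulVec (Multiplicative.toAdd (θ (e.symm (e x)))))
  rw [e.symm_apply_apply, ← hn2 x]
  refine congrArg θ (e.injective ?_)
  rw [e.apply_symm_apply]
  exact Subtype.ext (by simp [he, hg, MonoidHom.ofInjective_apply])

theorem Good.subgroupOf {Q H : Subgroup X} (h : Good p Q) (hQH : Q ≤ H)
    (hN : Subgroup.normalizer (Q : Set X) ≤ H) : Good p (Q.subgroupOf H) := by
  obtain ⟨hQ, P₁, θ, hle, hθ, hact⟩ := h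
  set e := Subgroup.subgroupOfEquivOfLe (hle.trans hQH)
  refine ⟨hQ.comap_of_injective H.subtype H.subtype_injective, P₁.subgroupOf H,
    θ.comp e.toMonoidHom, Subgroup.comap_mono hle, hθ.comp e.surjective, fun M => ?_⟩
  obtain ⟨n, hn, hn1, hn2⟩ := hact M
  refine ⟨⟨n, hN hn⟩, ?_, fun x hx => hn1 _ hx, fun x => hn2 (e x)⟩
  rw [Subgroup.mem_normalizer_iff]
  exact fun x => Subgroup.mem_normalizer_iff.1 hn (x : X)

/-- A group involving `Qd(p)` has a good subgroup. -/
theorem exists_good [Finite X] (h : Involves ↥(Cfsg.qd p) X) : ∃ Q : Subgroup X, Good p Q := by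
  obtain ⟨K, R, hR, ⟨e⟩⟩ := h
  set f : K →* ↥(Cfsg.qd p) := e.toMonoidHom.comp (QuotientGroup.mk' (R.subgroupOf K))
  have hf : Function.Surjective f := e.surjective.comp (QuotientGroup.mk'_surjective _)
  set T := (transHom p).range with hT
  have hTn : T.Normal := ⟨fun x hx g => by
    obtain ⟨v, rfl⟩ := hx
    obtain ⟨w, M, hg⟩ := exists_affine_of_mem g.2
    refine ⟨Multiplicative.ofAdd (M.1.mulVec (Multiplicative.toAdd v)), ?_⟩
    rw [eq_mul_inv_iff_mul_eq]
    apply Subtype.ext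
    show affine _ 1 * g.1 = g.1 * affine _ 1
    rw [hg, affine_mul, affine_mul, Matrix.SpecialLinearGroup.coe_one, Matrix.one_mulVec,
      toAdd_ofAdd, one_mul, mul_one, add_comm]⟩
  have htr : Function.Injective (transHom p) := fun v w hvw =>
    Multiplicative.toAdd.injective (affine_injective (congrArg Subtype.val hvw)).1
  set eT := MonoidHom.ofInjective htr with heT
  have hTp : IsPGroup p T := by
    intro x
    obtain ⟨v, hv⟩ := x.2
    refine ⟨1, Subtype.ext ?_⟩
    rw [pow_one, SubgroupClass.coe_pow, ← hv, ← map_pow, OneMemClass.coe_one]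
    have h0 : v ^ p = 1 := Multiplicative.toAdd.injective (by
      rw [toAdd_pow, toAdd_one]
      funext i
      simp)
    rw [h0, map_one]
  set Tc := T.comap f with hTc
  have hTcn : Tc.Normal := hTn.comap f
  obtain ⟨Q₀⟩ := (inferInstance : Nonempty (Sylow p Tc))
  set P₁ := (Q₀ : Subgroup Tc).map Tc.subtype with hP₁
  have hmem : ∀ x : P₁, f x ∈ T := fun x => by
    obtain ⟨y, -, hy⟩ := x.2
    rw [← hy]
    exact y.2
  set θ : P₁ →* Multiplicative (Fin 2 → ZMod p) :=
    eT.symm.toMonoidHom.comp ((f.comp P₁.subtype).codRestrict T hmem) with hθ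
  have hspec : ∀ x : P₁, transHom p (θ x) = f x := fun x =>
    congrArg Subtype.val (eT.apply_symm_apply ((f.comp P₁.subtype).codRestrict T hmem x))
  have hθs : Function.Surjective θ := by
    intro v
    have hs : Function.Surjective (f.subgroupComap T) :=
      f.subgroupComap_surjective_of_surjective _ hf
    have htop : (Q₀ : Subgroup Tc).map (f.subgroupComap T) = ⊤ := by
      rw [← Sylow.coe_mapSurjective hs Q₀]
      exact ((Q₀.mapSurjective hs).3 (hTp.to_subgroup ⊤) le_top).symm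
    obtain ⟨x, hx, hxe⟩ := htop.ge (Subgroup.mem_top (⟨transHom p v, v, rfl⟩ : T))
    exact ⟨⟨x, x, hx, rfl⟩, htr ((hspec ⟨x, x, hx, rfl⟩).trans (congrArg Subtype.val hxe))⟩
  have hgood : Good p P₁ := by
    refine ⟨Q₀.2.map _, P₁, θ, le_rfl, hθs, fun M => ?_⟩
    obtain ⟨y, hy⟩ := hf (linHom p M)
    have hy' : y ∈ Subgroup.normalizer (P₁ : Set K) ⊔ Tc := by
      rw [show Subgroup.normalizer (P₁ : Set K) ⊔ Tc = ⊤ from Sylow.normalizer_sup_eq_top Q₀]
      exact Subgroup.mem_top y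
    obtain ⟨a, ha, b, hb, hab⟩ := Subgroup.mem_sup_of_normal_right.1 hy'
    obtain ⟨w, hw⟩ := hb
    have hfa : (f a : Matrix.SpecialLinearGroup (Fin 3) (ZMod p)) * affine (Multiplicative.toAdd w) 1
        = affine 0 M := by
      show ((f a * transHom p w : ↥(Cfsg.qd p)) : Matrix.SpecialLinearGroup (Fin 3) (ZMod p)) = _
      rw [hw, ← map_mul, hab, hy]
      rfl
    obtain ⟨c, N, hN⟩ := exists_affine_of_mem (f a).2
    rw [hN, affine_mul, mul_one] at hfa
    obtain rfl : N = M := (affine_injective hfa).2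
    refine ⟨a, ha, fun x hx => conj_mem_of_mem_normalizer ha hx, fun x => htr ?_⟩
    rw [hspec]
    show f (a * (x : K) * a⁻¹) = _
    rw [map_mul, map_mul, map_inv, mul_inv_eq_iff_eq_mul, ← hspec x]
    apply Subtype.ext
    show (f a : Matrix.SpecialLinearGroup (Fin 3) (ZMod p)) * affine _ 1 = affine _ 1 * _
    rw [hN, affine_mul, affine_mul, toAdd_ofAdd, mul_one, one_mul,
      Matrix.SpecialLinearGroup.coe_one, Matrix.one_mulVec, add_comm]
  exact ⟨_, hgood.map K.subtype fun x _ hx => K.subtype_injective (hx.trans (map_one _).symm)⟩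

/-- A Sylow subgroup of `Q C(Q)` above a good subgroup `Q` is good. -/
theorem Good.exists_sylow_sup [Finite X] {Q U : Subgroup X} (h : Good p Q) (hQU : Q ≤ U)
    (hUp : IsPGroup p U) (hU : U ≤ Subgroup.centralizer (Q : Set X) ⊔ Q) :
    ∃ D : Subgroup X, U ≤ D ∧ Good p D := by
  set C := Subgroup.centralizer (Q : Set X) with hC
  set H := C ⊔ Q with hH
  obtain ⟨D₀, hD₀⟩ := (hUp.comap_of_injective H.subtype H.subtype_injective).exists_le_sylow
  set D := (D₀ : Subgroup H).map H.subtype with hD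
  have hUD : U ≤ D := fun x hx => ⟨⟨x, hU hx⟩, hD₀ hx, rfl⟩
  refine ⟨D, hUD, D₀.2.map _, ?_⟩
  obtain ⟨-, P₁, θ, hle, hθ, hact⟩ := h
  refine ⟨P₁, θ, hle.trans (hQU.trans hUD), hθ, fun M => ?_⟩
  obtain ⟨n, hn, hn1, hn2⟩ := hact M
  have hQC : Q ≤ Subgroup.normalizer (C : Set X) :=
    Subgroup.le_normalizer.trans (normalizer_le_normalizer_centralizer' Q)
  have hnC : n ∈ Subgroup.normalizer (C : Set X) := normalizer_le_normalizer_centralizer' Q hn
  have hnH : ∀ x ∈ H, n * x * n⁻¹ ∈ H := fun x hx => by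
    have hle' : H ≤ H.comap (MulAut.conj n).toMonoidHom :=
      sup_le (fun y hy => Subgroup.mem_sup_left (conj_mem_of_mem_normalizer hnC hy))
        (fun y hy => Subgroup.mem_sup_right (conj_mem_of_mem_normalizer hn hy))
    exact hle' hx
  set φ : H →* H := ((MulAut.conj n).toMonoidHom.comp H.subtype).codRestrict H
    (fun x => hnH x x.2) with hφ
  obtain ⟨S₁, hS₁⟩ := (D₀.2.map φ).exists_le_sylow
  obtain ⟨h0, hh0⟩ := MulAction.exists_smul_eq H D₀ S₁
  obtain ⟨c, hc, q, hq, hcq⟩ : ∃ c ∈ C, ∃ q ∈ Q, c * q = (h0 : X) := by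
    have : (h0 : X) ∈ ((C ⊔ Q : Subgroup X) : Set X) := h0.2
    rw [sup_comm, Subgroup.coe_mul_of_left_le_normalizer_right Q C hQC,
      Subgroup.set_mul_normalizer_comm _ _ hQC] at this
    exact Set.mem_mul.1 this
  have hconj : ∀ y ∈ D, c⁻¹ * n * y * (c⁻¹ * n)⁻¹ ∈ D := by
    rintro _ ⟨y, hy, rfl⟩
    have h1 := hS₁ (Subgroup.mem_map_of_mem φ hy)
    rw [← hh0, Sylow.coe_subgroup_smul, Subgroup.mem_pointwise_smul_iff_inv_smul_mem] at h1
    have h2 : (h0 : X)⁻¹ * (n * y * n⁻¹) * h0 ∈ D := by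
      refine ⟨_, h1, ?_⟩
      simp [MulAut.smul_def, hφ, mul_assoc]
    have hqD : q ∈ D := hUD (hQU hq)
    have h3 := D.mul_mem (D.mul_mem hqD h2) (D.inv_mem hqD)
    convert h3 using 1
    rw [← hcq]
    simp only [Subgroup.subtype_apply]
    group
  refine ⟨c⁻¹ * n, mem_normalizer_of_conj_mem hconj, ?_⟩
  have e : ∀ x ∈ P₁, c⁻¹ * n * x * (c⁻¹ * n)⁻¹ = n * x * n⁻¹ := fun x hx => by
    have h1 := Subgroup.mem_centralizer_iff.1 hc _ (conj_mem_of_mem_normalizer hn (hle hx))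
    rw [show c⁻¹ * n * x * (c⁻¹ * n)⁻¹ = c⁻¹ * (n * x * n⁻¹ * c) by group, h1,
      inv_mul_cancel_left]
  refine ⟨fun x hx => by rw [e x hx]; exact hn1 x hx, fun x => ?_⟩
  rw [← hn2 x]
  exact congrArg θ (Subtype.ext (e x x.2))

/-- If a group involves `Qd(p)`, then so does one of the models of its fusion system. -/
theorem not_sectionFree {G : Type u} [Group G] [Finite G] (hodd : p ≠ 2) (P : Sylow p G)
    (hG : Involves ↥(Cfsg.qd p) G) :
    ¬ (groupFusionSystem (P : Subgroup G)).IsSectionFree p ↥(Cfsg.qd p) := by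
  intro hfree
  obtain ⟨Q₁, hQ₁, hmax⟩ := Set.Finite.exists_maximalFor (fun Q : Subgroup G => Nat.card Q)
    {Q : Subgroup G | Good p Q} (Set.toFinite _) (exists_good hG)
  replace hmax : ∀ Q : Subgroup G, Good p Q → Nat.card Q ≤ Nat.card Q₁ := fun Q hQ =>
    le_of_not_gt fun hlt => absurd (hmax hQ hlt.le) (not_le.2 hlt)
  -- move `Q₁` into `P` so that `P` contains a Sylow subgroup of the normalizer
  set N₁ := Subgroup.normalizer (Q₁ : Set G) with hN₁
  obtain ⟨C₀, hC₀⟩ := (hQ₁.1.comap_of_injective N₁.subtype N₁.subtype_injective).exists_le_sylow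
  obtain ⟨P', hP'⟩ := (C₀.2.map N₁.subtype).exists_le_sylow
  obtain ⟨g, hg⟩ := MulAction.exists_smul_eq G P' P
  set Q := Q₁.map (MulAut.conj g).toMonoidHom with hQ
  have hgood : Good p Q := hQ₁.map _ fun x _ hx =>
    (MulAut.conj g).injective (hx.trans (map_one _).symm)
  have hcard : Nat.card Q = Nat.card Q₁ := Subgroup.card_map_of_injective (MulAut.conj g).injective
  have hCP : ((C₀ : Subgroup N₁).map N₁.subtype).map (MulAut.conj g).toMonoidHom ≤
      (P : Subgroup G) ⊓ Subgroup.normalizer (Q : Set G) := by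
    refine le_inf ?_ ?_
    · rintro _ ⟨x, hx, rfl⟩
      rw [← hg, Sylow.coe_subgroup_smul]
      exact Subgroup.smul_mem_pointwise_smul _ _ _ (hP' hx)
    · rw [hQ, ← map_conj_normalizer]
      exact Subgroup.map_mono (Subgroup.map_subtype_le _)
  have hQP : Q ≤ (P : Subgroup G) := by
    refine le_trans (Subgroup.map_mono ?_) (hCP.trans inf_le_left)
    intro x hx
    exact ⟨⟨x, Subgroup.le_normalizer hx⟩, hC₀ hx, rfl⟩
  have hQn : (groupFusionSystem (P : Subgroup G)).IsFullyNormalized Q := by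
    refine (realized_fullyNormalized_iff (groupFusion_realized _) P
      (Subgroup.range_subtype _).symm hQP).2 fun C hC hCp => ?_
    rw [push_subtype hQP] at hC
    refine le_trans ?_ (Subgroup.card_le_of_le hCP)
    rw [Subgroup.card_map_of_injective (MulAut.conj g).injective,
      Subgroup.card_map_of_injective N₁.subtype_injective]
    set C' := C.map (MulAut.conj g⁻¹).toMonoidHom
    have hC'N : C' ≤ N₁ := by
      have h1 : Q.map (MulAut.conj g⁻¹).toMonoidHom = Q₁ := by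
        rw [hQ, Subgroup.map_map]
        convert Subgroup.map_id Q₁
        ext x
        simp [mul_assoc]
      rw [hN₁, ← h1, ← map_conj_normalizer]
      exact Subgroup.map_mono hC
    obtain ⟨S₁, hS₁⟩ := ((hCp.map _).comap_of_injective N₁.subtype N₁.subtype_injective
      : IsPGroup p (C'.subgroupOf N₁)).exists_le_sylow
    calc Nat.card C = Nat.card C' :=
          (Subgroup.card_map_of_injective (MulAut.conj g⁻¹).injective).symm
      _ = Nat.card (C'.subgroupOf N₁) :=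
          (Nat.card_congr (Subgroup.subgroupOfEquivOfLe hC'N).toEquiv).symm
      _ ≤ Nat.card S₁ := Subgroup.card_le_of_le hS₁
      _ = Nat.card C₀ := by rw [Sylow.card_eq_multiplicity, Sylow.card_eq_multiplicity]
  have hQc : (groupFusionSystem (P : Subgroup G)).IsCentric Q := by
    refine ⟨hQP, fun R hR z hz => ?_⟩
    have hRP := isConj_le_right hR
    obtain ⟨f, hf, rfl⟩ := isConj_iff.1 hR
    obtain ⟨-, -, k, hk⟩ := groupFusion_map_iff.1 hf
    have hRg : Good p (img f Q) := by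
      have e : img f Q = Q.map (MulAut.conj k).toMonoidHom := by
        ext y
        rw [hf.mem_img]
        constructor
        · rintro ⟨x, hx, rfl⟩; exact ⟨x, hx, (hk x hx).symm⟩
        · rintro ⟨x, hx, rfl⟩; exact ⟨x, hx, hk x hx⟩
      rw [e]
      exact hgood.map _ fun x _ hx => (MulAut.conj k).injective (hx.trans (map_one _).symm)
    set U := img f Q ⊔ Subgroup.zpowers z with hU
    have hUP : U ≤ (P : Subgroup G) := sup_le hRP (Subgroup.zpowers_le.2 hz.1)
    obtain ⟨D, hUD, hD⟩ := hRg.exists_sylow_sup le_sup_left (P.2.to_le hUP)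
      (sup_le le_sup_right ((Subgroup.zpowers_le.2 hz.2).trans le_sup_left))
    have hle : Nat.card D ≤ Nat.card (img f Q) :=
      (hmax D hD).trans (by rw [hf.card_img, hcard])
    rw [Subgroup.eq_of_le_of_card_ge (le_sup_left.trans hUD) hle]
    exact hUD (Subgroup.mem_sup_right (Subgroup.mem_zpowers z))
  -- the model at `Q`
  set T := normalizerIn (P : Subgroup G) Q
  set Y := Subgroup.normalizer (Q : Set G)
  set κ := Subgroup.inclusion (inf_le_right : T ≤ Y)
  obtain ⟨N, hN⟩ := exists_normalizerSystem (groupFusionSystem (P : Subgroup G)) hQP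
  have hreal := QdSolvable.normalizerSystem_realized hQP hN
  have := finite_of_le (normalizerIn_le (P : Subgroup G) Q)
  obtain ⟨Tl, hTl, hQT, hpushQ⟩ :
      ∃ Tl : Sylow p Y, (Tl : Subgroup Y) = κ.range ∧ Q ≤ T ∧ push κ Q = Q.subgroupOf Y := by
    have hTp : IsPGroup p T := P.2.to_le (normalizerIn_le _ _)
    have hrange : κ.range = T.subgroupOf Y := by
      ext y
      constructor
      · rintro ⟨t, rfl⟩; exact t.2
      · intro hy; exact ⟨⟨(y : G), hy⟩, Subtype.ext rfl⟩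
    obtain ⟨Tl, hTl⟩ := (hTp.comap_of_injective Y.subtype Y.subtype_injective).exists_le_sylow
    refine ⟨Tl, ?_, le_normalizerIn hQP, ?_⟩
    · rw [hrange]
      refine (Subgroup.eq_of_le_of_card_ge hTl ?_).symm
      have h := (realized_fullyNormalized_iff (groupFusion_realized (P : Subgroup G)) P
        (Subgroup.range_subtype _).symm hQP).mp hQn ((Tl : Subgroup Y).map Y.subtype) ?_ (Tl.2.map _)
      · rw [Subgroup.card_map_of_injective Y.subtype_injective] at h
        exact h.trans (Nat.card_congr (Subgroup.subgroupOfEquivOfLe inf_le_right).toEquiv).ge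
      · rw [push_subtype hQP]
        exact Subgroup.map_subtype_le _
    · ext y
      rw [mem_push]
      constructor
      · rintro ⟨x, hx, hxT, rfl⟩
        rw [ext_apply κ hxT]
        exact hx
      · intro hy
        exact ⟨(y : G), hy, le_normalizerIn hQP hy,
          (ext_apply κ (le_normalizerIn hQP hy)).trans rfl⟩
  have hRn : (push κ Q).Normal := by
    rw [hpushQ]
    exact Subgroup.normal_in_normalizer
  have hRc : centralizerIn T Q ≤ Q :=
    (inf_le_inf_right _ (normalizerIn_le _ _)).trans (hQc.2 Q (isConj_refl _ hQP))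
  obtain ⟨W, _, hmodel⟩ := exists_model_quotient hreal Tl hTl hQT hRn hRc
  have hinj := hmodel.2.1.1
  refine hfree Q hQn hQc N hN (Y ⧸ W) _ hmodel (Good.involves hodd
    ((hgood.subgroupOf Subgroup.le_normalizer le_rfl).map (QuotientGroup.mk' W) ?_))
  intro x hx hx1
  have hxT : (x : G) ∈ T := hQT hx
  have h1 : (⟨(x : G), hxT⟩ : T) = 1 := hinj (hx1.trans (map_one _).symm)
  exact Subtype.ext (congrArg (fun t : T => (t : G)) h1)

end CfsgLib.Fusion.QdInvolved
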