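import Cfsg.Agent.Lib.FusionFactorApps
import Cfsg.Agent.Lib.FusionModelUnique
import Cfsg.Agent.Lib.FusionSubmodel
import Cfsg.Agent.Lib.FusionZJ
import Cfsg.Agent.Lib.QuadPairFree
import Cfsg.Agent.Lib.StableBridge

/-!
# Qd-free systems and their solvability, odd `p`
-/

set_option autoImplicit false

namespace CfsgLib.Fusion.QdSolvable

open Cfsg Cfsg.FusionSystem CfsgLib.Fusion
open scoped commutatorElement

set_option linter.unusedSectionVars false

universe u v

variable {p : ℕ} [hp : Fact p.Prime]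

/-- `ZJ` is a Glauberman functor. -/
theorem functorLocal_zFunctor (hodd : p ≠ 2) :
    FunctorLocal.{u, 0} p (Stable.zFunctor.{u} 0) ↥(Cfsg.qd p) := by
  intro L _ _ P hcen hfree
  have hst : Stable.Stab p L := Stable.stab_of_normalizerPStable
    (QuadPair.normalizerPStable_of_qdFree hodd hfree (Stable.isSec_self L))
  haveI := (pCore_isPGroup (p := p) (G := L)).2
  set Z := Stable.Zsub 0 (P : Subgroup L) with hZ
  have hmap : (Stable.zFunctor 0 ↥(P : Subgroup L)).map (P : Subgroup L).subtype = Z :=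
    Stable.inducedFunctor_zFunctor 0 (P : Subgroup L)
  have hPZ : (P : Subgroup L) ≤ Subgroup.normalizer (Z : Set L) :=
    (Subgroup.le_normalizer.trans (Stable.normalizer_le_Jsub 0 _)).trans (Stable.normalizer_Jsub_le_Zsub 0 _)
  have hDP := pCore_le_sylow (p := p) P
  have hZD : Z ≤ pCore p L := by
    intro z hz
    have hq : ⁅⁅pCore p L, Subgroup.zpowers z⁆, Subgroup.zpowers z⁆ = ⊥ := by
      have h1 : ⁅pCore p L, Subgroup.zpowers z⁆ ≤ Z := by
        rw [Subgroup.commutator_le]
        intro d hd w hw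
        rw [commutatorElement_def]
        exact Z.mul_mem ((Subgroup.mem_normalizer_iff.1 (hPZ (hDP hd)) _).1 (Subgroup.zpowers_le.2 hz hw))
          (Z.inv_mem (Subgroup.zpowers_le.2 hz hw))
      rw [eq_bot_iff, Subgroup.commutator_le]
      intro a ha w hw
      rw [Subgroup.mem_bot, commutatorElement_eq_one_iff_mul_comm]
      exact Stable.Zsub_comm_Jsub (Subgroup.zpowers_le.2 hz hw) (h1 ha).1
    have hzP : z ∈ (P : Subgroup L) := Stable.Zsub_le 0 _ hz
    obtain ⟨k, hk⟩ := P.2 ⟨z, hzP⟩
    have h := hst (pCore p L) pCore_isPGroup.1 z ⟨k, congrArg Subtype.val hk⟩ hq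
    set C := Subgroup.centralizer (pCore p L : Set L) with hC
    have hK : IsPGroup p ↥((pCore p (L ⧸ C)).comap (QuotientGroup.mk' C)) :=
      IsPGroup.comap_of_ker_isPGroup pCore_isPGroup.1 _
        (by rw [QuotientGroup.ker_mk']; exact pCore_isPGroup.1.to_le hcen)
    haveI := (pCore_isPGroup (p := p) (G := L ⧸ C)).2
    exact le_pCore_of_normal _ hK h
  rw [hmap]
  have h := Stable.inf_Zsub_normal hodd (Or.inl rfl) hst P (Stable.sclosed_self _) (pCore p L)
    inferInstance pCore_isPGroup.1
  rwa [← hZ, inf_eq_right.2 hZD] at h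

variable {Ω : Type u} [Group Ω] {S : Subgroup Ω} [Finite S] {F : FusionSystem S}

/-- A chain of the factor system lifts. -/
theorem hasSolvChain_lift (hS : IsPGroup p S) (hF : F.IsSaturated p) {S₀ : Subgroup Ω}
    {Ω' : Type v} [Group Ω'] {S' : Subgroup Ω'} {θ : S →* Ω'} {E : FusionSystem S'}
    (h : IsFac F S₀ θ E) (h0 : HasSolvChain F S₀) (hE : HasSolvChain E S') : HasSolvChain F S := by
  obtain ⟨n, C, hC0, hCl, hmono, hsc, hcomm⟩ := hE
  suffices ∀ i, HasSolvChain F (preimageAlong θ (C i)) by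
    have := this (Fin.last n)
    rwa [hCl, h.data.pre_top] at this
  intro i
  induction i using Fin.induction with
  | zero =>
    have e : preimageAlong θ (C 0) = S₀ := by
      refine le_antisymm (fun x hx => ?_) h.data.le_pre
      obtain ⟨hxS, hx1⟩ := mem_preimageAlong.mp hx
      rw [hC0, Subgroup.mem_bot] at hx1
      exact (h.data.th_eq_one_iff hxS).mp hx1
    rw [e]
    exact h0
  | succ i ih =>
    refine hasSolvChain_step ih (preimageAlong_mono (hmono (Fin.castSucc_le_succ i)))
      (h.stronglyClosed_pre hS hF (hsc _)) ?_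
    rw [Subgroup.commutator_le]
    intro a ha b hb
    obtain ⟨haS, ha'⟩ := mem_preimageAlong.mp ha
    obtain ⟨hbS, hb'⟩ := mem_preimageAlong.mp hb
    have hmem : ⁅a, b⁆ ∈ S := by
      rw [commutatorElement_def]
      exact S.mul_mem (S.mul_mem (S.mul_mem haS hbS) (S.inv_mem haS)) (S.inv_mem hbS)
    refine mem_preimageAlong.mpr ⟨hmem, hcomm i ?_⟩
    have e : ext θ ⁅a, b⁆ = ⁅ext θ a, ext θ b⁆ := by
      rw [ext_apply θ hmem, ext_apply θ haS, ext_apply θ hbS, ← map_commutatorElement]
      exact congrArg θ (Subtype.ext (by simp [commutatorElement_def]))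
    rw [e]
    exact Subgroup.commutator_mem_commutator ha' hb'

theorem hasSolvChain_of_qdFree (hodd : p ≠ 2) :
    ∀ (n : ℕ) (Ω : Type u) [Group Ω] (S : Subgroup Ω) [Finite S], IsPGroup p S →
      ∀ F : FusionSystem S, F.IsSaturated p → F.IsSectionFree p ↥(Cfsg.qd p) → Nat.card S = n →
        HasSolvChain F S := by
  intro n
  induction n using Nat.strong_induction_on with
  | _ n ih =>
  intro Ω _ S _ hS F hF hfree hn
  have h0 : HasSolvChain F ⊥ := ⟨0, fun _ => ⊥, rfl, rfl, fun _ _ _ => le_rfl,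
    fun _ => isNormal_stronglyClosed (isNormal_bot F), fun i => i.elim0⟩
  rcases eq_or_ne S ⊥ with rfl | hS1
  · exact h0
  set W := (Stable.zFunctor.{u} 0 ↥S).map S.subtype with hW
  have hWS : W ≤ S := Subgroup.map_subtype_le _
  have hWn : F.IsNormal W := functor_isNormal (isPFunctor_zFunctor p) (functorLocal_zFunctor hodd) hS hF hfree
  have hW1 : W ≠ ⊥ := fun e => (isPFunctor_zFunctor p).ne_bot ↥S hS
    ((Subgroup.nontrivial_iff_ne_bot S).2 hS1)
    ((Subgroup.map_eq_bot_iff_of_injective _ S.subtype_injective).1 e)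
  have hWc : ⁅W, W⁆ ≤ (⊥ : Subgroup Ω) := by
    rw [Subgroup.commutator_le]
    rintro _ ⟨a, ha, rfl⟩ _ ⟨b, hb, rfl⟩
    rw [Subgroup.mem_bot, commutatorElement_eq_one_iff_mul_comm, ← map_mul, ← map_mul]
    exact congrArg S.subtype (Stable.Zsub_comm_Jsub hb ha.1)
  have hWsc := isNormal_stronglyClosed hWn
  have hWchain : HasSolvChain F W := hasSolvChain_step h0 bot_le hWsc hWc
  have := finite_of_le hWS
  haveI := normal_subgroupOf_of_le hWS (stronglyClosed_normalized hWsc)
  set θ := QuotientGroup.mk' (W.subgroupOf S) with hθ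
  have d : FacData F W θ (⊤ : Subgroup (↥S ⧸ W.subgroupOf S)) :=
    ⟨hWsc, fun s => by rw [hθ, QuotientGroup.mk'_apply, QuotientGroup.eq_one_iff]; rfl,
      MonoidHom.range_eq_top.2 (QuotientGroup.mk'_surjective _)⟩
  obtain ⟨E, hE'⟩ := exists_factorSystem d
  have hE := isFac_of_isFactorSystem hWsc hE'
  have := d.finite
  have hlt : Nat.card (⊤ : Subgroup (↥S ⧸ W.subgroupOf S)) < n := by
    rw [Subgroup.card_top, ← hn, (W.subgroupOf S).card_eq_card_quotient_mul_card_subgroup]
    refine lt_mul_of_one_lt_right Nat.card_pos (Finite.one_lt_card_iff_nontrivial.2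
      ((Subgroup.nontrivial_iff_ne_bot _).2 fun e => hW1 ?_))
    rw [← Subgroup.map_subgroupOf_eq_of_le hWS, e, Subgroup.map_bot]
  exact hasSolvChain_lift hS hF hE hWchain
    (ih _ hlt _ ⊤ (d.isPGroup hS) E (hE.saturated hS hF) (hE.sectionFree hS hF hWn hfree) rfl)

/-- The normalizer system in the fusion system of a group. -/
theorem normalizerSystem_realized {G : Type u} [Group G] [Finite G] {T Q : Subgroup G} (hQ : Q ≤ T)
    {N : FusionSystem (normalizerIn T Q)} (hN : (groupFusionSystem T).IsNormalizerSystem Q N) :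
    N.IsRealizedBy (Subgroup.inclusion (inf_le_right : normalizerIn T Q ≤ Subgroup.normalizer (Q : Set G))) := by
  refine ⟨Subgroup.inclusion_injective _, fun X hX φ hφ => ⟨fun hm => ?_, ?_⟩⟩
  · obtain ⟨-, -, -, k, hk, hkf, hkQ⟩ := (map_of_isNormalizerSystem hN).mp (map_ext hm)
    obtain ⟨-, -, g, hg⟩ := groupFusion_map_iff.mp hk
    have hgN : g ∈ Subgroup.normalizer (Q : Set G) := by
      refine mem_normalizer_of_conj_mem fun y hy => ?_
      rw [← hg y (Subgroup.mem_sup_right hy)]
      exact hkQ.le (mem_img_of_mem k hy)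
    refine ⟨⟨g, hgN⟩, fun x => Subtype.ext ?_⟩
    show φ x = g * (x : G) * g⁻¹
    rw [← hg _ (Subgroup.mem_sup_left x.2), hkf _ x.2, ext_coe]
  · rintro ⟨⟨g, hgN⟩, hg⟩
    have hgx : ∀ x : X, φ x = g * (x : G) * g⁻¹ := fun x => congrArg Subtype.val (hg x)
    have hXT : X ≤ T := hX.trans (normalizerIn_le T Q)
    have hgQ : ∀ y ∈ Q, g * y * g⁻¹ ∈ Q := fun y hy => (Subgroup.mem_normalizer_iff.1 hgN y).1 hy
    have hk : Map (groupFusionSystem T) (X ⊔ Q) (fun y => g * y * g⁻¹) := by
      refine groupFusion_map_iff.mpr ⟨sup_le hXT hQ, fun y hy => ?_, g, fun _ _ => rfl⟩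
      have hle : X ⊔ Q ≤ T.comap (MulAut.conj g).toMonoidHom :=
        sup_le (fun x hx => by
          show g * x * g⁻¹ ∈ T
          rw [← hgx ⟨x, hx⟩]
          exact normalizerIn_le T Q (hφ _))
          (fun x hx => hQ (hgQ x hx))
      exact hle hy
    have hmap : Map N X (ext φ) := (map_of_isNormalizerSystem hN).mpr
      ⟨(hk.restrict le_sup_left).congr fun x hx => by rw [ext_apply φ hx, hgx ⟨x, hx⟩], hX,
        fun x hx => by rw [ext_apply φ hx]; exact hφ _, fun y => g * y * g⁻¹, hk,
        fun x hx => by rw [ext_apply φ hx, hgx ⟨x, hx⟩],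
        eq_of_le_of_card_le hQ (img_le_iff.mpr hgQ) (hk.restrict le_sup_right).card_img.ge⟩
    exact mem_hom_iff_map.mpr hmap

/-- A group in which `H` is not involved has an `H`-free fusion system. -/
theorem sectionFree_group {G : Type u} [Group G] [Finite G] {H : Type v} [Group H] (P : Sylow p G)
    (hG : ¬ Involves H G) : (groupFusionSystem (P : Subgroup G)).IsSectionFree p H := by
  intro Q hQn hQc N hN L _ ι hL hinv
  set T := normalizerIn (P : Subgroup G) Q
  set X := Subgroup.normalizer (Q : Set G)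
  set κ := Subgroup.inclusion (inf_le_right : T ≤ X)
  have hreal := normalizerSystem_realized hQc.1 hN
  have := finite_of_le (normalizerIn_le (P : Subgroup G) Q)
  have hTp : IsPGroup p T := P.2.to_le (normalizerIn_le _ _)
  have hrange : κ.range = T.subgroupOf X := by
    ext y
    constructor
    · rintro ⟨t, rfl⟩; exact t.2
    · intro hy; exact ⟨⟨(y : G), hy⟩, Subtype.ext rfl⟩
  obtain ⟨Tl, hTl⟩ := (hTp.comap_of_injective X.subtype X.subtype_injective).exists_le_sylow
  have hTl' : (Tl : Subgroup X) = κ.range := by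
    rw [hrange]
    refine (Subgroup.eq_of_le_of_card_ge hTl ?_).symm
    have h := (realized_fullyNormalized_iff (groupFusion_realized (P : Subgroup G)) P
      (Subgroup.range_subtype _).symm hQc.1).mp hQn ((Tl : Subgroup X).map X.subtype) ?_ (Tl.2.map _)
    · rw [Subgroup.card_map_of_injective X.subtype_injective] at h
      exact h.trans (Nat.card_congr (Subgroup.subgroupOfEquivOfLe inf_le_right).toEquiv).ge
    · have hpush : push (P : Subgroup G).subtype Q = Q := by
        rw [push, Subgroup.subgroupOf_map_subtype, inf_eq_left.2 hQc.1]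
      rw [hpush]
      exact Subgroup.map_subtype_le _
  have hQT : Q ≤ T := le_normalizerIn hQc.1
  have hpushQ : push κ Q = Q.subgroupOf X := by
    ext y
    rw [mem_push]
    constructor
    · rintro ⟨x, hx, hxT, rfl⟩
      rw [ext_apply κ hxT]
      exact hx
    · intro hy
      exact ⟨(y : G), hy, hQT hy, (ext_apply κ (hQT hy)).trans rfl⟩
  have hRn : (push κ Q).Normal := by
    rw [hpushQ]
    exact Subgroup.normal_in_normalizer
  have hRc : centralizerIn T Q ≤ Q :=
    (inf_le_inf_right _ (normalizerIn_le _ _)).trans (hQc.2 Q (isConj_refl _ hQc.1))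
  obtain ⟨W, _, hmodel⟩ := exists_model_quotient hreal Tl hTl' hQT hRn hRc
  obtain ⟨φ, -⟩ := exists_model_equiv hTp hL hmodel
  refine hG (involves_of_injective (φ := X.subtype) X.subtype_injective
    (involves_of_surjective (φ := QuotientGroup.mk' W) (QuotientGroup.mk'_surjective W)
      (involves_of_injective (φ := φ.toMonoidHom) φ.injective hinv)))

end CfsgLib.Fusion.QdSolvable
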