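import Cfsg.Agent.Lib.LengthSeries
import Mathlib.GroupTheory.GroupAction.Basic
import Mathlib.GroupTheory.GroupAction.Quotient
import Mathlib.GroupTheory.GroupAction.SubMulAction
import Mathlib.Algebra.Group.End
import Mathlib.GroupTheory.Index
import Mathlib.Data.Set.Card
import Mathlib.NumberTheory.ArithmeticFunction.Misc

/-!
# Series lengths of permutation groups: reductions
-/

set_option autoImplicit false
set_option linter.unusedSectionVars false
set_option linter.style.haveILetI false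

namespace CfsgLib.Length

open MulAction

attribute [local instance] Classical.propDecidable

/-- Number of orbits. -/
noncomputable def orbitCount (X Ω : Type*) [Group X] [MulAction X Ω] : ℕ :=
  Nat.card (Quotient (orbitRel X Ω))

/-- The bound for groups of degree `k`. -/
def Bnd (k : ℕ) : Prop :=
  ∀ X : Subgroup (Equiv.Perm (Fin k)),
    3 * len (⊤ : Subgroup X) + 4 * orbitCount X (Fin k) ≤ 4 * k

theorem bnd_apply {k : ℕ} (h : Bnd k) {X Ω : Type*} [Group X] [Finite X] [MulAction X Ω]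
    [FaithfulSMul X Ω] [Finite Ω] (hk : Nat.card Ω = k) :
    3 * len (⊤ : Subgroup X) + 4 * orbitCount X Ω ≤ 4 * k := by
  let e : Ω ≃ Fin k := (Finite.equivFin Ω).trans (finCongr hk)
  let φ : X →* Equiv.Perm (Fin k) := e.permCongrHom.toMonoidHom.comp (toPermHom X Ω)
  have hinj : Function.Injective φ :=
    e.permCongrHom.injective.comp toPerm_injective
  have hφ : ∀ (x : X) (i : Fin k), φ x i = e (x • e.symm i) := fun x i => rfl
  have h1 := h φ.range
  rw [← len_top_equiv (MonoidHom.ofInjective hinj)] at h1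
  have h2 : orbitCount X Ω ≤ orbitCount φ.range (Fin k) := by
    refine Nat.card_le_card_of_surjective
      (Quotient.lift (fun i : Fin k => (Quotient.mk (orbitRel X Ω) (e.symm i))) ?_) ?_
    · rintro i j ⟨⟨y, x, rfl⟩, hy⟩
      refine Quotient.sound ⟨x, ?_⟩
      have : φ x j = i := hy
      rw [← this, hφ]; simp
    · intro q
      obtain ⟨ω, rfl⟩ := Quotient.exists_rep q
      exact ⟨Quotient.mk _ (e ω), by simp⟩
  omega

theorem orbitCount_pos (X Ω : Type*) [Group X] [MulAction X Ω] [Finite Ω] [Nonempty Ω] :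
    1 ≤ orbitCount X Ω :=
  Nat.one_le_iff_ne_zero.2
    (Nat.card_ne_zero.2 ⟨⟨Quotient.mk _ (_root_.Classical.arbitrary Ω)⟩, inferInstance⟩)

theorem bound_hom {n : ℕ} (hb : ∀ k < n, Bnd k) {X Ω : Type*} [Group X] [Finite X] [Finite Ω]
    [Nonempty Ω] (φ : X →* Equiv.Perm Ω) (hlt : Nat.card Ω < n) :
    3 * len (⊤ : Subgroup φ.range) + 4 ≤ 4 * Nat.card Ω := by
  have := bnd_apply (hb _ hlt) (X := φ.range) (Ω := Ω) rfl
  have := orbitCount_pos φ.range Ω
  omega

/-- An invariant set of a subgroup, as a sub-action. -/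
def invSet {X Ω : Type*} [Group X] [MulAction X Ω] (K : Subgroup X) (C : Set Ω)
    (h : ∀ k ∈ K, ∀ b ∈ C, k • b ∈ C) : SubMulAction K Ω :=
  { carrier := C, smul_mem' := fun k b hb => h (k : X) k.2 b hb }

theorem faithful_invSet {X Ω : Type*} [Group X] [MulAction X Ω] [FaithfulSMul X Ω]
    (K : Subgroup X) (C : Set Ω) (h : ∀ k ∈ K, ∀ b ∈ C, k • b ∈ C)
    (hfix : ∀ k ∈ K, ∀ b ∉ C, k • b = b) : FaithfulSMul K (invSet K C h) := by
  refine ⟨fun {x y} hxy => Subtype.ext (eq_of_smul_eq_smul fun ω : Ω => ?_)⟩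
  by_cases hω : ω ∈ C
  · exact congrArg Subtype.val (hxy ⟨ω, hω⟩)
  · rw [hfix _ x.2 ω hω, hfix _ y.2 ω hω]

theorem intransitive_step {n : ℕ} (hb : ∀ k < n, Bnd k) {X Ω : Type*} [Group X] [Finite X]
    [MulAction X Ω] [FaithfulSMul X Ω] [Finite Ω] (hn : Nat.card Ω = n) (a : Ω)
    (hnt : ¬ IsPretransitive X Ω) :
    3 * len (⊤ : Subgroup X) + 4 * orbitCount X Ω ≤ 4 * n := by
  obtain ⟨b₀, hb₀⟩ : ∃ b, b ∉ orbit X a := by
    by_contra hc
    push Not at hc
    refine hnt ⟨fun x y => ?_⟩
    obtain ⟨g, hg⟩ := hc x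
    obtain ⟨g', hg'⟩ := hc y
    have hg : g • a = x := hg
    have hg' : g' • a = y := hg'
    exact ⟨g' * g⁻¹, by rw [← hg, mul_smul, inv_smul_smul, hg']⟩
  set φ : X →* Equiv.Perm (orbit X a) := toPermHom X (orbit X a) with hφ
  have hfixK : ∀ k ∈ φ.ker, ∀ b ∈ orbit X a, k • b = b := fun k hk b hb => by
    have := congrArg (fun σ => σ ⟨b, hb⟩) (MonoidHom.mem_ker.1 hk)
    exact congrArg Subtype.val this
  have hinv : ∀ k ∈ φ.ker, ∀ b ∈ (orbit X a)ᶜ, k • b ∈ (orbit X a)ᶜ := by
    intro k _ b hb hkb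
    refine hb ?_
    obtain ⟨g, hg⟩ := hkb
    exact ⟨k⁻¹ * g, by show (k⁻¹ * g) • a = b; rw [mul_smul]; rw [show g • a = k • b from hg, inv_smul_smul]⟩
  haveI := faithful_invSet φ.ker (orbit X a)ᶜ hinv
    (fun k hk b hb => hfixK k hk b (not_not.1 hb))
  have hcardC : Nat.card (invSet φ.ker (orbit X a)ᶜ hinv) = (orbit X a)ᶜ.ncard :=
    Nat.card_coe_set_eq _
  have hsum := Set.ncard_add_ncard_compl (orbit X a)
  have hposO : 0 < (orbit X a).ncard := (Set.ncard_pos (Set.toFinite _)).2 ⟨a, mem_orbit_self a⟩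
  have hposC : 0 < (orbit X a)ᶜ.ncard := (Set.ncard_pos (Set.toFinite _)).2 ⟨b₀, hb₀⟩
  haveI : Nonempty (orbit X a) := ⟨⟨a, mem_orbit_self a⟩⟩
  have hcardO : Nat.card (orbit X a) = (orbit X a).ncard := Nat.card_coe_set_eq _
  have h1 := bound_hom hb φ (by omega)
  have h2 := bnd_apply (hb _ (show (orbit X a)ᶜ.ncard < n by omega))
    (X := φ.ker) (Ω := invSet φ.ker (orbit X a)ᶜ hinv) hcardC
  have h3 := len_le_ker_add_range φ
  have h4 : orbitCount X Ω ≤ orbitCount φ.ker (invSet φ.ker (orbit X a)ᶜ hinv) + 1 := by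
    have key : orbitCount X Ω ≤
        Nat.card (Option (Quotient (orbitRel φ.ker (invSet φ.ker (orbit X a)ᶜ hinv)))) := by
      refine Nat.card_le_card_of_surjective
        (fun o => o.elim (Quotient.mk _ a) (Quotient.lift (fun b => Quotient.mk _ (b : Ω)) ?_)) ?_
      · rintro b c ⟨k, hk⟩
        exact Quotient.sound ⟨(k : X), congrArg Subtype.val hk⟩
      · intro q
        obtain ⟨ω, rfl⟩ := Quotient.exists_rep q
        by_cases hω : ω ∈ orbit X a
        · exact ⟨none, (Quotient.sound hω).symm⟩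
        · exact ⟨some (Quotient.mk _ ⟨ω, hω⟩), rfl⟩
    rwa [Finite.card_option] at key
  omega

theorem imprimitive_step {n : ℕ} (hb : ∀ k < n, Bnd k) {X Ω : Type*} [Group X] [Finite X]
    [MulAction X Ω] [FaithfulSMul X Ω] [Finite Ω] (hn : Nat.card Ω = n) (a : Ω)
    [IsPretransitive X Ω] (H : Subgroup X) (hH : stabilizer X a < H) (hH' : H ≠ ⊤) :
    3 * len (⊤ : Subgroup X) + 4 * orbitCount X Ω ≤ 4 * n := by
  have hidx : (stabilizer X a).index = n := by
    rw [← hn, MulAction.index_stabilizer_of_transitive]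
  have hn1 : H.index < n := by
    have h1 := Subgroup.relIndex_mul_index hH.le
    have h2 : 2 ≤ (stabilizer X a).relIndex H := by
      have h0 : (stabilizer X a).relIndex H ≠ 0 := by
        intro h0; rw [h0, zero_mul] at h1; exact Subgroup.index_ne_zero_of_finite h1.symm
      have h11 : (stabilizer X a).relIndex H ≠ 1 := by
        rw [Ne, Subgroup.relIndex_eq_one]; exact not_le_of_gt hH
      omega
    have h3 : 0 < H.index := Nat.pos_of_ne_zero Subgroup.index_ne_zero_of_finite
    rw [hidx] at h1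
    calc H.index < 2 * H.index := by omega
      _ ≤ (stabilizer X a).relIndex H * H.index := Nat.mul_le_mul_right _ h2
      _ = n := h1
  set φ : X →* Equiv.Perm (X ⧸ H) := toPermHom X (X ⧸ H) with hφ
  haveI : FaithfulSMul φ.ker Ω :=
    ⟨fun {x y} h => Subtype.ext (eq_of_smul_eq_smul fun ω : Ω => h ω)⟩
  have hch : ∀ b : Ω, ∃ g : X, g • a = b := fun b => exists_smul_eq X a b
  choose g hg using hch
  have hpi : ∀ (x : X) (b : Ω), x • a = b → ((x : X) : X ⧸ H) = (g b : X ⧸ H) := by
    intro x b hx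
    refine QuotientGroup.eq.2 (hH.le ?_)
    rw [mem_stabilizer_iff, mul_smul, hg, ← hx, inv_smul_smul]
  have h1 : H.index ≤ orbitCount φ.ker Ω := by
    rw [Subgroup.index_eq_card]
    refine Nat.card_le_card_of_surjective (Quotient.lift (fun b => ((g b : X) : X ⧸ H)) ?_) ?_
    · rintro b c ⟨k, hk⟩
      have hk' : (k : X) • c = b := hk
      have e1 := hpi ((k : X) * g c) b (by rw [mul_smul, hg, hk'])
      have e2 : φ (k : X) ((g c : X) : X ⧸ H) = ((g c : X) : X ⧸ H) := by
        rw [MonoidHom.mem_ker.1 k.2]; rfl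
      exact e1.symm.trans e2
    · intro q
      obtain ⟨x, rfl⟩ := QuotientGroup.mk_surjective q
      exact ⟨Quotient.mk _ (x • a), (hpi x _ rfl).symm⟩
  have h2 := bound_hom hb φ (by rw [← Subgroup.index_eq_card]; exact hn1)
  rw [← Subgroup.index_eq_card] at h2
  have h3 := len_le_ker_add_range φ
  have h4 : orbitCount X Ω = 1 := by
    haveI : Nonempty Ω := ⟨a⟩
    haveI : Subsingleton (Quotient (orbitRel X Ω)) :=
      ⟨fun p q => Quotient.inductionOn₂ p q fun b c => Quotient.sound (exists_smul_eq X c b)⟩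
    exact le_antisymm (Finite.card_le_one_iff_subsingleton.2 inferInstance) (orbitCount_pos X Ω)
  -- the kernel has at least `H.index` orbits
  rcases Nat.lt_or_ge 1 (H.index) with hi | hi
  · have hker : 3 * len (⊤ : Subgroup φ.ker) + 4 * orbitCount φ.ker Ω ≤ 4 * n := by
      obtain ⟨c, hc⟩ : ∃ c, c ∉ orbit φ.ker a := by
        by_contra hc
        push Not at hc
        haveI : Subsingleton (Quotient (orbitRel φ.ker Ω)) :=
          ⟨fun p q => Quotient.inductionOn₂ p q fun b c => Quotient.sound (by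
            have hb' := orbit_eq_iff.2 (hc b)
            rw [← orbit_eq_iff.2 (hc c)] at hb'
            exact orbit_eq_iff.1 hb')⟩
        have := Finite.card_le_one_iff_subsingleton.2
          (inferInstance : Subsingleton (Quotient (orbitRel φ.ker Ω)))
        have := h1
        unfold orbitCount at this
        omega
      exact intransitive_step hb hn a fun ht => hc (exists_smul_eq φ.ker a c)
    omega
  · have := Subgroup.index_ne_zero_of_finite (H := H)
    exact absurd (Subgroup.index_eq_one.1 (by omega)) hH'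

theorem Ser.le_cardFactors {G : Type*} [Group G] [Finite G] {B : Subgroup G} {k : ℕ}
    (h : Ser B k) : k ≤ ArithmeticFunction.cardFactors (Nat.card B) := by
  induction h with
  | base => exact Nat.zero_le _
  | @step A B k _ hlt _ ih =>
    obtain ⟨c, hc⟩ := Subgroup.card_dvd_of_le hlt.le
    have hA : Nat.card A ≠ 0 := Nat.card_pos.ne'
    have hc0 : c ≠ 0 := fun h0 => Nat.card_pos.ne' (by rw [hc, h0, mul_zero])
    have hc1 : c ≠ 1 := fun h1 => hlt.ne (Subgroup.eq_of_le_of_card_ge hlt.le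
      (by rw [hc, h1, mul_one]))
    rw [hc, ArithmeticFunction.cardFactors_mul hA hc0]
    have : ArithmeticFunction.cardFactors c ≠ 0 := by
      rw [Ne, ArithmeticFunction.cardFactors_eq_zero_iff_eq_zero_or_one]; omega
    omega

theorem cardFactors_le_log {m : ℕ} (hm : m ≠ 0) :
    ArithmeticFunction.cardFactors m ≤ Nat.log 2 m := by
  refine Nat.le_log_of_pow_le (by norm_num) ?_
  rw [ArithmeticFunction.cardFactors_apply]
  conv_rhs => rw [← Nat.prod_primeFactorsList hm]
  exact List.pow_card_le_prod _ _ fun x hx => (Nat.prime_of_mem_primeFactorsList hx).two_le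

end CfsgLib.Length
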