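import Cfsg.Agent.Lib.LengthSeries
import Mathlib.GroupTheory.NoncommPiCoprod
import Mathlib.GroupTheory.NoncommCoprod
import Mathlib.GroupTheory.Sylow
import Mathlib.GroupTheory.Nilpotent

/-!
# The simple factors of a nonabelian minimal normal subgroup
-/

set_option autoImplicit false
set_option linter.unusedSectionVars false
set_option linter.style.haveILetI false

namespace CfsgLib.Length

open Subgroup

variable {G : Type*} [Group G]

attribute [local instance] Classical.propDecidable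

/-- The simple factors of a nonabelian minimal normal subgroup `N`. -/
structure Factors (N : Subgroup G) where
  F : Finset (Subgroup G)
  nonempty : F.Nonempty
  sup_eq : F.sup id = N
  simple : ∀ T ∈ F, IsSimpleGroup T
  nab : ∀ T ∈ F, ¬ IsMulCommutative T
  norm : ∀ T ∈ F, NormIn T N
  comm : ∀ T ∈ F, ∀ T' ∈ F, T ≠ T' → ∀ t ∈ T, ∀ t' ∈ T', Commute t t'
  conj : ∀ g : G, ∀ T ∈ F, T.map (MulAut.conj g).toMonoidHom ∈ F
  trans : ∀ T ∈ F, ∀ T' ∈ F, ∃ g : G, T.map (MulAut.conj g).toMonoidHom = T'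

theorem mem_map_conj {g x : G} {T : Subgroup G} :
    x ∈ T.map (MulAut.conj g).toMonoidHom ↔ g⁻¹ * x * g ∈ T := by
  constructor
  · rintro ⟨t, ht, rfl⟩
    show g⁻¹ * (MulAut.conj g t) * g ∈ T
    rw [MulAut.conj_apply]
    simpa [mul_assoc] using ht
  · intro h
    exact ⟨g⁻¹ * x * g, h, by
      show MulAut.conj g (g⁻¹ * x * g) = x
      rw [MulAut.conj_apply]; group⟩

theorem exists_factors [Finite G] (N : Subgroup G) [hN : N.Normal] (hne : N ≠ ⊥)
    (hmin : ∀ L : Subgroup G, L.Normal → L ≤ N → L = ⊥ ∨ L = N) (hnab : ¬ IsMulCommutative N) :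
    Nonempty (Factors N) := by
  have hex : ∃ T : Subgroup G, T ≠ ⊥ ∧ T ≤ N ∧ NormIn T N :=
    ⟨N, hne, le_rfl, fun x _ a ha => hN.conj_mem a ha x⟩
  obtain ⟨T, ⟨hT0, hTN, hTn⟩, hTmin⟩ := exists_minimal_of_wellFoundedLT _ hex
  haveI : Fintype G := Fintype.ofFinite G
  set F : Finset (Subgroup G) :=
    Finset.univ.image fun g : G => T.map (MulAut.conj g).toMonoidHom with hF
  have hconj : ∀ T' ∈ F, ∃ g : G, ∀ x, x ∈ T' ↔ g⁻¹ * x * g ∈ T := by
    intro T' hT'
    obtain ⟨g, -, rfl⟩ := Finset.mem_image.1 hT'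
    exact ⟨g, fun x => mem_map_conj⟩
  have hle : ∀ T' ∈ F, T' ≤ N := by
    intro T' hT' x hx
    obtain ⟨g, hg⟩ := hconj T' hT'
    have := hN.conj_mem _ (hTN ((hg x).1 hx)) g
    simpa [mul_assoc] using this
  have hnorm : ∀ T' ∈ F, NormIn T' N := by
    intro T' hT' x hx a ha
    obtain ⟨g, hg⟩ := hconj T' hT'
    rw [hg] at ha ⊢
    have hxN : g⁻¹ * x * g ∈ N := by simpa using hN.conj_mem x hx g⁻¹
    have := hTn _ hxN _ ha
    simpa [mul_assoc] using this
  have hmin' : ∀ T' ∈ F, ∀ L : Subgroup G, L ≤ T' → NormIn L N → L = ⊥ ∨ L = T' := by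
    intro T' hT' L hLT hLn
    obtain ⟨g, hg⟩ := hconj T' hT'
    by_cases hL : L = ⊥
    · exact Or.inl hL
    refine Or.inr (le_antisymm hLT fun x hx => ?_)
    set L' : Subgroup G := L.map (MulAut.conj g⁻¹).toMonoidHom with hL'
    have hmem : ∀ y, y ∈ L' ↔ g * y * g⁻¹ ∈ L := fun y => by
      rw [hL', mem_map_conj, inv_inv]
    have h1 : L' ≤ T := fun y hy => by
      have := (hg _).1 (hLT ((hmem y).1 hy))
      simpa [mul_assoc] using this
    have h0 : L' ≠ ⊥ := fun e => hL ((Subgroup.map_eq_bot_iff_of_injective _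
      (MulAut.conj g⁻¹).injective).1 e)
    have h2 : NormIn L' N := fun y hy a ha => by
      rw [hmem] at ha ⊢
      have := hLn (g * y * g⁻¹) (hN.conj_mem y hy g) _ ha
      simpa [mul_assoc] using this
    have h3 : T ≤ L' := hTmin ⟨h0, h1.trans hTN, h2⟩ h1
    have := (hmem _).1 (h3 ((hg x).1 hx))
    simpa [mul_assoc] using this
  have hTF : T ∈ F := Finset.mem_image.2 ⟨1, Finset.mem_univ _, by
    ext x; rw [mem_map_conj]; simp⟩
  have hcomm : ∀ T₁ ∈ F, ∀ T₂ ∈ F, T₁ ≠ T₂ → ∀ t ∈ T₁, ∀ t' ∈ T₂, Commute t t' := by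
    intro T₁ h₁ T₂ h₂ hne t ht t' ht'
    have hd : T₁ ⊓ T₂ = ⊥ := by
      rcases hmin' T₁ h₁ (T₁ ⊓ T₂) inf_le_left
        (fun x hx a ha => ⟨hnorm T₁ h₁ x hx a ha.1, hnorm T₂ h₂ x hx a ha.2⟩) with h | h
      · exact h
      rcases hmin' T₂ h₂ T₁ (inf_eq_left.1 h) (hnorm T₁ h₁) with h' | h'
      · rw [h', bot_inf_eq]
      · exact absurd h' hne
    have hmem : t * t' * t⁻¹ * t'⁻¹ ∈ T₁ ⊓ T₂ := by
      refine ⟨?_, ?_⟩
      · have := T₁.mul_mem ht (hnorm T₁ h₁ t' (hle T₂ h₂ ht') t⁻¹ (T₁.inv_mem ht))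
        simpa [mul_assoc] using this
      · exact T₂.mul_mem (hnorm T₂ h₂ t (hle T₁ h₁ ht) t' ht') (T₂.inv_mem ht')
    rw [hd, Subgroup.mem_bot] at hmem
    exact mul_inv_eq_iff_eq_mul.1 (mul_inv_eq_one.1 hmem)
  have hclosed : ∀ g : G, ∀ T' ∈ F, T'.map (MulAut.conj g).toMonoidHom ∈ F := by
    intro g T' hT'
    obtain ⟨h, -, rfl⟩ := Finset.mem_image.1 hT'
    refine Finset.mem_image.2 ⟨g * h, Finset.mem_univ _, ?_⟩
    ext x
    simp only [mem_map_conj]
    simp [mul_assoc]
  have hsupn : (F.sup id).Normal := by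
    refine ⟨fun x hx g => ?_⟩
    have h : (F.sup id).map (MulAut.conj g).toMonoidHom ≤ F.sup id := by
      rw [Subgroup.map_le_iff_le_comap]
      refine Finset.sup_le fun T' hT' => ?_
      rw [← Subgroup.map_le_iff_le_comap]
      exact Finset.le_sup (f := id) (hclosed g T' hT')
    exact h ⟨x, hx, rfl⟩
  have hsup : F.sup id = N := by
    rcases hmin _ hsupn (Finset.sup_le hle) with h | h
    · exact absurd (le_bot_iff.1 (h ▸ Finset.le_sup (f := id) hTF)) hT0
    · exact h
  have hnabF : ∀ T' ∈ F, ¬ IsMulCommutative T' := by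
    intro T' hT' hc
    obtain ⟨g, hg⟩ := hconj T' hT'
    apply hnab
    have hTc : ∀ a ∈ T, ∀ b ∈ T, Commute a b := by
      intro a ha b hb
      have ha' : g * a * g⁻¹ ∈ T' := (hg _).2 (by simpa [mul_assoc] using ha)
      have hb' : g * b * g⁻¹ ∈ T' := (hg _).2 (by simpa [mul_assoc] using hb)
      have h := congrArg Subtype.val (hc.is_comm.comm (⟨_, ha'⟩ : T') ⟨_, hb'⟩)
      simp only [Subgroup.coe_mul] at h
      show a * b = b * a
      refine (MulAut.conj g).injective ?_
      rw [map_mul, map_mul, MulAut.conj_apply, MulAut.conj_apply]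
      exact h
    have hall : ∀ T₁ ∈ F, ∀ T₂ ∈ F, ∀ t ∈ T₁, ∀ t' ∈ T₂, Commute t t' := by
      intro T₁ h₁ T₂ h₂ t ht t' ht'
      by_cases e : T₁ = T₂
      · subst e
        obtain ⟨h, hh⟩ := hconj T₁ h₁
        have := hTc _ ((hh t).1 ht) _ ((hh t').1 ht')
        have h2 := Commute.map this (MulAut.conj h).toMonoidHom
        simpa [mul_assoc] using h2
      · exact hcomm T₁ h₁ T₂ h₂ e t ht t' ht'
    have h1 : ∀ T₂ ∈ F, T₂ ≤ Subgroup.centralizer ((F.sup id : Subgroup G) : Set G) := by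
      intro T₂ h₂
      rw [Subgroup.le_centralizer_iff]
      exact Finset.sup_le fun T₁ h₁ x hx => Subgroup.mem_centralizer_iff.2 fun y hy =>
        (hall T₂ h₂ T₁ h₁ y hy x hx).eq
    refine ⟨⟨fun a b => Subtype.ext ?_⟩⟩
    have hsub := Finset.sup_le (f := id) h1
    rw [hsup] at hsub
    exact (Subgroup.mem_centralizer_iff.1 (hsub a.2) b b.2).symm
  have hsimple : ∀ T' ∈ F, IsSimpleGroup T' := by
    intro T' hT'
    have hne' : T' ≠ ⊥ := fun e => hnabF T' hT' ⟨⟨fun a b => Subtype.ext (by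
      have ha : (a : G) ∈ (⊥ : Subgroup G) := e ▸ a.2
      have hb : (b : G) ∈ (⊥ : Subgroup G) := e ▸ b.2
      rw [Subgroup.mem_bot] at ha hb
      simp [ha, hb])⟩⟩
    haveI : Nontrivial T' := T'.nontrivial_iff_ne_bot.2 hne'
    refine ⟨fun K hK => ?_⟩
    set L := K.map T'.subtype with hL
    have hLle : L ≤ T' := Subgroup.map_subtype_le K
    have hn : NormIn L N := by
      intro x hx a ha
      have hN' : N ≤ Subgroup.normalizer (L : Set G) := by
        rw [← hsup]
        refine Finset.sup_le fun T₁ h₁ y hy => ?_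
        by_cases e : T₁ = T'
        · subst e
          refine Subgroup.mem_normalizer_iff.2 fun b => ⟨?_, ?_⟩
          · rintro ⟨k, hk, rfl⟩
            exact ⟨⟨y, hy⟩ * k * ⟨y, hy⟩⁻¹, hK.conj_mem k hk _, rfl⟩
          · rintro ⟨k, hk, hkb⟩
            refine ⟨⟨y, hy⟩⁻¹ * k * ⟨y, hy⟩⁻¹⁻¹, hK.conj_mem k hk _, ?_⟩
            simp only [Subgroup.coe_subtype] at hkb
            simp [hkb, mul_assoc]
        · refine Subgroup.mem_normalizer_iff.2 fun b => ⟨fun hb => ?_, fun hb => ?_⟩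
          · have := hcomm T₁ h₁ T' hT' e y hy b (hLle hb)
            rwa [this.eq, mul_inv_cancel_right]
          · have := hcomm T₁ h₁ T' hT' e y⁻¹ (T₁.inv_mem hy) _ (hLle hb)
            have e2 : b = y * b * y⁻¹ := by
              calc b = y⁻¹ * (y * b * y⁻¹) * y := by group
                _ = y * b * y⁻¹ * y⁻¹ * y := by rw [this.eq]
                _ = y * b * y⁻¹ := by group
            rwa [e2]
      exact (Subgroup.mem_normalizer_iff.1 (hN' hx) a).1 ha
    rcases hmin' T' hT' L hLle hn with h | h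
    · exact Or.inl ((Subgroup.map_eq_bot_iff_of_injective _ T'.subtype_injective).1 h)
    · refine Or.inr (eq_top_iff.2 fun x _ => ?_)
      have hxL : (x : G) ∈ L := by rw [h]; exact x.2
      obtain ⟨k, hk, e⟩ := hxL
      have e' : k = x := Subtype.ext e
      rw [← e']
      exact hk
  have htrans : ∀ T₁ ∈ F, ∀ T₂ ∈ F, ∃ g : G, T₁.map (MulAut.conj g).toMonoidHom = T₂ := by
    intro T₁ h₁ T₂ h₂
    obtain ⟨g₁, -, rfl⟩ := Finset.mem_image.1 h₁
    obtain ⟨g₂, -, rfl⟩ := Finset.mem_image.1 h₂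
    refine ⟨g₂ * g₁⁻¹, ?_⟩
    ext x
    simp only [mem_map_conj]
    simp [mul_assoc]
  exact ⟨⟨F, ⟨T, hTF⟩, hsup, hsimple, hnabF, hnorm, hcomm, hclosed, htrans⟩⟩

variable {N : Subgroup G}

theorem Factors.le (D : Factors N) {T : Subgroup G} (hT : T ∈ D.F) : T ≤ N := by
  calc T ≤ D.F.sup id := Finset.le_sup (f := id) hT
    _ = N := D.sup_eq

theorem Factors.sup_le_centralizer (D : Factors N) {s : Finset (Subgroup G)} (hs : s ⊆ D.F)
    {T : Subgroup G} (hT : T ∈ D.F) (hTs : T ∉ s) :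
    s.sup id ≤ Subgroup.centralizer (T : Set G) :=
  Finset.sup_le fun T' hT' x hx => Subgroup.mem_centralizer_iff.2 fun y hy =>
    (D.comm T hT T' (hs hT') (fun e => hTs (e ▸ hT')) y hy x hx).eq

theorem Factors.inf_centralizer (D : Factors N) {T : Subgroup G} (hT : T ∈ D.F) :
    T ⊓ Subgroup.centralizer (T : Set G) = ⊥ := by
  haveI := D.simple T hT
  rw [eq_bot_iff]
  intro x hx
  have hc : (⟨x, hx.1⟩ : T) ∈ Subgroup.center T := Subgroup.mem_center_iff.2 fun y =>
    Subtype.ext (Subgroup.mem_centralizer_iff.1 hx.2 y y.2)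
  rcases Subgroup.Normal.eq_bot_or_eq_top (inferInstance : (Subgroup.center T).Normal) with h | h
  · rw [h, Subgroup.mem_bot] at hc
    exact Subgroup.mem_bot.2 (congrArg Subtype.val hc)
  · exact absurd ⟨⟨fun a b => (Subgroup.mem_center_iff.1 (h ▸ Subgroup.mem_top a :
      a ∈ Subgroup.center T) b).symm⟩⟩ (D.nab T hT)

theorem Factors.inf_sup (D : Factors N) {s : Finset (Subgroup G)} (hs : s ⊆ D.F)
    {T : Subgroup G} (hT : T ∈ D.F) (hTs : T ∉ s) : T ⊓ s.sup id = ⊥ := by
  rw [eq_bot_iff, ← D.inf_centralizer hT]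
  exact inf_le_inf_left _ (D.sup_le_centralizer hs hT hTs)

theorem len_sup_le [Finite G] {A B : Subgroup G} (hc : ∀ a ∈ A, ∀ b ∈ B, Commute a b)
    (hd : A ⊓ B = ⊥) : len (A ⊔ B) ≤ len A + len B := by
  set φ : A × B →* G := A.subtype.noncommCoprod B.subtype (fun a b => show Commute (A.subtype a) (B.subtype b) from hc a a.2 b b.2) with hφ
  have hinj : Function.Injective φ := by
    rw [injective_iff_map_eq_one]
    rintro ⟨a, b⟩ h
    rw [hφ, MonoidHom.noncommCoprod_apply] at h
    have h' : (a : G) * b = 1 := h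
    have hab : (a : G) = (b : G)⁻¹ := eq_inv_of_mul_eq_one_left h'
    have : (a : G) ∈ A ⊓ B := ⟨a.2, hab ▸ B.inv_mem b.2⟩
    rw [hd, Subgroup.mem_bot] at this
    have hb : (b : G) = 1 := by rw [this] at h'; simpa using h'
    exact Prod.ext (Subtype.ext this) (Subtype.ext hb)
  have hr : φ.range = A ⊔ B := by
    rw [hφ, MonoidHom.noncommCoprod_range, Subgroup.range_subtype, Subgroup.range_subtype]
  have h1 := len_top_equiv (MonoidHom.ofInjective hinj)
  rw [len_top_subgroup φ.range, hr] at h1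
  rw [← h1]
  have h2 := len_le_ker_add_range (MonoidHom.fst A B)
  let e : (MonoidHom.fst A B).ker ≃* B :=
    { toFun := fun x => x.1.2
      invFun := fun b => ⟨(1, b), rfl⟩
      left_inv := fun x => Subtype.ext (Prod.ext (MonoidHom.mem_ker.1 x.2).symm rfl)
      right_inv := fun _ => rfl
      map_mul' := fun _ _ => rfl }
  have e2 : (MonoidHom.fst A B).range = ⊤ :=
    MonoidHom.range_eq_top.2 fun a => ⟨(a, 1), rfl⟩
  rw [len_top_equiv e, e2, len_top_equiv (Subgroup.topEquiv (G := A)),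
    len_top_subgroup A, len_top_subgroup B] at h2
  omega

theorem Factors.len_le (D : Factors N) [Finite G] : len N ≤ D.F.card := by
  have h : ∀ s : Finset (Subgroup G), s ⊆ D.F → len (s.sup id) ≤ s.card := by
    intro s
    induction s using Finset.induction with
    | empty => intro _; simp [len_bot]
    | @insert T s hT ih =>
      intro hs
      rw [Finset.insert_subset_iff] at hs
      rw [Finset.sup_insert, Finset.card_insert_of_notMem hT]
      have h1 : len (id T ⊔ s.sup id) ≤ len T + len (s.sup id) :=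
        len_sup_le (fun a ha b hb =>
          Subgroup.mem_centralizer_iff.1 (D.sup_le_centralizer hs.2 hs.1 hT hb) a ha)
          (D.inf_sup hs.2 hs.1 hT)
      have := len_simple (D.simple T hs.1)
      have := ih hs.2
      omega
  have := h D.F subset_rfl
  rwa [D.sup_eq] at this

theorem len_mono [Finite G] {A B : Subgroup G} (hle : A ≤ B) (hn : NormIn A B) :
    len A ≤ len B := by
  rcases eq_or_lt_of_le hle with h | h
  · rw [h]
  · have := (Ser.step (ser_len A) h hn).le_len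
    omega

theorem Factors.card_le_len (D : Factors N) [Finite G] {X : Subgroup G} (hX : X ≤ N)
    (hne : ∀ T ∈ D.F, X ⊓ T ≠ ⊥) : D.F.card ≤ len X := by
  have hnormX : ∀ s : Finset (Subgroup G), s ⊆ D.F →
      X ≤ Subgroup.normalizer ((s.sup fun T => X ⊓ T : Subgroup G) : Set G) := by
    intro s hs x hx
    refine Subgroup.mem_normalizer_iff_map_conj_eq.2 ?_
    refine Subgroup.eq_of_le_of_card_ge ?_ ?_
    · rw [Subgroup.map_le_iff_le_comap]
      refine Finset.sup_le fun T hT a ha => ?_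
      refine (Finset.le_sup (f := fun T => X ⊓ T) hT) ?_
      show MulAut.conj x a ∈ X ⊓ T
      rw [MulAut.conj_apply]
      exact ⟨X.mul_mem (X.mul_mem hx ha.1) (X.inv_mem hx), D.norm T (hs hT) x (hX hx) a ha.2⟩
    · exact (Subgroup.card_map_of_injective (MulAut.conj x).injective).ge
  have h : ∀ s : Finset (Subgroup G), s ⊆ D.F → s.card ≤ len (s.sup fun T => X ⊓ T) := by
    intro s
    induction s using Finset.induction with
    | empty => simp
    | @insert T s hT ih =>
      intro hs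
      rw [Finset.insert_subset_iff] at hs
      rw [Finset.sup_insert, Finset.card_insert_of_notMem hT]
      have hlt : (s.sup fun T => X ⊓ T) < (X ⊓ T) ⊔ s.sup fun T => X ⊓ T := by
        refine lt_of_le_of_ne le_sup_right fun e => hne T hs.1 (le_bot_iff.1 ?_)
        rw [← D.inf_sup hs.2 hs.1 hT]
        refine le_inf inf_le_right ?_
        calc X ⊓ T ≤ s.sup fun T => X ⊓ T := e ▸ le_sup_left
          _ ≤ s.sup id := Finset.sup_mono_fun fun _ _ => inf_le_right
      have hXs : (X ⊓ T) ⊔ (s.sup fun T => X ⊓ T) ≤ X :=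
        sup_le inf_le_left (Finset.sup_le fun _ _ => inf_le_left)
      have := (Ser.step (ser_len _) hlt fun x hx a ha =>
        (Subgroup.mem_normalizer_iff.1 (hnormX s hs.2 (hXs hx)) a).1 ha).le_len
      have := ih hs.2
      omega
  refine (h D.F subset_rfl).trans (len_mono (Finset.sup_le fun _ _ => inf_le_left) ?_)
  exact fun x hx a ha => (Subgroup.mem_normalizer_iff.1 (hnormX D.F subset_rfl hx) a).1 ha

/-- A nonabelian simple group has elements of two different nontrivial orders. -/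
theorem exists_two_orders [Finite G] {T : Subgroup G} (hs : IsSimpleGroup T)
    (hnab : ¬ IsMulCommutative T) :
    ∃ x ∈ T, ∃ y ∈ T, x ≠ 1 ∧ y ≠ 1 ∧ orderOf x ≠ orderOf y := by
  obtain ⟨p, hp, hpd⟩ := Nat.exists_prime_and_dvd
    (Finite.one_lt_card_iff_nontrivial.2 hs.toNontrivial).ne'
  haveI : Fact p.Prime := ⟨hp⟩
  have hnp : ¬ IsPGroup p T := fun h => by
    haveI := hs.toNontrivial
    have hc := h.center_nontrivial
    rcases Subgroup.Normal.eq_bot_or_eq_top (inferInstance : (Subgroup.center T).Normal) with e | e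
    · exact (Subgroup.nontrivial_iff_ne_bot _).1 hc e
    · exact hnab ⟨⟨fun a b => (Subgroup.mem_center_iff.1 (e ▸ Subgroup.mem_top a :
        a ∈ Subgroup.center T) b).symm⟩⟩
  obtain ⟨q, hq, hqd, hqp⟩ : ∃ q, q.Prime ∧ q ∣ Nat.card T ∧ q ≠ p := by
    by_contra hcon
    push Not at hcon
    exact hnp (IsPGroup.of_card (n := (Nat.card T).primeFactorsList.length)
      (Nat.eq_prime_pow_of_unique_prime_dvd Nat.card_pos.ne' fun {d} hd hdd => hcon d hd hdd))
  haveI : Fact q.Prime := ⟨hq⟩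
  obtain ⟨x, hx⟩ := exists_prime_orderOf_dvd_card' p hpd
  obtain ⟨y, hy⟩ := exists_prime_orderOf_dvd_card' q hqd
  have hox : orderOf (x : G) = p := by rw [Subgroup.orderOf_coe]; exact hx
  have hoy : orderOf (y : G) = q := by rw [Subgroup.orderOf_coe]; exact hy
  refine ⟨x, x.2, y, y.2, ?_, ?_, by rw [hox, hoy]; exact Ne.symm hqp⟩
  · intro e; rw [e, orderOf_one] at hox; exact hp.ne_one hox.symm
  · intro e; rw [e, orderOf_one] at hoy; exact hq.ne_one hoy.symm

end CfsgLib.Length
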