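import Cfsg.Agent.Lib.LengthAction
import Cfsg.Agent.Lib.LengthFactors
import Mathlib.GroupTheory.GroupAction.Primitive
import Cfsg.Agent.Lib.CoreFitting

/-!
# Composition length of a permutation group: at most `4/3 (n - #orbits)`
-/

set_option autoImplicit false
set_option linter.unusedSectionVars false
set_option linter.style.haveILetI false

namespace CfsgLib.Length

open Subgroup MulAction
open scoped Pointwise

attribute [local instance] Classical.propDecidable

section Arith

theorem arith_two {k : ℕ} (hk : 4 ≤ k) : 3 * k * k + 4 ≤ 4 * 2 ^ k := by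
  induction k with
  | zero => omega
  | succ j ih =>
    rcases Nat.lt_or_ge j 4 with h | h
    · have : j = 3 := by omega
      subst this; norm_num
    · have := ih h
      rw [pow_succ]; nlinarith

theorem arith_odd {L : ℕ} (hL : 4 ≤ L) : 3 * L * (L + 1) ≤ 4 * 2 ^ L := by
  induction L with
  | zero => omega
  | succ j ih =>
    rcases Nat.lt_or_ge j 4 with h | h
    · have : j = 3 := by omega
      subst this; norm_num
    · have := ih h
      rw [pow_succ]; nlinarith

theorem affine_arith {p k : ℕ} (hp : p.Prime) (hk : 1 ≤ k) :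
    3 * (k + k * Nat.log 2 (p ^ k - 1)) ≤ 4 * (p ^ k - 1) := by
  set L := Nat.log 2 (p ^ k - 1) with hL
  have hne : p ^ k - 1 ≠ 0 := by
    have : 2 ≤ p ^ k := le_trans hp.two_le (Nat.le_self_pow (by omega) p)
    omega
  have h2L : 2 ^ L ≤ p ^ k - 1 := Nat.pow_log_le_self 2 hne
  rcases eq_or_lt_of_le hp.two_le with e | e
  · subst e
    have hlt : L < k := Nat.log_lt_of_lt_pow hne (by have := Nat.one_le_two_pow (n := k); omega)
    have h1 : 3 * (k + k * L) ≤ 3 * k * k := by nlinarith
    rcases Nat.lt_or_ge k 4 with h4 | h4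
    · interval_cases k <;> norm_num at h1 ⊢ <;> omega
    · have := arith_two h4
      omega
  · rcases eq_or_lt_of_le hk with e1 | e1
    · subst e1
      have : L < 2 ^ L := Nat.lt_two_pow_self
      omega
    · have h3k : 3 ^ k ≤ p ^ k := Nat.pow_le_pow_left e k
      have h9 : 9 ≤ p ^ k := le_trans (Nat.pow_le_pow_right (show 0 < 3 by norm_num) e1) h3k
      have h23 : 2 ^ k < 3 ^ k := Nat.pow_lt_pow_left (by norm_num) (by omega)
      have hkL : k ≤ L := Nat.le_log_of_pow_le (by norm_num) (by omega)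
      rcases Nat.lt_or_ge L 4 with h4 | h4
      · have hlt : p ^ k - 1 < 2 ^ (L + 1) := Nat.lt_pow_succ_log_self (by norm_num) _
        have h16 : 2 ^ (L + 1) ≤ 16 := le_trans (Nat.pow_le_pow_right (by norm_num)
          (show L + 1 ≤ 4 by omega)) (by norm_num)
        have hk2 : k = 2 := by
          by_contra hk2
          have : 3 ^ 3 ≤ 3 ^ k := Nat.pow_le_pow_right (by norm_num) (by omega)
          omega
        subst hk2
        omega
      · have := arith_odd h4
        have : 3 * (k + k * L) ≤ 3 * L * (L + 1) := by nlinarith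
        omega

end Arith

variable {X : Type*} [Group X]

theorem exists_mul_of_commute {A B : Subgroup X} (hc : ∀ a ∈ A, ∀ b ∈ B, Commute a b) {x : X}
    (hx : x ∈ A ⊔ B) : ∃ a ∈ A, ∃ b ∈ B, x = a * b := by
  have hn : A ≤ normalizer (B : Set X) := fun a ha => mem_normalizer_iff.2 fun b =>
    ⟨fun hb => by rw [(hc a ha b hb).eq, mul_inv_cancel_right]; exact hb, fun hb => by
      have h := hc a⁻¹ (A.inv_mem ha) _ hb
      have e : b = a⁻¹ * (a * b * a⁻¹) * a := by group
      rw [e, h.eq, inv_mul_cancel_right]; exact hb⟩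
  have h2 : x ∈ (A : Set X) * (B : Set X) := by
    rw [← Subgroup.coe_mul_of_left_le_normalizer_right A B hn]
    exact hx
  obtain ⟨a, ha, b, hb, rfl⟩ := Set.mem_mul.1 h2
  exact ⟨a, ha, b, hb, rfl⟩

theorem mem_sup_normal {A N : Subgroup X} [N.Normal] {x : X} (h : A ⊔ N = ⊤) :
    ∃ a ∈ A, ∃ n ∈ N, x = a * n := by
  have h2 : x ∈ (A : Set X) * (N : Set X) := by
    rw [← Subgroup.mul_normal, h]; trivial
  obtain ⟨a, ha, b, hb, rfl⟩ := Set.mem_mul.1 h2
  exact ⟨a, ha, b, hb, rfl⟩

section Proj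

variable {N : Subgroup X}

/-- The projection of `R ≤ N` to the factor `T`. -/
def proj (D : Factors N) (R : Subgroup X) {T : Subgroup X} (hT : T ∈ D.F) : Subgroup X where
  carrier := {t | t ∈ T ∧ ∃ c ∈ N ⊓ centralizer (T : Set X), t * c ∈ R}
  one_mem' := ⟨T.one_mem, 1, one_mem _, by simp⟩
  mul_mem' := by
    rintro t u ⟨ht, c, hc, hcR⟩ ⟨hu, d, hd, hdR⟩
    refine ⟨T.mul_mem ht hu, c * d, mul_mem hc hd, ?_⟩
    have e : u * c = c * u := mem_centralizer_iff.1 hc.2 u hu
    have : t * u * (c * d) = t * c * (u * d) := by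
      rw [mul_assoc, ← mul_assoc u c d, e]; simp [mul_assoc]
    rw [this]; exact R.mul_mem hcR hdR
  inv_mem' := by
    rintro t ⟨ht, c, hc, hcR⟩
    refine ⟨T.inv_mem ht, c⁻¹, inv_mem hc, ?_⟩
    have e : t * c = c * t := mem_centralizer_iff.1 hc.2 t ht
    have : t⁻¹ * c⁻¹ = (t * c)⁻¹ := by rw [e, mul_inv_rev]
    rw [this]; exact R.inv_mem hcR

variable [Finite X]

theorem regular_of_proj [N.Normal] (D : Factors N) (A : Subgroup X) (hA : IsCoatom A)
    (hinter : ∀ T ∈ D.F, A ⊓ T = ⊥)
    {T₀ : Subgroup X} (hT₀ : T₀ ∈ D.F) (hP : proj D (A ⊓ N) hT₀ ≠ T₀) : A ⊓ N = ⊥ := by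
  set P : Subgroup X → Subgroup X := fun T => if h : T ∈ D.F then proj D (A ⊓ N) h else ⊥ with hPdef
  set L := D.F.sup P with hL
  have hPmem : ∀ T ∈ D.F, ∀ x, x ∈ P T ↔
      x ∈ T ∧ ∃ c ∈ N ⊓ centralizer (T : Set X), x * c ∈ A ⊓ N := fun T hT x => by
    rw [hPdef]; simp only [dif_pos hT]; exact Iff.rfl
  have hPle : ∀ T ∈ D.F, P T ≤ T := fun T hT x hx => ((hPmem T hT x).1 hx).1
  have hLN : L ≤ N := Finset.sup_le fun T hT => (hPle T hT).trans (D.le hT)
  have hdec : ∀ T ∈ D.F, ∀ l ∈ L, ∃ p ∈ P T, ∃ c ∈ N ⊓ centralizer (T : Set X), l = p * c := by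
    intro T hT l hl
    refine exists_mul_of_commute (fun a ha b hb => mem_centralizer_iff.1 (show b ∈ centralizer (T : Set X) from (Subgroup.mem_inf.1 hb).2) a (hPle T hT ha)) ?_
    refine (Finset.sup_le fun T' hT' => ?_ : L ≤ P T ⊔ (N ⊓ centralizer (T : Set X))) hl
    by_cases e : T' = T
    · rw [e]; exact le_sup_left
    · refine le_trans (le_inf ((hPle T' hT').trans (D.le hT')) ?_) le_sup_right
      intro x hx
      exact mem_centralizer_iff.2 fun y hy => (D.comm T hT T' hT' (Ne.symm e) y hy x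
        (hPle T' hT' hx)).eq
  have hR : A ⊓ N ≤ L := by
    intro x hx
    have h : ∀ s : Finset (Subgroup X), s ⊆ D.F →
        ∃ l ∈ L, ∃ r ∈ (D.F \ s).sup id, x = l * r := by
      intro s
      induction s using Finset.induction with
      | empty =>
        intro _
        exact ⟨1, one_mem _, x, by rw [Finset.sdiff_empty, D.sup_eq]; exact hx.2, (one_mul x).symm⟩
      | @insert T s hT ih =>
        intro hs
        rw [Finset.insert_subset_iff] at hs
        obtain ⟨l, hl, r, hr, e⟩ := ih hs.2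
        have hsub : D.F \ insert T s ⊆ D.F := Finset.sdiff_subset
        have hnot : T ∉ D.F \ insert T s := by simp
        have hset : D.F \ s = insert T (D.F \ insert T s) := by
          ext U; simp only [Finset.mem_sdiff, Finset.mem_insert]
          constructor
          · intro h
            by_cases eU : U = T
            · exact Or.inl eU
            · exact Or.inr ⟨h.1, fun h' => h'.elim eU h.2⟩
          · rintro (rfl | h)
            · exact ⟨hs.1, hT⟩
            · exact ⟨h.1, fun h' => h.2 (Or.inr h')⟩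
        rw [hset, Finset.sup_insert] at hr
        obtain ⟨t, ht, r', hr', e'⟩ := exists_mul_of_commute (fun a ha b hb =>
          mem_centralizer_iff.1 (D.sup_le_centralizer hsub hs.1 hnot hb) a ha) hr
        obtain ⟨p, hp, c, hc, el⟩ := hdec T hs.1 l hl
        have hcN : c * r' ∈ N ⊓ centralizer (T : Set X) :=
          mul_mem hc ⟨(Finset.sup_le fun U hU => D.le (hsub hU) : (D.F \ insert T s).sup id ≤ N) hr',
            D.sup_le_centralizer hsub hs.1 hnot hr'⟩
        have ept : p * t * (c * r') = x := by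
          have ec : t * c = c * t := mem_centralizer_iff.1 hc.2 t ht
          rw [e, el, e']
          rw [mul_assoc p t, ← mul_assoc t c, ec]; simp [mul_assoc]
        have hptmem : p * t ∈ P T := (hPmem T hs.1 _).2
          ⟨T.mul_mem (hPle T hs.1 hp) ht, c * r', hcN, by rw [ept]; exact hx⟩
        have htP : t ∈ P T := by
          have := mul_mem (inv_mem hp) hptmem
          rwa [inv_mul_cancel_left] at this
        exact ⟨l * t, mul_mem hl ((Finset.le_sup (f := P) hs.1) htP), r', hr', by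
          rw [e, e', mul_assoc]⟩
    obtain ⟨l, hl, r, hr, e⟩ := h D.F subset_rfl
    rw [Finset.sdiff_self, Finset.sup_empty, mem_bot] at hr
    rw [e, hr, mul_one]; exact hl
  have hnorm : A ≤ normalizer (L : Set X) := by
    intro h hh
    refine mem_normalizer_iff_map_conj_eq.2
      (eq_of_le_of_card_ge ?_ (card_map_of_injective (MulAut.conj h).injective).ge)
    rw [map_le_iff_le_comap]
    refine Finset.sup_le fun T hT x hx => ?_
    obtain ⟨hxT, c, hc, hxc⟩ := (hPmem T hT x).1 hx
    refine (Finset.le_sup (f := P) (D.conj h T hT)) ?_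
    show (MulAut.conj h) x ∈ _
    refine (hPmem _ (D.conj h T hT) _).2 ⟨mem_map_of_mem _ hxT, MulAut.conj h c, ⟨?_, ?_⟩, ?_, ?_⟩
    · rw [MulAut.conj_apply]; exact ‹N.Normal›.conj_mem c hc.1 h
    · refine mem_centralizer_iff.2 ?_
      rintro _ ⟨y, hy, rfl⟩
      show MulAut.conj h y * MulAut.conj h c = MulAut.conj h c * MulAut.conj h y
      rw [← map_mul, ← map_mul, mem_centralizer_iff.1 hc.2 y hy]
    · rw [← map_mul, MulAut.conj_apply]
      exact A.mul_mem (A.mul_mem hh hxc.1) (A.inv_mem hh)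
    · rw [← map_mul, MulAut.conj_apply]
      exact ‹N.Normal›.conj_mem _ hxc.2 h
  have hLlt : ¬ N ≤ L := by
    intro h
    refine hP (le_antisymm (fun t ht => ht.1) fun t ht => ?_)
    obtain ⟨p, hp, c, hc, e⟩ := hdec T₀ hT₀ t (h (D.le hT₀ ht))
    have hc1 : c ∈ T₀ ⊓ centralizer (T₀ : Set X) := ⟨by
      have := T₀.mul_mem (T₀.inv_mem (hPle T₀ hT₀ hp)) ht
      rwa [e, inv_mul_cancel_left] at this, hc.2⟩
    rw [D.inf_centralizer hT₀, mem_bot] at hc1
    rw [e, hc1, mul_one]
    exact (hPmem T₀ hT₀ p).1 hp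
  have hLA : L ≤ A := by
    by_contra hcon
    have htop : A ⊔ L = ⊤ := hA.2 _ (lt_of_le_of_ne le_sup_left
      fun e => hcon (le_sup_right.trans e.ge))
    refine hLlt fun x hx => ?_
    have hx' : x ∈ (A : Set X) * (L : Set X) := by
      rw [← Subgroup.coe_mul_of_left_le_normalizer_right A L hnorm, htop]; trivial
    obtain ⟨a, ha, l, hl, e⟩ := Set.mem_mul.1 hx'
    have haN : a ∈ N := by
      have := N.mul_mem hx (N.inv_mem (hLN hl))
      rwa [← e, mul_inv_cancel_right] at this
    rw [← e]; exact L.mul_mem (hR ⟨ha, haN⟩) hl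
  have hL0 : L = ⊥ := le_bot_iff.1 (Finset.sup_le fun T hT => by
    rw [← hinter T hT]
    exact le_inf ((Finset.le_sup (f := P) hT).trans hLA) (hPle T hT))
  exact le_bot_iff.1 (hL0 ▸ hR)

theorem exists_corner [N.Normal] (D : Factors N) (R : Subgroup X) {T T' : Subgroup X}
    (hT : T ∈ D.F) (hT' : T' ∈ D.F) (e : T ≠ T') (hproj : proj D R hT = T) {t s : X}
    (ht : t ∈ T) (hs : s ∈ T') (ht1 : t ≠ 1) (hts : t * s ∈ R) :
    ∀ y ∈ T, ∃ u ∈ T', y * u ∈ R := by
  haveI := D.simple T hT
  let Q : Subgroup T :=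
    { carrier := {y | ∃ u ∈ T', (y : X) * u ∈ R}
      one_mem' := ⟨1, one_mem _, by simp⟩
      mul_mem' := by
        rintro y z ⟨u, hu, hyu⟩ ⟨v, hv, hzv⟩
        refine ⟨u * v, mul_mem hu hv, ?_⟩
        have c : (z : X) * u = u * z := D.comm T hT T' hT' e z z.2 u hu
        have : ((y * z : T) : X) * (u * v) = y * u * (z * v) := by
          rw [Subgroup.coe_mul, mul_assoc, ← mul_assoc (z : X) u v, c]; simp [mul_assoc]
        rw [this]; exact R.mul_mem hyu hzv
      inv_mem' := by
        rintro y ⟨u, hu, hyu⟩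
        refine ⟨u⁻¹, inv_mem hu, ?_⟩
        have c : (y : X) * u = u * y := D.comm T hT T' hT' e y y.2 u hu
        have : ((y⁻¹ : T) : X) * u⁻¹ = ((y : X) * u)⁻¹ := by
          rw [c, mul_inv_rev, Subgroup.coe_inv]
        rw [this]; exact R.inv_mem hyu }
  have hQn : Q.Normal := by
    refine ⟨fun y hy z => ?_⟩
    obtain ⟨u, hu, hyu⟩ := hy
    have hz : (z : X) ∈ proj D R hT := by rw [hproj]; exact z.2
    obtain ⟨-, c, hc, hzc⟩ := hz
    refine ⟨c * u * c⁻¹, D.norm T' hT' c hc.1 u hu, ?_⟩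
    have e1 : (y : X) * c = c * y := mem_centralizer_iff.1 hc.2 y y.2
    have ey : ((z * y * z⁻¹ : T) : X) = z * c * y * (z * c)⁻¹ := by
      simp only [Subgroup.coe_mul, Subgroup.coe_inv]
      rw [mul_assoc (z : X) c, ← e1]; group
    have e2 : (z : X) * (c * u * c⁻¹) = (c * u * c⁻¹) * z :=
      D.comm T hT T' hT' e z z.2 _ (D.norm T' hT' c hc.1 u hu)
    have ecu : c * u * c⁻¹ = z * c * u * (z * c)⁻¹ := by
      calc c * u * c⁻¹ = (z : X) * (c * u * c⁻¹) * (z : X)⁻¹ := by
            rw [e2, mul_inv_cancel_right]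
        _ = z * c * u * (z * c)⁻¹ := by group
    rw [ey, ecu]
    have : z * c * (y : X) * (z * c)⁻¹ * (z * c * u * (z * c)⁻¹) =
        z * c * ((y : X) * u) * (z * c)⁻¹ := by group
    rw [this]
    exact R.mul_mem (R.mul_mem hzc hyu) (R.inv_mem hzc)
  intro y hy
  rcases Subgroup.Normal.eq_bot_or_eq_top hQn with h | h
  · have htQ : (⟨t, ht⟩ : T) ∈ Q := ⟨s, hs, hts⟩
    rw [h, mem_bot] at htQ
    exact absurd (congrArg Subtype.val htQ) ht1
  · exact (h ▸ mem_top (⟨y, hy⟩ : T) : (⟨y, hy⟩ : T) ∈ Q)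

end Proj

section Primitive

variable {X : Type*} [Group X] [Finite X] {Ω : Type*} [MulAction X Ω] [FaithfulSMul X Ω]

/-- The nonidentity elements of the factors. -/
noncomputable def factorUnion {N : Subgroup X} (D : Factors N) : Finset X :=
  D.F.biUnion fun T => (Set.toFinite ((T : Set X) \ {1})).toFinset

theorem mem_factorUnion {N : Subgroup X} {D : Factors N} {u : X} :
    u ∈ factorUnion D ↔ ∃ T ∈ D.F, u ∈ T ∧ u ≠ 1 := by
  simp [factorUnion]

theorem fibre_bound [Finite Ω] {N : Subgroup X} [N.Normal] (D : Factors N) (a : Ω)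
    (hA : IsCoatom (stabilizer X a)) (hinter : ∀ T ∈ D.F, stabilizer X a ⊓ T = ⊥) :
    (factorUnion D).card ≤ 2 * (Nat.card Ω - 1) ∧
      (stabilizer X a ⊓ N = ⊥ → (factorUnion D).card ≤ Nat.card Ω - 1) := by
  haveI : Fintype Ω := Fintype.ofFinite Ω
  set A := stabilizer X a with hAdef
  set U := factorUnion D with hU
  have hmap : ∀ u ∈ U, u • a ≠ a := by
    intro u hu he
    obtain ⟨T, hT, huT, hu1⟩ := mem_factorUnion.1 hu
    have : u ∈ A ⊓ T := ⟨mem_stabilizer_iff.2 he, huT⟩
    rw [hinter T hT, mem_bot] at this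
    exact hu1 this
  have himg : (U.image fun u => u • a).card ≤ Nat.card Ω - 1 := by
    have hs : (U.image fun u => u • a) ⊆ Finset.univ.erase a := by
      intro b hb
      obtain ⟨u, hu, rfl⟩ := Finset.mem_image.1 hb
      exact Finset.mem_erase.2 ⟨hmap u hu, Finset.mem_univ _⟩
    have := Finset.card_le_card hs
    rwa [Finset.card_erase_of_mem (Finset.mem_univ a), Finset.card_univ,
      ← Nat.card_eq_fintype_card] at this
  -- two elements with the same image
  have hpair : ∀ u ∈ U, ∀ v ∈ U, u • a = v • a → u ≠ v →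
      ∃ T ∈ D.F, ∃ T' ∈ D.F, T ≠ T' ∧ u ∈ T ∧ v ∈ T' ∧ u ≠ 1 ∧ u⁻¹ * v ∈ A ⊓ N := by
    intro u hu v hv he hne
    obtain ⟨T, hT, huT, hu1⟩ := mem_factorUnion.1 hu
    obtain ⟨T', hT', hvT, hv1⟩ := mem_factorUnion.1 hv
    have hA' : u⁻¹ * v ∈ A := by
      rw [hAdef, mem_stabilizer_iff, mul_smul, ← he, inv_smul_smul]
    refine ⟨T, hT, T', hT', fun e => hne ?_, huT, hvT, hu1,
      hA', N.mul_mem (N.inv_mem (D.le hT huT)) (D.le hT' hvT)⟩
    subst e
    have : u⁻¹ * v ∈ A ⊓ T := ⟨hA', T.mul_mem (T.inv_mem huT) hvT⟩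
    rw [hinter T hT, mem_bot, inv_mul_eq_one] at this
    exact this
  have hreg : A ⊓ N = ⊥ → ∀ u ∈ U, ∀ v ∈ U, u • a = v • a → u = v := by
    intro h u hu v hv he
    by_contra hne
    obtain ⟨T, hT, T', hT', -, -, -, -, hm⟩ := hpair u hu v hv he hne
    rw [h, mem_bot, inv_mul_eq_one] at hm
    exact hne hm
  have h3 : ∀ u ∈ U, ∀ v ∈ U, ∀ w ∈ U, u • a = v • a → u • a = w • a →
      u ≠ v → u ≠ w → v ≠ w → False := by
    intro u hu v hv w hw e1 e2 n1 n2 n3
    obtain ⟨T, hT, T₂, hT₂, hne2, huT, hvT, hu1, hm2⟩ := hpair u hu v hv e1 n1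
    obtain ⟨T', hT', T₃, hT₃, hne3, huT', hwT, -, hm3⟩ := hpair u hu w hw e2 n2
    have eT : T' = T := by
      by_contra e
      have : u ∈ T ⊓ centralizer (T : Set X) := ⟨huT, mem_centralizer_iff.2 fun y hy =>
        (D.comm T hT T' hT' (Ne.symm e) y hy u huT').eq⟩
      rw [D.inf_centralizer hT, mem_bot] at this
      exact hu1 this
    subst eT
    obtain ⟨T₂', hT₂', T₃', hT₃', hne23, hvT', hwT', hv1, -⟩ :=
      hpair v hv w hw (e1.symm.trans e2) n3
    have hne : T₂ ≠ T₃ := by
      intro e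
      subst e
      have hvw : v⁻¹ * w ∈ A := by
        rw [hAdef, mem_stabilizer_iff, mul_smul, ← e2, e1, inv_smul_smul]
      have : v⁻¹ * w ∈ A ⊓ T₂ := ⟨hvw, T₂.mul_mem (T₂.inv_mem hvT) hwT⟩
      rw [hinter T₂ hT₂, mem_bot, inv_mul_eq_one] at this
      exact n3 this
    have hproj : proj D (A ⊓ N) hT' = T' := by
      by_contra hcon
      have h := regular_of_proj D A hA hinter hT' hcon
      exact n1 (hreg h u hu v hv e1)
    have h2 := exists_corner D (A ⊓ N) hT' hT₂ hne2 hproj (T'.inv_mem huT) hvT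
      (fun h => hu1 (inv_eq_one.1 h)) hm2
    have h4 := exists_corner D (A ⊓ N) hT' hT₃ hne3 hproj (T'.inv_mem huT) hwT
      (fun h => hu1 (inv_eq_one.1 h)) hm3
    refine D.nab T' hT' ⟨⟨fun x y => Subtype.ext ?_⟩⟩
    obtain ⟨s, hs, hxs⟩ := h2 x x.2
    obtain ⟨r, hr, hyr⟩ := h4 y y.2
    have c1 : Commute s (y : X) := (D.comm T' hT' T₂ hT₂ hne2 y y.2 s hs).symm
    have c2 : Commute s r := D.comm T₂ hT₂ T₃ hT₃ hne s hs r hr
    have c3 : Commute (x : X) r := D.comm T' hT' T₃ hT₃ hne3 x x.2 r hr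
    have hs1 : (x : X) * s * (y * r) * (x * s)⁻¹ * (y * r)⁻¹ =
        (x : X) * y * (x : X)⁻¹ * (y : X)⁻¹ := by
      have a1 : s * (y * r) * s⁻¹ = (y : X) * r := by
        rw [(c1.mul_right c2).eq, mul_inv_cancel_right]
      calc (x : X) * s * (y * r) * (x * s)⁻¹ * (y * r)⁻¹
          = x * (s * (y * r) * s⁻¹) * (x : X)⁻¹ * (y * r)⁻¹ := by group
        _ = x * (y * r) * (x : X)⁻¹ * (y * r)⁻¹ := by rw [a1]
        _ = x * y * (r * (x : X)⁻¹ * r⁻¹) * (y : X)⁻¹ := by group
        _ = x * y * (x : X)⁻¹ * (y : X)⁻¹ := by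
            rw [(c3.inv_left).symm.eq, mul_inv_cancel_right]
    have hm : (x : X) * y * (x : X)⁻¹ * (y : X)⁻¹ ∈ A ⊓ T' := by
      refine ⟨?_, T'.mul_mem (T'.mul_mem (T'.mul_mem x.2 y.2) (T'.inv_mem x.2)) (T'.inv_mem y.2)⟩
      rw [← hs1]
      exact A.mul_mem (A.mul_mem (A.mul_mem hxs.1 hyr.1) (A.inv_mem hxs.1)) (A.inv_mem hyr.1)
    rw [hinter T' hT', mem_bot] at hm
    show (x : X) * y = y * x
    calc (x : X) * y = x * y * (x : X)⁻¹ * (y : X)⁻¹ * (y * x) := by group
      _ = y * x := by rw [hm, one_mul]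
  refine ⟨?_, fun h => ?_⟩
  · refine le_trans (Finset.card_le_mul_card_image U 2 ?_) (Nat.mul_le_mul_left 2 himg)
    intro b _
    by_contra hcon
    obtain ⟨u, hu, v, hv, w, hw, n1, n2, n3⟩ := Finset.two_lt_card.1 (not_le.1 hcon)
    rw [Finset.mem_filter] at hu hv hw
    exact h3 u hu.1 v hv.1 w hw.1 (hu.2.trans hv.2.symm) (hu.2.trans hw.2.symm) n1 n2 n3
  · rw [← Finset.card_image_of_injOn (f := fun u => u • a) (fun u hu v hv => hreg h u hu v hv)]
    exact himg

/-- A small invariant subset of a nonabelian minimal normal subgroup. -/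
theorem exists_small_class {N : Subgroup X} [N.Normal]
    (hmin : ∀ L : Subgroup X, L.Normal → L ≤ N → L = ⊥ ∨ L = N) (D : Factors N) :
    ∃ O : Finset X, O.Nonempty ∧ 2 * O.card ≤ (factorUnion D).card ∧
      (∀ g : X, ∀ u ∈ O, g * u * g⁻¹ ∈ O) ∧ (↑O : Set X) ⊆ N ∧
      ∀ c : X, (∀ u ∈ O, c * u * c⁻¹ = u) → c ∈ centralizer (N : Set X) := by
  haveI : Fintype X := Fintype.ofFinite X
  obtain ⟨T, hT⟩ := D.nonempty
  obtain ⟨x, hx, y, hy, hx1, hy1, hxy⟩ := exists_two_orders (D.simple T hT) (D.nab T hT)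
  set cls : X → Finset X := fun z => Finset.univ.image fun g : X => g * z * g⁻¹ with hcls
  have hsub : ∀ z ∈ T, z ≠ 1 → cls z ⊆ factorUnion D := by
    intro z hz hz1 w hw
    obtain ⟨g, -, rfl⟩ := Finset.mem_image.1 hw
    exact mem_factorUnion.2 ⟨_, D.conj g T hT, ⟨z, hz, rfl⟩, by simpa using hz1⟩
  have hord : ∀ z, ∀ w ∈ cls z, orderOf w = orderOf z := by
    intro z w hw
    obtain ⟨g, -, rfl⟩ := Finset.mem_image.1 hw
    simpa [MulAut.conj_apply] using (MulAut.conj g).orderOf_eq z
  have hd : Disjoint (cls x) (cls y) := Finset.disjoint_left.2 fun w h1 h2 =>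
    hxy ((hord x w h1).symm.trans (hord y w h2))
  have hcard : (cls x).card + (cls y).card ≤ (factorUnion D).card := by
    rw [← Finset.card_union_of_disjoint hd]
    exact Finset.card_le_card (Finset.union_subset (hsub x hx hx1) (hsub y hy hy1))
  obtain ⟨z, hz, hz1, hzc⟩ : ∃ z ∈ T, z ≠ 1 ∧ 2 * (cls z).card ≤ (factorUnion D).card := by
    rcases le_total (cls x).card (cls y).card with h | h
    · exact ⟨x, hx, hx1, by omega⟩
    · exact ⟨y, hy, hy1, by omega⟩
  have hzmem : z ∈ cls z := Finset.mem_image.2 ⟨1, Finset.mem_univ _, by simp⟩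
  have hinv : ∀ g : X, ∀ u ∈ cls z, g * u * g⁻¹ ∈ cls z := by
    intro g u hu
    obtain ⟨h, -, rfl⟩ := Finset.mem_image.1 hu
    exact Finset.mem_image.2 ⟨g * h, Finset.mem_univ _, by simp [mul_assoc]⟩
  refine ⟨cls z, ⟨z, hzmem⟩, hzc, hinv, fun u hu => ?_, fun c hc => ?_⟩
  · obtain ⟨T', hT', hu', -⟩ := mem_factorUnion.1 (hsub z hz hz1 hu)
    exact D.le hT' hu'
  · have hle : closure (↑(cls z) : Set X) ≤ N := by
      rw [closure_le]
      intro u hu
      obtain ⟨T', hT', hu', -⟩ := mem_factorUnion.1 (hsub z hz hz1 hu)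
      exact D.le hT' hu'
    have hn : (closure (↑(cls z) : Set X)).Normal := by
      refine ⟨fun w hw g => ?_⟩
      have h : closure (↑(cls z) : Set X) ≤
          (closure (↑(cls z) : Set X)).comap (MulAut.conj g).toMonoidHom := by
        rw [closure_le]
        intro u hu
        show MulAut.conj g u ∈ closure (↑(cls z) : Set X)
        rw [MulAut.conj_apply]
        exact subset_closure (hinv g u hu)
      exact h hw
    rcases hmin _ hn hle with h | h
    · exact absurd (mem_bot.1 (h ▸ subset_closure hzmem)) hz1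
    · have hcc : (↑(cls z) : Set X) ⊆ centralizer ({c} : Set X) := fun u hu =>
        mem_centralizer_iff.2 fun y hy => by
          rw [Set.mem_singleton_iff] at hy
          subst hy
          exact mul_inv_eq_iff_eq_mul.1 (hc u hu)
      have h2 : N ≤ centralizer ({c} : Set X) := h ▸ (closure_le _).2 hcc
      exact mem_centralizer_iff.2 fun y hy =>
        (mem_centralizer_iff.1 (h2 hy) c rfl).symm

/-- Bound from conjugation on an invariant set. -/
theorem conj_bound {n : ℕ} (hb : ∀ k < n, Bnd k) (O : Finset X) (hne : O.Nonempty)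
    (hlt : O.card < n) (hinv : ∀ g : X, ∀ u ∈ O, g * u * g⁻¹ ∈ O)
    (hker : ∀ c : X, (∀ u ∈ O, c * u * c⁻¹ = u) → c = 1) :
    3 * len (⊤ : Subgroup X) + 4 ≤ 4 * O.card := by
  let f : X → Equiv.Perm O := fun g =>
    { toFun := fun u => ⟨g * u * g⁻¹, hinv g u u.2⟩
      invFun := fun u => ⟨g⁻¹ * u * g⁻¹⁻¹, hinv g⁻¹ u u.2⟩
      left_inv := fun u => Subtype.ext (by simp [mul_assoc])
      right_inv := fun u => Subtype.ext (by simp [mul_assoc]) }
  let φ : X →* Equiv.Perm O := MonoidHom.mk' f fun g h =>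
    Equiv.ext fun u => Subtype.ext (by simp [f, mul_assoc])
  have hinj : Function.Injective φ := (injective_iff_map_eq_one φ).2 fun c hc =>
    hker c fun u hu => congrArg Subtype.val (congrArg (fun σ => σ ⟨u, hu⟩) hc)
  haveI : Nonempty O := hne.to_subtype
  have h := bound_hom hb φ (by rw [Nat.card_eq_finsetCard]; exact hlt)
  rw [← len_top_equiv (MonoidHom.ofInjective hinj), Nat.card_eq_finsetCard] at h
  exact h

theorem eq_one_of_commute_transitive {H : Subgroup X}
    (htr : ∀ b b' : Ω, ∃ h ∈ H, h • b = b') {c : X} (hc : ∀ h ∈ H, h * c = c * h) {a : Ω}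
    (ha : c • a = a) : c = 1 := by
  refine eq_of_smul_eq_smul fun ω : Ω => ?_
  obtain ⟨h, hh, rfl⟩ := htr a ω
  rw [← mul_smul, ← hc h hh, mul_smul, ha, one_smul]

theorem fixator_bound {N : Subgroup X} [N.Normal] [Finite Ω] (a : Ω) {p k : ℕ} (hp : p.Prime)
    (hN : Nat.card N = p ^ k)
    (hfix : ∀ h ∈ stabilizer X a, h ∈ centralizer (N : Set X) → h = 1) :
    ∀ (j : ℕ) (S : Subgroup X), S ≤ N → ∀ i, Nat.card S = p ^ i → k ≤ i + j →
      ArithmeticFunction.cardFactors
        (Nat.card (stabilizer X a ⊓ centralizer (S : Set X) : Subgroup X)) ≤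
        j * Nat.log 2 (p ^ k - 1) := by
  intro j
  induction j with
  | zero =>
    intro S hS i hi hij
    have : S = N := eq_of_le_of_card_ge hS (by
      rw [hi, hN]; exact Nat.pow_le_pow_right hp.pos (by omega))
    subst this
    have hbot : stabilizer X a ⊓ centralizer (S : Set X) = ⊥ :=
      (Subgroup.eq_bot_iff_forall _).2 fun h hh => hfix h hh.1 hh.2
    rw [hbot, Subgroup.card_bot, ArithmeticFunction.cardFactors_one]
    exact Nat.zero_le _
  | succ j ih =>
    intro S hS i hi hij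
    set L := Nat.log 2 (p ^ k - 1)
    by_cases hSN : S = N
    · subst hSN
      have hbot : stabilizer X a ⊓ centralizer (S : Set X) = ⊥ :=
        (Subgroup.eq_bot_iff_forall _).2 fun h hh => hfix h hh.1 hh.2
      rw [hbot, Subgroup.card_bot, ArithmeticFunction.cardFactors_one]
      exact Nat.zero_le _
    obtain ⟨v, hv, hvS⟩ := SetLike.exists_of_lt (lt_of_le_of_ne hS hSN)
    set S' := S ⊔ zpowers v with hS'
    have hS'N : S' ≤ N := sup_le hS (by rwa [zpowers_le])
    obtain ⟨i', -, hi'⟩ := (Nat.dvd_prime_pow hp).1 (hN ▸ card_dvd_of_le hS'N)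
    have hlt : i < i' := by
      have : S < S' := lt_of_le_of_ne le_sup_left fun e => hvS (by
        rw [e]; exact (le_sup_right : zpowers v ≤ S') (mem_zpowers v))
      have hc : Nat.card S < Nat.card S' := by
        rcases lt_or_eq_of_le (card_le_of_le this.le) with h | h
        · exact h
        · exact absurd (eq_of_le_of_card_ge this.le h.ge) this.ne
      rw [hi, hi'] at hc
      exact (Nat.pow_lt_pow_iff_right hp.one_lt).1 hc
    set X1 := stabilizer X a ⊓ centralizer (S : Set X) with hX1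
    set X2 := stabilizer X a ⊓ centralizer (S' : Set X) with hX2
    have h2le : X2 ≤ X1 := inf_le_inf_left _ (centralizer_le (by
      intro s hs; exact (le_sup_left : S ≤ S') hs))
    have hidx : X2.relIndex X1 ≤ p ^ k - 1 := by
      have hv1 : v ≠ 1 := fun e => hvS (e ▸ S.one_mem)
      have key : ∀ g : X1, ((g : X) * v * (g : X)⁻¹) ∈ ((N : Set X) \ {1}) := fun g =>
        ⟨‹N.Normal›.conj_mem v hv g, by simpa using hv1⟩
      have hrel : ∀ g h : X1, (g : X) * v * (g : X)⁻¹ = (h : X) * v * (h : X)⁻¹ →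
          g⁻¹ * h ∈ X2.subgroupOf X1 := by
        intro g h e
        refine ⟨(g⁻¹ * h : X1).2.1, ?_⟩
        have hcv : v * ((g⁻¹ * h : X1) : X) = ((g⁻¹ * h : X1) : X) * v := by
          simp only [Subgroup.coe_mul, Subgroup.coe_inv]
          calc v * ((g : X)⁻¹ * h) = (g : X)⁻¹ * (g * v * (g : X)⁻¹) * h := by group
            _ = (g : X)⁻¹ * (h * v * (h : X)⁻¹) * h := by rw [e]
            _ = (g : X)⁻¹ * h * v := by group
        have : S' ≤ centralizer ({((g⁻¹ * h : X1) : X)} : Set X) := by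
          refine sup_le (fun s hs => mem_centralizer_iff.2 fun y hy => ?_) ?_
          · rw [Set.mem_singleton_iff] at hy; subst hy
            exact (mem_centralizer_iff.1 (g⁻¹ * h : X1).2.2 s hs).symm
          · rw [zpowers_le]
            refine mem_centralizer_iff.2 fun y hy => ?_
            rw [Set.mem_singleton_iff] at hy; subst hy
            exact hcv.symm
        exact mem_centralizer_iff.2 fun s hs =>
          (mem_centralizer_iff.1 (this hs) _ rfl).symm
      let f : X1 ⧸ X2.subgroupOf X1 → ↥((N : Set X) \ {1}) := fun q => ⟨_, key q.out⟩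
      have hf : Function.Injective f := by
        intro q r h
        rw [← q.out_eq', ← r.out_eq']
        exact QuotientGroup.eq.2 (hrel _ _ (congrArg Subtype.val h))
      have := Nat.card_le_card_of_injective f hf
      rw [Nat.card_coe_set_eq, Set.ncard_diff_singleton_of_mem N.one_mem] at this
      have hN' : (N : Set X).ncard = p ^ k := by rw [← Nat.card_coe_set_eq]; exact hN
      rw [hN'] at this
      exact this
    have hmul : Nat.card X2 * X2.relIndex X1 = Nat.card X1 := by
      have h1 := (X2.subgroupOf X1).card_mul_index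
      rwa [Nat.card_congr (subgroupOfEquivOfLe h2le).toEquiv] at h1
    have hne : X2.relIndex X1 ≠ 0 := fun h => Nat.card_pos.ne' (by rw [← hmul, h, mul_zero])
    rw [← hmul, ArithmeticFunction.cardFactors_mul Nat.card_pos.ne' hne]
    have h1 := ih S' hS'N i' hi' (by omega)
    have h2 : ArithmeticFunction.cardFactors (X2.relIndex X1) ≤ L :=
      (cardFactors_le_log hne).trans (Nat.log_mono_right hidx)
    rw [Nat.succ_mul]
    exact Nat.add_le_add h1 h2

theorem primitive_step {n : ℕ} (hb : ∀ k < n, Bnd k) [Finite Ω] (hn : Nat.card Ω = n)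
    (h2 : 2 ≤ n) [IsPretransitive X Ω] (a : Ω) (hA : IsCoatom (stabilizer X a)) :
    3 * len (⊤ : Subgroup X) + 4 ≤ 4 * n := by
  set A := stabilizer X a with hAdef
  have hcore : ∀ L : Subgroup X, L.Normal → L ≤ A → L = ⊥ := fun L hL hLA =>
    (Subgroup.eq_bot_iff_forall _).2 fun l hl => eq_of_smul_eq_smul fun ω : Ω => by
      obtain ⟨g, rfl⟩ := exists_smul_eq X a ω
      have h1 : g⁻¹ * l * g ∈ A := hLA (by simpa using hL.conj_mem l hl g⁻¹)
      rw [hAdef, mem_stabilizer_iff, mul_smul, mul_smul, inv_smul_eq_iff] at h1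
      rw [h1, one_smul]
  have hXne : (⊤ : Subgroup X) ≠ ⊥ := fun h => hA.1 (le_antisymm le_top (h ▸ bot_le))
  obtain ⟨N, hNn, hN0, -, hmin⟩ :
      ∃ M : Subgroup X, M.Normal ∧ M ≠ ⊥ ∧ M ≤ ⊤ ∧
        ∀ L : Subgroup X, L.Normal → L ≤ M → L = ⊥ ∨ L = M := by
    obtain ⟨M, ⟨hMn, hM0⟩, hMmin⟩ := exists_minimal_of_wellFoundedLT
      (fun M : Subgroup X => M.Normal ∧ M ≠ ⊥) ⟨⊤, inferInstance, hXne⟩
    exact ⟨M, hMn, hM0, le_top, fun L hL hle => (em (L = ⊥)).imp_right fun h0 =>
      le_antisymm hle (hMmin ⟨hL, h0⟩ hle)⟩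
  have htop : ∀ L : Subgroup X, L.Normal → L ≠ ⊥ → A ⊔ L = ⊤ := fun L hL hL0 =>
    hA.2 _ (lt_of_le_of_ne le_sup_left fun e => hL0 (hcore L hL (le_sup_right.trans e.ge)))
  have htrans : ∀ L : Subgroup X, L.Normal → L ≠ ⊥ → ∀ b b' : Ω, ∃ h ∈ L, h • b = b' := by
    intro L hL hL0 b b'
    have key : ∀ c : Ω, ∃ h ∈ L, h • a = c := by
      intro c
      obtain ⟨g, rfl⟩ := exists_smul_eq X a c
      haveI := hL
      obtain ⟨y, hy, m, hm, rfl⟩ := mem_sup_normal (x := g) (htop L hL hL0)
      refine ⟨y * m * y⁻¹, hL.conj_mem m hm y, ?_⟩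
      have : y⁻¹ • a = a := mem_stabilizer_iff.1 (A.inv_mem hy)
      rw [mul_smul, this]
    obtain ⟨h, hh, rfl⟩ := key b
    obtain ⟨h', hh', rfl⟩ := key b'
    exact ⟨h' * h⁻¹, L.mul_mem hh' (L.inv_mem hh), by rw [mul_smul, inv_smul_smul]⟩
  haveI := hNn
  have hcent : ∀ L : Subgroup X, L.Normal → L ≠ ⊥ → ∀ c ∈ centralizer (L : Set X), c • a = a →
      c = 1 := fun L hL hL0 c hc ha =>
    eq_one_of_commute_transitive (htrans L hL hL0) (fun h hh => mem_centralizer_iff.1 hc h hh) ha
  -- length of the quotient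
  let f : A →* X ⧸ N := (QuotientGroup.mk' N).comp A.subtype
  have hf : Function.Surjective f := by
    intro q
    obtain ⟨g, rfl⟩ := QuotientGroup.mk_surjective q
    obtain ⟨y, hy, m, hm, rfl⟩ := mem_sup_normal (x := g) (htop N hNn hN0)
    refine ⟨⟨y, hy⟩, QuotientGroup.eq.2 ?_⟩
    simpa using hm
  have hkerf : f.ker = (A ⊓ N).subgroupOf A := by
    ext x
    rw [mem_subgroupOf, mem_inf]
    exact ⟨fun h => ⟨x.2, (QuotientGroup.eq_one_iff _).1 h⟩,
      fun h => (QuotientGroup.eq_one_iff _).2 h.2⟩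
  have hQ : len (A ⊓ N) + len (⊤ : Subgroup (X ⧸ N)) ≤ len (⊤ : Subgroup A) := by
    have h1 := len_add_le_of_surjective f hf
    rw [hkerf] at h1
    have h3 := ((ser_len (A ⊓ N)).subgroupOf A inf_le_left).le_len
    omega
  have hX : len (⊤ : Subgroup X) ≤ len N + len (⊤ : Subgroup (X ⧸ N)) := by
    have h1 := len_le_split (QuotientGroup.mk' N) (⊤ : Subgroup X)
    rwa [top_inf_eq, QuotientGroup.ker_mk',
      map_top_of_surjective _ (QuotientGroup.mk'_surjective N)] at h1
  -- the stabiliser acts on the other points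
  have hinv : ∀ g ∈ A, ∀ b ∈ ({a}ᶜ : Set Ω), g • b ∈ ({a}ᶜ : Set Ω) := fun g hg b hb e => hb (by
    have h : g⁻¹ • (g • b) = g⁻¹ • a := congrArg _ e
    rwa [inv_smul_smul, mem_stabilizer_iff.1 (A.inv_mem hg)] at h)
  haveI := faithful_invSet A ({a}ᶜ : Set Ω) hinv (fun g hg b hb => by
    have hb' : b = a := not_not.1 hb
    rw [hb']; exact hg)
  have hcardC : Nat.card (invSet A ({a}ᶜ : Set Ω) hinv) = n - 1 := by
    have h1 : Nat.card (invSet A ({a}ᶜ : Set Ω) hinv) = ({a}ᶜ : Set Ω).ncard :=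
      Nat.card_coe_set_eq _
    rw [h1, Set.ncard_compl, Set.ncard_singleton, hn]
  have hA1 : 3 * len (⊤ : Subgroup A) + 4 ≤ 4 * (n - 1) := by
    have h1 := bnd_apply (hb (n - 1) (by omega)) (X := A) (Ω := invSet A ({a}ᶜ : Set Ω) hinv) hcardC
    haveI : Nonempty (invSet A ({a}ᶜ : Set Ω) hinv) := (Nat.card_pos_iff.1 (by omega)).1
    have := orbitCount_pos A (invSet A ({a}ᶜ : Set Ω) hinv)
    omega
  by_cases hab : IsMulCommutative N
  · -- affine case
    have hNcomm : N ≤ centralizer (N : Set X) := fun x hx => mem_centralizer_iff.2 fun y hy =>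
      congrArg Subtype.val (hab.is_comm.comm (⟨y, hy⟩ : N) ⟨x, hx⟩)
    haveI : Group.IsSolvable N := Group.isSolvable_of_comm fun x y => hab.is_comm.comm x y
    obtain ⟨p, hp, hpN⟩ : ∃ p : ℕ, p.Prime ∧ IsPGroup p N :=
      CfsgLib.Core.exists_isPGroup_of_minimal_normal hN0 hmin
    haveI := Fact.mk hp
    obtain ⟨k, hk⟩ := IsPGroup.iff_card.1 hpN
    have hkn : p ^ k = n := by
      rw [← hk, ← hn]
      refine Nat.card_eq_of_bijective (fun h : N => (h : X) • a) ⟨?_, ?_⟩
      · intro x y h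
        have := hcent N hNn hN0 _ (hNcomm (N.mul_mem (N.inv_mem y.2) x.2)) (by
          show ((y : X)⁻¹ * x) • a = a
          rw [mul_smul, show (x : X) • a = (y : X) • a from h, inv_smul_smul])
        exact Subtype.ext (inv_mul_eq_one.1 this).symm
      · intro b
        obtain ⟨h, hh, e⟩ := htrans N hNn hN0 a b
        exact ⟨⟨h, hh⟩, e⟩
    have hk1 : 1 ≤ k := by
      rcases Nat.eq_zero_or_pos k with h | h
      · rw [h, pow_zero] at hkn; omega
      · exact h
    have hlenN : len N ≤ k := by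
      have := (ser_len N).le_cardFactors
      rwa [hk, ArithmeticFunction.cardFactors_apply_prime_pow hp] at this
    have hA2 := fixator_bound a hp hk (fun h hh hc => hcent N hNn hN0 h hc hh) k ⊥ bot_le 0
      (by rw [Subgroup.card_bot, pow_zero]) (by omega)
    have hAtop : A ⊓ centralizer ((⊥ : Subgroup X) : Set X) = A :=
      inf_eq_left.2 fun x _ => mem_centralizer_iff.2 fun y hy => by
        rw [SetLike.mem_coe, mem_bot] at hy; simp [hy]
    rw [hAtop] at hA2
    have hA3 : len (⊤ : Subgroup A) ≤ k * Nat.log 2 (p ^ k - 1) := by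
      rw [len_top_subgroup]
      exact le_trans (ser_len A).le_cardFactors hA2
    have := affine_arith hp hk1
    omega
  · obtain ⟨D⟩ := exists_factors N hN0 hmin hab
    by_cases hC : centralizer (N : Set X) = ⊥
    · by_cases hall : ∀ T ∈ D.F, A ⊓ N ⊓ T ≠ ⊥
      · have h1 := D.card_le_len (X := A ⊓ N) inf_le_right hall
        have h2 := D.len_le
        omega
      · push Not at hall
        obtain ⟨T₀, hT₀, hbot⟩ := hall
        have hinter : ∀ T ∈ D.F, A ⊓ T = ⊥ := by
          intro T hT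
          obtain ⟨g, hg⟩ := D.trans T hT T₀ hT₀
          obtain ⟨y, hy, m, hm, rfl⟩ := mem_sup_normal (x := g) (htop N hNn hN0)
          refine (Subgroup.eq_bot_iff_forall _).2 fun x hx => ?_
          have hmx : m⁻¹ * x * m⁻¹⁻¹ ∈ T := D.norm T hT m⁻¹ (N.inv_mem hm) x hx.2
          have h1 : (MulAut.conj (y * m)) (m⁻¹ * x * m⁻¹⁻¹) ∈ T₀ := by
            rw [← hg]; exact mem_map_of_mem _ hmx
          have e : (MulAut.conj (y * m)) (m⁻¹ * x * m⁻¹⁻¹) = y * x * y⁻¹ := by
            rw [MulAut.conj_apply]; group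
          rw [e] at h1
          have h2 : y * x * y⁻¹ ∈ A ⊓ N ⊓ T₀ :=
            ⟨⟨A.mul_mem (A.mul_mem hy hx.1) (A.inv_mem hy),
              hNn.conj_mem x (D.le hT hx.2) y⟩, h1⟩
          rw [hbot, mem_bot] at h2
          have : x = y⁻¹ * (y * x * y⁻¹) * y := by group
          rw [this, h2]; group
        have hU := (fibre_bound D a hA hinter).1
        obtain ⟨O, hO, hcard, hOinv, -, hOker⟩ := exists_small_class hmin D
        have := conj_bound hb O hO (by omega) hOinv (fun c hc => by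
          have := hOker c hc
          rwa [hC, mem_bot] at this)
        omega
    · -- two minimal normal subgroups
      obtain ⟨M, ⟨hMn, hM0, hMC⟩, hMmin⟩ := exists_minimal_of_wellFoundedLT
        (fun M : Subgroup X => M.Normal ∧ M ≠ ⊥ ∧ M ≤ centralizer (N : Set X))
        ⟨_, inferInstance, hC, le_rfl⟩
      have hMmin' : ∀ L : Subgroup X, L.Normal → L ≤ M → L = ⊥ ∨ L = M := fun L hL hle =>
        (em (L = ⊥)).imp_right fun h0 => le_antisymm hle (hMmin ⟨hL, h0, hle.trans hMC⟩ hle)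
      haveI := hMn
      have hNC : N ≤ centralizer (M : Set X) := le_centralizer_iff.1 hMC
      have hMN : M ⊓ N = ⊥ := by
        rcases hmin (M ⊓ N) inferInstance inf_le_right with h | h
        · exact h
        · refine absurd ⟨⟨fun x y => Subtype.ext ?_⟩⟩ hab
          exact mem_centralizer_iff.1 (hMC (inf_eq_right.1 h y.2)) x x.2
      have hab' : ¬ IsMulCommutative M := by
        intro h
        have hMcomm : ∀ x ∈ M, x ∈ centralizer (M : Set X) := fun x hx =>
          mem_centralizer_iff.2 fun y hy => congrArg Subtype.val (h.is_comm.comm (⟨y, hy⟩ : M) ⟨x, hx⟩)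
        refine hN0 (le_bot_iff.1 ?_)
        rw [← hMN]
        refine le_inf (fun x hx => ?_) le_rfl
        obtain ⟨m, hm, e⟩ := htrans M hMn hM0 a (x • a)
        have := hcent M hMn hM0 (m⁻¹ * x) (mul_mem (inv_mem (hMcomm m hm)) (hNC hx))
          (by rw [mul_smul, ← e, inv_smul_smul])
        rw [inv_mul_eq_one] at this
        exact this ▸ hm
      have hregN : A ⊓ N = ⊥ := (Subgroup.eq_bot_iff_forall _).2 fun x hx =>
        hcent M hMn hM0 x (hNC hx.2) hx.1
      have hregM : A ⊓ M = ⊥ := (Subgroup.eq_bot_iff_forall _).2 fun x hx =>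
        hcent N hNn hN0 x (hMC hx.2) hx.1
      obtain ⟨D'⟩ := exists_factors M hM0 hMmin' hab'
      have hi : ∀ T ∈ D.F, A ⊓ T = ⊥ := fun T hT =>
        le_bot_iff.1 (hregN ▸ inf_le_inf_left _ (D.le hT))
      have hi' : ∀ T ∈ D'.F, A ⊓ T = ⊥ := fun T hT =>
        le_bot_iff.1 (hregM ▸ inf_le_inf_left _ (D'.le hT))
      have hU := (fibre_bound D a hA hi).2 hregN
      have hU' := (fibre_bound D' a hA hi').2 hregM
      obtain ⟨O, hO, hcard, hOinv, -, hOker⟩ := exists_small_class hmin D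
      obtain ⟨O', hO', hcard', hOinv', -, hOker'⟩ := exists_small_class hMmin' D'
      have hcu := Finset.card_union_le O O'
      have := conj_bound hb (O ∪ O') (hO.mono Finset.subset_union_left) (by omega)
        (fun g u hu => by
          rcases Finset.mem_union.1 hu with h | h
          · exact Finset.mem_union_left _ (hOinv g u h)
          · exact Finset.mem_union_right _ (hOinv' g u h))
        (fun c hc => by
          have h1 := hOker c fun u hu => hc u (Finset.mem_union_left _ hu)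
          have h2 := hOker' c fun u hu => hc u (Finset.mem_union_right _ hu)
          -- `c` centralises both, hence lies in both
          obtain ⟨m, hm, e⟩ := htrans M hMn hM0 a (c • a)
          have hcm := hcent N hNn hN0 (m⁻¹ * c) (mul_mem (inv_mem (hMC hm)) h1)
            (by rw [mul_smul, ← e, inv_smul_smul])
          obtain ⟨x, hx, e'⟩ := htrans N hNn hN0 a (c • a)
          have hcx := hcent M hMn hM0 (x⁻¹ * c) (mul_mem (inv_mem (hNC hx)) h2)
            (by rw [mul_smul, ← e', inv_smul_smul])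
          rw [inv_mul_eq_one] at hcm hcx
          have : c ∈ M ⊓ N := ⟨hcm ▸ hm, hcx ▸ hx⟩
          rwa [hMN, mem_bot] at this)
      omega

end Primitive

/-- **Composition length bound** for permutation groups. -/
theorem bnd_all (n : ℕ) : Bnd n := by
  induction n using Nat.strong_induction_on with
  | _ n ih =>
    intro X
    rcases Nat.eq_zero_or_pos n with h0 | h0
    · subst h0
      haveI : Subsingleton X := ⟨fun x y => Subtype.ext (Equiv.ext fun i => i.elim0)⟩
      have h1 : len (⊤ : Subgroup X) = 0 := by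
        rw [Subsingleton.elim (⊤ : Subgroup X) ⊥, len_bot]
      have h2 : orbitCount X (Fin 0) = 0 := Nat.card_of_isEmpty
      omega
    have hcard : Nat.card (Fin n) = n := Nat.card_fin n
    let a : Fin n := ⟨0, h0⟩
    by_cases htr : IsPretransitive X (Fin n)
    · have hone : orbitCount X (Fin n) = 1 := by
        haveI : Subsingleton (Quotient (orbitRel X (Fin n))) :=
          ⟨fun p q => Quotient.inductionOn₂ p q fun b c => Quotient.sound (exists_smul_eq X c b)⟩
        haveI : Nonempty (Fin n) := ⟨a⟩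
        exact le_antisymm (Finite.card_le_one_iff_subsingleton.2 inferInstance)
          (orbitCount_pos X (Fin n))
      rcases Nat.lt_or_ge 1 n with h2 | h2
      · by_cases hA : IsCoatom (stabilizer X a)
        · have := primitive_step ih hcard h2 a hA
          omega
        · have hne : stabilizer X a ≠ ⊤ := by
            intro e
            obtain ⟨g, hg⟩ := exists_smul_eq X a ⟨1, h2⟩
            have : g ∈ stabilizer X a := e ▸ mem_top g
            rw [mem_stabilizer_iff, hg] at this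
            exact absurd (congrArg Fin.val this) (by simp [a])
          rw [IsCoatom] at hA
          push Not at hA
          obtain ⟨H, hH, hH'⟩ := hA hne
          exact imprimitive_step ih hcard a H hH hH'
      · haveI : Subsingleton (Fin n) := Fin.subsingleton_iff_le_one.2 h2
        haveI : Subsingleton X := ⟨fun x y => Subtype.ext (Equiv.ext fun i => Subsingleton.elim _ _)⟩
        have h1 : len (⊤ : Subgroup X) = 0 := by
          rw [Subsingleton.elim (⊤ : Subgroup X) ⊥, len_bot]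
        omega
    · exact intransitive_step ih hcard a htr

end CfsgLib.Length
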