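import Mathlib.GroupTheory.QuotientGroup.Basic
import Mathlib.GroupTheory.Subgroup.Simple
import Mathlib.GroupTheory.Coset.Card
import Mathlib.Data.Nat.Log
import Mathlib.Algebra.Group.Subgroup.Finite

/-!
# Lengths of subnormal series of finite groups

`Ser B k`: there is a strictly increasing series of length `k` from `⊥` to `B`,
each term normalised by the next one. `len B` is the largest such `k`.
-/

set_option autoImplicit false
set_option linter.unusedSectionVars false
set_option linter.style.haveILetI false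

namespace CfsgLib.Length

open Subgroup

variable {G : Type*} [Group G] {Q : Type*} [Group Q]

/-- `A` is normalised by `B`. -/
def NormIn (A B : Subgroup G) : Prop := ∀ x ∈ B, ∀ a ∈ A, x * a * x⁻¹ ∈ A

/-- Strict series of length `k` from `⊥` to the subgroup. -/
inductive Ser : Subgroup G → ℕ → Prop
  | base : Ser ⊥ 0
  | step {A B : Subgroup G} {k : ℕ} (h : Ser A k) (hlt : A < B) (hn : NormIn A B) : Ser B (k + 1)

theorem Ser.two_pow_le [Finite G] {B : Subgroup G} {k : ℕ} (h : Ser B k) :
    2 ^ k ≤ Nat.card B := by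
  induction h with
  | base => simp
  | @step A B k _ hlt _ ih =>
    have hdvd := Subgroup.card_dvd_of_le hlt.le
    obtain ⟨c, hc⟩ := hdvd
    have hc2 : 2 ≤ c := by
      by_contra hc'
      have hpos : 0 < Nat.card B := Nat.card_pos
      have : c = 1 := by
        rcases Nat.eq_zero_or_pos c with h0 | h0
        · rw [h0, mul_zero] at hc; omega
        · omega
      rw [this, mul_one] at hc
      exact hlt.ne (Subgroup.eq_of_le_of_card_ge hlt.le hc.le)
    calc 2 ^ (k + 1) = 2 ^ k * 2 := pow_succ 2 k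
      _ ≤ Nat.card A * c := Nat.mul_le_mul ih hc2
      _ = Nat.card B := hc.symm

/-- The largest length of a series up to `B`. -/
noncomputable def len (B : Subgroup G) : ℕ := sSup {k | Ser B k}

theorem Ser.le_len [Finite G] {B : Subgroup G} {k : ℕ} (h : Ser B k) : k ≤ len B := by
  refine le_csSup ⟨Nat.card B, fun j hj => ?_⟩ h
  have := Ser.two_pow_le hj
  exact le_trans (Nat.lt_two_pow_self).le this

theorem len_le [Finite G] {B : Subgroup G} {b : ℕ} (h : ∀ k, Ser B k → k ≤ b) : len B ≤ b := by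
  by_cases hne : {k | Ser B k}.Nonempty
  · exact csSup_le hne h
  · rw [Set.not_nonempty_iff_eq_empty] at hne
    simp [len, hne]

theorem exists_ser [Finite G] (B : Subgroup G) : ∃ k, Ser B k := by
  by_cases h : B = ⊥
  · exact ⟨0, h ▸ Ser.base⟩
  · refine ⟨1, Ser.step Ser.base (bot_lt_iff_ne_bot.2 h) fun x _ a ha => ?_⟩
    rw [Subgroup.mem_bot] at ha ⊢
    rw [ha, mul_one, mul_inv_cancel]

theorem ser_len [Finite G] (B : Subgroup G) : Ser B (len B) := by
  have hbd : BddAbove {k | Ser B k} :=
    ⟨Nat.card B, fun j hj => le_trans (Nat.lt_two_pow_self).le (Ser.two_pow_le hj)⟩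
  exact Nat.sSup_mem (exists_ser B) hbd

theorem two_pow_len_le [Finite G] (B : Subgroup G) : 2 ^ len B ≤ Nat.card B :=
  (ser_len B).two_pow_le

theorem len_bot [Finite G] : len (⊥ : Subgroup G) = 0 := by
  have := two_pow_len_le (⊥ : Subgroup G)
  rw [Subgroup.card_bot] at this
  by_contra h
  have : 2 ≤ 2 ^ len (⊥ : Subgroup G) := Nat.le_self_pow h 2
  omega

theorem Ser.map {B : Subgroup G} {k : ℕ} (h : Ser B k) (f : G →* Q)
    (hf : Function.Injective f) : Ser (B.map f) k := by
  induction h with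
  | base => rw [Subgroup.map_bot]; exact Ser.base
  | @step A B k _ hlt hn ih =>
    refine Ser.step ih ((Subgroup.map_lt_map_iff_of_injective hf).2 hlt) ?_
    rintro _ ⟨x, hx, rfl⟩ _ ⟨a, ha, rfl⟩
    exact ⟨x * a * x⁻¹, hn x hx a ha, by simp⟩

theorem len_map [Finite G] [Finite Q] (f : G →* Q) (hf : Function.Injective f)
    (B : Subgroup G) : len B ≤ len (B.map f) :=
  len_le fun _ h => (h.map f hf).le_len

/-- Pull a series in `G` below `H` back to `↥H`. -/
theorem Ser.subgroupOf {B : Subgroup G} {k : ℕ} (h : Ser B k) (H : Subgroup G) (hle : B ≤ H) :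
    Ser (B.subgroupOf H) k := by
  induction h with
  | base => rw [Subgroup.bot_subgroupOf]; exact Ser.base
  | @step A B k _ hlt hn ih =>
    refine Ser.step (ih (hlt.le.trans hle)) ?_ fun x hx a ha => hn _ hx _ ha
    refine lt_of_le_of_ne (fun y hy => hlt.le hy) fun e => hlt.ne ?_
    have h2 := congrArg (Subgroup.map H.subtype) e
    rwa [Subgroup.map_subgroupOf_eq_of_le (hlt.le.trans hle),
      Subgroup.map_subgroupOf_eq_of_le hle] at h2

theorem len_top_subgroup [Finite G] (H : Subgroup G) : len (⊤ : Subgroup H) = len H := by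
  refine le_antisymm (len_le fun k h => ?_) (len_le fun k h => ?_)
  · have h2 := h.map H.subtype H.subtype_injective
    rw [← MonoidHom.range_eq_map, Subgroup.range_subtype] at h2
    exact h2.le_len
  · have h2 := h.subgroupOf H le_rfl
    rw [Subgroup.subgroupOf_self] at h2
    exact h2.le_len

theorem len_top_equiv [Finite G] [Finite Q] (e : G ≃* Q) :
    len (⊤ : Subgroup G) = len (⊤ : Subgroup Q) := by
  refine le_antisymm ?_ ?_
  · have := len_map e.toMonoidHom e.injective (⊤ : Subgroup G)
    rwa [Subgroup.map_top_of_surjective _ e.surjective] at this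
  · have := len_map e.symm.toMonoidHom e.symm.injective (⊤ : Subgroup Q)
    rwa [Subgroup.map_top_of_surjective _ e.symm.surjective] at this

/-- A series splits along a homomorphism. -/
theorem Ser.split {B : Subgroup G} {k : ℕ} (h : Ser B k) (f : G →* Q) :
    ∃ i j, Ser (B ⊓ f.ker) i ∧ Ser (B.map f) j ∧ k ≤ i + j := by
  induction h with
  | base => exact ⟨0, 0, by rw [bot_inf_eq]; exact Ser.base, by rw [Subgroup.map_bot]; exact Ser.base,
      le_rfl⟩
  | @step A B k _ hlt hn ih =>
    obtain ⟨i, j, hi, hj, hij⟩ := ih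
    have hni : NormIn (A ⊓ f.ker) (B ⊓ f.ker) := fun x hx a ha =>
      ⟨hn x hx.1 a ha.1, f.normal_ker.conj_mem a ha.2 x⟩
    have hnj : NormIn (A.map f) (B.map f) := by
      rintro _ ⟨x, hx, rfl⟩ _ ⟨a, ha, rfl⟩
      exact ⟨x * a * x⁻¹, hn x hx a ha, by simp⟩
    have hle1 : A ⊓ f.ker ≤ B ⊓ f.ker := inf_le_inf_right _ hlt.le
    have hle2 : A.map f ≤ B.map f := Subgroup.map_mono hlt.le
    by_cases h2 : A.map f = B.map f
    · have h1 : A ⊓ f.ker < B ⊓ f.ker := by
        refine lt_of_le_of_ne hle1 fun e => hlt.ne (le_antisymm hlt.le fun b hb => ?_)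
        have hfb : f b ∈ A.map f := h2 ▸ Subgroup.mem_map_of_mem f hb
        obtain ⟨a, ha, hab⟩ := hfb
        have : a⁻¹ * b ∈ B ⊓ f.ker :=
          ⟨B.mul_mem (B.inv_mem (hlt.le ha)) hb, by simp [MonoidHom.mem_ker, hab]⟩
        rw [← e] at this
        have := A.mul_mem ha this.1
        rwa [mul_inv_cancel_left] at this
      exact ⟨i + 1, j, Ser.step hi h1 hni, h2 ▸ hj, by omega⟩
    · have h2' : A.map f < B.map f := lt_of_le_of_ne hle2 h2
      by_cases h1 : A ⊓ f.ker = B ⊓ f.ker
      · exact ⟨i, j + 1, h1 ▸ hi, Ser.step hj h2' hnj, by omega⟩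
      · exact ⟨i + 1, j + 1, Ser.step hi (lt_of_le_of_ne hle1 h1) hni,
          Ser.step hj h2' hnj, by omega⟩

theorem len_le_split [Finite G] [Finite Q] (f : G →* Q) (B : Subgroup G) :
    len B ≤ len (B ⊓ f.ker) + len (B.map f) := by
  refine len_le fun k h => ?_
  obtain ⟨i, j, hi, hj, hij⟩ := h.split f
  have := hi.le_len
  have := hj.le_len
  omega

/-- Series of a kernel and of an image concatenate. -/
theorem Ser.concat (f : G →* Q) (hf : Function.Surjective f) {i : ℕ} (hK : Ser f.ker i)
    {C : Subgroup Q} {j : ℕ} (hC : Ser C j) : Ser (C.comap f) (i + j) := by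
  induction hC with
  | base => rw [MonoidHom.comap_bot]; simpa using hK
  | @step A B k _ hlt hn ih =>
    exact Ser.step ih ((Subgroup.comap_lt_comap_of_surjective hf).2 hlt)
      fun x hx a ha => by simpa using hn (f x) hx (f a) ha

theorem len_add_le_of_surjective [Finite G] [Finite Q] (f : G →* Q) (hf : Function.Surjective f) :
    len f.ker + len (⊤ : Subgroup Q) ≤ len (⊤ : Subgroup G) := by
  have h := Ser.concat f hf (ser_len f.ker) (ser_len (⊤ : Subgroup Q))
  rw [Subgroup.comap_top] at h
  exact h.le_len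

theorem len_le_ker_add_range [Finite G] [Finite Q] (f : G →* Q) :
    len (⊤ : Subgroup G) ≤ len (⊤ : Subgroup f.ker) + len (⊤ : Subgroup f.range) := by
  have h := len_le_split f.rangeRestrict (⊤ : Subgroup G)
  rw [top_inf_eq, MonoidHom.ker_rangeRestrict,
    Subgroup.map_top_of_surjective _ f.rangeRestrict_surjective] at h
  rwa [len_top_subgroup f.ker]

theorem len_simple [Finite G] {T : Subgroup G} (hT : IsSimpleGroup T) : len T ≤ 1 := by
  rw [← len_top_subgroup]
  refine len_le fun k h => ?_
  generalize e : (⊤ : Subgroup T) = C at h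
  cases h with
  | base => omega
  | @step A B k hA hlt hn =>
    subst e
    haveI : A.Normal := ⟨fun a ha x => hn x (Subgroup.mem_top x) a ha⟩
    rcases hT.eq_bot_or_eq_top_of_normal A inferInstance with h | h
    · cases hA with
      | base => omega
      | @step A' _ j _ hlt' _ => exact absurd h (ne_bot_of_gt hlt')
    · exact absurd h hlt.ne

/-- Series given by a `Fin`-indexed family. -/
theorem ser_of_chain {B : ℕ → Subgroup G} (l : ℕ) (h0 : B 0 = ⊥)
    (hstep : ∀ i < l, B i < B (i + 1) ∧ NormIn (B i) (B (i + 1))) : ∀ i ≤ l, Ser (B i) i := by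
  intro i hi
  induction i with
  | zero => rw [h0]; exact Ser.base
  | succ j ih => exact Ser.step (ih (by omega)) (hstep j (by omega)).1 (hstep j (by omega)).2

theorem le_len_of_fin_chain [Finite G] (l : ℕ) (H : Fin (l + 1) → Subgroup G) (h0 : H 0 = ⊥)
    (hl : H (Fin.last l) = ⊤)
    (hchain : ∀ i : Fin l, H i.castSucc < H i.succ ∧
      ((H i.castSucc).subgroupOf (H i.succ)).Normal) :
    l ≤ len (⊤ : Subgroup G) := by
  set B : ℕ → Subgroup G := fun i => if h : i < l + 1 then H ⟨i, h⟩ else ⊤ with hB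
  have hBeq : ∀ (i : ℕ) (h : i < l + 1), B i = H ⟨i, h⟩ := fun i h => by simp [hB, Nat.le_of_lt_succ h]
  have hs := ser_of_chain (B := B) l (by rw [hBeq 0 (by omega)]; exact h0)
    (fun i hi => by
      rw [hBeq i (by omega), hBeq (i + 1) (by omega)]
      refine ⟨(hchain ⟨i, hi⟩).1, fun x hx a ha => ?_⟩
      have hn := (hchain ⟨i, hi⟩).2
      exact hn.conj_mem ⟨a, (hchain ⟨i, hi⟩).1.le ha⟩ ha ⟨x, hx⟩) l le_rfl
  rw [hBeq l (by omega)] at hs
  have hl' : H ⟨l, by omega⟩ = ⊤ := hl
  rw [hl'] at hs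
  exact hs.le_len

end CfsgLib.Length
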