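import Mathlib

namespace Cfsg.Agent.Lib.LieA6Inv

open Equiv

abbrev z0 : Perm (Fin 6) := Equiv.swap 0 1 * Equiv.swap 2 3

abbrev Inv (w : Perm (Fin 6)) : Prop := Equiv.Perm.sign w = 1 ∧ w * w = 1 ∧ w ≠ 1

abbrev P3 (w : Perm (Fin 6)) : Prop := (z0 * w) * (z0 * w) * (z0 * w) = 1

abbrev P5 (w : Perm (Fin 6)) : Prop := (z0 * w) * (z0 * w) * (z0 * w) * (z0 * w) * (z0 * w) = 1

theorem cA : (Finset.univ.filter fun w : Perm (Fin 6) => Inv w).card = 45 := by decide +kernel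

theorem cB : (Finset.univ.filter fun c : Perm (Fin 6) =>
    Equiv.Perm.sign c = 1 ∧ c * z0 = z0 * c).card = 8 := by decide +kernel

theorem cC : (Finset.univ.filter fun w : Perm (Fin 6) => Inv w ∧ P3 w).card < 32 := by decide +kernel

theorem cD : (Finset.univ.filter fun w : Perm (Fin 6) => Inv w ∧ P5 w).card < 32 := by decide +kernel

theorem cE : (Finset.univ.filter fun w : Perm (Fin 6) => Inv w ∧ ¬ P3 w ∧ ¬ P5 w).card < 32 := by
  decide +kernel

theorem cF : ∀ w ∈ (Finset.univ.filter fun w : Perm (Fin 6) => Inv w),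
    w ∈ (Finset.univ.image fun a : Perm (Fin 6) => a * z0 * a⁻¹) := by decide +kernel

end Cfsg.Agent.Lib.LieA6Inv
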