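/-
Orthogonality of multiplicative characters of a finite field, and expansion of functions on abelian groups in a
family of functions satisfying the inversion formula.
-/
import Mathlib.NumberTheory.MulChar.Duality
import Mathlib.NumberTheory.MulChar.Lemmas
import Mathlib.Analysis.Complex.Basic
import Mathlib.FieldTheory.Finite.Basic
import Mathlib.Analysis.Complex.Polynomial.Basic
import Mathlib.RingTheory.RootsOfUnity.AlgebraicallyClosed

set_option autoImplicit false
set_option linter.unusedSectionVars false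

namespace CfsgLib.Lie.CharOrth

open scoped ComplexConjugate

variable {F : Type*} [Field F] [Fintype F]

theorem conj_apply (φ : MulChar F ℂ) (a : F) : conj (φ a) = φ⁻¹ a := MulChar.star_apply' φ a

theorem units_ne_zero (φ : MulChar F ℂ) (x : Fˣ) : φ (x : F) ≠ 0 := (x.isUnit.map φ).ne_zero

theorem sum_units (φ : MulChar F ℂ) [DecidableEq F] : ∑ x : Fˣ, φ (x : F) = ∑ a : F, φ a := by
  rw [← Finset.sum_subset (s₁ := (Finset.univ : Finset Fˣ).image Units.val) (Finset.subset_univ _) ?_,
    Finset.sum_image (fun a _ b _ h => Units.ext h)]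
  intro a _ ha
  have : a = 0 := by
    by_contra h
    exact ha (Finset.mem_image.2 ⟨Units.mk0 a h, Finset.mem_univ _, rfl⟩)
  rw [this, MulChar.map_zero]

theorem sum_mul_conj [DecidableEq F] (χ φ : MulChar F ℂ) [Decidable (χ = φ)] :
    ∑ x : Fˣ, χ (x : F) * conj (φ (x : F)) = if χ = φ then ((Fintype.card Fˣ : ℕ) : ℂ) else 0 := by
  have e : ∀ x : Fˣ, χ (x : F) * conj (φ (x : F)) = (χ * φ⁻¹) (x : F) := fun x => by
    rw [conj_apply, MulChar.mul_apply]
  simp only [e, sum_units]
  split_ifs with h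
  · rw [h, mul_inv_cancel, MulChar.sum_one_eq_card_units]
  · exact MulChar.sum_eq_zero_of_ne_one fun e' => h (by rwa [mul_inv_eq_one] at e')

theorem card_mulChar : Nat.card (MulChar F ℂ) = Fintype.card F - 1 := by
  rw [MulChar.card_eq_card_units_of_hasEnoughRootsOfUnity, Nat.card_units, Nat.card_eq_fintype_card]

noncomputable instance fintypeMulChar : Fintype (MulChar F ℂ) := Fintype.ofFinite _

theorem sum_apply_conj [DecidableEq F] (x y : Fˣ) :
    ∑ χ : MulChar F ℂ, χ (x : F) * conj (χ (y : F)) = if x = y then ((Fintype.card Fˣ : ℕ) : ℂ) else 0 := by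
  have e : ∀ χ : MulChar F ℂ, χ (x : F) * conj (χ (y : F)) = χ ((x * y⁻¹ : Fˣ) : F) := fun χ => by
    rw [conj_apply, MulChar.inv_apply' χ, Units.val_mul, map_mul, Units.val_inv_eq_inv_val]
  simp only [e]
  split_ifs with h
  · rw [h, mul_inv_cancel]
    simp only [Units.val_one, MulChar.map_one, Finset.sum_const, Finset.card_univ, nsmul_eq_mul, mul_one]
    rw [← Nat.card_eq_fintype_card, card_mulChar, Fintype.card_units]
  · obtain ⟨χ₀, hχ₀⟩ := MulChar.exists_apply_ne_one_of_hasEnoughRootsOfUnity F ℂ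
      (a := ((x * y⁻¹ : Fˣ) : F)) (fun e' => h (by rw [Units.val_eq_one, mul_inv_eq_one] at e'; exact e'))
    have : χ₀ ((x * y⁻¹ : Fˣ) : F) * ∑ χ : MulChar F ℂ, χ ((x * y⁻¹ : Fˣ) : F) = ∑ χ : MulChar F ℂ, χ ((x * y⁻¹ : Fˣ) : F) := by
      rw [Finset.mul_sum]
      exact Fintype.sum_equiv (Equiv.mulLeft χ₀) _ _ fun χ => (MulChar.mul_apply χ₀ χ _).symm
    by_contra h0
    exact hχ₀ ((mul_eq_right₀ h0).1 this)

/-- A function whose coefficients are natural numbers summing to its value at `1`. -/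
theorem expand {ι T : Type*} [Fintype ι] [Fintype T] [DecidableEq T] [One T] (ch : ι → T → ℂ) (N : ℂ) (hN : N ≠ 0)
    (h1 : ∀ i, ch i 1 = 1) (hinv : ∀ x y : T, ∑ i, ch i x * conj (ch i y) = if x = y then N else 0)
    (s : T → ℂ) (hc : ∀ i, ∃ n : ℕ, ∑ x, s x * conj (ch i x) = N * n) :
    (s 1 = 0 → ∀ x, s x = 0) ∧
    (s 1 ≠ 0 → ∃ i, ∑ x, s x * conj (ch i x) ≠ 0) ∧
    (s 1 = 1 → ∀ i, ∑ x, s x * conj (ch i x) ≠ 0 → s = ch i) := by
  classical
  choose n hn using hc
  have hs : ∀ x, s x = ∑ i, (n i : ℂ) * ch i x := fun x => by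
    have : ∑ i, (∑ y, s y * conj (ch i y)) * ch i x = N * s x := by
      simp only [Finset.sum_mul]
      rw [Finset.sum_comm]
      simp only [mul_assoc, ← Finset.mul_sum]
      rw [Finset.sum_eq_single x]
      · have e := hinv x x
        rw [if_pos rfl] at e
        rw [mul_comm N]
        congr 1
        rw [← e]
        exact Finset.sum_congr rfl fun i _ => mul_comm _ _
      · intro y _ hy
        have e := hinv x y
        rw [if_neg (Ne.symm hy)] at e
        rw [Finset.sum_congr rfl (fun i _ => mul_comm (conj (ch i y)) (ch i x)), e, mul_zero]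
      · exact fun h => absurd (Finset.mem_univ _) h
    simp only [hn, mul_assoc, ← Finset.mul_sum] at this
    exact (mul_left_cancel₀ hN this).symm
  have hs1 : s 1 = ((∑ i, n i : ℕ) : ℂ) := by rw [hs]; simp [h1]
  refine ⟨fun h x => ?_, fun h => ?_, fun h i hi => ?_⟩
  · have h' : ∑ i, n i = 0 := by exact_mod_cast hs1.symm.trans h
    rw [hs]
    exact Finset.sum_eq_zero fun i _ => by rw [Finset.sum_eq_zero_iff.1 h' i (Finset.mem_univ i), Nat.cast_zero, zero_mul]
  · by_contra hall
    push Not at hall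
    refine h (hs1.trans ?_)
    rw [Finset.sum_eq_zero fun i _ => ?_, Nat.cast_zero]
    have := (hn i).symm.trans (hall i)
    exact_mod_cast (mul_eq_zero.1 this).resolve_left hN
  · have h' : ∑ j, n j = 1 := by exact_mod_cast hs1.symm.trans h
    have hi' : n i ≠ 0 := fun e => hi (by rw [hn, e, Nat.cast_zero, mul_zero])
    have hle := Finset.single_le_sum (f := n) (fun j _ => Nat.zero_le _) (Finset.mem_univ i)
    have hzero : ∀ j, j ≠ i → n j = 0 := fun j hj => by
      have := Finset.add_le_sum (f := n) (fun k _ => Nat.zero_le _) (Finset.mem_univ i) (Finset.mem_univ j) (Ne.symm hj)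
      omega
    funext x
    rw [hs, Finset.sum_eq_single i (fun j _ hj => by rw [hzero j hj, Nat.cast_zero, zero_mul])
      (fun h => absurd (Finset.mem_univ _) h), show n i = 1 by omega, Nat.cast_one, one_mul]

/-- The inversion formula for pairs of multiplicative characters. -/
theorem sum_pair [DecidableEq F] (x y : Fˣ × Fˣ) :
    ∑ p : MulChar F ℂ × MulChar F ℂ, (p.1 (x.1 : F) * p.2 (x.2 : F)) * conj (p.1 (y.1 : F) * p.2 (y.2 : F)) =
      if x = y then ((Fintype.card Fˣ : ℕ) : ℂ) * (Fintype.card Fˣ : ℕ) else 0 := by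
  have e : ∀ p : MulChar F ℂ × MulChar F ℂ,
      (p.1 (x.1 : F) * p.2 (x.2 : F)) * conj (p.1 (y.1 : F) * p.2 (y.2 : F)) =
        (p.1 (x.1 : F) * conj (p.1 (y.1 : F))) * (p.2 (x.2 : F) * conj (p.2 (y.2 : F))) := fun p => by
    rw [map_mul]; ring
  simp only [e, Fintype.sum_prod_type]
  rw [← Finset.sum_mul_sum, sum_apply_conj, sum_apply_conj]
  by_cases h1 : x.1 = y.1 <;> by_cases h2 : x.2 = y.2 <;> simp [h1, h2, Prod.ext_iff]

end CfsgLib.Lie.CharOrth
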