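import Mathlib

/-!
Unipotent linear maps are classified by partitions of the dimension.
-/

set_option autoImplicit false

namespace CfsgLib.Lie.GLUnipotent

open Polynomial Module
open scoped DirectSum

universe u v w

variable {F : Type u} [Field F]

/-- The Jordan component of size `e`. -/
abbrev J (F : Type u) [Field F] (e : ℕ) : Type u := F[X] ⧸ F[X] ∙ ((X - C (1 : F)) ^ e)

theorem monic_pow_one (e : ℕ) : ((X - C (1 : F)) ^ e).Monic := (monic_X_sub_C 1).pow e

theorem finite_J (e : ℕ) : Module.Finite F (J F e) :=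
  (AdjoinRoot.powerBasis (monic_pow_one (F := F) e).ne_zero).finite

theorem finrank_J (e : ℕ) : finrank F (J F e) = e := by
  have h := (AdjoinRoot.powerBasis (monic_pow_one (F := F) e).ne_zero).finrank
  rw [AdjoinRoot.powerBasis_dim, natDegree_pow, natDegree_X_sub_C, mul_one] at h
  exact h

/-- An `F`-linear map commuting with the variable is `F[X]`-linear. -/
theorem map_smul_of_X {M : Type v} {N : Type w} [AddCommGroup M] [AddCommGroup N] [Module F M] [Module F N]
    [Module F[X] M] [Module F[X] N] [IsScalarTower F F[X] M] [IsScalarTower F F[X] N] (φ : M →ₗ[F] N)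
    (h : ∀ m, φ ((X : F[X]) • m) = (X : F[X]) • φ m) (r : F[X]) (m : M) : φ (r • m) = r • φ m := by
  induction r using Polynomial.induction_on generalizing m with
  | C a =>
    rw [← algebraMap_eq, algebraMap_smul, algebraMap_smul, map_smul]
  | add p q hp hq => rw [add_smul, map_add, hp, hq, add_smul]
  | monomial n a ih =>
    rw [pow_succ, ← mul_assoc, mul_smul, ih, h, ← mul_smul]

/-- The Jordan type of a linear map. -/
def HasType {V : Type u} [AddCommGroup V] [Module F V] (f : Module.End F V) (ι : Type w) (e : ι → ℕ) : Prop :=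
  Nonempty (Module.AEval' f ≃ₗ[F[X]] (∀ i, J F (e i)))

theorem exists_equiv_of_map_eq {ι : Type v} {κ : Type w} [Fintype ι] [Fintype κ] {α : Type*}
    (a : ι → α) (b : κ → α)
    (h : (Finset.univ : Finset ι).val.map a = (Finset.univ : Finset κ).val.map b) :
    ∃ σ : ι ≃ κ, ∀ i, b (σ i) = a i := by
  classical
  have hc : ∀ v, Fintype.card {i // a i = v} = Fintype.card {j // b j = v} := by
    intro v
    have h' := congrArg (Multiset.count v) h
    rw [Multiset.count_map, Multiset.count_map] at h'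
    rw [Fintype.card_subtype, Fintype.card_subtype]
    convert h' using 1 <;>
      simp only [Finset.card, Finset.filter_val, eq_comm]
  let σ := (Equiv.sigmaFiberEquiv a).symm.trans
    ((Equiv.sigmaCongrRight fun v => Fintype.equivOfCardEq (hc v)).trans (Equiv.sigmaFiberEquiv b))
  exact ⟨σ, fun i => (Fintype.equivOfCardEq (hc (a i)) ⟨i, rfl⟩).2⟩

theorem conj_of_type {V : Type u} [AddCommGroup V] [Module F V] {f g : Module.End F V} {ι : Type v}
    {κ : Type w} [Fintype ι] [Fintype κ] {e : ι → ℕ} {d : κ → ℕ} (hf : HasType f ι e) (hg : HasType g κ d)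
    (h : (Finset.univ : Finset ι).val.map e = (Finset.univ : Finset κ).val.map d) :
    ∃ P : V ≃ₗ[F] V, ∀ x, P (f x) = g (P x) := by
  obtain ⟨φ⟩ := hf
  obtain ⟨ψ⟩ := hg
  obtain ⟨σ, hσ⟩ := exists_equiv_of_map_eq e d h
  let R : Module.AEval' f ≃ₗ[F[X]] Module.AEval' g :=
    φ.trans ((LinearEquiv.piCongrRight fun i =>
      Submodule.quotEquivOfEq _ _ (congrArg (fun r => F[X] ∙ ((X - C (1 : F)) ^ r)) (hσ i).symm)).trans
      ((LinearEquiv.piCongrLeft F[X] (fun j => J F (d j)) σ).trans ψ.symm))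
  refine ⟨(Module.AEval'.of f).trans ((R.restrictScalars F).trans (Module.AEval'.of g).symm), fun x => ?_⟩
  show (Module.AEval'.of g).symm (R (Module.AEval'.of f (f x))) = _
  rw [← Module.AEval'.X_smul_of, map_smul, Module.AEval'.of_symm_X_smul]
  rfl

theorem type_of_conj {V W : Type u} [AddCommGroup V] [Module F V] [AddCommGroup W] [Module F W]
    {f : Module.End F V} {g : Module.End F W} {ι : Type w} {e : ι → ℕ} (P : V ≃ₗ[F] W)
    (hP : ∀ x, P (f x) = g (P x)) (hg : HasType g ι e) : HasType f ι e := by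
  obtain ⟨ψ⟩ := hg
  let L : Module.AEval' f ≃ₗ[F] Module.AEval' g :=
    (Module.AEval'.of f).symm.trans (P.trans (Module.AEval'.of g))
  have hX : ∀ m, L ((X : F[X]) • m) = (X : F[X]) • L m := by
    intro m
    obtain ⟨x, rfl⟩ := (Module.AEval'.of f).surjective m
    simp only [L, Module.AEval'.X_smul_of, LinearEquiv.trans_apply, LinearEquiv.symm_apply_apply, hP]
  exact ⟨({ L with map_smul' := map_smul_of_X L.toLinearMap hX } :
    Module.AEval' f ≃ₗ[F[X]] Module.AEval' g).trans ψ⟩

theorem realize (n : ℕ) {ι : Type} [Fintype ι] (e : ι → ℕ) (he : ∑ i, e i = n) :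
    ∃ f : Module.End F (Fin n → F), HasType f ι e := by
  haveI : ∀ i, Module.Finite F (J F (e i)) := fun i => finite_J (e i)
  let M := ∀ i, J F (e i)
  have hrank : finrank F M = finrank F (Fin n → F) := by
    rw [Module.finrank_fin_fun, Module.finrank_pi_fintype, ← he]
    exact Finset.sum_congr rfl fun i _ => finrank_J (e i)
  let L : M ≃ₗ[F] (Fin n → F) := LinearEquiv.ofFinrankEq _ _ hrank
  let m : Module.End F M := ((X : F[X]) • (LinearMap.id : M →ₗ[F[X]] M)).restrictScalars F
  refine ⟨L.conj m, ?_⟩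
  let K : Module.AEval' (L.conj m) ≃ₗ[F] M := (Module.AEval'.of (L.conj m)).symm.trans L.symm
  have hX : ∀ v, K ((X : F[X]) • v) = (X : F[X]) • K v := by
    intro v
    obtain ⟨x, rfl⟩ := (Module.AEval'.of (L.conj m)).surjective v
    simp only [K, Module.AEval'.X_smul_of, LinearEquiv.trans_apply, LinearEquiv.symm_apply_apply,
      LinearEquiv.conj_apply_apply]
    rfl
  exact ⟨{ K with map_smul' := map_smul_of_X K.toLinearMap hX }⟩

theorem finrank_range_J (e k : ℕ) :
    finrank F (LinearMap.range ((((X - C (1 : F)) ^ k : F[X]) •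
      (LinearMap.id : J F e →ₗ[F[X]] J F e)).restrictScalars F)) = e - k := by
  by_cases hk : e ≤ k
  · have h0 : (((X - C (1 : F)) ^ k : F[X]) • (LinearMap.id : J F e →ₗ[F[X]] J F e)).restrictScalars F = 0 := by
      refine LinearMap.ext fun w => ?_
      obtain ⟨a, rfl⟩ := Submodule.Quotient.mk_surjective _ w
      show ((X - C (1 : F)) ^ k : F[X]) • (Submodule.Quotient.mk a : J F e) = 0
      rw [← Submodule.Quotient.mk_smul, Submodule.Quotient.mk_eq_zero, Submodule.mem_span_singleton]
      obtain ⟨c, hc⟩ := pow_dvd_pow (X - C (1 : F)) hk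
      exact ⟨c * a, by rw [smul_eq_mul, smul_eq_mul, hc]; ring⟩
    rw [h0, LinearMap.range_zero, finrank_bot]
    omega
  · obtain ⟨d, rfl⟩ : ∃ d, e = k + d := ⟨e - k, by omega⟩
    let φ : J F d →ₗ[F[X]] J F (k + d) :=
      Submodule.liftQ (F[X] ∙ ((X - C (1 : F)) ^ d)) (((X - C (1 : F)) ^ k : F[X]) • Submodule.mkQ (F[X] ∙ ((X - C (1 : F)) ^ (k + d)))) (by
        rw [Submodule.span_le]
        rintro _ rfl
        rw [SetLike.mem_coe, LinearMap.mem_ker]
        rw [LinearMap.smul_apply, Submodule.mkQ_apply, ← Submodule.Quotient.mk_smul, Submodule.Quotient.mk_eq_zero, smul_eq_mul, ← pow_add]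
        exact Submodule.mem_span_singleton_self _)
    have hφ : Function.Injective φ := by
      rw [← LinearMap.ker_eq_bot, eq_bot_iff]
      intro w hw
      obtain ⟨a, rfl⟩ := Submodule.Quotient.mk_surjective _ w
      have hw' : ((X - C (1 : F)) ^ k : F[X]) • (Submodule.Quotient.mk a : J F (k + d)) = 0 := hw
      rw [← Submodule.Quotient.mk_smul, Submodule.Quotient.mk_eq_zero, Submodule.mem_span_singleton] at hw'
      obtain ⟨c, hc⟩ := hw'
      rw [Submodule.mem_bot, Submodule.Quotient.mk_eq_zero, Submodule.mem_span_singleton]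
      refine ⟨c, mul_left_cancel₀ (pow_ne_zero k (X_sub_C_ne_zero (1 : F))) ?_⟩
      rw [smul_eq_mul] at hc ⊢
      rw [smul_eq_mul, pow_add] at hc
      rw [← hc]
      ring
    have hr : LinearMap.range ((((X - C (1 : F)) ^ k : F[X]) •
        (LinearMap.id : J F (k + d) →ₗ[F[X]] J F (k + d))).restrictScalars F) =
        LinearMap.range (φ.restrictScalars F) := by
      refine le_antisymm ?_ ?_
      · rintro _ ⟨w, rfl⟩
        obtain ⟨a, rfl⟩ := Submodule.Quotient.mk_surjective _ w
        exact ⟨Submodule.Quotient.mk a, rfl⟩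
      · rintro _ ⟨w, rfl⟩
        obtain ⟨a, rfl⟩ := Submodule.Quotient.mk_surjective _ w
        exact ⟨Submodule.Quotient.mk a, rfl⟩
    rw [hr, LinearMap.finrank_range_of_inj (f := φ.restrictScalars F) hφ, finrank_J]
    omega

/-- The rank of the powers of `f - 1` in terms of the type. -/
theorem finrank_range_pow {V : Type u} [AddCommGroup V] [Module F V] {f : Module.End F V} {ι : Type w}
    [Fintype ι] {e : ι → ℕ} (hf : HasType f ι e) (k : ℕ) :
    finrank F (LinearMap.range ((f - 1) ^ k)) = ∑ i, (e i - k) := by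
  classical
  obtain ⟨φ⟩ := hf
  haveI : ∀ i, Module.Finite F (J F (e i)) := fun i => finite_J (e i)
  let L : V ≃ₗ[F] (∀ i, J F (e i)) := (Module.AEval'.of f).trans (φ.restrictScalars F)
  let t : ∀ i, Module.End F (J F (e i)) := fun i =>
    (((X - C (1 : F)) ^ k : F[X]) • (LinearMap.id : J F (e i) →ₗ[F[X]] J F (e i))).restrictScalars F
  have h1 : ∀ v, L (((f - 1) ^ k) v) = fun i => t i (L v i) := by
    intro v
    have h2 : Module.AEval'.of f (((f - 1) ^ k) v) =
        ((X - C (1 : F)) ^ k : F[X]) • Module.AEval'.of f v := by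
      rw [← Module.AEval.of_aeval_smul]
      simp
    show φ (Module.AEval'.of f (((f - 1) ^ k) v)) = _
    rw [h2, map_smul]
    rfl
  have hr : (LinearMap.range ((f - 1) ^ k)).map L.toLinearMap =
      Submodule.pi Set.univ fun i => LinearMap.range (t i) := by
    refine le_antisymm ?_ ?_
    · rintro _ ⟨_, ⟨v, rfl⟩, rfl⟩ i _
      exact ⟨L v i, (congrFun (h1 v) i).symm⟩
    · intro x hx
      choose y hy using fun i => LinearMap.mem_range.1 (hx i (Set.mem_univ i))
      refine ⟨((f - 1) ^ k) (L.symm y), ⟨_, rfl⟩, ?_⟩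
      show L _ = x
      rw [h1, L.apply_symm_apply]
      exact funext hy
  let E : (Submodule.pi Set.univ fun i => LinearMap.range (t i)) ≃ₗ[F] (∀ i, LinearMap.range (t i)) :=
    { toFun := fun x i => ⟨x.1 i, x.2 i (Set.mem_univ i)⟩
      invFun := fun y => ⟨fun i => y i, fun i _ => (y i).2⟩
      map_add' := fun _ _ => rfl
      map_smul' := fun _ _ => rfl }
  haveI : ∀ i, Module.Free F (LinearMap.range (t i)) := fun i => Module.Free.of_divisionRing F _
  haveI : ∀ i, Module.Finite F (LinearMap.range (t i)) := fun i => Module.Finite.range _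
  rw [← LinearEquiv.finrank_map_eq L, hr, E.finrank_eq, Module.finrank_pi_fintype]
  exact Finset.sum_congr rfl fun i _ => finrank_range_J (e i) k

theorem count_of_rank {ι : Type w} [Fintype ι] (e : ι → ℕ) (k : ℕ) (hk : 1 ≤ k) :
    ((∑ i, (e i - (k - 1))) + ∑ i, (e i - (k + 1))) =
      2 * (∑ i, (e i - k)) + Multiset.count k ((Finset.univ : Finset ι).val.map e) := by
  classical
  rw [Multiset.count_map, ← Finset.filter_val, Finset.card_val, Finset.card_filter, Finset.mul_sum,
    ← Finset.sum_add_distrib, ← Finset.sum_add_distrib]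
  refine Finset.sum_congr rfl fun i _ => ?_
  split_ifs with h <;> omega

/-- Every unipotent map has a type with positive parts. -/
theorem exists_type {V : Type u} [AddCommGroup V] [Module F V] [FiniteDimensional F V] (f : Module.End F V)
    {N : ℕ} (hf : (f - 1) ^ N = 0) :
    ∃ (ι : Type u) (_ : Fintype ι) (e : ι → ℕ), (∀ i, 0 < e i) ∧ HasType f ι e := by
  classical
  obtain ⟨ι, _, p, hp, e, ⟨φ⟩⟩ :=
    Module.equiv_directSum_of_isTorsion (R := F[X]) (M := Module.AEval' f)
      (Module.AEval.isTorsion_of_finiteDimensional F V f)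
  have hassoc : ∀ i, e i ≠ 0 → Associated (p i) (X - C (1 : F)) := by
    intro i hi
    have h0 : ∀ y : Module.AEval' f, ((X - C (1 : F)) ^ N : F[X]) • y = 0 := by
      intro y
      obtain ⟨v, rfl⟩ := (Module.AEval'.of f).surjective y
      rw [← Module.AEval.of_aeval_smul]
      simp [hf]
    have h1 := congrArg (DirectSum.component F[X] ι (fun i => F[X] ⧸ F[X] ∙ p i ^ e i) i)
      (show ((X - C (1 : F)) ^ N : F[X]) • DirectSum.lof F[X] ι (fun i => F[X] ⧸ F[X] ∙ p i ^ e i) i (Ideal.Quotient.mk _ 1) = 0 by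
        obtain ⟨y, hy⟩ := φ.surjective (DirectSum.lof F[X] ι (fun i => F[X] ⧸ F[X] ∙ p i ^ e i) i (Ideal.Quotient.mk _ 1))
        rw [← hy, ← map_smul, h0, map_zero])
    rw [map_smul, DirectSum.component.lof_self, map_zero] at h1
    change Ideal.Quotient.mk (F[X] ∙ p i ^ e i) (((X - C (1 : F)) ^ N) * 1) = 0 at h1
    rw [mul_one, Ideal.Quotient.eq_zero_iff_mem] at h1
    have h2 := (dvd_pow_self (p i) hi).trans (Ideal.mem_span_singleton.1 h1)
    exact (hp i).associated_of_dvd (irreducible_X_sub_C 1) ((hp i).prime.dvd_of_dvd_pow h2)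
  haveI : ∀ j : {i // ¬ e i ≠ 0}, Subsingleton (F[X] ⧸ F[X] ∙ p j.1 ^ e j.1) := fun j => by
    rw [Ideal.Quotient.subsingleton_iff]
    simp [show e j.1 = 0 by have := j.2; omega]
  have hspan : ∀ i : {i // e i ≠ 0}, (F[X] ∙ p i.1 ^ e i.1) = F[X] ∙ ((X - C (1 : F)) ^ e i.1) := fun i =>
    Ideal.span_singleton_eq_span_singleton.2 ((hassoc i.1 i.2).pow_pow)
  refine ⟨{i // e i ≠ 0}, inferInstance, fun i => e i.1, fun i => Nat.pos_of_ne_zero i.2,
    ⟨(φ.trans (DirectSum.linearEquivFunOnFintype F[X] ι _)).trans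
      (((LinearEquiv.ofBijective (LinearMap.pi fun i : {i // e i ≠ 0} =>
        (LinearMap.proj i.1 : (∀ j, F[X] ⧸ F[X] ∙ p j ^ e j) →ₗ[F[X]] _)) (by
          refine ⟨fun x y h => funext fun j => ?_, fun z => ?_⟩
          · by_cases hj : e j ≠ 0
            · exact congrFun h ⟨j, hj⟩
            · haveI := (inferInstance : ∀ j : {i // ¬ e i ≠ 0}, Subsingleton (F[X] ⧸ F[X] ∙ p j.1 ^ e j.1)) ⟨j, hj⟩
              exact Subsingleton.elim _ _
          · exact ⟨fun j => if hj : e j ≠ 0 then z ⟨j, hj⟩ else 0, funext fun i => dif_pos i.2⟩))).trans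
        (LinearEquiv.piCongrRight fun i => Submodule.quotEquivOfEq _ _ (hspan i)))⟩⟩

end CfsgLib.Lie.GLUnipotent
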