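/-
A non-trivial law fails in every large alternating or classical group: free subgroups of `SL₂(F[X])`
by ping-pong on degrees, specialised at a point of the field.
-/
import Mathlib

set_option autoImplicit false
set_option maxHeartbeats 1000000

namespace CfsgLib.Lie.LawFree

open scoped Matrix
open Polynomial

section Generic

variable {R S : Type*} [CommRing R] [CommRing S]

theorem det_u2 (t : R) : Matrix.det !![1, t; 0, 1] = 1 := by simp [Matrix.det_fin_two]

theorem det_v2 (t : R) : Matrix.det !![1, 0; t, 1] = 1 := by simp [Matrix.det_fin_two]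

/-- Upper unitriangular matrix. -/
def u2 (t : R) : Matrix.SpecialLinearGroup (Fin 2) R := ⟨_, det_u2 t⟩

/-- Lower unitriangular matrix. -/
def v2 (t : R) : Matrix.SpecialLinearGroup (Fin 2) R := ⟨_, det_v2 t⟩

/-- The images of the free generators. -/
def gen2 (x : R) (i : ℕ) : Matrix.SpecialLinearGroup (Fin 2) R :=
  u2 (x ^ (i + 1)) * v2 x * u2 (x ^ (i + 1)) * v2 x

theorem map_u2 (f : R →+* S) (t : R) : Matrix.SpecialLinearGroup.map f (u2 t) = u2 (f t) := by
  apply Subtype.ext
  ext i j
  change f ((u2 t).1 i j) = (u2 (f t)).1 i j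
  fin_cases i <;> fin_cases j <;> simp [u2]

theorem map_v2 (f : R →+* S) (t : R) : Matrix.SpecialLinearGroup.map f (v2 t) = v2 (f t) := by
  apply Subtype.ext
  ext i j
  change f ((v2 t).1 i j) = (v2 (f t)).1 i j
  fin_cases i <;> fin_cases j <;> simp [v2]

theorem map_gen2 (f : R →+* S) (x : R) (i : ℕ) :
    Matrix.SpecialLinearGroup.map f (gen2 x i) = gen2 (f x) i := by
  simp only [gen2, map_mul, map_u2, map_v2, map_pow]

theorem map_word (f : R →+* S) (x : R) (w : FreeGroup ℕ) :
    Matrix.SpecialLinearGroup.map f (FreeGroup.lift (gen2 x) w) = FreeGroup.lift (gen2 (f x)) w := by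
  rw [← MonoidHom.comp_apply]
  congr 1
  exact FreeGroup.ext_hom _ _ fun i => by simp [map_gen2]

/-- The non-scalarity functional of a matrix. -/
def disc (M : Matrix (Fin 2) (Fin 2) R) : R := (M 0 0 + M 0 1) - (M 1 0 + M 1 1)

theorem disc_eq_zero {M : Matrix.SpecialLinearGroup (Fin 2) R}
    (hu : Commute M (u2 1)) (hv : Commute M (v2 1)) : disc M.1 = 0 := by
  have h1 : M.1 * !![1, 1; 0, 1] = !![1, 1; 0, 1] * M.1 := by
    have h := congrArg Subtype.val hu.eq
    exact h
  have h2 : M.1 * !![1, 0; 1, 1] = !![1, 0; 1, 1] * M.1 := by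
    have h := congrArg Subtype.val hv.eq
    exact h
  have a := congrFun (congrFun h1 0) 0
  have b := congrFun (congrFun h1 0) 1
  have c := congrFun (congrFun h2 0) 0
  simp [Matrix.mul_apply, Fin.sum_univ_two] at a b c
  unfold disc
  linear_combination b + c - a

end Generic

section PingPong

variable {k : Type*} [CommRing k] [IsDomain k]

/-- Upper transvection. -/
noncomputable def au (q : k[X]) (z : k[X] × k[X]) : k[X] × k[X] := (z.1 + q * z.2, z.2)
/-- Lower transvection. -/
noncomputable def av (q : k[X]) (z : k[X] × k[X]) : k[X] × k[X] := (z.1, z.2 + q * z.1)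

/-- First coordinate dominates. -/
def DX (z : k[X] × k[X]) : Prop := z.2.natDegree < z.1.natDegree
/-- Second coordinate dominates. -/
def DY (z : k[X] × k[X]) : Prop := z.1.natDegree < z.2.natDegree

theorem au_au (q q' : k[X]) (z : k[X] × k[X]) : au q (au q' z) = au (q + q') z := by
  simp only [au]; ext1 <;> simp; ring

theorem av_av (q q' : k[X]) (z : k[X] × k[X]) : av q (av q' z) = av (q + q') z := by
  simp only [av]; ext1 <;> simp; ring

theorem au_zero (z : k[X] × k[X]) : au 0 z = z := by simp [au]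

theorem av_zero (z : k[X] × k[X]) : av 0 z = z := by simp [av]

theorem dX_au {q : k[X]} (hq : 0 < q.natDegree) {z : k[X] × k[X]} (h : DY z) : DX (au q z) := by
  unfold DY at h
  have hz : z.2 ≠ 0 := fun e => by rw [e, natDegree_zero] at h; exact Nat.not_lt_zero _ h
  have hq0 : q ≠ 0 := fun e => by rw [e, natDegree_zero] at hq; exact Nat.lt_irrefl _ hq
  have hd : (q * z.2).natDegree = q.natDegree + z.2.natDegree := natDegree_mul hq0 hz
  have hs : (z.1 + q * z.2).natDegree = (q * z.2).natDegree :=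
    natDegree_add_eq_right_of_natDegree_lt (by omega)
  show z.2.natDegree < (z.1 + q * z.2).natDegree
  omega

theorem dY_av {q : k[X]} (hq : 0 < q.natDegree) {z : k[X] × k[X]} (h : DX z) : DY (av q z) := by
  unfold DX at h
  have hz : z.1 ≠ 0 := fun e => by rw [e, natDegree_zero] at h; exact Nat.not_lt_zero _ h
  have hq0 : q ≠ 0 := fun e => by rw [e, natDegree_zero] at hq; exact Nat.lt_irrefl _ hq
  have hd : (q * z.1).natDegree = q.natDegree + z.1.natDegree := natDegree_mul hq0 hz
  have hs : (z.2 + q * z.1).natDegree = (q * z.1).natDegree :=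
    natDegree_add_eq_right_of_natDegree_lt (by omega)
  show z.1.natDegree < (z.2 + q * z.1).natDegree
  omega

theorem deg_pow (i : ℕ) : 0 < (X ^ (i + 1) : k[X]).natDegree := by rw [natDegree_X_pow]; omega

theorem deg_npow (i : ℕ) : 0 < (-X ^ (i + 1) : k[X]).natDegree := by rw [natDegree_neg]; exact deg_pow i

theorem deg_X : 0 < (X : k[X]).natDegree := by rw [natDegree_X]; exact one_pos

theorem deg_nX : 0 < (-X : k[X]).natDegree := by rw [natDegree_neg]; exact deg_X

theorem deg_sub {i j : ℕ} (h : i ≠ j) : 0 < (X ^ (i + 1) + -X ^ (j + 1) : k[X]).natDegree := by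
  rcases Nat.lt_or_gt_of_ne h with h | h
  · rw [natDegree_add_eq_right_of_natDegree_lt (by simp only [natDegree_neg, natDegree_X_pow]; omega)]
    exact deg_npow j
  · rw [natDegree_add_eq_left_of_natDegree_lt (by simp only [natDegree_neg, natDegree_X_pow]; omega)]
    exact deg_pow i

/-- The action of a letter. -/
noncomputable def step (l : ℕ × Bool) (z : k[X] × k[X]) : k[X] × k[X] :=
  if l.2 then au (X ^ (l.1 + 1)) (av X (au (X ^ (l.1 + 1)) (av X z)))
  else av (-X) (au (-X ^ (l.1 + 1)) (av (-X) (au (-X ^ (l.1 + 1)) z)))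

/-- The action of a word on the base vector. -/
noncomputable def val : List (ℕ × Bool) → k[X] × k[X]
  | [] => (1, 1)
  | l :: L => step l (val L)

/-- The shape of a value after a letter. -/
def Form (l : ℕ × Bool) (z : k[X] × k[X]) : Prop :=
  if l.2 then ∃ z1, DY z1 ∧ z = au (X ^ (l.1 + 1)) z1
  else ∃ z1, DY z1 ∧ z = av (-X) (au (-X ^ (l.1 + 1)) z1)

theorem form_val : ∀ (L : List (ℕ × Bool)) (l : ℕ × Bool), FreeGroup.IsReduced (l :: L) →
    Form l (val (k := k) (l :: L))
  | [], (i, b), _ => by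
    have h1 : DY (av X ((1, 1) : k[X] × k[X])) := by
      show (1 : k[X]).natDegree < ((1 : k[X]) + X * 1).natDegree
      rw [mul_one, natDegree_one, natDegree_add_eq_right_of_natDegree_lt (by simp), natDegree_X]
      exact one_pos
    have h2 : DX (au (-X ^ (i + 1)) ((1, 1) : k[X] × k[X])) := by
      show (1 : k[X]).natDegree < ((1 : k[X]) + -X ^ (i + 1) * 1).natDegree
      rw [mul_one, natDegree_one, natDegree_add_eq_right_of_natDegree_lt (by simp), natDegree_neg,
        natDegree_X_pow]
      omega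
    cases b
    · exact ⟨_, dY_av deg_nX h2, rfl⟩
    · exact ⟨_, dY_av deg_X (dX_au (deg_pow i) h1), rfl⟩
  | (j, b') :: L, (i, b), hred => by
    obtain ⟨hne, hr⟩ := FreeGroup.isReduced_cons_cons.1 hred
    have ih := form_val L (j, b') hr
    show Form (i, b) (step (i, b) (val ((j, b') :: L)))
    generalize val (k := k) ((j, b') :: L) = z at ih ⊢
    cases b <;> cases b' <;> obtain ⟨z1, hz1, rfl⟩ := ih <;>
      simp only [step, Form, if_true, Bool.false_eq_true, if_false]
    · exact ⟨_, dY_av deg_nX (dX_au (deg_npow i) (dY_av deg_nX (dX_au (deg_npow j) hz1))), rfl⟩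
    · refine ⟨_, dY_av deg_nX ?_, rfl⟩
      rw [au_au, add_comm]
      exact dX_au (deg_sub fun e => by simpa using hne e.symm) hz1
    · refine ⟨_, dY_av deg_X ?_, rfl⟩
      rw [av_av, add_neg_cancel, av_zero, au_au]
      exact dX_au (deg_sub fun e => by simpa using hne e) hz1
    · exact ⟨_, dY_av deg_X (dX_au (deg_pow i) (dY_av deg_X (dX_au (deg_pow j) hz1))), rfl⟩

theorem val_ne {L : List (ℕ × Bool)} (h : FreeGroup.IsReduced L) (hne : L ≠ []) :
    (val (k := k) L).1 ≠ (val (k := k) L).2 := by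
  obtain ⟨l, L, rfl⟩ := List.exists_cons_of_ne_nil hne
  intro e
  have hf := form_val (k := k) L l h
  obtain ⟨i, b⟩ := l
  generalize val (k := k) ((i, b) :: L) = z at hf e
  cases b <;> obtain ⟨z1, hz1, rfl⟩ := hf
  · have := dY_av deg_nX (dX_au (deg_npow i) hz1)
    unfold DY at this; rw [e] at this
    exact Nat.lt_irrefl _ this
  · have := dX_au (deg_pow i) hz1
    unfold DX at this; rw [e] at this
    exact Nat.lt_irrefl _ this

/-- The vector of a pair. -/
noncomputable def vec (z : k[X] × k[X]) : Fin 2 → k[X] := ![z.1, z.2]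

theorem u2_vec (q : k[X]) (z : k[X] × k[X]) : (u2 q).1 *ᵥ vec z = vec (au q z) := by
  ext i : 1
  fin_cases i <;> simp [u2, vec, au, Matrix.mulVec, dotProduct, Fin.sum_univ_two]

theorem v2_vec (q : k[X]) (z : k[X] × k[X]) : (v2 q).1 *ᵥ vec z = vec (av q z) := by
  ext i : 1
  fin_cases i <;> simp [v2, vec, av, Matrix.mulVec, dotProduct, Fin.sum_univ_two]; ring

theorem gen2_vec (i : ℕ) (z : k[X] × k[X]) : (gen2 (X : k[X]) i).1 *ᵥ vec z = vec (step (i, true) z) := by
  simp only [gen2, Matrix.SpecialLinearGroup.coe_mul, ← Matrix.mulVec_mulVec, v2_vec, u2_vec, step, if_true]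

theorem gen2_inv_vec (i : ℕ) (z : k[X] × k[X]) :
    ((gen2 (X : k[X]) i)⁻¹).1 *ᵥ vec z = vec (step (i, false) z) := by
  have h := gen2_vec i (step (i, false) z)
  have e : step (i, true) (step (i, false) z) = z := by
    simp only [step, if_true, Bool.false_eq_true, if_false, av_av, add_neg_cancel, av_zero, au_au, au_zero]
  rw [e] at h
  conv_lhs => rw [← h]
  rw [Matrix.mulVec_mulVec, ← Matrix.SpecialLinearGroup.coe_mul, inv_mul_cancel,
    Matrix.SpecialLinearGroup.coe_one, Matrix.one_mulVec]

theorem lift_vec : ∀ L : List (ℕ × Bool),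
    (FreeGroup.lift (gen2 (X : k[X])) (FreeGroup.mk L)).1 *ᵥ vec (1, 1) = vec (val L)
  | [] => by simp [FreeGroup.lift_mk, val]
  | (i, b) :: L => by
    have ih := lift_vec L
    rw [FreeGroup.lift_mk] at ih ⊢
    rw [List.map_cons, List.prod_cons, Matrix.SpecialLinearGroup.coe_mul, ← Matrix.mulVec_mulVec, ih]
    cases b
    · exact gen2_inv_vec i _
    · exact gen2_vec i _

theorem disc_ne {w : FreeGroup ℕ} (hw : w ≠ 1) : disc (FreeGroup.lift (gen2 (X : k[X])) w).1 ≠ 0 := by
  intro h
  have h1 := lift_vec (k := k) w.toWord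
  rw [FreeGroup.mk_toWord] at h1
  have e0 := congrFun h1 0
  have e1 := congrFun h1 1
  simp [vec, Matrix.mulVec, dotProduct, Fin.sum_univ_two] at e0 e1
  refine val_ne (k := k) FreeGroup.isReduced_toWord (fun e => hw (FreeGroup.toWord_eq_nil_iff.1 e)) ?_
  unfold disc at h
  linear_combination h - e0 + e1

end PingPong

/-! ### Non-commuting values of a word -/

/-- Some value of `w` fails to commute with some element. -/
def NC (w : FreeGroup ℕ) (G : Type*) [Group G] : Prop :=
  ∃ (f : ℕ → G) (g : G), ¬ Commute (FreeGroup.lift f w) g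

variable {w : FreeGroup ℕ}

theorem NC.map {G H : Type*} [Group G] [Group H] (h : NC w G) (φ : G →* H) (hφ : Function.Injective φ) :
    NC w H := by
  obtain ⟨f, g, hg⟩ := h
  refine ⟨φ ∘ f, φ g, fun hc => hg ?_⟩
  have e : FreeGroup.lift (φ ∘ f) w = φ (FreeGroup.lift f w) := by
    rw [show φ (FreeGroup.lift f w) = (φ.comp (FreeGroup.lift f)) w from rfl]
    congr 1
    exact FreeGroup.ext_hom _ _ fun i => by simp
  rw [e] at hc
  exact hφ (by rw [map_mul, map_mul]; exact hc.eq)

theorem NC.quot {G : Type*} [Group G] (h : NC w G) :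
    ∃ f : ℕ → G ⧸ Subgroup.center G, FreeGroup.lift f w ≠ 1 := by
  obtain ⟨f, g, hg⟩ := h
  refine ⟨QuotientGroup.mk' _ ∘ f, fun e => hg ?_⟩
  have e' : FreeGroup.lift (QuotientGroup.mk' (Subgroup.center G) ∘ f) w
      = QuotientGroup.mk' (Subgroup.center G) (FreeGroup.lift f w) := by
    rw [show QuotientGroup.mk' (Subgroup.center G) (FreeGroup.lift f w)
      = ((QuotientGroup.mk' (Subgroup.center G)).comp (FreeGroup.lift f)) w from rfl]
    congr 1
    exact FreeGroup.ext_hom _ _ fun i => by simp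
  rw [e'] at e
  exact (Subgroup.mem_center_iff.1 ((QuotientGroup.eq_one_iff _).1 e) g).symm

theorem NC.ne_one {G : Type*} [Group G] (h : NC w G) : ∃ f : ℕ → G, FreeGroup.lift f w ≠ 1 := by
  obtain ⟨f, g, hg⟩ := h
  exact ⟨f, fun e => hg (by rw [e]; exact Commute.one_left g)⟩

theorem NC.of_sub {G : Type*} [Group G] {K : Subgroup G} (h : NC w K) : NC w G :=
  h.map K.subtype K.subtype_injective

theorem NC.comm_map {G H : Type*} [Group G] [Group H] (h : NC w ↥(commutator G)) (φ : G →* H)
    (hφ : Function.Injective φ) : NC w ↥(commutator H) := by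
  refine h.map ((φ.comp (commutator G).subtype).codRestrict (commutator H) fun x => ?_) ?_
  · show φ (x : G) ∈ commutator H
    have hle : (commutator G).map φ ≤ commutator H := by
      rw [commutator_def, commutator_def, Subgroup.map_commutator]
      exact Subgroup.commutator_mono le_top le_top
    exact hle ⟨x, x.2, rfl⟩
  · intro a b hab
    exact Subtype.ext (hφ (congrArg Subtype.val hab))

/-! ### Specialisation in `SL₂` over a field -/

/-- The free pair of generators survives in every subgroup containing enough unitriangular elements. -/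
theorem nc_sl2 (hw : w ≠ 1) : ∃ D : ℕ, ∀ (F : Type*) [Field F] (S : Finset F)
    (H : Subgroup (Matrix.SpecialLinearGroup (Fin 2) F)), D < S.card →
    (∀ x ∈ S, ∀ n : ℕ, u2 (x ^ n) ∈ H ∧ v2 (x ^ n) ∈ H) → NC w H := by
  refine ⟨(disc (FreeGroup.lift (gen2 (X : ℤ[X])) w).1).natDegree, fun F _ S H hS hH => ?_⟩
  classical
  set P := disc (FreeGroup.lift (gen2 (X : ℤ[X])) w).1 with hP
  let c : ℤ[X] →+* F[X] := mapRingHom (Int.castRingHom F)
  have key : ∀ (R : Type _) [CommRing R] (f : ℤ[X] →+* R),
      f P = disc (FreeGroup.lift (gen2 (f X)) w).1 := by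
    intro R _ f
    rw [← map_word]
    simp only [hP, disc, map_sub, map_add]
    rfl
  have hc : c P ≠ 0 := by
    rw [key]
    simp only [c, coe_mapRingHom, map_X]
    exact disc_ne hw
  have hdeg : (c P).natDegree ≤ P.natDegree := natDegree_map_le
  obtain ⟨x, hxS, hx⟩ : ∃ x ∈ S, (c P).eval x ≠ 0 := by
    by_contra h
    simp only [not_exists, not_and, not_not] at h
    exact hc (eq_zero_of_natDegree_lt_card_of_eval_eq_zero' (c P) S h (by omega))
  have hd : disc (FreeGroup.lift (gen2 x) w).1 ≠ 0 := by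
    have e := key F ((evalRingHom x).comp c)
    simp only [c, RingHom.comp_apply, coe_mapRingHom, map_X, coe_evalRingHom, eval_X] at e
    rw [← e]
    exact hx
  have hu : ∀ n, u2 (x ^ n) ∈ H := fun n => (hH x hxS n).1
  have hv : ∀ n, v2 (x ^ n) ∈ H := fun n => (hH x hxS n).2
  have hv1 : v2 x ∈ H := by simpa using hv 1
  have hg : ∀ i, gen2 x i ∈ H := fun i =>
    mul_mem (mul_mem (mul_mem (hu _) hv1) (hu _)) hv1
  let f : ℕ → H := fun i => ⟨gen2 x i, hg i⟩
  have hf : ((FreeGroup.lift f w : H) : Matrix.SpecialLinearGroup (Fin 2) F) = FreeGroup.lift (gen2 x) w := by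
    rw [show ((FreeGroup.lift f w : H) : Matrix.SpecialLinearGroup (Fin 2) F)
      = (H.subtype.comp (FreeGroup.lift f)) w from rfl]
    congr 1
    exact FreeGroup.ext_hom _ _ fun i => by simp [f]
  have h0u : u2 (1 : F) ∈ H := by simpa using hu 0
  have h0v : v2 (1 : F) ∈ H := by simpa using hv 0
  by_cases hcu : Commute (FreeGroup.lift (gen2 x) w) (u2 1)
  · refine ⟨f, ⟨_, h0v⟩, fun h => hd (disc_eq_zero hcu ?_)⟩
    have := congrArg Subtype.val h.eq
    simp only [Subgroup.coe_mul, hf] at this
    exact this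
  · refine ⟨f, ⟨_, h0u⟩, fun h => hcu ?_⟩
    have := congrArg Subtype.val h.eq
    simp only [Subgroup.coe_mul, hf] at this
    exact this

end CfsgLib.Lie.LawFree
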