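/-
Witness subgroups for word laws in alternating and classical groups.
-/
import Cfsg.Agent.Lib.LieLawFree
import Cfsg.Prelude.Def_Classical

set_option autoImplicit false
set_option maxHeartbeats 1000000

namespace CfsgLib.Lie.LawFree

open scoped Matrix
open Matrix
open scoped commutatorElement

variable {w : FreeGroup ℕ}

/-! ### Elementary witnesses -/

section SL2

variable {F : Type*} [Field F]

theorem u2_mem_commutator {a : F} (ha : a ≠ 0) (ha2 : a ^ 2 ≠ 1) (t : F) :
    u2 t ∈ commutator (SpecialLinearGroup (Fin 2) F) ∧ v2 t ∈ commutator (SpecialLinearGroup (Fin 2) F) := by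
  let d : SpecialLinearGroup (Fin 2) F := ⟨!![a, 0; 0, a⁻¹], by simp [det_fin_two, ha]⟩
  have h1 : a ^ 2 - 1 ≠ 0 := sub_ne_zero.2 ha2
  have h2 : (a⁻¹) ^ 2 - 1 ≠ 0 := sub_ne_zero.2 (by simpa [inv_pow] using ha2)
  constructor
  · have e : d * u2 (t / (a ^ 2 - 1)) = u2 t * (u2 (t / (a ^ 2 - 1)) * d) := by
      apply Subtype.ext
      show !![a, 0; 0, a⁻¹] * !![1, t / (a ^ 2 - 1); 0, 1] =
        !![1, t; 0, 1] * (!![1, t / (a ^ 2 - 1); 0, 1] * !![a, 0; 0, a⁻¹])
      ext i j
      fin_cases i <;> fin_cases j <;> simp [Matrix.mul_apply, Fin.sum_univ_two] <;> field_simp <;> ring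
    have e' : u2 t = ⁅d, u2 (t / (a ^ 2 - 1))⁆ := by
      rw [commutatorElement_def, e]; group
    rw [e', commutator_def]
    exact Subgroup.commutator_mem_commutator (Subgroup.mem_top _) (Subgroup.mem_top _)
  · have e : d * v2 (t / ((a⁻¹) ^ 2 - 1)) = v2 t * (v2 (t / ((a⁻¹) ^ 2 - 1)) * d) := by
      apply Subtype.ext
      show !![a, 0; 0, a⁻¹] * !![1, 0; t / ((a⁻¹) ^ 2 - 1), 1] =
        !![1, 0; t, 1] * (!![1, 0; t / ((a⁻¹) ^ 2 - 1), 1] * !![a, 0; 0, a⁻¹])
      have h3 : 1 - a ^ 2 ≠ 0 := sub_ne_zero.2 (Ne.symm ha2)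
      ext i j
      fin_cases i <;> fin_cases j <;> simp [Matrix.mul_apply, Fin.sum_univ_two] <;> field_simp <;> ring
    have e' : v2 t = ⁅d, v2 (t / ((a⁻¹) ^ 2 - 1))⁆ := by
      rw [commutatorElement_def, e]; group
    rw [e', commutator_def]
    exact Subgroup.commutator_mem_commutator (Subgroup.mem_top _) (Subgroup.mem_top _)

end SL2

theorem nc_comm2 (hw : w ≠ 1) : ∃ D : ℕ, ∀ (F : Type*) [Field F] [Fintype F], D ≤ Fintype.card F →
    NC w ↥(commutator (SpecialLinearGroup (Fin 2) F)) := by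
  obtain ⟨D, hD⟩ := nc_sl2 hw
  refine ⟨D + 4, fun F _ _ hF => ?_⟩
  classical
  obtain ⟨a, -, ha⟩ : ∃ a ∈ (Finset.univ : Finset F), a ∉ ({0, 1, -1} : Finset F) := by
    refine Finset.exists_mem_notMem_of_card_lt_card ?_
    have : ({0, 1, -1} : Finset F).card ≤ 3 := Finset.card_le_three
    rw [Finset.card_univ]
    omega
  simp only [Finset.mem_insert, Finset.mem_singleton, not_or] at ha
  have ha2 : a ^ 2 ≠ 1 := fun h => by
    rcases sq_eq_one_iff.1 h with e | e
    · exact ha.2.1 e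
    · exact ha.2.2 e
  exact hD F Finset.univ _ (by rw [Finset.card_univ]; omega) fun x _ n => u2_mem_commutator ha.1 ha2 _

/-! ### Alternating witnesses -/

section Alt

/-- Doubled left regular representation. -/
noncomputable def dblHom (H : Type*) [Group H] [Fintype H] [DecidableEq H] {n : ℕ} {κ : Type*}
    [Fintype κ] [DecidableEq κ] (e : (H ⊕ H) ⊕ κ ≃ Fin n) : H →* alternatingGroup (Fin n) where
  toFun h := ⟨e.permCongr (Equiv.sumCongr (Equiv.sumCongr (Equiv.mulLeft h) (Equiv.mulLeft h)) 1), by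
    rw [Equiv.Perm.mem_alternatingGroup, Equiv.Perm.sign_permCongr, Equiv.Perm.sign_sumCongr,
      Equiv.Perm.sign_sumCongr, map_one, mul_one, Int.units_mul_self]⟩
  map_one' := Subtype.ext <| Equiv.ext fun x => by
    obtain ⟨y, rfl⟩ := e.surjective x
    rcases y with (y | y) | y <;> simp
  map_mul' a b := Subtype.ext <| Equiv.ext fun x => by
    obtain ⟨y, rfl⟩ := e.surjective x
    rcases y with (y | y) | y <;> simp [mul_assoc]

theorem dblHom_injective (H : Type*) [Group H] [Fintype H] [DecidableEq H] {n : ℕ} {κ : Type*}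
    [Fintype κ] [DecidableEq κ] (e : (H ⊕ H) ⊕ κ ≃ Fin n) : Function.Injective (dblHom H e) := by
  intro a b h
  have h' := congrArg (fun σ : alternatingGroup (Fin n) => (σ : Equiv.Perm (Fin n)) (e (Sum.inl (Sum.inl 1)))) h
  simpa [dblHom] using h'

end Alt

theorem nc_alt (hw : w ≠ 1) : ∃ N : ℕ, ∀ n : ℕ, N ≤ n → NC w ↥(commutator (alternatingGroup (Fin n))) := by
  obtain ⟨D, hD⟩ := nc_comm2.{0} hw
  obtain ⟨p, hp, hpp⟩ := Nat.exists_infinite_primes D
  haveI : Fact p.Prime := ⟨hpp⟩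
  have h0 := hD (ZMod p) (by rw [ZMod.card]; exact hp)
  classical
  letI : Fintype (SpecialLinearGroup (Fin 2) (ZMod p)) := Fintype.ofFinite _
  refine ⟨2 * Fintype.card (SpecialLinearGroup (Fin 2) (ZMod p)), fun n hn => ?_⟩
  have hc : Fintype.card ((SpecialLinearGroup (Fin 2) (ZMod p) ⊕ SpecialLinearGroup (Fin 2) (ZMod p)) ⊕
      Fin (n - 2 * Fintype.card (SpecialLinearGroup (Fin 2) (ZMod p)))) = Fintype.card (Fin n) := by
    rw [Fintype.card_sum, Fintype.card_sum, Fintype.card_fin, Fintype.card_fin]; omega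
  exact h0.comm_map _ (dblHom_injective _ (Fintype.equivOfCardEq hc))

/-! ### Matrix homomorphisms -/

section Mat

variable {ι κ : Type*} [Fintype ι] [DecidableEq ι] [Fintype κ] [DecidableEq κ] {R : Type*} [CommRing R]

/-- Identity block in front. -/
def blkR (κ : Type*) [Fintype κ] [DecidableEq κ] : Matrix ι ι R →* Matrix (κ ⊕ ι) (κ ⊕ ι) R where
  toFun X := fromBlocks 1 0 0 X
  map_one' := fromBlocks_one
  map_mul' X Y := by rw [fromBlocks_multiply]; simp

/-- Identity block behind. -/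
def blkL (κ : Type*) [Fintype κ] [DecidableEq κ] : Matrix ι ι R →* Matrix (ι ⊕ κ) (ι ⊕ κ) R where
  toFun X := fromBlocks X 0 0 1
  map_one' := fromBlocks_one
  map_mul' X Y := by rw [fromBlocks_multiply]; simp

theorem blkR_injective : Function.Injective (blkR κ : Matrix ι ι R →* _) := fun X Y h => by
  simpa [blkR] using congrArg toBlocks₂₂ h

theorem blkL_injective : Function.Injective (blkL κ : Matrix ι ι R →* _) := fun X Y h => by
  simpa [blkL] using congrArg toBlocks₁₁ h

/-- Even permutations as matrices of determinant one. -/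
def pmSL : alternatingGroup ι →* SpecialLinearGroup ι R where
  toFun σ := ⟨permMatrixHom (σ : Equiv.Perm ι), by
    rw [permMatrixHom_apply, det_permutation, Equiv.Perm.sign_inv, Equiv.Perm.mem_alternatingGroup.1 σ.2]
    simp⟩
  map_one' := Subtype.ext (by simp)
  map_mul' a b := Subtype.ext (map_mul permMatrixHom (a : Equiv.Perm ι) (b : Equiv.Perm ι))

theorem pmSL_mulVec (σ : alternatingGroup ι) (v : ι → R) :
    (pmSL σ : SpecialLinearGroup ι R).1 *ᵥ v = v ∘ ⇑(σ : Equiv.Perm ι)⁻¹ := by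
  show permMatrixHom (σ : Equiv.Perm ι) *ᵥ v = _
  rw [permMatrixHom_apply, permMatrix_mulVec]

theorem pmSL_injective [Nontrivial R] : Function.Injective (pmSL : alternatingGroup ι →* SpecialLinearGroup ι R) := by
  intro a b h
  refine Subtype.ext (inv_injective (Equiv.ext fun i => ?_))
  have h1 := congrFun ((pmSL_mulVec a (Pi.single ((a : Equiv.Perm ι)⁻¹ i) (1 : R))).symm.trans
    (h ▸ pmSL_mulVec b (Pi.single ((a : Equiv.Perm ι)⁻¹ i) (1 : R)))) i
  simp only [Function.comp_apply, Pi.single_eq_same] at h1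
  by_contra hne
  rw [Pi.single_eq_of_ne (Ne.symm hne)] at h1
  exact one_ne_zero h1

/-- A special linear matrix as a block, via an equivalence of index types. -/
def blkSL {κ' : Type*} [Fintype κ'] [DecidableEq κ'] (e : ι ⊕ κ ≃ κ') : SpecialLinearGroup ι R →* SpecialLinearGroup κ' R where
  toFun A := ⟨Matrix.reindex e e (fromBlocks A.1 0 0 1), by
    rw [det_reindex_self, det_fromBlocks_zero₂₁, A.2, det_one, mul_one]⟩
  map_one' := Subtype.ext (by simp [fromBlocks_one])
  map_mul' A B := Subtype.ext (by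
    show Matrix.reindex e e (fromBlocks (A.1 * B.1) 0 0 1) =
      Matrix.reindex e e (fromBlocks A.1 0 0 1) * Matrix.reindex e e (fromBlocks B.1 0 0 1)
    simp only [reindex_apply, submatrix_mul_equiv, fromBlocks_multiply]
    simp)

theorem blkSL_injective {κ' : Type*} [Fintype κ'] [DecidableEq κ'] (e : ι ⊕ κ ≃ κ') :
    Function.Injective (blkSL e : SpecialLinearGroup ι R →* _) := fun A B h => by
  have h' := congrArg Subtype.val h
  have h2 := congrArg toBlocks₁₁ ((Matrix.reindex e e).injective h')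
  rw [toBlocks_fromBlocks₁₁, toBlocks_fromBlocks₁₁] at h2
  exact Subtype.ext h2

/-- The Levi embedding of `SL`. -/
def levM : SpecialLinearGroup ι R →* Matrix (ι ⊕ ι) (ι ⊕ ι) R where
  toFun A := fromBlocks A.1 0 0 (A⁻¹).1ᵀ
  map_one' := by simp [fromBlocks_one]
  map_mul' A B := by
    rw [fromBlocks_multiply, _root_.mul_inv_rev, Matrix.SpecialLinearGroup.coe_mul,
      Matrix.SpecialLinearGroup.coe_mul, transpose_mul]
    simp

theorem levM_injective : Function.Injective (levM : SpecialLinearGroup ι R →* _) := fun A B h =>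
  Subtype.ext (by simpa [levM] using congrArg toBlocks₁₁ h)

theorem lev_dot (A : SpecialLinearGroup ι R) (x y : ι → R) :
    (A.1 *ᵥ x) ⬝ᵥ ((A⁻¹).1ᵀ *ᵥ y) = x ⬝ᵥ y := by
  rw [mulVec_transpose, dotProduct_comm, ← dotProduct_mulVec, mulVec_mulVec,
    ← Matrix.SpecialLinearGroup.coe_mul, inv_mul_cancel, Matrix.SpecialLinearGroup.coe_one, one_mulVec,
    dotProduct_comm]

end Mat

theorem nc_sl (hw : w ≠ 1) : ∃ N : ℕ, ∀ (F : Type) [Field F] [Fintype F] (m : ℕ), 2 ≤ m →
    (N ≤ m ∨ N ≤ Fintype.card F) → NC w ↥(commutator (SpecialLinearGroup (Fin m) F)) := by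
  obtain ⟨D, hD⟩ := nc_comm2.{0} hw
  obtain ⟨N, hN⟩ := nc_alt hw
  refine ⟨max D N, fun F _ _ m hm h => ?_⟩
  rcases h with h | h
  · exact (hN m (le_trans (le_max_right _ _) h)).comm_map pmSL pmSL_injective
  · let e : Fin 2 ⊕ Fin (m - 2) ≃ Fin m := finSumFinEquiv.trans (finCongr (by omega))
    exact (hD F (le_trans (le_max_left _ _) h)).comm_map (blkSL e) (blkSL_injective e)

/-! ### The classical targets -/

section Targets

variable {F : Type} [Field F] {m : ℕ}

theorem quadPlus_dot (v : Fin m ⊕ Fin m → F) :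
    Cfsg.quadFormPlus m F v = (v ∘ Sum.inl) ⬝ᵥ (v ∘ Sum.inr) := rfl

theorem quadPlus_lev (A : SpecialLinearGroup (Fin m) F) (v : Fin m ⊕ Fin m → F) :
    Cfsg.quadFormPlus m F (levM A *ᵥ v) = Cfsg.quadFormPlus m F v := by
  rw [quadPlus_dot, quadPlus_dot]
  show ((fromBlocks A.1 0 0 (A⁻¹).1ᵀ *ᵥ v) ∘ Sum.inl) ⬝ᵥ ((fromBlocks A.1 0 0 (A⁻¹).1ᵀ *ᵥ v) ∘ Sum.inr) = _
  rw [fromBlocks_mulVec, Sum.elim_comp_inl, Sum.elim_comp_inr]
  simp only [zero_mulVec, add_zero, zero_add]
  exact lev_dot A _ _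

/-- Into the isometry group of the plus form. -/
def toOPlus : SpecialLinearGroup (Fin m) F →* ↥(Cfsg.isometryGroup F (Cfsg.quadFormPlus m F)) :=
  (levM (ι := Fin m) (R := F)).toHomUnits.codRestrict (Cfsg.isometryGroup F (Cfsg.quadFormPlus m F)) fun A u _ => quadPlus_lev A u

/-- Into the isometry group of the odd form. -/
def toOOdd : SpecialLinearGroup (Fin m) F →* ↥(Cfsg.isometryGroup F (Cfsg.quadFormOdd m F)) :=
  ((blkR Unit).comp (levM (ι := Fin m) (R := F))).toHomUnits.codRestrict (Cfsg.isometryGroup F (Cfsg.quadFormOdd m F)) fun A u _ => by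
    show Cfsg.quadFormOdd m F (fromBlocks 1 0 0 (levM A) *ᵥ u) = Cfsg.quadFormOdd m F u
    have h := quadPlus_lev A (u ∘ Sum.inr)
    unfold Cfsg.quadFormPlus at h
    rw [fromBlocks_mulVec]
    simp only [Cfsg.quadFormOdd, Sum.elim_inl, Sum.elim_inr, one_mulVec, zero_mulVec, add_zero, zero_add,
      Function.comp_apply] at h ⊢
    rw [h]

/-- Into the isometry group of the minus form. -/
def toOMinus (a b : F) : SpecialLinearGroup (Fin m) F →* ↥(Cfsg.isometryGroup F (Cfsg.quadFormMinus m F a b)) :=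
  ((blkL (Fin 2)).comp (levM (ι := Fin m) (R := F))).toHomUnits.codRestrict (Cfsg.isometryGroup F (Cfsg.quadFormMinus m F a b)) fun A u _ => by
    show Cfsg.quadFormMinus m F a b (fromBlocks (levM A) 0 0 1 *ᵥ u) = Cfsg.quadFormMinus m F a b u
    have h := quadPlus_lev A (u ∘ Sum.inl)
    unfold Cfsg.quadFormPlus at h
    rw [fromBlocks_mulVec]
    simp only [Cfsg.quadFormMinus, Sum.elim_inl, Sum.elim_inr, one_mulVec, zero_mulVec, add_zero, zero_add,
      Function.comp_apply] at h ⊢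
    rw [h]

theorem toOPlus_injective : Function.Injective (toOPlus : SpecialLinearGroup (Fin m) F →* _) := fun A B h =>
  levM_injective (congrArg (fun g => (g : Matrix.GeneralLinearGroup (Fin m ⊕ Fin m) F).1) (congrArg Subtype.val h))

theorem toOOdd_injective : Function.Injective (toOOdd : SpecialLinearGroup (Fin m) F →* _) := fun A B h =>
  levM_injective (blkR_injective (κ := Unit)
    (congrArg (fun g => (g : Matrix.GeneralLinearGroup (Unit ⊕ (Fin m ⊕ Fin m)) F).1) (congrArg Subtype.val h)))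

theorem toOMinus_injective (a b : F) :
    Function.Injective (toOMinus a b : SpecialLinearGroup (Fin m) F →* _) := fun A B h =>
  levM_injective (blkL_injective (κ := Fin 2)
    (congrArg (fun g => (g : Matrix.GeneralLinearGroup ((Fin m ⊕ Fin m) ⊕ Fin 2) F).1) (congrArg Subtype.val h)))

/-- Into the symplectic group. -/
def toSp : SpecialLinearGroup (Fin m) F →* ↥(Matrix.symplecticGroup (Fin m) F) :=
  levM.codRestrict _ fun A => by
    rw [SymplecticGroup.mem_iff]
    show fromBlocks A.1 0 0 (A⁻¹).1ᵀ * Matrix.J (Fin m) F * (fromBlocks A.1 0 0 (A⁻¹).1ᵀ)ᵀ = Matrix.J (Fin m) F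
    rw [fromBlocks_transpose, Matrix.J, fromBlocks_multiply, fromBlocks_multiply, transpose_transpose]
    simp only [transpose_zero, Matrix.zero_mul, Matrix.mul_zero, add_zero, zero_add, Matrix.mul_neg,
      Matrix.neg_mul, Matrix.mul_one, neg_zero]
    rw [← Matrix.SpecialLinearGroup.coe_mul, mul_inv_cancel, Matrix.SpecialLinearGroup.coe_one,
      ← transpose_mul, ← Matrix.SpecialLinearGroup.coe_mul, mul_inv_cancel, Matrix.SpecialLinearGroup.coe_one,
      transpose_one]

theorem toSp_injective : Function.Injective (toSp : SpecialLinearGroup (Fin m) F →* _) := fun A B h =>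
  levM_injective (congrArg Subtype.val h)

end Targets

/-! ### Unitary groups -/

theorem nc_su (hw : w ≠ 1) : ∃ N : ℕ, ∀ (F : Type) [Field F] [Fintype F] (n q : ℕ),
    Fintype.card F = q ^ 2 → 2 ≤ n → (N ≤ n ∨ N ≤ q) → NC w ↥(Cfsg.SU n F q) := by
  obtain ⟨D, hD⟩ := nc_sl2.{0} hw
  obtain ⟨N, hN⟩ := nc_alt hw
  refine ⟨max (D + 3) N, fun F _ _ n q hq hn h => ?_⟩
  classical
  rcases h with h | h
  · refine ((hN n (le_trans (le_max_right _ _) h)).of_sub).map
      (pmSL.codRestrict (Cfsg.SU n F q) fun σ u v => ?_) fun a b hab =>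
        pmSL_injective (congrArg Subtype.val hab)
    show Cfsg.hermForm n F q ((pmSL σ : SpecialLinearGroup (Fin n) F).1 *ᵥ u) ((pmSL σ : SpecialLinearGroup (Fin n) F).1 *ᵥ v) = _
    rw [pmSL_mulVec, pmSL_mulVec]
    exact Equiv.sum_comp ((σ : Equiv.Perm (Fin n))⁻¹) (fun i => u i * v i ^ q)
  have hq3 : D + 3 ≤ q := le_trans (le_max_left _ _) h
  obtain ⟨p, hpc⟩ := CharP.exists F
  obtain ⟨k, hpp, hk⟩ := FiniteField.card F p
  obtain ⟨f, -, hf⟩ : ∃ f, f ≤ (k : ℕ) ∧ q = p ^ f :=
    (Nat.dvd_prime_pow hpp).1 ⟨q, by rw [← hk, hq]; ring⟩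
  haveI : Fact p.Prime := ⟨hpp⟩
  let σ : F →+* F := iterateFrobenius F p f
  have hσ : ∀ x, σ x = x ^ q := fun x => by rw [hf]; exact iterateFrobenius_def p f x
  have hσσ : ∀ x, σ (σ x) = x := fun x => by
    rw [hσ, hσ, ← pow_mul, ← sq, ← hq, FiniteField.pow_card]
  obtain ⟨g, hg⟩ := IsCyclic.exists_monoid_generator (α := Fˣ)
  have hog : orderOf g = q ^ 2 - 1 := by
    rw [orderOf_eq_card_of_forall_mem_zpowers (fun x => by
      obtain ⟨j, hj⟩ := hg x; exact ⟨j, by simpa using hj⟩), Nat.card_eq_fintype_card, Fintype.card_units, hq]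
  have hsplit : q ^ 2 - 1 = (q - 1) * (q + 1) := by
    obtain ⟨j, rfl⟩ : ∃ j, q = j + 1 := ⟨q - 1, by omega⟩
    simp only [add_tsub_cancel_right]
    have : (j + 1) ^ 2 = j * (j + 1 + 1) + 1 := by ring
    omega
  -- many fixed elements
  have hog' : orderOf (g ^ (q + 1)) = q - 1 := by
    rw [orderOf_pow_of_dvd (by omega) (by rw [hog, hsplit]; exact dvd_mul_left _ _), hog, hsplit,
      Nat.mul_div_cancel _ (by omega : 0 < q + 1)]
  let S : Finset F := Finset.univ.filter fun x => σ x = x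
  have hS : D < S.card := by
    have hsub : (Finset.range (q - 1)).image (fun j => (((g ^ (q + 1)) ^ j : Fˣ) : F)) ⊆ S := by
      intro x hx
      obtain ⟨j, -, rfl⟩ := Finset.mem_image.1 hx
      refine Finset.mem_filter.2 ⟨Finset.mem_univ _, ?_⟩
      rw [hσ, ← Units.val_pow_eq_pow_val]
      congr 1
      have h1 : (g ^ (q + 1)) ^ (q - 1) = 1 := by rw [← hog', pow_orderOf_eq_one]
      rw [← pow_mul, mul_comm j q, pow_mul]
      congr 1
      calc (g ^ (q + 1)) ^ q = (g ^ (q + 1)) ^ ((q - 1) + 1) := by rw [Nat.sub_add_cancel (by omega)]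
        _ = g ^ (q + 1) := by rw [pow_succ, h1, one_mul]
    have hcard := Finset.card_le_card hsub
    rw [Finset.card_image_of_injOn, Finset.card_range] at hcard
    · omega
    · intro a ha b hb hab
      simp only [Finset.coe_range, Set.mem_Iio] at ha hb
      exact pow_injOn_Iio_orderOf (by rw [hog']; exact ha) (by rw [hog']; exact hb) (Units.ext hab)
  -- the change of basis
  obtain ⟨y, hy⟩ : ∃ y : F, σ y ≠ y := by
    by_contra hall
    simp only [not_exists, not_not] at hall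
    have h1 : (Polynomial.X ^ q - Polynomial.X : Polynomial F) = 0 :=
      Polynomial.eq_zero_of_natDegree_lt_card_of_eval_eq_zero' _ Finset.univ
        (fun x _ => by simp [← hσ, hall x]) (by
          rw [Finset.card_univ, hq, Polynomial.natDegree_sub_eq_left_of_natDegree_lt (by simp; omega)]
          simp only [Polynomial.natDegree_X_pow]
          nlinarith)
    have h2 := congrArg (fun P => Polynomial.coeff P q) h1
    simp [Polynomial.coeff_X, show (1 : ℕ) ≠ q by omega] at h2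
  obtain ⟨c, hc⟩ : ∃ c : F, c * σ c = -1 := by
    by_cases h2 : (-1 : F) = 1
    · exact ⟨1, by rw [map_one, mul_one, h2]⟩
    have hodd : Odd q := by
      rcases Nat.even_or_odd q with he | ho
      · exfalso
        rw [hf, Nat.even_pow] at he
        haveI : CharP F 2 := (((Nat.prime_dvd_prime_iff_eq Nat.prime_two hpp).1 (even_iff_two_dvd.1 he.1)) ▸ hpc)
        exact h2 (CharTwo.neg_eq 1)
      · exact ho
    obtain ⟨j, hj⟩ := hodd
    refine ⟨((g ^ j : Fˣ) : F), ?_⟩
    rw [hσ, ← pow_succ', ← Units.val_pow_eq_pow_val, ← pow_mul]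
    set z := g ^ (j * (q + 1)) with hz
    have hz2 : z * z = 1 := by
      rw [hz, ← pow_add, show j * (q + 1) + j * (q + 1) = orderOf g by rw [hog, hsplit, hj, show 2 * j + 1 - 1 = 2 * j by omega]; ring,
        pow_orderOf_eq_one]
    have hz1 : z ≠ 1 := by
      refine pow_ne_one_of_lt_orderOf ?_ ?_
      · exact Nat.mul_ne_zero (by omega) (by omega)
      · rw [hog, hsplit]
        exact Nat.mul_lt_mul_of_pos_right (by omega) (by omega)
    have hzF : (z : F) * (z : F) = 1 := by rw [← Units.val_mul, hz2, Units.val_one]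
    rcases mul_self_eq_one_iff.1 hzF with e | e
    · exact absurd (Units.ext (by rw [e, Units.val_one])) hz1
    · exact e
  set T : Matrix (Fin 2) (Fin 2) F := !![1, c; y, c * σ y] with hT
  have hc0 : c ≠ 0 := fun e => by simp [e] at hc
  have hTdet : T.det = c * (σ y - y) := by rw [hT, det_fin_two_of]; ring
  have hTu : IsUnit T.det := by rw [hTdet]; exact isUnit_iff_ne_zero.2 (mul_ne_zero hc0 (sub_ne_zero.2 hy))
  set ε := (σ y - y)⁻¹ with hε
  have hεy : ε * (σ y - y) = 1 := inv_mul_cancel₀ (sub_ne_zero.2 hy)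
  let hh : (Fin 2 → F) → (Fin 2 → F) → F := fun u v => ε * (u 0 * σ (v 1) - u 1 * σ (v 0))
  have hTh : ∀ u v : Fin 2 → F, hh (T *ᵥ u) (T *ᵥ v) = u 0 * σ (v 0) + u 1 * σ (v 1) := by
    intro u v
    simp only [hh, hT, Matrix.mulVec, dotProduct, Fin.sum_univ_two]
    simp [hσσ]
    linear_combination (u 0 * σ (v 0) - c * σ c * u 1 * σ (v 1)) * hεy - (u 1 * σ (v 1)) * hc
  let K : Subgroup (SpecialLinearGroup (Fin 2) F) :=
    MonoidHom.eqLocus (SpecialLinearGroup.map σ) (MonoidHom.id _)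
  have hK : ∀ A ∈ K, ∀ i j, σ (A.1 i j) = A.1 i j := fun A hA i j => congrFun (congrFun (congrArg Subtype.val hA) i) j
  have hncK : NC w K := hD F S K hS fun x hx j => by
    have hx' : σ x = x := (Finset.mem_filter.1 hx).2
    exact ⟨(map_u2 σ _).trans (by rw [map_pow, hx']; rfl), (map_v2 σ _).trans (by rw [map_pow, hx']; rfl)⟩
  let conj : SpecialLinearGroup (Fin 2) F →* SpecialLinearGroup (Fin 2) F :=
    { toFun := fun A => ⟨T⁻¹ * A.1 * T, by rw [det_conj' ((isUnit_iff_isUnit_det T).2 hTu), A.2]⟩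
      map_one' := Subtype.ext (by simp [nonsing_inv_mul T hTu])
      map_mul' := fun A B => Subtype.ext (by
        show T⁻¹ * (A.1 * B.1) * T = T⁻¹ * A.1 * T * (T⁻¹ * B.1 * T)
        rw [show T⁻¹ * A.1 * T * (T⁻¹ * B.1 * T) = T⁻¹ * A.1 * (T * T⁻¹) * B.1 * T by simp only [Matrix.mul_assoc],
          mul_nonsing_inv T hTu, Matrix.mul_one]
        simp only [Matrix.mul_assoc]) }
  let e : Fin 2 ⊕ Fin (n - 2) ≃ Fin n := finSumFinEquiv.trans (finCongr (by omega))
  refine hncK.map (((blkSL e).comp (conj.comp K.subtype)).codRestrict (Cfsg.SU n F q) fun A u v => ?_)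
    fun A B hAB => ?_
  · set B := conj (K.subtype A) with hB
    show Cfsg.hermForm n F q ((Matrix.reindex e e (fromBlocks B.1 0 0 1)) *ᵥ u)
      ((Matrix.reindex e e (fromBlocks B.1 0 0 1)) *ᵥ v) = Cfsg.hermForm n F q u v
    have h2 : ∀ x x' : Fin 2 → F,
        ∑ i, (B.1 *ᵥ x) i * σ ((B.1 *ᵥ x') i) = ∑ i, x i * σ (x' i) := by
      intro x x'
      simp only [Fin.sum_univ_two]
      rw [← hTh, ← hTh, show B.1 = T⁻¹ * (A : SpecialLinearGroup (Fin 2) F).1 * T from rfl,
        mulVec_mulVec, mulVec_mulVec, ← Matrix.mul_assoc, ← Matrix.mul_assoc, mul_nonsing_inv T hTu,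
        Matrix.one_mul, ← mulVec_mulVec, ← mulVec_mulVec]
      generalize T *ᵥ x = a, T *ᵥ x' = a'
      have hdet := (A : SpecialLinearGroup (Fin 2) F).2
      rw [det_fin_two] at hdet
      simp only [hh, Matrix.mulVec, dotProduct, Fin.sum_univ_two, map_add, map_mul, hK _ A.2]
      linear_combination ε * (a 0 * σ (a' 1) - a 1 * σ (a' 0)) * hdet
    have h3 : ∀ z : Fin n → F, (Matrix.reindex e e (fromBlocks B.1 0 0 1)) *ᵥ z
        = (Sum.elim (B.1 *ᵥ (z ∘ e ∘ Sum.inl)) (z ∘ e ∘ Sum.inr)) ∘ e.symm := by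
      intro z
      rw [reindex_apply, submatrix_mulVec_equiv, Equiv.symm_symm, fromBlocks_mulVec]
      simp only [zero_mulVec, add_zero, zero_add, one_mulVec, Function.comp_assoc]
    simp only [Cfsg.hermForm, ← hσ]
    rw [h3, h3, ← e.sum_comp, ← e.sum_comp (fun i => u i * σ (v i)), Fintype.sum_sum_type, Fintype.sum_sum_type]
    simp only [Function.comp_apply, Equiv.symm_apply_apply, Sum.elim_inl, Sum.elim_inr]
    congr 1
    exact h2 _ _
  · have h1 := blkSL_injective e (congrArg Subtype.val hAB)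
    refine Subtype.ext (Subtype.ext ?_)
    have h2 := congrArg (fun M => T * M * T⁻¹) (congrArg Subtype.val h1)
    change T * (T⁻¹ * _ * T) * T⁻¹ = T * (T⁻¹ * _ * T) * T⁻¹ at h2
    simpa [Matrix.mul_assoc, mul_nonsing_inv T hTu, mul_nonsing_inv_cancel_left _ _ hTu] using h2

/-! ### The order bound -/

theorem card_quot_le {Γ : Type*} [Group Γ] [Finite Γ] {ι : Type} [Fintype ι] {F : Type} [Fintype F]
    (f : Γ → Matrix ι ι F) (hf : Function.Injective f) {K : ℕ} (hι : Fintype.card ι ≤ K)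
    (hF : Fintype.card F ≤ K) (Z : Subgroup Γ) : Nat.card (Γ ⧸ Z) ≤ (K + 1) ^ (K * K) := by
  classical
  refine (Nat.card_le_card_of_surjective _ Quotient.mk''_surjective).trans
    ((Nat.card_le_card_of_injective f hf).trans ?_)
  rw [Nat.card_eq_fintype_card, show Fintype.card (Matrix ι ι F) = Fintype.card (ι → ι → F) from rfl,
    Fintype.card_fun, Fintype.card_fun, ← pow_mul]
  exact (Nat.pow_le_pow_left (hF.trans (Nat.le_succ K)) _).trans
    (Nat.pow_le_pow_right (Nat.succ_pos K) (Nat.mul_le_mul hι hι))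

theorem law_bound {G Γ : Type*} [Group G] [Group Γ] (e : G ≃* Γ ⧸ Subgroup.center Γ)
    (hlaw : ∀ f : ℕ → G, FreeGroup.lift f w = 1) (h : NC w Γ) : False := by
  obtain ⟨f, hf⟩ := h.quot
  apply hf
  have h1 := hlaw (fun i => e.symm (f i))
  have h2 : FreeGroup.lift f w = (e.toMonoidHom.comp (FreeGroup.lift fun i => e.symm (f i))) w := by
    congr 1
    exact FreeGroup.ext_hom _ _ fun i => by simp
  rw [h2, MonoidHom.comp_apply, h1, map_one]

end CfsgLib.Lie.LawFree
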