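/-
Generation of special linear groups by three conjugate regular unipotent elements.
-/
import Cfsg.Agent.Lib.LieSpecPSL
import Cfsg.Agent.Lib.ClassicalSL

set_option autoImplicit false
set_option maxHeartbeats 400000

namespace CfsgLib.Spec

open Matrix

variable {F : Type*} [Field F] {n : ℕ}

/-! ### Transvections in a subgroup -/

/-- The subgroup contains the transvection given by a vector and a linear form. -/
def HasTV (H : Subgroup (Matrix.SpecialLinearGroup (Fin n) F)) (p φ : Fin n → F) : Prop :=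
  φ ⬝ᵥ p = 0 ∧ ∃ g ∈ H, (g : Matrix (Fin n) (Fin n) F) = 1 + vecMulVec p φ

variable {H : Subgroup (Matrix.SpecialLinearGroup (Fin n) F)}

theorem tv_mul {p q φ ψ : Fin n → F} (h : φ ⬝ᵥ q = 0) :
    (1 + vecMulVec p φ) * (1 + vecMulVec q ψ) = 1 + vecMulVec p φ + vecMulVec q ψ := by
  rw [Matrix.add_mul, Matrix.one_mul, Matrix.mul_add, Matrix.mul_one, vecMulVec_mul_vecMulVec, h]
  simp [vecMulVec_zero, zero_vecMulVec]
  abel

theorem det_tv {p φ : Fin n → F} (h : φ ⬝ᵥ p = 0) : (1 + vecMulVec p φ).det = 1 := by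
  rw [vecMulVec_eq Unit, Matrix.det_one_add_replicateCol_mul_replicateRow, h, add_zero]

theorem HasTV.zero (φ : Fin n → F) : HasTV H 0 φ :=
  ⟨dotProduct_zero _, 1, one_mem H, by simp [zero_vecMulVec]⟩

theorem HasTV.add_left {p q φ : Fin n → F} (h : HasTV H p φ) (h' : HasTV H q φ) : HasTV H (p + q) φ := by
  obtain ⟨h0, g, hg, eg⟩ := h
  obtain ⟨h0', g', hg', eg'⟩ := h'
  refine ⟨by rw [dotProduct_add, h0, h0', add_zero], g * g', mul_mem hg hg', ?_⟩
  rw [Matrix.SpecialLinearGroup.coe_mul, eg, eg', tv_mul h0', add_vecMulVec, add_assoc]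

theorem HasTV.add_right {p φ ψ : Fin n → F} (h : HasTV H p φ) (h' : HasTV H p ψ) : HasTV H p (φ + ψ) := by
  obtain ⟨h0, g, hg, eg⟩ := h
  obtain ⟨h0', g', hg', eg'⟩ := h'
  refine ⟨by rw [add_dotProduct, h0, h0', add_zero], g * g', mul_mem hg hg', ?_⟩
  rw [Matrix.SpecialLinearGroup.coe_mul, eg, eg', tv_mul h0, vecMulVec_add, add_assoc]

theorem inv_of_tv {p φ : Fin n → F} (h : φ ⬝ᵥ p = 0) {g : Matrix.SpecialLinearGroup (Fin n) F}
    (hg : (g : Matrix (Fin n) (Fin n) F) = 1 + vecMulVec p φ) :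
    ((g⁻¹ : Matrix.SpecialLinearGroup (Fin n) F) : Matrix (Fin n) (Fin n) F) = 1 + vecMulVec (-p) φ := by
  let g' : Matrix.SpecialLinearGroup (Fin n) F :=
    ⟨1 + vecMulVec (-p) φ, det_tv (by rw [dotProduct_neg, h, neg_zero])⟩
  have : g * g' = 1 := Subtype.ext (by
    rw [Matrix.SpecialLinearGroup.coe_mul, hg, Matrix.SpecialLinearGroup.coe_one]
    show (1 + vecMulVec p φ) * (1 + vecMulVec (-p) φ) = 1
    rw [tv_mul (by rw [dotProduct_neg, h, neg_zero]), neg_vecMulVec]
    abel)
  rw [inv_eq_of_mul_eq_one_right this]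

theorem HasTV.neg {p φ : Fin n → F} (h : HasTV H p φ) : HasTV H (-p) φ := by
  obtain ⟨h0, g, hg, eg⟩ := h
  exact ⟨by rw [dotProduct_neg, h0, neg_zero], g⁻¹, inv_mem hg, inv_of_tv h0 eg⟩

theorem HasTV.conj {p φ : Fin n → F} (h : HasTV H p φ) {x : Matrix.SpecialLinearGroup (Fin n) F} (hx : x ∈ H) :
    HasTV H ((x : Matrix (Fin n) (Fin n) F) *ᵥ p)
      (φ ᵥ* ((x⁻¹ : Matrix.SpecialLinearGroup (Fin n) F) : Matrix (Fin n) (Fin n) F)) := by
  obtain ⟨h0, g, hg, eg⟩ := h
  refine ⟨?_, x * g * x⁻¹, mul_mem (mul_mem hx hg) (inv_mem hx), ?_⟩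
  · rw [← dotProduct_mulVec, mulVec_mulVec, ← Matrix.SpecialLinearGroup.coe_mul, inv_mul_cancel,
      Matrix.SpecialLinearGroup.coe_one, one_mulVec, h0]
  · rw [Matrix.SpecialLinearGroup.coe_mul, Matrix.SpecialLinearGroup.coe_mul, eg, Matrix.mul_add,
      Matrix.mul_one, Matrix.add_mul, ← Matrix.SpecialLinearGroup.coe_mul, mul_inv_cancel,
      Matrix.SpecialLinearGroup.coe_one, mul_vecMulVec, vecMulVec_mul]

/-- The commutator of two transvections. -/
theorem HasTV.comm {p φ b ψ : Fin n → F} (h : HasTV H p φ) (h' : HasTV H b ψ) (hψ : ψ ⬝ᵥ p = 0) :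
    HasTV H ((φ ⬝ᵥ b) • p) ψ := by
  obtain ⟨h0, g, hg, eg⟩ := h
  have h1 := h'.conj hg
  rw [inv_of_tv h0 eg, eg, add_mulVec, one_mulVec, vecMulVec_mulVec, vecMul_add, vecMul_one,
    vecMul_vecMulVec, dotProduct_neg, hψ] at h1
  simp only [op_smul_eq_smul, neg_zero, zero_smul, add_zero] at h1
  have h2 := h1.add_left h'.neg
  rwa [add_neg_cancel_comm] at h2

/-- The full group of transvections with a given linear form. -/
def FullTV (H : Subgroup (Matrix.SpecialLinearGroup (Fin n) F)) (φ : Fin n → F) : Prop :=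
  ∀ p, φ ⬝ᵥ p = 0 → HasTV H p φ

theorem fullTV_zero : FullTV H (0 : Fin n → F) := fun p _ =>
  ⟨zero_dotProduct _, 1, one_mem H, by simp [vecMulVec_zero]⟩

theorem FullTV.smul {φ : Fin n → F} (h : FullTV H φ) (c : F) : FullTV H (c • φ) := by
  intro p hp
  rcases eq_or_ne c 0 with rfl | hc
  · rw [zero_smul]; exact fullTV_zero p (zero_dotProduct _)
  · rw [smul_dotProduct, smul_eq_mul] at hp
    have hp' : φ ⬝ᵥ p = 0 := (mul_eq_zero.1 hp).resolve_left hc
    obtain ⟨-, g, hg, eg⟩ := h (c • p) (by rw [dotProduct_smul, hp', smul_zero])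
    exact ⟨by rw [smul_dotProduct, hp', smul_zero], g, hg, by rw [eg, smul_vecMulVec, vecMulVec_smul]⟩

theorem FullTV.conj {φ : Fin n → F} (h : FullTV H φ) {x : Matrix.SpecialLinearGroup (Fin n) F} (hx : x ∈ H) :
    FullTV H (φ ᵥ* ((x⁻¹ : Matrix.SpecialLinearGroup (Fin n) F) : Matrix (Fin n) (Fin n) F)) := by
  intro p hp
  rw [← dotProduct_mulVec] at hp
  have := (h _ hp).conj hx
  rwa [mulVec_mulVec, ← Matrix.SpecialLinearGroup.coe_mul, mul_inv_cancel, Matrix.SpecialLinearGroup.coe_one,
    one_mulVec] at this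

theorem FullTV.add {φ ψ : Fin n → F} (h : FullTV H φ) (h' : FullTV H ψ) : FullTV H (φ + ψ) := by
  classical
  by_cases hr : ∃ r, ψ ⬝ᵥ r = 0 ∧ φ ⬝ᵥ r ≠ 0
  · obtain ⟨r, hr0, hr1⟩ := hr
    obtain ⟨-, g, hg, eg⟩ := h' ((-(φ ⬝ᵥ r)⁻¹) • r) (by rw [dotProduct_smul, hr0, smul_zero])
    have h0 : ψ ⬝ᵥ ((-(φ ⬝ᵥ r)⁻¹) • r) = 0 := by rw [dotProduct_smul, hr0, smul_zero]
    have := h.conj hg
    rw [inv_of_tv h0 eg, vecMul_add, vecMul_one, vecMul_vecMulVec, dotProduct_neg, dotProduct_smul,
      smul_eq_mul, neg_mul, inv_mul_cancel₀ hr1, neg_neg, one_smul] at this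
    exact this
  · push Not at hr
    by_cases hψ : ψ = 0
    · rw [hψ, add_zero]; exact h
    · obtain ⟨i, hi⟩ : ∃ i, ψ i ≠ 0 := by
        by_contra hc
        push Not at hc
        exact hψ (funext hc)
      set v : Fin n → F := Pi.single i (ψ i)⁻¹ with hv
      have hv1 : ψ ⬝ᵥ v = 1 := by rw [hv, dotProduct_single, mul_inv_cancel₀ hi]
      have e : φ = (φ ⬝ᵥ v) • ψ := by
        funext j
        have h2 := hr (Pi.single j 1 - (ψ j) • v)
          (by rw [dotProduct_sub, dotProduct_single, mul_one, dotProduct_smul, hv1, smul_eq_mul, mul_one, sub_self])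
        rw [dotProduct_sub, dotProduct_single, mul_one, dotProduct_smul, sub_eq_zero] at h2
        rw [h2, Pi.smul_apply, smul_eq_mul, smul_eq_mul, mul_comm]
      rw [e, show (φ ⬝ᵥ v) • ψ + ψ = (φ ⬝ᵥ v + 1) • ψ by rw [add_smul, one_smul]]
      exact h'.smul _

/-! ### The three elements -/

/-- The standard basis vectors, indexed by natural numbers. -/
def ev (n : ℕ) (F : Type*) [Zero F] [One F] (k : ℕ) : Fin n → F := fun i => if (i : ℕ) = k then 1 else 0

theorem ev_eq_single {k : ℕ} (hk : k < n) : ev n F k = Pi.single ⟨k, hk⟩ 1 := by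
  funext i
  simp [ev, Pi.single_apply, Fin.ext_iff]

theorem ev_of_le {k : ℕ} (hk : n ≤ k) : ev n F k = 0 := by
  funext i
  simp [ev, show (i : ℕ) ≠ k by have := i.isLt; omega]

theorem ev_dot {k : ℕ} (hk : k < n) (p : Fin n → F) : ev n F k ⬝ᵥ p = p ⟨k, hk⟩ := by
  rw [ev_eq_single hk, single_dotProduct, one_mul]

theorem ev_dot_ev {j k : ℕ} (h : j ≠ k) : ev n F j ⬝ᵥ ev n F k = 0 := by
  refine Finset.sum_eq_zero fun i _ => ?_
  simp only [ev]
  split_ifs <;> simp_all

theorem shift_mulVec_succ {k : ℕ} (hk : k + 1 < n) : shiftTo n n F *ᵥ ev n F (k + 1) = ev n F k := by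
  funext i
  rw [ev_eq_single hk, mulVec_single_one]
  simp [Matrix.col, shiftTo, ev, hk, eq_comm]

theorem shift_mulVec_zero : shiftTo n n F *ᵥ ev n F 0 = 0 := by
  rcases Nat.eq_zero_or_pos n with rfl | hn
  · funext i; exact i.elim0
  funext i
  rw [ev_eq_single hn, mulVec_single_one]
  simp [Matrix.col, shiftTo]

theorem ev_vecMul_shift (k : ℕ) (hk : k < n) : ev n F k ᵥ* shiftTo n n F = ev n F (k + 1) := by
  funext i
  rw [ev_eq_single hk, single_one_vecMul]
  simp [Matrix.row, shiftTo, ev, eq_comm]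

/-- The matrix of the reversal permutation. -/
def revMat (n : ℕ) (F : Type*) [Zero F] [One F] : Matrix (Fin n) (Fin n) F :=
  Matrix.of fun i j => if (i : ℕ) + j + 1 = n then 1 else 0

theorem revMat_mul_self : revMat n F * revMat n F = 1 := by
  ext i j
  rw [Matrix.mul_apply]
  have h : n - 1 - (i : ℕ) < n := by have := i.isLt; omega
  rw [Finset.sum_eq_single ⟨n - 1 - (i : ℕ), h⟩]
  · simp only [revMat, Matrix.of_apply]
    rw [if_pos (by have := i.isLt; omega), one_mul, Matrix.one_apply]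
    refine if_congr ?_ rfl rfl
    rw [Fin.ext_iff]
    have := i.isLt
    omega
  · intro b _ hb
    simp only [revMat, Matrix.of_apply]
    rw [if_neg (fun e => hb (Fin.ext (by simp only; omega))), zero_mul]
  · simp

theorem revMat_mulVec {k : ℕ} (hk : k < n) : revMat n F *ᵥ ev n F k = ev n F (n - 1 - k) := by
  funext i
  rw [ev_eq_single hk, mulVec_single_one]
  simp only [Matrix.col, revMat, ev, Matrix.transpose_apply, Matrix.of_apply]
  exact if_congr (by omega) rfl rfl

theorem exists_rev (hn : 2 ≤ n) : ∃ (w : Matrix.SpecialLinearGroup (Fin n) F) (ε : ℕ → F), (∀ k, ε k ≠ 0) ∧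
    ∀ k, k < n → (w : Matrix (Fin n) (Fin n) F) *ᵥ ev n F k = ε k • ev n F (n - 1 - k) := by
  classical
  have hd : (revMat n F).det * (revMat n F).det = 1 := by rw [← Matrix.det_mul, revMat_mul_self, Matrix.det_one]
  set ε : ℕ → F := fun k => if k = 0 then (revMat n F).det else 1 with hε
  have hdet : (revMat n F * Matrix.diagonal fun i : Fin n => ε i).det = 1 := by
    rw [Matrix.det_mul, Matrix.det_diagonal, Finset.prod_eq_single ⟨0, by omega⟩]
    · simpa [hε] using hd
    · intro b _ hb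
      simp [hε, show (b : ℕ) ≠ 0 from fun e => hb (Fin.ext e)]
    · simp
  refine ⟨⟨_, hdet⟩, ε, fun k => ?_, fun k hk => ?_⟩
  · simp only [hε]
    split_ifs
    · exact left_ne_zero_of_mul (hd.trans_ne one_ne_zero)
    · exact one_ne_zero
  · show (revMat n F * Matrix.diagonal fun i : Fin n => ε i) *ᵥ ev n F k = _
    rw [← mulVec_mulVec]
    have : (Matrix.diagonal fun i : Fin n => ε i) *ᵥ ev n F k = ε k • ev n F k := by
      funext i
      rw [mulVec_diagonal]
      simp only [ev, Pi.smul_apply, smul_eq_mul]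
      split_ifs with h
      · rw [h]
      · simp
    rw [this, mulVec_smul, revMat_mulVec hk]

theorem regular_shift (hn : 2 ≤ n) :
    IsNilpotent (shiftTo n n F) ∧ shiftTo n n F ^ (n - 1) ≠ 0 := by
  obtain ⟨m, rfl⟩ : ∃ m, n = m + 2 := ⟨n - 2, by omega⟩
  refine ⟨⟨m + 1 + 1, ?_⟩, fun h => ?_⟩
  · ext i j
    rw [shiftTo_pow, if_neg (by have := j.isLt; omega)]
    rfl
  · have := congrFun (congrFun h ⟨0, by omega⟩) ⟨m + 1, by omega⟩
    rw [show m + 2 - 1 = m + 1 by omega, shiftTo_pow] at this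
    simp at this

/-- Three conjugate regular unipotent elements generate. -/
theorem sl_three_regular_generate [Fintype F] (hn : 3 ≤ n) :
    ∃ u g h : Matrix.SpecialLinearGroup (Fin n) F, (u : Matrix (Fin n) (Fin n) F) = 1 + shiftTo n n F ∧
      Subgroup.closure ({u, g * u * g⁻¹, h * u * h⁻¹} : Set (Matrix.SpecialLinearGroup (Fin n) F)) = ⊤ := by
  classical
  let u : Matrix.SpecialLinearGroup (Fin n) F := ⟨_, det_one_add_shiftTo (F := F) n⟩
  have hu : (u : Matrix (Fin n) (Fin n) F) = 1 + shiftTo n n F := rfl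
  obtain ⟨w, ε, hε, hw⟩ := exists_rev (F := F) (n := n) (by omega)
  set v := w * u * w⁻¹ with hv
  have hwinv : ∀ k, k < n → ((w⁻¹ : Matrix.SpecialLinearGroup (Fin n) F) : Matrix (Fin n) (Fin n) F) *ᵥ ev n F k =
      (ε (n - 1 - k))⁻¹ • ev n F (n - 1 - k) := by
    intro k hk
    have h := congrArg (fun p => ((w⁻¹ : Matrix.SpecialLinearGroup (Fin n) F) : Matrix (Fin n) (Fin n) F) *ᵥ p)
      (hw (n - 1 - k) (by omega))
    simp only [mulVec_mulVec, ← Matrix.SpecialLinearGroup.coe_mul, inv_mul_cancel,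
      Matrix.SpecialLinearGroup.coe_one, one_mulVec, mulVec_smul] at h
    rw [show n - 1 - (n - 1 - k) = k by omega] at h
    rw [h, smul_smul, inv_mul_cancel₀ (hε _), one_smul]
  -- the lower triangular action
  set c : ℕ → F := fun k => (ε (n - 1 - k))⁻¹ * ε (n - 2 - k) with hc
  have hc0 : ∀ k, c k ≠ 0 := fun k => mul_ne_zero (inv_ne_zero (hε _)) (hε _)
  have hve : ∀ k, k + 1 < n →
      (v : Matrix (Fin n) (Fin n) F) *ᵥ ev n F k = ev n F k + c k • ev n F (k + 1) := by
    intro k hk
    rw [hv, Matrix.SpecialLinearGroup.coe_mul, Matrix.SpecialLinearGroup.coe_mul, ← mulVec_mulVec,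
      ← mulVec_mulVec, hwinv k (by omega), mulVec_smul, mulVec_smul, hu, add_mulVec, one_mulVec]
    have hj : n - 1 - k = n - 2 - k + 1 := by omega
    simp only [hc]
    rw [hj, shift_mulVec_succ (by omega), mulVec_add, hw (n - 2 - k + 1) (by omega), hw (n - 2 - k) (by omega),
      show n - 1 - (n - 2 - k + 1) = k by omega, show n - 1 - (n - 2 - k) = k + 1 by omega, smul_add, smul_smul,
      smul_smul, inv_mul_cancel₀ (hε _), one_smul]
  -- the last form seen from the first vector
  set φ : Fin n → F := ev n F (n - 1) ᵥ* ((v⁻¹ : Matrix.SpecialLinearGroup (Fin n) F) : Matrix (Fin n) (Fin n) F)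
    with hφ
  have hφ0 : φ ⬝ᵥ ev n F 0 ≠ 0 := by
    rw [hφ, ← dotProduct_mulVec, hv, show (w * u * w⁻¹)⁻¹ = w * u⁻¹ * w⁻¹ by group,
      Matrix.SpecialLinearGroup.coe_mul, Matrix.SpecialLinearGroup.coe_mul, ← mulVec_mulVec, ← mulVec_mulVec,
      hwinv 0 (by omega), Nat.sub_zero, mulVec_smul, mulVec_smul, dotProduct_smul]
    set x := ((u⁻¹ : Matrix.SpecialLinearGroup (Fin n) F) : Matrix (Fin n) (Fin n) F) *ᵥ ev n F (n - 1) with hx
    have hux : x + shiftTo n n F *ᵥ x = ev n F (n - 1) := by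
      have : (u : Matrix (Fin n) (Fin n) F) *ᵥ x = ev n F (n - 1) := by
        rw [hx, mulVec_mulVec, ← Matrix.SpecialLinearGroup.coe_mul, mul_inv_cancel,
          Matrix.SpecialLinearGroup.coe_one, one_mulVec]
      rwa [hu, add_mulVec, one_mulVec] at this
    have hrec : ∀ d, d < n → x ⟨n - 1 - d, by omega⟩ ≠ 0 := by
      intro d
      induction d with
      | zero =>
        intro _ h0
        have h := congrFun hux ⟨n - 1, by omega⟩
        simp only [Pi.add_apply, Nat.sub_zero] at h0 h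
        rw [h0, zero_add] at h
        simp only [mulVec, dotProduct, shiftTo, Matrix.of_apply, ite_mul, one_mul, zero_mul, ev, if_true] at h
        rw [Finset.sum_eq_zero (fun b _ => if_neg (fun e => by have := b.isLt; omega))] at h
        exact zero_ne_one h
      | succ d ih =>
        intro hd h0
        have h := congrFun hux ⟨n - 1 - (d + 1), by omega⟩
        simp only [Pi.add_apply] at h
        rw [h0, zero_add] at h
        simp only [mulVec, dotProduct, shiftTo, Matrix.of_apply, ite_mul, one_mul, zero_mul, ev] at h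
        rw [if_neg (show ¬ n - 1 - (d + 1) = n - 1 by omega),
          Finset.sum_eq_single ⟨n - 1 - d, by omega⟩, if_pos ⟨show n - 1 - d = n - 1 - (d + 1) + 1 by omega,
            show n - 1 - d < n by omega⟩] at h
        · exact ih (by omega) h
        · intro b _ hb
          exact if_neg (fun e => hb (Fin.ext (by have := e.1; simp only at this ⊢; omega)))
        · simp
    have hx0 : x ⟨0, by omega⟩ ≠ 0 := by
      have := hrec (n - 1) (by omega)
      simpa using this
    have hwx : ev n F (n - 1) ⬝ᵥ ((w : Matrix (Fin n) (Fin n) F) *ᵥ x) = ε 0 * x ⟨0, by omega⟩ := by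
      have hexp : x = ∑ j : Fin n, x j • ev n F j := by
        funext i
        rw [Finset.sum_apply]
        simp [ev, Fin.val_inj]
      conv_lhs => rw [hexp]
      rw [mulVec_sum, dotProduct_sum, Finset.sum_eq_single ⟨0, by omega⟩]
      · rw [mulVec_smul, dotProduct_smul, hw 0 (by omega), dotProduct_smul, Nat.sub_zero, ev_dot (by omega),
          smul_eq_mul, smul_eq_mul]
        simp [ev]
        ring
      · intro b _ hb
        have hb' : (b : ℕ) ≠ 0 := fun e => hb (Fin.ext e)
        rw [mulVec_smul, dotProduct_smul, hw b b.isLt, dotProduct_smul,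
          ev_dot_ev (by omega), smul_zero, smul_zero]
      · simp
    rw [hwx, smul_eq_mul]
    exact mul_ne_zero (inv_ne_zero (hε _)) (mul_ne_zero (hε _) hx0)
  obtain ⟨ω, hω⟩ := IsCyclic.exists_generator (α := Fˣ)
  set K := (φ ⬝ᵥ ev n F 0) * c 0 with hK
  have hK0 : K ≠ 0 := mul_ne_zero hφ0 (hc0 0)
  set a : F := (ω : F) * K⁻¹ with ha
  -- the conjugate differing by a root element
  have hy : (1 + vecMulVec (a • ev n F 0) (ev n F 1)).det = 1 :=
    det_tv (by rw [dotProduct_smul, ev_dot_ev (by omega), smul_zero])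
  let y : Matrix.SpecialLinearGroup (Fin n) F := ⟨_, hy⟩
  set H : Subgroup (Matrix.SpecialLinearGroup (Fin n) F) :=
    Subgroup.closure {u, y * u * y⁻¹, w * u * w⁻¹} with hH
  have huH : u ∈ H := Subgroup.subset_closure (by simp)
  have hvH : v ∈ H := Subgroup.subset_closure (by simp [hv])
  have hue0 : (u : Matrix (Fin n) (Fin n) F) *ᵥ ev n F 0 = ev n F 0 := by
    rw [hu, add_mulVec, one_mulVec, shift_mulVec_zero, add_zero]
  have hu'e0 : ((u⁻¹ : Matrix.SpecialLinearGroup (Fin n) F) : Matrix (Fin n) (Fin n) F) *ᵥ ev n F 0 = ev n F 0 := by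
    conv_lhs => rw [← hue0]
    rw [mulVec_mulVec, ← Matrix.SpecialLinearGroup.coe_mul, inv_mul_cancel,
      Matrix.SpecialLinearGroup.coe_one, one_mulVec]
  have h13 : HasTV H (a • ev n F 0) (ev n F 2) := by
    refine ⟨by rw [dotProduct_smul, ev_dot_ev (by omega), smul_zero], u⁻¹ * (y * u * y⁻¹),
      mul_mem (inv_mem huH) (Subgroup.subset_closure (by simp)), ?_⟩
    have hyu : ((y * u * y⁻¹ : Matrix.SpecialLinearGroup (Fin n) F) : Matrix (Fin n) (Fin n) F) =
        (u : Matrix (Fin n) (Fin n) F) + vecMulVec (a • ev n F 0) (ev n F 2) := by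
      rw [Matrix.SpecialLinearGroup.coe_mul, Matrix.SpecialLinearGroup.coe_mul,
        inv_of_tv (by rw [dotProduct_smul, ev_dot_ev (by omega), smul_zero]) (rfl : (y : Matrix (Fin n) (Fin n) F) = _),
        hu]
      have e1 : ev n F 1 ᵥ* shiftTo n n F = ev n F 2 := ev_vecMul_shift 1 (by omega)
      have e2 : shiftTo n n F *ᵥ (-(a • ev n F 0)) = 0 := by
        rw [mulVec_neg, mulVec_smul, shift_mulVec_zero, smul_zero, neg_zero]
      have e3 : ev n F 2 ⬝ᵥ (-(a • ev n F 0)) = 0 := by
        rw [dotProduct_neg, dotProduct_smul, ev_dot_ev (by omega), smul_zero, neg_zero]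
      have e4 : ev n F 1 ⬝ᵥ (-(a • ev n F 0)) = 0 := by
        rw [dotProduct_neg, dotProduct_smul, ev_dot_ev (by omega), smul_zero, neg_zero]
      show (1 + vecMulVec (a • ev n F 0) (ev n F 1)) * (1 + shiftTo n n F) *
        (1 + vecMulVec (-(a • ev n F 0)) (ev n F 1)) = _
      have hX : (1 + vecMulVec (a • ev n F 0) (ev n F 1)) * (1 + shiftTo n n F) =
          1 + shiftTo n n F + (vecMulVec (a • ev n F 0) (ev n F 1) + vecMulVec (a • ev n F 0) (ev n F 2)) := by
        rw [Matrix.add_mul, Matrix.one_mul, Matrix.mul_add, Matrix.mul_one, vecMulVec_mul, e1]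
      rw [hX, Matrix.mul_add, Matrix.mul_one, mul_vecMulVec]
      have hXq : (1 + shiftTo n n F + (vecMulVec (a • ev n F 0) (ev n F 1) + vecMulVec (a • ev n F 0) (ev n F 2))) *ᵥ
          (-(a • ev n F 0)) = -(a • ev n F 0) := by
        rw [add_mulVec, add_mulVec, add_mulVec, one_mulVec, e2, vecMulVec_mulVec, vecMulVec_mulVec, e3, e4]
        simp
      rw [hXq, neg_vecMulVec]
      abel
    rw [Matrix.SpecialLinearGroup.coe_mul, hyu, Matrix.mul_add, ← Matrix.SpecialLinearGroup.coe_mul,
      inv_mul_cancel, Matrix.SpecialLinearGroup.coe_one, mul_vecMulVec, mulVec_smul, hu'e0]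
  -- move the form to the last coordinate
  have h1n : HasTV H (a • ev n F 0) (ev n F (n - 1)) := by
    have : ∀ j, j + 2 < n → HasTV H (a • ev n F 0) (ev n F (j + 2)) := by
      intro j
      induction j with
      | zero => exact fun _ => h13
      | succ j ih =>
        intro hj
        have h := ih (by omega)
        have h1 := h.conj (inv_mem huH)
        rw [inv_inv, mulVec_smul, hu'e0, hu, vecMul_add, vecMul_one, ev_vecMul_shift _ (by omega)] at h1
        have h2 := h.neg
        obtain ⟨h20, g2, hg2, eg2⟩ := h2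
        have h2' : HasTV H (a • ev n F 0) (-ev n F (j + 2)) :=
          ⟨by rw [neg_dotProduct, h.1, neg_zero], g2, hg2, by rw [eg2, neg_vecMulVec, vecMulVec_neg]⟩
        have h3 := h1.add_right h2'
        rwa [add_neg_cancel_comm] at h3
    have := this (n - 3) (by omega)
    rwa [show n - 3 + 2 = n - 1 by omega] at this
  -- scalars
  let S : Set F := {t | HasTV H (t • ev n F 0) (ev n F (n - 1))}
  have hstep : ∀ t ∈ S, (ω : F) * t ∈ S := by
    intro t ht
    have h1 := (HasTV.conj ht hvH)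
    rw [mulVec_smul, hve 0 (by omega), zero_add] at h1
    have hψ : ev n F (n - 1) ⬝ᵥ (t • (ev n F 0 + c 0 • ev n F 1)) = 0 := by
      rw [dotProduct_smul, dotProduct_add, dotProduct_smul, ev_dot_ev (by omega), ev_dot_ev (by omega),
        smul_zero, add_zero, smul_zero]
    have h2 := h1.comm h1n hψ
    rw [← hφ, dotProduct_smul, smul_eq_mul] at h2
    have h3 := h2.conj huH
    have hu1 : ev n F (n - 1) ᵥ* ((u⁻¹ : Matrix.SpecialLinearGroup (Fin n) F) : Matrix (Fin n) (Fin n) F) =
        ev n F (n - 1) := by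
      conv_lhs => rw [show ev n F (n - 1) = ev n F (n - 1) ᵥ* (u : Matrix (Fin n) (Fin n) F) by
        rw [hu, vecMul_add, vecMul_one, ev_vecMul_shift (n - 1) (by omega), ev_of_le (k := n - 1 + 1) (by omega), add_zero]]
      rw [vecMul_vecMul, ← Matrix.SpecialLinearGroup.coe_mul, mul_inv_cancel,
        Matrix.SpecialLinearGroup.coe_one, vecMul_one]
    rw [hu1] at h3
    have h4 := h3.add_left h2.neg
    have e : (u : Matrix (Fin n) (Fin n) F) *ᵥ ((a * (φ ⬝ᵥ ev n F 0)) • t • (ev n F 0 + c 0 • ev n F 1)) +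
        -((a * (φ ⬝ᵥ ev n F 0)) • t • (ev n F 0 + c 0 • ev n F 1)) = ((ω : F) * t) • ev n F 0 := by
      rw [hu, add_mulVec, one_mulVec, add_neg_cancel_comm, mulVec_smul, mulVec_smul, mulVec_add, mulVec_smul,
        shift_mulVec_zero, zero_add, show shiftTo n n F *ᵥ ev n F 1 = ev n F 0 from shift_mulVec_succ (k := 0) (by omega),
        smul_smul, smul_smul]
      congr 1
      have hc' := hc0 0
      rw [ha, hK]
      field_simp
    rw [e] at h4
    exact h4
  have hS : ∀ t, t ∈ S := by
    intro t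
    rcases eq_or_ne t 0 with rfl | ht
    · show HasTV H _ _
      rw [zero_smul]; exact HasTV.zero _
    · obtain ⟨j, hj⟩ := (mem_powers_iff_mem_zpowers).2 (hω (Units.mk0 (t * a⁻¹)
        (mul_ne_zero ht (inv_ne_zero (by rw [ha]; exact mul_ne_zero ω.ne_zero (inv_ne_zero hK0))))))
      have hj' : (ω : F) ^ j = t * a⁻¹ := by
        have := congrArg Units.val hj
        simpa using this
      have : ∀ j : ℕ, (ω : F) ^ j * a ∈ S := by
        intro j
        induction j with
        | zero => rw [pow_zero, one_mul]; exact h1n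
        | succ j ih => rw [pow_succ', mul_assoc]; exact hstep _ ih
      have h := this j
      rwa [hj', inv_mul_cancel_right₀ (by rw [ha]; exact mul_ne_zero ω.ne_zero (inv_ne_zero hK0))] at h
  -- all columns
  have hcol : ∀ j, j + 1 < n → ∀ t : F, HasTV H (t • ev n F j) (ev n F (n - 1)) := by
    intro j
    induction j with
    | zero => exact fun _ => hS
    | succ j ih =>
      intro hj t
      set s := t / (c j * (φ ⬝ᵥ ev n F 0)) with hs
      have h1 := (ih (by omega) s).conj hvH
      rw [mulVec_smul, hve j (by omega)] at h1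
      have hψ : ev n F (n - 1) ⬝ᵥ (s • (ev n F j + c j • ev n F (j + 1))) = 0 := by
        rw [dotProduct_smul, dotProduct_add, dotProduct_smul, ev_dot_ev (by omega), ev_dot_ev (by omega),
          smul_zero, add_zero, smul_zero]
      have hb : HasTV H ((1 : F) • ev n F 0) (ev n F (n - 1)) := hS 1
      have h2 := h1.comm hb hψ
      rw [← hφ, one_smul] at h2
      have h3 := h2.add_left ((ih (by omega) ((φ ⬝ᵥ ev n F 0) * s)).neg)
      have e : (φ ⬝ᵥ ev n F 0) • s • (ev n F j + c j • ev n F (j + 1)) +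
          -(((φ ⬝ᵥ ev n F 0) * s) • ev n F j) = t • ev n F (j + 1) := by
        rw [smul_smul, smul_add, smul_smul, add_neg_cancel_comm]
        congr 1
        rw [hs]
        have := hc0 j
        field_simp
      rwa [e] at h3
  have hfull : FullTV H (ev n F (n - 1)) := by
    intro p hp
    rw [ev_dot (by omega)] at hp
    have hexp : p = ∑ j : Fin n, p j • ev n F (j : ℕ) := by
      funext i
      rw [Finset.sum_apply]
      simp [ev, Fin.val_inj]
    rw [hexp]
    refine Finset.sum_induction _ (fun q => HasTV H q (ev n F (n - 1))) (fun _ _ => HasTV.add_left)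
      (HasTV.zero _) fun j _ => ?_
    by_cases hj : (j : ℕ) + 1 < n
    · exact hcol j hj _
    · have : j = ⟨n - 1, by omega⟩ := Fin.ext (by have := j.isLt; simp only; omega)
      rw [this, hp, zero_smul]
      exact HasTV.zero _
  have hrow : ∀ d, d < n → FullTV H (ev n F (n - 1 - d)) := by
    intro d
    induction d with
    | zero => exact fun _ => hfull
    | succ d ih =>
      intro hd
      have h1 := ih (by omega)
      have h2 := h1.conj (inv_mem hvH)
      rw [inv_inv] at h2
      set k := n - 1 - (d + 1) with hk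
      have hk1 : n - 1 - d = k + 1 := by omega
      rw [hk1] at h1 h2
      have e : ev n F (k + 1) ᵥ* (v : Matrix (Fin n) (Fin n) F) = ev n F (k + 1) + c k • ev n F k := by
        funext i
        have hi := i.isLt
        have hl : (ev n F (k + 1) ᵥ* (v : Matrix (Fin n) (Fin n) F)) i =
            ((v : Matrix (Fin n) (Fin n) F) *ᵥ ev n F i) ⟨k + 1, by omega⟩ := by
          rw [ev_eq_single (k := k + 1) (by omega), ev_eq_single hi, single_one_vecMul, mulVec_single_one]
          rfl
        rw [hl]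
        by_cases hlast : (i : ℕ) + 1 < n
        · rw [hve i hlast]
          simp only [Pi.add_apply, Pi.smul_apply, ev, smul_eq_mul]
          by_cases h : (i : ℕ) = k
          · rw [h]; simp
          · simp [h, show ¬ k = (i : ℕ) from fun e => h e.symm, eq_comm]
        · have hvl : (v : Matrix (Fin n) (Fin n) F) *ᵥ ev n F i = ev n F i := by
            rw [hv, Matrix.SpecialLinearGroup.coe_mul, Matrix.SpecialLinearGroup.coe_mul, ← mulVec_mulVec,
              ← mulVec_mulVec, hwinv i hi, mulVec_smul, mulVec_smul, show n - 1 - (i : ℕ) = 0 by omega, hue0,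
              hw 0 (by omega), smul_smul, inv_mul_cancel₀ (hε _), one_smul, Nat.sub_zero,
              show n - 1 = (i : ℕ) by omega]
          rw [hvl]
          simp [ev, show ¬ (i : ℕ) = k by omega, eq_comm]
      rw [e] at h2
      have h3 := (h2.add (h1.smul (-1))).smul (c k)⁻¹
      rwa [neg_one_smul, add_neg_cancel_comm, smul_smul, inv_mul_cancel₀ (hc0 k), one_smul] at h3
  refine ⟨u, y, w, hu, ?_⟩
  haveI : Nontrivial (Fin n) := Fin.nontrivial_iff_two_le.2 (by omega)
  refine CfsgLib.Classical.sl_eq_top_of_transvection fun i j hij t => ?_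
  have hj := hrow (n - 1 - j) (by have := j.isLt; omega)
  rw [show n - 1 - (n - 1 - (j : ℕ)) = j by have := j.isLt; omega] at hj
  obtain ⟨-, g, hg, eg⟩ := hj (t • ev n F i)
    (by rw [dotProduct_smul, ev_dot_ev (fun e => hij (Fin.ext e.symm)), smul_zero])
  have : Matrix.SpecialLinearGroup.transvection hij t = g := by
    apply Subtype.ext
    rw [eg, Matrix.SpecialLinearGroup.transvection_coe, ev_eq_single i.isLt, ev_eq_single j.isLt]
    simp only [Matrix.transvection, smul_vecMulVec, add_right_inj]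
    ext a b
    by_cases h1 : i = a <;> by_cases h2 : j = b <;> simp [h1, h2, vecMulVec_apply, Pi.single_apply, eq_comm]
  rw [this]
  exact hg

end CfsgLib.Spec
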