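/-
Class numbers of the Borel subgroup and of the normaliser of the diagonal subgroup in SL(2, q), q odd,
by counting commuting pairs.
-/
import Mathlib.LinearAlgebra.Matrix.SpecialLinearGroup
import Mathlib.GroupTheory.GroupAction.CardCommute
import Mathlib.FieldTheory.Finite.Basic
import Cfsg.Prelude.Def_ParabolicCharacters

set_option autoImplicit false
set_option linter.unusedSectionVars false

namespace CfsgLib.Lie.SLTwoCount

open Matrix

variable {F : Type*} [Field F] [Fintype F] [DecidableEq F]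

theorem card_sq_one (h2 : (2 : F) ≠ 0) : Nat.card {a : Fˣ // a ^ 2 = 1} = 2 := by
  rw [Nat.card_eq_two_iff]
  refine ⟨⟨1, one_pow 2⟩, ⟨-1, by simp⟩, ?_, ?_⟩
  · intro e
    have e' : (1 : F) = -1 := congrArg (fun x : {a : Fˣ // a ^ 2 = 1} => ((x : Fˣ) : F)) e
    exact h2 (by linear_combination e')
  · refine Set.eq_univ_of_forall fun a => ?_
    have h : ((a : Fˣ) : F) ^ 2 = 1 := by rw [← Units.val_pow_eq_pow_val, a.2, Units.val_one]
    rcases sq_eq_one_iff.1 h with h' | h'
    · exact Or.inl (Subtype.ext (Units.ext h'))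
    · exact Or.inr (Subtype.ext (Units.ext (by simpa using h')))

theorem two_ne_zero_of_odd (hodd : Odd (Fintype.card F)) : (2 : F) ≠ 0 := by
  intro h
  haveI : CharP F 2 := CharTwo.of_one_ne_zero_of_two_eq_zero one_ne_zero h
  obtain ⟨n, -, hn⟩ := FiniteField.card F 2
  obtain ⟨k, hk⟩ := hodd
  have : 2 ∣ 2 ^ (n : ℕ) := dvd_pow_self 2 n.ne_zero
  omega

theorem borel (hodd : Odd (Fintype.card F)) :
    Nat.card (ConjClasses ((Cfsg.upperTriangularGL 2 F).comap Matrix.SpecialLinearGroup.toGL)) =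
      Fintype.card F + 3 := by
  classical
  set B := (Cfsg.upperTriangularGL 2 F).comap Matrix.SpecialLinearGroup.toGL
  have h2 := two_ne_zero_of_odd hodd
  have hmem : ∀ g : SpecialLinearGroup (Fin 2) F, g ∈ B ↔ g.1 1 0 = 0 := by
    intro g
    constructor
    · intro h
      exact h (show (id 0 : Fin 2) < id 1 by decide)
    · intro h i j hij
      have : i = 1 ∧ j = 0 := by revert hij; revert i j; decide
      rw [this.1, this.2]; exact h
  let m : Fˣ → F → SpecialLinearGroup (Fin 2) F := fun a b =>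
    ⟨!![(a : F), b; 0, (a : F)⁻¹], by simp [Matrix.det_fin_two]⟩
  let e : Fˣ × F ≃ B := Equiv.ofBijective (fun p => ⟨m p.1 p.2, (hmem _).2 (by simp [m])⟩) (by
    refine ⟨fun p q h => ?_, fun g => ?_⟩
    · have h' : (m p.1 p.2).1 = (m q.1 q.2).1 := congrArg (fun x : B => (x : SpecialLinearGroup (Fin 2) F).1) h
      refine Prod.ext (Units.ext ?_) ?_
      · simpa [m] using congrFun (congrFun h' 0) 0
      · simpa [m] using congrFun (congrFun h' 0) 1
    · obtain ⟨⟨A, hA⟩, hg⟩ := g
      have h10 : A 1 0 = 0 := (hmem _).1 hg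
      have hd : A 0 0 * A 1 1 = 1 := by
        rw [Matrix.det_fin_two, h10, mul_zero, sub_zero] at hA; exact hA
      refine ⟨(Units.mkOfMulEqOne _ _ hd, A 0 1), Subtype.ext (Subtype.ext ?_)⟩
      ext i j
      fin_cases i <;> fin_cases j <;> simp [m, h10]
      exact (eq_inv_of_mul_eq_one_right hd).symm)
  have hcard : Nat.card B = (Fintype.card F - 1) * Fintype.card F := by
    rw [← Nat.card_congr e, Nat.card_prod, Nat.card_units, Nat.card_eq_fintype_card]
  have hcomm : ∀ p q : Fˣ × F, Commute (e p) (e q) ↔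
      q.2 * ((p.1 : F) - (p.1 : F)⁻¹) = p.2 * ((q.1 : F) - (q.1 : F)⁻¹) := by
    intro p q
    have : Commute (e p) (e q) ↔ (m p.1 p.2).1 * (m q.1 q.2).1 = (m q.1 q.2).1 * (m p.1 p.2).1 := by
      constructor
      · exact fun h => congrArg (fun x : B => (x : SpecialLinearGroup (Fin 2) F).1) h
      · exact fun h => Subtype.ext (Subtype.ext h)
    rw [this]
    constructor
    · intro h
      have := congrFun (congrFun h 0) 1
      simp [m, Matrix.mul_apply, Fin.sum_univ_two] at this
      linear_combination this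
    · intro h
      ext i j
      fin_cases i <;> fin_cases j <;> simp [m, Matrix.mul_apply, Fin.sum_univ_two] <;> first | linear_combination h | ring1
  let f : Fˣ → F := fun a => (a : F) - (a : F)⁻¹
  have hf : ∀ a : Fˣ, f a = 0 ↔ a ^ 2 = 1 := by
    intro a
    rw [sub_eq_zero, ← Units.val_inj, Units.val_pow_eq_pow_val, Units.val_one, sq,
      mul_eq_one_iff_eq_inv₀ a.ne_zero]
  have key : ∀ s t : F, Nat.card {bd : F × F // bd.2 * s = bd.1 * t} =
      if s = 0 ∧ t = 0 then Fintype.card F * Fintype.card F else Fintype.card F := by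
    intro s t
    split_ifs with h
    · rw [Nat.card_congr (Equiv.subtypeUnivEquiv fun bd => by simp [h.1, h.2]), Nat.card_prod, Nat.card_eq_fintype_card]
    · rw [← Nat.card_eq_fintype_card]
      by_cases hs : s = 0
      · have ht : t ≠ 0 := fun ht => h ⟨hs, ht⟩
        exact Nat.card_congr
          { toFun := fun bd => bd.1.2
            invFun := fun d => ⟨(0, d), by simp [hs]⟩
            left_inv := fun ⟨⟨b, d⟩, hbd⟩ => by
              simp [hs, ht] at hbd
              simp [hbd]
            right_inv := fun d => rfl }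
      · exact Nat.card_congr
          { toFun := fun bd => bd.1.1
            invFun := fun b => ⟨(b, b * t / s), by field_simp⟩
            left_inv := fun ⟨⟨b, d⟩, hbd⟩ => by
              simp only [Subtype.mk.injEq, Prod.mk.injEq, true_and]
              rw [eq_comm, eq_div_iff hs]; exact hbd
            right_inv := fun d => rfl }
  have hpairs : Nat.card {p : B × B // Commute p.1 p.2} =
      ((Fintype.card F - 1) * (Fintype.card F - 1) - 4) * Fintype.card F + 4 * (Fintype.card F * Fintype.card F) := by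
    rw [Nat.card_congr (show {p : B × B // Commute p.1 p.2} ≃ Σ ac : Fˣ × Fˣ, {bd : F × F // bd.2 * f ac.1 = bd.1 * f ac.2} from
      { toFun := fun p => ⟨((e.symm p.1.1).1, (e.symm p.1.2).1), ⟨((e.symm p.1.1).2, (e.symm p.1.2).2),
          (hcomm _ _).1 (by simpa using p.2)⟩⟩
        invFun := fun s => ⟨(e (s.1.1, s.2.1.1), e (s.1.2, s.2.1.2)), (hcomm _ _).2 s.2.2⟩
        left_inv := fun p => by simp
        right_inv := fun s => by
          obtain ⟨⟨a, c⟩, ⟨b, d⟩, h⟩ := s
          refine Sigma.subtype_ext ?_ ?_ <;> simp })]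
    rw [Nat.card_sigma, Finset.sum_congr rfl fun ac _ => key (f ac.1) (f ac.2), Finset.sum_ite, Finset.sum_const,
      Finset.sum_const, smul_eq_mul, smul_eq_mul, Finset.filter_not, Finset.card_sdiff_of_subset (Finset.filter_subset _ _),
      Finset.card_univ, Fintype.card_prod, Fintype.card_units]
    have h4 : (Finset.univ.filter fun ac : Fˣ × Fˣ => f ac.1 = 0 ∧ f ac.2 = 0).card = 4 := by
      rw [← Fintype.card_subtype, ← Nat.card_eq_fintype_card,
        Nat.card_congr ((Equiv.subtypeEquivRight fun ac => by rw [hf, hf]).trans (Equiv.subtypeProdEquivProd (p := fun a : Fˣ => a ^ 2 = 1) (q := fun a : Fˣ => a ^ 2 = 1))),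
        Nat.card_prod, card_sq_one h2]
    rw [h4]
    ring
  have h := card_comm_eq_card_conjClasses_mul_card B
  rw [hpairs, hcard] at h
  obtain ⟨r, hr⟩ := hodd
  have hq : 3 ≤ Fintype.card F := by have := Fintype.one_lt_card (α := F); omega
  obtain ⟨k, hk⟩ : ∃ k, Fintype.card F = k + 3 := ⟨_, (Nat.sub_add_cancel hq).symm⟩
  rw [hk] at h ⊢
  have h4le : 4 ≤ (k + 3 - 1) * (k + 3 - 1) := Nat.mul_le_mul (show 2 ≤ k + 3 - 1 by omega) (show 2 ≤ k + 3 - 1 by omega)
  refine Nat.eq_of_mul_eq_mul_right (Nat.mul_pos (show 0 < k + 3 - 1 by omega) (Nat.succ_pos _)) (h.symm.trans ?_)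
  rw [show k + 3 - 1 = k + 2 by omega] at *
  zify [h4le]
  ring

/-- diagonal and antidiagonal elements -/
def mono : Bool → Fˣ → SpecialLinearGroup (Fin 2) F
  | false, a => ⟨!![(a : F), 0; 0, (a : F)⁻¹], by simp [Matrix.det_fin_two]⟩
  | true, a => ⟨!![0, (a : F); -(a : F)⁻¹, 0], by simp [Matrix.det_fin_two]⟩

theorem mono_false (a : Fˣ) : (mono false a).1 = !![(a : F), 0; 0, (a : F)⁻¹] := rfl

theorem mono_true (a : Fˣ) : (mono true a).1 = !![0, (a : F); -(a : F)⁻¹, 0] := rfl

theorem mono_comm (p q : Bool × Fˣ) : (mono p.1 p.2).1 * (mono q.1 q.2).1 = (mono q.1 q.2).1 * (mono p.1 p.2).1 ↔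
    (bif p.1 then (bif q.1 then (p.2 / q.2) ^ 2 = 1 else q.2 ^ 2 = 1)
      else (bif q.1 then p.2 ^ 2 = 1 else True)) := by
  obtain ⟨s, a⟩ := p
  obtain ⟨t, c⟩ := q
  have ha := a.ne_zero
  have hc := c.ne_zero
  have sq1 : ∀ x : Fˣ, x ^ 2 = 1 ↔ (x : F) = (x : F)⁻¹ := by
    intro x
    rw [← Units.val_inj, Units.val_pow_eq_pow_val, Units.val_one, sq, mul_eq_one_iff_eq_inv₀ x.ne_zero]
  cases s <;> cases t <;> simp only [cond_true, cond_false]
  · refine iff_of_true ?_ trivial
    rw [mono_false, mono_false]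
    ext i j
    fin_cases i <;> fin_cases j <;> simp [Matrix.mul_apply, Fin.sum_univ_two] <;> ring
  · rw [sq1, mono_false, mono_true]
    constructor
    · intro h
      have h' := congrFun (congrFun h 0) 1
      simp [Matrix.mul_apply, Fin.sum_univ_two] at h'
      exact mul_right_cancel₀ hc (h'.trans (mul_comm _ _))
    · intro h
      ext i j
      fin_cases i <;> fin_cases j <;> simp [Matrix.mul_apply, Fin.sum_univ_two] <;> rw [← h] <;> ring
  · rw [sq1, mono_true, mono_false]
    constructor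
    · intro h
      have h' := congrFun (congrFun h 0) 1
      simp [Matrix.mul_apply, Fin.sum_univ_two] at h'
      exact (mul_right_cancel₀ ha ((mul_comm _ _).trans h')).symm
    · intro h
      ext i j
      fin_cases i <;> fin_cases j <;> simp [Matrix.mul_apply, Fin.sum_univ_two] <;> rw [← h] <;> ring
  · rw [sq1, mono_true, mono_true, Units.val_div_eq_div_val, inv_div]
    constructor
    · intro h
      have h' := congrFun (congrFun h 0) 0
      simp [Matrix.mul_apply, Fin.sum_univ_two] at h'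
      rw [div_eq_mul_inv, div_eq_mul_inv]
      exact h'
    · intro h
      ext i j
      fin_cases i <;> fin_cases j <;> simp [Matrix.mul_apply, Fin.sum_univ_two] <;>
        simp only [div_eq_mul_inv] at h <;> first | linear_combination h | linear_combination -h

theorem torus_normalizer (hodd : Odd (Fintype.card F)) (d : SpecialLinearGroup (Fin 2) F)
    (hd01 : d.1 0 1 = 0) (hd10 : d.1 1 0 = 0) (hda : d.1 0 0 ^ 2 ≠ 1) :
    (∀ g : SpecialLinearGroup (Fin 2) F, g ∈ Subgroup.centralizer ({d} : Set (SpecialLinearGroup (Fin 2) F)) ↔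
      (g.1 0 1 = 0 ∧ g.1 1 0 = 0)) ∧
    Nat.card (Subgroup.normalizer ((Subgroup.centralizer ({d} : Set (SpecialLinearGroup (Fin 2) F))) : Set (SpecialLinearGroup (Fin 2) F))) = 2 * (Fintype.card F - 1) ∧
    Nat.card (ConjClasses (Subgroup.normalizer ((Subgroup.centralizer ({d} : Set (SpecialLinearGroup (Fin 2) F))) : Set (SpecialLinearGroup (Fin 2) F)))) = (Fintype.card F + 5) / 2 ∧
    ∀ g : SpecialLinearGroup (Fin 2) F, g ∈ Subgroup.normalizer ((Subgroup.centralizer ({d} : Set (SpecialLinearGroup (Fin 2) F))) : Set (SpecialLinearGroup (Fin 2) F)) →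
      g ∉ Subgroup.centralizer ({d} : Set (SpecialLinearGroup (Fin 2) F)) → (g.1 * g.1) = -1 := by
  classical
  set T := Subgroup.centralizer ({d} : Set (SpecialLinearGroup (Fin 2) F)) with hTdef
  have h2 := two_ne_zero_of_odd hodd
  have hdet : ∀ g : SpecialLinearGroup (Fin 2) F, g.1 0 0 * g.1 1 1 - g.1 0 1 * g.1 1 0 = 1 := fun g => by
    rw [← Matrix.det_fin_two]; exact g.2
  have hdd : d.1 0 0 ≠ d.1 1 1 := fun e => hda (by have := hdet d; rw [hd01, zero_mul, sub_zero, ← e] at this; rw [sq]; exact this)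
  have hT : ∀ g, g ∈ T ↔ (g.1 0 1 = 0 ∧ g.1 1 0 = 0) := by
    intro g
    rw [hTdef, Subgroup.mem_centralizer_singleton_iff]
    constructor
    · intro h
      have h' : g.1 * d.1 = d.1 * g.1 := congrArg Subtype.val h
      have e01 := congrFun (congrFun h' 0) 1
      have e10 := congrFun (congrFun h' 1) 0
      simp [Matrix.mul_apply, Fin.sum_univ_two, hd01, hd10] at e01 e10
      constructor
      · exact (mul_eq_zero.1 (show g.1 0 1 * (d.1 1 1 - d.1 0 0) = 0 by linear_combination e01)).resolve_right (sub_ne_zero.2 hdd.symm)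
      · exact (mul_eq_zero.1 (show g.1 1 0 * (d.1 0 0 - d.1 1 1) = 0 by linear_combination e10)).resolve_right (sub_ne_zero.2 hdd)
    · rintro ⟨h1, h1'⟩
      refine Subtype.ext ?_
      show g.1 * d.1 = d.1 * g.1
      ext i j
      fin_cases i <;> fin_cases j <;> simp [Matrix.mul_apply, Fin.sum_univ_two, hd01, hd10, h1, h1'] <;> ring
  set N := Subgroup.normalizer (T : Set (SpecialLinearGroup (Fin 2) F)) with hNdef
  have hN : ∀ g, g ∈ N ↔ (g.1 0 1 = 0 ∧ g.1 1 0 = 0) ∨ (g.1 0 0 = 0 ∧ g.1 1 1 = 0) := by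
    intro g
    constructor
    · intro hg
      have hc : g * d * g⁻¹ ∈ T := (Subgroup.mem_normalizer_iff.1 hg d).1 ((hT d).2 ⟨hd01, hd10⟩)
      obtain ⟨e01, e10⟩ := (hT _).1 hc
      simp [SpecialLinearGroup.coe_inv, Matrix.adjugate_fin_two, Matrix.mul_apply, Fin.sum_univ_two, hd01, hd10] at e01 e10
      have k01 : g.1 0 0 * g.1 0 1 * (d.1 1 1 - d.1 0 0) = 0 := by linear_combination e01
      have k10 : g.1 1 0 * g.1 1 1 * (d.1 0 0 - d.1 1 1) = 0 := by linear_combination e10
      have j01 := (mul_eq_zero.1 k01).resolve_right (sub_ne_zero.2 hdd.symm)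
      have j10 := (mul_eq_zero.1 k10).resolve_right (sub_ne_zero.2 hdd)
      have hg' := hdet g
      rcases mul_eq_zero.1 j01 with h | h <;> rcases mul_eq_zero.1 j10 with h' | h'
      · rw [h, h'] at hg'; simp at hg'
      · exact Or.inr ⟨h, h'⟩
      · exact Or.inl ⟨h, h'⟩
      · rw [h, h'] at hg'; simp at hg'
    · intro hg
      refine Subgroup.mem_normalizer_iff.2 fun x => ?_
      have hconj : ∀ y : SpecialLinearGroup (Fin 2) F, ∀ h : SpecialLinearGroup (Fin 2) F,
          ((h.1 0 1 = 0 ∧ h.1 1 0 = 0) ∨ (h.1 0 0 = 0 ∧ h.1 1 1 = 0)) → y ∈ T → h * y * h⁻¹ ∈ T := by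
        intro y h hh hy
        obtain ⟨y1, y2⟩ := (hT y).1 hy
        refine (hT _).2 ?_
        rcases hh with ⟨a, b⟩ | ⟨a, b⟩ <;>
          simp [SpecialLinearGroup.coe_inv, Matrix.adjugate_fin_two, Matrix.mul_apply, Fin.sum_univ_two, y1, y2, a, b]
      refine ⟨hconj x g hg, fun hx => ?_⟩
      have := hconj _ g⁻¹ ?_ hx
      · simpa [mul_assoc] using this
      · rcases hg with ⟨a, b⟩ | ⟨a, b⟩
        · exact Or.inl (by simp [SpecialLinearGroup.coe_inv, Matrix.adjugate_fin_two, a, b])
        · exact Or.inr (by simp [SpecialLinearGroup.coe_inv, Matrix.adjugate_fin_two, a, b])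
  let e : Bool × Fˣ ≃ N := Equiv.ofBijective
    (fun p => ⟨mono p.1 p.2, (hN _).2 (by cases p.1 <;> simp [mono_false, mono_true])⟩) (by
    refine ⟨fun p q h => ?_, fun g => ?_⟩
    · have h' : (mono p.1 p.2).1 = (mono q.1 q.2).1 := congrArg (fun x : N => (x : SpecialLinearGroup (Fin 2) F).1) h
      have h0 := congrFun (congrFun h' 0) 0
      have h1 := congrFun (congrFun h' 0) 1
      obtain ⟨s, a⟩ := p
      obtain ⟨t, c⟩ := q
      cases s <;> cases t <;> simp [mono_false, mono_true] at h0 h1 ⊢ <;> first | exact Units.ext h0 | exact Units.ext h1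
    · obtain ⟨g, hg⟩ := g
      have hd := hdet g
      rcases (hN g).1 hg with ⟨a, b⟩ | ⟨a, b⟩
      · rw [a, zero_mul, sub_zero] at hd
        refine ⟨(false, Units.mkOfMulEqOne _ _ hd), Subtype.ext (Subtype.ext ?_)⟩
        ext i j
        fin_cases i <;> fin_cases j <;> simp [mono_false, mono_true, a, b]
        exact (eq_inv_of_mul_eq_one_right hd).symm
      · rw [a, b, mul_zero, zero_sub] at hd
        refine ⟨(true, Units.mkOfMulEqOne (g.1 0 1) (-g.1 1 0) (by linear_combination hd)), Subtype.ext (Subtype.ext ?_)⟩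
        ext i j
        fin_cases i <;> fin_cases j <;> simp [mono_false, mono_true, a, b]
        exact (neg_eq_iff_eq_neg.1 (eq_inv_of_mul_eq_one_left (show -g.1 1 0 * g.1 0 1 = 1 by linear_combination hd))).symm)
  have hcard : Nat.card N = 2 * (Fintype.card F - 1) := by
    rw [← Nat.card_congr e, Nat.card_prod, Nat.card_units, Nat.card_eq_fintype_card, Nat.card_eq_fintype_card,
      Fintype.card_bool]
  have hcomm : ∀ p q : Bool × Fˣ, Commute (e p) (e q) ↔ (bif p.1 then (bif q.1 then (p.2 / q.2) ^ 2 = 1 else q.2 ^ 2 = 1)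
      else (bif q.1 then p.2 ^ 2 = 1 else True)) := by
    intro p q
    have : Commute (e p) (e q) ↔ (mono p.1 p.2).1 * (mono q.1 q.2).1 = (mono q.1 q.2).1 * (mono p.1 p.2).1 := by
      constructor
      · exact fun h => congrArg (fun x : N => (x : SpecialLinearGroup (Fin 2) F).1) h
      · exact fun h => Subtype.ext (Subtype.ext h)
    rw [this]
    exact mono_comm p q
  refine ⟨hT, hcard, ?_, fun g hg hgT => ?_⟩
  · have hn : Nat.card Fˣ = Fintype.card F - 1 := by rw [Nat.card_units, Nat.card_eq_fintype_card]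
    have hpairs : Nat.card {p : N × N // Commute p.1 p.2} =
        (Fintype.card F - 1) * (Fintype.card F - 1) + 6 * (Fintype.card F - 1) := by
      rw [Nat.card_congr ((Equiv.subtypeEquiv (Equiv.prodCongr e e) (q := fun p : N × N => Commute p.1 p.2)
        (fun pq => (hcomm pq.1 pq.2).symm)).symm)]
      rw [Nat.card_congr (show {pq : (Bool × Fˣ) × (Bool × Fˣ) // (bif pq.1.1 then (bif pq.2.1 then (pq.1.2 / pq.2.2) ^ 2 = 1 else pq.2.2 ^ 2 = 1)
          else (bif pq.2.1 then pq.1.2 ^ 2 = 1 else True))} ≃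
          ((Fˣ × Fˣ) ⊕ ({a : Fˣ // a ^ 2 = 1} × Fˣ)) ⊕ (({a : Fˣ // a ^ 2 = 1} × Fˣ) ⊕ ({a : Fˣ // a ^ 2 = 1} × Fˣ)) from
        { toFun := fun x => match x with
            | ⟨((false, a), (false, c)), _⟩ => .inl (.inl (a, c))
            | ⟨((false, a), (true, c)), h⟩ => .inl (.inr (⟨a, h⟩, c))
            | ⟨((true, a), (false, c)), h⟩ => .inr (.inl (⟨c, h⟩, a))
            | ⟨((true, a), (true, c)), h⟩ => .inr (.inr (⟨a / c, h⟩, c))
          invFun := fun y => match y with
            | .inl (.inl (a, c)) => ⟨((false, a), (false, c)), trivial⟩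
            | .inl (.inr (a, c)) => ⟨((false, a.1), (true, c)), a.2⟩
            | .inr (.inl (c, a)) => ⟨((true, a), (false, c.1)), c.2⟩
            | .inr (.inr (u, c)) => ⟨((true, u.1 * c), (true, c)), (mul_div_cancel_right u.1 c).symm ▸ u.2⟩
          left_inv := fun x => by
            obtain ⟨⟨⟨s, a⟩, ⟨t, c⟩⟩, h⟩ := x
            cases s <;> cases t <;> simp
          right_inv := fun y => by
            rcases y with (⟨a, c⟩ | ⟨a, c⟩) | (⟨a, c⟩ | ⟨a, c⟩) <;> simp })]
      simp only [Nat.card_sum, Nat.card_prod, hn, card_sq_one h2]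
      ring
    have h := card_comm_eq_card_conjClasses_mul_card N
    rw [hpairs, hcard] at h
    obtain ⟨r, hr⟩ := hodd
    have hq : 1 < Fintype.card F := Fintype.one_lt_card
    obtain ⟨k, hk⟩ : ∃ k, Fintype.card F - 1 = k := ⟨_, rfl⟩
    rw [hk] at h
    have h' : k + 6 = Nat.card (ConjClasses N) * 2 :=
      Nat.eq_of_mul_eq_mul_right (show 0 < k by omega) (by linarith)
    omega
  · rcases (hN g).1 hg with h | ⟨a, b⟩
    · exact absurd ((hT g).2 h) hgT
    · have hd := hdet g
      rw [a, b] at hd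
      rw [← Matrix.ext_iff]
      simp [Fin.forall_fin_two, Matrix.mul_apply, a, b]
      constructor <;> linear_combination -hd

end CfsgLib.Lie.SLTwoCount
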