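/-
Values of the function on SL(2, q) induced from a multiplicative character of the upper triangular subgroup.
-/
import Mathlib.LinearAlgebra.Matrix.SpecialLinearGroup
import Mathlib.NumberTheory.MulChar.Basic
import Mathlib.Data.Fintype.Option
import Cfsg.Prelude.Def_ParabolicCharacters
import Cfsg.Prelude.Def_Characters
import Cfsg.Agent.Lib.CharInd

set_option autoImplicit false
set_option linter.unusedSectionVars false

namespace CfsgLib.Lie.SLTwoPrincipal

open Matrix

variable {F : Type*} [Field F] [Fintype F] [DecidableEq F]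

/-- coset representatives of the upper triangular subgroup -/
def rep : Option F → SpecialLinearGroup (Fin 2) F
  | none => 1
  | some c => ⟨!![c, -1; 1, 0], by simp [Matrix.det_fin_two]⟩

local notation "B" => (Subgroup.comap Matrix.SpecialLinearGroup.toGL (Cfsg.upperTriangularGL 2 F))

theorem mem_borel (g : SpecialLinearGroup (Fin 2) F) : g ∈ B ↔ g.1 1 0 = 0 := by
  constructor
  · intro h
    exact h (show (id 0 : Fin 2) < id 1 by decide)
  · intro h i j hij
    have : i = 1 ∧ j = 0 := by revert hij; revert i j; decide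
    rw [this.1, this.2]; exact h

theorem rep_adj (c : F) : Matrix.adjugate (rep (some c) : SpecialLinearGroup (Fin 2) F).1 = !![0, 1; -1, c] := by
  simp [rep, Matrix.adjugate_fin_two]

theorem bijective : Function.Bijective (fun p : Option F × B => rep p.1 * (p.2 : SpecialLinearGroup (Fin 2) F)) := by
  refine ⟨fun p q h => ?_, fun x => ?_⟩
  · have hb := (mem_borel _).1 p.2.2
    have hb' := (mem_borel _).1 q.2.2
    have hp0 : p.2.1.1 0 0 ≠ 0 := fun e => by
      have hd := p.2.1.2; rw [Matrix.det_fin_two, e, hb] at hd; simp at hd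
    have hq0 : q.2.1.1 0 0 ≠ 0 := fun e => by
      have hd := q.2.1.2; rw [Matrix.det_fin_two, e, hb'] at hd; simp at hd
    obtain ⟨o, b⟩ := p
    obtain ⟨o', b'⟩ := q
    simp only at hb hb' hp0 hq0
    have h' : (rep o).1 * b.1.1 = (rep o').1 * b'.1.1 := congrArg Subtype.val h
    have e0 := congrFun (congrFun h' 0) 0
    have e1 := congrFun (congrFun h' 1) 0
    have key : o = o' := by
      cases o with
      | none =>
        cases o' with
        | none => rfl
        | some d =>
          simp [rep, Matrix.mul_apply, Fin.sum_univ_two] at e1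
          exact absurd (e1.symm.trans hb) hq0
      | some c =>
        cases o' with
        | none =>
          simp [rep, Matrix.mul_apply, Fin.sum_univ_two] at e1
          exact absurd (e1.trans hb') hp0
        | some d =>
          simp [rep, Matrix.mul_apply, Fin.sum_univ_two, hb, hb'] at e0 e1
          rw [e1] at e0
          exact congrArg some (mul_right_cancel₀ hq0 e0)
    subst key
    exact Prod.ext rfl (Subtype.ext (mul_left_cancel h))
  · suffices ∃ o, ((rep o)⁻¹ * x) ∈ B by
      obtain ⟨o, ho⟩ := this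
      exact ⟨(o, ⟨_, ho⟩), mul_inv_cancel_left _ _⟩
    by_cases h : x.1 1 0 = 0
    · exact ⟨none, by rw [mem_borel]; simpa [rep] using h⟩
    · refine ⟨some (x.1 0 0 / x.1 1 0), ?_⟩
      rw [mem_borel]
      simp [rep_adj, Matrix.mul_apply, Fin.sum_univ_two]
      field_simp
      ring

theorem conj_rep_none (g : SpecialLinearGroup (Fin 2) F) : (rep (F := F) none)⁻¹ * g * rep none = g := by
  simp [rep]

theorem conj_rep_some (c : F) (g : SpecialLinearGroup (Fin 2) F) :
    ((rep (some c))⁻¹ * g * rep (some c)).1 0 0 = g.1 1 0 * c + g.1 1 1 ∧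
    ((rep (some c))⁻¹ * g * rep (some c)).1 1 0 = c * (g.1 1 0 * c + g.1 1 1) - (g.1 0 0 * c + g.1 0 1) := by
  simp [rep_adj, Matrix.mul_apply, Fin.sum_univ_two]
  simp [rep, Matrix.vecMul, dotProduct, Fin.sum_univ_two]
  ring

/-- The induced function as a sum over fixed lines. -/
theorem indFun_eq (α : MulChar F ℂ) (g : SpecialLinearGroup (Fin 2) F) :
    Cfsg.indFun B (fun b => α ((b : SpecialLinearGroup (Fin 2) F).1 0 0)) g =
      (if g.1 1 0 = 0 then α (g.1 0 0) else 0) +
        ∑ c : F, if g.1 0 0 * c + g.1 0 1 = c * (g.1 1 0 * c + g.1 1 1) then α (g.1 1 0 * c + g.1 1 1) else 0 := by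
  classical
  rw [Cfsg.indFun, ← Equiv.sum_comp (Equiv.ofBijective _ bijective), Fintype.sum_prod_type]
  have hterm : ∀ (o : Option F) (b : B), Cfsg.extendByZero B (fun b => α ((b : SpecialLinearGroup (Fin 2) F).1 0 0))
      ((rep o * (b : SpecialLinearGroup (Fin 2) F))⁻¹ * g * (rep o * (b : SpecialLinearGroup (Fin 2) F))) =
      if ((rep o)⁻¹ * g * rep o).1 1 0 = 0 then α (((rep o)⁻¹ * g * rep o).1 0 0) else 0 := by
    intro o b
    set y := (rep o)⁻¹ * g * rep o with hy
    rw [show (rep o * (b : SpecialLinearGroup (Fin 2) F))⁻¹ * g * (rep o * (b : SpecialLinearGroup (Fin 2) F)) =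
      (b : SpecialLinearGroup (Fin 2) F)⁻¹ * y * (b : SpecialLinearGroup (Fin 2) F) by rw [hy]; group]
    have hiff : (b : SpecialLinearGroup (Fin 2) F)⁻¹ * y * (b : SpecialLinearGroup (Fin 2) F) ∈ B ↔ y.1 1 0 = 0 := by
      rw [← mem_borel, Subgroup.mul_mem_cancel_right _ b.2, Subgroup.mul_mem_cancel_left _ (inv_mem b.2)]
    by_cases h : y.1 1 0 = 0
    · rw [Cfsg.extendByZero, show (b : SpecialLinearGroup (Fin 2) F)⁻¹ * y * b = ((⟨_, hiff.2 h⟩ : B) : SpecialLinearGroup (Fin 2) F) from rfl,
        Subtype.val_injective.extend_apply, if_pos h]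
      refine congrArg α ?_
      have hb := (mem_borel _).1 b.2
      have hd := b.1.2
      rw [Matrix.det_fin_two, hb, mul_zero, sub_zero] at hd
      simp [Matrix.adjugate_fin_two, Matrix.mul_apply, Matrix.vecMul, dotProduct, Fin.sum_univ_two, hb, h]
      linear_combination y.1 0 0 * hd
    · rw [Cfsg.extendByZero, Function.extend_apply' _ _ _ (fun ⟨z, hz⟩ => h (hiff.1 (hz ▸ z.2))), if_neg h]
      rfl
  simp only [Equiv.ofBijective_apply, hterm, Finset.sum_const, Finset.card_univ, nsmul_eq_mul, ← Finset.mul_sum]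
  rw [← Nat.card_eq_fintype_card, ← mul_assoc, inv_mul_cancel₀ (Nat.cast_ne_zero.2 Nat.card_pos.ne'), one_mul,
    Fintype.sum_option, conj_rep_none]
  congr 1
  refine Finset.sum_congr rfl fun c _ => ?_
  obtain ⟨h0, h1⟩ := conj_rep_some c g
  rw [h0, h1]
  simp only [sub_eq_zero]
  exact if_congr eq_comm rfl rfl

theorem values (α : MulChar F ℂ) (g : SpecialLinearGroup (Fin 2) F) :
    (g.1 0 1 = 0 → g.1 1 0 = 0 → g.1 0 0 ^ 2 ≠ 1 →
      Cfsg.indFun B (fun b => α ((b : SpecialLinearGroup (Fin 2) F).1 0 0)) g = α (g.1 0 0) + α (g.1 1 1)) ∧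
    ((∀ (c : F) (v : Fin 2 → F), v ≠ 0 → g.1.mulVec v ≠ c • v) →
      Cfsg.indFun B (fun b => α ((b : SpecialLinearGroup (Fin 2) F).1 0 0)) g = 0) ∧
    (g.1 1 0 = 0 → g.1 0 0 = g.1 1 1 → g.1 0 1 ≠ 0 →
      Cfsg.indFun B (fun b => α ((b : SpecialLinearGroup (Fin 2) F).1 0 0)) g = α (g.1 0 0)) ∧
    (g.1 0 1 = 0 → g.1 1 0 = 0 → g.1 0 0 = g.1 1 1 →
      Cfsg.indFun B (fun b => α ((b : SpecialLinearGroup (Fin 2) F).1 0 0)) g = ((Fintype.card F : ℂ) + 1) * α (g.1 0 0)) := by
  rw [indFun_eq]
  refine ⟨fun h01 h10 h => ?_, fun h => ?_, fun h10 he h01 => ?_, fun h01 h10 he => ?_⟩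
  · have hd := g.2
    rw [Matrix.det_fin_two, h10, mul_zero, sub_zero] at hd
    rw [if_pos h10, Finset.sum_eq_single 0]
    · simp [h01, h10]
    · intro c _ hc
      rw [if_neg]
      intro e
      rw [h01, h10, zero_mul, zero_add, add_zero, mul_comm] at e
      exact h (by rw [sq]; nth_rw 2 [mul_left_cancel₀ hc e]; exact hd)
    · intro h'; exact absurd (Finset.mem_univ _) h'
  · rw [if_neg, Finset.sum_eq_zero, add_zero]
    · intro c _
      rw [if_neg]
      intro e
      refine h (g.1 1 0 * c + g.1 1 1) ![c, 1] (by simp) ?_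
      ext i; fin_cases i <;> simp [Matrix.mulVec, dotProduct, Fin.sum_univ_two]
      linear_combination e
    · intro e
      refine h (g.1 0 0) ![1, 0] (by simp) ?_
      ext i; fin_cases i <;> simp [Matrix.mulVec, dotProduct, Fin.sum_univ_two, e]
  · rw [if_pos h10, Finset.sum_eq_zero, add_zero]
    intro c _
    rw [if_neg]
    intro e
    rw [h10, he, zero_mul, zero_add] at e
    exact h01 (by linear_combination e)
  · rw [if_pos h10, Finset.sum_congr rfl (fun c _ => by rw [if_pos (by rw [h01, h10, he]; ring), h10, zero_mul, zero_add, ← he]),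
      Finset.sum_const, Finset.card_univ, nsmul_eq_mul]
    ring

end CfsgLib.Lie.SLTwoPrincipal
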