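/-
The functions on SL(2, q) induced from the linear characters of the upper triangular subgroup: inner products and
irreducibility.
-/
import Cfsg.Agent.Lib.LieSLTwoPrincipal
import Cfsg.Agent.Lib.LieCharOrth
import Cfsg.Agent.Lib.CharVirtual

set_option autoImplicit false
set_option linter.unusedSectionVars false

namespace CfsgLib.Lie.SLTwoPS

open Matrix Cfsg CfsgLib.Char CfsgLib.Lie.CharOrth
open scoped ComplexConjugate

variable {F : Type*} [Field F] [Fintype F] [DecidableEq F]

local notation "SL₂" => SpecialLinearGroup (Fin 2) F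
local notation "B" => (Subgroup.comap Matrix.SpecialLinearGroup.toGL (Cfsg.upperTriangularGL 2 F))

/-- upper triangular element -/
def up (a : Fˣ) (z : F) : SL₂ := ⟨!![(a : F), z; 0, (a : F)⁻¹], by simp [Matrix.det_fin_two]⟩

theorem up_mem (a : Fˣ) (z : F) : up a z ∈ B := (SLTwoPrincipal.mem_borel _).2 (by simp [up])

theorem up_bijective : Function.Bijective (fun p : Fˣ × F => (⟨up p.1 p.2, up_mem p.1 p.2⟩ : B)) := by
  refine ⟨fun p q h => ?_, fun g => ?_⟩
  · have h' : (up p.1 p.2).1 = (up q.1 q.2).1 := congrArg (fun x : B => (x : SL₂).1) h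
    refine Prod.ext (Units.ext ?_) ?_
    · simpa [up] using congrFun (congrFun h' 0) 0
    · simpa [up] using congrFun (congrFun h' 0) 1
  · obtain ⟨⟨A, hA⟩, hg⟩ := g
    have h10 : A 1 0 = 0 := (SLTwoPrincipal.mem_borel _).1 hg
    have hd : A 0 0 * A 1 1 = 1 := by
      rw [Matrix.det_fin_two, h10, mul_zero, sub_zero] at hA; exact hA
    refine ⟨(Units.mkOfMulEqOne _ _ hd, A 0 1), Subtype.ext (Subtype.ext ?_)⟩
    ext i j
    fin_cases i <;> fin_cases j <;> simp [up, h10]
    exact (eq_inv_of_mul_eq_one_right hd).symm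

/-- the parametrisation -/
noncomputable def bEquiv : Fˣ × F ≃ B := Equiv.ofBijective _ up_bijective

theorem card_borel : Nat.card B = Fintype.card Fˣ * Fintype.card F := by
  rw [← Nat.card_congr bEquiv, Nat.card_prod, Nat.card_eq_fintype_card, Nat.card_eq_fintype_card]

/-- the induced function -/
noncomputable def ps (α : MulChar F ℂ) : SL₂ → ℂ := indFun B (fun b => α ((b : SL₂).1 0 0))

theorem linear (α : MulChar F ℂ) : IsCharacter B (fun b : B => α ((b : SL₂).1 0 0)) := by
  let f : B →* ℂ :=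
    { toFun := fun b => α ((b : SL₂).1 0 0)
      map_one' := by simp
      map_mul' := fun b c => by
        have hc := (SLTwoPrincipal.mem_borel _).1 c.2
        simp [Matrix.mul_apply, Fin.sum_univ_two, hc] }
  exact isCharacter_hom f.toHomUnits

theorem isCharacter_ps (α : MulChar F ℂ) : IsCharacter SL₂ (ps α) := isCharacter_indFun (linear α)

theorem classFn_ps (α : MulChar F ℂ) : IsClassFunction SL₂ (ps α) := indFun_classFunction _

theorem ps_one (α : MulChar F ℂ) : ps α 1 = (Fintype.card F : ℂ) + 1 := by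
  have h := (SLTwoPrincipal.values α (1 : SL₂)).2.2.2 (by simp) (by simp) (by simp)
  simpa [ps] using h

theorem sum_z (β : MulChar F ℂ) (a : Fˣ) :
    ∑ z : F, ps β (up a z) = (Fintype.card F : ℂ) * (β (a : F) + β ((a : F)⁻¹)) := by
  by_cases ha : (a : F) ^ 2 = 1
  · have hinv : (a : F)⁻¹ = a := inv_eq_of_mul_eq_one_right (by rw [← sq, ha])
    rw [← Finset.add_sum_erase _ _ (Finset.mem_univ (0 : F)), show ps β (up a 0) = ((Fintype.card F : ℂ) + 1) * β (a : F) from
      ((SLTwoPrincipal.values β (up a 0)).2.2.2 (by simp [up]) (by simp [up]) (by simp [up, hinv])).trans (by simp [up]),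
      Finset.sum_congr rfl fun z hz => show ps β (up a z) = β (a : F) from
        ((SLTwoPrincipal.values β (up a z)).2.2.1 (by simp [up]) (by simp [up, hinv])
          (by simpa [up] using (Finset.mem_erase.1 hz).1)).trans (by simp [up]),
      Finset.sum_const, Finset.card_erase_of_mem (Finset.mem_univ _), Finset.card_univ, hinv, nsmul_eq_mul,
      Nat.cast_sub (Fintype.card_pos (α := F)), Nat.cast_one]
    ring
  · have hd : ∀ z, ps β (up a z) = β (a : F) + β ((a : F)⁻¹) := by
      intro z
      have hne : (a : F) - (a : F)⁻¹ ≠ 0 := fun e => ha (by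
        rw [sq]; nth_rewrite 2 [sub_eq_zero.1 e]; exact mul_inv_cancel₀ a.ne_zero)
      set k := z / ((a : F) - (a : F)⁻¹) with hk
      have hz : k * ((a : F) - (a : F)⁻¹) = z := div_mul_cancel₀ z hne
      have hconj : up 1 (-k) * up a 0 * (up 1 (-k))⁻¹ = up a z := by
        apply mul_inv_eq_iff_eq_mul.2
        apply Subtype.ext
        show !![((1 : Fˣ) : F), -k; 0, ((1 : Fˣ) : F)⁻¹] * !![(a : F), 0; 0, (a : F)⁻¹] =
          !![(a : F), z; 0, (a : F)⁻¹] * !![((1 : Fˣ) : F), -k; 0, ((1 : Fˣ) : F)⁻¹]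
        ext i j
        fin_cases i <;> fin_cases j <;> simp [Matrix.mul_apply, Fin.sum_univ_two]
        linear_combination hz
      rw [← hconj, classFn_ps β (up a 0) (up 1 (-k))]
      exact ((SLTwoPrincipal.values β (up a 0)).1 (by simp [up]) (by simp [up]) (by simpa [up] using ha)).trans (by simp [up])
    rw [Finset.sum_congr rfl (fun z _ => hd z), Finset.sum_const, Finset.card_univ, nsmul_eq_mul]

theorem inner_ps (α β : MulChar F ℂ) [Decidable (α = β)] [Decidable (α = β⁻¹)] :
    classInner (ps α) (ps β) = (if α = β then 1 else 0) + (if α = β⁻¹ then 1 else 0) := by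
  classical
  show classInner (indFun B (fun b => α ((b : SL₂).1 0 0))) (ps β) = _
  rw [CfsgLib.Char.frobenius _ _ (classFn_ps β)]
  simp only [classInner]
  rw [← Equiv.sum_comp bEquiv, Fintype.sum_prod_type, card_borel]
  have h : ∀ a : Fˣ, ∑ z : F, α (((bEquiv (a, z) : B) : SL₂).1 0 0) * conj (ps β (bEquiv (a, z) : SL₂)) =
      (Fintype.card F : ℂ) * (α (a : F) * conj (β (a : F)) + α (a : F) * conj (β⁻¹ (a : F))) := fun a => by
    have : ∀ z, ((bEquiv (a, z) : B) : SL₂) = up a z := fun z => rfl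
    simp only [this]
    simp only [show ∀ z, (up a z).1 0 0 = (a : F) from fun z => by simp [up]]
    rw [← Finset.mul_sum, ← map_sum, sum_z, map_mul, map_add, Complex.conj_natCast, MulChar.inv_apply' β]
    ring
  rw [Finset.sum_congr rfl (fun a _ => h a), ← Finset.mul_sum, Finset.sum_add_distrib, sum_mul_conj, sum_mul_conj]
  have h0 : (Fintype.card F : ℂ) ≠ 0 := Nat.cast_ne_zero.2 Fintype.card_ne_zero
  have h1 : (Fintype.card Fˣ : ℂ) ≠ 0 := Nat.cast_ne_zero.2 Fintype.card_ne_zero
  push_cast
  split_ifs <;> field_simp <;> ring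

theorem isIrr_ps_iff (α : MulChar F ℂ) : IsIrrCharacter SL₂ (ps α) ↔ α ^ 2 ≠ 1 := by
  classical
  have hiff : α ^ 2 = 1 ↔ α = α⁻¹ := by rw [sq]; exact mul_eq_one_iff_eq_inv
  constructor
  · intro h e
    have h1 := irr_inner_self h
    rw [inner_ps, if_pos rfl, if_pos (hiff.1 e)] at h1
    norm_num at h1
  · intro h
    refine isIrr_of_inner_self_one (isCharacter_ps α) ?_
    rw [inner_ps, if_pos rfl, if_neg (fun e => h (hiff.2 e)), add_zero]

end CfsgLib.Lie.SLTwoPS
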