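/-
The irreducible characters of SL(2, q) which occur in the functions induced from the linear characters of the
upper triangular subgroup.
-/
import Cfsg.Agent.Lib.LieSLTwoPS
import Cfsg.Agent.Lib.LieSLTwoTrace
import Cfsg.Agent.Lib.CharLinear
import Cfsg.Agent.Lib.CharInt
import Cfsg.Agent.Lib.ClassicalSLTwoClasses

set_option autoImplicit false
set_option linter.unusedSectionVars false

namespace CfsgLib.Lie.SLTwoTable

open Matrix Cfsg CfsgLib.Char CfsgLib.Lie.CharOrth CfsgLib.Lie.SLTwoPS CfsgLib.Dickson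
open scoped ComplexConjugate

variable {F : Type*} [Field F] [Fintype F] [DecidableEq F]

local notation "q" => (Fintype.card F : ℂ)

theorem q_ne_zero : q ≠ 0 := Nat.cast_ne_zero.2 Fintype.card_ne_zero

theorem units_card_cast : ((Fintype.card Fˣ : ℕ) : ℂ) = q - 1 := by
  rw [Fintype.card_units, Nat.cast_sub Fintype.card_pos, Nat.cast_one]

theorem q_sub_one_ne_zero : q - 1 ≠ 0 := by
  rw [← units_card_cast]
  exact Nat.cast_ne_zero.2 Fintype.card_ne_zero

theorem up_one_eq (z : F) : up (1 : Fˣ) z = upperU z := by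
  apply Subtype.ext
  show !![((1 : Fˣ) : F), z; 0, ((1 : Fˣ) : F)⁻¹] = !![1, z; 0, 1]
  rw [Units.val_one, inv_one]

/-- average over the translates by upper unitriangular elements -/
noncomputable def avg (χ : SL F → ℂ) (a : Fˣ) : ℂ := q⁻¹ * ∑ z : F, χ (up a z)

theorem avg_one (χ : SL F → ℂ) : avg χ 1 = q⁻¹ * ∑ z : F, χ (upperU z) := by
  simp only [avg, up_one_eq]

theorem avg_ps (β : MulChar F ℂ) (a : Fˣ) : avg (ps β) a = β (a : F) + β ((a : F)⁻¹) := by
  rw [avg, sum_z, inv_mul_cancel_left₀ q_ne_zero]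

theorem avg_const (a : Fˣ) : avg (fun _ : SL F => (1 : ℂ)) a = 1 := by
  simp [avg]

theorem avg_sub (χ ψ : SL F → ℂ) (a : Fˣ) : avg (χ - ψ) a = avg χ a - avg ψ a := by
  simp [avg, Finset.sum_sub_distrib, mul_sub]

theorem avg_add (χ ψ : SL F → ℂ) (a : Fˣ) : avg (χ + ψ) a = avg χ a + avg ψ a := by
  simp [avg, Finset.sum_add_distrib, mul_add]

theorem up_zero_conj (a : Fˣ) (ha : (a : F) ^ 2 ≠ 1) (z : F) :
    ∃ x : SL F, x * up a 0 * x⁻¹ = up a z := by
  have hne : (a : F) - (a : F)⁻¹ ≠ 0 := fun e => ha (by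
    rw [sq]; nth_rewrite 2 [sub_eq_zero.1 e]; exact mul_inv_cancel₀ a.ne_zero)
  set k := z / ((a : F) - (a : F)⁻¹) with hk
  have hz : k * ((a : F) - (a : F)⁻¹) = z := div_mul_cancel₀ z hne
  refine ⟨up 1 (-k), ?_⟩
  apply mul_inv_eq_iff_eq_mul.2
  apply Subtype.ext
  show !![((1 : Fˣ) : F), -k; 0, ((1 : Fˣ) : F)⁻¹] * !![(a : F), 0; 0, (a : F)⁻¹] =
    !![(a : F), z; 0, (a : F)⁻¹] * !![((1 : Fˣ) : F), -k; 0, ((1 : Fˣ) : F)⁻¹]
  ext i j
  fin_cases i <;> fin_cases j <;> simp [Matrix.mul_apply, Fin.sum_univ_two]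
  linear_combination hz

theorem avg_regular {χ : SL F → ℂ} (hχ : IsClassFunction (SL F) χ) (a : Fˣ) (ha : (a : F) ^ 2 ≠ 1) :
    avg χ a = χ (up a 0) := by
  have h : ∀ z, χ (up a z) = χ (up a 0) := fun z => by
    obtain ⟨x, hx⟩ := up_zero_conj a ha z
    rw [← hx, hχ]
  rw [avg, Finset.sum_congr rfl (fun z _ => h z), Finset.sum_const, Finset.card_univ, nsmul_eq_mul,
    inv_mul_cancel_left₀ q_ne_zero]

theorem coeff_eq (χ : SL F → ℂ) (hχ : IsClassFunction (SL F) χ) (α : MulChar F ℂ) :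
    ∑ a : Fˣ, avg χ a * conj (α (a : F)) = ((Fintype.card Fˣ : ℕ) : ℂ) * classInner χ (ps α) := by
  classical
  show _ = _ * classInner χ (indFun ((Cfsg.upperTriangularGL 2 F).comap Matrix.SpecialLinearGroup.toGL) _)
  rw [CfsgLib.Char.frobenius_right _ _ hχ]
  simp only [classInner]
  rw [← Equiv.sum_comp bEquiv, card_borel, Fintype.sum_prod_type]
  have hb : ∀ a z, ((bEquiv (a, z) : ↥((Cfsg.upperTriangularGL 2 F).comap Matrix.SpecialLinearGroup.toGL)) : SL F) = up a z :=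
    fun a z => rfl
  simp only [hb, show ∀ (a : Fˣ) (z : F), (up a z).1 0 0 = (a : F) from fun a z => by simp [up], avg]
  have h1 : (Fintype.card Fˣ : ℂ) ≠ 0 := Nat.cast_ne_zero.2 Fintype.card_ne_zero
  have h0 : q ≠ 0 := q_ne_zero
  simp only [Finset.mul_sum, Finset.sum_mul]
  refine Finset.sum_congr rfl fun x _ => Finset.sum_congr rfl fun y _ => ?_
  push_cast
  field_simp

theorem dich (χ : SL F → ℂ) (hχ : IsCharacter (SL F) χ) :
    (avg χ 1 = 0 → (∀ a, avg χ a = 0) ∧ ∀ α, classInner χ (ps α) = 0) ∧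
    (avg χ 1 ≠ 0 → ∃ α, classInner χ (ps α) ≠ 0) ∧
    (∃ n : ℕ, avg χ 1 = n) ∧
    (∀ α, avg χ 1 = 1 → classInner χ (ps α) ≠ 0 → ∀ a : Fˣ, avg χ a = α (a : F)) := by
  classical
  have hcl := isCharacter_classFunction hχ
  have hN : ((Fintype.card Fˣ : ℕ) : ℂ) ≠ 0 := Nat.cast_ne_zero.2 Fintype.card_ne_zero
  have hc : ∀ α : MulChar F ℂ, ∃ n : ℕ, ∑ a : Fˣ, avg χ a * conj (α (a : F)) = ((Fintype.card Fˣ : ℕ) : ℂ) * n := by
    intro α
    obtain ⟨n, hn⟩ := inner_character_nat hχ (isCharacter_ps α)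
    exact ⟨n, by rw [coeff_eq χ hcl, hn]⟩
  obtain ⟨hA, hB, hC⟩ := expand (fun (α : MulChar F ℂ) (a : Fˣ) => α (a : F)) _ hN (fun α => by simp)
    sum_apply_conj (avg χ) hc
  refine ⟨fun h => ⟨hA h, fun α => ?_⟩, fun h => ?_, ?_, fun α h1 hne a => ?_⟩
  · have e := coeff_eq χ hcl α
    rw [Finset.sum_eq_zero (fun a _ => by rw [hA h a, zero_mul]), eq_comm, mul_eq_zero] at e
    exact e.resolve_left hN
  · obtain ⟨α, hα⟩ := hB h
    rw [coeff_eq χ hcl] at hα
    exact ⟨α, right_ne_zero_of_mul hα⟩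
  · choose n hn using hc
    refine ⟨∑ α, n α, mul_left_cancel₀ hN ?_⟩
    rw [Nat.cast_sum, Finset.mul_sum]
    simp only [← hn]
    rw [Finset.sum_comm]
    simp only [← Finset.mul_sum, ← map_sum]
    have e : ∀ a : Fˣ, ∑ α : MulChar F ℂ, α (a : F) = if a = 1 then ((Fintype.card Fˣ : ℕ) : ℂ) else 0 := fun a => by
      rw [← sum_apply_conj a 1]
      simp
    simp only [e, apply_ite conj, Complex.conj_natCast, map_zero, mul_ite, mul_zero]
    rw [Finset.sum_ite_eq' Finset.univ (1 : Fˣ)]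
    simp [mul_comm]
  · exact congrFun (hC h1 α (by rw [coeff_eq χ hcl]; exact mul_ne_zero hN hne)) a

/-- the character of degree `q` -/
noncomputable def st : SL F → ℂ := ps 1 - fun _ => 1

theorem inner_ps_one : classInner (ps (1 : MulChar F ℂ)) (fun _ : SL F => (1 : ℂ)) = 1 := by
  classical
  show classInner (indFun ((Cfsg.upperTriangularGL 2 F).comap Matrix.SpecialLinearGroup.toGL) _) _ = _
  rw [CfsgLib.Char.frobenius _ _ (isCharacter_classFunction isCharacter_one)]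
  simp only [classInner, map_one, mul_one]
  rw [← Equiv.sum_comp bEquiv, card_borel]
  have h : ∀ p : Fˣ × F, (1 : MulChar F ℂ) (((bEquiv p : ↥((Cfsg.upperTriangularGL 2 F).comap Matrix.SpecialLinearGroup.toGL)) : SL F).1 0 0) = 1 :=
    fun p => by
      show (1 : MulChar F ℂ) ((up p.1 p.2).1 0 0) = 1
      simp [up]
  rw [Finset.sum_congr rfl (fun p _ => h p), Finset.sum_const, Finset.card_univ, Fintype.card_prod, nsmul_eq_mul, mul_one]
  exact inv_mul_cancel₀ (Nat.cast_ne_zero.2 (by simp [Fintype.card_ne_zero]))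

theorem st_one : st (1 : SL F) = q := by
  simp [st, ps_one]

theorem isIrr_st : IsIrrCharacter (SL F) (st (F := F)) := by
  classical
  refine isIrr_of_genChar_norm_one ⟨_, _, isCharacter_ps 1, isCharacter_one, rfl⟩ ?_ ?_
  · rw [st, Char.inner_sub_left, Char.inner_sub_right, Char.inner_sub_right, inner_ps, inner_ps_one,
      inner_comm_of_isCharacter isCharacter_one (isCharacter_ps _), inner_ps_one, irr_inner_self isIrrCharacter_one]
    simp
  · rw [st_one]
    simp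

theorem avg_st (a : Fˣ) : avg (st (F := F)) a = 1 := by
  rw [st, avg_sub, avg_ps, avg_const, MulChar.one_apply_coe, ← Units.val_inv_eq_inv_val, MulChar.one_apply_coe]
  norm_num

/-- An irreducible character with non-zero average is one of four kinds. -/
theorem noncusp (χ : SL F → ℂ) (hχ : IsIrrCharacter (SL F) χ) (h : avg χ 1 ≠ 0) :
    χ = (fun _ => 1) ∨ χ = st ∨ (∃ α : MulChar F ℂ, α ^ 2 ≠ 1 ∧ χ = ps α) ∨
      ∃ α : MulChar F ℂ, α ^ 2 = 1 ∧ α ≠ 1 ∧ classInner χ (ps α) ≠ 0 := by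
  classical
  obtain ⟨α, hα⟩ := (dich χ hχ.isCharacter').2.1 h
  by_cases h2 : α ^ 2 = 1
  · by_cases h1 : α = 1
    · subst h1
      have hsplit : ps (1 : MulChar F ℂ) = (fun _ => 1) + st := (add_sub_cancel _ _).symm
      rw [hsplit, Char.inner_add_right] at hα
      by_cases e : χ = fun _ => 1
      · exact Or.inl e
      · rw [irr_inner_ne hχ isIrrCharacter_one e, zero_add] at hα
        refine Or.inr (Or.inl ?_)
        by_contra e'
        exact hα (irr_inner_ne hχ isIrr_st e')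
    · exact Or.inr (Or.inr (Or.inr ⟨α, h2, h1, hα⟩))
  · refine Or.inr (Or.inr (Or.inl ⟨α, h2, ?_⟩))
    by_contra e
    exact hα (irr_inner_ne hχ ((isIrr_ps_iff α).2 h2) e)

theorem avg_ps_one (α : MulChar F ℂ) : avg (ps α) 1 = 2 := by
  rw [avg_ps, Units.val_one, inv_one, map_one]
  norm_num

theorem ps_eq_iff (α β : MulChar F ℂ) (hα : α ^ 2 ≠ 1) (hβ : β ^ 2 ≠ 1) : ps α = ps β ↔ α = β ∨ α = β⁻¹ := by
  classical
  have hinner := inner_ps α β
  constructor
  · intro e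
    rw [← e, irr_inner_self ((isIrr_ps_iff α).2 hα)] at hinner
    by_contra hne
    push Not at hne
    rw [if_neg hne.1, if_neg hne.2] at hinner
    norm_num at hinner
  · intro h
    by_contra e
    rw [irr_inner_ne ((isIrr_ps_iff α).2 hα) ((isIrr_ps_iff β).2 hβ) e] at hinner
    have hb : β ≠ β⁻¹ := fun e' => hβ (by rw [sq]; exact mul_eq_one_iff_eq_inv.2 e')
    rcases h with rfl | rfl
    · rw [if_pos rfl, if_neg hb] at hinner
      norm_num at hinner
    · rw [if_neg (Ne.symm hb), if_pos rfl] at hinner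
      norm_num at hinner

/-- parametrisation of the principal series -/
noncomputable def psMap (α : {α : MulChar F ℂ // α ^ 2 ≠ 1}) : IrrCharacter (SL F) :=
  ⟨ps α.1, (isIrr_ps_iff α.1).2 α.2⟩

/-- the members of the principal series -/
noncomputable def psSet (F : Type*) [Field F] [Fintype F] [DecidableEq F] : Finset (IrrCharacter (SL F)) :=
  (Set.finite_range (psMap (F := F))).toFinset

theorem mem_psSet (χ : IrrCharacter (SL F)) :
    χ ∈ psSet F ↔ ∃ α : MulChar F ℂ, α ^ 2 ≠ 1 ∧ (χ : SL F → ℂ) = ps α := by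
  rw [psSet, Set.Finite.mem_toFinset, Set.mem_range]
  constructor
  · rintro ⟨α, rfl⟩
    exact ⟨α.1, α.2, rfl⟩
  · rintro ⟨α, hα, e⟩
    exact ⟨⟨α, hα⟩, Subtype.ext e.symm⟩

theorem two_mul_card_psSet : 2 * (psSet F).card = Nat.card {α : MulChar F ℂ // α ^ 2 ≠ 1} := by
  classical
  have himg : psSet F = (Finset.univ : Finset {α : MulChar F ℂ // α ^ 2 ≠ 1}).image psMap := by
    ext χ
    rw [psSet, Set.Finite.mem_toFinset, Set.mem_range, Finset.mem_image]
    simp only [Finset.mem_univ, true_and]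
  rw [himg, Nat.card_eq_fintype_card]
  refine Eq.trans ?_ Finset.card_univ
  rw [Finset.card_eq_sum_card_image psMap Finset.univ]
  have hsum : ∀ χ ∈ (Finset.univ : Finset {α : MulChar F ℂ // α ^ 2 ≠ 1}).image psMap,
      (Finset.univ.filter fun α : {α : MulChar F ℂ // α ^ 2 ≠ 1} => psMap α = χ).card = 2 := by
    intro χ hχ
    obtain ⟨β, -, rfl⟩ := Finset.mem_image.1 hχ
    have hβ' : β.1⁻¹ ^ 2 ≠ 1 := by rw [inv_pow, ne_eq, inv_eq_one]; exact β.2
    rw [Finset.card_eq_two]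
    refine ⟨β, ⟨β.1⁻¹, hβ'⟩, fun e => β.2 ?_, ?_⟩
    · have e' : β.1 = β.1⁻¹ := congrArg Subtype.val e
      rw [sq]; exact mul_eq_one_iff_eq_inv.2 e'
    · ext γ
      simp only [Finset.mem_filter, Finset.mem_univ, true_and, psMap, Subtype.mk.injEq, Finset.mem_insert,
        Finset.mem_singleton]
      rw [ps_eq_iff γ.1 β.1 γ.2 β.2, Subtype.ext_iff, Subtype.ext_iff]
  rw [Finset.sum_congr rfl hsum, Finset.sum_const, smul_eq_mul, mul_comm]

/-- conjugation by a diagonal matrix of determinant `e` -/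
def twist (e : Fˣ) : SL F ≃* SL F where
  toFun g := ⟨!![g.1 0 0, (e : F) * g.1 0 1; (e : F)⁻¹ * g.1 1 0, g.1 1 1], by
    rw [Matrix.det_fin_two]
    simp
    linear_combination det_eq g + g.1 0 1 * g.1 1 0 * (-1 : F) * (mul_inv_cancel₀ e.ne_zero)⟩
  invFun g := ⟨!![g.1 0 0, (e : F)⁻¹ * g.1 0 1; (e : F) * g.1 1 0, g.1 1 1], by
    rw [Matrix.det_fin_two]
    simp
    linear_combination det_eq g + g.1 0 1 * g.1 1 0 * (-1 : F) * (mul_inv_cancel₀ e.ne_zero)⟩
  left_inv g := by refine sl_ext ?_ ?_ ?_ ?_ <;> simp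
  right_inv g := by refine sl_ext ?_ ?_ ?_ ?_ <;> simp
  map_mul' g h := by
    apply Subtype.ext
    show !![(g * h).1 0 0, (e : F) * (g * h).1 0 1; (e : F)⁻¹ * (g * h).1 1 0, (g * h).1 1 1] =
      !![g.1 0 0, (e : F) * g.1 0 1; (e : F)⁻¹ * g.1 1 0, g.1 1 1] * !![h.1 0 0, (e : F) * h.1 0 1; (e : F)⁻¹ * h.1 1 0, h.1 1 1]
    ext i j
    fin_cases i <;> fin_cases j <;> simp [Matrix.mul_apply, Fin.sum_univ_two] <;> field_simp

theorem twist_val (e : Fˣ) (g : SL F) :
    (twist e g).1 = !![g.1 0 0, (e : F) * g.1 0 1; (e : F)⁻¹ * g.1 1 0, g.1 1 1] := rfl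

theorem twist_upperU (e : Fˣ) (z : F) : twist e (upperU z) = upperU ((e : F) * z) := by
  refine sl_ext ?_ ?_ ?_ ?_ <;> simp [twist_val, coe_upperU]

theorem twist_up (e a : Fˣ) (z : F) : twist e (up a z) = up a ((e : F) * z) := by
  refine sl_ext ?_ ?_ ?_ ?_ <;> rw [twist_val] <;> simp [up]

theorem ps_twist (e : Fˣ) (α : MulChar F ℂ) (g : SL F) : ps α (twist e g) = ps α g := by
  rw [ps, SLTwoPrincipal.indFun_eq, SLTwoPrincipal.indFun_eq]
  congr 1
  · simp [twist_val]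
  rw [← Equiv.sum_comp (Equiv.mulLeft₀ (e : F) e.ne_zero)]
  refine Finset.sum_congr rfl fun c _ => ?_
  have h1 : (twist e g).1 1 0 * ((e : F) * c) + (twist e g).1 1 1 = g.1 1 0 * c + g.1 1 1 := by
    simp [twist_val]
    field_simp
  have h2 : (twist e g).1 0 0 * ((e : F) * c) + (twist e g).1 0 1 = (e : F) * (g.1 0 0 * c + g.1 0 1) := by
    simp [twist_val]
    ring
  simp only [Equiv.mulLeft₀_apply, h1, h2, mul_assoc]
  exact if_congr (mul_right_inj' e.ne_zero) rfl rfl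

theorem isIrr_twist (e : Fˣ) {χ : SL F → ℂ} (hχ : IsIrrCharacter (SL F) χ) :
    IsIrrCharacter (SL F) (fun g => χ (twist e g)) :=
  isIrrCharacter_comp_equiv hχ (twist e)

theorem avg_twist (e : Fˣ) (χ : SL F → ℂ) (a : Fˣ) : avg (fun g => χ (twist e g)) a = avg χ a := by
  rw [avg, avg, ← Equiv.sum_comp (Equiv.mulLeft₀ (e : F) e.ne_zero) (fun z => χ (up a z))]
  simp only [twist_up, Equiv.mulLeft₀_apply]

theorem twist_conj_of_tr (e : Fˣ) (g : SL F) (hg : ¬ IsScal g) (h : (2 : F) = 0 ∨ SLTwoTrace.tr g ^ 2 ≠ 4) :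
    IsConj g (twist e g) := by
  refine SLTwoTrace.isConj_of_tr hg (fun hs => hg ?_) ?_ h
  · obtain ⟨h1, h2, h3⟩ := hs
    simp [twist_val] at h1 h2 h3
    exact ⟨h1, h2, h3⟩
  · simp [twist_val, SLTwoTrace.tr]

end CfsgLib.Lie.SLTwoTable
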