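/-
The irreducible characters of SL(2, q), q even: degrees.
-/
import Cfsg.Agent.Lib.LieSLTwoTableBasic
import Cfsg.Agent.Lib.ClassicalProjLine
import Cfsg.Agent.S2331

set_option autoImplicit false
set_option linter.unusedSectionVars false

namespace CfsgLib.Lie.SLTwoTable

open Matrix Cfsg CfsgLib.Char CfsgLib.Lie.CharOrth CfsgLib.Lie.SLTwoPS CfsgLib.Dickson
open scoped ComplexConjugate

variable {F : Type*} [Field F] [Fintype F] [DecidableEq F]

local notation "q" => (Fintype.card F : ℂ)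

theorem even_card [CharP F 2] : Fintype.card F % 2 = 0 :=
  FiniteField.even_card_of_char_two (ringChar.eq F 2)

theorem mulChar_sq_eq_one [CharP F 2] (α : MulChar F ℂ) (h : α ^ 2 = 1) : α = 1 := by
  have h1 : orderOf α ∣ 2 := orderOf_dvd_of_pow_eq_one h
  have h2 : orderOf α ∣ Nat.card (MulChar F ℂ) := orderOf_dvd_natCard α
  rw [card_mulChar] at h2
  have hodd : Nat.Coprime 2 (Fintype.card F - 1) := by
    rw [Nat.Prime.coprime_iff_not_dvd Nat.prime_two]
    have := even_card (F := F)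
    have : 1 < Fintype.card F := Fintype.one_lt_card
    omega
  exact orderOf_eq_one_iff.1 (Nat.eq_one_of_dvd_coprimes hodd h1 h2)

theorem unip_eq [CharP F 2] {χ : SL F → ℂ} (hχ : IsClassFunction (SL F) χ) {z : F} (hz : z ≠ 0) :
    χ (upperU z) = χ (upperU 1) := by
  have h2 : (2 : F) = 0 := CharTwo.two_eq_zero
  obtain ⟨s, hs⟩ := SLTwoTrace.exists_sqrt_of_two h2 z
  have hs0 : s ≠ 0 := fun h => hz (by rw [← hs, h, zero_pow two_ne_zero])
  obtain ⟨x, hx⟩ := isConj_iff.1 ((SLTwoClasses.upperU_isConj (one_ne_zero (α := F))).2 ⟨s, hs0, (by rw [← hs, sq, mul_one] : z = s * s * 1)⟩)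
  rw [← hx, hχ]

theorem sum_unip_even [CharP F 2] {χ : SL F → ℂ} (hχ : IsClassFunction (SL F) χ) :
    q * avg χ 1 = χ 1 + (q - 1) * χ (upperU 1) := by
  rw [avg_one, ← mul_assoc q, mul_inv_cancel₀ q_ne_zero, one_mul, ← Finset.add_sum_erase _ _ (Finset.mem_univ (0 : F)),
    upperU_zero, Finset.sum_congr rfl (fun z hz => unip_eq hχ (Finset.mem_erase.1 hz).1),
    Finset.sum_const, Finset.card_erase_of_mem (Finset.mem_univ _), Finset.card_univ, nsmul_eq_mul,
    Nat.cast_sub (Fintype.card_pos (α := F)), Nat.cast_one]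

/-- The table for even `q`. -/
theorem table_even [CharP F 2] :
    2 * (psSet F).card = Fintype.card F - 2 ∧
    ∃ C : Finset (IrrCharacter (SL F)), 2 * C.card = Fintype.card F ∧
      (∀ χ ∈ C, (χ : SL F → ℂ) 1 = q - 1 ∧ avg (χ : SL F → ℂ) 1 = 0 ∧ (χ : SL F → ℂ) (upperU 1) = -1) ∧
      ∀ χ : IrrCharacter (SL F), (χ : SL F → ℂ) = (fun _ => 1) ∨ (χ : SL F → ℂ) = st ∨ χ ∈ psSet F ∨ χ ∈ C := by
  classical
  have hq1 : 1 < Fintype.card F := Fintype.one_lt_card
  have hev := even_card (F := F)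
  have hPcard := two_mul_card_psSet (F := F)
  have hsq : Nat.card {α : MulChar F ℂ // α ^ 2 ≠ 1} + 2 = Fintype.card F := by
    have h : (Finset.univ.filter fun α : MulChar F ℂ => α ^ 2 = 1) = {1} := by
      ext α
      simp only [Finset.mem_filter, Finset.mem_univ, true_and, Finset.mem_singleton]
      exact ⟨mulChar_sq_eq_one α, fun h => by rw [h, one_pow]⟩
    have hc := Finset.card_filter_add_card_filter_not (s := (Finset.univ : Finset (MulChar F ℂ))) (fun α => α ^ 2 = 1)
    rw [h, Finset.card_singleton, Finset.card_univ, ← Nat.card_eq_fintype_card (α := MulChar F ℂ),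
      card_mulChar, ← Fintype.card_subtype, ← Nat.card_eq_fintype_card] at hc
    simp only [ne_eq]
    omega
  refine ⟨by omega, ?_⟩
  let e1 : IrrCharacter (SL F) := ⟨fun _ => 1, isIrrCharacter_one⟩
  let eS : IrrCharacter (SL F) := ⟨st, isIrr_st⟩
  let K : Finset (IrrCharacter (SL F)) := {e1, eS}
  let C : Finset (IrrCharacter (SL F)) := Finset.univ.filter fun χ => avg (χ : SL F → ℂ) 1 = 0
  have hne : e1 ≠ eS := fun e => by
    have := congrFun (congrArg Subtype.val e) 1
    simp only [e1, eS, st_one] at this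
    have : Fintype.card F = 1 := by exact_mod_cast this.symm
    omega
  have havK : ∀ χ ∈ K, avg (χ : SL F → ℂ) 1 = 1 := by
    intro χ hχ
    simp only [K, Finset.mem_insert, Finset.mem_singleton] at hχ
    rcases hχ with rfl | rfl
    · exact avg_const 1
    · exact avg_st 1
  have havP : ∀ χ ∈ psSet F, avg (χ : SL F → ℂ) 1 = 2 := by
    intro χ hχ
    obtain ⟨α, -, e⟩ := (mem_psSet χ).1 hχ
    rw [e, avg_ps_one]
  have hdKP : Disjoint K (psSet F) := Finset.disjoint_left.2 fun χ h1 h2 => by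
    have := (havK χ h1).symm.trans (havP χ h2)
    norm_num at this
  have hdC : Disjoint (K ∪ psSet F) C := Finset.disjoint_left.2 fun χ h1 h2 => by
    have h0 := (Finset.mem_filter.1 h2).2
    rcases Finset.mem_union.1 h1 with h | h
    · rw [havK χ h] at h0; norm_num at h0
    · rw [havP χ h] at h0; norm_num at h0
  have hcover : ∀ χ : IrrCharacter (SL F), χ ∈ K ∪ psSet F ∪ C := by
    intro χ
    by_cases h0 : avg (χ : SL F → ℂ) 1 = 0
    · exact Finset.mem_union_right _ (Finset.mem_filter.2 ⟨Finset.mem_univ _, h0⟩)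
    refine Finset.mem_union_left _ ?_
    rcases noncusp χ.1 χ.2 h0 with h | h | ⟨α, hα, h⟩ | ⟨α, h2, h1, h⟩
    · exact Finset.mem_union_left _ (by simp [K, e1, Subtype.ext_iff, h])
    · exact Finset.mem_union_left _ (by simp [K, eS, Subtype.ext_iff, h])
    · exact Finset.mem_union_right _ ((mem_psSet χ).2 ⟨α, hα, h⟩)
    · exact absurd (mulChar_sq_eq_one α h2) h1
  have huniv : K ∪ psSet F ∪ C = Finset.univ := Finset.eq_univ_iff_forall.2 hcover
  have hK : K.card = 2 := Finset.card_pair hne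
  have htot : K.card + (psSet F).card + C.card = Fintype.card F + 1 := by
    rw [← Finset.card_union_of_disjoint hdKP, ← Finset.card_union_of_disjoint hdC, huniv, Finset.card_univ,
      ← Nat.card_eq_fintype_card, card_irrCharacter, Cfsg.Agent.S2331.result]
  have hN : 2 * C.card = Fintype.card F := by omega
  have hPc : 2 * ((psSet F).card : ℂ) = q - 2 := by
    have : ((2 * (psSet F).card + 2 : ℕ) : ℂ) = q := by rw [hPcard, hsq]
    push_cast at this
    linear_combination this
  have hm : ∀ χ : {χ : IrrCharacter (SL F) // χ ∈ C}, ∃ m : ℕ, 1 ≤ m ∧ (χ.1 : SL F → ℂ) 1 = (q - 1) * m ∧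
      (χ.1 : SL F → ℂ) (upperU 1) = -(m : ℂ) := by
    intro χ
    obtain ⟨d, hd0, hd⟩ := exists_degree_pos χ.1.2
    have e := sum_unip_even (isCharacter_classFunction χ.1.2.isCharacter')
    rw [(Finset.mem_filter.1 χ.2).2, hd, mul_zero] at e
    have hint : IsIntegral ℤ ((d : ℂ) / (Fintype.card Fˣ : ℕ)) := by
      rw [units_card_cast, show (d : ℂ) = (q - 1) * -(χ.1 : SL F → ℂ) (upperU 1) by linear_combination -e,
        mul_div_cancel_left₀ _ q_sub_one_ne_zero]
      exact (isCharacter_isIntegral χ.1.2.isCharacter' _).neg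
    obtain ⟨m, hm⟩ := natCast_dvd_of_isIntegral_div Fintype.card_pos hint
    have hdm : (d : ℂ) = (q - 1) * m := by rw [← units_card_cast]; exact_mod_cast hm
    refine ⟨m, Nat.pos_of_ne_zero fun e0 => by rw [e0, mul_zero] at hm; omega, by rw [hd, hdm], ?_⟩
    exact mul_left_cancel₀ (q_sub_one_ne_zero (F := F)) (by linear_combination -e - hdm)
  choose m hm1 hmd hmu using hm
  have hdeg := sum_degree_sq (G := SL F)
  rw [← huniv, Finset.sum_union hdC, Finset.sum_union hdKP, Finset.sum_pair hne] at hdeg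
  have hPsum : ∑ χ ∈ psSet F, (χ : SL F → ℂ) 1 ^ 2 = ((psSet F).card : ℂ) * (q + 1) ^ 2 := by
    rw [Finset.sum_congr rfl fun χ hχ => ?_, Finset.sum_const, nsmul_eq_mul]
    obtain ⟨α, -, e⟩ := (mem_psSet χ).1 hχ
    rw [e, ps_one]
  have hG : (Nat.card (SL F) : ℂ) = q * (q ^ 2 - 1) := by
    rw [CfsgLib.Classical.Two.card_sl_two, Nat.cast_mul, Nat.cast_mul, Nat.cast_sub (Fintype.card_pos (α := F))]
    push_cast
    ring
  rw [hPsum, hG, show (e1 : SL F → ℂ) 1 = 1 from rfl, show (eS : SL F → ℂ) 1 = q from st_one] at hdeg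
  have hNc : 2 * (C.card : ℂ) = q := by exact_mod_cast hN
  have hm2 : ∑ χ ∈ C.attach, m χ ^ 2 = C.card := by
    rw [← Finset.sum_attach C] at hdeg
    simp only [hmd, mul_pow, ← Finset.mul_sum] at hdeg
    have : (((∑ χ ∈ C.attach, m χ ^ 2 : ℕ) : ℂ)) = ((C.card : ℕ) : ℂ) := by
      push_cast
      refine mul_left_cancel₀ (pow_ne_zero 2 (q_sub_one_ne_zero (F := F))) ?_
      linear_combination hdeg - (q - 1) ^ 2 / 2 * hNc - (q + 1) ^ 2 / 2 * hPc
    exact_mod_cast this
  have hone : ∀ χ, m χ = 1 := by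
    intro χ
    by_contra hne
    have hlt : ∑ _χ ∈ C.attach, 1 < ∑ χ ∈ C.attach, m χ ^ 2 := by
      refine Finset.sum_lt_sum (fun x _ => Nat.one_le_pow _ _ (hm1 x)) ⟨χ, Finset.mem_attach _ _, ?_⟩
      exact Nat.one_lt_pow two_ne_zero (by have := hm1 χ; omega)
    rw [hm2, Finset.sum_const, Finset.card_attach, smul_eq_mul, mul_one] at hlt
    exact lt_irrefl _ hlt
  refine ⟨C, hN, fun χ hχ => ?_, fun χ => ?_⟩
  · exact ⟨by rw [hmd ⟨χ, hχ⟩, hone]; simp, (Finset.mem_filter.1 hχ).2, by rw [hmu ⟨χ, hχ⟩, hone]; simp⟩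
  · rcases Finset.mem_union.1 (hcover χ) with h | h
    · rcases Finset.mem_union.1 h with h | h
      · simp only [K, Finset.mem_insert, Finset.mem_singleton] at h
        rcases h with rfl | rfl
        · exact Or.inl rfl
        · exact Or.inr (Or.inl rfl)
      · exact Or.inr (Or.inr (Or.inl h))
    · exact Or.inr (Or.inr (Or.inr h))

end CfsgLib.Lie.SLTwoTable
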