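/-
The irreducible characters of SL(2, q), q odd: degrees and values at the unipotent elements.
-/
import Cfsg.Agent.Lib.LieSLTwoTableBasic
import Cfsg.Agent.S2325
import Cfsg.Agent.Lib.ClassicalProjLine
import Mathlib.NumberTheory.GaussSum
import Mathlib.NumberTheory.LegendreSymbol.Complex
import Mathlib.NumberTheory.LegendreSymbol.QuadraticChar.Basic

set_option autoImplicit false
set_option linter.unusedSectionVars false

namespace CfsgLib.Lie.SLTwoTable

open Matrix Cfsg CfsgLib.Char CfsgLib.Lie.CharOrth CfsgLib.Lie.SLTwoPS CfsgLib.Dickson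
open scoped ComplexConjugate

variable {F : Type*} [Field F] [Fintype F] [DecidableEq F]

local notation "q" => (Fintype.card F : ℂ)

/-- the quadratic character, complex valued -/
noncomputable def sgn : MulChar F ℂ := (quadraticChar F).ringHomComp (Int.castRingHom ℂ)

theorem sgn_apply (a : F) : (sgn : MulChar F ℂ) a = ((quadraticChar F a : ℤ) : ℂ) := rfl

theorem ringChar_ne_two (hodd : Odd (Fintype.card F)) : ringChar F ≠ 2 := fun h => by
  have := FiniteField.even_card_of_char_two h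
  rw [Nat.odd_iff] at hodd
  omega

theorem sgn_ne_one (hodd : Odd (Fintype.card F)) : (sgn : MulChar F ℂ) ≠ 1 :=
  (MulChar.ringHomComp_ne_one_iff (RingHom.injective_int _)).2 (quadraticChar_ne_one (ringChar_ne_two hodd))

theorem sgn_sq : (sgn : MulChar F ℂ) ^ 2 = 1 :=
  ((quadraticChar_isQuadratic F).comp _).sq_eq_one

theorem sgn_cases {a : F} (ha : a ≠ 0) :
    (IsSquare a ∧ (sgn : MulChar F ℂ) a = 1) ∨ (¬ IsSquare a ∧ (sgn : MulChar F ℂ) a = -1) := by
  by_cases h : IsSquare a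
  · exact Or.inl ⟨h, by rw [sgn_apply, (quadraticChar_one_iff_isSquare ha).2 h, Int.cast_one]⟩
  · exact Or.inr ⟨h, by rw [sgn_apply, quadraticChar_neg_one_iff_not_isSquare.2 h, Int.cast_neg, Int.cast_one]⟩

theorem eq_sgn (hodd : Odd (Fintype.card F)) (α : MulChar F ℂ) (h2 : α ^ 2 = 1) (h1 : α ≠ 1) : α = sgn := by
  obtain ⟨e, he⟩ := FiniteField.exists_nonsquare (ringChar_ne_two hodd)
  have he0 : e ≠ 0 := fun h => he (h ▸ IsSquare.zero)
  have hsq : ∀ a : F, a ≠ 0 → α (a * a) = 1 := fun a ha => by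
    rw [map_mul, ← sq, ← MulChar.pow_apply' α two_ne_zero, h2, MulChar.one_apply ha.isUnit]
  have hcases : ∀ a : F, a ≠ 0 → α a = if IsSquare a then 1 else α e := fun a ha => by
    split_ifs with h
    · obtain ⟨r, rfl⟩ := h
      exact hsq r fun hr => ha (by rw [hr, mul_zero])
    · have hq : IsSquare (a / e) := by
        have hh : quadraticChar F (a / e) = 1 := by
          rw [div_eq_mul_inv, map_mul, quadraticChar_neg_one_iff_not_isSquare.2 h,
            quadraticChar_neg_one_iff_not_isSquare.2 (fun hs => he (by simpa using hs.inv))]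
          norm_num
        exact (quadraticChar_one_iff_isSquare (div_ne_zero ha he0)).1 hh
      obtain ⟨r, hr⟩ := hq
      have hr0 : r ≠ 0 := fun h0 => div_ne_zero ha he0 (by rw [hr, h0, mul_zero])
      rw [show a = r * r * e by rw [← hr, div_mul_cancel₀ a he0], map_mul, hsq r hr0, one_mul]
  have hαe : α e = -1 := by
    have e2 : α e ^ 2 = 1 := by
      rw [← MulChar.pow_apply' α two_ne_zero, h2, MulChar.one_apply he0.isUnit]
    rcases sq_eq_one_iff.1 e2 with h | h
    · exact absurd (MulChar.ext fun a => by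
        rw [hcases _ a.ne_zero, h, ite_self, MulChar.one_apply_coe]) h1
    · exact h
  refine MulChar.ext fun a => ?_
  rcases sgn_cases a.ne_zero with ⟨hs, hv⟩ | ⟨hs, hv⟩
  · rw [hcases _ a.ne_zero, if_pos hs, hv]
  · rw [hcases _ a.ne_zero, if_neg hs, hαe, hv]

theorem sum_sgn (hodd : Odd (Fintype.card F)) : ∑ a : F, (sgn : MulChar F ℂ) a = 0 :=
  MulChar.sum_eq_zero_of_ne_one (sgn_ne_one hodd)

variable (ε : Fˣ)

/-- the value at the second unipotent class minus that at the first, etc. -/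
def S (χ : SL F → ℂ) : ℂ := χ (upperU 1) + χ (upperU (ε : F))

/-- difference -/
def D (χ : SL F → ℂ) : ℂ := χ (upperU 1) - χ (upperU (ε : F))

theorem unip_val (hε : ¬ IsSquare (ε : F)) {χ : SL F → ℂ} (hχ : IsClassFunction (SL F) χ) {z : F} (hz : z ≠ 0) :
    2 * χ (upperU z) = S ε χ + (sgn : MulChar F ℂ) z * D ε χ := by
  rcases sgn_cases hz with ⟨⟨r, hr⟩, hv⟩ | ⟨hs, hv⟩
  · have hr0 : r ≠ 0 := fun h => hz (by rw [hr, h, mul_zero])
    obtain ⟨x, hx⟩ := isConj_iff.1 ((SLTwoClasses.upperU_isConj (one_ne_zero (α := F))).2 ⟨r, hr0, (hr.trans (mul_one _).symm)⟩)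
    rw [hv, ← hx, hχ, S, D]
    ring
  · have hq : IsSquare (z / (ε : F)) := by
      have hh : quadraticChar F (z / (ε : F)) = 1 := by
        rw [div_eq_mul_inv, map_mul, quadraticChar_neg_one_iff_not_isSquare.2 hs,
          quadraticChar_neg_one_iff_not_isSquare.2 (fun h => hε (by simpa using h.inv))]
        norm_num
      exact (quadraticChar_one_iff_isSquare (div_ne_zero hz ε.ne_zero)).1 hh
    obtain ⟨r, hr⟩ := hq
    have hr0 : r ≠ 0 := fun h => div_ne_zero hz ε.ne_zero (by rw [hr, h, mul_zero])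
    obtain ⟨x, hx⟩ := isConj_iff.1 ((SLTwoClasses.upperU_isConj ε.ne_zero).2 ⟨r, hr0, (show z = r * r * (ε : F) by rw [← hr, div_mul_cancel₀ z ε.ne_zero])⟩)
    rw [hv, ← hx, hχ, S, D]
    ring

theorem sum_unip (hodd : Odd (Fintype.card F)) (hε : ¬ IsSquare (ε : F)) {χ : SL F → ℂ} (hχ : IsClassFunction (SL F) χ) :
    2 * (q * avg χ 1) = 2 * χ 1 + (q - 1) * S ε χ := by
  rw [avg_one, ← mul_assoc q, mul_inv_cancel₀ q_ne_zero, one_mul, ← Finset.add_sum_erase _ _ (Finset.mem_univ (0 : F)),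
    upperU_zero, mul_add, Finset.mul_sum]
  rw [Finset.sum_congr rfl (fun z hz => unip_val ε hε hχ (Finset.mem_erase.1 hz).1), Finset.sum_add_distrib,
    Finset.sum_const, Finset.card_erase_of_mem (Finset.mem_univ _), Finset.card_univ, nsmul_eq_mul,
    Nat.cast_sub (Fintype.card_pos (α := F)), Nat.cast_one, ← Finset.sum_mul]
  have h := sum_sgn (F := F) hodd
  rw [← Finset.add_sum_erase _ _ (Finset.mem_univ (0 : F)), MulChar.map_zero, zero_add] at h
  rw [h, zero_mul, add_zero]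

/-- The square of the difference is the Gauss value times a square. -/
theorem D_sq (hodd : Odd (Fintype.card F)) (hε : ¬ IsSquare (ε : F)) {χ : SL F → ℂ} (hχ : IsCharacter (SL F) χ) :
    ∃ n : ℤ, D ε χ ^ 2 = (sgn : MulChar F ℂ) (-1) * q * (n : ℂ) ^ 2 := by
  classical
  obtain ⟨ψ, hψ⟩ : ∃ ψ : AddChar F ℂ, ψ.IsPrimitive :=
    ⟨_, AddChar.FiniteField.primitiveChar_to_Complex_isPrimitive F⟩
  let uHom : Multiplicative F →* SL F :=
    { toFun := fun x => upperU x.toAdd
      map_one' := upperU_zero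
      map_mul' := fun x y => (upperU_add _ _).symm }
  have hres : IsCharacter (Multiplicative F) (χ ∘ uHom) := isCharacter_comp hχ uHom
  have hlin : ∀ c : F, IsCharacter (Multiplicative F) (fun x => ψ (c * x.toAdd)) := fun c => by
    let f : Multiplicative F →* ℂ :=
      { toFun := fun x => ψ (c * x.toAdd)
        map_one' := by simp
        map_mul' := fun x y => by simp [mul_add, AddChar.map_add_eq_mul] }
    exact isCharacter_hom f.toHomUnits
  have hsum : ∀ c : F, ∃ n : ℕ, ∑ z : F, ψ (c * z) * conj (χ (upperU z)) = q * n := fun c => by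
    obtain ⟨n, hn⟩ := inner_character_nat (hlin c) hres
    refine ⟨n, ?_⟩
    rw [← hn, classInner, Nat.card_congr Multiplicative.toAdd, Nat.card_eq_fintype_card,
      mul_inv_cancel_left₀ q_ne_zero]
    exact (Fintype.sum_equiv Multiplicative.toAdd _ _ (fun x => rfl)).symm
  obtain ⟨n1, h1⟩ := hsum 1
  obtain ⟨n2, h2⟩ := hsum (ε : F)
  have hcl := isCharacter_classFunction hχ
  set g := gaussSum (sgn : MulChar F ℂ) ψ with hg
  have hgs : g ^ 2 = (sgn : MulChar F ℂ) (-1) * q :=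
    gaussSum_sq (sgn_ne_one hodd) ((quadraticChar_isQuadratic F).comp _) hψ
  have hsε : (sgn : MulChar F ℂ) (ε : F) = -1 := by
    rcases sgn_cases ε.ne_zero with ⟨h, -⟩ | ⟨-, h⟩
    · exact absurd h hε
    · exact h
  have hgε : gaussSum (sgn : MulChar F ℂ) (AddChar.mulShift ψ (ε : F)) = -g := by
    have e := gaussSum_mulShift (sgn : MulChar F ℂ) ψ ε
    rw [hsε, ← hg] at e
    linear_combination -e
  have key : conj (D ε χ) * g = q * ((n1 : ℂ) - n2) := by
    have hd : ∑ z : F, (ψ (1 * z) - ψ ((ε : F) * z)) * conj (χ (upperU z)) = q * ((n1 : ℂ) - n2) := by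
      simp only [sub_mul, Finset.sum_sub_distrib]
      rw [h1, h2]
      ring
    rw [← hd]
    have hterm : ∀ z : F, 2 * ((ψ (1 * z) - ψ ((ε : F) * z)) * conj (χ (upperU z))) =
        (ψ z - ψ ((ε : F) * z)) * conj (S ε χ) +
          conj (D ε χ) * ((sgn : MulChar F ℂ) z * ψ z - (sgn : MulChar F ℂ) z * ψ ((ε : F) * z)) := by
      intro z
      rw [one_mul]
      by_cases hz : z = 0
      · subst hz
        simp
      · have e := congrArg conj (unip_val ε hε hcl hz)
        rw [map_mul, map_add, map_mul] at e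
        have hreal : conj ((sgn : MulChar F ℂ) z) = (sgn : MulChar F ℂ) z := by
          rw [sgn_apply, map_intCast]
        rw [hreal, map_ofNat] at e
        linear_combination (ψ z - ψ ((ε : F) * z)) * e
    have hψ1 : ∑ z : F, ψ z = 0 := AddChar.sum_eq_zero_of_ne_one (by simpa using hψ (one_ne_zero (α := F)))
    have hψε : ∑ z : F, ψ ((ε : F) * z) = 0 := by
      rw [← hψ1]
      exact Fintype.sum_equiv (Equiv.mulLeft₀ (ε : F) ε.ne_zero) _ _ (fun z => rfl)
    refine mul_left_cancel₀ (two_ne_zero (α := ℂ)) ?_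
    rw [Finset.mul_sum (a := (2 : ℂ)), Finset.sum_congr rfl (fun z _ => hterm z), Finset.sum_add_distrib,
      ← Finset.sum_mul, Finset.sum_sub_distrib, hψ1, hψε, sub_zero, zero_mul, zero_add, ← Finset.mul_sum,
      Finset.sum_sub_distrib]
    rw [show ∑ z : F, (sgn : MulChar F ℂ) z * ψ z = g from rfl,
      show ∑ z : F, (sgn : MulChar F ℂ) z * ψ ((ε : F) * z) = -g from hgε]
    ring
  have e2 := congrArg (· ^ 2) key
  simp only [mul_pow] at e2
  rw [hgs] at e2
  have hδ : conj ((sgn : MulChar F ℂ) (-1)) = (sgn : MulChar F ℂ) (-1) := by rw [sgn_apply, map_intCast]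
  have hδ2 : (sgn : MulChar F ℂ) (-1) ^ 2 = 1 := by
    rcases sgn_cases (neg_ne_zero.2 (one_ne_zero (α := F))) with ⟨-, h⟩ | ⟨-, h⟩ <;> rw [h] <;> norm_num
  have e3 := congrArg conj e2
  simp only [map_mul, map_pow, map_sub, Complex.conj_conj, Complex.conj_natCast, hδ] at e3
  refine ⟨(n1 : ℤ) - n2, mul_left_cancel₀ (q_ne_zero (F := F)) ?_⟩
  push_cast
  linear_combination (sgn : MulChar F ℂ) (-1) * e3 - D ε χ ^ 2 * q * hδ2

/-- The elements of the two root subgroups generate. -/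
theorem hom_trivial (f : SL F →* ℂˣ) (hu : ∀ z, f (upperU z) = 1) (g : SL F) : f g = 1 := by
  have hl : ∀ z, f (lowerU z) = 1 := fun z => by
    let w : SL F := ⟨!![0, 1; -1, 0], by simp [Matrix.det_fin_two]⟩
    have e : w * upperU (-z) * w⁻¹ = lowerU z := by
      apply mul_inv_eq_iff_eq_mul.2
      apply Subtype.ext
      show !![(0 : F), 1; -1, 0] * !![1, -z; 0, 1] = !![1, 0; z, 1] * !![(0 : F), 1; -1, 0]
      ext i j
      fin_cases i <;> fin_cases j <;> simp [Matrix.mul_apply, Fin.sum_univ_two]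
    rw [← e, map_mul, map_mul, hu, map_inv, mul_one, mul_inv_cancel]
  have step : ∀ x : SL F, x.1 1 0 ≠ 0 → f x = 1 := fun x hx => by
    have e : x = upperU ((x.1 0 0 - 1) / x.1 1 0) * lowerU (x.1 1 0) * upperU ((x.1 1 1 - 1) / x.1 1 0) := by
      have hd := det_eq x
      refine sl_ext ?_ ?_ ?_ ?_ <;> simp [coe_upperU, coe_lowerU, Matrix.mul_apply, Fin.sum_univ_two] <;> field_simp <;>
        first | ring1 | linear_combination hd | linear_combination -hd
    rw [e, map_mul, map_mul, hu, hu, hl, mul_one, mul_one]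
  by_cases h : g.1 1 0 = 0
  · have h0 : g.1 0 0 ≠ 0 := fun e => by have := det_eq g; rw [e, h] at this; simp at this
    have := step (lowerU 1 * g) (by simpa [coe_lowerU, Matrix.mul_apply, Fin.sum_univ_two, h] using h0)
    rwa [map_mul, hl, one_mul] at this
  · exact step g h

theorem not_invariant_half (hodd : Odd (Fintype.card F)) (hε : ¬ IsSquare (ε : F)) {η η' : SL F → ℂ}
    (hη : IsIrrCharacter (SL F) η) (hη' : IsIrrCharacter (SL F) η') (hsum : η + η' = ps sgn)
    (ha : ∀ a : Fˣ, avg η a = (sgn : MulChar F ℂ) (a : F)) (ha' : ∀ a : Fˣ, avg η' a = (sgn : MulChar F ℂ) (a : F))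
    (hinv : η (upperU 1) = η (upperU (ε : F))) (hinv' : η' (upperU 1) = η' (upperU (ε : F))) : False := by
  have main : ∀ {ξ : SL F → ℂ}, IsIrrCharacter (SL F) ξ → (∀ a : Fˣ, avg ξ a = (sgn : MulChar F ℂ) (a : F)) →
      ξ (upperU 1) = ξ (upperU (ε : F)) → ξ 1 ≠ 1 := by
    intro ξ hξ hav hiv h1
    have e := sum_unip ε hodd hε (isCharacter_classFunction hξ.isCharacter')
    rw [hav, Units.val_one, map_one, h1, S, ← hiv] at e
    have hu : ξ (upperU 1) = 1 := mul_left_cancel₀ (q_sub_one_ne_zero (F := F)) (by linear_combination -e / 2)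
    obtain ⟨f, rfl⟩ := exists_hom_of_degree_one hξ.isCharacter' h1
    have hz : ∀ z, (f (upperU z) : ℂ) = 1 := fun z => by
      by_cases hz : z = 0
      · rw [hz, upperU_zero, map_one, Units.val_one]
      · have e := unip_val ε hε (isCharacter_classFunction hξ.isCharacter') hz
        replace e : 2 * (f (upperU z) : ℂ) = ((f (upperU 1) : ℂ) + (f (upperU (ε : F)) : ℂ)) +
            (sgn : MulChar F ℂ) z * ((f (upperU 1) : ℂ) - (f (upperU (ε : F)) : ℂ)) := e
        have hiv' : (f (upperU 1) : ℂ) = f (upperU (ε : F)) := hiv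
        have hu' : (f (upperU 1) : ℂ) = 1 := hu
        rw [← hiv', hu'] at e
        exact mul_left_cancel₀ (two_ne_zero (α := ℂ)) (by linear_combination e)
    have htriv := hom_trivial f fun z => Units.ext (hz z)
    have := hav ε
    rcases sgn_cases ε.ne_zero with ⟨h, -⟩ | ⟨-, h⟩
    · exact hε h
    · rw [h] at this
      simp [avg, htriv, mul_comm] at this
      norm_num at this
  have hd : ∀ {ξ : SL F → ℂ}, IsIrrCharacter (SL F) ξ → (∀ a : Fˣ, avg ξ a = (sgn : MulChar F ℂ) (a : F)) →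
      ξ (upperU 1) = ξ (upperU (ε : F)) → ξ 1 = 1 ∨ ξ 1 = q ∨ ∃ d : ℕ, ξ 1 = d ∧ Fintype.card F < d := by
    intro ξ hξ hav hiv
    obtain ⟨d, hd0, hd⟩ := exists_degree_pos hξ
    have e := sum_unip ε hodd hε (isCharacter_classFunction hξ.isCharacter')
    rw [hav, Units.val_one, map_one, hd, S, ← hiv] at e
    by_cases hle : Fintype.card F < d
    · exact Or.inr (Or.inr ⟨d, hd, hle⟩)
    have hq1 : 1 < Fintype.card F := Fintype.one_lt_card
    have hint : IsIntegral ℤ (((Fintype.card F - d : ℕ) : ℂ) / (Fintype.card Fˣ : ℕ)) := by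
      rw [units_card_cast, Nat.cast_sub (not_lt.1 hle), show q - (d : ℂ) = (q - 1) * ξ (upperU 1) by linear_combination e / 2,
        mul_div_cancel_left₀ _ q_sub_one_ne_zero]
      exact isCharacter_isIntegral hξ.isCharacter' _
    obtain ⟨m, hm⟩ := natCast_dvd_of_isIntegral_div Fintype.card_pos hint
    rw [Fintype.card_units] at hm
    rcases Nat.lt_or_ge m 2 with hm2 | hm2
    · interval_cases m
      · exact Or.inr (Or.inl (by rw [hd, show d = Fintype.card F by omega]))
      · exact Or.inl (by rw [hd, show d = 1 by omega, Nat.cast_one])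
    · have := Nat.mul_le_mul_left (Fintype.card F - 1) hm2
      omega
  have h1 := congrFun hsum 1
  rw [Pi.add_apply, ps_one] at h1
  rcases hd hη ha hinv with e | e | ⟨d, hd1, hlt⟩
  · exact main hη ha hinv e
  · exact main hη' ha' hinv' (by linear_combination h1 - e)
  · obtain ⟨d', hd0', hd'⟩ := exists_degree_pos hη'
    rw [hd1, hd'] at h1
    have : d + d' = Fintype.card F + 1 := by exact_mod_cast h1
    omega

theorem exists_halves (hodd : Odd (Fintype.card F)) (hε : ¬ IsSquare (ε : F)) :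
    ∃ η η' : SL F → ℂ, IsIrrCharacter (SL F) η ∧ IsIrrCharacter (SL F) η' ∧ η ≠ η' ∧ η + η' = ps sgn ∧
      (∀ g, η' g = η (twist ε g)) ∧ 2 * η 1 = q + 1 ∧ 2 * η' 1 = q + 1 ∧ S ε η = 1 ∧ S ε η' = 1 ∧
      D ε η ≠ 0 ∧ D ε η' ≠ 0 ∧ (∀ a : Fˣ, avg η a = (sgn : MulChar F ℂ) (a : F)) ∧
      (∀ a : Fˣ, avg η' a = (sgn : MulChar F ℂ) (a : F)) := by
  classical
  have hP := isCharacter_ps (sgn : MulChar F ℂ)
  have hPn : classInner (ps (sgn : MulChar F ℂ)) (ps sgn) = 2 := by
    rw [inner_ps, if_pos rfl, if_pos (mul_eq_one_iff_eq_inv.1 (by rw [← sq, sgn_sq]))]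
    norm_num
  obtain ⟨c, hc, -, hn⟩ := genChar_coeffs (isGenChar_of_isCharacter hP)
  rw [hPn] at hn
  have hn' : ∑ χ : IrrCharacter (SL F), c χ ^ 2 = 2 := by exact_mod_cast hn.symm
  obtain ⟨η, hη, hne⟩ := exists_constituent hP (fun h0 => by rw [h0, Char.inner_zero_left] at hPn; norm_num at hPn)
  have hcη : classInner (ps sgn) η = 1 := by
    obtain ⟨m, hm⟩ := inner_character_nat hP hη.isCharacter'
    have hcm : c ⟨η, hη⟩ = m := by exact_mod_cast (hc ⟨η, hη⟩).symm.trans hm
    have := Finset.single_le_sum (f := fun χ => c χ ^ 2) (fun χ _ => sq_nonneg _) (Finset.mem_univ ⟨η, hη⟩)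
    rw [hn', hcm] at this
    have hm2 : m ^ 2 ≤ 2 := by exact_mod_cast this
    have hm0 : m ≠ 0 := fun e => hne (by rw [hm, e, Nat.cast_zero])
    have : m = 1 := by nlinarith [Nat.pos_of_ne_zero hm0]
    rw [hm, this, Nat.cast_one]
  set η' := ps sgn - η with hη'def
  have hsum : η + η' = ps sgn := add_sub_cancel _ _
  have hn1 : classInner η' η' = 1 := by
    rw [hη'def, Char.inner_sub_left, Char.inner_sub_right, Char.inner_sub_right, hPn, hcη,
      inner_comm_of_isCharacter hη.isCharacter' hP, hcη, irr_inner_self hη]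
    ring
  have hη' : IsIrrCharacter (SL F) η' := by
    rcases genChar_norm_one (isGenChar_sub (isGenChar_of_isCharacter hP) (isGenChar_of_isCharacter hη.isCharacter')) hn1 with h | h
    · exact h
    · exfalso
      obtain ⟨m, hm⟩ := inner_character_nat hP h.isCharacter'
      have e0 : ps sgn = η - -(ps sgn - η) := by simp
      set ψ : SL F → ℂ := -(ps sgn - η) with hψ
      replace h : IsIrrCharacter (SL F) ψ := h
      rw [e0, Char.inner_sub_left, irr_inner_self h] at hm
      by_cases e : η = ψ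
      · rw [e0, e, sub_self, Char.inner_zero_left] at hPn
        norm_num at hPn
      · rw [irr_inner_ne hη h e, zero_sub] at hm
        have : (0 : ℤ) = 1 + m := by
          have e' : ((1 + m : ℤ) : ℂ) = 0 := by push_cast; linear_combination -hm
          exact_mod_cast e'.symm
        omega
  have hne' : η ≠ η' := fun e => by
    rw [← hsum, ← e, Char.inner_add_left, Char.inner_add_right, irr_inner_self hη] at hPn
    norm_num at hPn
  have hcη' : classInner (ps sgn) η' = 1 := by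
    rw [← hsum, Char.inner_add_left, irr_inner_self hη', irr_inner_ne hη hη' hne', zero_add]
  have hpos : ∀ {ξ : SL F → ℂ}, IsIrrCharacter (SL F) ξ → classInner (ps sgn) ξ = 1 →
      ∃ n : ℕ, avg ξ 1 = n ∧ n ≠ 0 := by
    intro ξ hξ h
    obtain ⟨h1, -, ⟨n, hn⟩, -⟩ := dich ξ hξ.isCharacter'
    refine ⟨n, hn, fun e => ?_⟩
    have h0 := (h1 (by rw [hn, e, Nat.cast_zero])).2 sgn
    rw [inner_comm_of_isCharacter hξ.isCharacter' hP, h] at h0
    exact one_ne_zero h0
  obtain ⟨n, hn1', hn0⟩ := hpos hη hcη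
  obtain ⟨n', hn2', hn0'⟩ := hpos hη' hcη'
  have h2 : avg η 1 + avg η' 1 = 2 := by rw [← avg_add, hsum, avg_ps_one]
  rw [hn1', hn2'] at h2
  have h2' : n + n' = 2 := by exact_mod_cast h2
  have hav : ∀ a : Fˣ, avg η a = (sgn : MulChar F ℂ) (a : F) := by
    refine (dich η hη.isCharacter').2.2.2 sgn (by rw [hn1', show n = 1 by omega, Nat.cast_one]) ?_
    rw [inner_comm_of_isCharacter hη.isCharacter' hP, hcη]
    exact one_ne_zero
  have hav' : ∀ a : Fˣ, avg η' a = (sgn : MulChar F ℂ) (a : F) := by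
    refine (dich η' hη'.isCharacter').2.2.2 sgn (by rw [hn2', show n' = 1 by omega, Nat.cast_one]) ?_
    rw [inner_comm_of_isCharacter hη'.isCharacter' hP, hcη']
    exact one_ne_zero
  have hsum_t : (fun g => η (twist ε g)) + (fun g => η' (twist ε g)) = η + η' := by
    funext g
    show (η + η') (twist ε g) = (η + η') g
    rw [hsum, ps_twist]
  have hswap : (fun g => η (twist ε g)) = η' := by
    have hi := isIrr_twist ε hη
    by_contra e
    by_cases e' : (fun g => η (twist ε g)) = η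
    · have e1 : ∀ g, η (twist ε g) = η g := congrFun e'
      have hi1 : η (upperU 1) = η (upperU (ε : F)) := by rw [← e1 (upperU 1), twist_upperU, mul_one]
      have hi2 : η' (upperU 1) = η' (upperU (ε : F)) := by
        have := congrFun hsum_t (upperU 1)
        simp only [Pi.add_apply, e1, twist_upperU, mul_one] at this
        linear_combination -this
      exact not_invariant_half ε hodd hε hη hη' hsum hav hav' hi1 hi2
    · have h := congrArg (fun f => classInner f (fun g => η (twist ε g))) hsum_t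
      simp only [Char.inner_add_left, irr_inner_self hi, irr_inner_ne hη hi (Ne.symm e'), irr_inner_ne hη' hi (Ne.symm e)] at h
      obtain ⟨m, hm⟩ := inner_character_nat (isIrr_twist ε hη').isCharacter' hi.isCharacter'
      rw [hm, add_zero] at h
      have : 1 + m = 0 := by exact_mod_cast h
      omega
  have ht : ∀ g, η' g = η (twist ε g) := fun g => (congrFun hswap g).symm
  have hdeg : η' 1 = η 1 := by rw [ht, map_one]
  have hd : 2 * η 1 = q + 1 := by
    have := congrFun hsum 1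
    rw [Pi.add_apply, ps_one, hdeg] at this
    linear_combination this
  have hS : S ε η = 1 := by
    have e := sum_unip ε hodd hε (isCharacter_classFunction hη.isCharacter')
    rw [hav, Units.val_one, map_one] at e
    exact mul_left_cancel₀ (q_sub_one_ne_zero (F := F)) (by linear_combination -e - hd)
  have hS' : S ε η' = 1 := by
    have e := sum_unip ε hodd hε (isCharacter_classFunction hη'.isCharacter')
    rw [hav', Units.val_one, map_one, hdeg] at e
    exact mul_left_cancel₀ (q_sub_one_ne_zero (F := F)) (by linear_combination -e - hd)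
  have hD : ∀ {ξ : SL F → ℂ}, IsIrrCharacter (SL F) ξ → S ε ξ = 1 → D ε ξ ≠ 0 := by
    intro ξ hξ hs hd
    rw [S] at hs
    rw [D] at hd
    obtain ⟨k, hk⟩ := natCast_dvd_of_isIntegral_div (d := 2) (n := 1) two_pos (by
      rw [Nat.cast_one, show (1 : ℂ) / ((2 : ℕ) : ℂ) = ξ (upperU 1) by push_cast; linear_combination -hs / 2 - hd / 2]
      exact isCharacter_isIntegral hξ.isCharacter' _)
    omega
  exact ⟨η, η', hη, hη', hne', hsum, ht, hd, hdeg ▸ hd, hS, hS', hD hη hS, hD hη' hS', hav, hav'⟩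

theorem card_sq_ne_one (hodd : Odd (Fintype.card F)) :
    Nat.card {α : MulChar F ℂ // α ^ 2 ≠ 1} + 3 = Fintype.card F := by
  classical
  have h : (Finset.univ.filter fun α : MulChar F ℂ => α ^ 2 = 1) = {1, sgn} := by
    ext α
    simp only [Finset.mem_filter, Finset.mem_univ, true_and, Finset.mem_insert, Finset.mem_singleton]
    refine ⟨fun h2 => ?_, ?_⟩
    · by_cases h1 : α = 1
      · exact Or.inl h1
      · exact Or.inr (eq_sgn hodd α h2 h1)
    · rintro (rfl | rfl)
      · exact one_pow 2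
      · exact sgn_sq
  have hc := Finset.card_filter_add_card_filter_not (s := (Finset.univ : Finset (MulChar F ℂ))) (fun α => α ^ 2 = 1)
  rw [h, Finset.card_pair (Ne.symm (sgn_ne_one hodd)), Finset.card_univ, ← Nat.card_eq_fintype_card (α := MulChar F ℂ),
    card_mulChar, ← Fintype.card_subtype, ← Nat.card_eq_fintype_card] at hc
  have : 1 < Fintype.card F := Fintype.one_lt_card
  simp only [ne_eq]
  omega

/-- data of a cuspidal character -/
theorem cusp_k (hodd : Odd (Fintype.card F)) (hε : ¬ IsSquare (ε : F)) {χ : SL F → ℂ} (hχ : IsIrrCharacter (SL F) χ)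
    (h0 : avg χ 1 = 0) :
    ∃ k : ℕ, 1 ≤ k ∧ 2 * χ 1 = (q - 1) * k ∧ S ε χ = -(k : ℂ) ∧ (D ε χ = 0 → 2 ∣ k) := by
  obtain ⟨d, hd0, hd⟩ := exists_degree_pos hχ
  have e := sum_unip ε hodd hε (isCharacter_classFunction hχ.isCharacter')
  rw [h0, hd] at e
  have hint : IsIntegral ℤ (((2 * d : ℕ) : ℂ) / (Fintype.card Fˣ : ℕ)) := by
    rw [units_card_cast, Nat.cast_mul, Nat.cast_ofNat, show (2 : ℂ) * (d : ℂ) = (q - 1) * -S ε χ by linear_combination -e,
      mul_div_cancel_left₀ _ q_sub_one_ne_zero]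
    exact ((isCharacter_isIntegral hχ.isCharacter' _).add (isCharacter_isIntegral hχ.isCharacter' _)).neg
  obtain ⟨k, hk⟩ := natCast_dvd_of_isIntegral_div Fintype.card_pos hint
  have hk1 : 1 ≤ k := Nat.pos_of_ne_zero fun e0 => by rw [e0, mul_zero] at hk; omega
  have hkc : 2 * (d : ℂ) = (q - 1) * k := by
    rw [← units_card_cast]; exact_mod_cast hk
  have hS : S ε χ = -(k : ℂ) := mul_left_cancel₀ (q_sub_one_ne_zero (F := F)) (by linear_combination -e - hkc)
  refine ⟨k, hk1, by rw [hd, hkc], hS, fun hD => ?_⟩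
  refine natCast_dvd_of_isIntegral_div two_pos ?_
  rw [show (k : ℂ) / ((2 : ℕ) : ℂ) = -χ (upperU 1) by
    rw [S] at hS; rw [D] at hD; push_cast; linear_combination hS / 2 + hD / 2]
  exact (isCharacter_isIntegral hχ.isCharacter' _).neg

theorem half_mem (hodd : Odd (Fintype.card F)) {η η' χ : SL F → ℂ} (hη : IsIrrCharacter (SL F) η)
    (hη' : IsIrrCharacter (SL F) η') (hsum : η + η' = ps sgn) (hχ : IsIrrCharacter (SL F) χ)
    {α : MulChar F ℂ} (h2 : α ^ 2 = 1) (h1 : α ≠ 1) (h : classInner χ (ps α) ≠ 0) : χ = η ∨ χ = η' := by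
  rw [eq_sgn hodd α h2 h1, ← hsum, Char.inner_add_right] at h
  by_contra hn
  push Not at hn
  rw [irr_inner_ne hχ hη hn.1, irr_inner_ne hχ hη' hn.2, add_zero] at h
  exact h rfl

theorem D_of_invariant {χ : SL F → ℂ} (h : ∀ g, χ (twist ε g) = χ g) : D ε χ = 0 := by
  rw [D, ← h (upperU 1), twist_upperU, mul_one, sub_self]

set_option maxHeartbeats 1000000 in
/-- The table for odd `q`. -/
theorem table_odd (hodd : Odd (Fintype.card F)) (hε : ¬ IsSquare (ε : F)) :
    ∃ η η' ξ ξ' : IrrCharacter (SL F), ∃ C : Finset (IrrCharacter (SL F)),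
      η ≠ η' ∧ (η : SL F → ℂ) + (η' : SL F → ℂ) = ps sgn ∧ (∀ g, (η' : SL F → ℂ) g = (η : SL F → ℂ) (twist ε g)) ∧
      ξ ≠ ξ' ∧ (∀ g, (ξ' : SL F → ℂ) g = (ξ : SL F → ℂ) (twist ε g)) ∧ 2 * C.card = Fintype.card F - 1 ∧
      (∀ χ ∈ C, (χ : SL F → ℂ) 1 = q - 1 ∧ avg (χ : SL F → ℂ) 1 = 0 ∧ (χ : SL F → ℂ) (upperU 1) = -1 ∧
        (χ : SL F → ℂ) (upperU (ε : F)) = -1) ∧
      (∀ χ, χ = η ∨ χ = η' → 2 * (χ : SL F → ℂ) 1 = q + 1 ∧ S ε (χ : SL F → ℂ) = 1 ∧
        D ε (χ : SL F → ℂ) ^ 2 = (sgn : MulChar F ℂ) (-1) * q ∧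
        ∀ a : Fˣ, avg (χ : SL F → ℂ) a = (sgn : MulChar F ℂ) (a : F)) ∧
      (∀ χ, χ = ξ ∨ χ = ξ' → 2 * (χ : SL F → ℂ) 1 = q - 1 ∧ avg (χ : SL F → ℂ) 1 = 0 ∧ S ε (χ : SL F → ℂ) = -1 ∧
        D ε (χ : SL F → ℂ) ^ 2 = (sgn : MulChar F ℂ) (-1) * q) ∧
      ∀ χ : IrrCharacter (SL F), (χ : SL F → ℂ) = (fun _ => 1) ∨ (χ : SL F → ℂ) = st ∨ χ ∈ psSet F ∨ χ = η ∨ χ = η' ∨
        χ ∈ C ∨ χ = ξ ∨ χ = ξ' := by
  classical
  obtain ⟨η, η', hη, hη', hne, hsum, ht, hd, hd', hS, hS', hD, hD', hav, hav'⟩ := exists_halves ε hodd hε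
  let e1 : IrrCharacter (SL F) := ⟨fun _ => 1, isIrrCharacter_one⟩
  let eS : IrrCharacter (SL F) := ⟨st, isIrr_st⟩
  let eA : IrrCharacter (SL F) := ⟨η, hη⟩
  let eB : IrrCharacter (SL F) := ⟨η', hη'⟩
  let K : Finset (IrrCharacter (SL F)) := {e1, eS, eA, eB}
  let C0 : Finset (IrrCharacter (SL F)) := Finset.univ.filter fun χ => avg (χ : SL F → ℂ) 1 = 0
  have hq3 : 3 ≤ Fintype.card F := by
    have := Fintype.one_lt_card (α := F)
    rw [Nat.odd_iff] at hodd
    omega
  have hq1 : q ≠ 1 := Nat.cast_ne_one.2 (by omega)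
  have hnd : [e1, eS, eA, eB].Nodup := by
    have a1 : e1 ≠ eS := fun e => by
      have := congrFun (congrArg Subtype.val e) 1
      simp only [e1, eS, st_one] at this
      exact hq1 this.symm
    have a2 : e1 ≠ eA := fun e => by
      have := congrFun (congrArg Subtype.val e) 1
      simp only [e1, eA] at this
      exact hq1 (by linear_combination -hd - 2 * this)
    have a3 : e1 ≠ eB := fun e => by
      have := congrFun (congrArg Subtype.val e) 1
      simp only [e1, eB] at this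
      exact hq1 (by linear_combination -hd' - 2 * this)
    have a4 : eS ≠ eA := fun e => by
      have := congrFun (congrArg Subtype.val e) 1
      simp only [eS, eA, st_one] at this
      exact hq1 (by linear_combination hd + 2 * this)
    have a5 : eS ≠ eB := fun e => by
      have := congrFun (congrArg Subtype.val e) 1
      simp only [eS, eB, st_one] at this
      exact hq1 (by linear_combination hd' + 2 * this)
    have a6 : eA ≠ eB := fun e => hne (congrArg Subtype.val e)
    simp [a1, a2, a3, a4, a5, a6]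
  have hKcard : K.card = 4 := by
    rw [show K = [e1, eS, eA, eB].toFinset by ext; simp [K], List.toFinset_card_of_nodup hnd]
    rfl
  have havK : ∀ χ ∈ K, avg (χ : SL F → ℂ) 1 = 1 := by
    intro χ hχ
    simp only [K, Finset.mem_insert, Finset.mem_singleton] at hχ
    rcases hχ with rfl | rfl | rfl | rfl
    · exact avg_const 1
    · exact avg_st 1
    · simp [eA, hav]
    · simp [eB, hav']
  have havP : ∀ χ ∈ psSet F, avg (χ : SL F → ℂ) 1 = 2 := by
    intro χ hχ
    obtain ⟨α, -, e⟩ := (mem_psSet χ).1 hχ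
    rw [e, avg_ps_one]
  have hdKP : Disjoint K (psSet F) := Finset.disjoint_left.2 fun χ h1 h2 => by
    have := (havK χ h1).symm.trans (havP χ h2)
    norm_num at this
  have hdC : Disjoint (K ∪ psSet F) C0 := Finset.disjoint_left.2 fun χ h1 h2 => by
    have h0 := (Finset.mem_filter.1 h2).2
    rcases Finset.mem_union.1 h1 with h | h
    · rw [havK χ h] at h0; norm_num at h0
    · rw [havP χ h] at h0; norm_num at h0
  have hcover : ∀ χ : IrrCharacter (SL F), χ ∈ K ∪ psSet F ∪ C0 := by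
    intro χ
    by_cases h0 : avg (χ : SL F → ℂ) 1 = 0
    · exact Finset.mem_union_right _ (Finset.mem_filter.2 ⟨Finset.mem_univ _, h0⟩)
    refine Finset.mem_union_left _ ?_
    rcases noncusp χ.1 χ.2 h0 with h | h | ⟨α, hα, h⟩ | ⟨α, h2, h1, h⟩
    · exact Finset.mem_union_left _ (by simp [K, e1, Subtype.ext_iff, h])
    · exact Finset.mem_union_left _ (by simp [K, eS, Subtype.ext_iff, h])
    · exact Finset.mem_union_right _ ((mem_psSet χ).2 ⟨α, hα, h⟩)
    · rcases half_mem hodd hη hη' hsum χ.2 h2 h1 h with h | h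
      · exact Finset.mem_union_left _ (by simp [K, eA, Subtype.ext_iff, h])
      · exact Finset.mem_union_left _ (by simp [K, eB, Subtype.ext_iff, h])
  have huniv : K ∪ psSet F ∪ C0 = Finset.univ := Finset.eq_univ_iff_forall.2 hcover
  have hPcard := two_mul_card_psSet (F := F)
  have hsq1 := card_sq_ne_one (F := F) hodd
  have htot : K.card + (psSet F).card + C0.card = Fintype.card F + 4 := by
    rw [← Finset.card_union_of_disjoint hdKP, ← Finset.card_union_of_disjoint hdC, huniv, Finset.card_univ,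
      ← Nat.card_eq_fintype_card, card_irrCharacter, Cfsg.Agent.S2325.result hodd]
  have hN : 2 * C0.card = Fintype.card F + 3 := by omega
  have hPc : 2 * ((psSet F).card : ℂ) = q - 3 := by
    have : ((2 * (psSet F).card + 3 : ℕ) : ℂ) = q := by rw [hPcard, hsq1]
    push_cast at this
    linear_combination this
  have hNc : 2 * (C0.card : ℂ) = q + 3 := by exact_mod_cast hN
  choose k hk1 hkd hkS hk2 using fun χ : {χ : IrrCharacter (SL F) // χ ∈ C0} =>
    cusp_k ε hodd hε χ.1.2 (Finset.mem_filter.1 χ.2).2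
  choose n hn using fun χ : IrrCharacter (SL F) => D_sq ε hodd hε χ.2.isCharacter'
  -- degrees
  have hdeg := sum_degree_sq (G := SL F)
  rw [← huniv, Finset.sum_union hdC, Finset.sum_union hdKP] at hdeg
  have hKsum : ∑ χ ∈ K, (χ : SL F → ℂ) 1 ^ 2 = 1 + q ^ 2 + (q + 1) ^ 2 / 2 := by
    have a : (η 1 : ℂ) = (q + 1) / 2 := by linear_combination hd / 2
    have b : (η' 1 : ℂ) = (q + 1) / 2 := by linear_combination hd' / 2
    rw [show K = [e1, eS, eA, eB].toFinset by ext; simp [K], List.sum_toFinset _ hnd]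
    simp [e1, eS, eA, eB, st_one, a, b]
    ring
  have hPsum : ∑ χ ∈ psSet F, (χ : SL F → ℂ) 1 ^ 2 = ((psSet F).card : ℂ) * (q + 1) ^ 2 := by
    rw [Finset.sum_congr rfl fun χ hχ => ?_, Finset.sum_const, nsmul_eq_mul]
    obtain ⟨α, -, e⟩ := (mem_psSet χ).1 hχ
    rw [e, ps_one]
  have hG : (Nat.card (SL F) : ℂ) = q * (q ^ 2 - 1) := by
    rw [CfsgLib.Classical.Two.card_sl_two, Nat.cast_mul, Nat.cast_mul, Nat.cast_sub (Fintype.card_pos (α := F))]
    push_cast
    ring
  rw [hKsum, hPsum, hG] at hdeg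
  have hk : ∑ χ ∈ C0.attach, k χ ^ 2 = 2 * Fintype.card F := by
    rw [← Finset.sum_attach C0] at hdeg
    have e : ∀ χ ∈ C0.attach, (χ.1 : SL F → ℂ) 1 ^ 2 = (q - 1) ^ 2 / 4 * (k χ : ℂ) ^ 2 := fun χ _ => by
      linear_combination (2 * (χ.1 : SL F → ℂ) 1 + (q - 1) * (k χ : ℂ)) / 4 * hkd χ
    rw [Finset.sum_congr rfl e, ← Finset.mul_sum] at hdeg
    have : (((∑ χ ∈ C0.attach, k χ ^ 2 : ℕ) : ℂ)) = ((2 * Fintype.card F : ℕ) : ℂ) := by
      push_cast
      refine mul_left_cancel₀ (pow_ne_zero 2 (q_sub_one_ne_zero (F := F))) ?_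
      linear_combination 4 * hdeg - 2 * (q + 1) ^ 2 * hPc
    exact_mod_cast this
  -- differences at the unipotent elements
  have hnorm : ∀ χ : IrrCharacter (SL F), D ε (χ : SL F → ℂ) * conj (D ε (χ : SL F → ℂ)) = q * (((n χ).natAbs ^ 2 : ℕ) : ℂ) := by
    intro χ
    have h := congrArg Complex.normSq (hn χ)
    rw [map_pow, map_mul, map_mul, map_pow, Complex.normSq_natCast, Complex.normSq_intCast] at h
    have hδ : Complex.normSq ((sgn : MulChar F ℂ) (-1)) = 1 := by
      rcases sgn_cases (neg_ne_zero.2 (one_ne_zero (α := F))) with ⟨-, h⟩ | ⟨-, h⟩ <;> rw [h] <;> simp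
    rw [hδ, one_mul] at h
    have h' : Complex.normSq (D ε (χ : SL F → ℂ)) = (Fintype.card F : ℝ) * ((n χ : ℝ)) ^ 2 := by
      refine (sq_eq_sq₀ (Complex.normSq_nonneg _) (mul_nonneg (Nat.cast_nonneg _) (sq_nonneg _))).1 ?_
      rw [h]; ring
    have hnat : (((n χ).natAbs ^ 2 : ℕ) : ℤ) = n χ ^ 2 := by rw [Nat.cast_pow]; exact Int.natAbs_sq _
    have hnat' : (((n χ).natAbs ^ 2 : ℕ) : ℂ) = (n χ : ℂ) ^ 2 := by
      rw [← Int.cast_natCast (R := ℂ), hnat, Int.cast_pow]
    rw [Complex.mul_conj, h', hnat']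
    push_cast
    ring
  have hDsum : ∑ χ : IrrCharacter (SL F), (n χ).natAbs ^ 2 = 4 := by
    have hcc : ∀ b : F, b ≠ 0 → (Nat.card (Subgroup.centralizer ({upperU b} : Set (SL F))) : ℂ) = 2 * q := fun b hb => by
      rw [SLTwoClasses.card_cent_upperU hb, (SLTwoClasses.card_roots).2 (Ring.two_ne_zero (ringChar_ne_two hodd))]
      push_cast
      ring
    have hnc : ¬ IsConj (upperU (1 : F)) (upperU (ε : F)) := fun h => by
      obtain ⟨a, -, ha⟩ := (SLTwoClasses.upperU_isConj one_ne_zero).1 h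
      exact hε ⟨a, by rw [ha, mul_one]⟩
    have h : ∑ χ : IrrCharacter (SL F), D ε (χ : SL F → ℂ) * conj (D ε (χ : SL F → ℂ)) = 4 * q := by
      simp only [D, map_sub, sub_mul, mul_sub, Finset.sum_sub_distrib]
      rw [column_orth_conj (IsConj.refl (upperU (1 : F))), column_orth_conj (IsConj.refl (upperU (ε : F))),
        column_orth_not_conj hnc, column_orth_not_conj (fun h => hnc h.symm), hcc 1 one_ne_zero, hcc _ ε.ne_zero]
      ring
    simp only [hnorm, ← Finset.mul_sum] at h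
    have : ((∑ χ : IrrCharacter (SL F), (n χ).natAbs ^ 2 : ℕ) : ℂ) = ((4 : ℕ) : ℂ) := by
      push_cast at h ⊢
      exact mul_left_cancel₀ (q_ne_zero (F := F)) (by linear_combination h)
    exact_mod_cast this
  have hnz : ∀ χ : IrrCharacter (SL F), D ε (χ : SL F → ℂ) ≠ 0 → 1 ≤ (n χ).natAbs ^ 2 := by
    intro χ h
    refine Nat.one_le_pow _ _ (Int.natAbs_pos.2 fun e => h ?_)
    have := hn χ
    rw [e] at this
    simpa using this
  have hAB : ({eA, eB} : Finset (IrrCharacter (SL F))) ⊆ K := by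
    intro x hx
    simp only [Finset.mem_insert, Finset.mem_singleton] at hx
    simp only [K, Finset.mem_insert, Finset.mem_singleton]
    rcases hx with rfl | rfl
    · exact Or.inr (Or.inr (Or.inl rfl))
    · exact Or.inr (Or.inr (Or.inr rfl))
  have hsub : ∑ χ ∈ ({eA, eB} : Finset (IrrCharacter (SL F))) ∪ C0, (n χ).natAbs ^ 2 ≤ 4 :=
    hDsum ▸ Finset.sum_le_sum_of_subset (Finset.subset_univ _)
  have hdis : Disjoint ({eA, eB} : Finset (IrrCharacter (SL F))) C0 :=
    Finset.disjoint_of_subset_left (hAB.trans Finset.subset_union_left) hdC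
  rw [Finset.sum_union hdis, Finset.sum_pair (fun e => hne (congrArg Subtype.val e))] at hsub
  have hA1 := hnz eA hD
  have hB1 := hnz eB hD'
  let P := C0.attach.filter fun χ => D ε (χ.1 : SL F → ℂ) ≠ 0
  let Q := C0.attach.filter fun χ => ¬ D ε (χ.1 : SL F → ℂ) ≠ 0
  have hPQ : P.card + Q.card = C0.card := by
    rw [Finset.card_filter_add_card_filter_not, Finset.card_attach]
  have hP2 : P.card ≤ ∑ χ ∈ C0, (n χ).natAbs ^ 2 := by
    rw [← Finset.sum_attach C0, Finset.card_eq_sum_ones]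
    exact (Finset.sum_le_sum fun χ hχ => hnz χ.1 (Finset.mem_filter.1 hχ).2).trans
      (Finset.sum_le_sum_of_subset (Finset.filter_subset _ _))
  have hkQ : ∀ χ ∈ Q, 4 ≤ k χ ^ 2 := fun χ hχ => by
    obtain ⟨j, hj⟩ := hk2 χ (not_not.1 (Finset.mem_filter.1 hχ).2)
    have := hk1 χ
    rw [hj] at this ⊢
    nlinarith [show 1 ≤ j by omega]
  have hkP : ∀ χ ∈ P, 1 ≤ k χ ^ 2 := fun χ _ => Nat.one_le_pow _ _ (hk1 χ)
  rw [← Finset.sum_filter_add_sum_filter_not C0.attach (fun χ => D ε (χ.1 : SL F → ℂ) ≠ 0)] at hk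
  replace hk : ∑ χ ∈ P, k χ ^ 2 + ∑ χ ∈ Q, k χ ^ 2 = 2 * Fintype.card F := hk
  have hQle : 4 * Q.card ≤ ∑ χ ∈ Q, k χ ^ 2 := by
    have := Finset.card_nsmul_le_sum Q _ 4 hkQ
    rwa [smul_eq_mul, mul_comm] at this
  have hPle : P.card ≤ ∑ χ ∈ P, k χ ^ 2 := by
    have := Finset.card_nsmul_le_sum P _ 1 hkP
    rwa [smul_eq_mul, mul_one] at this
  have hPc2 : P.card = 2 := by omega
  have hkP1 : ∀ χ ∈ P, k χ = 1 := fun χ hχ => by
    by_contra h
    have : ∑ _x ∈ P, 1 < ∑ x ∈ P, k x ^ 2 :=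
      Finset.sum_lt_sum hkP ⟨χ, hχ, Nat.one_lt_pow two_ne_zero (by have := hk1 χ; omega)⟩
    simp only [Finset.sum_const, smul_eq_mul, mul_one] at this
    omega
  have hkQ2 : ∀ χ ∈ Q, k χ = 2 := fun χ hχ => by
    by_contra h
    obtain ⟨j, hj⟩ := hk2 χ (not_not.1 (Finset.mem_filter.1 hχ).2)
    have : ∑ _x ∈ Q, 4 < ∑ x ∈ Q, k x ^ 2 :=
      Finset.sum_lt_sum hkQ ⟨χ, hχ, by have := hk1 χ; rw [hj] at h this ⊢; nlinarith [show 2 ≤ j by omega]⟩
    simp only [Finset.sum_const, smul_eq_mul] at this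
    omega
  have hsqA : (n eA).natAbs ^ 2 = 1 ∧ (n eB).natAbs ^ 2 = 1 := by omega
  have hsqP : ∀ χ ∈ P, (n χ.1).natAbs ^ 2 = 1 := fun χ hχ => by
    by_contra h
    have h2 := hnz χ.1 (Finset.mem_filter.1 hχ).2
    have : ∑ _x ∈ P, 1 < ∑ x ∈ P, (n x.1).natAbs ^ 2 :=
      Finset.sum_lt_sum (fun x hx => hnz x.1 (Finset.mem_filter.1 hx).2) ⟨χ, hχ, by omega⟩
    simp only [Finset.sum_const, smul_eq_mul, mul_one] at this
    have hle : ∑ x ∈ P, (n x.1).natAbs ^ 2 ≤ ∑ x ∈ C0, (n x).natAbs ^ 2 := by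
      rw [← Finset.sum_attach C0]
      exact Finset.sum_le_sum_of_subset (Finset.filter_subset _ _)
    omega
  have hDval : ∀ χ : IrrCharacter (SL F), (n χ).natAbs ^ 2 = 1 → D ε (χ : SL F → ℂ) ^ 2 = (sgn : MulChar F ℂ) (-1) * q := by
    intro χ h
    have e : (n χ : ℂ) ^ 2 = 1 := by
      have : (n χ) ^ 2 = 1 := by rw [← Int.natAbs_sq]; exact_mod_cast h
      exact_mod_cast this
    rw [hn χ, e, mul_one]
  -- the two exceptional cuspidal characters
  obtain ⟨x, y, hxy, hP⟩ := Finset.card_eq_two.1 hPc2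
  have hxP : x ∈ P := by rw [hP]; simp
  have hyP : y ∈ P := by rw [hP]; simp
  have htwist : ∀ g, (y.1 : SL F → ℂ) g = (x.1 : SL F → ℂ) (twist ε g) := by
    let t : IrrCharacter (SL F) := ⟨_, isIrr_twist ε x.1.2⟩
    have ht0 : t ∈ C0 := Finset.mem_filter.2 ⟨Finset.mem_univ _, by
      show avg (fun g => (x.1 : SL F → ℂ) (twist ε g)) 1 = 0
      rw [avg_twist]; exact (Finset.mem_filter.1 x.2).2⟩
    have htP : (⟨t, ht0⟩ : {χ // χ ∈ C0}) ∈ P := by
      refine Finset.mem_filter.2 ⟨Finset.mem_attach _ _, fun h => ?_⟩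
      have hxD := (Finset.mem_filter.1 hxP).2
      simp only [D, t, twist_upperU, mul_one] at h
      have e := unip_val ε hε (isCharacter_classFunction x.1.2.isCharacter') (mul_ne_zero ε.ne_zero ε.ne_zero)
      have hs : (sgn : MulChar F ℂ) ((ε : F) * ε) = 1 := by
        rw [map_mul]
        rcases sgn_cases ε.ne_zero with ⟨-, h⟩ | ⟨-, h⟩ <;> rw [h] <;> norm_num
      rw [hs, one_mul, ← sub_eq_zero.1 h, S, D] at e
      exact hxD (by rw [D]; linear_combination -e / 2)
    rw [hP, Finset.mem_insert, Finset.mem_singleton] at htP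
    rcases htP with e | e
    · exfalso
      have e' : ∀ g, (x.1 : SL F → ℂ) (twist ε g) = (x.1 : SL F → ℂ) g := congrFun (congrArg (fun z => (z.1 : SL F → ℂ)) e)
      exact (Finset.mem_filter.1 hxP).2 (D_of_invariant ε e')
    · exact fun g => (congrFun (congrArg (fun z => (z.1 : SL F → ℂ)) e) g).symm
  refine ⟨eA, eB, x.1, y.1, Q.map (Function.Embedding.subtype _), fun e => hne (congrArg Subtype.val e), hsum, ht,
    fun e => hxy (Subtype.ext e), htwist, by rw [Finset.card_map]; omega, ?_, ?_, ?_, ?_⟩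
  · intro χ hχ
    obtain ⟨χ, hχQ, rfl⟩ := Finset.mem_map.1 hχ
    have h1 := hkd χ
    have h2 := hkS χ
    rw [hkQ2 χ hχQ] at h1 h2
    have h3 := not_not.1 (Finset.mem_filter.1 hχQ).2
    rw [S] at h2
    rw [D] at h3
    simp only [Function.Embedding.subtype_apply]
    refine ⟨?_, (Finset.mem_filter.1 χ.2).2, ?_, ?_⟩ <;> push_cast at h1 h2
    · linear_combination h1 / 2
    · linear_combination h2 / 2 + h3 / 2
    · linear_combination h2 / 2 - h3 / 2
  · rintro χ (rfl | rfl)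
    · exact ⟨hd, hS, hDval _ hsqA.1, hav⟩
    · exact ⟨hd', hS', hDval _ hsqA.2, hav'⟩
  · have hP' : ∀ z ∈ P, 2 * (z.1 : SL F → ℂ) 1 = q - 1 ∧ avg (z.1 : SL F → ℂ) 1 = 0 ∧ S ε (z.1 : SL F → ℂ) = -1 ∧
        D ε (z.1 : SL F → ℂ) ^ 2 = (sgn : MulChar F ℂ) (-1) * q := fun z hz => by
      have h1 := hkd z
      have h2 := hkS z
      rw [hkP1 z hz, Nat.cast_one] at h1 h2
      exact ⟨by rw [h1, mul_one], (Finset.mem_filter.1 z.2).2, h2, hDval _ (hsqP z hz)⟩
    rintro χ (rfl | rfl)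
    · exact hP' x hxP
    · exact hP' y hyP
  · intro χ
    rcases Finset.mem_union.1 (hcover χ) with h | h
    · rcases Finset.mem_union.1 h with h | h
      · simp only [K, Finset.mem_insert, Finset.mem_singleton] at h
        rcases h with rfl | rfl | rfl | rfl
        · exact Or.inl rfl
        · exact Or.inr (Or.inl rfl)
        · exact Or.inr (Or.inr (Or.inr (Or.inl rfl)))
        · exact Or.inr (Or.inr (Or.inr (Or.inr (Or.inl rfl))))
      · exact Or.inr (Or.inr (Or.inl h))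
    · by_cases hP1 : (⟨χ, h⟩ : {χ // χ ∈ C0}) ∈ P
      · rw [hP, Finset.mem_insert, Finset.mem_singleton] at hP1
        rcases hP1 with e | e
        · exact Or.inr (Or.inr (Or.inr (Or.inr (Or.inr (Or.inr (Or.inl (congrArg Subtype.val e)))))))
        · exact Or.inr (Or.inr (Or.inr (Or.inr (Or.inr (Or.inr (Or.inr (congrArg Subtype.val e)))))))
      · refine Or.inr (Or.inr (Or.inr (Or.inr (Or.inr (Or.inl (Finset.mem_map.2 ⟨⟨χ, h⟩, ?_, rfl⟩))))))
        exact Finset.mem_filter.2 ⟨Finset.mem_attach _ _, fun hD => hP1 (Finset.mem_filter.2 ⟨Finset.mem_attach _ _, hD⟩)⟩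

end CfsgLib.Lie.SLTwoTable
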