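/-
The irreducible characters of SL(2, q) sorted by degree, in a form ready for use.
-/
import Cfsg.Agent.Lib.LieSLTwoTableOdd
import Cfsg.Agent.Lib.LieSLTwoTableEven

set_option autoImplicit false
set_option linter.unusedSectionVars false

namespace CfsgLib.Lie.SLTwoTable

open Matrix Cfsg CfsgLib.Char CfsgLib.Lie.CharOrth CfsgLib.Lie.SLTwoPS CfsgLib.Dickson
open scoped ComplexConjugate

variable {F : Type*} [Field F] [Fintype F] [DecidableEq F]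

local notation "q" => (Fintype.card F : ℂ)

theorem cast_q_add_one : q + 1 = ((Fintype.card F + 1 : ℕ) : ℂ) := by push_cast; rfl

theorem cast_q_sub_one : q - 1 = ((Fintype.card F - 1 : ℕ) : ℂ) := by
  rw [Nat.cast_sub Fintype.card_pos, Nat.cast_one]

theorem exists_eps (hodd : Odd (Fintype.card F)) : ∃ ε : Fˣ, ¬ IsSquare (ε : F) := by
  obtain ⟨e, he⟩ := FiniteField.exists_nonsquare (ringChar_ne_two hodd)
  exact ⟨Units.mk0 e (fun h => he (h ▸ IsSquare.zero)), he⟩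

theorem eq_upperU {u : SL F} (hu : u.1 = !![1, 1; 0, 1]) : u = upperU 1 :=
  Subtype.ext (hu.trans (coe_upperU 1).symm)

theorem no_eigen_data {g : SL F} (hg : ∀ (c : F) (v : Fin 2 → F), v ≠ 0 → g.1.mulVec v ≠ c • v) :
    ¬ IsScal g ∧ ((2 : F) = 0 ∨ SLTwoTrace.tr g ^ 2 ≠ 4) := by
  refine ⟨fun h => ?_, ?_⟩
  · refine hg (g.1 0 0) ![1, 0] (fun h' => one_ne_zero (congrFun h' 0)) ?_
    ext i
    fin_cases i <;> simp [Matrix.mulVec, dotProduct, Fin.sum_univ_two, h.2.1]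
  · by_cases h2 : (2 : F) = 0
    · exact Or.inl h2
    refine Or.inr fun h4 => ?_
    set c := SLTwoTrace.tr g / 2 with hc
    have h0 : (g.1 - c • (1 : Matrix (Fin 2) (Fin 2) F)).det = 0 := by
      have hd := det_eq g
      rw [Matrix.det_fin_two]
      simp [hc, SLTwoTrace.tr] at h4 ⊢
      field_simp
      linear_combination 4 * hd - h4
    obtain ⟨v, hv, hv'⟩ := Matrix.exists_mulVec_eq_zero_iff.2 h0
    rw [Matrix.sub_mulVec, sub_eq_zero, Matrix.smul_mulVec, Matrix.one_mulVec] at hv'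
    exact hg c v hv hv'

theorem ps_no_eigen (α : MulChar F ℂ) {g : SL F} (hg : ∀ (c : F) (v : Fin 2 → F), v ≠ 0 → g.1.mulVec v ≠ c • v) :
    ps α g = 0 :=
  (SLTwoPrincipal.values α g).2.1 hg

/-- Classification by degree, odd `q`. -/
theorem kinds_odd (hodd : Odd (Fintype.card F)) (ε : Fˣ) (hε : ¬ IsSquare (ε : F)) (χ : SL F → ℂ)
    (hχ : IsIrrCharacter (SL F) χ) :
    (χ = (fun _ => 1) ∧ χ 1 = ((1 : ℕ) : ℂ)) ∨ (χ = st ∧ χ 1 = ((Fintype.card F : ℕ) : ℂ)) ∨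
    ((∃ α : MulChar F ℂ, α ^ 2 ≠ 1 ∧ χ = ps α) ∧ χ 1 = ((Fintype.card F + 1 : ℕ) : ℂ)) ∨
    (χ 1 = (((Fintype.card F + 1) / 2 : ℕ) : ℂ) ∧ S ε χ = 1 ∧ D ε χ ^ 2 = (sgn : MulChar F ℂ) (-1) * q ∧
      (∀ a : Fˣ, avg χ a = (sgn : MulChar F ℂ) (a : F)) ∧
      ∀ g : SL F, ¬ IsScal g → ((2 : F) = 0 ∨ SLTwoTrace.tr g ^ 2 ≠ 4) → 2 * χ g = ps sgn g) ∨
    (χ 1 = ((Fintype.card F - 1 : ℕ) : ℂ) ∧ avg χ 1 = 0 ∧ χ (upperU 1) = -1 ∧ χ (upperU (ε : F)) = -1) ∨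
    (χ 1 = (((Fintype.card F - 1) / 2 : ℕ) : ℂ) ∧ avg χ 1 = 0 ∧ S ε χ = -1 ∧
      D ε χ ^ 2 = (sgn : MulChar F ℂ) (-1) * q) := by
  classical
  obtain ⟨η, η', ξ, ξ', C, -, hsum, ht, -, -, -, hC, hη, hξ, hall⟩ := table_odd ε hodd hε
  obtain ⟨r, hr⟩ := hodd
  have hh1 : (Fintype.card F + 1) / 2 = r + 1 := by omega
  have hh2 : (Fintype.card F - 1) / 2 = r := by omega
  have hqr : q = 2 * (r : ℂ) + 1 := by rw [hr]; push_cast; ring
  have hhalf : ∀ z : IrrCharacter (SL F), z = η ∨ z = η' → ∀ g : SL F, ¬ IsScal g →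
      ((2 : F) = 0 ∨ SLTwoTrace.tr g ^ 2 ≠ 4) → 2 * (z : SL F → ℂ) g = ps sgn g := by
    intro z hz g hg h4
    obtain ⟨x, hx⟩ := isConj_iff.1 (twist_conj_of_tr ε g hg h4)
    have e : (η' : SL F → ℂ) g = (η : SL F → ℂ) g := by
      rw [ht, ← hx, isCharacter_classFunction η.2.isCharacter']
    have e' : (η : SL F → ℂ) g + (η' : SL F → ℂ) g = ps sgn g := congrFun hsum g
    rcases hz with rfl | rfl
    · linear_combination e' - e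
    · linear_combination e' + e
  rcases hall ⟨χ, hχ⟩ with h | h | h | h | h | h | h | h
  · exact Or.inl ⟨h, by simp at h; simp [h]⟩
  · refine Or.inr (Or.inl ⟨h, ?_⟩)
    simp at h
    rw [h, st_one]
  · obtain ⟨α, hα, e⟩ := (mem_psSet _).1 h
    simp at e
    refine Or.inr (Or.inr (Or.inl ⟨⟨α, hα, e⟩, ?_⟩))
    rw [e, ps_one, cast_q_add_one]
  · obtain ⟨h1, h2, h3, h4⟩ := hη _ (Or.inl h)
    refine Or.inr (Or.inr (Or.inr (Or.inl ⟨?_, h2, h3, h4, hhalf _ (Or.inl h)⟩)))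
    rw [hh1]
    push_cast
    linear_combination h1 / 2 + hqr / 2
  · obtain ⟨h1, h2, h3, h4⟩ := hη _ (Or.inr h)
    refine Or.inr (Or.inr (Or.inr (Or.inl ⟨?_, h2, h3, h4, hhalf _ (Or.inr h)⟩)))
    rw [hh1]
    push_cast
    linear_combination h1 / 2 + hqr / 2
  · obtain ⟨h1, h2, h3, h4⟩ := hC _ h
    refine Or.inr (Or.inr (Or.inr (Or.inr (Or.inl ⟨?_, h2, h3, h4⟩))))
    rw [← cast_q_sub_one]
    exact h1
  · obtain ⟨h1, h2, h3, h4⟩ := hξ _ (Or.inl h)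
    refine Or.inr (Or.inr (Or.inr (Or.inr (Or.inr ⟨?_, h2, h3, h4⟩))))
    rw [hh2]
    linear_combination h1 / 2 + hqr / 2
  · obtain ⟨h1, h2, h3, h4⟩ := hξ _ (Or.inr h)
    refine Or.inr (Or.inr (Or.inr (Or.inr (Or.inr ⟨?_, h2, h3, h4⟩))))
    rw [hh2]
    linear_combination h1 / 2 + hqr / 2

/-- Classification by degree, even `q`. -/
theorem kinds_even [CharP F 2] (χ : SL F → ℂ) (hχ : IsIrrCharacter (SL F) χ) :
    (χ = (fun _ => 1) ∧ χ 1 = ((1 : ℕ) : ℂ)) ∨ (χ = st ∧ χ 1 = ((Fintype.card F : ℕ) : ℂ)) ∨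
    ((∃ α : MulChar F ℂ, α ^ 2 ≠ 1 ∧ χ = ps α) ∧ χ 1 = ((Fintype.card F + 1 : ℕ) : ℂ)) ∨
    (χ 1 = ((Fintype.card F - 1 : ℕ) : ℂ) ∧ avg χ 1 = 0 ∧ χ (upperU 1) = -1) := by
  classical
  obtain ⟨-, C, -, hC, hall⟩ := table_even (F := F)
  rcases hall ⟨χ, hχ⟩ with h | h | h | h
  · exact Or.inl ⟨h, by simp at h; simp [h]⟩
  · refine Or.inr (Or.inl ⟨h, ?_⟩)
    simp at h
    rw [h, st_one]
  · obtain ⟨α, hα, e⟩ := (mem_psSet _).1 h
    simp at e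
    refine Or.inr (Or.inr (Or.inl ⟨⟨α, hα, e⟩, ?_⟩))
    rw [e, ps_one, cast_q_add_one]
  · obtain ⟨h1, h2, h3⟩ := hC _ h
    refine Or.inr (Or.inr (Or.inr ⟨?_, h2, h3⟩))
    rw [← cast_q_sub_one]
    exact h1

theorem charTwo_of_not_odd (h : ¬ Odd (Fintype.card F)) : CharP F 2 := by
  rw [← not_ne_iff (a := ringChar F) (b := 2) |>.1 fun h2 => h (Nat.odd_iff.2 (FiniteField.odd_card_of_char_ne_two h2))]
  exact ringChar.charP F

theorem sgn_neg_one (hodd : Odd (Fintype.card F)) :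
    (sgn : MulChar F ℂ) (-1) = (-1 : ℂ) ^ ((Fintype.card F - 1) / 2) := by
  have hm : Fintype.card F % 2 = 1 := Nat.odd_iff.1 hodd
  rw [sgn_apply, quadraticChar_neg_one (ringChar_ne_two hodd), ZMod.χ₄_eq_neg_one_pow hm,
    show Fintype.card F / 2 = (Fintype.card F - 1) / 2 by omega]
  push_cast
  rfl

/-- The degrees of the special characters, as natural numbers. -/
theorem table_deg (hodd : Odd (Fintype.card F)) (ε : Fˣ) (hε : ¬ IsSquare (ε : F)) :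
    ∃ η η' ξ ξ' : IrrCharacter (SL F), ∃ C : Finset (IrrCharacter (SL F)),
      η ≠ η' ∧ (∀ g, (η' : SL F → ℂ) g = (η : SL F → ℂ) (twist ε g)) ∧
      ξ ≠ ξ' ∧ (∀ g, (ξ' : SL F → ℂ) g = (ξ : SL F → ℂ) (twist ε g)) ∧ 2 * C.card = Fintype.card F - 1 ∧
      S ε (η : SL F → ℂ) = 1 ∧ S ε (ξ : SL F → ℂ) = -1 ∧
      (η : SL F → ℂ) 1 = (((Fintype.card F + 1) / 2 : ℕ) : ℂ) ∧ (η' : SL F → ℂ) 1 = (((Fintype.card F + 1) / 2 : ℕ) : ℂ) ∧
      (ξ : SL F → ℂ) 1 = (((Fintype.card F - 1) / 2 : ℕ) : ℂ) ∧ (ξ' : SL F → ℂ) 1 = (((Fintype.card F - 1) / 2 : ℕ) : ℂ) ∧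
      (∀ χ ∈ C, (χ : SL F → ℂ) 1 = ((Fintype.card F - 1 : ℕ) : ℂ)) ∧
      ∀ χ : IrrCharacter (SL F), (χ : SL F → ℂ) = (fun _ => 1) ∨ (χ : SL F → ℂ) = st ∨ χ ∈ psSet F ∨ χ = η ∨ χ = η' ∨
        χ ∈ C ∨ χ = ξ ∨ χ = ξ' := by
  obtain ⟨η, η', ξ, ξ', C, hne, -, ht, hne', ht', hcard, hC, hη, hξ, hall⟩ := table_odd ε hodd hε
  obtain ⟨r, hr⟩ := hodd
  have hh1 : (((Fintype.card F + 1) / 2 : ℕ) : ℂ) = (q + 1) / 2 := by
    rw [show (Fintype.card F + 1) / 2 = r + 1 by omega, hr]; push_cast; ring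
  have hh2 : (((Fintype.card F - 1) / 2 : ℕ) : ℂ) = (q - 1) / 2 := by
    rw [show (Fintype.card F - 1) / 2 = r by omega, hr]; push_cast; ring
  refine ⟨η, η', ξ, ξ', C, hne, ht, hne', ht', hcard, (hη η (Or.inl rfl)).2.1, (hξ ξ (Or.inl rfl)).2.2.1, ?_, ?_, ?_, ?_,
    fun χ hχ => ?_, hall⟩
  · rw [hh1]; linear_combination (hη η (Or.inl rfl)).1 / 2
  · rw [hh1]; linear_combination (hη η' (Or.inr rfl)).1 / 2
  · rw [hh2]; linear_combination (hξ ξ (Or.inl rfl)).1 / 2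
  · rw [hh2]; linear_combination (hξ ξ' (Or.inr rfl)).1 / 2
  · rw [← cast_q_sub_one]; exact (hC χ hχ).1

theorem card_deg_eq {d : ℂ} (T : Finset (IrrCharacter (SL F))) (h : ∀ χ : IrrCharacter (SL F), (χ : SL F → ℂ) 1 = d ↔ χ ∈ T) :
    Nat.card {χ : IrrCharacter (SL F) // (χ : SL F → ℂ) 1 = d} = T.card := by
  rw [← Fintype.card_coe T, ← Nat.card_eq_fintype_card]
  exact Nat.card_congr (Equiv.subtypeEquivRight h)

theorem st_apply (g : SL F) : st g = ps 1 g - 1 := rfl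

end CfsgLib.Lie.SLTwoTable
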