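/-
The characters of degree q - 1 of SL(2, q), q odd, attached to the characters of a non-split torus.
-/
import Cfsg.Agent.Lib.LieSLTwoTableCases
import Cfsg.Agent.Lib.LieSLTwoClassCount
import Mathlib.GroupTheory.FiniteAbelian.Duality

set_option autoImplicit false
set_option linter.unusedSectionVars false

namespace CfsgLib.Lie.SLTwoCusp

open Matrix Cfsg CfsgLib.Char CfsgLib.Lie.CharOrth CfsgLib.Lie.SLTwoPS CfsgLib.Dickson CfsgLib.Lie.SLTwoTable
open scoped ComplexConjugate

variable {F : Type*} [Field F] [Fintype F] [DecidableEq F]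

local notation "q" => (Fintype.card F : ℂ)

/-- having an eigenvector -/
def HasEig (g : SL F) : Prop := ∃ (a : F) (v : Fin 2 → F), v ≠ 0 ∧ g.1.mulVec v = a • v

theorem hasEig_conj {g : SL F} (x : SL F) (h : HasEig g) : HasEig (x * g * x⁻¹) := by
  obtain ⟨a, v, hv, hgv⟩ := h
  refine ⟨a, x.1.mulVec v, fun e => hv ?_, ?_⟩
  · have := congrArg (fun w => (x⁻¹ : SL F).1.mulVec w) e
    rwa [Matrix.mulVec_mulVec, ← Matrix.SpecialLinearGroup.coe_mul, inv_mul_cancel, Matrix.SpecialLinearGroup.coe_one,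
      Matrix.one_mulVec, Matrix.mulVec_zero] at this
  · rw [Matrix.mulVec_mulVec, ← Matrix.SpecialLinearGroup.coe_mul, inv_mul_cancel_right,
      Matrix.SpecialLinearGroup.coe_mul, ← Matrix.mulVec_mulVec, hgv, Matrix.mulVec_smul]

theorem hasEig_of_upper {g : SL F} (h : g.1 1 0 = 0) : HasEig g :=
  ⟨g.1 0 0, ![1, 0], fun e => one_ne_zero (congrFun e 0), by
    ext i; fin_cases i <;> simp [Matrix.mulVec, dotProduct, Fin.sum_univ_two, h]⟩

theorem not_hasEig_iff {g : SL F} :
    ¬ HasEig g ↔ ∀ (c : F) (v : Fin 2 → F), v ≠ 0 → g.1.mulVec v ≠ c • v := by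
  simp [HasEig]

theorem mem_center_iff {g : SL F} : g ∈ Subgroup.center (SL F) ↔ IsScal g := by
  refine ⟨fun h => ?_, fun h => Subgroup.mem_center_iff.2 fun k => (h.commute k).eq.symm⟩
  have h' : ∀ k : SL F, Commute g k := fun k => (Subgroup.mem_center_iff.1 h k).symm
  obtain ⟨a1, a2, a3⟩ := commute_iff_entries.1 (h' (upperU 1))
  obtain ⟨b1, b2, b3⟩ := commute_iff_entries.1 (h' (lowerU 1))
  simp [coe_upperU] at a1 a2 a3
  simp [coe_lowerU] at b1 b2 b3
  refine ⟨?_, ?_, ?_⟩ <;>
    first | assumption | exact a1.symm | exact b1.symm | linear_combination a2 | linear_combination -a2 | linear_combination b3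

theorem scal_cases {g : SL F} (h : IsScal g) : g = 1 ∨ g = -1 := by
  have hd := det_eq g
  rw [h.1, zero_mul, sub_zero, ← h.2.2, ← sq, sq_eq_one_iff] at hd
  rcases hd with e | e
  · exact Or.inl (sl_ext (by simp [e]) (by simp [h.1]) (by simp [h.2.1]) (by simp [← h.2.2, e]))
  · exact Or.inr (sl_ext (by simp [e]) (by simp [h.1]) (by simp [h.2.1]) (by simp [← h.2.2, e]))

theorem isScal_of_sq (h2 : (2 : F) ≠ 0) {y : SL F} (hy : y * y = 1) : IsScal y := by
  have h := congrArg Subtype.val hy
  rw [Matrix.SpecialLinearGroup.coe_mul, SLTwoClasses.mul_self_eq] at h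
  set t := y.1 0 0 + y.1 1 1
  have e00 := congrFun (congrFun h 0) 0
  have e01 := congrFun (congrFun h 0) 1
  have e10 := congrFun (congrFun h 1) 0
  have e11 := congrFun (congrFun h 1) 1
  simp at e00 e01 e10 e11
  have ht : t ≠ 0 := fun e => h2 (by rw [e, zero_mul] at e00; linear_combination -e00)
  exact ⟨e01.resolve_left ht, e10.resolve_left ht, mul_left_cancel₀ ht (by linear_combination e00 - e11)⟩

theorem st_neg (g : SL F) : st (-g) = st g := by
  rw [st_apply, st_apply, SLTwoPS.ps, SLTwoPrincipal.indFun_eq, SLTwoPrincipal.indFun_eq]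
  congr 1
  have hneg : ∀ x : F, (1 : MulChar F ℂ) (-x) = (1 : MulChar F ℂ) x := fun x => by
    by_cases hx : x = 0
    · rw [hx, neg_zero]
    · rw [MulChar.one_apply (neg_ne_zero.2 hx).isUnit, MulChar.one_apply (Ne.isUnit hx)]
  congr 1
  · simp [hneg]
  · refine Finset.sum_congr rfl fun c _ => ?_
    simp only [Matrix.SpecialLinearGroup.coe_neg, Matrix.neg_apply, neg_mul, ← neg_add, mul_neg, neg_inj, hneg]

theorem ps_neg (α : MulChar F ℂ) (g : SL F) : ps α (-g) = α (-1) * ps α g := by
  rw [SLTwoPS.ps, SLTwoPrincipal.indFun_eq, SLTwoPrincipal.indFun_eq, mul_add, Finset.mul_sum]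
  have hneg : ∀ x : F, α (-x) = α (-1) * α x := fun x => by rw [← map_mul, neg_one_mul]
  congr 1
  · simp [hneg (g.1 0 0), mul_ite]
  · refine Finset.sum_congr rfl fun c _ => ?_
    simp only [Matrix.SpecialLinearGroup.coe_neg, Matrix.neg_apply, neg_mul, ← neg_add, mul_neg, neg_inj, mul_ite,
      mul_zero, hneg (g.1 1 0 * c + g.1 1 1)]

theorem norm_hom {G : Type*} [Group G] [Finite G] (f : G →* ℂˣ) (x : G) :
    conj (f x : ℂ) = ((f x)⁻¹ : ℂˣ) := by
  rw [Units.val_inv_eq_inv_val]
  refine (inv_eq_conj_of_pow_eq_one (orderOf_pos x) ?_).symm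
  rw [← Units.val_pow_eq_pow_val, ← map_pow, pow_orderOf_eq_one, map_one, Units.val_one]

theorem sum_hom {G : Type*} [Group G] [Fintype G] (f : G →* ℂˣ) (hf : f ≠ 1) : ∑ x : G, (f x : ℂ) = 0 := by
  obtain ⟨y, hy⟩ : ∃ y, f y ≠ 1 := not_forall.1 fun h => hf (MonoidHom.ext h)
  have e : (f y : ℂ) * ∑ x : G, (f x : ℂ) = ∑ x : G, (f x : ℂ) := by
    rw [Finset.mul_sum]
    exact Fintype.sum_equiv (Equiv.mulLeft y) _ _ fun x => by simp [map_mul]
  by_contra h0
  exact hy (Units.ext ((mul_eq_right₀ h0).1 e))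

section Torus

variable (hodd : Odd (Fintype.card F)) (C : Subgroup (SL F)) [hC : IsCyclic C]
  (hcard : Nat.card C = Fintype.card F + 1)

include hodd

theorem two_ne_zero' : (2 : F) ≠ 0 := SLTwoCount.two_ne_zero_of_odd hodd

include hC in
theorem torus_comm {x y : SL F} (hx : x ∈ C) (hy : y ∈ C) : x * y = y * x := by
  letI := IsCyclic.commGroup (α := C)
  exact congrArg Subtype.val (mul_comm (⟨x, hx⟩ : C) ⟨y, hy⟩)

include hcard

theorem pow_card_eq {x : SL F} (hx : x ∈ C) : x ^ (Fintype.card F + 1) = 1 := by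
  rw [← hcard]
  exact congrArg Subtype.val (pow_card_eq_one' (x := (⟨x, hx⟩ : C)))

theorem neg_one_mem : (-1 : SL F) ∈ C := by
  haveI := Fact.mk Nat.prime_two
  obtain ⟨y, hy⟩ := exists_prime_orderOf_dvd_card' (G := C) 2 (by rw [hcard]; rw [Nat.odd_iff] at hodd; omega)
  have hyy : (y : SL F) * y = 1 := by
    have := pow_orderOf_eq_one y
    rw [hy, sq] at this
    exact congrArg Subtype.val this
  rcases scal_cases (isScal_of_sq (two_ne_zero' hodd) hyy) with e | e
  · have : y = 1 := Subtype.ext e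
    rw [this, orderOf_one] at hy
    omega
  · exact e ▸ y.2

theorem no_eig {c : SL F} (hc : c ∈ C) (hs : ¬ IsScal c) : ¬ HasEig c := by
  rintro ⟨a, v, hv, hcv⟩
  have hpow : ∀ n : ℕ, (c ^ n).1.mulVec v = a ^ n • v := fun n => by
    induction n with
    | zero => simp
    | succ n ih => rw [pow_succ, Matrix.SpecialLinearGroup.coe_mul, ← Matrix.mulVec_mulVec, hcv, Matrix.mulVec_smul, ih,
        smul_smul, pow_succ, mul_comm]
  have h1 : a ^ (Fintype.card F + 1) = 1 := by
    have := hpow (Fintype.card F + 1)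
    rw [pow_card_eq hodd C hcard hc, Matrix.SpecialLinearGroup.coe_one, Matrix.one_mulVec] at this
    by_contra hne
    have h' : (a ^ (Fintype.card F + 1) - 1) • v = 0 := by rw [sub_smul, one_smul, ← this, sub_self]
    exact hv ((smul_eq_zero.1 h').resolve_left (sub_ne_zero.2 hne))
  have ha0 : a ≠ 0 := fun e => by simp [e] at h1
  have h2 : a ^ 2 = 1 := by
    have hq := FiniteField.pow_card a
    rw [pow_succ, hq] at h1
    rw [sq]; exact h1
  -- the trace
  have hdet : (c.1 - a • (1 : Matrix (Fin 2) (Fin 2) F)).det = 0 := by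
    refine Matrix.exists_mulVec_eq_zero_iff.1 ⟨v, hv, ?_⟩
    rw [Matrix.sub_mulVec, hcv, Matrix.smul_mulVec, Matrix.one_mulVec, sub_self]
  rw [Matrix.det_fin_two] at hdet
  simp at hdet
  have hd := det_eq c
  have htr : c.1 0 0 + c.1 1 1 = 2 * a :=
    mul_left_cancel₀ ha0 (by linear_combination -hdet + hd - h2)
  obtain ⟨p, hp⟩ := CharP.exists F
  obtain ⟨n, hpp, hn⟩ := FiniteField.card F p
  haveI := Fact.mk hpp
  have hcop : Nat.Coprime p (2 * (Fintype.card F + 1)) := by
    rw [Nat.Prime.coprime_iff_not_dvd hpp, hpp.dvd_mul, not_or]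
    have hdv : p ∣ Fintype.card F := hn ▸ dvd_pow_self p n.ne_zero
    refine ⟨fun h => ?_, fun h => hpp.ne_one (Nat.dvd_one.1 ((Nat.dvd_add_right hdv).1 h))⟩
    have := (Nat.prime_dvd_prime_iff_eq hpp Nat.prime_two).1 h
    rw [Nat.odd_iff] at hodd
    rw [this] at hdv
    omega
  have key : ∀ c' : SL F, (c' = c ∨ c' = -c) → c'.1 0 0 + c'.1 1 1 = 2 → False := by
    intro c' hc' ht
    have e1 := pow_eq_one_of_trace (p := p) ht
    have e2 : c' ^ (2 * (Fintype.card F + 1)) = 1 := by
      have : c' ^ 2 = c ^ 2 := by rcases hc' with rfl | rfl <;> simp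
      rw [pow_mul, this, ← pow_mul, mul_comm, pow_mul, pow_card_eq hodd C hcard hc, one_pow]
    have : orderOf c' = 1 :=
      Nat.eq_one_of_dvd_coprimes hcop (orderOf_dvd_of_pow_eq_one e1) (orderOf_dvd_of_pow_eq_one e2)
    rw [orderOf_eq_one_iff] at this
    rcases hc' with rfl | h
    · exact hs (this ▸ isScal_one)
    · exact hs (isScal_neg_iff.1 (h ▸ this ▸ isScal_one))
  rcases sq_eq_one_iff.1 h2 with e | e
  · exact key c (Or.inl rfl) (by rw [htr, e, mul_one])
  · exact key (-c) (Or.inr rfl) (by simp; linear_combination -htr - 2 * e)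

theorem coords_ne {c : SL F} (hc : c ∈ C) (hs : ¬ IsScal c) : c.1 0 1 ≠ 0 := fun e =>
  no_eig hodd C hcard hc hs ⟨c.1 1 1, ![0, 1], fun h => one_ne_zero (congrFun h 1), by
    ext i; fin_cases i <;> simp [Matrix.mulVec, dotProduct, Fin.sum_univ_two, e]⟩

include hC in
theorem card_cent {c : SL F} (hc : c ∈ C) (hs : ¬ IsScal c) :
    Nat.card (Subgroup.centralizer ({c} : Set (SL F))) = Fintype.card F + 1 := by
  classical
  have hle : C ≤ Subgroup.centralizer ({c} : Set (SL F)) := fun x hx =>
    Subgroup.mem_centralizer_singleton_iff.2 (torus_comm hodd C hx hc)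
  have hdvd := Subgroup.card_dvd_of_le hle
  rw [hcard] at hdvd
  have hb := coords_ne hodd C hcard hc hs
  let f : Subgroup.centralizer ({c} : Set (SL F)) → F := fun x => x.1.1 0 1 / c.1 0 1
  have hfib : ∀ b : F, (Finset.univ.filter fun x => f x = b).card ≤ 2 := by
    intro b
    by_contra hlt
    push Not at hlt
    obtain ⟨x, hx, y, hy, z, hz, hxy, hxz, hyz⟩ := Finset.two_lt_card.1 hlt
    have hform : ∀ w, w ∈ (Finset.univ.filter fun x => f x = b) → w.1.1 0 1 = b * c.1 0 1 ∧ w.1.1 1 0 = b * c.1 1 0 ∧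
        w.1.1 0 0 - w.1.1 1 1 = b * (c.1 0 0 - c.1 1 1) := by
      intro w hw
      obtain ⟨β, b1, b2, b3⟩ := exists_coeff hs (g := w.1) (Subgroup.mem_centralizer_singleton_iff.1 w.2)
      have : β = b := by
        rw [← (Finset.mem_filter.1 hw).2]
        simp only [f, b1]
        field_simp
      subst this
      exact ⟨b1, b2, b3⟩
    have heq : ∀ w w', w ∈ (Finset.univ.filter fun x => f x = b) → w' ∈ (Finset.univ.filter fun x => f x = b) →
        w ≠ w' → w.1.1 0 0 + w'.1.1 0 0 = b * (c.1 0 0 - c.1 1 1) := by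
      intro w w' hw hw' hne
      obtain ⟨a1, a2, a3⟩ := hform w hw
      obtain ⟨c1, c2, c3⟩ := hform w' hw'
      have d1 := det_eq w.1
      have d2 := det_eq w'.1
      have hd : w.1.1 0 0 ≠ w'.1.1 0 0 := fun e => hne (Subtype.ext (sl_ext e (a1.trans c1.symm) (a2.trans c2.symm)
        (by linear_combination e - a3 + c3)))
      refine mul_left_cancel₀ (sub_ne_zero.2 hd) ?_
      rw [a1, a2] at d1
      rw [c1, c2] at d2
      linear_combination d1 - d2 + w.1.1 0 0 * a3 - w'.1.1 0 0 * c3
    have e1 := heq x y hx hy hxy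
    have e2 := heq x z hx hz hxz
    obtain ⟨a1, a2, a3⟩ := hform y hy
    obtain ⟨c1, c2, c3⟩ := hform z hz
    exact hyz (Subtype.ext (sl_ext (by linear_combination e1 - e2) (a1.trans c1.symm) (a2.trans c2.symm)
      (by linear_combination e1 - e2 - a3 + c3)))
  have hbound := Finset.card_le_mul_card_image (f := f) (Finset.univ : Finset (Subgroup.centralizer ({c} : Set (SL F)))) 2
    (fun b _ => hfib b)
  have himg := Finset.card_le_univ ((Finset.univ : Finset (Subgroup.centralizer ({c} : Set (SL F)))).image f)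
  rw [Finset.card_univ, ← Nat.card_eq_fintype_card] at hbound
  obtain ⟨k, hk⟩ := hdvd
  have hpos : 0 < Nat.card (Subgroup.centralizer ({c} : Set (SL F))) := Nat.card_pos
  rcases Nat.lt_or_ge k 2 with h | h
  · interval_cases k <;> omega
  · have := Nat.mul_le_mul_left (Fintype.card F + 1) h
    omega

include hC in
theorem eq_or_inv {c d : SL F} (hc : c ∈ C) (hs : ¬ IsScal c) (hd : d ∈ C)
    (ht : SLTwoTrace.tr d = SLTwoTrace.tr c) : d = c ∨ d = c⁻¹ := by
  obtain ⟨β, b1, b2, b3⟩ := exists_coeff hs (g := d) (torus_comm hodd C hd hc)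
  have h2 := two_ne_zero' hodd
  have hne := no_eig hodd C hcard hc hs
  have ht4 : SLTwoTrace.tr c ^ 2 ≠ 4 :=
    ((no_eigen_data (not_hasEig_iff.1 hne)).2).resolve_left h2
  have e1 := det_eq c
  have e2 := det_eq d
  simp only [SLTwoTrace.tr] at ht ht4
  have hβ : β ^ 2 = 1 := by
    refine mul_right_cancel₀ (sub_ne_zero.2 ht4) ?_
    rw [b1, b2] at e2
    linear_combination 4 * β ^ 2 * e1 - 4 * e2 + (d.1 0 0 + d.1 1 1 + c.1 0 0 + c.1 1 1) * ht -
      ((d.1 0 0 - d.1 1 1) + β * (c.1 0 0 - c.1 1 1)) * b3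
  rcases sq_eq_one_iff.1 hβ with e | e <;> rw [e] at b1 b2 b3
  · refine Or.inl (sl_ext (mul_left_cancel₀ h2 ?_) (by linear_combination b1) (by linear_combination b2) (mul_left_cancel₀ h2 ?_))
    · linear_combination ht + b3
    · linear_combination ht - b3
  · have hinv : (c⁻¹).1 = !![c.1 1 1, -c.1 0 1; -c.1 1 0, c.1 0 0] := by
      rw [Matrix.SpecialLinearGroup.coe_inv, Matrix.adjugate_fin_two]
    refine Or.inr (sl_ext ?_ ?_ ?_ ?_) <;> rw [hinv] <;>
      simp only [Matrix.of_apply, Matrix.cons_val', Matrix.cons_val_zero, Matrix.cons_val_one, Matrix.cons_val_fin_one]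
    · refine mul_left_cancel₀ h2 ?_
      linear_combination ht + b3
    · linear_combination b1
    · linear_combination b2
    · refine mul_left_cancel₀ h2 ?_
      linear_combination ht - b3

theorem indC_zero (θ : C → ℂ) {g : SL F} (hg : HasEig g) (hs : ¬ IsScal g) : indFun C θ g = 0 := by
  rw [indFun_apply, Finset.sum_eq_zero, mul_zero]
  intro x _
  refine extendByZero_not_mem _ fun hx => ?_
  have he : HasEig (x⁻¹ * g * x) := by simpa using hasEig_conj x⁻¹ hg
  by_cases hsx : IsScal (x⁻¹ * g * x)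
  · refine hs ?_
    have : g = x⁻¹ * g * x := by
      calc g = x * (x⁻¹ * g * x) * x⁻¹ := by group
        _ = x⁻¹ * g * x := by rw [← (hsx.commute x).eq]; group
    exact this ▸ hsx
  · exact no_eig hodd C hcard hx hsx he

include hC in
theorem indC_mem (θ : C →* ℂˣ) (c : C) (hs : ¬ IsScal (c : SL F)) :
    indFun C (fun y => (θ y : ℂ)) (c : SL F) = (θ c : ℂ) + ((θ c)⁻¹ : ℂˣ) := by
  classical
  have h2 := two_ne_zero' hodd
  have hne : (c : SL F) ≠ (c : SL F)⁻¹ := fun e => hs (isScal_of_sq h2 (by nth_rewrite 2 [e]; exact mul_inv_cancel _))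
  have hdata := no_eigen_data (not_hasEig_iff.1 (no_eig hodd C hcard c.2 hs))
  obtain ⟨w, hw⟩ : ∃ w : SL F, w⁻¹ * (c : SL F) * w = (c : SL F)⁻¹ := by
    obtain ⟨x, hx⟩ := isConj_iff.1 (SLTwoTrace.isConj_of_tr hs (fun h => hs (by
      obtain ⟨a, b, d⟩ := h
      simp [Matrix.SpecialLinearGroup.coe_inv, Matrix.adjugate_fin_two] at a b d
      exact ⟨a, b, d.symm⟩) ) (show SLTwoTrace.tr (c : SL F) = SLTwoTrace.tr (c : SL F)⁻¹ by
        simp [SLTwoTrace.tr, Matrix.SpecialLinearGroup.coe_inv, Matrix.adjugate_fin_two, add_comm]) hdata.2)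
    exact ⟨x⁻¹, by rw [inv_inv]; exact hx⟩
  have hterm : ∀ x : SL F, extendByZero C (fun y => (θ y : ℂ)) (x⁻¹ * (c : SL F) * x) =
      (if x⁻¹ * (c : SL F) * x = c then (θ c : ℂ) else 0) + (if x⁻¹ * (c : SL F) * x = (c : SL F)⁻¹ then (((θ c)⁻¹ : ℂˣ) : ℂ) else 0) := by
    intro x
    by_cases h : x⁻¹ * (c : SL F) * x ∈ C
    · rw [extendByZero_mem _ h]
      have ht : SLTwoTrace.tr (x⁻¹ * (c : SL F) * x) = SLTwoTrace.tr (c : SL F) := by
        simpa using SLTwoTrace.tr_conj x⁻¹ (c : SL F)
      rcases eq_or_inv hodd C hcard c.2 hs h ht with e | e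
      · rw [if_pos e, if_neg (fun e' => hne (e.symm.trans e')), add_zero,
          show (⟨_, h⟩ : C) = c from Subtype.ext e]
      · rw [if_neg (fun e' => hne (e'.symm.trans e)), if_pos e, zero_add,
          show (⟨_, h⟩ : C) = c⁻¹ from Subtype.ext e, map_inv]
    · rw [extendByZero_not_mem _ h, if_neg (fun e : x⁻¹ * (c : SL F) * x = c => h (by rw [e]; exact c.2)),
        if_neg (fun e : x⁻¹ * (c : SL F) * x = (c : SL F)⁻¹ => h (by rw [e]; exact inv_mem c.2)), add_zero]
  have hcount : ∀ (d : SL F) (w : SL F), w⁻¹ * (c : SL F) * w = d →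
      (Finset.univ.filter fun x : SL F => x⁻¹ * (c : SL F) * x = d).card = Fintype.card F + 1 := by
    intro d w hw
    rw [← card_cent hodd C hcard c.2 hs, ← Fintype.card_subtype, ← Nat.card_eq_fintype_card]
    refine Nat.card_congr
      { toFun := fun x => ⟨x.1 * w⁻¹, Subgroup.mem_centralizer_singleton_iff.2 ?_⟩
        invFun := fun y => ⟨y.1 * w, ?_⟩
        left_inv := fun x => Subtype.ext (by simp)
        right_inv := fun y => Subtype.ext (by simp) }
    · have e : x.1⁻¹ * (c : SL F) * x.1 = w⁻¹ * (c : SL F) * w := x.2.trans hw.symm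
      calc x.1 * w⁻¹ * (c : SL F) = x.1 * (w⁻¹ * (c : SL F) * w) * w⁻¹ := by group
        _ = (c : SL F) * (x.1 * w⁻¹) := by rw [← e]; group
    · have e := Subgroup.mem_centralizer_singleton_iff.1 y.2
      calc (y.1 * w)⁻¹ * (c : SL F) * (y.1 * w) = w⁻¹ * (y.1⁻¹ * ((c : SL F) * y.1)) * w := by group
        _ = d := by rw [← e, inv_mul_cancel_left, hw]
  rw [indFun_apply]
  simp only [hterm]
  rw [Finset.sum_add_distrib, ← Finset.sum_filter, ← Finset.sum_filter, Finset.sum_const, Finset.sum_const,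
    hcount _ 1 (by simp), hcount _ w hw, nsmul_eq_mul, nsmul_eq_mul, hcard]
  have : ((Fintype.card F + 1 : ℕ) : ℂ) ≠ 0 := Nat.cast_ne_zero.2 (by omega)
  field_simp

/-- the class function attached to a character of the torus -/
noncomputable def X (ω : MulChar F ℂ) (θ : C →* ℂˣ) : SL F → ℂ :=
  (st * ps ω - ps ω) - indFun C (fun y => (θ y : ℂ))

theorem isGenChar_X (ω : MulChar F ℂ) (θ : C →* ℂˣ) : IsGeneralizedCharacter (SL F) (X C ω θ) :=
  isGenChar_sub (isGenChar_sub (isGenChar_of_isCharacter (isCharacter_mul isIrr_st.isCharacter' (isCharacter_ps ω)))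
    (isGenChar_of_isCharacter (isCharacter_ps ω))) (isGenChar_of_isCharacter (isCharacter_indFun (isCharacter_hom θ)))

theorem indC_one (θ : C →* ℂˣ) : indFun C (fun y => (θ y : ℂ)) 1 = q * (q - 1) := by
  rw [indFun_one_apply, map_one, Units.val_one, mul_one]
  have h := congrArg (fun n : ℕ => (n : ℂ)) C.index_mul_card
  rw [CfsgLib.Classical.Two.card_sl_two, hcard] at h
  push_cast [Nat.cast_sub (Fintype.card_pos (α := F))] at h
  have h1 : q + 1 ≠ 0 := by exact_mod_cast (Nat.succ_ne_zero (Fintype.card F))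
  exact mul_right_cancel₀ h1 h

theorem X_one (ω : MulChar F ℂ) (θ : C →* ℂˣ) : X C ω θ 1 = q - 1 := by
  simp only [X, Pi.sub_apply, Pi.mul_apply]
  rw [st_one, ps_one, indC_one hodd C hcard θ]
  ring

theorem X_neg (ω : MulChar F ℂ) (θ : C →* ℂˣ) (hω : ω (-1) = θ ⟨-1, neg_one_mem hodd C hcard⟩) (g : SL F) :
    X C ω θ (-g) = ω (-1) * X C ω θ g := by
  simp only [X, Pi.sub_apply, Pi.mul_apply, st_neg, ps_neg]
  have h : indFun C (fun y => (θ y : ℂ)) (-g) = ω (-1) * indFun C (fun y => (θ y : ℂ)) g := by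
    simp only [indFun_apply, Finset.mul_sum]
    refine Finset.sum_congr rfl fun x _ => ?_
    rw [show x⁻¹ * -g * x = -(x⁻¹ * g * x) by simp]
    have hm := neg_one_mem hodd C hcard
    by_cases hx : x⁻¹ * g * x ∈ C
    · have hx' : -(x⁻¹ * g * x) ∈ C := by rw [← neg_one_mul]; exact mul_mem hm hx
      rw [extendByZero_mem _ hx, extendByZero_mem _ hx', hω,
        show (⟨_, hx'⟩ : C) = ⟨-1, hm⟩ * ⟨_, hx⟩ from Subtype.ext (neg_one_mul _).symm, map_mul, Units.val_mul]
      ring
    · have hx' : -(x⁻¹ * g * x) ∉ C := fun h' => hx (by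
        have := mul_mem hm h'
        simpa using this)
      rw [extendByZero_not_mem _ hx, extendByZero_not_mem _ hx']
      simp
  rw [h]
  ring

theorem X_unip (ω : MulChar F ℂ) (θ : C →* ℂˣ) {z : F} (hz : z ≠ 0) : X C ω θ (upperU z) = -1 := by
  have hps : ∀ α : MulChar F ℂ, ps α (upperU z) = 1 := fun α => by
    rw [SLTwoPS.ps, (SLTwoPrincipal.values α _).2.2.1 (by simp [coe_upperU]) (by simp [coe_upperU])
      (by simpa [coe_upperU] using hz)]
    simp [coe_upperU]
  simp only [X, Pi.sub_apply, Pi.mul_apply, st_apply, hps]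
  rw [indC_zero hodd C hcard _ (hasEig_of_upper (by simp [coe_upperU])) (SLTwoClasses.not_isScal_upperU hz)]
  ring

theorem X_split (ω : MulChar F ℂ) (θ : C →* ℂˣ) {g : SL F} (h01 : g.1 0 1 = 0) (h10 : g.1 1 0 = 0)
    (ha : g.1 0 0 ^ 2 ≠ 1) : X C ω θ g = 0 := by
  have hd := det_eq g
  rw [h01, zero_mul, sub_zero] at hd
  have hu0 : g.1 0 0 ≠ 0 := fun e => by rw [e, zero_mul] at hd; exact zero_ne_one hd
  have hu1 : g.1 1 1 ≠ 0 := fun e => by rw [e, mul_zero] at hd; exact zero_ne_one hd
  have hps := (SLTwoPrincipal.values (1 : MulChar F ℂ) g).1 h01 h10 ha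
  simp only [X, Pi.sub_apply, Pi.mul_apply, st_apply]
  rw [show ps (1 : MulChar F ℂ) g = 1 + 1 by
    rw [SLTwoPS.ps, hps, MulChar.one_apply hu0.isUnit, MulChar.one_apply hu1.isUnit],
    indC_zero hodd C hcard _ (hasEig_of_upper h10) (fun hs => ha (by
      rw [← hs.2.2, ← sq] at hd; exact hd))]
  ring

include hC in
theorem X_torus (ω : MulChar F ℂ) (θ : C →* ℂˣ) (c : C) (hs : ¬ IsScal (c : SL F)) :
    X C ω θ (c : SL F) = -((θ c : ℂ) + ((θ c)⁻¹ : ℂˣ)) := by
  have hne := not_hasEig_iff.1 (no_eig hodd C hcard c.2 hs)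
  simp only [X, Pi.sub_apply, Pi.mul_apply]
  rw [ps_no_eigen ω hne, indC_mem hodd C hcard θ c hs]
  ring

theorem X_up (ω : MulChar F ℂ) (θ : C →* ℂˣ) (hω : ω (-1) = θ ⟨-1, neg_one_mem hodd C hcard⟩) (a : Fˣ) (z : F) :
    X C ω θ (up a z) = if (a : F) ^ 2 = 1 then (if z = 0 then ω (a : F) * (q - 1) else -ω (a : F)) else 0 := by
  split_ifs with h h'
  · subst h'
    rcases sq_eq_one_iff.1 h with e | e
    · rw [show up a (0 : F) = 1 from sl_ext (by simp [up, e]) (by simp [up]) (by simp [up]) (by simp [up, e]),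
        X_one hodd C hcard, e, map_one, one_mul]
    · rw [show up a (0 : F) = -1 from sl_ext (by simp [up, e]) (by simp [up]) (by simp [up]) (by simp [up, e]),
        X_neg hodd C hcard ω θ hω, X_one hodd C hcard, e]
  · rcases sq_eq_one_iff.1 h with e | e
    · rw [show up a z = upperU z from sl_ext (by simp [up, coe_upperU, e]) (by simp [up, coe_upperU])
        (by simp [up, coe_upperU]) (by simp [up, coe_upperU, e]), X_unip hodd C hcard _ _ h', e, map_one]
    · rw [show up a z = -upperU (-z) from sl_ext (by simp [up, coe_upperU, e]) (by simp [up, coe_upperU])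
        (by simp [up, coe_upperU]) (by simp [up, coe_upperU, e]), X_neg hodd C hcard ω θ hω,
        X_unip hodd C hcard _ _ (neg_ne_zero.2 h'), e, mul_neg_one]
  · obtain ⟨x, hx⟩ := up_zero_conj a h z
    rw [← hx, isGenChar_classFunction (isGenChar_X hodd C hcard ω θ)]
    exact X_split hodd C hcard ω θ (by simp [up]) (by simp [up]) (by simpa [up] using h)

theorem avg_X (ω : MulChar F ℂ) (θ : C →* ℂˣ) (hω : ω (-1) = θ ⟨-1, neg_one_mem hodd C hcard⟩) :
    avg (X C ω θ) 1 = 0 := by
  simp only [avg, X_up hodd C hcard ω θ hω, Units.val_one, one_pow, if_true, map_one, one_mul]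
  rw [← Finset.add_sum_erase _ _ (Finset.mem_univ (0 : F)), if_pos rfl,
    Finset.sum_congr rfl (fun z hz => if_neg (Finset.mem_erase.1 hz).1), Finset.sum_const,
    Finset.card_erase_of_mem (Finset.mem_univ _), Finset.card_univ, nsmul_eq_mul,
    Nat.cast_sub (Fintype.card_pos (α := F)), Nat.cast_one]
  ring

include hC in
theorem isIrr_X (ω : MulChar F ℂ) (θ : C →* ℂˣ) (hω : ω (-1) = θ ⟨-1, neg_one_mem hodd C hcard⟩)
    (hθ : θ * θ ≠ 1) : IsIrrCharacter (SL F) (X C ω θ) := by
  classical
  have hg := isGenChar_X hodd C hcard ω θ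
  have hcl := isGenChar_classFunction hg
  have hqF : 1 < Fintype.card F := Fintype.one_lt_card
  refine isIrr_of_genChar_norm_one hg ?_ ?_
  swap
  · rw [X_one hodd C hcard, cast_q_sub_one, Complex.natCast_re]
    exact Nat.cast_nonneg _
  have hψcl : IsClassFunction (SL F) (st - fun _ => (1 : ℂ)) := fun g h => by
    show st (h * g * h⁻¹) - 1 = st g - 1
    rw [isCharacter_classFunction isIrr_st.isCharacter' g h]
  have e0 : st * ps ω - ps ω = ps ω * (st - fun _ => (1 : ℂ)) := by
    funext g; simp only [Pi.sub_apply, Pi.mul_apply]; ring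
  have h1 : classInner (st * ps ω - ps ω) (X C ω θ) = 2 := by
    rw [e0]
    show classInner (indFun ((Cfsg.upperTriangularGL 2 F).comap Matrix.SpecialLinearGroup.toGL) _ * _) _ = _
    rw [indFun_mul _ _ hψcl, CfsgLib.Char.frobenius _ _ hcl]
    simp only [classInner]
    rw [← Equiv.sum_comp bEquiv, SLTwoPS.card_borel, Fintype.sum_prod_type]
    have hb : ∀ a z, ((bEquiv (a, z) : ↥((Cfsg.upperTriangularGL 2 F).comap Matrix.SpecialLinearGroup.toGL)) : SL F) = up a z :=
      fun a z => rfl
    simp only [hb, Pi.mul_apply, Pi.sub_apply, show ∀ (a : Fˣ) (z : F), (up a z).1 0 0 = (a : F) from fun a z => by simp [up]]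
    have hin : ∀ a : Fˣ, ∑ z : F, ω (a : F) * (st (up a z) - 1) * conj (X C ω θ (up a z)) =
        if (a : F) ^ 2 = 1 then q * (q - 1) else 0 := by
      intro a
      split_ifs with h
      · have hst : ∀ z : F, st (up a z) = if z = 0 then q else 0 := by
          intro z
          rcases sq_eq_one_iff.1 h with e | e <;> split_ifs with hz
          · rw [show up a z = 1 from sl_ext (by simp [up, e]) (by simp [up, hz]) (by simp [up]) (by simp [up, e]), st_one]
          · rw [st_apply, SLTwoPS.ps, (SLTwoPrincipal.values (1 : MulChar F ℂ) (up a z)).2.2.1 (by simp [up])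
              (by simp [up, e]) (by simpa [up] using hz), MulChar.one_apply (by simp [up, e])]
            ring
          · rw [show up a z = -1 from sl_ext (by simp [up, e]) (by simp [up, hz]) (by simp [up]) (by simp [up, e]),
              st_neg, st_one]
          · rw [st_apply, SLTwoPS.ps, (SLTwoPrincipal.values (1 : MulChar F ℂ) (up a z)).2.2.1 (by simp [up])
              (by simp [up, e]) (by simpa [up] using hz), MulChar.one_apply (by simp [up, e])]
            ring
        have hω1 : ω (a : F) * conj (ω (a : F)) = 1 := by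
          rw [conj_apply, ← MulChar.mul_apply, mul_inv_cancel, MulChar.one_apply_coe]
        have hterm : ∀ z : F, ω (a : F) * (st (up a z) - 1) * conj (X C ω θ (up a z)) =
            if z = 0 then (q - 1) * (q - 1) else 1 := by
          intro z
          rw [hst, X_up hodd C hcard ω θ hω, if_pos h]
          split_ifs
          · rw [map_mul, map_sub, Complex.conj_natCast, map_one]
            linear_combination (q - 1) * (q - 1) * hω1
          · rw [map_neg]
            linear_combination hω1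
        rw [Finset.sum_congr rfl fun z _ => hterm z, ← Finset.add_sum_erase _ _ (Finset.mem_univ (0 : F)), if_pos rfl,
          Finset.sum_congr rfl (fun z hz => if_neg (Finset.mem_erase.1 hz).1), Finset.sum_const,
          Finset.card_erase_of_mem (Finset.mem_univ _), Finset.card_univ, nsmul_eq_mul,
          Nat.cast_sub (Fintype.card_pos (α := F)), Nat.cast_one]
        ring
      · refine Finset.sum_eq_zero fun z _ => ?_
        rw [X_up hodd C hcard ω θ hω, if_neg h, map_zero, mul_zero]
    rw [Finset.sum_congr rfl (fun a _ => hin a), ← Finset.sum_filter, Finset.sum_const, nsmul_eq_mul]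
    have h2card : (Finset.univ.filter fun a : Fˣ => (a : F) ^ 2 = 1).card = 2 := by
      rw [← Fintype.card_subtype, ← Nat.card_eq_fintype_card]
      exact (Nat.card_congr (Equiv.subtypeEquivRight fun a => by rw [← Units.val_pow_eq_pow_val, Units.val_eq_one])).trans
        (SLTwoCount.card_sq_one (two_ne_zero' hodd))
    rw [h2card, Nat.cast_mul, units_card_cast]
    have := q_ne_zero (F := F)
    have := q_sub_one_ne_zero (F := F)
    push_cast
    field_simp
  have h2 : classInner (indFun C (fun y => (θ y : ℂ))) (X C ω θ) = 1 := by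
    rw [CfsgLib.Char.frobenius _ _ hcl]
    simp only [classInner]
    have hterm : ∀ c : C, (θ c : ℂ) * conj (X C ω θ (c : SL F)) =
        -(1 + ((θ * θ) c : ℂ)) + (if IsScal (c : SL F) then (q + 1) else 0) := by
      intro c
      split_ifs with hs
      · have hval : X C ω θ (c : SL F) = (θ c : ℂ) * (q - 1) ∧ (θ c : ℂ) * (θ c : ℂ) = 1 := by
          rcases scal_cases hs with e | e
          · rw [show c = 1 from Subtype.ext e, map_one, Units.val_one, Submonoid.coe_one, X_one hodd C hcard]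
            simp
          · rw [show (c : SL F) = -1 from e, X_neg hodd C hcard ω θ hω, X_one hodd C hcard, hω,
              show c = ⟨-1, neg_one_mem hodd C hcard⟩ from Subtype.ext e]
            refine ⟨rfl, ?_⟩
            rw [← Units.val_mul, ← map_mul, show (⟨-1, neg_one_mem hodd C hcard⟩ : C) * ⟨-1, neg_one_mem hodd C hcard⟩ = 1
              from Subtype.ext (by simp), map_one, Units.val_one]
        rw [hval.1, map_mul, norm_hom θ c, MonoidHom.mul_apply, Units.val_mul, hval.2, map_sub, Complex.conj_natCast,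
          map_one, ← mul_assoc, ← Units.val_mul, mul_inv_cancel, Units.val_one]
        ring
      · rw [X_torus hodd C hcard ω θ c hs, add_zero, map_neg, map_add, norm_hom θ c,
          show conj (((θ c)⁻¹ : ℂˣ) : ℂ) = (θ c : ℂ) by rw [← norm_hom θ c, Complex.conj_conj],
          MonoidHom.mul_apply, Units.val_mul, mul_neg, mul_add, ← Units.val_mul, mul_inv_cancel, Units.val_one]
    simp only [hterm, Finset.sum_add_distrib, Finset.sum_neg_distrib, ← Finset.sum_filter, Finset.sum_const,
      nsmul_eq_mul, sum_hom _ hθ, Finset.card_univ, mul_one, add_zero]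
    have h2card : (Finset.univ.filter fun c : C => IsScal (c : SL F)).card = 2 := by
      rw [Finset.card_eq_two]
      refine ⟨1, ⟨-1, neg_one_mem hodd C hcard⟩, fun e => ?_, ?_⟩
      · have := congrArg (fun x : C => ((x : SL F) : Matrix (Fin 2) (Fin 2) F) 0 0) e
        simp at this
        exact two_ne_zero' hodd (by linear_combination this)
      · ext c
        simp only [Finset.mem_filter, Finset.mem_univ, true_and, Finset.mem_insert, Finset.mem_singleton]
        refine ⟨fun hs => ?_, ?_⟩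
        · rcases scal_cases hs with e | e
          · exact Or.inl (Subtype.ext e)
          · exact Or.inr (Subtype.ext e)
        · rintro (rfl | rfl)
          · exact isScal_one
          · exact isScal_neg_iff.2 isScal_one
    rw [h2card, ← Nat.card_eq_fintype_card, hcard]
    have : q + 1 ≠ 0 := by exact_mod_cast (Nat.succ_ne_zero (Fintype.card F))
    push_cast
    field_simp
    ring
  calc classInner (X C ω θ) (X C ω θ)
      = classInner (st * ps ω - ps ω) (X C ω θ) - classInner (indFun C (fun y => (θ y : ℂ))) (X C ω θ) :=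
        Char.inner_sub_left _ _ _
    _ = 1 := by rw [h1, h2]; norm_num

end Torus

end CfsgLib.Lie.SLTwoCusp
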