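/-
`PSL(2, q)`, `q` even, as a product `A B A` with `A` a non-split torus and `B` a group of transvections.
-/
import Cfsg.Agent.Lib.LieSLTwoTrace

set_option autoImplicit false
set_option linter.unusedSectionVars false

namespace CfsgLib.Lie.SLTwoFactor

open Matrix CfsgLib.Dickson CfsgLib.Lie.SLTwoTrace

set_option maxHeartbeats 400000

attribute [local instance] _root_.Classical.propDecidable

variable {F : Type*} [Field F] [Fintype F]

theorem exists_irred (h4 : 4 ≤ Fintype.card F) : ∃ t : F, ∀ r : F, r ^ 2 + r * t + 1 ≠ 0 := by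
  by_contra! hall
  have hsurj : Function.Surjective fun r : {r : F // r ≠ 0} => -(r.1 + r.1⁻¹) := fun t => by
    obtain ⟨r, hr⟩ := hall t
    have hr0 : r ≠ 0 := fun e => by simp [e] at hr
    exact ⟨⟨r, hr0⟩, by field_simp; linear_combination -hr⟩
  have := Fintype.card_le_of_surjective _ hsurj
  rw [Fintype.card_subtype_compl, Fintype.card_subtype_eq] at this
  omega

/-- the upper unipotent homomorphism -/
def uHom : Multiplicative F →* SL F where
  toFun b := upperU b.toAdd
  map_one' := upperU_zero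
  map_mul' a b := (upperU_add a.toAdd b.toAdd).symm

theorem factor (h2 : 2 ∣ Fintype.card F) (h4 : 4 ≤ Fintype.card F) :
    ∃ A B : Subgroup (PSL F),
      IsCyclic A ∧ Nat.card A = Fintype.card F + 1 ∧ IsMulCommutative B ∧ (∀ b ∈ B, b * b = 1) ∧
        Nat.card B = Fintype.card F ∧
        ∀ g : PSL F, ∃ a ∈ A, ∃ b ∈ B, ∃ c ∈ A, g = a * b * c := by
  have h20 : (2 : F) = 0 := by
    by_contra h
    have := odd_card h
    omega
  haveI : CharP F 2 := CharTwo.of_one_ne_zero_of_two_eq_zero one_ne_zero h20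
  haveI : Fact (Nat.Prime 2) := ⟨Nat.prime_two⟩
  have hinj : Function.Injective (mkP : SL F →* PSL F) := fun g h e => by
    rcases mkP_eq_iff.1 e with e | e
    · exact e
    · rw [e]
      refine sl_ext ?_ ?_ ?_ ?_ <;> simp
      · linear_combination -(h.1 0 0) * h20
      · linear_combination -(h.1 0 1) * h20
      · linear_combination -(h.1 1 0) * h20
      · linear_combination -(h.1 1 1) * h20
  obtain ⟨t, ht⟩ := exists_irred h4
  have ht0 : t ≠ 0 := fun e => ht 1 (by rw [e]; linear_combination h20)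
  set C := SLTwoTrace.comp t with hC
  have hCv : C.1 = !![0, -1; 1, t] := rfl
  have hns : ¬ IsScal C := fun h => one_ne_zero (α := F) (by simpa [hCv] using h.2.1)
  have hord : ¬ 2 ∣ orderOf C := by
    intro hd
    rcases pow_cases rfl (p := 2) C.1 (by rw [C.2]; exact one_ne_zero) with h | h | ⟨h, -⟩
    · have := hd.trans (orderOf_dvd_of_pow_eq_one (n := Fintype.card F - 1)
        (Subtype.ext ((Matrix.SpecialLinearGroup.coe_pow C _).trans h)))
      omega
    · have := hd.trans (orderOf_dvd_of_pow_eq_one (n := Fintype.card F + 1)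
        (Subtype.ext ((Matrix.SpecialLinearGroup.coe_pow C _).trans (by rw [h, C.2, one_smul]; rfl))))
      omega
    · rw [C.2, mul_one] at h
      simp [hCv] at h
      exact ht0 ((pow_eq_zero_iff two_ne_zero).1 (by linear_combination h + 2 * h20))
  obtain ⟨hcyc, -, hcard, -⟩ := torus_data (p := 2) rfl h4 hns hord
  have hT : Nat.card (Subgroup.centralizer ({C} : Set (SL F))) = Fintype.card F + 1 :=
    hcard (fun r => by simpa [hCv] using ht r)
  set T := Subgroup.centralizer ({C} : Set (SL F)) with hTdef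
  have hmT : ∀ x, x ∈ T ↔ Commute x C := fun x => Subgroup.mem_centralizer_singleton_iff
  -- the double coset invariant
  let inv : SL F → F := fun g => tr (g * C * g⁻¹ * C)
  have hl : ∀ a ∈ T, ∀ g, inv (a * g) = inv g := fun a ha g => by
    show tr _ = tr _
    rw [show a * g * C * (a * g)⁻¹ * C = a * (g * C * g⁻¹ * (a⁻¹ * C)) by group,
      (((hmT a).1 ha).inv_left).eq, show a * (g * C * g⁻¹ * (C * a⁻¹)) = a * (g * C * g⁻¹ * C) * a⁻¹ by group, tr_conj]
  have hr : ∀ c ∈ T, ∀ g, inv (g * c) = inv g := fun c hc g => by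
    show tr _ = tr _
    rw [show g * c * C * (g * c)⁻¹ * C = g * (c * C * c⁻¹) * g⁻¹ * C by group, ((hmT c).1 hc).eq, mul_inv_cancel_right]
  have hinvU : ∀ b, inv (upperU b) = (b + t) ^ 2 := fun b => by
    show tr _ = _
    simp [tr, Matrix.mul_apply, Fin.sum_univ_two, Matrix.adjugate_fin_two, coe_upperU, hCv]
    linear_combination (-1 : F) * h20 - b * t * h20 - b ^ 2 * h20
  have hinvU' : ∀ b c, inv (upperU b) = inv (upperU c) → b = c := fun b c e => by
    rw [hinvU, hinvU] at e
    exact sub_eq_zero.1 ((pow_eq_zero_iff two_ne_zero).1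
      (show (b - c) ^ 2 = 0 by linear_combination e + (c ^ 2 - b * c - b * t + c * t) * h20))
  have htriv : ∀ b, b ≠ 0 → b ≠ t → ∀ x ∈ T, ∀ y ∈ T, x * upperU b = upperU b * y → x = 1 := by
    intro b hb0 hbt x hx y hy e
    by_contra hx1
    have hxs : ¬ IsScal x := fun h => hx1 (hinj ((mkP_eq_one.2 h).trans (map_one mkP).symm))
    have hc : Commute (upperU b * C * (upperU b)⁻¹) x := by
      have hyC : y * C = C * y := ((hmT y).1 hy).eq
      show _ = _
      rw [show x = upperU b * y * (upperU b)⁻¹ by rw [← e, mul_inv_cancel_right]]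
      calc upperU b * C * (upperU b)⁻¹ * (upperU b * y * (upperU b)⁻¹) = upperU b * (C * y) * (upperU b)⁻¹ := by group
        _ = _ := by rw [← hyC]; group
    have hcC := commute_of_commute hxs hc ((hmT x).1 hx).symm
    obtain ⟨β, b1, b2, -⟩ := exists_coeff hns hcC
    simp [Matrix.mul_apply, Fin.sum_univ_two, Matrix.adjugate_fin_two, coe_upperU, hCv] at b1 b2
    apply hb0
    refine (mul_eq_zero.1 (show b * (b + t) = 0 from ?_)).resolve_right fun h => hbt (by linear_combination h - t * h20)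
    linear_combination -b1 - b2 + b * t * h20
  -- counting
  let S := {b : F // b ≠ 0 ∧ b ≠ t}
  let Φ : (S × T × T) ⊕ (T ⊕ T) → SL F := Sum.elim (fun x => (x.2.1 : SL F) * upperU x.1.1 * (x.2.2 : SL F))
    (Sum.elim (fun a => (a : SL F) * upperU (0 : F)) (fun a => (a : SL F) * upperU t))
  have hΦi : ∀ x, inv (Φ x) = inv (upperU (Sum.elim (fun y => y.1.1) (Sum.elim (fun _ => 0) (fun _ => t)) x)) := by
    rintro (⟨b, a, c⟩ | a | a)
    · show inv (_ * _ * _) = _; rw [hr _ c.2, hl _ a.2]; rfl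
    · show inv (_ * _) = _; rw [hl _ a.2]; rfl
    · show inv (_ * _) = _; rw [hl _ a.2]; rfl
  have hΦ : Function.Injective Φ := by
    intro x y e
    have hb := hinvU' _ _ ((hΦi x).symm.trans ((congrArg inv e).trans (hΦi y)))
    rcases x with ⟨b, a, c⟩ | a | a <;> rcases y with ⟨b', a', c'⟩ | a' | a' <;> simp at hb
    · obtain rfl : b = b' := Subtype.ext hb
      simp only [Φ, Sum.elim_inl] at e
      have h : ((a' : SL F)⁻¹ * a) * upperU b.1 = upperU b.1 * ((c' : SL F) * (c : SL F)⁻¹) := by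
        rw [mul_assoc, inv_mul_eq_iff_eq_mul, ← mul_assoc, ← mul_assoc, eq_mul_inv_iff_mul_eq]
        exact e
      have h1 := htriv b.1 b.2.1 b.2.2 _ (mul_mem (inv_mem a'.2) a.2) _ (mul_mem c'.2 (inv_mem c.2)) h
      obtain rfl : a = a' := Subtype.ext (inv_mul_eq_one.1 h1).symm
      obtain rfl : c = c' := Subtype.ext (mul_left_cancel e)
      rfl
    · exact absurd hb b.2.1
    · exact absurd hb b.2.2
    · exact absurd hb.symm b'.2.1
    · rw [Subtype.ext (mul_right_cancel (show (a : SL F) * upperU (0 : F) = (a' : SL F) * upperU (0 : F) from e))]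
    · exact absurd hb.symm ht0
    · exact absurd hb.symm b'.2.2
    · exact absurd hb ht0
    · rw [Subtype.ext (mul_right_cancel (show (a : SL F) * upperU t = (a' : SL F) * upperU t from e))]
  have hΦs : Function.Surjective Φ := by
    refine ((Nat.bijective_iff_injective_and_card Φ).2 ⟨hΦ, ?_⟩).2
    have hS : Nat.card S = Fintype.card F - 2 := by
      rw [Nat.card_eq_fintype_card, Fintype.card_subtype,
        show (Finset.univ.filter fun b : F => b ≠ 0 ∧ b ≠ t) = Finset.univ \ {0, t} by ext; simp,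
        Finset.card_sdiff_of_subset (Finset.subset_univ _), Finset.card_univ, Finset.card_pair ht0.symm]
    rw [Nat.card_sum, Nat.card_sum, Nat.card_prod, Nat.card_prod, hS, hT, CfsgLib.Classical.Two.card_sl_two]
    obtain ⟨k, hk⟩ : ∃ k, Fintype.card F = k + 2 := ⟨_, (Nat.sub_add_cancel (by omega)).symm⟩
    rw [hk, Nat.add_sub_cancel, show k + 2 - 1 = k + 1 by omega]
    ring
  refine ⟨T.map mkP, ((uHom (F := F)).range).map mkP, ?_, ?_, ?_, ?_, ?_, fun g => ?_⟩
  · haveI := hcyc
    exact isCyclic_of_surjective (mkP.subgroupMap T) (MonoidHom.subgroupMap_surjective _ _)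
  · rw [Subgroup.card_map_of_injective hinj, hT]
  · refine ⟨⟨?_⟩⟩
    rintro ⟨_, _, ⟨a, rfl⟩, rfl⟩ ⟨_, _, ⟨b, rfl⟩, rfl⟩
    refine Subtype.ext ?_
    show mkP (uHom a) * mkP (uHom b) = mkP (uHom b) * mkP (uHom a)
    rw [← map_mul, ← map_mul, ← map_mul, ← map_mul, mul_comm]
  · rintro _ ⟨_, ⟨a, rfl⟩, rfl⟩
    rw [← map_mul, ← map_mul, show a * a = 1 from
      (show a.toAdd + a.toAdd = 0 by linear_combination a.toAdd * h20), map_one, map_one]
  · rw [Subgroup.card_map_of_injective hinj, Nat.card_congr (MonoidHom.ofInjective (f := uHom (F := F)) ?_).toEquiv.symm,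
      Nat.card_congr Multiplicative.toAdd, Nat.card_eq_fintype_card]
    intro a b e
    simpa [uHom, coe_upperU] using congrFun (congrFun (congrArg Subtype.val e) 0) 1
  · obtain ⟨G, rfl⟩ := mkP_surjective g
    obtain ⟨x, rfl⟩ := hΦs G
    rcases x with ⟨b, a, c⟩ | a | a
    · exact ⟨_, Subgroup.mem_map_of_mem _ a.2, _, Subgroup.mem_map_of_mem _ ⟨Multiplicative.ofAdd b.1, rfl⟩, _,
        Subgroup.mem_map_of_mem _ c.2, by rw [← map_mul, ← map_mul]; rfl⟩
    · exact ⟨_, Subgroup.mem_map_of_mem _ a.2, _, Subgroup.mem_map_of_mem _ ⟨Multiplicative.ofAdd (0 : F), rfl⟩, 1,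
        one_mem _, by rw [mul_one, ← map_mul]; rfl⟩
    · exact ⟨_, Subgroup.mem_map_of_mem _ a.2, _, Subgroup.mem_map_of_mem _ ⟨Multiplicative.ofAdd t, rfl⟩, 1,
        one_mem _, by rw [mul_one, ← map_mul]; rfl⟩

end CfsgLib.Lie.SLTwoFactor
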