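/-
A non-trivial law fails in all large Suzuki groups.
-/
import Cfsg.Agent.Lib.LieSuzukiBridge

set_option autoImplicit false
set_option maxHeartbeats 1000000

namespace CfsgLib.Lie.SzLaw

open scoped Matrix
open Polynomial

section Generic

variable {R S : Type*} [CommRing R] [CommRing S]

theorem det_uR (p P : R) :
    Matrix.det !![1, 0, p, P; 0, 1, 0, p; 0, 0, 1, 0; 0, 0, 0, 1] = 1 := by
  simp [Matrix.det_succ_column_zero, Fin.sum_univ_succ]

theorem det_wR : Matrix.det (!![0, 0, 0, 1; 0, 0, 1, 0; 0, 1, 0, 0; 1, 0, 0, 0] : Matrix (Fin 4) (Fin 4) R) = 1 := by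
  simp [Matrix.det_succ_row_zero, Fin.sum_univ_succ, Fin.succAbove]
  norm_num

/-- The unipotent matrix. -/
def uR (p P : R) : Matrix.SpecialLinearGroup (Fin 4) R := ⟨_, det_uR p P⟩

/-- The Weyl matrix. -/
def wR : Matrix.SpecialLinearGroup (Fin 4) R := ⟨_, det_wR⟩

/-- The images of the free generators. -/
def gen (x X : R) (i : ℕ) : Matrix.SpecialLinearGroup (Fin 4) R :=
  uR (x ^ (i + 1)) (X ^ (i + 1)) * (wR * uR x X * wR) * uR (x ^ (i + 1)) (X ^ (i + 1)) * (wR * uR x X * wR)

theorem map_uR (f : R →+* S) (p P : R) : Matrix.SpecialLinearGroup.map f (uR p P) = uR (f p) (f P) := by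
  apply Subtype.ext
  ext i j
  change f ((uR p P).1 i j) = (uR (f p) (f P)).1 i j
  fin_cases i <;> fin_cases j <;> simp [uR]

theorem map_wR (f : R →+* S) : Matrix.SpecialLinearGroup.map f (wR : Matrix.SpecialLinearGroup (Fin 4) R) = wR := by
  apply Subtype.ext
  ext i j
  change f ((wR : Matrix.SpecialLinearGroup (Fin 4) R).1 i j) = (wR : Matrix.SpecialLinearGroup (Fin 4) S).1 i j
  fin_cases i <;> fin_cases j <;> simp [wR]

theorem map_gen (f : R →+* S) (x X : R) (i : ℕ) :
    Matrix.SpecialLinearGroup.map f (gen x X i) = gen (f x) (f X) i := by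
  simp only [gen, map_mul, map_uR, map_wR, map_pow]

end Generic

section PingPong

/-- The polynomial ring over two elements. -/
abbrev K := Polynomial (ZMod 2)

/-- Upper transvection. -/
noncomputable def au (q : K) (z : K × K) : K × K := (z.1 + q * z.2, z.2)
/-- Lower transvection. -/
noncomputable def av (q : K) (z : K × K) : K × K := (z.1, z.2 + q * z.1)

/-- First coordinate dominates. -/
def DX (z : K × K) : Prop := z.2.natDegree < z.1.natDegree
/-- Second coordinate dominates. -/
def DY (z : K × K) : Prop := z.1.natDegree < z.2.natDegree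

theorem au_au (q q' : K) (z : K × K) : au q (au q' z) = au (q + q') z := by
  simp only [au]; ext1 <;> simp; ring

theorem au_self (q : K) (z : K × K) : au q (au q z) = z := by
  rw [au_au, CharTwo.add_self_eq_zero]; simp [au]

theorem av_self (q : K) (z : K × K) : av q (av q z) = z := by
  simp only [av]; ext1 <;> simp [add_assoc, CharTwo.add_self_eq_zero]

theorem dX_au {q : K} (hq : 0 < q.natDegree) {z : K × K} (h : DY z) : DX (au q z) := by
  unfold DY at h
  have hz : z.2 ≠ 0 := fun e => by rw [e, natDegree_zero] at h; exact Nat.not_lt_zero _ h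
  have hq0 : q ≠ 0 := fun e => by rw [e, natDegree_zero] at hq; exact Nat.lt_irrefl _ hq
  have hd : (q * z.2).natDegree = q.natDegree + z.2.natDegree := natDegree_mul hq0 hz
  have hs : (z.1 + q * z.2).natDegree = (q * z.2).natDegree :=
    natDegree_add_eq_right_of_natDegree_lt (by omega)
  show z.2.natDegree < (z.1 + q * z.2).natDegree
  omega

theorem dY_av {q : K} (hq : 0 < q.natDegree) {z : K × K} (h : DX z) : DY (av q z) := by
  unfold DX at h
  have hz : z.1 ≠ 0 := fun e => by rw [e, natDegree_zero] at h; exact Nat.not_lt_zero _ h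
  have hq0 : q ≠ 0 := fun e => by rw [e, natDegree_zero] at hq; exact Nat.lt_irrefl _ hq
  have hd : (q * z.1).natDegree = q.natDegree + z.1.natDegree := natDegree_mul hq0 hz
  have hs : (z.2 + q * z.1).natDegree = (q * z.1).natDegree :=
    natDegree_add_eq_right_of_natDegree_lt (by omega)
  show z.1.natDegree < (z.2 + q * z.1).natDegree
  omega

theorem deg_pow (i : ℕ) : 0 < (X ^ (i + 1) : K).natDegree := by rw [natDegree_X_pow]; omega

theorem deg_X : 0 < (X : K).natDegree := by rw [natDegree_X]; exact one_pos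

theorem deg_sum {i j : ℕ} (h : i ≠ j) : 0 < (X ^ (i + 1) + X ^ (j + 1) : K).natDegree := by
  rcases Nat.lt_or_gt_of_ne h with h | h
  · rw [natDegree_add_eq_right_of_natDegree_lt (by simp only [natDegree_X_pow]; omega)]; exact deg_pow j
  · rw [natDegree_add_eq_left_of_natDegree_lt (by simp only [natDegree_X_pow]; omega)]; exact deg_pow i

/-- The action of a letter. -/
noncomputable def step (l : ℕ × Bool) (z : K × K) : K × K :=
  if l.2 then au (X ^ (l.1 + 1)) (av X (au (X ^ (l.1 + 1)) (av X z)))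
  else av X (au (X ^ (l.1 + 1)) (av X (au (X ^ (l.1 + 1)) z)))

/-- The action of a word on the base vector. -/
noncomputable def val : List (ℕ × Bool) → K × K
  | [] => (1, 1)
  | l :: L => step l (val L)

/-- The shape of a value after a letter. -/
def Form (l : ℕ × Bool) (z : K × K) : Prop :=
  if l.2 then ∃ z1, DY z1 ∧ z = au (X ^ (l.1 + 1)) z1
  else ∃ z1, DY z1 ∧ z = av X (au (X ^ (l.1 + 1)) z1)

theorem form_val : ∀ (L : List (ℕ × Bool)) (l : ℕ × Bool), FreeGroup.IsReduced (l :: L) → Form l (val (l :: L))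
  | [], (i, b), _ => by
    have h1 : DY (av X ((1, 1) : K × K)) := by
      show (1 : K).natDegree < ((1 : K) + X * 1).natDegree
      rw [mul_one, natDegree_one, natDegree_add_eq_right_of_natDegree_lt (by simp), natDegree_X]
      exact one_pos
    have h2 : DX (au (X ^ (i + 1)) ((1, 1) : K × K)) := by
      show (1 : K).natDegree < ((1 : K) + X ^ (i + 1) * 1).natDegree
      rw [mul_one, natDegree_one, natDegree_add_eq_right_of_natDegree_lt (by simp), natDegree_X_pow]
      omega
    cases b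
    · exact ⟨_, dY_av deg_X h2, rfl⟩
    · exact ⟨_, dY_av deg_X (dX_au (deg_pow i) h1), rfl⟩
  | (j, b') :: L, (i, b), hred => by
    obtain ⟨hne, hr⟩ := FreeGroup.isReduced_cons_cons.1 hred
    have ih := form_val L (j, b') hr
    show Form (i, b) (step (i, b) (val ((j, b') :: L)))
    generalize val ((j, b') :: L) = z at ih ⊢
    cases b <;> cases b' <;> obtain ⟨z1, hz1, rfl⟩ := ih <;> simp only [step, Form, if_true, Bool.false_eq_true, if_false]
    · exact ⟨_, dY_av deg_X (dX_au (deg_pow i) (dY_av deg_X (dX_au (deg_pow j) hz1))), rfl⟩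
    · refine ⟨_, dY_av deg_X ?_, rfl⟩
      rw [au_au]
      exact dX_au (deg_sum fun e => by simpa using hne e) hz1
    · refine ⟨_, dY_av deg_X ?_, rfl⟩
      rw [av_self, au_au]
      exact dX_au (deg_sum fun e => by simpa using hne e) hz1
    · exact ⟨_, dY_av deg_X (dX_au (deg_pow i) (dY_av deg_X (dX_au (deg_pow j) hz1))), rfl⟩

theorem val_ne {L : List (ℕ × Bool)} (h : FreeGroup.IsReduced L) (hne : L ≠ []) : val L ≠ (1, 1) := by
  obtain ⟨l, L, rfl⟩ := List.exists_cons_of_ne_nil hne
  intro e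
  have hf := form_val L l h
  rw [e] at hf
  obtain ⟨i, b⟩ := l
  cases b <;> obtain ⟨z1, hz1, e1⟩ := hf
  · have := dY_av deg_X (dX_au (deg_pow i) hz1)
    rw [← e1] at this
    exact Nat.lt_irrefl _ this
  · have := dX_au (deg_pow i) hz1
    rw [← e1] at this
    exact Nat.lt_irrefl _ this

/-- The vector of a pair. -/
noncomputable def vec2 (z : K × K) : Fin 4 → K := ![z.1, 0, 0, z.2]

theorem uR_vec (q : K) (z : K × K) : (uR 0 q).1 *ᵥ vec2 z = vec2 (au q z) := by
  ext i : 1
  fin_cases i <;> simp [uR, vec2, au, Matrix.mulVec, dotProduct, Fin.sum_univ_four]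

theorem vR_vec (q : K) (z : K × K) : (wR * uR 0 q * wR).1 *ᵥ vec2 z = vec2 (av q z) := by
  show ((wR : Matrix.SpecialLinearGroup (Fin 4) K).1 * (uR 0 q).1 * (wR : Matrix.SpecialLinearGroup (Fin 4) K).1) *ᵥ _ = _
  rw [← Matrix.mulVec_mulVec, ← Matrix.mulVec_mulVec]
  ext i : 1
  fin_cases i <;> simp [uR, wR, vec2, av, Matrix.mulVec, dotProduct, Fin.sum_univ_four]

theorem gen_vec (i : ℕ) (z : K × K) : (gen (0 : K) X i).1 *ᵥ vec2 z = vec2 (step (i, true) z) := by
  have hv := vR_vec X
  have hu := uR_vec (X ^ (i + 1))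
  have hp : (0 : K) ^ (i + 1) = 0 := zero_pow (Nat.succ_ne_zero i)
  unfold gen
  rw [hp]
  generalize wR * uR (0 : K) X * wR = V at hv ⊢
  generalize uR (0 : K) (X ^ (i + 1)) = U at hu ⊢
  rw [Matrix.SpecialLinearGroup.coe_mul, Matrix.SpecialLinearGroup.coe_mul, Matrix.SpecialLinearGroup.coe_mul,
    ← Matrix.mulVec_mulVec, ← Matrix.mulVec_mulVec, ← Matrix.mulVec_mulVec, hv, hu, hv, hu]
  simp only [step, if_true]

theorem gen_inv_vec (i : ℕ) (z : K × K) : ((gen (0 : K) X i)⁻¹).1 *ᵥ vec2 z = vec2 (step (i, false) z) := by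
  have h := gen_vec i (step (i, false) z)
  have e : step (i, true) (step (i, false) z) = z := by
    simp only [step, if_true, Bool.false_eq_true, if_false, av_self, au_self]
  rw [e] at h
  conv_lhs => rw [← h]
  rw [Matrix.mulVec_mulVec, ← Matrix.SpecialLinearGroup.coe_mul, inv_mul_cancel, Matrix.SpecialLinearGroup.coe_one,
    Matrix.one_mulVec]

theorem lift_vec : ∀ L : List (ℕ × Bool), (FreeGroup.lift (gen (0 : K) X) (FreeGroup.mk L)).1 *ᵥ vec2 (1, 1) = vec2 (val L)
  | [] => by simp [FreeGroup.lift_mk, val]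
  | (i, b) :: L => by
    have ih := lift_vec L
    rw [FreeGroup.lift_mk] at ih ⊢
    rw [List.map_cons, List.prod_cons, Matrix.SpecialLinearGroup.coe_mul, ← Matrix.mulVec_mulVec, ih]
    cases b
    · exact gen_inv_vec i _
    · exact gen_vec i _

theorem lift_ne {w : FreeGroup ℕ} (hw : w ≠ 1) : FreeGroup.lift (gen (0 : K) X) w ≠ 1 := by
  intro h
  have h1 := lift_vec w.toWord
  rw [FreeGroup.mk_toWord, h, Matrix.SpecialLinearGroup.coe_one, Matrix.one_mulVec] at h1
  refine val_ne FreeGroup.isReduced_toWord (fun e => hw (FreeGroup.toWord_eq_nil_iff.1 e)) ?_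
  have e0 := congrFun h1 0
  have e3 := congrFun h1 3
  simp [vec2] at e0 e3
  exact Prod.ext e0.symm e3.symm

end PingPong

/-- Substituting a high power keeps a bivariate polynomial non-zero. -/
theorem eval_pow_ne_zero {k : Type*} [CommRing k] [IsDomain k] {p : Polynomial (Polynomial k)} (hp : p ≠ 0) {D N : ℕ}
    (hD : ∀ j, (p.coeff j).natDegree ≤ D) (hN : D < N) :
    p.eval (X ^ N) ≠ 0 ∧ (p.eval (X ^ N)).natDegree ≤ D + N * p.natDegree := by
  have hsum := eval_eq_sum_range (p := p) (X ^ N : Polynomial k)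
  rw [Finset.sum_range_succ] at hsum
  set J := p.natDegree
  have hlow : (∑ j ∈ Finset.range J, p.coeff j * (X ^ N) ^ j).natDegree ≤ D + N * J - N ∨ J = 0 := by
    by_cases hJ : J = 0
    · exact Or.inr hJ
    left
    refine natDegree_sum_le_of_forall_le _ _ fun j hj => ?_
    have hjJ : j + 1 ≤ J := Finset.mem_range.1 hj
    refine natDegree_mul_le.trans ?_
    rw [← pow_mul, natDegree_X_pow]
    have h2 : N * (j + 1) ≤ N * J := Nat.mul_le_mul_left N hjJ
    rw [Nat.mul_succ] at h2
    have := hD j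
    omega
  have hc : p.coeff J ≠ 0 := leadingCoeff_ne_zero.2 hp
  have htop : (p.coeff J * (X ^ N) ^ J).natDegree = (p.coeff J).natDegree + N * J := by
    rw [natDegree_mul hc (pow_ne_zero _ (pow_ne_zero _ X_ne_zero)), ← pow_mul, natDegree_X_pow]
  have hdeg : (p.eval (X ^ N)).natDegree = (p.coeff J).natDegree + N * J ∧ p.eval (X ^ N) ≠ 0 := by
    rcases Nat.eq_zero_or_pos J with hJ | hJ
    · rw [hsum, hJ]
      simp only [Finset.range_zero, Finset.sum_empty, zero_add, pow_zero, mul_one, mul_zero, add_zero, true_and]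
      rw [← hJ]; exact hc
    · have hl := hlow.resolve_right hJ.ne'
      have h1 : (∑ j ∈ Finset.range J, p.coeff j * (X ^ N) ^ j).natDegree < (p.coeff J * (X ^ N) ^ J).natDegree := by
        rw [htop]
        have : N ≤ N * J := Nat.le_mul_of_pos_right N hJ
        omega
      rw [hsum]
      have h2 := natDegree_add_eq_right_of_natDegree_lt h1
      refine ⟨h2.trans htop, fun e => ?_⟩
      rw [e, natDegree_zero] at h2
      omega
  refine ⟨hdeg.2, hdeg.1 ▸ ?_⟩
  have := hD J
  omega

theorem law_fails (w : FreeGroup ℕ) (hw : w ≠ 1) :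
    ∃ N : ℕ, ∀ (F : Type*) [Field F] [Fintype F] (m : ℕ), 1 ≤ m → N ≤ m →
      Fintype.card F = 2 ^ (2 * m + 1) →
      ∃ f : ℕ → ↥(Cfsg.Lie.Sz F (2 ^ (m + 1))), FreeGroup.lift f w ≠ 1 := by
  classical
  let s : Polynomial (Polynomial (ZMod 2)) →+* K :=
    eval₂RingHom (C.comp (evalRingHom (0 : ZMod 2))) X
  set g := gen (C X : Polynomial (Polynomial (ZMod 2))) X
  have hM : FreeGroup.lift g w ≠ 1 := by
    intro h
    apply lift_ne hw
    have e : (Matrix.SpecialLinearGroup.map s).comp (FreeGroup.lift g) = FreeGroup.lift (gen (0 : K) X) := by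
      refine FreeGroup.ext_hom _ _ fun i => ?_
      rw [MonoidHom.comp_apply, FreeGroup.lift_apply_of, FreeGroup.lift_apply_of, map_gen]
      simp [s]
    rw [← e, MonoidHom.comp_apply, h, map_one]
  obtain ⟨r, c, hrc⟩ : ∃ r c, (FreeGroup.lift g w).1 r c ≠ (1 : Matrix (Fin 4) (Fin 4) (Polynomial (Polynomial (ZMod 2)))) r c := by
    by_contra h
    simp only [not_exists, not_not] at h
    exact hM (Subtype.ext (Matrix.ext h))
  set p := (FreeGroup.lift g w).1 r c - (1 : Matrix (Fin 4) (Fin 4) (Polynomial (Polynomial (ZMod 2)))) r c with hp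
  have hp0 : p ≠ 0 := sub_ne_zero.2 hrc
  set D := (Finset.range (p.natDegree + 1)).sup fun j => (p.coeff j).natDegree
  have hD : ∀ j, (p.coeff j).natDegree ≤ D := fun j => by
    by_cases hj : j ∈ Finset.range (p.natDegree + 1)
    · exact Finset.le_sup (f := fun j => (p.coeff j).natDegree) hj
    · rw [coeff_eq_zero_of_natDegree_lt (by simp at hj; omega), natDegree_zero]; exact Nat.zero_le _
  refine ⟨D + p.natDegree + 2, fun F _ _ m hm hN hF => ?_⟩
  have P := CfsgLib.Lie.SzOvoid.par_mk hm hF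
  haveI := P.hc
  set e := 2 ^ (m + 1) with he
  have hm2 : m < 2 ^ m := Nat.lt_two_pow_self
  have he2 : e = 2 * 2 ^ m := by rw [he, pow_succ]; ring
  obtain ⟨hne, hdeg⟩ := eval_pow_ne_zero hp0 hD (N := e) (by omega)
  have hlt : (p.eval (X ^ e)).natDegree < Fintype.card F := by
    have h1 : Fintype.card F = e * 2 ^ m := by rw [hF, he, ← pow_add]; congr 1; omega
    have h2 : e * (p.natDegree + 2) ≤ e * 2 ^ m := Nat.mul_le_mul_left e (by omega)
    rw [Nat.mul_add] at h2
    omega
  let ι : ZMod 2 →+* F := ZMod.castHom dvd_rfl F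
  obtain ⟨x, hx⟩ : ∃ x : F, ((p.eval (X ^ e)).map ι).eval x ≠ 0 := by
    by_contra h
    simp only [not_exists, not_not] at h
    have hz := eq_zero_of_natDegree_lt_card_of_eval_eq_zero ((p.eval (X ^ e)).map ι) (f := (id : F → F))
      Function.injective_id h (by rw [natDegree_map_eq_of_injective ι.injective]; exact hlt)
    exact hne ((Polynomial.map_eq_zero_iff ι.injective).1 hz)
  let ev : Polynomial (Polynomial (ZMod 2)) →+* F := eval₂RingHom (eval₂RingHom ι x) (x ^ e)
  have hev : ev p = ((p.eval (X ^ e)).map ι).eval x := by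
    rw [eval_map, show (p.eval (X ^ e)).eval₂ ι x = eval₂RingHom ι x (p.eval (X ^ e)) from rfl,
      show p.eval (X ^ e) = eval₂ (RingHom.id _) (X ^ e) p from rfl, hom_eval₂, RingHom.comp_id, map_pow,
      coe_eval₂RingHom, coe_eval₂RingHom]
    simp [ev]
  obtain ⟨φ, hφ⟩ := CfsgLib.Lie.SzOvoid.bridge P
  let v : ↥(Cfsg.Sz F m) := CfsgLib.Lie.SzOvoid.sW P * CfsgLib.Lie.SzOvoid.sU P 0 x * CfsgLib.Lie.SzOvoid.sW P
  let f0 : ℕ → ↥(Cfsg.Sz F m) := fun i =>
    CfsgLib.Lie.SzOvoid.sU P 0 (x ^ (i + 1)) * v * CfsgLib.Lie.SzOvoid.sU P 0 (x ^ (i + 1)) * v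
  have hU : ∀ b : F, (CfsgLib.Lie.SzOvoid.sU P 0 b : Matrix.SpecialLinearGroup (Fin 4) F) = uR b (b ^ e) := fun b => by
    have he0 : CfsgLib.Lie.SzOvoid.ee m ≠ 0 := CfsgLib.Lie.SzOvoid.ee_ne m
    apply Subtype.ext
    ext i j
    fin_cases i <;> fin_cases j <;>
      simp [CfsgLib.Lie.SzOvoid.sU, CfsgLib.Lie.SzOvoid.mU, uR, CfsgLib.Lie.SzOvoid.NN, zero_pow he0,
        zero_pow (Nat.succ_ne_zero _)] <;> rfl
  have hgen : (Cfsg.Sz F m).subtype.comp (FreeGroup.lift f0) = (Matrix.SpecialLinearGroup.map ev).comp (FreeGroup.lift g) := by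
    refine FreeGroup.ext_hom _ _ fun i => ?_
    rw [MonoidHom.comp_apply, MonoidHom.comp_apply, FreeGroup.lift_apply_of, FreeGroup.lift_apply_of, map_gen]
    have e1 : ev (C X) = x := by simp [ev]
    have e2 : ev X = x ^ e := by simp [ev]
    rw [e1, e2]
    simp only [f0, v, gen, Subgroup.coe_subtype, Subgroup.coe_mul, hU, ← pow_mul, mul_comm e]
    rfl
  refine ⟨fun i => φ (f0 i), fun h => hx ?_⟩
  have h' : FreeGroup.lift f0 w = 1 := φ.injective (by
    rw [map_one, ← h, show φ (FreeGroup.lift f0 w) = (φ.toMonoidHom.comp (FreeGroup.lift f0)) w from rfl]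
    congr 1
    exact FreeGroup.ext_hom _ _ fun i => by simp)
  have h2 : Matrix.SpecialLinearGroup.map ev (FreeGroup.lift g w) = 1 := by
    rw [← MonoidHom.comp_apply, ← hgen, MonoidHom.comp_apply, h', map_one]
  have h3 := congrFun (congrFun (congrArg Subtype.val h2) r) c
  change ev ((FreeGroup.lift g w).1 r c) = (1 : Matrix (Fin 4) (Fin 4) F) r c at h3
  rw [← hev, hp, map_sub, h3]
  by_cases hrc' : r = c
  · subst hrc'; simp
  · simp [Matrix.one_apply_ne hrc']

end CfsgLib.Lie.SzLaw
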