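import Mathlib

/-!
Largest commutative subgroups of symmetric and alternating groups.
-/

set_option autoImplicit false

namespace CfsgLib.SymAbelianMax

open Equiv MulAction

/-- `Perm (Fin n)` has a commutative subgroup of order `c`. -/
def HasAb (n c : ℕ) : Prop :=
  ∃ A : Subgroup (Perm (Fin n)), IsMulCommutative A ∧ Nat.card A = c

/-- `Perm (Fin n)` has a commutative subgroup of even permutations of order `c`. -/
def HasAbEven (n c : ℕ) : Prop :=
  ∃ A : Subgroup (Perm (Fin n)), IsMulCommutative A ∧ Nat.card A = c ∧ A ≤ alternatingGroup (Fin n)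

theorem HasAbEven.hasAb {n c : ℕ} (h : HasAbEven n c) : HasAb n c := by
  obtain ⟨A, h1, h2, -⟩ := h
  exact ⟨A, h1, h2⟩

theorem combine {a b : ℕ} (A : Subgroup (Perm (Fin a))) (B : Subgroup (Perm (Fin b))) [IsMulCommutative A]
    [IsMulCommutative B] : ∃ C : Subgroup (Perm (Fin (a + b))), IsMulCommutative C ∧
      Nat.card C = Nat.card A * Nat.card B ∧
      (A ≤ alternatingGroup (Fin a) → B ≤ alternatingGroup (Fin b) → C ≤ alternatingGroup (Fin (a + b))) := by
  let φ : A × B →* Perm (Fin (a + b)) :=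
    (finSumFinEquiv.permCongrHom.toMonoidHom.comp (Perm.sumCongrHom (Fin a) (Fin b))).comp
      (A.subtype.prodMap B.subtype)
  have hφ : Function.Injective φ :=
    (finSumFinEquiv.permCongrHom.injective.comp Perm.sumCongrHom_injective).comp
      (A.subtype_injective.prodMap B.subtype_injective)
  refine ⟨φ.range, ⟨⟨fun x y => ?_⟩⟩, ?_, fun hA hB => ?_⟩
  · obtain ⟨_, ⟨u1, u2⟩, rfl⟩ := x
    obtain ⟨_, ⟨v1, v2⟩, rfl⟩ := y
    exact Subtype.ext (by
      show φ (u1, u2) * φ (v1, v2) = φ (v1, v2) * φ (u1, u2)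
      rw [← map_mul, ← map_mul]
      exact congrArg φ (Prod.ext (mul_comm' u1 v1) (mul_comm' u2 v2)))
  · rw [← Nat.card_congr (MonoidHom.ofInjective hφ).toEquiv, Nat.card_prod]
  · rintro _ ⟨⟨u, v⟩, rfl⟩
    rw [Equiv.Perm.mem_alternatingGroup]
    show Perm.sign (finSumFinEquiv.permCongr (Perm.sumCongr (u : Perm (Fin a)) (v : Perm (Fin b)))) = 1
    rw [Perm.sign_permCongr, Perm.sign_sumCongr, Perm.mem_alternatingGroup.1 (hA u.2),
      Perm.mem_alternatingGroup.1 (hB v.2), one_mul]

theorem HasAb.add {a b c d : ℕ} (h : HasAb a c) (h' : HasAb b d) : HasAb (a + b) (c * d) := by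
  obtain ⟨A, hA, rfl⟩ := h
  obtain ⟨B, hB, rfl⟩ := h'
  obtain ⟨C, hC, hc, -⟩ := combine A B
  exact ⟨C, hC, hc⟩

theorem HasAbEven.add {a b c d : ℕ} (h : HasAbEven a c) (h' : HasAbEven b d) :
    HasAbEven (a + b) (c * d) := by
  obtain ⟨A, hA, rfl, hA'⟩ := h
  obtain ⟨B, hB, rfl, hB'⟩ := h'
  obtain ⟨C, hC, hc, hC'⟩ := combine A B
  exact ⟨C, hC, hc, hC' hA' hB'⟩

theorem hasAbEven_one (n : ℕ) : HasAbEven n 1 :=
  ⟨⊥, inferInstance, Subgroup.card_bot, bot_le⟩

theorem hasAb_two : HasAb 2 2 :=
  ⟨⊤, ⟨⟨fun x y => Subtype.ext ((by decide : ∀ a b : Perm (Fin 2), a * b = b * a) x y)⟩⟩, by rw [Subgroup.card_top]; simp [Fintype.card_perm]⟩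

theorem hasAbEven_three : HasAbEven 3 3 :=
  ⟨alternatingGroup (Fin 3), ⟨⟨by decide⟩⟩, by rw [Nat.card_eq_fintype_card]; decide, le_rfl⟩

theorem hasAbEven_four : HasAbEven 4 4 := by
  let T := ZMod 2 × ZMod 2
  let e : T ≃ Fin 4 := Fintype.equivFinOfCardEq (by simp [T])
  let φ : Multiplicative T →* Perm (Fin 4) :=
    { toFun := fun t => e.permCongr (Equiv.addLeft t.toAdd)
      map_one' := by ext i; simp [Equiv.permCongr_apply]
      map_mul' := fun s t => by ext i; simp [Equiv.permCongr_apply, add_assoc] }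
  have hφ : Function.Injective φ := fun s t h => by
    have h1 := congrArg (fun σ : Perm (Fin 4) => e.symm (σ (e 0))) h
    simpa [φ, Equiv.permCongr_apply] using h1
  refine ⟨φ.range, ⟨⟨fun x y => ?_⟩⟩, ?_, ?_⟩
  · obtain ⟨_, u, rfl⟩ := x
    obtain ⟨_, v, rfl⟩ := y
    exact Subtype.ext (by show φ u * φ v = φ v * φ u; rw [← map_mul, ← map_mul, mul_comm])
  · rw [← Nat.card_congr (MonoidHom.ofInjective hφ).toEquiv, Nat.card_eq_fintype_card]
    simp [T]
  · rintro _ ⟨t, rfl⟩
    rw [Perm.mem_alternatingGroup]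
    show Perm.sign (e.permCongr (Equiv.addLeft t.toAdd)) = 1
    rw [Perm.sign_permCongr]
    have : ∀ t : ZMod 2 × ZMod 2, Perm.sign (Equiv.addLeft t) = 1 := by decide
    exact this _

theorem hasAb_threes {a c : ℕ} (h : HasAb a c) (k : ℕ) : HasAb (a + 3 * k) (c * 3 ^ k) := by
  induction k with
  | zero => simpa using h
  | succ k ih =>
    rw [show a + 3 * (k + 1) = a + 3 * k + 3 by ring, pow_succ, ← mul_assoc]
    exact ih.add hasAbEven_three.hasAb

theorem hasAbEven_threes {a c : ℕ} (h : HasAbEven a c) (k : ℕ) : HasAbEven (a + 3 * k) (c * 3 ^ k) := by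
  induction k with
  | zero => simpa using h
  | succ k ih =>
    rw [show a + 3 * (k + 1) = a + 3 * k + 3 by ring, pow_succ, ← mul_assoc]
    exact ih.add hasAbEven_three

/-- The largest product of positive integers of given sum. -/
def g : ℕ → ℕ
  | 0 => 1
  | 1 => 1
  | 2 => 2
  | 3 => 3
  | 4 => 4
  | n + 5 => 3 * g (n + 2)

/-- The largest product of positive integers different from `2` of given sum. -/
def h : ℕ → ℕ
  | 0 => 1
  | 1 => 1
  | 2 => 1
  | 3 => 3
  | 4 => 4
  | 5 => 5
  | 6 => 9
  | 7 => 12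
  | 8 => 16
  | n + 9 => 3 * h (n + 6)

theorem g_step (n : ℕ) (hn : 2 ≤ n) : g (n + 3) = 3 * g n := by
  obtain ⟨m, rfl⟩ : ∃ m, n = m + 2 := ⟨n - 2, by omega⟩
  rw [g]

theorem h_step (n : ℕ) (hn : 6 ≤ n) : h (n + 3) = 3 * h n := by
  obtain ⟨m, rfl⟩ : ∃ m, n = m + 6 := ⟨n - 6, by omega⟩
  rw [h]

theorem mul_g : ∀ s n m : ℕ, n + m = s → m * g n ≤ g (n + m) := by
  intro s
  induction s using Nat.strong_induction_on with
  | _ s ih =>
    intro n m hs
    by_cases hm : 5 ≤ m
    · have h1 := ih (n + (m - 3)) (by omega) n (m - 3) rfl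
      have h2 := g_step (n + (m - 3)) (by omega)
      rw [show n + (m - 3) + 3 = n + m by omega] at h2
      have h3 : m * g n ≤ 3 * ((m - 3) * g n) := by
        rw [← mul_assoc]; exact Nat.mul_le_mul_right _ (by omega)
      omega
    · by_cases hn : 5 ≤ n
      · have h1 := ih (n - 3 + m) (by omega) (n - 3) m rfl
        have h2 := g_step (n - 3 + m) (by omega)
        have h4 := g_step (n - 3) (by omega)
        rw [show n - 3 + m + 3 = n + m by omega] at h2
        rw [show n - 3 + 3 = n by omega] at h4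
        rw [h4, mul_left_comm]
        omega
      · have : ∀ n < 5, ∀ m < 5, m * g n ≤ g (n + m) := by decide +kernel
        exact this n (by omega) m (by omega)

theorem mul_h : ∀ s n m : ℕ, n + m = s → m ≠ 2 → m * h n ≤ h (n + m) := by
  intro s
  induction s using Nat.strong_induction_on with
  | _ s ih =>
    intro n m hs hm2
    by_cases hm : 10 ≤ m
    · have h1 := ih (n + (m - 3)) (by omega) n (m - 3) rfl (by omega)
      have h2 := h_step (n + (m - 3)) (by omega)
      rw [show n + (m - 3) + 3 = n + m by omega] at h2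
      have h3 : m * h n ≤ 3 * ((m - 3) * h n) := by
        rw [← mul_assoc]; exact Nat.mul_le_mul_right _ (by omega)
      omega
    · by_cases hn : 9 ≤ n
      · have h1 := ih (n - 3 + m) (by omega) (n - 3) m rfl hm2
        have h2 := h_step (n - 3 + m) (by omega)
        have h4 := h_step (n - 3) (by omega)
        rw [show n - 3 + m + 3 = n + m by omega] at h2
        rw [show n - 3 + 3 = n by omega] at h4
        rw [h4, mul_left_comm]
        omega
      · have : ∀ n < 9, ∀ m < 10, m ≠ 2 → m * h n ≤ h (n + m) := by decide +kernel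
        exact this n (by omega) m (by omega) hm2

theorem g_zero_mod (k : ℕ) (hk : 1 ≤ k) : g (3 * k) = 3 ^ k := by
  induction k, hk using Nat.le_induction with
  | base => rfl
  | succ k hk ih => rw [show 3 * (k + 1) = 3 * k + 3 by ring, g_step _ (by omega), ih, pow_succ']

theorem g_one_mod (k : ℕ) (hk : 1 ≤ k) : g (3 * k + 1) = 4 * 3 ^ (k - 1) := by
  induction k, hk using Nat.le_induction with
  | base => rfl
  | succ k hk ih =>
    rw [show 3 * (k + 1) + 1 = 3 * k + 1 + 3 by ring, g_step _ (by omega), ih,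
      show k + 1 - 1 = k - 1 + 1 by omega, pow_succ']
    ring

theorem g_two_mod (k : ℕ) : g (3 * k + 2) = 2 * 3 ^ k := by
  induction k with
  | zero => rfl
  | succ k ih =>
    rw [show 3 * (k + 1) + 2 = 3 * k + 2 + 3 by ring, g_step _ (by omega), ih, pow_succ']
    ring

theorem h_two_mod (k : ℕ) (hk : 2 ≤ k) : h (3 * k + 2) = 16 * 3 ^ (k - 2) := by
  induction k, hk using Nat.le_induction with
  | base => rfl
  | succ k hk ih =>
    rw [show 3 * (k + 1) + 2 = 3 * k + 2 + 3 by ring, h_step _ (by omega), ih,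
      show k + 1 - 2 = k - 2 + 1 by omega, pow_succ']
    ring

theorem prod_le_g {α : Type*} (m : α → ℕ) (s : Finset α) : ∏ i ∈ s, m i ≤ g (∑ i ∈ s, m i) := by
  classical
  induction s using Finset.induction_on with
  | empty => simp [g]
  | insert a s ha ih =>
    rw [Finset.prod_insert ha, Finset.sum_insert ha, add_comm (m a)]
    exact (Nat.mul_le_mul_left _ ih).trans (mul_g _ _ _ rfl)

theorem prod_le_h {α : Type*} (m : α → ℕ) (s : Finset α) (h2 : ∀ i ∈ s, m i ≠ 2) :
    ∏ i ∈ s, m i ≤ h (∑ i ∈ s, m i) := by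
  classical
  induction s using Finset.induction_on with
  | empty => simp [h]
  | insert a s ha ih =>
    rw [Finset.prod_insert ha, Finset.sum_insert ha, add_comm (m a)]
    exact (Nat.mul_le_mul_left _ (ih fun i hi => h2 i (Finset.mem_insert_of_mem hi))).trans
      (mul_h _ _ _ rfl (h2 a (Finset.mem_insert_self _ _)))

theorem card_le_g {n : ℕ} (A : Subgroup (Perm (Fin n))) [IsMulCommutative A] : Nat.card A ≤ g n := by
  classical
  let O := orbitRel.Quotient A (Fin n)
  let F : A → ∀ ω : O, orbit A ω.out := fun a ω => ⟨a • ω.out, ⟨a, rfl⟩⟩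
  have hF : Function.Injective F := by
    intro a b hab
    refine Subtype.ext (Equiv.ext fun x => ?_)
    let ω : O := Quotient.mk'' x
    obtain ⟨c, hc⟩ : x ∈ orbit A ω.out := by
      rw [← orbitRel_apply]
      exact Quotient.exact (Quotient.out_eq ω).symm
    have h1 : a • ω.out = b • ω.out := congrArg Subtype.val (congrFun hab ω)
    show a • x = b • x
    rw [← hc]
    simp only [smul_smul]
    rw [mul_comm' a c, mul_comm' b c, mul_smul, mul_smul, h1]
  have hsum : ∑ ω : O, Nat.card (orbit A ω.out) = n := by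
    rw [← Nat.card_sigma, ← Nat.card_congr (selfEquivSigmaOrbits A (Fin n)), Nat.card_fin]
  refine (Nat.card_le_card_of_injective F hF).trans ?_
  rw [Nat.card_pi]
  conv_rhs => rw [← hsum]
  exact prod_le_g _ _

/-- In the alternating group the bound drops when the product of the orbit sizes is attained only with
an orbit of size two. -/
theorem card_le_h {n : ℕ} (A : Subgroup (Perm (Fin n))) [IsMulCommutative A]
    (hA : A ≤ alternatingGroup (Fin n)) (hn : g n ≤ 2 * h n) : Nat.card A ≤ h n := by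
  classical
  let O := orbitRel.Quotient A (Fin n)
  haveI : ∀ ω : O, Finite (orbit A ω.out) := fun ω => inferInstance
  let res : A →* ∀ ω : O, Perm (orbit A ω.out) := Pi.monoidHom fun ω => toPermHom A (orbit A ω.out)
  let F : A → ∀ ω : O, orbit A ω.out := fun a ω => ⟨a • ω.out, ⟨a, rfl⟩⟩
  have hF : Function.Injective F := by
    intro a b hab
    refine Subtype.ext (Equiv.ext fun x => ?_)
    let ω : O := Quotient.mk'' x
    obtain ⟨c, hc⟩ : x ∈ orbit A ω.out := by
      rw [← orbitRel_apply]
      exact Quotient.exact (Quotient.out_eq ω).symm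
    have h1 : a • ω.out = b • ω.out := congrArg Subtype.val (congrFun hab ω)
    show a • x = b • x
    rw [← hc]
    simp only [smul_smul]
    rw [mul_comm' a c, mul_comm' b c, mul_smul, mul_smul, h1]
  have hsum : ∑ ω : O, Nat.card (orbit A ω.out) = n := by
    rw [← Nat.card_sigma, ← Nat.card_congr (selfEquivSigmaOrbits A (Fin n)), Nat.card_fin]
  by_cases h2 : ∀ ω : O, Nat.card (orbit A ω.out) ≠ 2
  · refine (Nat.card_le_card_of_injective F hF).trans ?_
    rw [Nat.card_pi]
    conv_rhs => rw [← hsum]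
    exact prod_le_h _ _ fun i _ => h2 i
  push Not at h2
  obtain ⟨ω₀, hω₀⟩ := h2
  -- the transitive groups induced on the orbits are regular
  have hres : ∀ ω : O, Nat.card (toPermHom A (orbit A ω.out)).range = Nat.card (orbit A ω.out) := by
    intro ω
    refine Nat.card_eq_of_bijective (fun s => s.1 ⟨ω.out, mem_orbit_self _⟩) ⟨?_, ?_⟩
    · rintro ⟨_, a, rfl⟩ ⟨_, b, rfl⟩ hab
      refine Subtype.ext (Equiv.ext ?_)
      rintro ⟨_, c, rfl⟩
      have h1 : a • ω.out = b • ω.out := congrArg Subtype.val hab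
      refine Subtype.ext ?_
      show a • c • ω.out = b • c • ω.out
      rw [smul_smul, smul_smul, mul_comm' a c, mul_comm' b c, mul_smul, mul_smul, h1]
    · rintro ⟨_, c, rfl⟩
      exact ⟨⟨_, c, rfl⟩, rfl⟩
  let res' : A →* ∀ ω : O, (toPermHom A (orbit A ω.out)).range :=
    Pi.monoidHom fun ω => (toPermHom A (orbit A ω.out)).rangeRestrict
  have hres' : Function.Injective res' := by
    intro a b hab
    refine hF (funext fun ω => ?_)
    exact congrArg (fun s : (toPermHom A (orbit A ω.out)).range => s.1 ⟨ω.out, mem_orbit_self _⟩)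
      (congrFun hab ω)
  have hprod : Nat.card (∀ ω : O, (toPermHom A (orbit A ω.out)).range) ≤ g n := by
    rw [Nat.card_pi, Finset.prod_congr rfl fun ω _ => hres ω]
    conv_rhs => rw [← hsum]
    exact prod_le_g _ _
  have hnot : ¬ Function.Surjective res' := by
    intro hsurj
    have h1lt : 1 < Nat.card (toPermHom A (orbit A ω₀.out)).range := by rw [hres, hω₀]; norm_num
    haveI : Nontrivial (toPermHom A (orbit A ω₀.out)).range := Finite.one_lt_card_iff_nontrivial.1 h1lt
    obtain ⟨s, hs⟩ := exists_ne (1 : (toPermHom A (orbit A ω₀.out)).range)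
    obtain ⟨a, ha⟩ := hsurj (Pi.mulSingle ω₀ s)
    have hfix : ∀ x : Fin n, x ∉ orbit A ω₀.out → (a : Perm (Fin n)) x = x := by
      intro x hx
      let ω : O := Quotient.mk'' x
      have hxo : x ∈ orbit A ω.out := by
        rw [← orbitRel_apply]
        exact Quotient.exact (Quotient.out_eq ω).symm
      have hne : ω ≠ ω₀ := fun e => hx (e ▸ hxo)
      have h1 := congrArg (fun s : (toPermHom A (orbit A ω.out)).range => (s.1 ⟨x, hxo⟩ : Fin n))
        (congrFun ha ω)
      rw [Pi.mulSingle_eq_of_ne hne] at h1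
      exact h1
    have hsupp : (a : Perm (Fin n)).support ⊆ (orbit A ω₀.out).toFinset := by
      intro x hx
      rw [Set.mem_toFinset]
      by_contra hx'
      exact (Perm.mem_support.1 hx) (hfix x hx')
    have hcard : (a : Perm (Fin n)).support.card ≤ 2 :=
      (Finset.card_le_card hsupp).trans (by rw [← hω₀, Nat.card_eq_fintype_card, Set.toFinset_card])
    have hne1 : (a : Perm (Fin n)) ≠ 1 := by
      intro e
      have : a = 1 := Subtype.ext e
      rw [this, map_one] at ha
      exact hs (by simpa using (congrFun ha ω₀).symm)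
    have h2 : 2 ≤ (a : Perm (Fin n)).support.card :=
      Perm.two_le_card_support_of_ne_one hne1
    have hswap : (a : Perm (Fin n)).IsSwap := Perm.card_support_eq_two.1 (by omega)
    have hev := Perm.mem_alternatingGroup.1 (hA a.2)
    rw [hswap.sign_eq] at hev
    exact absurd hev (by decide)
  have hrange : res'.range ≠ ⊤ := fun e => hnot (MonoidHom.range_eq_top.1 e)
  have hidx : 2 ≤ res'.range.index := by
    have h0 : res'.range.index ≠ 0 := Subgroup.index_ne_zero_of_finite
    have h1 : res'.range.index ≠ 1 := fun e => hrange (Subgroup.index_eq_one.1 e)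
    omega
  have hmul := Subgroup.card_mul_index res'.range
  rw [← Nat.card_congr (MonoidHom.ofInjective hres').toEquiv] at hmul
  have := Nat.mul_le_mul_left (Nat.card A) hidx
  omega

theorem comm_map {G H : Type*} [Group G] [Group H] (A : Subgroup G) [IsMulCommutative A] (f : G →* H) :
    IsMulCommutative (A.map f) :=
  ⟨⟨fun x y => by
    obtain ⟨_, u, hu, rfl⟩ := x
    obtain ⟨_, v, hv, rfl⟩ := y
    exact Subtype.ext (by
      show f u * f v = f v * f u
      rw [← map_mul, ← map_mul]
      exact congrArg f (congrArg Subtype.val (mul_comm' (⟨u, hu⟩ : A) ⟨v, hv⟩)))⟩⟩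

theorem altMem {n c : ℕ} :
    (∃ A : Subgroup (alternatingGroup (Fin n)), IsMulCommutative A ∧ Nat.card A = c) ↔ HasAbEven n c := by
  constructor
  · rintro ⟨A, hA, rfl⟩
    exact ⟨A.map (alternatingGroup (Fin n)).subtype, comm_map A _,
      (Nat.card_congr (A.equivMapOfInjective _ Subtype.coe_injective).toEquiv).symm,
      Subgroup.map_subtype_le _⟩
  · rintro ⟨A, hA, rfl, hle⟩
    exact ⟨A.subgroupOf (alternatingGroup (Fin n)),
      ⟨⟨fun x y => by
        apply Subtype.ext
        apply Subtype.ext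
        have := congrArg Subtype.val (mul_comm' (⟨_, x.2⟩ : A) ⟨_, y.2⟩)
        simpa using this⟩⟩,
      Nat.card_congr (Subgroup.subgroupOfEquivOfLe hle).toEquiv⟩

end CfsgLib.SymAbelianMax
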