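import Cfsg.Agent.Lib.LocalFusion

/-!
# Alperin's fusion theorem with tame intersections
-/

set_option autoImplicit false

universe u

namespace CfsgLib.Local

variable {G : Type u} [Group G]

/-- `P ⊓ Q` is a tame intersection. -/
def TameInter (p : ℕ) (P Q : Subgroup G) : Prop :=
  ¬ p ∣ (P ⊓ Subgroup.normalizer ((P ⊓ Q : Subgroup G) : Set G)).relIndex
      (Subgroup.normalizer ((P ⊓ Q : Subgroup G) : Set G)) ∧
    ¬ p ∣ (Q ⊓ Subgroup.normalizer ((P ⊓ Q : Subgroup G) : Set G)).relIndex
      (Subgroup.normalizer ((P ⊓ Q : Subgroup G) : Set G))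

/-- Fusion through tame intersections. -/
def TameSeq {p : ℕ} (P : Sylow p G) (A : Set G) (g : G) : Prop :=
  ∃ l : List (Sylow p G × G), (l.map Prod.snd).prod = g ∧
    ∀ i (h : i < l.length),
      l[i].2 ∈ Subgroup.normalizer (((P : Subgroup G) ⊓ (l[i].1 : Subgroup G) : Subgroup G) : Set G) ∧
      TameInter p (P : Subgroup G) (l[i].1 : Subgroup G) ∧
      rc ((l.map Prod.snd).take i).prod A ⊆
        (((P : Subgroup G) ⊓ (l[i].1 : Subgroup G) : Subgroup G) : Set G)

theorem TameSeq.mono {p : ℕ} {P : Sylow p G} {A B : Set G} {g : G} (h : TameSeq P B g)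
    (hAB : A ⊆ B) : TameSeq P A g := by
  obtain ⟨l, hl, hi⟩ := h
  exact ⟨l, hl, fun i hil => ⟨(hi i hil).1, (hi i hil).2.1, (rc_mono _ hAB).trans (hi i hil).2.2⟩⟩

theorem TameSeq.comp {p : ℕ} {P : Sylow p G} {A : Set G} {g k : G} (h₁ : TameSeq P A g)
    (h₂ : TameSeq P (rc g A) k) : TameSeq P A (g * k) := by
  obtain ⟨l₁, hl₁, hi₁⟩ := h₁
  obtain ⟨l₂, hl₂, hi₂⟩ := h₂
  refine ⟨l₁ ++ l₂, by rw [List.map_append, List.prod_append, hl₁, hl₂], fun i hi => ?_⟩
  rw [List.length_append] at hi
  by_cases hlt : i < l₁.length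
  · rw [List.getElem_append_left hlt, List.map_append, List.take_append_of_le_length
      (by rw [List.length_map]; omega)]
    exact hi₁ i hlt
  · obtain ⟨j, rfl⟩ := Nat.exists_eq_add_of_le (not_lt.mp hlt)
    have hj : j < l₂.length := by omega
    have e : (l₁ ++ l₂)[l₁.length + j]'(by rw [List.length_append]; omega) = l₂[j] := by
      rw [List.getElem_append_right (by omega)]
      simp
    rw [e, List.map_append, List.take_append, List.take_of_length_le (by rw [List.length_map]; omega),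
      List.length_map, Nat.add_sub_cancel_left, List.prod_append, hl₁, rc_mul]
    exact hi₂ j hj

theorem tame_fusion [Finite G] {p : ℕ} [hp : Fact p.Prime] (P : Sylow p G) (A : Set G) (g : G)
    (hA : A ⊆ (P : Set G)) (hg : rc g A ⊆ (P : Set G)) : TameSeq P A g := by
  classical
  refine fusion_induction P.2 (TameSeq P) (fun A B g hAB h => h.mono hAB)
    (fun A g h h₁ h₂ => h₁.comp h₂) (fun T hT => ?_) A g hA hg
  -- a fully normalized conjugate of `T`
  obtain ⟨R, hR⟩ := (((default : Sylow p (Subgroup.normalizer (T : Set G))).2).map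
      (Subgroup.normalizer (T : Set G)).subtype).exists_le_sylow
  obtain ⟨h, hh⟩ := MulAction.exists_smul_eq G R P
  have hN : ¬ p ∣ (((default : Sylow p (Subgroup.normalizer (T : Set G))) : Subgroup _).map
      (Subgroup.normalizer (T : Set G)).subtype).relIndex (Subgroup.normalizer (T : Set G)) := by
    rw [Subgroup.relIndex, ← Subgroup.comap_subtype,
      Subgroup.comap_map_eq_self_of_injective (Subgroup.subtype_injective _)]
    exact (default : Sylow p (Subgroup.normalizer (T : Set G))).not_dvd_index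
  set U := T.map (MulAut.conj h).toMonoidHom with hU
  have hTP : T ≤ (R : Subgroup G) := by
    refine le_trans ?_ hR
    intro t ht
    have hn : (T.subgroupOf (Subgroup.normalizer (T : Set G))).Normal :=
      Subgroup.normal_subgroupOf_of_le_normalizer le_rfl
    have hp' : IsPGroup p (T.subgroupOf (Subgroup.normalizer (T : Set G))) :=
      (P.2.to_le hT).of_injective
        (Subgroup.subgroupOfEquivOfLe Subgroup.le_normalizer).toMonoidHom
        (Subgroup.subgroupOfEquivOfLe Subgroup.le_normalizer).injective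
    haveI := hn
    exact ⟨⟨t, Subgroup.le_normalizer ht⟩, hp'.le_sylow_of_normal _ ht, rfl⟩
  have hPR : (P : Subgroup G) = (R : Subgroup G).map (MulAut.conj h).toMonoidHom := by
    rw [← hh]; rfl
  have hUP : U ≤ (P : Subgroup G) := hPR ▸ Subgroup.map_mono hTP
  have hfn : FullyNorm p (P : Subgroup G) U := by
    intro hd
    refine hN (dvd_trans hd ?_)
    have e1 : Subgroup.normalizer (U : Set G) =
        (Subgroup.normalizer (T : Set G)).map (MulAut.conj h).toMonoidHom :=
      (Subgroup.map_equiv_normalizer_eq T (MulAut.conj h)).symm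
    rw [hPR, e1, ← Subgroup.map_inf _ _ _ (MulAut.conj h).injective,
      Subgroup.relIndex_map_map_of_injective _ _ (MulAut.conj h).injective]
    exact Subgroup.relIndex_dvd_of_le_left _ (le_inf hR (Subgroup.map_subtype_le _))
  refine ⟨U, hUP, ⟨h⁻¹, by rw [rc_coe, inv_inv]⟩, hfn, fun hIH m hm => ?_⟩
  have hcard : Nat.card U = Nat.card T :=
    Subgroup.card_map_of_injective (f := (MulAut.conj h).toMonoidHom) (MulAut.conj h).injective
  set S₁ := (P : Subgroup G) ⊓ Subgroup.normalizer (U : Set G) with hS₁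
  set S₂ := S₁.map (MulAut.conj m).toMonoidHom with hS₂
  have hS₂N : S₂ ≤ Subgroup.normalizer (U : Set G) := by
    rintro _ ⟨s, hs, rfl⟩
    exact mul_mem (mul_mem hm hs.2) (inv_mem hm)
  set V := S₁ ⊓ S₂ with hV
  have hUV : U ≤ V := by
    refine le_inf (le_inf hUP Subgroup.le_normalizer) fun u hu => ⟨m⁻¹ * u * m,
      ⟨hUP ?_, Subgroup.le_normalizer ?_⟩, by simp [mul_assoc]⟩ <;>
      simpa using (Subgroup.mem_normalizer_iff.mp (inv_mem hm) u).mp hu
  by_cases hlt : U < V
  · refine (hIH V m ?_ (inf_le_left.trans inf_le_left) ?_).mono (SetLike.coe_subset_coe.mpr hUV)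
    · rw [← hcard]; exact card_lt_card_of_lt hlt
    · rintro _ ⟨v, hv, rfl⟩
      obtain ⟨s, hs, rfl⟩ := hv.2
      show m⁻¹ * (m * s * m⁻¹) * m ∈ (P : Subgroup G)
      rw [show m⁻¹ * (m * s * m⁻¹) * m = s by group]
      exact hs.1
  have hVU : V = U := (eq_of_le_of_not_lt hUV hlt).symm
  obtain ⟨Q, hQ⟩ := ((P.2.to_le (inf_le_left : S₁ ≤ _)).map (MulAut.conj m).toMonoidHom).exists_le_sylow
  have hidx : ¬ p ∣ S₂.relIndex (Subgroup.normalizer (U : Set G)) := by
    have e : (Subgroup.normalizer (U : Set G)).map (MulAut.conj m).toMonoidHom =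
        Subgroup.normalizer (U : Set G) :=
      Subgroup.mem_normalizer_iff_map_conj_eq.mp (Subgroup.le_normalizer hm)
    rw [← e, hS₂, Subgroup.relIndex_map_map_of_injective _ _ (MulAut.conj m).injective]
    exact hfn
  have hQN : (Q : Subgroup G) ⊓ Subgroup.normalizer (U : Set G) = S₂ := by
    refine (Subgroup.eq_of_le_of_card_ge (le_inf hQ hS₂N) ?_).symm
    obtain ⟨a, ha⟩ := IsPGroup.iff_card.mp
      (Q.2.to_le (inf_le_left : (Q : Subgroup G) ⊓ Subgroup.normalizer (U : Set G) ≤ _))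
    have hd : Nat.card ↥((Q : Subgroup G) ⊓ Subgroup.normalizer (U : Set G)) ∣
        Nat.card S₂ * S₂.relIndex (Subgroup.normalizer (U : Set G)) := by
      have hmul : Nat.card S₂ * S₂.relIndex (Subgroup.normalizer (U : Set G)) =
          Nat.card ↥(Subgroup.normalizer (U : Set G)) := by
        rw [← Subgroup.relIndex_bot_left S₂,
          Subgroup.relIndex_mul_relIndex ⊥ S₂ _ bot_le hS₂N, Subgroup.relIndex_bot_left]
      rw [hmul]
      exact Subgroup.card_dvd_of_le inf_le_right
    rw [ha] at hd ⊢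
    exact Nat.le_of_dvd Nat.card_pos
      (((hp.out.coprime_iff_not_dvd).mpr hidx).pow_left a |>.dvd_of_dvd_mul_right hd)
  have hPQ : (P : Subgroup G) ⊓ (Q : Subgroup G) = U := by
    have hle : U ≤ (P : Subgroup G) ⊓ (Q : Subgroup G) :=
      hVU ▸ le_inf (inf_le_left.trans inf_le_left) (inf_le_right.trans hQ)
    by_contra hne
    have h1 := lt_inf_normalizer (P.2.to_le inf_le_left) (lt_of_le_of_ne hle (Ne.symm hne))
    refine h1.not_ge (le_trans ?_ hVU.le)
    exact le_inf (le_inf (inf_le_left.trans inf_le_left) inf_le_right)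
      (hQN ▸ le_inf (inf_le_left.trans inf_le_right) inf_le_right)
  refine ⟨[(Q, m)], by simp, fun i hi => ?_⟩
  obtain rfl : i = 0 := by simpa using hi
  simp only [List.getElem_cons_zero, List.take_zero, List.prod_nil, rc_one]
  rw [TameInter, hPQ, hQN]
  exact ⟨hm, ⟨hfn, hidx⟩, subset_rfl⟩

theorem alperin_tame [Finite G] {p : ℕ} [hp : Fact p.Prime] (P : Sylow p G) (A : Set G) (g : G)
    (hA : A ⊆ (P : Set G)) (hAg : rc g A ⊆ (P : Set G)) :
    ∃ (n : ℕ) (Q : Fin n → Sylow p G) (x : Fin n → G), (List.ofFn x).prod = g ∧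
      (∀ i : Fin n,
        x i ∈ Subgroup.normalizer (((P : Subgroup G) ⊓ (Q i : Subgroup G) : Subgroup G) : Set G) ∧
        TameInter p (P : Subgroup G) (Q i : Subgroup G)) ∧
      (∀ h : 0 < n, A ⊆ (((P : Subgroup G) ⊓ (Q ⟨0, h⟩ : Subgroup G) : Subgroup G) : Set G)) ∧
      ∀ i : Fin n, ∀ h : i.val + 1 < n,
        rc ((List.ofFn x).take (i.val + 1)).prod A ⊆
          (((P : Subgroup G) ⊓ (Q ⟨i.val + 1, h⟩ : Subgroup G) : Subgroup G) : Set G) := by
  obtain ⟨l, hl, hi⟩ := tame_fusion P A g hA hAg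
  have hmap : List.ofFn (fun i : Fin l.length => l[i.val].2) = l.map Prod.snd :=
    List.ext_getElem (by simp) fun i h1 h2 => by simp
  refine ⟨l.length, fun i => l[i.val].1, fun i => l[i.val].2, by rw [hmap, hl],
    fun i => ⟨(hi i i.2).1, (hi i i.2).2.1⟩, fun h => ?_, fun i h => ?_⟩
  · simpa [rc_one] using (hi 0 h).2.2
  · rw [hmap]
    exact (hi (i.val + 1) h).2.2

end CfsgLib.Local
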