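import Mathlib
import Cfsg.Agent.Lib.CoreBasic
import Cfsg.Agent.Lib.LocalWeakClosed
import Cfsg.Agent.Lib.LocalClassTwo

/-!
# The centre of a Sylow subgroup splits over its weakly closed elements
-/

set_option autoImplicit false

namespace CfsgLib.Local.CenterSplit

open CfsgLib.Core CfsgLib.Stable

variable {G : Type*} [Group G] [Finite G] {p : ℕ} [hp : Fact p.Prime]

/-- If `N` normalizes the abelian `p`-group `A` and `S ≤ N` has index prime to `p`, then the fixed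
points of `N` have a complement in the fixed points of `S`. -/
theorem exists_complement {A S N : Subgroup G} (hA : ∀ a ∈ A, ∀ b ∈ A, a * b = b * a)
    (hAp : IsPGroup p ↥A) (hNA : N ≤ Subgroup.normalizer (A : Set G)) (hSN : S ≤ N)
    (hidx : ¬ p ∣ S.relIndex N) :
    ∃ K : Subgroup G, K ≤ A ⊓ Subgroup.centralizer (S : Set G) ∧
      A ⊓ Subgroup.centralizer (N : Set G) ⊓ K = ⊥ ∧
      A ⊓ Subgroup.centralizer (N : Set G) ⊔ K = A ⊓ Subgroup.centralizer (S : Set G) := by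
  classical
  letI : CommGroup ↥A :=
    { (inferInstance : Group ↥A) with mul_comm := fun a b => Subtype.ext (hA a a.2 b b.2) }
  set Z₀ := A ⊓ Subgroup.centralizer (S : Set G) with hZ₀
  set H := S.subgroupOf N with hH
  letI := Fintype.ofFinite (↥N ⧸ H)
  have hmem : ∀ n : ↥N, ∀ z : ↥Z₀, (n : G) * z * (n : G)⁻¹ ∈ A := fun n z =>
    (Subgroup.mem_normalizer_iff.1 (hNA n.2) _).1 z.2.1
  let ψ : (↥N ⧸ H) → ↥Z₀ → ↥A := fun q => Quotient.liftOn' q
    (fun n z => (⟨(n : G) * z * (n : G)⁻¹, hmem n z⟩ : ↥A)) (fun n m h => by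
      funext z
      apply Subtype.ext
      have hs : ((n : G)⁻¹ * m) ∈ S := by
        simpa [hH, Subgroup.mem_subgroupOf] using (QuotientGroup.leftRel_apply.1 h)
      have hc : ((n : G)⁻¹ * m) * z = z * ((n : G)⁻¹ * m) :=
        Subgroup.mem_centralizer_iff.1 z.2.2 _ hs
      show (n : G) * z * (n : G)⁻¹ = (m : G) * z * (m : G)⁻¹
      calc (n : G) * z * (n : G)⁻¹ = n * (z * ((n : G)⁻¹ * m)) * (m : G)⁻¹ := by group
        _ = n * (((n : G)⁻¹ * m) * z) * (m : G)⁻¹ := by rw [hc]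
        _ = (m : G) * z * (m : G)⁻¹ := by group)
  have hψ : ∀ (n : ↥N) (z : ↥Z₀), (ψ (QuotientGroup.mk n) z : G) = n * z * (n : G)⁻¹ :=
    fun n z => rfl
  let T : ↥Z₀ →* ↥A :=
    { toFun := fun z => ∏ q, ψ q z
      map_one' := Finset.prod_eq_one fun q _ => by
        obtain ⟨n, rfl⟩ := QuotientGroup.mk_surjective q
        exact Subtype.ext (by rw [hψ]; simp)
      map_mul' := fun z w => by
        rw [← Finset.prod_mul_distrib]
        refine Finset.prod_congr rfl fun q _ => ?_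
        obtain ⟨n, rfl⟩ := QuotientGroup.mk_surjective q
        refine Subtype.ext ?_
        rw [Subgroup.coe_mul, hψ, hψ, hψ, Subgroup.coe_mul]
        group }
  have hTfix : ∀ (z : ↥Z₀) (m : G), m ∈ N → m * (T z : G) = (T z : G) * m := by
    intro z m hm
    let c : ↥A →* ↥A :=
      { toFun := fun a => ⟨m * a * m⁻¹, (Subgroup.mem_normalizer_iff.1 (hNA hm) _).1 a.2⟩
        map_one' := Subtype.ext (by simp)
        map_mul' := fun a b => Subtype.ext (by simp [mul_assoc]) }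
    have h1 : c (T z) = T z := by
      show c (∏ q, ψ q z) = ∏ q, ψ q z
      rw [map_prod]
      refine Fintype.prod_equiv (MulAction.toPerm (⟨m, hm⟩ : ↥N)) _ _ fun q => ?_
      obtain ⟨n, rfl⟩ := QuotientGroup.mk_surjective q
      refine Subtype.ext ?_
      show m * (ψ (QuotientGroup.mk n) z : G) * m⁻¹ =
        (ψ (QuotientGroup.mk ((⟨m, hm⟩ : ↥N) * n)) z : G)
      rw [hψ, hψ, Subgroup.coe_mul]
      group
    have h2 : m * (T z : G) * m⁻¹ = (T z : G) := congrArg Subtype.val h1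
    exact mul_inv_eq_iff_eq_mul.1 h2
  set n₀ := Fintype.card (↥N ⧸ H) with hn₀
  have hcop : (Nat.card ↥A).Coprime n₀ := by
    obtain ⟨k, hk⟩ := (IsPGroup.iff_card).1 hAp
    rw [hk]
    refine Nat.Coprime.pow_left _ ((Nat.Prime.coprime_iff_not_dvd hp.out).2 ?_)
    rwa [hn₀, ← Nat.card_eq_fintype_card]
  set W := A ⊓ Subgroup.centralizer (N : Set G) with hW
  have hWZ : W ≤ Z₀ := inf_le_inf_left _ (Subgroup.centralizer_le hSN)
  have hTW : ∀ (w : G) (hw : w ∈ W), T ⟨w, hWZ hw⟩ = (⟨w, hw.1⟩ : ↥A) ^ n₀ := by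
    intro w hw
    show ∏ q, ψ q ⟨w, hWZ hw⟩ = _
    rw [Finset.prod_eq_pow_card (b := (⟨w, hw.1⟩ : ↥A)) fun q _ => ?_]
    · rfl
    obtain ⟨n, rfl⟩ := QuotientGroup.mk_surjective q
    refine Subtype.ext ?_
    rw [hψ]
    show (n : G) * w * (n : G)⁻¹ = w
    rw [Subgroup.mem_centralizer_iff.1 hw.2 _ n.2, mul_inv_cancel_right]
  refine ⟨T.ker.map Z₀.subtype, Subgroup.map_subtype_le _, ?_, ?_⟩
  · rw [eq_bot_iff]
    rintro w ⟨hw, ⟨z, hz, rfl⟩⟩
    have hzW : (z : G) ∈ W := hw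
    have h1 : (⟨(z : G), hzW.1⟩ : ↥A) ^ n₀ = 1 := by
      rw [← hTW (z : G) hzW]; exact hz
    have h2 : (⟨(z : G), hw.1⟩ : ↥A) = 1 :=
      (powCoprime hcop).injective (by show (⟨(z : G), hzW.1⟩ : ↥A) ^ n₀ = (1 : ↥A) ^ n₀; rw [h1, one_pow])
    exact congrArg Subtype.val h2
  · refine le_antisymm (sup_le hWZ (Subgroup.map_subtype_le _)) fun x hx => ?_
    set z : ↥Z₀ := ⟨x, hx⟩
    have hinW : ((powCoprime hcop).symm (T z) : G) ∈ W := by
      refine ⟨((powCoprime hcop).symm (T z)).2, Subgroup.mem_centralizer_iff.2 fun m hm => ?_⟩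
      set w := (powCoprime hcop).symm (T z)
      have hw : w ^ n₀ = T z := (powCoprime hcop).apply_symm_apply (T z)
      have h1 : (⟨m * w * m⁻¹, (Subgroup.mem_normalizer_iff.1 (hNA hm) _).1 w.2⟩ : ↥A) ^ n₀ =
          w ^ n₀ := by
        refine Subtype.ext ?_
        rw [SubgroupClass.coe_pow, conj_pow, ← SubgroupClass.coe_pow, hw, hTfix z m hm,
          mul_inv_cancel_right]
      have h2 := congrArg Subtype.val ((powCoprime hcop).injective h1)
      exact mul_inv_eq_iff_eq_mul.1 h2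
    set w : G := ((powCoprime hcop).symm (T z) : G)
    have hk : w⁻¹ * x ∈ T.ker.map Z₀.subtype := by
      refine ⟨(⟨w, hWZ hinW⟩ : ↥Z₀)⁻¹ * z, ?_, rfl⟩
      rw [SetLike.mem_coe, MonoidHom.mem_ker, map_mul, map_inv, hTW w hinW,
        show (⟨w, hinW.1⟩ : ↥A) = (powCoprime hcop).symm (T z) from Subtype.ext rfl,
        show ((powCoprime hcop).symm (T z)) ^ n₀ = T z from (powCoprime hcop).apply_symm_apply (T z),
        inv_mul_cancel]
    have h := mul_mem ((le_sup_left : W ≤ W ⊔ T.ker.map Z₀.subtype) hinW)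
      ((le_sup_right : T.ker.map Z₀.subtype ≤ W ⊔ T.ker.map Z₀.subtype) hk)
    rwa [mul_inv_cancel_left] at h

/-- For a characteristic piece controlling isolation, the isolated elements are split. -/
theorem split_of_criterion (S : Sylow p G) {A N : Subgroup G}
    (hA : ∀ a ∈ A, ∀ b ∈ A, a * b = b * a) (hAS : A ≤ (S : Subgroup G))
    (hNA : N ≤ Subgroup.normalizer (A : Set G)) (hSN : (S : Subgroup G) ≤ N)
    (hZ : (S : Subgroup G) ⊓ Subgroup.centralizer ((S : Subgroup G) : Set G) ≤ A)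
    (hback : ∀ x ∈ A, (∀ n ∈ N, n * x = x * n) →
      ∀ g : G, g * x * g⁻¹ ∈ (S : Subgroup G) → g * x * g⁻¹ = x) :
    ∃ W K : Subgroup G, (∀ x : G, x ∈ W ↔ (x ∈ (S : Subgroup G) ∧ ∀ g : G, g * x * g⁻¹ ∈ (S : Subgroup G) → g * x * g⁻¹ = x)) ∧
      K ≤ ((S : Subgroup G) ⊓ Subgroup.centralizer ((S : Subgroup G) : Set G)) ∧ W ⊓ K = ⊥ ∧ W ⊔ K = ((S : Subgroup G) ⊓ Subgroup.centralizer ((S : Subgroup G) : Set G)) := by
  have hidx : ¬ p ∣ (S : Subgroup G).relIndex N := fun h =>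
    S.not_dvd_index (h.trans (Subgroup.relIndex_dvd_index_of_le hSN))
  obtain ⟨K, hK, hinf, hsup⟩ := exists_complement hA (S.2.to_le hAS) hNA hSN hidx
  have heq : A ⊓ Subgroup.centralizer ((S : Subgroup G) : Set G) =
      (S : Subgroup G) ⊓ Subgroup.centralizer ((S : Subgroup G) : Set G) :=
    le_antisymm (inf_le_inf_right _ hAS) (le_inf hZ inf_le_right)
  refine ⟨A ⊓ Subgroup.centralizer (N : Set G), K, fun x => ⟨fun hx => ?_, fun hx => ?_⟩,
    hK.trans heq.le, hinf, hsup.trans heq⟩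
  · exact ⟨hAS hx.1, hback x hx.1 fun n hn => Subgroup.mem_centralizer_iff.1 hx.2 n hn⟩
  · obtain ⟨hxS, hiso⟩ := hx
    have hxA : x ∈ A := hZ ⟨hxS, Subgroup.mem_centralizer_iff.2 fun s hs =>
      mul_inv_eq_iff_eq_mul.1 (hiso s ((S : Subgroup G).mul_mem ((S : Subgroup G).mul_mem hs hxS)
        ((S : Subgroup G).inv_mem hs)))⟩
    exact ⟨hxA, Subgroup.mem_centralizer_iff.2 fun n hn => mul_inv_eq_iff_eq_mul.1
      (hiso n (hAS ((Subgroup.mem_normalizer_iff.1 (hNA hn) x).1 hxA)))⟩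

theorem split_odd (S : Sylow p G) (hp2 : p ≠ 2) :
    ∃ W K : Subgroup G, (∀ x : G, x ∈ W ↔ (x ∈ (S : Subgroup G) ∧ ∀ g : G, g * x * g⁻¹ ∈ (S : Subgroup G) → g * x * g⁻¹ = x)) ∧
      K ≤ ((S : Subgroup G) ⊓ Subgroup.centralizer ((S : Subgroup G) : Set G)) ∧ W ⊓ K = ⊥ ∧ W ⊔ K = ((S : Subgroup G) ⊓ Subgroup.centralizer ((S : Subgroup G) : Set G)) := by
  refine split_of_criterion S (A := Zsub 0 (S : Subgroup G))
    (N := Subgroup.normalizer (Jsub 0 (S : Subgroup G) : Set G)) (Zsub_abelian 0 _) (Zsub_le 0 _)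
    (normalizer_Jsub_le_Zsub 0 _) (Subgroup.le_normalizer.trans (normalizer_le_Jsub 0 _)) ?_ ?_
  · rintro x ⟨hxS, hxC⟩
    have hc : ∀ a ∈ (S : Subgroup G), a * x = x * a :=
      fun a ha => Subgroup.mem_centralizer_iff.1 hxC a ha
    refine ⟨?_, Subgroup.mem_centralizer_iff.2 fun a ha => hc a (Jsub_le 0 _ ha)⟩
    obtain ⟨A₀, hA₀⟩ := exists_isMax 0 (S : Subgroup G)
    exact isMax_le_Jsub hA₀ (mem_of_isMax hA₀ hxS (pow_zero x) fun a ha => hc a (hA₀.1 ha))
  · intro x hx hN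
    exact WeakClosed.weakly_closed S x (Zsub_le 0 _ hx) hN (Or.inl hp2)

theorem split_solvable (S : Sylow p G) [Group.IsSolvable G] :
    ∃ W K : Subgroup G, (∀ x : G, x ∈ W ↔ (x ∈ (S : Subgroup G) ∧ ∀ g : G, g * x * g⁻¹ ∈ (S : Subgroup G) → g * x * g⁻¹ = x)) ∧
      K ≤ ((S : Subgroup G) ⊓ Subgroup.centralizer ((S : Subgroup G) : Set G)) ∧ W ⊓ K = ⊥ ∧ W ⊔ K = ((S : Subgroup G) ⊓ Subgroup.centralizer ((S : Subgroup G) : Set G)) := by
  haveI := normal_pPrimeCore (G := G) p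
  haveI := normal_pCore (G := G ⧸ Cfsg.pPrimeCore p G) p
  set M := Cfsg.pPrimePCore p G with hM
  haveI hMn : M.Normal := Subgroup.Normal.comap inferInstance _
  set R := M ⊓ (S : Subgroup G) with hR
  let P : Sylow p ↥M :=
    ((S.isPGroup'.comap_subtype (K := M))).toSylow (not_dvd_relIndex_of_normal S M)
  have hPmap : (P : Subgroup ↥M).map M.subtype = R := by
    show ((S : Subgroup G).subgroupOf M).map M.subtype = _
    rw [Subgroup.subgroupOf_map_subtype, inf_comm]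
  have hCR : Subgroup.centralizer (R : Set G) ≤ M := by
    have h := ClassTwo.isPConstrained_of_solvable p (G := G) P
    rwa [hPmap] at h
  have hMR : ∀ m ∈ M, ∃ o ∈ Cfsg.pPrimeCore p G, ∃ r ∈ R, m = o * r := by
    intro m hm
    have h := ClassTwo.sylow_pPrimePCore_map P
    rw [hPmap] at h
    have hm' : QuotientGroup.mk' (Cfsg.pPrimeCore p G) m ∈ Cfsg.pCore p (G ⧸ Cfsg.pPrimeCore p G) := hm
    rw [← h] at hm'
    obtain ⟨r, hr, he⟩ := hm'
    refine ⟨m * r⁻¹, ?_, r, hr, (inv_mul_cancel_right m r).symm⟩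
    rw [← QuotientGroup.ker_mk' (Cfsg.pPrimeCore p G), MonoidHom.mem_ker, map_mul, map_inv, he,
      mul_inv_cancel]
  set A := R ⊓ Subgroup.centralizer (R : Set G) with hA
  set N := Subgroup.normalizer (R : Set G) with hN
  have hNA : N ≤ Subgroup.normalizer (A : Set G) := by
    intro n hn
    have key : ∀ n ∈ N, ∀ a ∈ A, n * a * n⁻¹ ∈ A := by
      intro n hn a ha
      refine ⟨(Subgroup.mem_normalizer_iff.1 hn a).1 ha.1, Subgroup.mem_centralizer_iff.2 fun r hr => ?_⟩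
      have h2 : n⁻¹ * r * n ∈ R := by
        simpa using (Subgroup.mem_normalizer_iff.1 (inv_mem hn) r).1 hr
      have h1 := Subgroup.mem_centralizer_iff.1 ha.2 _ h2
      calc r * (n * a * n⁻¹) = n * ((n⁻¹ * r * n) * a) * n⁻¹ := by group
        _ = n * (a * (n⁻¹ * r * n)) * n⁻¹ := by rw [h1]
        _ = n * a * n⁻¹ * r := by group
    refine Subgroup.mem_normalizer_iff.2 fun a => ⟨key n hn a, fun ha => ?_⟩
    simpa [mul_assoc] using key n⁻¹ (inv_mem hn) _ ha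
  have hSN : (S : Subgroup G) ≤ N := by
    intro s hs
    refine Subgroup.mem_normalizer_iff.2 fun a => ⟨fun ha => ?_, fun ha => ?_⟩
    · exact ⟨hMn.conj_mem a ha.1 s, (S : Subgroup G).mul_mem ((S : Subgroup G).mul_mem hs ha.2) ((S : Subgroup G).inv_mem hs)⟩
    · have h1 := hMn.conj_mem _ ha.1 s⁻¹
      have h2 := (S : Subgroup G).mul_mem ((S : Subgroup G).mul_mem ((S : Subgroup G).inv_mem hs) ha.2) hs
      refine ⟨?_, ?_⟩
      · rwa [show s⁻¹ * (s * a * s⁻¹) * s⁻¹⁻¹ = a by group] at h1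
      · rwa [show s⁻¹ * (s * a * s⁻¹) * s = a by group] at h2
  refine split_of_criterion S (A := A) (N := N)
    (fun a ha b hb => Subgroup.mem_centralizer_iff.1 hb.2 a ha.1) (inf_le_left.trans inf_le_right)
    hNA hSN ?_ ?_
  · rintro x ⟨hxS, hxC⟩
    have hxR : x ∈ Subgroup.centralizer (R : Set G) :=
      Subgroup.centralizer_le (show (R : Set G) ⊆ ((S : Subgroup G) : Set G) from fun r hr => hr.2) hxC
    exact ⟨⟨hCR hxR, hxS⟩, hxR⟩
  · intro x hx hfix g hg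
    obtain ⟨l, hl, n, hn, rfl⟩ := frattini_decomp S M g
    obtain ⟨o, ho, r, hr, rfl⟩ := hMR l hl
    have hrn : (r * n) * x * (r * n)⁻¹ = x := by
      calc (r * n) * x * (r * n)⁻¹ = r * (n * x * n⁻¹) * r⁻¹ := by group
        _ = r * x * r⁻¹ := by rw [hfix n hn, mul_inv_cancel_right]
        _ = x := by rw [Subgroup.mem_centralizer_iff.1 hx.2 r hr, mul_inv_cancel_right]
    have hox : o * r * n * x * (o * r * n)⁻¹ = o * x * o⁻¹ := by
      calc o * r * n * x * (o * r * n)⁻¹ = o * ((r * n) * x * (r * n)⁻¹) * o⁻¹ := by group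
        _ = o * x * o⁻¹ := by rw [hrn]
    rw [hox] at hg ⊢
    have hxS : x ∈ (S : Subgroup G) := hx.1.2
    have h1 : o * x * o⁻¹ * x⁻¹ ∈ (S : Subgroup G) ⊓ Cfsg.pPrimeCore p G := by
      refine ⟨(S : Subgroup G).mul_mem hg ((S : Subgroup G).inv_mem hxS), ?_⟩
      have h3 := (normal_pPrimeCore (G := G) p).conj_mem _ (inv_mem ho) x
      rw [show o * x * o⁻¹ * x⁻¹ = o * (x * o⁻¹ * x⁻¹) by group]
      exact mul_mem ho h3
    have h2 : (S : Subgroup G) ⊓ Cfsg.pPrimeCore p G = ⊥ := by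
      refine inf_eq_bot_of_coprime ?_
      obtain ⟨k, hk⟩ := (IsPGroup.iff_card).1 S.2
      rw [hk]
      exact ((coprime_card_pPrimeCore p).symm).pow_left k
    rw [h2, Subgroup.mem_bot, mul_inv_eq_one] at h1
    exact h1

end CfsgLib.Local.CenterSplit
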