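import Cfsg.Prelude.Def_BaumannBlocks
import Cfsg.Prelude.Def_PLocal
import Cfsg.Agent.Lib.LocalCD
import Cfsg.Agent.Lib.CoreBasic

/-!
# Centrally large subgroups
-/

set_option autoImplicit false

namespace CfsgLib.Local.CL

open Subgroup
open scoped Pointwise

universe u

variable {P : Type u} [Group P] [Finite P]

/-- The centre of `R`, inside `P`. -/
def zc (R : Subgroup P) : Subgroup P := R ⊓ centralizer (R : Set P)

theorem zc_le (R : Subgroup P) : zc R ≤ R := inf_le_left

theorem le_centralizer_zc (R : Subgroup P) : R ≤ centralizer (zc R : Set P) :=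
  le_centralizer_iff.mp inf_le_right

theorem card_center (R : Subgroup P) : Nat.card (center ↥R) = Nat.card (zc R) := by
  rw [← Subgroup.card_subtype R (center ↥R)]
  refine congrArg (fun X : Subgroup P => Nat.card X) ?_
  ext x
  simp only [zc, mem_inf, mem_map, mem_centralizer_iff, Subgroup.mem_center_iff]
  constructor
  · rintro ⟨y, hy, rfl⟩
    exact ⟨y.2, fun h hh => congrArg Subtype.val (hy ⟨h, hh⟩)⟩
  · rintro ⟨hx, hc⟩
    exact ⟨⟨x, hx⟩, fun g => Subtype.ext (hc g g.2), rfl⟩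

/-- `|R| |Z(R)|`. -/
noncomputable def m (R : Subgroup P) : ℕ := Nat.card R * Nat.card (zc R)

theorem le_max (R : Subgroup P) : m R ≤ Cfsg.maxCentralProduct P := by
  refine le_csSup ?_ ⟨R, by rw [m, card_center]⟩
  exact ((Set.finite_range fun X : Subgroup P => Nat.card X * Nat.card (center ↥X)).subset
    (by rintro k ⟨X, hX⟩; exact ⟨X, hX⟩)).bddAbove

theorem iff_eq {R : Subgroup P} : Cfsg.IsCentrallyLarge R ↔ m R = Cfsg.maxCentralProduct P := by
  rw [Cfsg.IsCentrallyLarge, card_center, m]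

theorem le_of_isCL {R : Subgroup P} (h : Cfsg.IsCentrallyLarge R) (X : Subgroup P) : m X ≤ m R :=
  (le_max X).trans (iff_eq.mp h).ge

theorem isCL_of_le {R X : Subgroup P} (h : Cfsg.IsCentrallyLarge R) (hle : m R ≤ m X) :
    Cfsg.IsCentrallyLarge X :=
  iff_eq.mpr (le_antisymm (le_max X) ((iff_eq.mp h).ge.trans hle))

/-- A centrally large subgroup is the centraliser of its centre. -/
theorem centralizer_zc {R : Subgroup P} (h : Cfsg.IsCentrallyLarge R) :
    centralizer (zc R : Set P) = R := by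
  set X := centralizer (zc R : Set P) with hX
  have hRX : R ≤ X := le_centralizer_zc R
  have hz : zc R ≤ zc X := le_inf ((zc_le R).trans hRX) (le_centralizer_iff.mp le_rfl)
  have h1 := le_of_isCL h X
  have h2 : Nat.card X ≤ Nat.card R := by
    refine Nat.le_of_mul_le_mul_right (le_trans ?_ h1) (Nat.card_pos (α := zc R))
    exact Nat.mul_le_mul_left _ (card_le_of_le hz)
  exact (CfsgLib.Core.eq_of_le_of_card_le hRX h2).symm

theorem le_centralizer_sup (a b : Subgroup P) (s : Subgroup P) (ha : a ≤ centralizer (s : Set P))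
    (hb : b ≤ centralizer (s : Set P)) : s ≤ centralizer ((a ⊔ b : Subgroup P) : Set P) :=
  le_centralizer_iff.mp (sup_le ha hb)

theorem abelian_sup {H K : Subgroup P} (hH : H ≤ centralizer (H : Set P))
    (hK : K ≤ centralizer (K : Set P)) (hHK : H ≤ centralizer (K : Set P)) :
    IsMulCommutative ↥(H ⊔ K) := by
  have h : H ⊔ K ≤ centralizer ((H ⊔ K : Subgroup P) : Set P) := by
    rw [le_centralizer_iff]
    exact sup_le (le_centralizer_iff.mp (sup_le hH (le_centralizer_iff.mp hHK)))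
      (le_centralizer_iff.mp (sup_le hHK hK))
  exact ⟨⟨fun a b => Subtype.ext (mem_centralizer_iff.mp (h b.2) a a.2)⟩⟩

theorem centralizer_maxAbelian {A : Subgroup P} (hA : A ∈ Cfsg.maxAbelianSubgroups P) :
    centralizer (A : Set P) = A := by
  haveI := hA.1
  refine le_antisymm (fun x hx => ?_) (Subgroup.le_centralizer A)
  have hab : IsMulCommutative ↥(A ⊔ zpowers x) :=
    abelian_sup (Subgroup.le_centralizer A) (Subgroup.le_centralizer _)
      (le_centralizer_iff.mp (zpowers_le.mpr hx))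
  have h := CfsgLib.Core.eq_of_le_of_card_le le_sup_left (hA.2 _ hab)
  exact h ▸ mem_sup_right (mem_zpowers x)

/-- The basic step: a centrally large subgroup and an abelian subgroup of largest order. -/
theorem sup_maxAbelian {Q A : Subgroup P} (hQ : Cfsg.IsCentrallyLarge Q)
    (hA : A ∈ Cfsg.maxAbelianSubgroups P) :
    Cfsg.IsCentrallyLarge (Q ⊔ A) ∧
      Nat.card ↥(Q ⊓ A) * Nat.card ↥(Q ⊔ A) = Nat.card Q * Nat.card A ∧
      zc Q ⊔ (Q ⊓ A) ∈ Cfsg.maxAbelianSubgroups P := by
  haveI := hA.1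
  set T := Q ⊔ A
  set D := Q ⊓ A
  set I := zc Q ⊓ A with hI
  set B := zc Q ⊔ D
  have hZI : zc Q ⊓ D = I := by
    rw [hI, ← inf_assoc, inf_eq_left.mpr (zc_le Q)]
  have hBab : IsMulCommutative ↥B :=
    abelian_sup (inf_le_right.trans (centralizer_le (SetLike.coe_subset_coe.mpr (zc_le Q))))
      (inf_le_right.trans ((Subgroup.le_centralizer A).trans
        (centralizer_le (SetLike.coe_subset_coe.mpr inf_le_right))))
      (inf_le_right.trans (centralizer_le (SetLike.coe_subset_coe.mpr inf_le_left)))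
  have hB1 : Nat.card (zc Q) * Nat.card D ≤ Nat.card I * Nat.card B := by
    rw [← hZI]; exact CfsgLib.Local.card_mul_le _ _
  have hB2 : Nat.card B ≤ Nat.card A := hA.2 _ hBab
  have hT1 : Nat.card Q * Nat.card A ≤ Nat.card D * Nat.card T := CfsgLib.Local.card_mul_le _ _
  have hIT : I ≤ zc T := le_inf (inf_le_right.trans le_sup_right)
    (le_centralizer_sup Q A I ((le_centralizer_zc Q).trans
        (centralizer_le (SetLike.coe_subset_coe.mpr inf_le_left)))
      ((Subgroup.le_centralizer A).trans (centralizer_le (SetLike.coe_subset_coe.mpr inf_le_right))))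
  have hT2 : m T ≤ m Q := le_of_isCL hQ T
  have hIc : Nat.card I ≤ Nat.card (zc T) := card_le_of_le hIT
  have hD0 : 0 < Nat.card D := Nat.card_pos
  have hI0 : 0 < Nat.card I := Nat.card_pos
  have hQ0 : 0 < Nat.card Q := Nat.card_pos
  have h1 : m Q * Nat.card D ≤ Nat.card Q * (Nat.card I * Nat.card A) := by
    rw [m, mul_assoc]
    exact Nat.mul_le_mul_left _ (hB1.trans (Nat.mul_le_mul_left _ hB2))
  have h2 : Nat.card Q * (Nat.card I * Nat.card A) ≤ Nat.card D * (Nat.card T * Nat.card I) :=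
    calc Nat.card Q * (Nat.card I * Nat.card A) = Nat.card Q * Nat.card A * Nat.card I := by ring
      _ ≤ Nat.card D * Nat.card T * Nat.card I := Nat.mul_le_mul_right _ hT1
      _ = _ := by ring
  have h3 : Nat.card T * Nat.card I ≤ m T := Nat.mul_le_mul_left _ hIc
  have h4 : m Q ≤ m T := by
    refine Nat.le_of_mul_le_mul_right ((h1.trans h2).trans ?_) hD0
    rw [mul_comm]; exact Nat.mul_le_mul_right _ h3
  have h5 : Nat.card D * (Nat.card T * Nat.card I) ≤ m Q * Nat.card D := by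
    rw [mul_comm]; exact Nat.mul_le_mul_right _ (h3.trans hT2)
  refine ⟨isCL_of_le hQ h4, ?_, ?_⟩
  · refine le_antisymm (Nat.le_of_mul_le_mul_right ?_ hI0) hT1
    calc Nat.card D * Nat.card T * Nat.card I = Nat.card D * (Nat.card T * Nat.card I) := by ring
      _ ≤ Nat.card Q * (Nat.card I * Nat.card A) := h5.trans h1
      _ = _ := by ring
  · refine ⟨hBab, fun X hX => (hA.2 X hX).trans ?_⟩
    refine Nat.le_of_mul_le_mul_left ?_ (Nat.mul_pos hQ0 hI0)
    calc Nat.card Q * Nat.card I * Nat.card A = Nat.card Q * (Nat.card I * Nat.card A) := by ring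
      _ ≤ m Q * Nat.card D := h2.trans h5
      _ = Nat.card Q * (Nat.card (zc Q) * Nat.card D) := by rw [m]; ring
      _ ≤ Nat.card Q * (Nat.card I * Nat.card B) := Nat.mul_le_mul_left _ hB1
      _ = Nat.card Q * Nat.card I * Nat.card B := by ring

theorem thompson_le_centralizer (P : Type u) [Group P] :
    Cfsg.thompsonSubgroupA P ≤
      centralizer ((Cfsg.thompsonSubgroupA P ⊓ centralizer (Cfsg.thompsonSubgroupA P : Set P) :
        Subgroup P) : Set P) :=
  le_centralizer_iff.mp inf_le_right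

theorem sup_thompson {Q : Subgroup P} (hQ : Cfsg.IsCentrallyLarge Q) :
    Cfsg.IsCentrallyLarge (Q ⊔ Cfsg.thompsonSubgroupA P) := by
  classical
  haveI := Fintype.ofFinite (Subgroup P)
  have key : ∀ s : Finset (Subgroup P), (∀ A ∈ s, A ∈ Cfsg.maxAbelianSubgroups P) →
      Cfsg.IsCentrallyLarge (Q ⊔ s.sup id) := by
    intro s
    induction s using Finset.induction_on with
    | empty => intro _; simpa using hQ
    | insert a s _ ih =>
      intro h
      rw [Finset.sup_insert, id, sup_comm a, ← sup_assoc]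
      exact (sup_maxAbelian (ih fun A hA => h A (Finset.mem_insert_of_mem hA))
        (h a (Finset.mem_insert_self _ _))).1
  convert key (Finset.univ.filter (· ∈ Cfsg.maxAbelianSubgroups P))
    (fun A hA => (Finset.mem_filter.mp hA).2) using 2
  rw [Cfsg.thompsonSubgroupA, Finset.sup_id_eq_sSup]
  congr 1
  ext A
  simp

theorem centralizer_zJ_le {Q : Subgroup P} (hQ : Cfsg.IsCentrallyLarge Q) :
    centralizer ((Cfsg.thompsonSubgroupA P ⊓ centralizer (Cfsg.thompsonSubgroupA P : Set P) :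
        Subgroup P) : Set P) ≤ Q ⊔ Cfsg.thompsonSubgroupA P := by
  set J := Cfsg.thompsonSubgroupA P with hJ
  have hT := sup_thompson hQ
  conv_rhs => rw [← centralizer_zc hT]
  refine centralizer_le (SetLike.coe_subset_coe.mpr ?_)
  have hc : zc (Q ⊔ J) ≤ centralizer (J : Set P) :=
    inf_le_right.trans (centralizer_le (SetLike.coe_subset_coe.mpr le_sup_right))
  refine le_inf ?_ hc
  by_cases h : (Cfsg.maxAbelianSubgroups P).Nonempty
  · obtain ⟨A, hA⟩ := h
    have hAJ : A ≤ J := le_sSup hA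
    refine le_trans (le_trans hc ?_) hAJ
    exact (centralizer_le (SetLike.coe_subset_coe.mpr hAJ)).trans (centralizer_maxAbelian hA).le
  · exfalso
    apply h
    obtain ⟨A, hA, hmax⟩ := Set.exists_max_image {A : Subgroup P | IsMulCommutative A}
      (fun A => Nat.card A) (Set.toFinite _) ⟨⊥, inferInstanceAs (IsMulCommutative (⊥ : Subgroup P))⟩
    exact ⟨A, hA, hmax⟩

theorem tight {q r d i w w' zq zr y zy y' zy' t zt : ℕ}
    (b1 : d * zq * (zq * w') ≤ y * w * (zy * i)) (b2 : d * zr * (zr * w) ≤ y' * w' * (zy' * i))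
    (b3 : q * r * i ≤ d * t * zt) (my : y * zy ≤ q * zq) (my' : y' * zy' ≤ q * zq)
    (mt : t * zt ≤ q * zq) (hf : r * zr = q * zq) (hq : 0 < q) (hd : 0 < d) (hi : 0 < i)
    (hw : 0 < w) (hw' : 0 < w') (hzq : 0 < zq) :
    q * zq ≤ t * zt ∧ q * zq ≤ y * zy ∧ y * w * (zy * i) ≤ d * zq * (zq * w') := by
  obtain ⟨f, hfdef⟩ : ∃ f, f = q * zq := ⟨_, rfl⟩
  rw [← hfdef] at my my' mt hf ⊢
  have hf0 : 0 < f := hfdef ▸ Nat.mul_pos hq hzq
  have hK : 0 < d ^ 2 * w * w' * i ^ 2 := by positivity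
  have eX : d * zq * (zq * w') * (d * zr * (zr * w) * (q * r * i) ^ 2) =
      f ^ 4 * (d ^ 2 * w * w' * i ^ 2) := by
    calc d * zq * (zq * w') * (d * zr * (zr * w) * (q * r * i) ^ 2)
        = (q * zq) ^ 2 * (r * zr) ^ 2 * (d ^ 2 * w * w' * i ^ 2) := by ring
      _ = _ := by rw [hf, ← hfdef]; ring
  have eY : y * w * (zy * i) * (y' * w' * (zy' * i) * (d * t * zt) ^ 2) =
      (t * zt) ^ 2 * (y * zy) * (y' * zy') * (d ^ 2 * w * w' * i ^ 2) := by ring
  have h23 : d * zr * (zr * w) * (q * r * i) ^ 2 ≤ y' * w' * (zy' * i) * (d * t * zt) ^ 2 :=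
    Nat.mul_le_mul b2 (Nat.pow_le_pow_left b3 2)
  have hle : f ^ 4 ≤ (t * zt) ^ 2 * (y * zy) * (y' * zy') := by
    refine Nat.le_of_mul_le_mul_right ?_ hK
    rw [← eX, ← eY]; exact Nat.mul_le_mul b1 h23
  have g1 : f ≤ t * zt := by
    have : f ^ 2 * f ^ 2 ≤ (t * zt) ^ 2 * f ^ 2 := by
      calc f ^ 2 * f ^ 2 = f ^ 4 := by ring
        _ ≤ _ := hle
        _ ≤ (t * zt) ^ 2 * f * f := Nat.mul_le_mul (Nat.mul_le_mul_left _ my) my'
        _ = _ := by ring
    exact (Nat.pow_le_pow_iff_left two_ne_zero).mp (Nat.le_of_mul_le_mul_right this (by positivity))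
  have g2 : f ≤ y * zy := by
    have : f * f ^ 3 ≤ (y * zy) * f ^ 3 := by
      calc f * f ^ 3 = f ^ 4 := by ring
        _ ≤ _ := hle
        _ ≤ f ^ 2 * (y * zy) * f := Nat.mul_le_mul (Nat.mul_le_mul_right _ (Nat.pow_le_pow_left mt 2)) my'
        _ = _ := by ring
    exact Nat.le_of_mul_le_mul_right this (by positivity)
  refine ⟨g1, g2, ?_⟩
  have hup : (t * zt) ^ 2 * (y * zy) * (y' * zy') ≤ f ^ 4 := by
    calc (t * zt) ^ 2 * (y * zy) * (y' * zy') ≤ f ^ 2 * f * f :=
          Nat.mul_le_mul (Nat.mul_le_mul (Nat.pow_le_pow_left mt 2) my) my'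
      _ = _ := by ring
  have heq : y * w * (zy * i) * (y' * w' * (zy' * i) * (d * t * zt) ^ 2) ≤
      d * zq * (zq * w') * (y' * w' * (zy' * i) * (d * t * zt) ^ 2) := by
    refine le_trans ?_ (Nat.mul_le_mul_left _ h23)
    rw [eX, eY]
    exact Nat.mul_le_mul_right _ hup
  refine Nat.le_of_mul_le_mul_right heq ?_
  refine lt_of_lt_of_le ?_ h23
  have hr : 0 < r := Nat.pos_of_mul_pos_right (hf.symm ▸ hf0)
  have hzr : 0 < zr := Nat.pos_of_mul_pos_left (hf.symm ▸ hf0)
  positivity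

/-- The basic lemma for two centrally large subgroups. -/
theorem pair {Q R : Subgroup P} (hQ : Cfsg.IsCentrallyLarge Q) (hR : Cfsg.IsCentrallyLarge R) :
    Cfsg.IsCentrallyLarge ((Q ⊓ R) ⊔ zc Q) ∧
      Nat.card (zc Q) * Nat.card ↥(zc R ⊓ Q) =
        Nat.card (zc ((Q ⊓ R) ⊔ zc Q)) * Nat.card ↥(zc Q ⊓ zc R) ∧
      Nat.card ↥((Q ⊓ R) ⊔ zc Q) * Nat.card ↥(zc Q ⊓ R) = Nat.card ↥(Q ⊓ R) * Nat.card (zc Q) ∧
      Cfsg.IsCentrallyLarge (Q ⊔ R) := by
  set D := Q ⊓ R
  have hf : m R = m Q := (iff_eq.mp hR).trans (iff_eq.mp hQ).symm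
  set I := zc Q ⊓ zc R with hI
  set W := zc Q ⊓ R
  set W' := zc R ⊓ Q
  set Y := D ⊔ zc Q
  set Y' := D ⊔ zc R
  set T := Q ⊔ R
  -- lower bound for the subgroup `Y`
  have bound : ∀ (A B : Subgroup P), Nat.card ↥(A ⊓ B) * Nat.card (zc A) *
      (Nat.card (zc A) * Nat.card ↥(zc B ⊓ A)) ≤
      Nat.card ↥((A ⊓ B) ⊔ zc A) * Nat.card ↥(zc A ⊓ B) *
        (Nat.card (zc ((A ⊓ B) ⊔ zc A)) * Nat.card ↥(zc A ⊓ zc B)) := by
    intro A B
    refine Nat.mul_le_mul ?_ ?_
    · rw [mul_comm (Nat.card ↥((A ⊓ B) ⊔ zc A))]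
      refine (CfsgLib.Local.card_mul_le (A ⊓ B) (zc A)).trans (le_of_eq ?_)
      rw [show A ⊓ B ⊓ zc A = zc A ⊓ B by
        rw [inf_comm (A ⊓ B), ← inf_assoc, inf_eq_left.mpr (zc_le A)]]
    · have hW : zc B ⊓ A ≤ A ⊓ B := le_inf inf_le_right (inf_le_left.trans (zc_le B))
      have hsup : zc A ⊔ (zc B ⊓ A) ≤ zc ((A ⊓ B) ⊔ zc A) := by
        refine le_inf (sup_le le_sup_right (hW.trans le_sup_left)) (le_centralizer_sup _ _ _ ?_ ?_)
        · rw [le_centralizer_iff]
          exact sup_le (inf_le_right.trans (centralizer_le (SetLike.coe_subset_coe.mpr inf_le_left)))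
            (inf_le_left.trans (inf_le_right.trans (centralizer_le (SetLike.coe_subset_coe.mpr inf_le_right))))
        · rw [le_centralizer_iff]
          exact sup_le (inf_le_right.trans (centralizer_le (SetLike.coe_subset_coe.mpr (zc_le A))))
            (le_centralizer_iff.mp ((inf_le_right : zc A ≤ centralizer (A : Set P)).trans
                (centralizer_le (SetLike.coe_subset_coe.mpr inf_le_right))))
      refine (CfsgLib.Local.card_mul_le (zc A) (zc B ⊓ A)).trans ?_
      rw [show zc A ⊓ (zc B ⊓ A) = zc A ⊓ zc B by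
        rw [inf_comm (zc B) A, ← inf_assoc, inf_eq_left.mpr (zc_le A)], mul_comm]
      exact Nat.mul_le_mul_right _ (card_le_of_le hsup)
  have b1 : Nat.card D * Nat.card (zc Q) * (Nat.card (zc Q) * Nat.card W') ≤
      Nat.card Y * Nat.card W * (Nat.card (zc Y) * Nat.card I) := bound Q R
  have b2 : Nat.card D * Nat.card (zc R) * (Nat.card (zc R) * Nat.card W) ≤
      Nat.card Y' * Nat.card W' * (Nat.card (zc Y') * Nat.card I) := by
    have := bound R Q
    rwa [inf_comm R Q, inf_comm (zc R) (zc Q)] at this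
  have hIT : I ≤ zc T := le_inf ((inf_le_left.trans (zc_le Q)).trans le_sup_left)
    (le_centralizer_sup Q R I ((le_centralizer_zc Q).trans
      (centralizer_le (SetLike.coe_subset_coe.mpr inf_le_left)))
      ((le_centralizer_zc R).trans (centralizer_le (SetLike.coe_subset_coe.mpr inf_le_right))))
  have hT1 : Nat.card Q * Nat.card R * Nat.card I ≤ Nat.card D * Nat.card T * Nat.card (zc T) :=
    Nat.mul_le_mul (CfsgLib.Local.card_mul_le Q R) (card_le_of_le hIT)
  have mY : m Y ≤ m Q := le_of_isCL hQ Y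
  have mY' : m Y' ≤ m Q := le_of_isCL hQ Y'
  have mT : m T ≤ m Q := le_of_isCL hQ T
  simp only [m] at mY mY' mT hf
  have c1 := Nat.card_pos (α := Q)
  have c3 := Nat.card_pos (α := D)
  have c4 := Nat.card_pos (α := I)
  have c5 := Nat.card_pos (α := W)
  have c6 := Nat.card_pos (α := W')
  have c7 := Nat.card_pos (α := zc Q)
  obtain ⟨g1, g2, g3⟩ := tight b1 b2 hT1 mY mY' mT hf c1 c3 c4 c5 c6 c7
  refine ⟨isCL_of_le hQ g2, ?_, ?_, isCL_of_le hQ g1⟩
  all_goals
    have mR : m R ≤ m Q := le_of_isCL hQ R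
    simp only [m] at mR
    have hY1 : Nat.card Y * Nat.card W ≥ Nat.card D * Nat.card (zc Q) := by
      rw [ge_iff_le, mul_comm (Nat.card Y)]
      refine (CfsgLib.Local.card_mul_le D (zc Q)).trans (le_of_eq ?_)
      rw [show D ⊓ zc Q = W by rw [inf_comm D, ← inf_assoc, inf_eq_left.mpr (zc_le Q)]]
    have hY2 : Nat.card (zc Y) * Nat.card I ≥ Nat.card (zc Q) * Nat.card W' := by
      have hsup : zc Q ⊔ W' ≤ zc Y := by
        refine le_inf (sup_le le_sup_right ((le_inf inf_le_right (inf_le_left.trans (zc_le R)) : W' ≤ D).trans le_sup_left))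
          (le_centralizer_sup _ _ _ ?_ ?_)
        · rw [le_centralizer_iff]
          exact sup_le (inf_le_right.trans (centralizer_le (SetLike.coe_subset_coe.mpr inf_le_left)))
            (inf_le_left.trans (inf_le_right.trans (centralizer_le (SetLike.coe_subset_coe.mpr inf_le_right))))
        · rw [le_centralizer_iff]
          exact sup_le (inf_le_right.trans (centralizer_le (SetLike.coe_subset_coe.mpr (zc_le Q))))
            (le_centralizer_iff.mp ((inf_le_right : zc Q ≤ centralizer (Q : Set P)).trans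
              (centralizer_le (SetLike.coe_subset_coe.mpr inf_le_right))))
      rw [ge_iff_le, mul_comm (Nat.card (zc Y))]
      refine (CfsgLib.Local.card_mul_le (zc Q) W').trans ?_
      rw [show zc Q ⊓ W' = I by
        show zc Q ⊓ (zc R ⊓ Q) = zc Q ⊓ zc R
        rw [inf_comm (zc R) Q, ← inf_assoc, inf_eq_left.mpr (zc_le Q)]]
      exact Nat.mul_le_mul_left _ (card_le_of_le hsup)
  · rcases hY2.lt_or_eq with h | h
    · exact absurd (Nat.mul_lt_mul_of_le_of_lt hY1 h (Nat.mul_pos Nat.card_pos Nat.card_pos)) (not_lt.mpr g3)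
    · exact h
  · rcases hY1.lt_or_eq with h | h
    · exact absurd (Nat.mul_lt_mul_of_lt_of_le h hY2 (Nat.mul_pos Nat.card_pos Nat.card_pos)) (not_lt.mpr g3)
    · exact h.symm

end CfsgLib.Local.CL
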