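import Cfsg.Agent.Lib.LocalRankTwoOmega
import Cfsg.Agent.Lib.CoreRankTwoP
import Cfsg.Agent.Lib.LocalRankTwo
import Mathlib.GroupTheory.Sylow

/-!
# Chief factors of prime power order in groups of `p`-rank two

If `p` is odd and `G` has no elementary abelian subgroup of order `p ^ 3`, every chief factor of
`G` of `p`-power order has order at most `p ^ 2`.
-/

set_option autoImplicit false

namespace CfsgLib.Local

open Subgroup
open scoped commutatorElement

variable {G : Type*} [Group G] [Finite G] {p : ℕ} [hp : Fact p.Prime]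

/-- An elementary abelian quotient of a metacyclic group has order at most `p ^ 2`. -/
theorem card_quotient_le_of_metacyclic {U : Type*} [Group U] [Finite U]
    (hU : Cfsg.IsMetacyclic U) (L : Subgroup U) [L.Normal] (hexp : ∀ x : U, x ^ p ∈ L) :
    Nat.card (U ⧸ L) ≤ p ^ 2 := by
  obtain ⟨B, hBn, hB, hA⟩ := hU
  haveI := hBn
  obtain ⟨b, hb⟩ := isCyclic_iff_exists_zpowers_eq_top.mp hB
  obtain ⟨a', ha'⟩ := isCyclic_iff_exists_zpowers_eq_top.mp hA
  obtain ⟨a, rfl⟩ := QuotientGroup.mk'_surjective B a'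
  set f := QuotientGroup.mk' L with hf
  have hp0 : (0:ℤ) < (p:ℤ) := by exact_mod_cast hp.out.pos
  have red : ∀ (x : U) (i : ℤ), ∃ k : Fin p, f (x ^ i) = f x ^ (k : ℕ) := by
    intro x i
    have h0 : f x ^ p = 1 := by
      rw [← map_pow]; exact (QuotientGroup.eq_one_iff _).mpr (hexp x)
    refine ⟨⟨(i % (p:ℤ)).toNat, by
      have h1 := Int.emod_lt_of_pos i hp0
      have h2 := Int.emod_nonneg i hp0.ne'
      omega⟩, ?_⟩
    rw [map_zpow, ← zpow_natCast (f x) _]
    dsimp only
    rw [Int.toNat_of_nonneg (Int.emod_nonneg i hp0.ne')]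
    conv_lhs => rw [← Int.emod_add_mul_ediv i (p:ℤ), zpow_add, zpow_mul, zpow_natCast, h0, one_zpow,
      mul_one]
  have hsurj : Function.Surjective
      (fun k : Fin p × Fin p => f a ^ (k.1 : ℕ) * f (b : U) ^ (k.2 : ℕ)) := by
    intro y
    obtain ⟨g, rfl⟩ := QuotientGroup.mk'_surjective L y
    obtain ⟨i, hi⟩ := mem_zpowers_iff.mp (ha'.ge (mem_top (QuotientGroup.mk' B g)))
    rw [← map_zpow] at hi
    obtain ⟨j, hj⟩ := mem_zpowers_iff.mp
      (hb.ge (mem_top (⟨(a ^ i)⁻¹ * g, QuotientGroup.eq.mp hi⟩ : B)))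
    have hj' : (b : U) ^ j = (a ^ i)⁻¹ * g := by
      simpa using congrArg Subtype.val hj
    obtain ⟨k₁, hk₁⟩ := red a i
    obtain ⟨k₂, hk₂⟩ := red (b : U) j
    refine ⟨(k₁, k₂), ?_⟩
    show f a ^ (k₁ : ℕ) * f (b : U) ^ (k₂ : ℕ) = f g
    rw [← hk₁, ← hk₂, hj', ← map_mul, mul_inv_cancel_left]
  refine (Nat.card_le_card_of_surjective _ hsurj).trans ?_
  rw [Nat.card_prod, Nat.card_fin, sq]

/-- A `G`-normal `p`-subgroup `U` with `U ⊓ C_G(S)` of index bounded by the orbit of a generator. -/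
theorem relIndex_centralizer_le {U : Subgroup G} (hU : IsPGroup p U) (x : G) (T : Set G)
    (hT : ∀ u ∈ U, u * x * u⁻¹ ∈ T) (hlt : T.ncard < p ^ 2) :
    (centralizer ({x} : Set G)).relIndex U ≤ p := by
  rw [relIndex]
  set C := (centralizer ({x} : Set G)).subgroupOf U with hC
  have hle : C.index ≤ T.ncard := by
    have hconst : ∀ u v : U, (u : U ⧸ C) = v → (u:G) * x * (u:G)⁻¹ = (v:G) * x * (v:G)⁻¹ := by
      intro u v h
      have h1 := mem_centralizer_singleton_iff.mp (mem_subgroupOf.mp (QuotientGroup.eq.mp h))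
      simp only [coe_mul, coe_inv] at h1
      calc (u:G) * x * (u:G)⁻¹ = (u:G) * (x * ((u:G)⁻¹ * (v:G))) * (v:G)⁻¹ := by group
        _ = (u:G) * ((u:G)⁻¹ * (v:G) * x) * (v:G)⁻¹ := by rw [h1]
        _ = _ := by group
    have hinj : ∀ u v : U, (u:G) * x * (u:G)⁻¹ = (v:G) * x * (v:G)⁻¹ → (u : U ⧸ C) = v := by
      intro u v h
      refine QuotientGroup.eq.mpr (mem_subgroupOf.mpr (mem_centralizer_singleton_iff.mpr ?_))
      simp only [coe_mul, coe_inv]
      calc (u:G)⁻¹ * (v:G) * x = (u:G)⁻¹ * ((v:G) * x * (v:G)⁻¹) * (v:G) := by group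
        _ = (u:G)⁻¹ * ((u:G) * x * (u:G)⁻¹) * (v:G) := by rw [h]
        _ = _ := by group
    rw [Subgroup.index, ← Nat.card_coe_set_eq T]
    refine Nat.card_le_card_of_injective
      (fun q : U ⧸ C => (⟨((q.out : U) : G) * x * ((q.out : U) : G)⁻¹, hT _ q.out.2⟩ : T)) ?_
    intro q r h
    have := hinj _ _ (congrArg Subtype.val h)
    simpa using this
  obtain ⟨k, hk⟩ := hU.index C
  rw [hk] at hle ⊢
  have hk1 : k < 2 := (Nat.pow_lt_pow_iff_right hp.out.one_lt).mp (hle.trans_lt hlt)
  calc p ^ k ≤ p ^ 1 := Nat.pow_le_pow_right hp.out.pos (by omega)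
    _ = p := pow_one p

/-- A normal subgroup of order `p ^ 2` of a `p`-group lies in the second centre. -/
theorem commutator_le_center_of_card_sq {U : Type*} [Group U] [Finite U] (hU : IsPGroup p U)
    (V : Subgroup U) [V.Normal] (hV : Nat.card V = p ^ 2) : ⁅V, (⊤ : Subgroup U)⁆ ≤ center U := by
  have hnorm : (⊤ : Subgroup U) ≤ normalizer (V : Set U) := (normalizer_eq_top (H := V)).ge
  have hle : ⁅V, (⊤ : Subgroup U)⁆ ≤ V := commutator_le_left V ⊤
  set W := ⁅V, (⊤ : Subgroup U)⁆ with hW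
  have hVne : V ≠ ⊥ := fun h => by
    rw [h, card_bot] at hV
    exact absurd hV (Nat.one_lt_pow two_ne_zero hp.out.one_lt).ne
  have hlt : W < V := lt_of_le_of_ne hle
    (CfsgLib.Core.commutator_lt_of_isPGroup (hU.to_subgroup V) (hU.to_subgroup ⊤) hnorm hVne)
  by_cases hWb : W = ⊥
  · rw [hWb]; exact bot_le
  haveI := hU.isNilpotent
  have hne := CfsgLib.Core.nilpotent_inf_center_ne_bot (N := W) hWb
  refine inf_eq_left.mp ?_
  refine CfsgLib.Core.eq_of_le_of_card_le inf_le_left ?_
  obtain ⟨k, hk⟩ := IsPGroup.iff_card.mp (hU.to_subgroup W)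
  obtain ⟨j, hj⟩ := IsPGroup.iff_card.mp (hU.to_subgroup (W ⊓ center U))
  have h1 : Nat.card W < p ^ 2 := hV ▸ lt_of_le_of_ne (card_le_of_le hle)
    fun h => hlt.ne (CfsgLib.Core.eq_of_le_of_card_le hle h.ge)
  have h2 : j ≠ 0 := fun h => hne (Subgroup.card_eq_one.mp (by rw [hj, h, pow_zero]))
  rw [hk] at h1 ⊢
  rw [hj]
  have h3 : k < 2 := (Nat.pow_lt_pow_iff_right hp.out.one_lt).mp h1
  exact Nat.pow_le_pow_right hp.out.pos (by omega)

theorem zpowers_pair_le_centralizer {a b : G} (h : Commute a b) :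
    ∀ x ∈ closure ({a, b} : Set G), ∀ y ∈ closure ({a, b} : Set G), x * y = y * x := by
  intro x hx y hy
  have hle : closure ({a, b} : Set G) ≤ centralizer ((closure ({a, b} : Set G) : Subgroup G) : Set G) := by
    rw [centralizer_closure, closure_le]
    intro s hs
    refine mem_centralizer_iff.mpr fun t ht => ?_
    rcases hs with rfl | rfl <;> rcases ht with rfl | rfl
    exacts [rfl, h.eq.symm, h.eq, rfl]
  exact (mem_centralizer_iff.mp (hle hy) x hx)

/-- A normal `p`-subgroup all of whose smaller normal subgroups lie in a given proper one. -/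
theorem relIndex_le_sq_of_minimal (hp2 : p ≠ 2) (hr : Cfsg.PRankLE p 2 G) (U L : Subgroup G)
    [U.Normal] [L.Normal] (hU : IsPGroup p U) (hLU : L < U)
    (hmin : ∀ M : Subgroup G, M.Normal → M ≤ U → M ≤ L ∨ M = U) :
    L.relIndex U ≤ p ^ 2 := by
  classical
  have hle_of : ∀ C : Subgroup G, C.Normal → ∀ n : ℕ, C.relIndex U ≤ n → C ⊓ U ≠ U →
      L.relIndex U ≤ n := by
    intro C hCn n hC hne
    rcases hmin (C ⊓ U) inferInstance inf_le_right with h | h
    · refine le_trans (Nat.le_of_dvd ?_ (relIndex_dvd_of_le_left U h)) ?_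
      · exact Nat.pos_of_ne_zero (Subgroup.index_ne_zero_of_finite)
      · rwa [inf_relIndex_right]
    · exact absurd h hne
  -- the Frattini subgroup of `U` lies in `L`
  have hΦ : (frattini U).map U.subtype ≤ L := by
    refine (hmin _ (ConjAct.normal_of_characteristic_of_normal) (map_subtype_le _)).resolve_right ?_
    intro h
    have h1 : frattini U = ⊤ := by
      refine eq_top_iff.mpr fun x _ => ?_
      obtain ⟨y, hy, hxy⟩ := h.ge x.2
      rwa [Subtype.coe_injective hxy] at hy
    haveI : Nontrivial U := by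
      rw [Subgroup.nontrivial_iff_ne_bot]
      exact fun h2 => not_lt_bot (h2 ▸ hLU)
    obtain ⟨M, hM⟩ := IsCoatomic.exists_coatom (Subgroup U)
    exact hM.1 (eq_top_iff.mpr (h1 ▸ frattini_le_coatom hM))
  have hpow : ∀ x : U, x ^ p ∈ L.subgroupOf U := fun x =>
    mem_subgroupOf.mpr (hΦ ⟨x ^ p, CfsgLib.Core.pgroup_pow_mem_frattini hU x, rfl⟩)
  have hmeta : Cfsg.IsMetacyclic U → L.relIndex U ≤ p ^ 2 := fun h =>
    card_quotient_le_of_metacyclic h (L.subgroupOf U) hpow
  by_cases hcyc : IsCyclic U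
  · exact hmeta ⟨⊥, inferInstance, inferInstance,
      isCyclic_of_surjective _ (QuotientGroup.mk'_surjective (⊥ : Subgroup U))⟩
  by_cases hA : ∃ V : Subgroup G, V.Normal ∧ V ≤ U ∧ (∀ a ∈ V, ∀ b ∈ V, a * b = b * a) ∧
      (∀ a ∈ V, a ^ p = 1) ∧ Nat.card V = p ^ 2
  · obtain ⟨V, hVn, hVU, hVc, hVp, hV⟩ := hA
    haveI := hVn
    by_cases hcent : U ≤ centralizer (V : Set G)
    · have hmem : ∀ x : U, x ∈ V.subgroupOf U ↔ x ^ p = 1 := by
        intro x
        constructor
        · intro hx
          exact Subtype.ext (by simpa using hVp _ (mem_subgroupOf.mp hx))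
        · intro hx
          refine mem_subgroupOf.mpr (rank_contra hr hVc hVp hV
            (by simpa using congrArg Subtype.val hx) fun a ha => ?_)
          exact (mem_centralizer_iff.mp (hcent x.2) a ha).symm
      refine hmeta (CfsgLib.Core.RankTwoP.central_case hp2 _ rfl hU (V.subgroupOf U) hmem ?_ ?_).1
      · intro x hx
        refine Subgroup.mem_center_iff.mpr fun u => Subtype.ext ?_
        exact (mem_centralizer_iff.mp (hcent u.2) _ (mem_subgroupOf.mp hx)).symm
      · rw [Nat.card_congr (subgroupOfEquivOfLe hVU).toEquiv, hV]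
    · -- a central element of `V`
      obtain ⟨z, hzV, hz1, hzc⟩ : ∃ z ∈ V, z ≠ 1 ∧ U ≤ centralizer ({z} : Set G) := by
        haveI : (V.subgroupOf U).Normal := inferInstance
        have hne : V.subgroupOf U ⊓ center U ≠ ⊥ := by
          haveI := hU.isNilpotent
          refine CfsgLib.Core.nilpotent_inf_center_ne_bot ?_
          intro h
          have := Nat.card_congr (subgroupOfEquivOfLe hVU).toEquiv
          rw [h, hV, Subgroup.card_bot] at this
          exact absurd this (Nat.one_lt_pow two_ne_zero hp.out.one_lt).ne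
        obtain ⟨z, ⟨hzV, hzc⟩, hz1⟩ := (Subgroup.bot_or_exists_ne_one _).resolve_left hne
        refine ⟨z, mem_subgroupOf.mp hzV, fun h => hz1 (Subtype.ext h), fun u hu => ?_⟩
        exact mem_centralizer_singleton_iff.mpr
          (congrArg Subtype.val (Subgroup.mem_center_iff.mp hzc ⟨u, hu⟩))
      obtain ⟨v, hv, hvz⟩ : ∃ v ∈ V, v ∉ zpowers z := by
        by_contra h
        push Not at h
        have := Subgroup.card_le_of_le (show V ≤ zpowers z from h)
        rw [hV, Nat.card_zpowers, orderOf_eq_prime (hVp z hzV) hz1] at this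
        have := (hp.out.one_lt)
        nlinarith
      have hVgen : closure ({z, v} : Set G) = V := by
        refine CfsgLib.Core.eq_of_le_of_card_le ((closure_le _).mpr (by
          rintro s (rfl | rfl) <;> assumption)) ?_
        have hlt : zpowers z < closure ({z, v} : Set G) := lt_of_le_of_ne
          (zpowers_le.mpr (subset_closure (Or.inl rfl)))
          (fun h => hvz (h.ge (subset_closure (Or.inr rfl))))
        obtain ⟨k, hk⟩ := IsPGroup.iff_card.mp
          ((hU.to_le hVU).to_le ((closure_le _).mpr (show ({z, v} : Set G) ⊆ V by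
            rintro s (rfl | rfl) <;> assumption)))
        have h1 : Nat.card (zpowers z) < p ^ k := hk ▸ (lt_of_le_of_ne (card_le_of_le hlt.le)
          fun h => hlt.ne (CfsgLib.Core.eq_of_le_of_card_le hlt.le h.ge))
        rw [Nat.card_zpowers, orderOf_eq_prime (hVp z hzV) hz1] at h1
        have h2 : 1 < k := (Nat.pow_lt_pow_iff_right hp.out.one_lt).mp (by rwa [pow_one])
        rw [hV, hk]
        exact Nat.pow_le_pow_right hp.out.pos h2
      have hC : U ⊓ centralizer (V : Set G) = U ⊓ centralizer ({v} : Set G) := by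
        refine le_antisymm (inf_le_inf_left _ (centralizer_le (by simpa using hv))) ?_
        refine le_inf inf_le_left ?_
        rw [← hVgen, centralizer_closure]
        rintro u ⟨huU, huv⟩
        refine mem_centralizer_iff.mpr ?_
        rintro s (rfl | rfl)
        · exact (mem_centralizer_singleton_iff.mp (hzc huU)).symm
        · exact (mem_centralizer_singleton_iff.mp huv).symm
      refine hle_of (centralizer (V : Set G)) inferInstance _ ?_ ?_
      · rw [← inf_relIndex_right, inf_comm, hC, inf_comm, inf_relIndex_right]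
        refine (relIndex_centralizer_le (p := p) hU v ((V : Set G) \ {1}) (fun u hu => ⟨hVn.conj_mem _ hv u, ?_⟩) ?_).trans ?_
        · simp only [Set.mem_singleton_iff, conj_eq_one_iff]
          exact fun h => hvz (h ▸ one_mem _)
        · rw [← hV, ← SetLike.coe_sort_coe, Nat.card_coe_set_eq]
          exact Set.ncard_sdiff_singleton_lt_of_mem (one_mem V)
        · exact Nat.le_self_pow two_ne_zero p
      · exact fun h => hcent (inf_eq_right.mp h)
  -- no normal elementary abelian subgroup of order `p ^ 2`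
  push Not at hA
  have small : ∀ M : Subgroup G, M.Normal → M ≤ U → (∀ a ∈ M, ∀ b ∈ M, a * b = b * a) →
      (∀ a ∈ M, a ^ p = 1) → Nat.card M ≤ p := by
    intro M hMn hMU hMc hMp
    obtain ⟨k, hk⟩ := IsPGroup.iff_card.mp (hU.to_le hMU)
    have h2 : k ≤ 2 := (Nat.pow_le_pow_iff_right hp.out.one_lt).mp
      (hk ▸ hr M ⟨⟨fun a b => Subtype.ext (hMc a a.2 b b.2)⟩⟩ hMp)
    have h3 : k ≠ 2 := fun h => hA M hMn hMU hMc hMp (h ▸ hk)
    rw [hk]
    calc p ^ k ≤ p ^ 1 := Nat.pow_le_pow_right hp.out.pos (by omega)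
      _ = p := pow_one p
  set Z : Subgroup G := U ⊓ centralizer (U : Set G) with hZ
  have hZc : ∀ z ∈ Z, ∀ u ∈ U, u * z = z * u := fun z hz u hu =>
    mem_centralizer_iff.mp hz.2 u hu
  let P : G → Prop := fun x => x ∈ U ∧ x ^ p = 1 ∧ ∀ u ∈ U, ⁅x, u⁆ ∈ Z
  have hmul : ∀ x y, P x → P y → P (x * y) := by
    rintro x y ⟨hxU, hxp, hx⟩ ⟨hyU, hyp, hy⟩
    refine ⟨mul_mem hxU hyU, ?_, fun u hu => ?_⟩
    · have hc := hy x hxU
      have hcp : ⁅y, x⁆ ^ p = 1 := by
        have h1 : (y * x * y⁻¹) ^ p = 1 := by rw [conj_pow, hxp, mul_one, mul_inv_cancel]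
        rw [show y * x * y⁻¹ = ⁅y, x⁆ * x by rw [commutatorElement_def]; group,
          Commute.mul_pow (hZc _ hc x hxU).symm, hxp, mul_one] at h1
        exact h1
      rw [CfsgLib.Core.mul_pow_of_central (hZc _ hc x hxU).symm (hZc _ hc y hyU).symm, hxp, hyp,
        one_mul, one_mul]
      obtain ⟨m, hm⟩ := hp.out.dvd_choose_self (k := 2) two_ne_zero
        (lt_of_le_of_ne hp.out.two_le (Ne.symm hp2))
      rw [hm, pow_mul, hcp, one_pow]
    · rw [show ⁅x * y, u⁆ = x * ⁅y, u⁆ * x⁻¹ * ⁅x, u⁆ by simp only [commutatorElement_def]; group,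
        hZc _ (hy u hu) x hxU, mul_inv_cancel_right]
      exact mul_mem (hy u hu) (hx u hu)
  have h1P : P 1 := ⟨one_mem _, one_pow _, fun u _ => by rw [commutatorElement_one_left]; exact one_mem _⟩
  have hpowP : ∀ x, P x → ∀ n : ℕ, P (x ^ n) := by
    intro x hx n
    induction n with
    | zero => simpa using h1P
    | succ n ih => rw [pow_succ]; exact hmul _ _ ih hx
  let E : Subgroup G :=
    { carrier := {x | P x}
      mul_mem' := fun {x y} hx hy => hmul x y hx hy
      one_mem' := h1P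
      inv_mem' := fun {x} hx => by
        have h : x⁻¹ = x ^ (p - 1) := inv_eq_of_mul_eq_one_right (by
          rw [← pow_succ', Nat.sub_add_cancel hp.out.one_le, hx.2.1])
        exact h ▸ hpowP x hx (p - 1) }
  haveI hEn : E.Normal := ⟨fun x hx g => by
    obtain ⟨hxU, hxp, hx'⟩ := hx
    refine ⟨(inferInstance : U.Normal).conj_mem _ hxU g, by rw [conj_pow, hxp, mul_one, mul_inv_cancel],
      fun u hu => ?_⟩
    have h2 := hx' (g⁻¹ * u * g) (by
      simpa using (inferInstance : U.Normal).conj_mem u hu g⁻¹)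
    have h3 := (inferInstance : Z.Normal).conj_mem _ h2 g
    rwa [show g * ⁅x, g⁻¹ * u * g⁆ * g⁻¹ = ⁅g * x * g⁻¹, u⁆ by
      simp only [commutatorElement_def]; group] at h3⟩
  have hEU : E ≤ U := fun x hx => hx.1
  have hEp : ∀ x ∈ E, x ^ p = 1 := fun x hx => hx.2.1
  -- `E` has order at least `p ^ 2`
  obtain ⟨V, hVn, hVel, hV⟩ := CfsgLib.Transfer.exists_normal_rank_two hp2 hU hcyc
  haveI := hVn
  have hVE : V.map U.subtype ≤ E := by
    rintro _ ⟨v, hv, rfl⟩
    refine ⟨v.2, by simpa using congrArg Subtype.val (hVel.2 v hv), fun u hu => ?_⟩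
    obtain ⟨hcv⟩ : Nonempty (⁅v, ⟨u, hu⟩⁆ ∈ center U) := ⟨by
      exact (commutator_le_center_of_card_sq hU V hV) (commutator_mem_commutator hv (mem_top _))⟩
    refine ⟨?_, ?_⟩
    · exact (⁅v, (⟨u, hu⟩ : U)⁆).2
    · exact mem_centralizer_iff.mpr fun w hw =>
        congrArg Subtype.val (Subgroup.mem_center_iff.mp hcv ⟨w, hw⟩)
  have hEge : p ^ 2 ≤ Nat.card E := by
    have := Subgroup.card_le_of_le hVE
    rwa [card_map_of_injective U.subtype_injective, hV] at this
  have hnab : ∃ a ∈ E, ∃ b ∈ E, a * b ≠ b * a := by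
    by_contra h
    push Not at h
    have := hEge.trans (small E hEn hEU h hEp)
    have := hp.out.one_lt
    nlinarith
  obtain ⟨a, ha, b, hb, hab⟩ := hnab
  have hE3 : Nat.card E ≤ p ^ 3 := CfsgLib.RankTwo.card_le_cube E hEp hr
  have hgen : closure ({a, b} : Set G) = E := by
    have hle : closure ({a, b} : Set G) ≤ E := (closure_le _).mpr (by
      rintro s (rfl | rfl) <;> assumption)
    refine CfsgLib.Core.eq_of_le_of_card_le hle ?_
    obtain ⟨k, hk⟩ := IsPGroup.iff_card.mp (hU.to_le (hle.trans hEU))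
    refine hE3.trans (hk ▸ Nat.pow_le_pow_right hp.out.pos ?_)
    by_contra h
    refine hab ?_
    have ha' : a ∈ closure ({a, b} : Set G) := subset_closure (Or.inl rfl)
    have hb' : b ∈ closure ({a, b} : Set G) := subset_closure (Or.inr rfl)
    have hcomm : ∀ s t : closure ({a, b} : Set G), s * t = t * s := by
      interval_cases k
      · haveI : Subsingleton (closure ({a, b} : Set G)) := (Nat.card_eq_one_iff_unique.mp (by simpa using hk)).1
        exact fun s t => Subsingleton.elim _ _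
      · haveI := isCyclic_of_prime_card (α := closure ({a, b} : Set G)) (p := p) (by simpa using hk)
        letI := IsCyclic.commGroup (α := closure ({a, b} : Set G))
        exact fun s t => mul_comm s t
      · exact IsPGroup.commutative_of_card_eq_prime_sq (p := p) hk
    exact congrArg Subtype.val (hcomm ⟨a, ha'⟩ ⟨b, hb'⟩)
  -- `Z ⊓ E` has order at most `p`
  have hZE : Nat.card (Z ⊓ E : Subgroup G) ≤ p := small _ inferInstance (inf_le_right.trans hEU)
    (fun s hs t ht => (hZc t ht.1 s (hEU hs.2))) (fun s hs => hEp s hs.2)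
  have horb : ∀ x ∈ E, (centralizer ({x} : Set G)).relIndex U ≤ p := by
    intro x hx
    refine relIndex_centralizer_le hU x ((fun z => z * x) '' ((Z ⊓ E : Subgroup G) : Set G))
      (fun u hu => ⟨⁅u, x⁆, ⟨?_, ?_⟩, by simp [commutatorElement_def]⟩) ?_
    · rw [← commutatorElement_inv]
      exact (inv_mem (hx.2.2 u hu) : ⁅x, u⁆⁻¹ ∈ Z)
    · rw [commutatorElement_def]
      exact (mul_mem (hEn.conj_mem _ hx u) (inv_mem hx) : u * x * u⁻¹ * x⁻¹ ∈ E)
    · rw [Set.ncard_image_of_injective _ (mul_left_injective x)]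
      have : ((Z ⊓ E : Subgroup G) : Set G).ncard ≤ p := by
        rwa [← Nat.card_coe_set_eq]
      have := hp.out.one_lt
      nlinarith
  refine hle_of (centralizer (E : Set G)) inferInstance _ ?_ ?_
  · rw [← hgen, centralizer_closure]
    have hC : centralizer ({a, b} : Set G) = centralizer ({a} : Set G) ⊓ centralizer ({b} : Set G) := by
      ext g
      simp [mem_centralizer_iff]
    rw [hC, sq]
    exact (relIndex_inf_le).trans (Nat.mul_le_mul (horb a ha) (horb b hb))
  · intro h
    exact hab (mem_centralizer_iff.mp ((inf_eq_right.mp h) (hEU hb)) a ha)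

/-- The bound on chief factors of `p`-power order. -/
theorem chief_factor_rank_two (hp2 : p ≠ 2) (hr : Cfsg.PRankLE p 2 G) (H K : Subgroup G)
    [H.Normal] [K.Normal] (hKH : K < H) {n : ℕ} (hpow : K.relIndex H = p ^ n)
    (hchief : ∀ L : Subgroup G, L.Normal → K ≤ L → L ≤ H → L = K ∨ L = H) :
    K.relIndex H ≤ p ^ 2 := by
  classical
  obtain ⟨S⟩ : Nonempty (Sylow p H) := inferInstance
  set Q : Subgroup G := (S : Subgroup H).map H.subtype with hQ
  have hQH : Q ≤ H := map_subtype_le _
  have hQp : IsPGroup p Q := S.2.map _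
  have hKQ : K ⊔ Q = H := by
    refine le_antisymm (sup_le hKH.le hQH) ?_
    refine relIndex_eq_one.mp (Nat.eq_one_of_dvd_coprimes (k := (K ⊔ Q).relIndex H)
      (a := p ^ n) (b := Q.relIndex H) ?_ ?_ (relIndex_dvd_of_le_left H le_sup_right))
    · refine Nat.Coprime.pow_left n (hp.out.coprime_iff_not_dvd.mpr ?_)
      rw [hQ, relIndex, subgroupOf, comap_map_eq_self_of_injective H.subtype_injective]
      exact S.not_dvd_index
    · exact hpow ▸ relIndex_dvd_of_le_left H le_sup_left
  set N := normalizer (Q : Set G) with hN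
  have hNK : K ⊔ N = ⊤ := by
    rw [eq_top_iff, ← Sylow.normalizer_sup_eq_top S]
    refine sup_le le_sup_right ?_
    rw [← hKQ]
    exact sup_le_sup_left le_normalizer _
  -- a minimal `N`-invariant subgroup of `Q` outside `K`
  obtain ⟨U, ⟨hUQ, hUn, hUK⟩, hUmin⟩ := Set.exists_min_image
    {U : Subgroup G | U ≤ Q ∧ (U.subgroupOf N).Normal ∧ ¬ U ≤ K} (fun U => Nat.card U)
    (Set.toFinite _) ⟨Q, le_rfl, normal_in_normalizer, fun h => hKH.ne (by
      rw [← hKQ, sup_eq_left.mpr h])⟩
  haveI := hUn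
  have hUN : U ≤ N := hUQ.trans le_normalizer
  have hsup : K ⊔ U = H := by
    refine (hchief (K ⊔ U) ?_ le_sup_left (sup_le hKH.le (hUQ.trans hQH))).resolve_left
      (fun h => hUK (h ▸ le_sup_right))
    rw [← normalizer_eq_top_iff, eq_top_iff, ← hNK]
    refine sup_le (le_sup_left.trans le_normalizer) fun x hx => ?_
    exact CfsgLib.Core.le_normalizer_sup ((le_top).trans (normalizer_eq_top (H := K)).ge)
      ((normal_subgroupOf_iff_le_normalizer hUN).mp hUn) hx
  have hLU : (K.subgroupOf N ⊓ U.subgroupOf N : Subgroup N) < U.subgroupOf N := by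
    refine lt_of_le_of_ne inf_le_right fun h => hUK fun u hu => ?_
    exact mem_subgroupOf.mp (inf_eq_right.mp h (show (⟨u, hUN hu⟩ : N) ∈ U.subgroupOf N from hu))
  have hrN : Cfsg.PRankLE p 2 N := by
    intro A hA hAp
    haveI := hA
    have := hr (A.map N.subtype) inferInstance (by
      rintro _ ⟨x, hx, rfl⟩
      exact congrArg Subtype.val (hAp x hx))
    rwa [card_map_of_injective N.subtype_injective] at this
  have key := relIndex_le_sq_of_minimal (G := N) hp2 hrN (U.subgroupOf N)
    (K.subgroupOf N ⊓ U.subgroupOf N)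
    ((hQp.to_le hUQ).of_equiv (subgroupOfEquivOfLe hUN).symm) hLU ?_
  · rw [inf_relIndex_right, relIndex_subgroupOf hUN] at key
    rw [← hsup, sup_comm, relIndex_sup_right]
    exact key
  intro M hMn hMU
  by_cases hMK : M.map N.subtype ≤ K
  · exact Or.inl (le_inf (fun x hx => mem_subgroupOf.mpr (hMK ⟨x, hx, rfl⟩)) hMU)
  right
  have hMU' : M.map N.subtype ≤ U := by
    rintro _ ⟨x, hx, rfl⟩
    exact mem_subgroupOf.mp (hMU hx)
  have h := hUmin (M.map N.subtype) ⟨hMU'.trans hUQ, by
    rwa [subgroupOf, comap_map_eq_self_of_injective N.subtype_injective], hMK⟩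
  have he : M.map N.subtype = U := CfsgLib.Core.eq_of_le_of_card_le hMU' h
  rw [← he, subgroupOf, comap_map_eq_self_of_injective N.subtype_injective]

end CfsgLib.Local
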