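import Cfsg.Agent.Lib.LocalFactor
import Cfsg.Agent.Lib.LocalBase
import Cfsg.Agent.Lib.CoreCoprime2
import Cfsg.Agent.Lib.CorePSolvable

/-!
# `p`-constraint of local subgroups
-/

set_option autoImplicit false

universe u

namespace CfsgLib.Constrained

open Subgroup
open CfsgLib.LocalFactor

variable {G : Type u} [Group G] [Finite G] {p : ℕ} [hp : Fact p.Prime]

theorem of_isPSolvable_centralizer (P : Sylow p ↥(Cfsg.pPrimePCore p G))
    (hsol : Cfsg.IsPSolvable p ↥(centralizer (((P : Subgroup ↥(Cfsg.pPrimePCore p G)).map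
      (Cfsg.pPrimePCore p G).subtype : Subgroup G) : Set G))) : Cfsg.IsPConstrained p G := by
  haveI := CfsgLib.Core.normal_pPrimeCore (G := G) p
  rw [constrained_iff]
  set f := QuotientGroup.mk' (Cfsg.pPrimeCore p G) with hf
  have hfs : Function.Surjective f := QuotientGroup.mk'_surjective _
  have hker : (Nat.card f.ker).Coprime p := by
    rw [hf, QuotientGroup.ker_mk']; exact CfsgLib.Core.coprime_card_pPrimeCore p
  set Q := Cfsg.pCore p (G ⧸ Cfsg.pPrimeCore p G) with hQ
  haveI : Q.Normal := CfsgLib.Core.normal_pCore p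
  set P' := (P : Subgroup ↥(Cfsg.pPrimePCore p G)).map (Cfsg.pPrimePCore p G).subtype with hP'
  set D := centralizer (Q : Set (G ⧸ Cfsg.pPrimeCore p G)) with hD
  have hDeq : D = (centralizer (P' : Set G)).map f := by
    rw [hD, hQ, ← CfsgLib.Local.ClassTwo.sylow_pPrimePCore_map P]
    refine le_antisymm (CfsgLib.Stable.centralizer_map_le f hfs hker (P.2.map _)) ?_
    rintro _ ⟨c, hc, rfl⟩
    refine mem_centralizer_iff.mpr ?_
    rintro _ ⟨z, hz, rfl⟩
    rw [← map_mul, ← map_mul, mem_centralizer_iff.mp hc z hz]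
  have hsolD : Cfsg.IsPSolvable p D := by
    have h := CfsgLib.Core.isPSolvable_of_surjective (f.subgroupMap (centralizer (P' : Set G)))
      (f.subgroupMap_surjective _) hsol
    rw [← hDeq] at h
    exact h
  haveI hDn : D.Normal := inferInstance
  have hcore : Cfsg.pPrimeCore p D = ⊥ := by
    have h1 := CfsgLib.Core.pPrimeCore_map_subtype_le (p := p) hDn
    rw [CfsgLib.Core.pPrimeCore_quotient_pPrimeCore, le_bot_iff,
      Subgroup.map_eq_bot_iff_of_injective _ D.subtype_injective] at h1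
    exact h1
  have hcD := CfsgLib.Core.centralizer_pCore_le_of_isPSolvable hsolD hcore
  intro x hx
  refine CfsgLib.Core.pCore_map_subtype_le hDn ⟨⟨x, hx⟩, hcD (mem_centralizer_iff.mpr fun y hy => ?_), rfl⟩
  exact Subtype.ext (mem_centralizer_iff.mp hx (y : G ⧸ Cfsg.pPrimeCore p G)
    (CfsgLib.Core.pCore_map_subtype_le hDn ⟨y, hy, rfl⟩))

theorem pPrimeCore_normalizer [(Cfsg.pPrimeCore p G).Normal]
    (hc : centralizer (Cfsg.pCore p (G ⧸ Cfsg.pPrimeCore p G) : Set (G ⧸ Cfsg.pPrimeCore p G)) ≤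
      Cfsg.pCore p (G ⧸ Cfsg.pPrimeCore p G)) (P : Subgroup G) (hP : IsPGroup p P) :
    (Cfsg.pPrimeCore p ↥(normalizer (P : Set G))).map (normalizer (P : Set G)).subtype =
      Cfsg.pPrimeCore p G ⊓ normalizer (P : Set G) := by
  set N := normalizer (P : Set G) with hN
  refine le_antisymm ?_ fun x hx => ?_
  swap
  · obtain ⟨hxO, hxN⟩ := mem_inf.mp hx
    refine ⟨⟨x, hxN⟩, CfsgLib.Core.le_pPrimeCore (N := (Cfsg.pPrimeCore p G).subgroupOf N)
      inferInstance ?_ hxO, rfl⟩
    exact (CfsgLib.Core.coprime_card_pPrimeCore p).coprime_dvd_left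
      (card_comap_dvd_of_injective _ _ N.subtype_injective)
  haveI hRn := CfsgLib.Core.normal_pPrimeCore (G := N) p
  set R := (Cfsg.pPrimeCore p N).map N.subtype with hR
  have hRcop : (Nat.card R).Coprime p := by
    rw [hR, card_map_of_injective N.subtype_injective]; exact CfsgLib.Core.coprime_card_pPrimeCore p
  have hNR : ∀ n ∈ N, ∀ r ∈ R, n * r * n⁻¹ ∈ R := by
    rintro n hn _ ⟨r, hr, rfl⟩
    exact ⟨⟨n, hn⟩ * r * ⟨n, hn⟩⁻¹, hRn.conj_mem r hr _, rfl⟩
  have hPR : P ≤ centralizer (R : Set G) := by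
    intro x hx
    refine mem_centralizer_iff.mpr fun r hr => ?_
    have h1 : r * x * r⁻¹ * x⁻¹ ∈ R ⊓ P := by
      refine mem_inf.mpr ⟨?_, ?_⟩
      · rw [show r * x * r⁻¹ * x⁻¹ = r * (x * r⁻¹ * x⁻¹) by group]
        exact mul_mem hr (hNR x (le_normalizer hx) _ (inv_mem hr))
      · exact mul_mem ((mem_normalizer_iff.mp ((map_subtype_le _ : R ≤ N) hr) x).mp hx) (inv_mem hx)
    rw [CfsgLib.Core.sylow_inf_bot_of_coprime hP hRcop, mem_bot, mul_inv_eq_one,
      mul_inv_eq_iff_eq_mul] at h1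
    exact h1
  set f := QuotientGroup.mk' (Cfsg.pPrimeCore p G) with hf
  have hfs : Function.Surjective f := QuotientGroup.mk'_surjective _
  have hker : (Nat.card f.ker).Coprime p := by
    rw [hf, QuotientGroup.ker_mk']; exact CfsgLib.Core.coprime_card_pPrimeCore p
  set U := Cfsg.pCore p (G ⧸ Cfsg.pPrimeCore p G) with hU
  haveI : U.Normal := CfsgLib.Core.normal_pCore p
  have hUp : IsPGroup p U := CfsgLib.Core.isPGroup_pCore p
  have hRc : (Nat.card (R.map f)).Coprime p := hRcop.coprime_dvd_left (card_map_dvd R f)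
  have hRU : R.map f ≤ centralizer (U : Set (G ⧸ Cfsg.pPrimeCore p G)) := by
    refine CfsgLib.Core.thompson_pxq (P := P.map f) (hP.map f) hRc hUp ?_
      (le_top.trans (normalizer_eq_top U).ge) (le_top.trans (normalizer_eq_top U).ge) ?_
    · rintro _ ⟨x, hx, rfl⟩
      refine mem_centralizer_iff.mpr ?_
      rintro _ ⟨r, hr, rfl⟩
      rw [← map_mul, ← map_mul, mem_centralizer_iff.mp (hPR hx) r hr]
    · intro u hu
      obtain ⟨huU, huC⟩ := mem_inf.mp hu
      have huN : u ∈ N.map f := by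
        rw [← CfsgLib.Stable.normalizer_map_eq f hfs hker hP]
        exact centralizer_le_normalizer _ huC
      obtain ⟨n, hn, rfl⟩ := huN
      refine mem_centralizer_iff.mpr ?_
      rintro _ ⟨r, hr, rfl⟩
      have h1 : f n * f r * (f n)⁻¹ * (f r)⁻¹ ∈ R.map f ⊓ U := by
        refine mem_inf.mpr ⟨mul_mem ⟨_, hNR n hn r hr, by simp⟩ (inv_mem ⟨r, hr, rfl⟩), ?_⟩
        rw [show f n * f r * (f n)⁻¹ * (f r)⁻¹ = f n * (f r * (f n)⁻¹ * (f r)⁻¹) by group]
        exact mul_mem huU ((inferInstance : U.Normal).conj_mem _ (inv_mem huU) _)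
      rw [CfsgLib.Core.sylow_inf_bot_of_coprime hUp hRc, mem_bot, mul_inv_eq_one,
        mul_inv_eq_iff_eq_mul] at h1
      exact h1.symm
  refine le_inf (fun r hr => (QuotientGroup.eq_one_iff r).mp ?_) (map_subtype_le _)
  have h1 : f r ∈ R.map f ⊓ U := mem_inf.mpr ⟨⟨r, hr, rfl⟩, hc (hRU ⟨r, hr, rfl⟩)⟩
  rw [CfsgLib.Core.sylow_inf_bot_of_coprime hUp hRc, mem_bot] at h1
  exact h1

/-- In a group of characteristic `p` the subgroups between `C(P)` and `N(P)` in question have
characteristic `p`. -/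
theorem charP_local (hc : centralizer (Cfsg.pCore p G : Set G) ≤ Cfsg.pCore p G) (P : Subgroup G)
    (hP : IsPGroup p P) (L : Subgroup G) (h1 : centralizer (P : Set G) ≤ L)
    (h3 : P ≤ L ∧ L ≤ normalizer (P : Set G) ∨ L ≤ centralizer (P : Set G)) :
    centralizer (Cfsg.pCore p L : Set L) ≤ Cfsg.pCore p L := by
  haveI := CfsgLib.Core.normal_pCore (G := G) p
  haveI := CfsgLib.Core.normal_pCore (G := L) p
  set Q := Cfsg.pCore p G with hQ
  have hQp : IsPGroup p Q := CfsgLib.Core.isPGroup_pCore p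
  have hQL : Q.subgroupOf L ≤ Cfsg.pCore p L :=
    CfsgLib.Core.le_pCore inferInstance (hQp.comap_of_injective L.subtype L.subtype_injective)
  refine CfsgLib.Core.le_pCore (N := centralizer (Cfsg.pCore p L : Set L)) inferInstance ?_
  refine CfsgLib.Local.isPGroup_of_coprime_eq_one fun x hx hcop => Subtype.ext ?_
  have hxP : ∀ q ∈ P, (x : G) * q = q * x := by
    rcases h3 with ⟨hPL, hLN⟩ | h
    · intro q hq
      have hle : P.subgroupOf L ≤ Cfsg.pCore p L := CfsgLib.Core.le_pCore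
        (normal_subgroupOf_of_le_normalizer hLN) (hP.comap_of_injective L.subtype L.subtype_injective)
      exact (congrArg Subtype.val (mem_centralizer_iff.mp hx ⟨q, hPL hq⟩ (hle hq))).symm
    · exact fun q hq => (mem_centralizer_iff.mp (h x.2) q hq).symm
  have hcopG : (orderOf (x : G)).Coprime p := by rwa [Subgroup.orderOf_coe]
  have hxQ := CfsgLib.Local.thompson_AxB' (R := Q) (Q := P) (T := Q ⊔ P)
    (IsPGroup.to_sup_of_normal_left hQp hP) le_sup_left le_sup_right
    (le_top.trans (normalizer_eq_top Q).ge) (x := (x : G))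
    (fun r hr => (inferInstance : Q.Normal).conj_mem r hr _) hcopG hxP
    (fun r hr hq => (congrArg Subtype.val (mem_centralizer_iff.mp hx
      ⟨r, h1 (mem_centralizer_iff.mpr hq)⟩ (hQL hr))).symm)
  exact CfsgLib.Local.eq_one_of_coprime_pgroup hQp
    (hc (mem_centralizer_iff.mpr fun r hr => (hxQ r hr).symm)) hcopG

theorem constrained_of_local [(Cfsg.pPrimeCore p G).Normal] (L : Subgroup G)
    (hO : (Cfsg.pPrimeCore p L).map L.subtype = Cfsg.pPrimeCore p G ⊓ L)
    (h : centralizer (Cfsg.pCore p ↥(L.map (QuotientGroup.mk' (Cfsg.pPrimeCore p G))) :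
        Set ↥(L.map (QuotientGroup.mk' (Cfsg.pPrimeCore p G)))) ≤
      Cfsg.pCore p ↥(L.map (QuotientGroup.mk' (Cfsg.pPrimeCore p G)))) :
    Cfsg.IsPConstrained p L := by
  haveI := CfsgLib.Core.normal_pPrimeCore (G := L) p
  set f := QuotientGroup.mk' (Cfsg.pPrimeCore p G) with hf
  have hk : (f.subgroupMap L).ker = Cfsg.pPrimeCore p L := by
    ext x
    rw [MonoidHom.mem_ker]
    refine ⟨fun hx => ?_, fun hx => Subtype.ext ((QuotientGroup.eq_one_iff _).mpr ?_)⟩
    · obtain ⟨y, hy, he⟩ := hO.ge (show (x : G) ∈ Cfsg.pPrimeCore p G ⊓ L from mem_inf.mpr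
        ⟨(QuotientGroup.eq_one_iff _).mp (congrArg Subtype.val hx), x.2⟩)
      rwa [← L.subtype_injective he]
    · exact (mem_inf.mp (hO.le ⟨x, hx, rfl⟩)).1
  rw [constrained_iff]
  exact centralizer_pCore_equiv ((QuotientGroup.quotientMulEquivOfEq hk.symm).trans
    (QuotientGroup.quotientKerEquivOfSurjective _ (f.subgroupMap_surjective L))).symm h

theorem constrained_locals (hG : Cfsg.IsPConstrained p G) (P : Subgroup G) (hP : IsPGroup p P) :
    Cfsg.IsPConstrained p ↥(normalizer (P : Set G)) ∧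
      Cfsg.IsPConstrained p ↥(centralizer (P : Set G)) := by
  haveI := CfsgLib.Core.normal_pPrimeCore (G := G) p
  rw [constrained_iff] at hG
  set f := QuotientGroup.mk' (Cfsg.pPrimeCore p G) with hf
  have hfs : Function.Surjective f := QuotientGroup.mk'_surjective _
  have hker : (Nat.card f.ker).Coprime p := by
    rw [hf, QuotientGroup.ker_mk']; exact CfsgLib.Core.coprime_card_pPrimeCore p
  have hON := pPrimeCore_normalizer hG P hP
  set N := normalizer (P : Set G) with hN
  set C := centralizer (P : Set G) with hC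
  have hNmap : N.map f = normalizer ((P.map f : Subgroup (G ⧸ Cfsg.pPrimeCore p G)) : Set _) :=
    (CfsgLib.Stable.normalizer_map_eq f hfs hker hP).symm
  have hCmap : C.map f = centralizer ((P.map f : Subgroup (G ⧸ Cfsg.pPrimeCore p G)) : Set _) := by
    refine le_antisymm ?_ (CfsgLib.Stable.centralizer_map_le f hfs hker hP)
    rintro _ ⟨c, hc, rfl⟩
    refine mem_centralizer_iff.mpr ?_
    rintro _ ⟨z, hz, rfl⟩
    rw [← map_mul, ← map_mul, mem_centralizer_iff.mp hc z hz]
  refine ⟨constrained_of_local N hON ?_, constrained_of_local C ?_ ?_⟩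
  · exact charP_local hG (P.map f) (hP.map f) _ (hNmap ▸ centralizer_le_normalizer _)
      (Or.inl ⟨map_mono le_normalizer, hNmap.le⟩)
  · haveI hn := CfsgLib.Core.normal_pPrimeCore (G := C) p
    refine le_antisymm (le_inf ?_ (map_subtype_le _)) fun x hx => ?_
    · haveI : (C.subgroupOf N).Normal := normal_subgroupOf_centralizer_normalizer (P : Set G)
      have e : C ≤ N := centralizer_le_normalizer _
      intro x hx
      obtain ⟨y, hy, rfl⟩ := hx
      set g := subgroupOfEquivOfLe e with hg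
      have h1 : g.symm y ∈ Cfsg.pPrimeCore p ↥(C.subgroupOf N) :=
        CfsgLib.Core.map_pPrimeCore_le_of_surjective p g.symm.toMonoidHom g.symm.surjective ⟨y, hy, rfl⟩
      exact (mem_inf.mp (hON.le ⟨_, CfsgLib.Core.pPrimeCore_map_subtype_le (p := p) inferInstance
        ⟨_, h1, rfl⟩, rfl⟩)).1
    · obtain ⟨hxO, hxC⟩ := mem_inf.mp hx
      exact ⟨⟨x, hxC⟩, CfsgLib.Core.le_pPrimeCore (N := (Cfsg.pPrimeCore p G).subgroupOf C)
        inferInstance ((CfsgLib.Core.coprime_card_pPrimeCore p).coprime_dvd_left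
          (card_comap_dvd_of_injective _ _ C.subtype_injective)) hxO, rfl⟩
  · exact charP_local hG (P.map f) (hP.map f) _ hCmap.ge (Or.inr hCmap.le)

theorem quotient_comap_core (U₀ U : Subgroup G) [U₀.Normal] [U.Normal]
    (hU : U = (Cfsg.pPrimeCore p (G ⧸ U₀)).comap (QuotientGroup.mk' U₀)) :
    Cfsg.pPrimeCore p (G ⧸ U) = ⊥ := by
  haveI := CfsgLib.Core.normal_pPrimeCore (G := G ⧸ U) p
  set M := (Cfsg.pPrimeCore p (G ⧸ U)).comap (QuotientGroup.mk' U) with hM
  haveI : M.Normal := hM ▸ inferInstance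
  have hUM : U ≤ M := fun x hx => by
    rw [hM, mem_comap, QuotientGroup.mk'_apply, (QuotientGroup.eq_one_iff x).mpr hx]; exact one_mem _
  have h0U : U₀ ≤ U := fun x hx => by
    rw [hU, mem_comap, QuotientGroup.mk'_apply, (QuotientGroup.eq_one_iff x).mpr hx]; exact one_mem _
  have h1 : U.relIndex M = Nat.card (Cfsg.pPrimeCore p (G ⧸ U)) := by
    conv_lhs => rw [← QuotientGroup.ker_mk' U]
    rw [relIndex_ker, hM, map_comap_eq_self_of_surjective (QuotientGroup.mk'_surjective U)]
  have h2 : U₀.relIndex U = Nat.card (Cfsg.pPrimeCore p (G ⧸ U₀)) := by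
    conv_lhs => rw [← QuotientGroup.ker_mk' U₀]
    rw [relIndex_ker, hU, map_comap_eq_self_of_surjective (QuotientGroup.mk'_surjective U₀)]
  have h3 : (Nat.card (M.map (QuotientGroup.mk' U₀))).Coprime p := by
    rw [← relIndex_ker, QuotientGroup.ker_mk', ← relIndex_mul_relIndex U₀ U M h0U hUM, h1, h2]
    exact (CfsgLib.Core.coprime_card_pPrimeCore p).mul_left (CfsgLib.Core.coprime_card_pPrimeCore p)
  have h4 : M ≤ U := by
    rw [hU]
    exact map_le_iff_le_comap.mp (CfsgLib.Core.le_pPrimeCore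
      ((inferInstance : M.Normal).map _ (QuotientGroup.mk'_surjective U₀)) h3)
  rw [eq_bot_iff, ← map_comap_eq_self_of_surjective (QuotientGroup.mk'_surjective U)
    (Cfsg.pPrimeCore p (G ⧸ U))]
  exact (map_mono h4).trans (QuotientGroup.map_mk'_self U).le

theorem upperPSeries_factor (hsol : Cfsg.IsPSolvable p G) (k : ℕ) :
    centralizer ((((Cfsg.upperPSeries p G (2 * k + 2)).1.map
        (QuotientGroup.mk' (Cfsg.upperPSeries p G (2 * k + 1)).1)) :
        Subgroup (G ⧸ (Cfsg.upperPSeries p G (2 * k + 1)).1)) :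
        Set (G ⧸ (Cfsg.upperPSeries p G (2 * k + 1)).1)) ≤
      (Cfsg.upperPSeries p G (2 * k + 2)).1.map
        (QuotientGroup.mk' (Cfsg.upperPSeries p G (2 * k + 1)).1) := by
  have h1 : (Cfsg.upperPSeries p G (2 * k + 1)).1 =
      (Cfsg.pPrimeCore p (G ⧸ (Cfsg.upperPSeries p G (2 * k)).1)).comap (QuotientGroup.mk' _) := by
    rw [Cfsg.upperPSeries, if_pos (even_two_mul k)]
  have h2 : (Cfsg.upperPSeries p G (2 * k + 2)).1 =
      (Cfsg.pCore p (G ⧸ (Cfsg.upperPSeries p G (2 * k + 1)).1)).comap (QuotientGroup.mk' _) := by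
    rw [Cfsg.upperPSeries, if_neg (by rw [Nat.even_add_one]; simp)]
  rw [h2, map_comap_eq_self_of_surjective (QuotientGroup.mk'_surjective _)]
  exact CfsgLib.Core.centralizer_pCore_le_of_isPSolvable
    (CfsgLib.Core.isPSolvable_of_surjective _ (QuotientGroup.mk'_surjective _) hsol)
    (quotient_comap_core _ _ h1)

end CfsgLib.Constrained
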