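import Cfsg.Agent.Lib.TransferPGroups
import Mathlib.Data.Int.ModEq

/-!
# Non-abelian groups of order a power of two with a cyclic maximal subgroup
-/

set_option autoImplicit false

universe u

namespace CfsgLib.LocalCyclicMax

open Subgroup

theorem sq_one_mod {k : ℕ} (hk : 1 ≤ k) {r : ℤ} (h : (2 ^ (k + 1) : ℤ) ∣ r ^ 2 - 1) :
    (2 ^ (k + 1) : ℤ) ∣ r - 1 ∨ (2 ^ (k + 1) : ℤ) ∣ r - 1 - 2 ^ k ∨
      (2 ^ (k + 1) : ℤ) ∣ r + 1 ∨ (2 ^ (k + 1) : ℤ) ∣ r + 1 - 2 ^ k := by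
  have hsplit : ∀ x : ℤ, (2 ^ k : ℤ) ∣ x →
      (2 ^ (k + 1) : ℤ) ∣ x ∨ (2 ^ (k + 1) : ℤ) ∣ x - 2 ^ k := by
    rintro x ⟨c, rfl⟩
    rcases Int.even_or_odd' c with ⟨t, rfl | rfl⟩
    · exact Or.inl ⟨t, by ring⟩
    · exact Or.inr ⟨t, by ring⟩
  have hodd : ∃ t, r = 2 * t + 1 := by
    rcases Int.even_or_odd' r with ⟨t, rfl | rfl⟩
    · exfalso
      have h2 : (2 : ℤ) ∣ (2 * t) ^ 2 - 1 := (dvd_pow_self (2 : ℤ) (by omega)).trans h
      have h3 : (2 : ℤ) ∣ (2 * t) ^ 2 := ⟨2 * t ^ 2, by ring⟩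
      have := dvd_sub h3 h2
      rw [sub_sub_cancel] at this
      norm_num at this
    · exact ⟨t, rfl⟩
  obtain ⟨t, rfl⟩ := hodd
  obtain ⟨j, rfl⟩ := Nat.exists_eq_succ_of_ne_zero (show k ≠ 0 by omega)
  obtain ⟨c, hc⟩ := h
  have hc' : t * (t + 1) = 2 ^ j * c := by
    have : (4 : ℤ) * (t * (t + 1)) = 4 * (2 ^ j * c) := by
      calc (4 : ℤ) * (t * (t + 1)) = (2 * t + 1) ^ 2 - 1 := by ring
        _ = _ := by rw [hc, pow_succ, pow_succ]; ring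
    linarith
  rcases Int.even_or_odd' t with ⟨s, hs | hs⟩
  · have hcop : IsCoprime (2 ^ j : ℤ) (t + 1) :=
      IsCoprime.pow_left ⟨-s, 1, by rw [hs]; ring⟩
    obtain ⟨d, hd⟩ := hcop.dvd_of_dvd_mul_right ⟨c, hc'⟩
    have h2 : (2 ^ (j + 1) : ℤ) ∣ 2 * t + 1 - 1 := ⟨d, by rw [hd, pow_succ]; ring⟩
    rcases hsplit _ h2 with e | e
    exacts [Or.inl e, Or.inr (Or.inl e)]
  · have hcop : IsCoprime (2 ^ j : ℤ) t :=
      IsCoprime.pow_left ⟨-s, 1, by rw [hs]; ring⟩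
    obtain ⟨d, hd⟩ := hcop.dvd_of_dvd_mul_left ⟨c, hc'⟩
    have h2 : (2 ^ (j + 1) : ℤ) ∣ 2 * t + 1 + 1 :=
      ⟨d, by rw [show 2 * t + 1 + 1 = 2 * (t + 1) by ring, hd, pow_succ]; ring⟩
    rcases hsplit _ h2 with e | e
    exacts [Or.inr (Or.inr (Or.inl e)), Or.inr (Or.inr (Or.inr e))]

theorem cyclic_maximal_two {G : Type u} [Group G] [Finite G] (n : ℕ) (hn : 3 ≤ n)
    (hG : Nat.card G = 2 ^ n) (C : Subgroup G) (hC : IsCyclic C) (hCi : C.index = 2)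
    (hna : ∃ x y : G, x * y ≠ y * x) :
    ∃ a b : G, orderOf a = 2 ^ (n - 1) ∧ b ∉ Subgroup.zpowers a ∧
      ((b ^ 2 = 1 ∧ b * a * b⁻¹ = a⁻¹) ∨
       (b ^ 2 = a ^ (2 ^ (n - 2)) ∧ b * a * b⁻¹ = a⁻¹) ∨
       (4 ≤ n ∧ b ^ 2 = 1 ∧ b * a * b⁻¹ = a ^ (1 + 2 ^ (n - 2))) ∨
       (4 ≤ n ∧ b ^ 2 = 1 ∧ b * a * b⁻¹ = a ^ (2 ^ (n - 2) - 1))) := by
  obtain ⟨m, rfl⟩ := Nat.exists_eq_add_of_le hn
  obtain ⟨⟨a, haC⟩, hgen⟩ := hC.exists_generator
  have hzp : zpowers a = C := le_antisymm (zpowers_le.mpr haC) fun z hz => by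
    obtain ⟨i, hi⟩ := hgen ⟨z, hz⟩
    exact ⟨i, congrArg Subtype.val hi⟩
  have hCc : Nat.card C = 2 ^ (m + 2) := by
    have h := card_mul_index C
    rw [hG, hCi, show 3 + m = m + 2 + 1 by omega, pow_succ] at h
    exact mul_right_cancel₀ two_ne_zero h
  have hoa : orderOf a = 2 ^ (m + 2) := by rw [← Nat.card_zpowers, hzp, hCc]
  haveI hCn : C.Normal := Subgroup.normal_of_index_eq_two hCi
  obtain ⟨b, hbC⟩ : ∃ b, b ∉ C := by
    by_contra h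
    push Not at h
    have : C = ⊤ := eq_top_iff.mpr fun x _ => h x
    rw [this, index_top] at hCi
    omega
  obtain ⟨r, hr⟩ : ∃ r : ℤ, a ^ r = b * a * b⁻¹ := by
    have h : b * a * b⁻¹ ∈ zpowers a := by rw [hzp]; exact hCn.conj_mem a haC b
    exact h
  obtain ⟨s, hs⟩ : ∃ s : ℤ, a ^ s = b ^ 2 := by
    have h : b ^ 2 ∈ zpowers a := by rw [hzp]; exact Subgroup.sq_mem_of_index_two hCi b
    exact h
  have hdvd : ∀ i : ℤ, a ^ i = 1 ↔ (2 ^ (m + 2) : ℤ) ∣ i := fun i => by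
    rw [← orderOf_dvd_iff_zpow_eq_one, hoa]; push_cast; rfl
  have hconj : ∀ i : ℤ, b * a ^ i * b⁻¹ = a ^ (r * i) := fun i => by
    rw [← conj_zpow, ← hr, ← zpow_mul]
  have hr2 : (2 ^ (m + 2) : ℤ) ∣ r ^ 2 - 1 := by
    rw [← hdvd, zpow_sub_one, sq, zpow_mul, hr, conj_zpow, hr]
    calc b * (b * a * b⁻¹) * b⁻¹ * a⁻¹ = b ^ 2 * a * (b ^ 2)⁻¹ * a⁻¹ := by rw [sq]; group
      _ = 1 := by rw [← hs, ((Commute.refl a).zpow_left s).eq]; group
  have hrs : (2 ^ (m + 2) : ℤ) ∣ s * (r - 1) := by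
    rw [← hdvd, show s * (r - 1) = r * s - s by ring, zpow_sub, ← hconj, hs]
    group
  have hsq : ∀ i : ℤ, (a ^ i * b) ^ 2 = a ^ (i + r * i + s) := fun i => by
    rw [sq, zpow_add, zpow_add, ← hconj, hs, sq]; group
  have hconj' : ∀ i : ℤ, a ^ i * b * a * (a ^ i * b)⁻¹ = a ^ r := fun i => by
    calc a ^ i * b * a * (a ^ i * b)⁻¹ = a ^ i * (b * a * b⁻¹) * (a ^ i)⁻¹ := by group
      _ = a ^ r := by rw [← hr, ((Commute.refl a).zpow_zpow i r).eq, mul_inv_cancel_right]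
  have hnot : ∀ i : ℤ, a ^ i * b ∉ zpowers a := fun i h => hbC (by
    have := mul_mem (zpow_mem (mem_zpowers a) (-i)) h
    rw [← mul_assoc, ← zpow_add, neg_add_cancel, zpow_zero, one_mul] at this
    rwa [← hzp])
  have heq : ∀ i j : ℤ, (2 ^ (m + 2) : ℤ) ∣ i - j → a ^ i = a ^ j := fun i j h => by
    rw [← mul_inv_eq_one, ← zpow_sub]; exact (hdvd _).mpr h
  rw [show 3 + m - 1 = m + 2 by omega, show 3 + m - 2 = m + 1 by omega]
  have hh : (2 : ℤ) ^ (m + 2) = 2 * 2 ^ (m + 1) := by ring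
  rcases sq_one_mod (k := m + 1) (by omega) hr2 with e | e | e | e
  · -- abelian
    exfalso
    have hab : Commute b a := by
      have h1 := heq r 1 e
      rw [hr, zpow_one, mul_inv_eq_iff_eq_mul] at h1
      exact h1
    obtain ⟨x, y, hxy⟩ := hna
    refine hxy ?_
    have hdec : ∀ g : G, ∃ i : ℤ, g = a ^ i ∨ g = a ^ i * b := fun g => by
      by_cases hg : g ∈ C
      · rw [← hzp] at hg
        obtain ⟨i, rfl⟩ := hg
        exact ⟨i, Or.inl rfl⟩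
      · have : g * b⁻¹ ∈ C := (Subgroup.mul_mem_iff_of_index_two hCi).mpr
          (iff_of_false hg fun h => hbC (inv_mem_iff.mp h))
        rw [← hzp] at this
        obtain ⟨i, hi⟩ := this
        exact ⟨i, Or.inr (by rw [show a ^ i = g * b⁻¹ from hi, inv_mul_cancel_right])⟩
    have hca : ∀ i : ℤ, Commute (a ^ i) b := fun i => (hab.symm.zpow_left i)
    have hcc : ∀ i j : ℤ, Commute (a ^ i) (a ^ j) := fun i j => (Commute.refl a).zpow_zpow i j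
    obtain ⟨i, rfl | rfl⟩ := hdec x <;> obtain ⟨j, rfl | rfl⟩ := hdec y
    · exact (hcc i j).eq
    · exact ((hcc i j).mul_right (hca i)).eq
    · exact ((hcc i j).mul_left (hca j).symm).eq
    · exact (((hcc i j).mul_right (hca i)).mul_left ((hca j).symm.mul_right (Commute.refl b))).eq
  · -- modular
    obtain ⟨q, hq⟩ := e
    have hr' : r = 1 + 2 ^ (m + 1) + 2 ^ (m + 2) * q := by linarith
    rcases Nat.eq_zero_or_pos m with rfl | hm
    · -- here `r ≡ -1`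
      have hinv : b * a * b⁻¹ = a⁻¹ := by
        rw [← hr, ← zpow_neg_one]
        exact heq _ _ ⟨q + 1, by rw [hr']; ring⟩
      have hs2 : (2 : ℤ) ∣ s := by
        have h3 : (2 : ℤ) ^ 2 ∣ s * 2 := by
          have h4 : (2 : ℤ) ^ 2 ∣ s * (2 ^ 2 * q) := ⟨s * q, by ring⟩
          have := dvd_sub hrs h4
          rwa [hr', show s * (1 + 2 ^ (0 + 1) + 2 ^ (0 + 2) * q - 1) - s * (2 ^ 2 * q) = s * 2 by ring]
            at this
        exact (mul_dvd_mul_iff_right two_ne_zero).mp (by rw [← sq]; exact h3)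
      obtain ⟨t, rfl⟩ := hs2
      refine ⟨a, b, hoa, fun h => hbC (hzp ▸ h), ?_⟩
      rcases Int.even_or_odd' t with ⟨u, rfl | rfl⟩
      · exact Or.inl ⟨by rw [← hs, hdvd]; exact ⟨u, by ring⟩, hinv⟩
      · refine Or.inr (Or.inl ⟨?_, hinv⟩)
        rw [← hs, ← zpow_natCast]
        exact heq _ _ ⟨u, by push_cast; ring⟩
    obtain ⟨k, rfl⟩ : ∃ k, m = k + 1 := ⟨m - 1, by omega⟩
    have hs2 : (2 : ℤ) ∣ s := by
      have h3 : (2 : ℤ) ^ (k + 3) ∣ s * 2 ^ (k + 2) := by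
        have h4 : (2 : ℤ) ^ (k + 3) ∣ s * (2 ^ (k + 3) * q) := ⟨s * q, by ring⟩
        have := dvd_sub hrs h4
        rwa [hr', show s * (1 + 2 ^ (k + 1 + 1) + 2 ^ (k + 1 + 2) * q - 1) - s * (2 ^ (k + 3) * q) =
          s * 2 ^ (k + 2) by ring] at this
      exact (mul_dvd_mul_iff_right (pow_ne_zero (k + 2) two_ne_zero)).mp (by rw [← pow_succ']; exact h3)
    obtain ⟨t, rfl⟩ := hs2
    -- solve `i (1 + 2^(k+1)) ≡ -t (mod 2^(k+2))`
    set h1 : ℤ := 2 ^ (k + 1) with hh1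
    set i : ℤ := -t * (1 - h1) with hi
    refine ⟨a, a ^ i * b, hoa, hnot i, Or.inr (Or.inr (Or.inl ⟨by omega, ?_, ?_⟩))⟩
    · rw [hsq, hdvd, hi, hr']
      refine ⟨q * (-t * (1 - h1)) + t * 2 ^ k, ?_⟩
      rw [hh1]; ring
    · rw [hconj', ← zpow_natCast]
      exact heq _ _ ⟨q, by rw [hr']; push_cast; ring⟩
  · -- dihedral or quaternion
    obtain ⟨q, hq⟩ := e
    have hr' : r = -1 + 2 ^ (m + 2) * q := by linarith
    have hinv : b * a * b⁻¹ = a⁻¹ := by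
      rw [← hr, ← zpow_neg_one]
      exact heq _ _ ⟨q, by rw [hr']; ring⟩
    have hs2 : (2 : ℤ) ^ (m + 1) ∣ s := by
      have h3 : (2 : ℤ) ^ (m + 2) ∣ s * 2 := by
        have h4 : (2 : ℤ) ^ (m + 2) ∣ s * (2 ^ (m + 2) * q) := ⟨s * q, by ring⟩
        have := dvd_sub h4 hrs
        rwa [hr', show s * (2 ^ (m + 2) * q) - s * (-1 + 2 ^ (m + 2) * q - 1) = s * 2 by ring] at this
      exact (mul_dvd_mul_iff_right two_ne_zero).mp (by rw [← pow_succ]; exact h3)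
    obtain ⟨t, rfl⟩ := hs2
    refine ⟨a, b, hoa, fun h => hbC (hzp ▸ h), ?_⟩
    rcases Int.even_or_odd' t with ⟨u, rfl | rfl⟩
    · exact Or.inl ⟨by rw [← hs, hdvd]; exact ⟨u, by ring⟩, hinv⟩
    · refine Or.inr (Or.inl ⟨?_, hinv⟩)
      rw [← hs, ← zpow_natCast]
      exact heq _ _ ⟨u, by push_cast; ring⟩
  · -- semidihedral
    obtain ⟨q, hq⟩ := e
    have hr' : r = -1 + 2 ^ (m + 1) + 2 ^ (m + 2) * q := by linarith
    rcases Nat.eq_zero_or_pos m with rfl | hm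
    · -- then `r ≡ 1`, the abelian case
      exfalso
      have hab : Commute b a := by
        have h1 := heq r 1 ⟨q, by rw [hr']; ring⟩
        rw [hr, zpow_one, mul_inv_eq_iff_eq_mul] at h1
        exact h1
      obtain ⟨x, y, hxy⟩ := hna
      refine hxy ?_
      have htop : C ⊔ zpowers b = ⊤ := by
        rcases (Nat.dvd_prime Nat.prime_two).mp (hCi ▸ index_dvd_of_le (le_sup_left : C ≤ C ⊔ zpowers b)) with e | e
        · exact index_eq_one.mp e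
        · exfalso
          have h1 := card_mul_index (C ⊔ zpowers b)
          rw [e, ← hCi, ← card_mul_index C] at h1
          have := CfsgLib.Core.eq_of_le_of_card_le (le_sup_left : C ≤ C ⊔ zpowers b)
            (mul_right_cancel₀ (hCi ▸ two_ne_zero) h1).le
          exact hbC (this ▸ mem_sup_right (mem_zpowers b))
      have hcomm : IsMulCommutative (C ⊔ zpowers b : Subgroup G) := by
        rw [← hzp, zpowers_eq_closure, zpowers_eq_closure, ← Subgroup.closure_union]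
        refine isMulCommutative_closure ?_
        rintro x (rfl | rfl) y (rfl | rfl)
        exacts [rfl, hab.eq.symm, hab.eq, rfl]
      exact congrArg Subtype.val (hcomm.is_comm.comm
        (⟨x, htop ▸ mem_top x⟩ : (C ⊔ zpowers b : Subgroup G)) ⟨y, htop ▸ mem_top y⟩)
    obtain ⟨k, rfl⟩ : ∃ k, m = k + 1 := ⟨m - 1, by omega⟩
    have hs2 : (2 : ℤ) ^ (k + 2) ∣ s := by
      have h3 : (2 : ℤ) ^ (k + 3) ∣ s * (2 ^ (k + 1) - 1) * 2 := by
        have h4 : (2 : ℤ) ^ (k + 3) ∣ s * (2 ^ (k + 3) * q) := ⟨s * q, by ring⟩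
        have := dvd_sub hrs h4
        rwa [hr', show s * (-1 + 2 ^ (k + 1 + 1) + 2 ^ (k + 1 + 2) * q - 1) - s * (2 ^ (k + 3) * q) =
          s * (2 ^ (k + 1) - 1) * 2 by ring] at this
      have h4 : (2 : ℤ) ^ (k + 2) ∣ s * (2 ^ (k + 1) - 1) :=
        (mul_dvd_mul_iff_right two_ne_zero).mp (by rw [← pow_succ]; exact h3)
      exact (IsCoprime.pow_left ⟨2 ^ k, -1, by ring⟩ :
        IsCoprime ((2 : ℤ) ^ (k + 2)) (2 ^ (k + 1) - 1)).dvd_of_dvd_mul_right h4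
    obtain ⟨t, rfl⟩ := hs2
    refine ⟨a, a ^ t * b, hoa, hnot t, Or.inr (Or.inr (Or.inr ⟨by omega, ?_, ?_⟩))⟩
    · rw [hsq, hdvd, hr']
      exact ⟨q * t + t, by ring⟩
    · rw [hconj', ← zpow_natCast]
      exact heq _ _ ⟨q, by rw [hr', Nat.cast_sub Nat.one_le_two_pow]; push_cast; ring⟩

end CfsgLib.LocalCyclicMax
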