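import Cfsg.Agent.Lib.LocalThompsonRep
import Cfsg.Agent.Lib.CorePGroup
import Cfsg.Prelude.Def_DStar

/-!
# `D*(S)` and the `D*`-theorem
-/

set_option autoImplicit false
set_option linter.style.haveILetI false

namespace CfsgLib.DStar

open CfsgLib.Core CfsgLib.Stable
open scoped commutatorElement

variable {G : Type*} [Group G]

/-- The class two condition on `A` and `x`. -/
def ClassTwo (A : Subgroup G) (x : G) : Prop :=
  ⁅⁅A ⊔ Subgroup.zpowers x, A ⊔ Subgroup.zpowers x⁆, A ⊔ Subgroup.zpowers x⁆ = ⊥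

/-- The members of the family defining `D*(P)`, seen in the ambient group. -/
def IsMem (P A : Subgroup G) : Prop :=
  A ≤ P ∧ (∀ a ∈ A, ∀ b ∈ A, a * b = b * a) ∧ ∀ x ∈ P, ClassTwo A x → ∀ a ∈ A, a * x = x * a

theorem map_classTwo {X : Type*} [Group X] (f : G →* X) {A : Subgroup G} {x : G}
    (h : ClassTwo A x) : ClassTwo (A.map f) (f x) := by
  have h1 := congrArg (Subgroup.map f) h
  rwa [Subgroup.map_commutator, Subgroup.map_commutator, Subgroup.map_sup, MonoidHom.map_zpowers,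
    Subgroup.map_bot] at h1

theorem classTwo_of_map {X : Type*} [Group X] (f : G →* X) (hf : Function.Injective f)
    {A : Subgroup G} {x : G} (h : ClassTwo (A.map f) (f x)) : ClassTwo A x := by
  apply Subgroup.map_injective hf
  rw [Subgroup.map_commutator, Subgroup.map_commutator, Subgroup.map_sup, MonoidHom.map_zpowers,
    Subgroup.map_bot]
  exact h

theorem classTwo_mono {A B : Subgroup G} (hAB : A ≤ B) {x : G} (h : ClassTwo B x) : ClassTwo A x := by
  have hle : A ⊔ Subgroup.zpowers x ≤ B ⊔ Subgroup.zpowers x := sup_le_sup_right hAB _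
  exact le_bot_iff.1 ((Subgroup.commutator_mono (Subgroup.commutator_mono hle hle) hle).trans h.le)

theorem isMem_iff (P : Subgroup G) (A : Subgroup P) :
    A ∈ Cfsg.dStarFamily P ↔ IsMem P (A.map P.subtype) := by
  constructor
  · rintro ⟨hA, hx⟩
    refine ⟨Subgroup.map_subtype_le A, ?_, ?_⟩
    · rintro _ ⟨a, ha, rfl⟩ _ ⟨b, hb, rfl⟩
      exact congrArg Subtype.val (congrArg Subtype.val (hA.is_comm.comm ⟨a, ha⟩ ⟨b, hb⟩) : a * b = b * a)
    · rintro x hxP hc _ ⟨a, ha, rfl⟩
      exact congrArg Subtype.val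
        (hx ⟨x, hxP⟩ (classTwo_of_map P.subtype P.subtype_injective hc) a ha)
  · rintro ⟨-, hab, hx⟩
    refine ⟨⟨⟨fun a b => Subtype.ext (Subtype.ext (hab _ ⟨a, a.2, rfl⟩ _ ⟨b, b.2, rfl⟩))⟩⟩,
      fun x hc a ha => ?_⟩
    exact Subtype.ext (hx _ x.2 (map_classTwo P.subtype hc) _ ⟨a, ha, rfl⟩)

theorem dStarOf_eq (P : Subgroup G) : Cfsg.dStarOf P = sSup {A : Subgroup G | IsMem P A} := by
  refine le_antisymm ?_ (sSup_le fun A hA => ?_)
  · rw [Cfsg.dStarOf, Subgroup.map_le_iff_le_comap]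
    refine sSup_le fun A hA => ?_
    rw [← Subgroup.map_le_iff_le_comap]
    exact le_sSup (show IsMem P (A.map P.subtype) from (isMem_iff P A).1 hA)
  · have h : A.subgroupOf P ∈ Cfsg.dStarFamily P := by
      rw [isMem_iff, Subgroup.subgroupOf_map_subtype, inf_eq_left.2 hA.1]
      exact hA
    calc A = (A.subgroupOf P).map P.subtype := by
          rw [Subgroup.subgroupOf_map_subtype, inf_eq_left.2 hA.1]
      _ ≤ Cfsg.dStarOf P := Subgroup.map_mono (le_sSup h)

theorem dStarOf_le (P : Subgroup G) : Cfsg.dStarOf P ≤ P := Subgroup.map_subtype_le _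

theorem le_dStarOf {P A : Subgroup G} (h : IsMem P A) : A ≤ Cfsg.dStarOf P := by
  rw [dStarOf_eq]; exact le_sSup h

theorem isMem_of_le {P T A : Subgroup G} (h : IsMem P A) (hTP : T ≤ P) (hAT : A ≤ T) :
    IsMem T A :=
  ⟨hAT, h.2.1, fun x hx => h.2.2 x (hTP hx)⟩

theorem isMem_map {X : Type*} [Group X] (f : G →* X) (hf : Function.Injective f) {P A : Subgroup G}
    (h : IsMem P A) : IsMem (P.map f) (A.map f) := by
  refine ⟨Subgroup.map_mono h.1, ?_, ?_⟩
  · rintro _ ⟨a, ha, rfl⟩ _ ⟨b, hb, rfl⟩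
    rw [← map_mul, ← map_mul, h.2.1 a ha b hb]
  · rintro _ ⟨x, hx, rfl⟩ hc _ ⟨a, ha, rfl⟩
    rw [← map_mul, ← map_mul, h.2.2 x hx (classTwo_of_map f hf hc) a ha]

/-- A normal pair in a `p`-group has an element central modulo the smaller one. -/
theorem exists_central_mod [Finite G] {p : ℕ} [Fact p.Prime] {P N M : Subgroup G}
    (hP : IsPGroup p P) (hNM : N < M) (hMP : M ≤ P) (hN : P ≤ Subgroup.normalizer (N : Set G))
    (hM : P ≤ Subgroup.normalizer (M : Set G)) :
    ∃ x ∈ M, x ∉ N ∧ ∀ g ∈ P, g * x * g⁻¹ * x⁻¹ ∈ N := by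
  haveI : (N.subgroupOf P).Normal :=
    Subgroup.normal_subgroupOf_of_le_normalizer hN
  haveI : (M.subgroupOf P).Normal :=
    Subgroup.normal_subgroupOf_of_le_normalizer hM
  set f := QuotientGroup.mk' (N.subgroupOf P) with hf
  haveI : Group.IsNilpotent (↥P ⧸ N.subgroupOf P) :=
    (hP.to_quotient (N.subgroupOf P)).isNilpotent
  haveI : ((M.subgroupOf P).map f).Normal :=
    Subgroup.Normal.map inferInstance f (QuotientGroup.mk'_surjective _)
  have hne : (M.subgroupOf P).map f ≠ ⊥ := by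
    intro e
    obtain ⟨m, hmM, hmN⟩ := SetLike.exists_of_lt hNM
    have h1 : f ⟨m, hMP hmM⟩ ∈ (M.subgroupOf P).map f := ⟨⟨m, hMP hmM⟩, hmM, rfl⟩
    rw [e, Subgroup.mem_bot] at h1
    exact hmN ((QuotientGroup.eq_one_iff (⟨m, hMP hmM⟩ : P)).1 h1)
  obtain ⟨q, hq, hq1⟩ := (Subgroup.bot_or_exists_ne_one _).resolve_left
    (nilpotent_inf_center_ne_bot hne)
  obtain ⟨⟨x, hxM, rfl⟩, hqc⟩ := hq
  refine ⟨(x : G), hxM, fun h => hq1 ((QuotientGroup.eq_one_iff x).2 h), fun g hg => ?_⟩
  have h1 : f (⟨g, hg⟩ * x * ⟨g, hg⟩⁻¹ * x⁻¹) = 1 := by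
    rw [map_mul, map_mul, map_mul, Subgroup.mem_center_iff.1 hqc (f ⟨g, hg⟩), mul_assoc (f x),
      ← map_mul, mul_inv_cancel, map_one, mul_one, ← map_mul, mul_inv_cancel, map_one]
  exact ((QuotientGroup.eq_one_iff _).1 h1 : _)

/-- An abelian subgroup acting quadratically on the member is centralized by it. -/
theorem comm_of_quadratic {P A : Subgroup G} (h : IsMem P A) {x : G} (hx : x ∈ P)
    (hq : ∀ a ∈ A, ∀ b ∈ A, b * (x * a * x⁻¹ * a⁻¹) = (x * a * x⁻¹ * a⁻¹) * b)
    (hqx : ∀ a ∈ A, x * (x * a * x⁻¹ * a⁻¹) = (x * a * x⁻¹ * a⁻¹) * x) :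
    ∀ a ∈ A, a * x = x * a := by
  refine h.2.2 x hx ?_
  set L := A ⊔ Subgroup.zpowers x with hL
  have hLcl : L = Subgroup.closure ((A : Set G) ∪ {x}) := by
    rw [hL, Subgroup.closure_union, Subgroup.closure_eq, Subgroup.zpowers_eq_closure]
  set C := Subgroup.centralizer (L : Set G) with hC
  have hgenC : ∀ y ∈ ((A : Set G) ∪ {x}), ∀ z ∈ ((A : Set G) ∪ {x}), ⁅y, z⁆ ∈ C := by
    have hc : ∀ a ∈ A, x * a * x⁻¹ * a⁻¹ ∈ C := by
      intro a ha
      rw [hC, hLcl, Subgroup.centralizer_closure, Subgroup.mem_centralizer_iff]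
      rintro z (hz | hz)
      · exact hq a ha z hz
      · rw [Set.mem_singleton_iff.1 hz]
        exact hqx a ha
    rintro y (hy | hy) z (hz | hz)
    · rw [commutatorElement_def, h.2.1 y hy z hz, mul_inv_cancel_right, mul_inv_cancel]
      exact C.one_mem
    · rw [Set.mem_singleton_iff.1 hz, ← commutatorElement_inv, commutatorElement_def]
      exact C.inv_mem (hc y hy)
    · rw [Set.mem_singleton_iff.1 hy, commutatorElement_def]
      exact hc z hz
    · rw [Set.mem_singleton_iff.1 hy, Set.mem_singleton_iff.1 hz, commutatorElement_self]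
      exact C.one_mem
  have hconj : ∀ u ∈ L, ∀ c ∈ C, u * c * u⁻¹ = c := fun u hu c hc => by
    rw [Subgroup.mem_centralizer_iff.1 hc u hu, mul_inv_cancel_right]
  have hgen : ∀ y ∈ ((A : Set G) ∪ {x}), ∀ z ∈ L, ⁅y, z⁆ ∈ C := by
    intro y hy z hz
    have hyL : y ∈ L := hLcl ▸ Subgroup.subset_closure hy
    rw [hLcl] at hz
    induction hz using Subgroup.closure_induction with
    | mem z hz => exact hgenC y hy z hz
    | one => rw [commutatorElement_one_right]; exact C.one_mem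
    | mul a b ha hb iha ihb =>
      rw [commutatorElement_def, show y * (a * b) * y⁻¹ * (a * b)⁻¹ =
        (y * a * y⁻¹ * a⁻¹) * (a * (y * b * y⁻¹ * b⁻¹) * a⁻¹) by group,
        hconj a (hLcl ▸ ha) _ (by rwa [← commutatorElement_def])]
      exact C.mul_mem (by rwa [← commutatorElement_def]) (by rwa [← commutatorElement_def])
    | inv a ha iha =>
      rw [commutatorElement_def, show y * a⁻¹ * y⁻¹ * a⁻¹⁻¹ =
        a⁻¹ * (y * a * y⁻¹ * a⁻¹)⁻¹ * a⁻¹⁻¹ by group,
        hconj _ (hLcl ▸ inv_mem ha) _ (C.inv_mem (by rwa [← commutatorElement_def]))]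
      exact C.inv_mem (by rwa [← commutatorElement_def])
  have hall : ⁅L, L⁆ ≤ C := by
    rw [Subgroup.commutator_le]
    intro y hy z hz
    revert z
    rw [hLcl] at hy
    induction hy using Subgroup.closure_induction with
    | mem y hy => exact fun z hz => hgen y hy z hz
    | one => exact fun z _ => by rw [commutatorElement_one_left]; exact C.one_mem
    | mul a b ha hb iha ihb =>
      intro z hz
      rw [commutatorElement_def, show a * b * z * (a * b)⁻¹ * z⁻¹ =
        (a * (b * z * b⁻¹ * z⁻¹) * a⁻¹) * (a * z * a⁻¹ * z⁻¹) by group,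
        hconj a (hLcl ▸ ha) _ (by rw [← commutatorElement_def]; exact ihb z hz)]
      exact C.mul_mem (by rw [← commutatorElement_def]; exact ihb z hz)
        (by rw [← commutatorElement_def]; exact iha z hz)
    | inv a ha iha =>
      intro z hz
      rw [commutatorElement_def, show a⁻¹ * z * a⁻¹⁻¹ * z⁻¹ =
        a⁻¹ * (a * z * a⁻¹ * z⁻¹)⁻¹ * a⁻¹⁻¹ by group,
        hconj _ (hLcl ▸ inv_mem ha) _ (C.inv_mem (by rw [← commutatorElement_def]; exact iha z hz))]
      exact C.inv_mem (by rw [← commutatorElement_def]; exact iha z hz)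
  show ⁅⁅L, L⁆, L⁆ = ⊥
  rw [Subgroup.commutator_eq_bot_iff_le_centralizer]
  exact hall

variable [Finite G] {p : ℕ} [hp : Fact p.Prime]

/-- A member centralizes every abelian subgroup that it normalizes. -/
theorem centralizes_normalized {P A B : Subgroup G} (hP : IsPGroup p P) (h : IsMem P A)
    (hBP : B ≤ P) (hB : ∀ a ∈ B, ∀ b ∈ B, a * b = b * a)
    (hAB : A ≤ Subgroup.normalizer (B : Set G)) : B ≤ Subgroup.centralizer (A : Set G) := by
  by_contra hcon
  set C := B ⊓ Subgroup.centralizer (A : Set G) with hC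
  have hlt : C < B := lt_of_le_of_ne inf_le_left fun e => hcon (e ▸ inf_le_right)
  have hABN : A ⊔ B ≤ Subgroup.normalizer (C : Set G) := by
    refine sup_le ?_ ?_
    · intro a ha
      refine mem_normalizer_of_map_eq fun c hc => ?_
      have h1 : a * c * a⁻¹ = c := by
        rw [Subgroup.mem_centralizer_iff.1 hc.2 a ha, mul_inv_cancel_right]
      rw [h1]
      exact hc
    · intro b hb
      refine mem_normalizer_of_map_eq fun c hc => ?_
      rw [hB b hb c hc.1, mul_inv_cancel_right]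
      exact hc
  obtain ⟨b, hb, hbC, hbc⟩ := exists_central_mod (p := p) (P := A ⊔ B)
    (hP.to_le (sup_le h.1 hBP)) hlt le_sup_right hABN (sup_le hAB Subgroup.le_normalizer)
  refine hbC ⟨hb, ?_⟩
  show b ∈ Subgroup.centralizer (A : Set G)
  rw [Subgroup.mem_centralizer_iff]
  have key : ∀ a ∈ A, b * a * b⁻¹ * a⁻¹ ∈ C := by
    intro a ha
    have := C.inv_mem (hbc a (Subgroup.mem_sup_left ha))
    rwa [show (a * b * a⁻¹ * b⁻¹)⁻¹ = b * a * b⁻¹ * a⁻¹ by group] at this
  refine comm_of_quadratic h (hBP hb) (fun a ha a' ha' => ?_) (fun a ha => hB _ hb _ (key a ha).1)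
  exact Subgroup.mem_centralizer_iff.1 (key a ha).2 a' ha'

/-- A maximal abelian subgroup normalized by `P` is self-centralizing in `P`. -/
theorem centralizer_maximal {P Z : Subgroup G} (hP : IsPGroup p P) (hZP : Z ≤ P)
    (hZn : P ≤ Subgroup.normalizer (Z : Set G)) (hZ : ∀ a ∈ Z, ∀ b ∈ Z, a * b = b * a)
    (hmax : ∀ B : Subgroup G, B ≤ P → P ≤ Subgroup.normalizer (B : Set G) →
      (∀ a ∈ B, ∀ b ∈ B, a * b = b * a) → Z ≤ B → B = Z) :
    P ⊓ Subgroup.centralizer (Z : Set G) ≤ Z := by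
  by_contra hcon
  set C := P ⊓ Subgroup.centralizer (Z : Set G) with hC
  have hlt : Z < C := lt_of_le_of_ne (le_inf hZP fun z hz => Subgroup.mem_centralizer_iff.2
    fun y hy => hZ y hy z hz) fun e => hcon e.ge
  have hCn : P ≤ Subgroup.normalizer (C : Set G) := by
    intro g hg
    refine mem_normalizer_of_map_eq fun c hc => ⟨P.mul_mem (P.mul_mem hg hc.1) (P.inv_mem hg), ?_⟩
    show g * c * g⁻¹ ∈ Subgroup.centralizer (Z : Set G)
    rw [Subgroup.mem_centralizer_iff]
    intro z hz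
    have h1 : g⁻¹ * z * g ∈ Z := by
      have := (Subgroup.mem_normalizer_iff.1 (hZn (P.inv_mem hg)) z).1 hz
      rwa [inv_inv] at this
    have h2 := Subgroup.mem_centralizer_iff.1 hc.2 _ h1
    calc z * (g * c * g⁻¹) = g * ((g⁻¹ * z * g) * c) * g⁻¹ := by group
      _ = g * (c * (g⁻¹ * z * g)) * g⁻¹ := by rw [h2]
      _ = _ := by group
  obtain ⟨x, hx, hxZ, hxc⟩ := exists_central_mod hP hlt inf_le_left hZn hCn
  have hle : Z ≤ Z ⊔ Subgroup.zpowers x := le_sup_left
  refine hxZ ?_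
  have hxmem : x ∈ Z ⊔ Subgroup.zpowers x := Subgroup.mem_sup_right (Subgroup.mem_zpowers x)
  have hcl : Z ⊔ Subgroup.zpowers x = Subgroup.closure ((Z : Set G) ∪ {x}) := by
    rw [Subgroup.closure_union, Subgroup.closure_eq, Subgroup.zpowers_eq_closure]
  rw [← hmax (Z ⊔ Subgroup.zpowers x) (sup_le hZP (Subgroup.zpowers_le.2 hx.1)) ?_ ?_ hle]
  · exact hxmem
  · intro g hg
    refine mem_normalizer_of_map_eq fun y hy => ?_
    have : (Z ⊔ Subgroup.zpowers x).map (MulAut.conj g).toMonoidHom ≤ Z ⊔ Subgroup.zpowers x := by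
      rw [Subgroup.map_sup, MonoidHom.map_zpowers]
      refine sup_le ?_ (Subgroup.zpowers_le.2 ?_)
      · rintro _ ⟨z, hz, rfl⟩
        exact hle ((Subgroup.mem_normalizer_iff.1 (hZn hg) z).1 hz)
      · have h1 := Subgroup.mul_mem _ (hle (hxc g hg)) hxmem
        rwa [inv_mul_cancel_right] at h1
    exact this ⟨y, hy, rfl⟩
  · rw [hcl]
    have hcomm : ∀ a ∈ ((Z : Set G) ∪ {x}), ∀ b ∈ ((Z : Set G) ∪ {x}), a * b = b * a := by
      rintro a (ha | ha) b (hb | hb)
      · exact hZ a ha b hb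
      · rw [Set.mem_singleton_iff.1 hb]; exact Subgroup.mem_centralizer_iff.1 hx.2 a ha
      · rw [Set.mem_singleton_iff.1 ha]; exact (Subgroup.mem_centralizer_iff.1 hx.2 b hb).symm
      · rw [Set.mem_singleton_iff.1 ha, Set.mem_singleton_iff.1 hb]
    intro a ha b hb
    exact congrArg Subtype.val
      ((Subgroup.isMulCommutative_closure hcomm).is_comm.comm ⟨a, ha⟩ ⟨b, hb⟩)

/-- `D*(P)` lies in every maximal normal abelian subgroup. -/
theorem dStarOf_le_maximal {P Z : Subgroup G} (hP : IsPGroup p P) (hZP : Z ≤ P)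
    (hZn : P ≤ Subgroup.normalizer (Z : Set G)) (hZ : ∀ a ∈ Z, ∀ b ∈ Z, a * b = b * a)
    (hmax : ∀ B : Subgroup G, B ≤ P → P ≤ Subgroup.normalizer (B : Set G) →
      (∀ a ∈ B, ∀ b ∈ B, a * b = b * a) → Z ≤ B → B = Z) :
    Cfsg.dStarOf P ≤ Z := by
  rw [dStarOf_eq]
  refine sSup_le fun A hA => ?_
  refine le_trans (le_inf hA.1 ?_) (centralizer_maximal hP hZP hZn hZ hmax)
  have h1 := centralizes_normalized hP hA hZP hZ (hA.1.trans hZn)
  intro a ha
  rw [Subgroup.mem_centralizer_iff]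
  exact fun z hz => (Subgroup.mem_centralizer_iff.1 (h1 hz) a ha).symm

theorem exists_maximal_normal_abelian (P : Subgroup G) :
    ∃ Z : Subgroup G, Z ≤ P ∧ P ≤ Subgroup.normalizer (Z : Set G) ∧
      (∀ a ∈ Z, ∀ b ∈ Z, a * b = b * a) ∧
      ∀ B : Subgroup G, B ≤ P → P ≤ Subgroup.normalizer (B : Set G) →
        (∀ a ∈ B, ∀ b ∈ B, a * b = b * a) → Z ≤ B → B = Z := by
  obtain ⟨Z, hZ, hmax⟩ := Set.exists_max_image {B : Subgroup G | B ≤ P ∧
      P ≤ Subgroup.normalizer (B : Set G) ∧ ∀ a ∈ B, ∀ b ∈ B, a * b = b * a}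
    (fun B => Nat.card B) (Set.toFinite _) ⟨⊥, bot_le, by
      intro g _
      rw [Subgroup.normalizer_eq_top]; exact Subgroup.mem_top g, by
      intro a ha b hb
      rw [Subgroup.mem_bot] at ha hb
      rw [ha, hb]⟩
  exact ⟨Z, hZ.1, hZ.2.1, hZ.2.2, fun B h1 h2 h3 h4 =>
    (Subgroup.eq_of_le_of_card_ge h4 (hmax B ⟨h1, h2, h3⟩)).symm⟩

/-- `D*(P)` is abelian and is itself a member. -/
theorem isMem_dStarOf {P : Subgroup G} (hP : IsPGroup p P) : IsMem P (Cfsg.dStarOf P) := by
  obtain ⟨Z, h1, h2, h3, h4⟩ := exists_maximal_normal_abelian P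
  have hle := dStarOf_le_maximal hP h1 h2 h3 h4
  refine ⟨dStarOf_le P, fun a ha b hb => h3 a (hle ha) b (hle hb), fun x hx hc a ha => ?_⟩
  have hle2 : Cfsg.dStarOf P ≤ Subgroup.centralizer {x} := by
    rw [dStarOf_eq]
    refine sSup_le fun A hA b hb => Subgroup.mem_centralizer_singleton_iff.2 ?_
    exact hA.2.2 x hx (classTwo_mono (le_dStarOf hA) hc) b hb
  exact Subgroup.mem_centralizer_singleton_iff.1 (hle2 ha)

theorem normalizer_le_dStarOf (P : Subgroup G) :
    Subgroup.normalizer (P : Set G) ≤ Subgroup.normalizer (Cfsg.dStarOf P : Set G) := by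
  intro n hn
  refine mem_normalizer_of_map_eq fun y hy => ?_
  have h : (Cfsg.dStarOf P).map (MulAut.conj n).toMonoidHom ≤ Cfsg.dStarOf P := by
    rw [Subgroup.map_le_iff_le_comap, dStarOf_eq P]
    refine sSup_le fun A hA => ?_
    rw [← Subgroup.map_le_iff_le_comap, ← dStarOf_eq]
    have hP : P.map (MulAut.conj n).toMonoidHom = P :=
      Subgroup.eq_of_le_of_card_ge (map_conj_le_of_normalizer hn le_rfl) (card_conj _ n).ge
    have := isMem_map (MulAut.conj n).toMonoidHom (MulAut.conj n).injective hA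
    rw [hP] at this
    exact le_dStarOf this
  exact h ⟨y, hy, rfl⟩

/-- `D*(S)` centralizes every abelian subgroup of largest order. -/
theorem dStarOf_le_isMax (hG : IsPGroup p G) {A : Subgroup G} (hA : IsMax 0 ⊤ A) :
    Cfsg.dStarOf (⊤ : Subgroup G) ≤ A := by
  have htop : IsPGroup p (⊤ : Subgroup G) := hG.to_subgroup ⊤
  set D := Cfsg.dStarOf (⊤ : Subgroup G) with hD
  have hDmem := isMem_dStarOf htop
  rw [← hD] at hDmem
  haveI hDn : D.Normal := by
    rw [← Subgroup.normalizer_eq_top_iff, eq_top_iff]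
    exact le_trans (by rw [Subgroup.normalizer_eq_top]) (normalizer_le_dStarOf ⊤)
  have key : ∀ n : ℕ, ∀ A : Subgroup G, IsMax 0 ⊤ A → Nat.card D ≤ Nat.card ↥(A ⊓ D) + n → D ≤ A := by
    intro n
    induction n using Nat.strong_induction_on with
    | h n ih =>
    intro A hA hn
    by_cases hDA : D ≤ Subgroup.normalizer (A : Set G)
    · intro d hd
      have h1 := centralizes_normalized htop hDmem hA.1 hA.2.1.1 hDA
      exact mem_of_isMax hA (Subgroup.mem_top d) (pow_zero d)
        fun a ha => (Subgroup.mem_centralizer_iff.1 (h1 ha) d hd).symm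
    · exfalso
      obtain ⟨B, hB, hBN, hlt⟩ :=
        CfsgLib.Local.Rep.thompson_replacement htop hA le_top hDmem.2.1 hDA
      have h2 : Nat.card ↥(B ⊓ D) ≤ Nat.card D := Subgroup.card_le_of_le inf_le_right
      exact hDA ((ih (n - 1) (by omega) B hB (by omega)).trans hBN)
  exact key (Nat.card D) A hA (Nat.le_add_left _ _)

/-- The `D*`-theorem. -/
theorem dStarOf_normal (hc : Subgroup.centralizer (Cfsg.pCore p G : Set G) ≤ Cfsg.pCore p G)
    (hst : ∀ (P : Subgroup G) [P.Normal], IsPGroup p P → Cfsg.IsPStableOn p P) (S : Sylow p G) :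
    (Cfsg.dStarOf (S : Subgroup G)).Normal := by
  set Q := Cfsg.pCore p G with hQ
  set D := Cfsg.dStarOf (S : Subgroup G) with hD
  haveI hQn : Q.Normal := normal_pCore p
  have hQp : IsPGroup p Q := isPGroup_pCore p
  have hDmem : IsMem (S : Subgroup G) D := isMem_dStarOf S.2
  have hSN : (S : Subgroup G) ≤ Subgroup.normalizer (D : Set G) :=
    Subgroup.le_normalizer.trans (normalizer_le_dStarOf _)
  have hQS : Q ≤ (S : Subgroup G) := pCore_le_sylow S
  -- quadratic elements act inside the core of the quotient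
  have hquad : ∀ (W : Subgroup G) [W.Normal], IsPGroup p W → ∀ x : G,
      ⁅⁅W, Subgroup.zpowers x⁆, Subgroup.zpowers x⁆ = ⊥ →
      x ∈ (Cfsg.pCore p (G ⧸ Subgroup.centralizer (W : Set G))).comap (QuotientGroup.mk' _) :=
    fun W _ hW x hx => hst W hW x hx
  have hcoreN : ∀ (W : Subgroup G) [W.Normal],
      ((Cfsg.pCore p (G ⧸ Subgroup.centralizer (W : Set G))).comap
        (QuotientGroup.mk' (Subgroup.centralizer (W : Set G)))).Normal :=
    fun W _ => Subgroup.Normal.comap (normal_pCore p) _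
  have hDQ : D ≤ Q := by
    intro d hd
    have hq : ⁅⁅Q, Subgroup.zpowers d⁆, Subgroup.zpowers d⁆ = ⊥ := by
      have h1 : ⁅Q, Subgroup.zpowers d⁆ ≤ D := by
        rw [Subgroup.commutator_le]
        intro q hq z hz
        have hz' : z ∈ D := Subgroup.zpowers_le.2 hd hz
        rw [commutatorElement_def]
        exact D.mul_mem ((Subgroup.mem_normalizer_iff.1 (hSN (hQS hq)) z).1 hz') (D.inv_mem hz')
      rw [Subgroup.commutator_eq_bot_iff_le_centralizer]
      refine h1.trans fun y hy => Subgroup.mem_centralizer_iff.2 fun z hz =>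
        hDmem.2.1 z (Subgroup.zpowers_le.2 hd hz) y hy
    have h2 := hquad Q hQp d hq
    haveI := hcoreN Q
    refine le_pCore inferInstance ((isPGroup_pCore (G := G ⧸ Subgroup.centralizer (Q : Set G)) p).comap_of_ker_isPGroup _ ?_) h2
    rw [QuotientGroup.ker_mk']
    exact hQp.to_le hc
  set V := Subgroup.normalClosure (D : Set G) with hV
  haveI hVn : V.Normal := Subgroup.normalClosure_normal
  have hVQ : V ≤ Q := Subgroup.normalClosure_le_normal hDQ
  set C := Subgroup.centralizer (V : Set G) with hC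
  set K := (Cfsg.pCore p (G ⧸ C)).comap (QuotientGroup.mk' C) with hK
  haveI hKn : K.Normal := hcoreN V
  have hQK : Q ≤ K := by
    rw [← Subgroup.map_le_iff_le_comap]
    exact le_pCore (Subgroup.Normal.map hQn _ (QuotientGroup.mk'_surjective _)) (hQp.map _)
  obtain ⟨T, hTeq⟩ : ∃ T, T = (S : Subgroup G) ⊓ K := ⟨_, rfl⟩
  have hTS : T ≤ (S : Subgroup G) := hTeq.le.trans inf_le_left
  have hVT : V ≤ T := hTeq ▸ le_inf (hVQ.trans hQS) (hVQ.trans hQK)
  have hDT : D ≤ T := (Subgroup.le_normalClosure).trans hVT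
  have hTp : IsPGroup p T := S.2.to_le hTS
  -- the Sylow subgroup of `K`
  obtain ⟨TK, hTK⟩ : ∃ TK : Sylow p K, (TK : Subgroup K).map K.subtype = T := by
    have hTKp : IsPGroup p ((S : Subgroup G).subgroupOf K) :=
      S.2.comap_of_injective K.subtype K.subtype_injective
    have hidx : ¬ p ∣ ((S : Subgroup G).subgroupOf K).index := by
      have h := not_dvd_relIndex S K
      rwa [Subgroup.inf_relIndex_right] at h
    refine ⟨hTKp.toSylow hidx, ?_⟩
    show ((S : Subgroup G).subgroupOf K).map K.subtype = T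
    rw [Subgroup.subgroupOf_map_subtype, hTeq]
  have hfrat : Subgroup.normalizer ((TK : Subgroup K).map K.subtype : Set G) ⊔ K = ⊤ :=
    Sylow.normalizer_sup_eq_top TK
  have hKCT : K ≤ C ⊔ T := by
    have hCK : C ≤ K := fun c hc' => by
      rw [hK, Subgroup.mem_comap, QuotientGroup.mk'_apply, (QuotientGroup.eq_one_iff c).2 hc']
      exact one_mem _
    set f := QuotientGroup.mk' C with hf
    have hfs : Function.Surjective (f.subgroupComap (Cfsg.pCore p (G ⧸ C))) :=
      f.subgroupComap_surjective_of_surjective _ (QuotientGroup.mk'_surjective C)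
    have htop : (TK : Subgroup K).map (f.subgroupComap (Cfsg.pCore p (G ⧸ C))) = ⊤ := by
      rw [← Sylow.coe_mapSurjective hfs TK]
      exact ((TK.mapSurjective hfs).3
        ((isPGroup_pCore (G := G ⧸ C) p).to_subgroup ⊤) le_top).symm
    intro k hk
    have h1 : f.subgroupComap (Cfsg.pCore p (G ⧸ C)) ⟨k, hk⟩ ∈
        (TK : Subgroup K).map (f.subgroupComap (Cfsg.pCore p (G ⧸ C))) := by
      rw [htop]; exact Subgroup.mem_top _
    obtain ⟨t, ht, hte⟩ := h1
    have h2 : (t : G)⁻¹ * k ∈ C := by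
      rw [← QuotientGroup.eq]
      exact congrArg Subtype.val hte
    have h3 : (t : G) ∈ T := hTK ▸ ⟨t, ht, rfl⟩
    rw [show k = (t : G) * ((t : G)⁻¹ * k) by group]
    exact Subgroup.mul_mem _ (Subgroup.mem_sup_right h3) (Subgroup.mem_sup_left h2)
  have hgen : ∀ g : G, ∃ n ∈ Subgroup.normalizer (T : Set G), ∀ d ∈ D,
      g * d * g⁻¹ = n * d * n⁻¹ := by
    intro g
    rw [hTK] at hfrat
    have hle : K ≤ C ⊔ Subgroup.normalizer (T : Set G) :=
      hKCT.trans (sup_le_sup_left Subgroup.le_normalizer _)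
    have htop : C ⊔ Subgroup.normalizer (T : Set G) = ⊤ :=
      eq_top_iff.2 (hfrat.ge.trans (sup_le le_sup_right hle))
    have hg : g ∈ Subgroup.normalizer (T : Set G) ⊔ C := by
      rw [sup_comm, htop]; exact Subgroup.mem_top g
    rw [Subgroup.mem_sup_of_normal_right] at hg
    obtain ⟨n, hn, c, hc', rfl⟩ := hg
    refine ⟨n, hn, fun d hd => ?_⟩
    have h1 := Subgroup.mem_centralizer_iff.1 hc' d (Subgroup.le_normalClosure hd)
    calc n * c * d * (n * c)⁻¹ = n * (c * d) * c⁻¹ * n⁻¹ := by group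
      _ = n * (d * c) * c⁻¹ * n⁻¹ := by rw [h1]
      _ = _ := by group
  have hVD : V ≤ Cfsg.dStarOf T := by
    rw [hV, Subgroup.normalClosure, Subgroup.closure_le]
    intro y hy
    rw [Group.mem_conjugatesOfSet_iff] at hy
    obtain ⟨d, hd, hconj⟩ := hy
    obtain ⟨g, rfl⟩ := isConj_iff.1 hconj
    obtain ⟨n, hn, hnd⟩ := hgen g
    rw [hnd d hd]
    exact (Subgroup.mem_normalizer_iff.1 (normalizer_le_dStarOf T hn) d).1
      (le_dStarOf (isMem_of_le hDmem hTS hDT) hd)
  have hTmem := isMem_dStarOf hTp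
  have hVmem : IsMem (S : Subgroup G) V := by
    refine ⟨hVT.trans hTS, fun a ha b hb => hTmem.2.1 a (hVD ha) b (hVD hb), fun x hx hc' => ?_⟩
    have hxK : x ∈ K := hquad V (hQp.to_le hVQ) x
      (le_bot_iff.1 ((Subgroup.commutator_mono (Subgroup.commutator_mono le_sup_left le_sup_right)
        le_sup_right).trans (le_of_eq hc')))
    have hxT : x ∈ T := hTeq ▸ ⟨hx, hxK⟩
    intro a ha
    -- `V` is generated by members of the family of `T`
    have hle : V ≤ Subgroup.centralizer {x} := by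
      rw [hV, Subgroup.normalClosure, Subgroup.closure_le]
      intro y hy
      rw [SetLike.mem_coe, Subgroup.mem_centralizer_singleton_iff]
      rw [Group.mem_conjugatesOfSet_iff] at hy
      obtain ⟨d, hd, hconj⟩ := hy
      obtain ⟨g, rfl⟩ := isConj_iff.1 hconj
      obtain ⟨n, hn, hnd⟩ := hgen g
      rw [hnd d hd]
      have hTn : T.map (MulAut.conj n).toMonoidHom = T :=
        Subgroup.eq_of_le_of_card_ge (map_conj_le_of_normalizer hn le_rfl) (card_conj _ n).ge
      have hm := isMem_map (MulAut.conj n).toMonoidHom (MulAut.conj n).injective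
        (isMem_of_le hDmem hTS hDT)
      rw [hTn] at hm
      refine hm.2.2 x hxT (classTwo_mono ?_ hc') _ ⟨d, hd, rfl⟩
      rintro _ ⟨d', hd', rfl⟩
      exact hVn.conj_mem _ (Subgroup.le_normalClosure hd') n
    exact Subgroup.mem_centralizer_singleton_iff.1 (hle ha)
  have hVeq : V = D := le_antisymm (le_dStarOf hVmem) Subgroup.le_normalClosure
  exact hVeq ▸ hVn

end CfsgLib.DStar
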