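import Cfsg.Agent.Lib.LocalSylowLink

/-!
# Regularity for normalizer functors
-/

set_option autoImplicit false

namespace CfsgLib.Local.Link

open Subgroup
open scoped Pointwise

variable {G : Type*} [Group G] [Finite G] {p : ℕ} [hp : Fact p.Prime]
variable {f : Subgroup G → Set (Subgroup G)}

/-- The family of normalisers in `G` attached to the Sylow subgroups of `G`. -/
def topFamily (p : ℕ) (f : Subgroup G → Set (Subgroup G)) : Set (Subgroup G) :=
  {X | ∃ P : Sylow p G, ∃ F ∈ f (P : Subgroup G), X = normalizer (F : Set G)}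

theorem functorFamily_top (f : Subgroup G → Set (Subgroup G)) :
    Cfsg.functorFamily p f ⊤ = topFamily p f := by
  ext X
  constructor
  · rintro ⟨P, F, hF, rfl⟩
    refine ⟨Sylow.ofCard ((P : Subgroup (⊤ : Subgroup G)).map (Subgroup.subtype ⊤)) ?_, F, hF, top_inf_eq _⟩
    rw [card_map_of_injective (Subgroup.subtype_injective ⊤), P.card_eq_multiplicity, card_top]
  · rintro ⟨P, F, hF, rfl⟩
    refine ⟨Sylow.ofCard ((P : Subgroup G).subgroupOf ⊤) ?_, F, ?_, (top_inf_eq _).symm⟩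
    · rw [Nat.card_congr (subgroupOfEquivOfLe le_top).toEquiv, P.card_eq_multiplicity, card_top]
    · convert hF using 2
      exact map_subgroupOf_eq_of_le le_top

theorem isNormalSet_topFamily (hf : Cfsg.IsNormalizerFunctor p f) :
    Cfsg.IsNormalSet (topFamily p f) := by
  rintro _ ⟨P, F, hF, rfl⟩ g
  refine ⟨g⁻¹ • P, K g⁻¹ F, ?_, by rw [conjRight_eq, K_normalizer]⟩
  rw [coe_smul, show f (K g⁻¹ (P : Subgroup G)) = _ from (hf _ P.2).2 g⁻¹]
  exact ⟨F, hF, rfl⟩

/-- Information carried by one link inside a regular subgroup. -/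
theorem step_down (hf : Cfsg.IsNormalizerFunctor p f) {M : Subgroup G} {D : Subgroup M}
    {a b : Sylow p M}
    (h : Step p ((fun X : Subgroup G => X.subgroupOf M) '' Cfsg.functorFamily p f M) D a b) :
    ∃ (P : Sylow p M) (F : Subgroup G) (x : G), F ∈ f ((P : Subgroup M).map M.subtype) ∧
      x ∈ normalizer (F : Set G) ∧ x ∈ M ∧
      (b : Subgroup M).map M.subtype = K x ((a : Subgroup M).map M.subtype) ∧
      (a : Subgroup M).map M.subtype ≤ normalizer (F : Set G) ∧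
      (b : Subgroup M).map M.subtype ≤ normalizer (F : Set G) ∧
      D.map M.subtype ≤ (b : Subgroup M).map M.subtype := by
  obtain ⟨X, x, ⟨X₀, ⟨P, F, hF, rfl⟩, rfl⟩, ha, hb, hx, hbx, hD⟩ := h
  have hPX : (P : Subgroup M) ≤ (M ⊓ normalizer (F : Set G)).subgroupOf M := by
    intro y hy
    refine ⟨y.2, ((hf _ (P.2.map _)).1 F hF).2 (le_normalizer ⟨y, hy, rfl⟩)⟩
  refine ⟨P, F, x, hF, hx.2, x.2, ?_, ?_, ?_, map_mono (hD.trans inf_le_left)⟩
  · rw [hbx, coe_smul]
    ext z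
    simp only [mem_map, mem_K, K]
    constructor
    · rintro ⟨_, ⟨y, hy, rfl⟩, rfl⟩
      exact ⟨(y : G), ⟨y, hy, rfl⟩, by simp⟩
    · rintro ⟨_, ⟨y, hy, rfl⟩, rfl⟩
      exact ⟨_, ⟨y, hy, rfl⟩, by simp⟩
  · rintro _ ⟨y, hy, rfl⟩
    exact (le_of_meets hPX ha hy).2
  · rintro _ ⟨y, hy, rfl⟩
    exact (le_of_meets hPX hb hy).2

/-- Sylow subgroups of a subgroup containing one of `G`. -/
noncomputable def upSylow {M : Subgroup G} {S : Sylow p G} (hS : (S : Subgroup G) ≤ M)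
    (a : Sylow p M) : Sylow p G :=
  Sylow.ofCard ((a : Subgroup M).map M.subtype) (by
    rw [card_map_of_injective M.subtype_injective, ← S.card_eq_multiplicity]
    refine le_antisymm ?_ ?_
    · obtain ⟨T, hT⟩ := (a.2.map M.subtype).exists_le_sylow
      have := card_le_of_le hT
      rwa [card_map_of_injective M.subtype_injective, T.card_eq_multiplicity,
        ← S.card_eq_multiplicity] at this
    · rw [a.card_eq_multiplicity]
      exact card_le_pow_of_le S.2 hS)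

theorem coe_upSylow {M : Subgroup G} {S : Sylow p G} (hS : (S : Subgroup G) ≤ M) (a : Sylow p M) :
    (upSylow hS a : Subgroup G) = (a : Subgroup M).map M.subtype := rfl

/-- Linking inside a regular subgroup containing a Sylow subgroup. -/
theorem linked_of_regular (hf : Cfsg.IsNormalizerFunctor p f) {M : Subgroup G} (S T : Sylow p G)
    (hS : (S : Subgroup G) ≤ M) (hT : (T : Subgroup G) ≤ M) (hr : Cfsg.IsFunctorRegular p f M)
    {D : Subgroup G} (hD : D ≠ ⊥) (hDS : D ≤ (S : Subgroup G)) (hDT : D ≤ (T : Subgroup G)) :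
    Linked p (topFamily p f) D S T := by
  have hDM : D ≤ M := hDS.trans hS
  have h := linked_of_controls hr (D := D.subgroupOf M) (by
      intro h
      exact hD (by rw [← map_subgroupOf_eq_of_le hDM, h, Subgroup.map_bot]))
    (S.subtype hS) (T.subtype hT) (fun y hy => hDS hy) (fun y hy => hDT hy)
  have e : ∀ (U : Sylow p G) (hU : (U : Subgroup G) ≤ M), upSylow hS (U.subtype hU) = U :=
    fun U hU => Sylow.ext (by rw [coe_upSylow, Sylow.coe_subtype, map_subgroupOf_eq_of_le hU])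
  rw [← e S hS, ← e T hT]
  refine Relation.ReflTransGen.lift (p := Step p (topFamily p f) D) (upSylow hS) ?_ _ _ h
  intro a b hab
  show Step p _ _ _ _
  obtain ⟨P, F, x, hF, hx, -, hb, ha', hb', hD'⟩ := step_down hf hab
  refine ⟨normalizer (F : Set G), x, ⟨upSylow hS P, F, hF, rfl⟩, meets_of_le ha', meets_of_le hb',
    hx, Sylow.ext (by rw [coe_smul, coe_upSylow, coe_upSylow, hb]), le_inf ?_ ?_⟩
  · rwa [map_subgroupOf_eq_of_le hDM] at hD'
  · exact (map_subgroupOf_eq_of_le hDM ▸ hD').trans hb'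

theorem exists_conj_le_of_le {H : Subgroup G} {S : Sylow p G} (hS : (S : Subgroup G) ≤ H)
    {Q : Subgroup G} (hQ : IsPGroup p Q) (hQH : Q ≤ H) :
    ∃ k ∈ H, Q ≤ ((k • S : Sylow p G) : Subgroup G) := by
  obtain ⟨P, hP⟩ := (hQ.of_equiv (subgroupOfEquivOfLe hQH).symm).exists_le_sylow
  obtain ⟨k, rfl⟩ := MulAction.exists_smul_eq H (S.subtype hS) P
  refine ⟨k, k.2, fun y hy => ?_⟩
  have h := hP (show (⟨y, hQH hy⟩ : H) ∈ Q.subgroupOf H from hy)
  rw [coe_smul, Sylow.coe_subtype, mem_K] at h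
  rw [coe_smul, mem_K]
  exact h

theorem linked_of_factorisation (hf : Cfsg.IsNormalizerFunctor p f) (S₀ : Sylow p G)
    (G₁ G₂ : Subgroup G) (h₁ : (S₀ : Subgroup G) ≤ G₁) (h₂ : (S₀ : Subgroup G) ≤ G₂)
    (hprod : ∀ g : G, ∃ g₁ ∈ G₁, ∃ g₂ ∈ G₂, g = g₁ * g₂)
    (hr₁ : Cfsg.IsFunctorRegular p f G₁) (hr₂ : Cfsg.IsFunctorRegular p f G₂)
    {D : Subgroup G} (hD : D ≠ ⊥) (S T : Sylow p G) (hDS : D ≤ (S : Subgroup G))
    (hDT : D ≤ (T : Subgroup G)) : Linked p (topFamily p f) D S T := by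
  obtain ⟨c, rfl⟩ := MulAction.exists_smul_eq G S₀ S
  obtain ⟨g, rfl⟩ := MulAction.exists_smul_eq G (c • S₀) T
  rw [coe_smul] at hDS
  set E := K c⁻¹ D with hE
  have hES : E ≤ (S₀ : Subgroup G) := by
    have := K_mono c⁻¹ hDS
    rwa [K_inv_cancel] at this
  have hcE : K c E = D := K_cancel_inv c D
  have hE0 : E ≠ ⊥ := fun h => hD (by rw [← hcE, h]; exact Subgroup.map_bot _)
  set u := c⁻¹ * g * c with hu
  have hEu : E ≤ K u (S₀ : Subgroup G) := by
    rw [coe_smul, coe_smul] at hDT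
    have := K_mono c⁻¹ hDT
    rwa [K_mul, K_mul] at this
  suffices h : Linked p (topFamily p f) E S₀ (u • S₀) by
    have h' := h.conj (isNormalSet_topFamily hf) c
    rw [hcE, smul_smul, show c * u = g * c by rw [hu]; group, mul_smul] at h'
    exact h'
  obtain ⟨g₁, hg₁, g₂, hg₂, hgu⟩ := hprod u
  set B := K g₁⁻¹ E with hB
  have hB1 : B ≤ G₁ := fun y hy => by
    rw [hB, mem_K, inv_inv] at hy
    have := mul_mem (mul_mem (inv_mem hg₁) (h₁ (hES hy))) hg₁
    simpa [mul_assoc] using this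
  have hB2 : B ≤ G₂ := by
    intro y hy
    rw [hB, mem_K, inv_inv] at hy
    have h3 := hEu hy
    rw [mem_K, hgu] at h3
    have := mul_mem (mul_mem hg₂ (h₂ h3)) (inv_mem hg₂)
    simpa [mul_assoc] using this
  have hBp : IsPGroup p B := (S₀.2.to_le hES).map _
  obtain ⟨k, hk, hkB⟩ := exists_conj_le_of_le (le_inf h₁ h₂) hBp (le_inf hB1 hB2)
  set R := (g₁ * k) • S₀ with hR
  have hER : E ≤ (R : Subgroup G) := by
    rw [coe_smul] at hkB ⊢
    have := K_mono g₁ hkB
    rwa [hB, K_cancel_inv, K_mul] at this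
  have hR1 : (R : Subgroup G) ≤ G₁ := by
    rw [coe_smul]
    have hm := mul_mem hg₁ (hk.1)
    intro y hy
    rw [mem_K] at hy
    have := mul_mem (mul_mem hm (h₁ hy)) (inv_mem hm)
    simpa [mul_assoc] using this
  refine (linked_of_regular hf S₀ R h₁ hR1 hr₁ hE0 hES hER).trans ?_
  set E' := K (g₁ * k)⁻¹ E with hE'
  have hm2 : k⁻¹ * g₂ ∈ G₂ := mul_mem (inv_mem hk.2) hg₂
  have hT2 : (((k⁻¹ * g₂) • S₀ : Sylow p G) : Subgroup G) ≤ G₂ := by
    rw [coe_smul]
    intro y hy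
    rw [mem_K] at hy
    have := mul_mem (mul_mem hm2 (h₂ hy)) (inv_mem hm2)
    simpa [mul_assoc] using this
  have h4 : E' ≤ (S₀ : Subgroup G) := by
    rw [coe_smul] at hER
    have := K_mono (g₁ * k)⁻¹ hER
    rwa [K_inv_cancel] at this
  have h5 : E' ≤ (((k⁻¹ * g₂) • S₀ : Sylow p G) : Subgroup G) := by
    rw [coe_smul]
    have := K_mono (g₁ * k)⁻¹ hEu
    rwa [K_mul _ u, show (g₁ * k)⁻¹ * u = k⁻¹ * g₂ by rw [hgu]; group] at this
  have hcE' : K (g₁ * k) E' = E := K_cancel_inv _ E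
  have h6 := (linked_of_regular hf S₀ ((k⁻¹ * g₂) • S₀) h₂ hT2 hr₂
    (fun h => hE0 (by rw [← hcE', h]; exact Subgroup.map_bot _)) h4 h5).conj (isNormalSet_topFamily hf) (g₁ * k)
  rw [hcE', smul_smul, show g₁ * k * (k⁻¹ * g₂) = u by rw [hgu]; group] at h6
  exact h6

/-- The top subgroup is regular once linking holds in `G`. -/
theorem regular_top (h : ∀ S T : Sylow p G, (S : Subgroup G) ⊓ (T : Subgroup G) ≠ ⊥ →
      Linked p (topFamily p f) ((S : Subgroup G) ⊓ (T : Subgroup G)) S T) :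
    Cfsg.IsFunctorRegular p f ⊤ := by
  refine controls_iff.mpr fun a b _ hab => ?_
  have hS : ((Classical.arbitrary (Sylow p G)) : Subgroup G) ≤ (⊤ : Subgroup G) := le_top
  set u := upSylow (M := (⊤ : Subgroup G)) hS with hu
  have hinf : ((u a : Subgroup G) ⊓ (u b : Subgroup G)) =
      ((a : Subgroup (⊤ : Subgroup G)) ⊓ (b : Subgroup (⊤ : Subgroup G))).map (Subgroup.subtype ⊤) := by
    rw [Subgroup.map_inf _ _ _ (Subgroup.subtype_injective ⊤)]
    rfl
  have hne : (u a : Subgroup G) ⊓ (u b : Subgroup G) ≠ ⊥ := by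
    rw [hinf]
    exact fun h' => hab (map_eq_bot_iff_of_injective _ (Subgroup.subtype_injective ⊤) |>.mp h')
  have key := Relation.ReflTransGen.lift
    (p := Step p ((fun X : Subgroup G => X.subgroupOf ⊤) '' Cfsg.functorFamily p f ⊤)
      ((a : Subgroup (⊤ : Subgroup G)) ⊓ (b : Subgroup (⊤ : Subgroup G))))
    (fun c : Sylow p G => c.subtype (le_top : (c : Subgroup G) ≤ ⊤)) ?_ _ _ (h (u a) (u b) hne)
  · have e : ∀ c : Sylow p (⊤ : Subgroup G),
        (u c).subtype (le_top : (u c : Subgroup G) ≤ ⊤) = c := fun c => Sylow.ext (by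
      rw [Sylow.coe_subtype, hu, coe_upSylow, subgroupOf,
        comap_map_eq_self_of_injective (Subgroup.subtype_injective ⊤)])
    change Linked p _ _ _ _
    have key' : Linked p ((fun X : Subgroup G => X.subgroupOf ⊤) '' Cfsg.functorFamily p f ⊤)
      ((a : Subgroup (⊤ : Subgroup G)) ⊓ (b : Subgroup (⊤ : Subgroup G)))
      ((u a).subtype (le_top : (u a : Subgroup G) ≤ ⊤))
      ((u b).subtype (le_top : (u b : Subgroup G) ≤ ⊤)) := key
    rwa [e, e] at key'
  rintro c d ⟨X, x, hX, hc, hd, hx, rfl, hD⟩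
  show Step p _ _ _ _
  have hcard : ∀ Y : Subgroup G, Nat.card (Y.subgroupOf ⊤) = Nat.card Y :=
    fun Y => Nat.card_congr (subgroupOfEquivOfLe le_top).toEquiv
  have hmeet : ∀ s : Sylow p G, Meets p (s : Subgroup G) X →
      Meets p ((s.subtype (le_top : (s : Subgroup G) ≤ ⊤)) : Subgroup (⊤ : Subgroup G))
        (X.subgroupOf ⊤) := by
    intro s hs
    rw [Meets, Sylow.coe_subtype, show (s : Subgroup G).subgroupOf ⊤ ⊓ X.subgroupOf ⊤ =
      ((s : Subgroup G) ⊓ X).subgroupOf ⊤ from (Subgroup.comap_inf _ _ _).symm, hcard, hcard]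
    exact hs
  refine ⟨X.subgroupOf ⊤, ⟨x, mem_top x⟩, ⟨X, by rw [functorFamily_top]; exact hX, rfl⟩,
    hmeet c hc, hmeet _ hd, hx, Sylow.ext ?_, ?_⟩
  · ext z
    rw [coe_smul, mem_K, Sylow.coe_subtype, Sylow.coe_subtype, mem_subgroupOf, mem_subgroupOf,
      coe_smul, mem_K]
    simp
  · intro z hz
    exact hD (show (z : G) ∈ (u a : Subgroup G) ⊓ (u b : Subgroup G) from
      hinf ▸ mem_map_of_mem _ hz)

end CfsgLib.Local.Link
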