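import Cfsg.Agent.Lib.LocalFunctorRegular
import Mathlib.GroupTheory.Nilpotent
import Mathlib.Data.Finset.Max
import Mathlib.Data.Set.Finite.Lemmas

/-!
# Normalisers of functor values and singular maximal locals control Sylow intersections
-/

set_option autoImplicit false

namespace CfsgLib.Local.Link

open Subgroup
open scoped Pointwise

variable {G : Type*} [Group G] [Finite G] {p : ℕ} [hp : Fact p.Prime]

theorem exists_sylow_above {M A : Subgroup G} (hA : IsPGroup p A) (hAM : A ≤ M) :
    ∃ P : Sylow p M, A ≤ (P : Subgroup M).map M.subtype := by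
  obtain ⟨P, hP⟩ := (hA.of_equiv (subgroupOfEquivOfLe hAM).symm).exists_le_sylow
  exact ⟨P, fun y hy => ⟨⟨y, hAM hy⟩, hP (show (⟨y, hAM hy⟩ : M) ∈ A.subgroupOf M from hy), rfl⟩⟩

theorem exists_gt_inf_normalizer {S : Subgroup G} (hS : IsPGroup p S) {D : Subgroup G} (hD : D < S) :
    Nat.card D < Nat.card (S ⊓ normalizer (D : Set G) : Subgroup G) := by
  haveI := hS.isNilpotent
  have hlt : D.subgroupOf S < ⊤ := lt_top_iff_ne_top.mpr fun h => hD.not_ge (subgroupOf_eq_top.mp h)
  have h2 := Group.normalizerCondition_of_isNilpotent (G := S) (D.subgroupOf S) hlt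
  obtain ⟨y, hy, hyD⟩ := SetLike.exists_of_lt h2
  have hyN : (y : G) ∈ normalizer (D : Set G) := by
    rw [mem_normalizer_iff]
    intro z
    constructor
    · intro hz
      have := (mem_normalizer_iff.mp hy ⟨z, hD.le hz⟩).mp hz
      simpa [mem_subgroupOf] using this
    · intro hz
      have hzS : z ∈ S := by
        have := mul_mem (mul_mem (inv_mem y.2) (hD.le hz)) y.2
        simpa [mul_assoc] using this
      have := (mem_normalizer_iff.mp hy ⟨z, hzS⟩).mpr (by simpa [mem_subgroupOf] using hz)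
      exact this
  refine lt_of_le_of_ne (card_le_of_le (le_inf hD.le le_normalizer)) fun h => hyD ?_
  have he := Subgroup.eq_of_le_of_card_ge (le_inf hD.le le_normalizer) h.ge
  exact mem_subgroupOf.mpr (he.ge ⟨y.2, hyN⟩)

theorem exists_maximal_local {L : Subgroup G} (hL : Cfsg.IsPLocal p L) :
    ∃ M, Cfsg.IsMaximalPLocal p M ∧ L ≤ M := by
  obtain ⟨M, ⟨hM, hLM⟩, hmax⟩ := Set.exists_max_image
    {M : Subgroup G | Cfsg.IsPLocal p M ∧ L ≤ M} (fun M => Nat.card M) (Set.toFinite _)
    ⟨L, hL, le_rfl⟩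
  exact ⟨M, ⟨hM, fun N hN hMN =>
    (Subgroup.eq_of_le_of_card_ge hMN (hmax N ⟨hN, hLM.trans hMN⟩)).symm⟩, hLM⟩

variable {f : Subgroup G → Set (Subgroup G)}

/-- The family of the theorem. -/
def bigFamily (p : ℕ) (f : Subgroup G → Set (Subgroup G)) : Set (Subgroup G) :=
  topFamily p f ∪ {M | Cfsg.IsMaximalPLocal p M ∧ ¬ Cfsg.IsFunctorRegular p f M}

theorem linked_of_local (hf : Cfsg.IsNormalizerFunctor p f)
    (hf1 : ∀ P : Subgroup G, IsPGroup p ↥P → P ≠ ⊥ → ∀ F ∈ f P, F ≠ ⊥)
    {D : Subgroup G} (hD : D ≠ ⊥)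
    (ihA : ∀ E : Subgroup G, Nat.card D < Nat.card E → ∀ U V : Sylow p G,
      E ≤ (U : Subgroup G) → E ≤ (V : Subgroup G) → Linked p (bigFamily p f) E U V) :
    ∀ (n : ℕ) (L : Subgroup G), Cfsg.IsPLocal p L → ∀ P Q : Sylow p L,
      Nat.card G - Nat.card (P : Subgroup L) = n → Nat.card D < Nat.card (P : Subgroup L) →
      D ≤ (P : Subgroup L).map L.subtype → D ≤ (Q : Subgroup L).map L.subtype →
      ∀ S T : Sylow p G, (P : Subgroup L).map L.subtype ≤ (S : Subgroup G) →
        (Q : Subgroup L).map L.subtype ≤ (T : Subgroup G) → Linked p (bigFamily p f) D S T := by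
  classical
  intro n
  induction n using Nat.strong_induction_on with
  | _ n ih =>
  intro L hL P Q hn hlt hDP hDQ S T hPS hQT
  have hcardmap : ∀ {H : Subgroup G} (R : Sylow p H),
      Nat.card ((R : Subgroup H).map H.subtype) = Nat.card (R : Subgroup H) := fun {H} R =>
    card_map_of_injective H.subtype_injective
  have jump : ∀ E : Subgroup G, D ≤ E → Nat.card D < Nat.card E → ∀ U V : Sylow p G,
      E ≤ (U : Subgroup G) → E ≤ (V : Subgroup G) → Linked p (bigFamily p f) D U V :=
    fun E hDE hE U V hU hV => (ihA E hE U V hU hV).mono hDE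
  obtain ⟨M, hM, hLM⟩ := exists_maximal_local hL
  obtain ⟨P₂, hP₂⟩ := exists_sylow_above (P.2.map L.subtype) ((map_subtype_le _).trans hLM)
  obtain ⟨Q₂, hQ₂⟩ := exists_sylow_above (Q.2.map L.subtype) ((map_subtype_le _).trans hLM)
  obtain ⟨S₂, hS₂⟩ := (P₂.2.map M.subtype).exists_le_sylow
  obtain ⟨T₂, hT₂⟩ := (Q₂.2.map M.subtype).exists_le_sylow
  have hge : Nat.card (P : Subgroup L) ≤ Nat.card (P₂ : Subgroup M) := by
    rw [← hcardmap P, ← hcardmap P₂]
    exact card_le_of_le hP₂
  have hQc : Nat.card (Q : Subgroup L) = Nat.card (P : Subgroup L) := by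
    rw [P.card_eq_multiplicity, Q.card_eq_multiplicity]
  refine (jump _ hDP (by rwa [hcardmap]) S S₂ hPS (hP₂.trans hS₂)).trans ?_
  refine Relation.ReflTransGen.trans (b := T₂) ?_
    (jump _ hDQ (by rw [hcardmap, hQc]; exact hlt) T₂ T (hQ₂.trans hT₂) hQT)
  have hbig : ∀ R : Sylow p M, Nat.card D < Nat.card ((R : Subgroup M).map M.subtype) := fun R => by
    rw [hcardmap, R.card_eq_multiplicity, ← P₂.card_eq_multiplicity]
    omega
  by_cases hreg : Cfsg.IsFunctorRegular p f M
  swap
  · obtain ⟨x, hx⟩ := MulAction.exists_smul_eq M P₂ Q₂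
    have hmap : (Q₂ : Subgroup M).map M.subtype ≤ (((x : G) • S₂ : Sylow p G) : Subgroup G) := by
      rw [← hx, coe_smul]
      rintro _ ⟨y, hy, rfl⟩
      replace hy := mem_K.mp hy
      rw [coe_smul, mem_K]
      exact hS₂ ⟨_, hy, by simp⟩
    refine Relation.ReflTransGen.head (b := (x : G) • S₂)
      ⟨M, x, Or.inr ⟨hM, hreg⟩, (meets_of_exists S₂.2 P₂ hS₂).1,
        (meets_of_exists ((x : G) • S₂).2 Q₂ hmap).1, x.2, rfl,
        (hDQ.trans hQ₂).trans (le_inf hmap (map_subtype_le _))⟩ ?_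
    exact jump _ (hDQ.trans hQ₂) (hbig Q₂) _ _ hmap hT₂
  have hDM : D ≤ M := (hDP.trans hP₂).trans (map_subtype_le _)
  have hchain := linked_of_controls hreg (D := D.subgroupOf M) (by
      intro h
      exact hD (by rw [← map_subgroupOf_eq_of_le hDM, h, Subgroup.map_bot]))
    P₂ Q₂
    (by
      intro y hy
      obtain ⟨z, hz, hzy⟩ := (hDP.trans hP₂) hy
      rwa [Subtype.coe_injective hzy] at hz)
    (by
      intro y hy
      obtain ⟨z, hz, hzy⟩ := (hDQ.trans hQ₂) hy
      rwa [Subtype.coe_injective hzy] at hz)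
  suffices hkey : ∀ b : Sylow p M,
      Linked p ((fun X : Subgroup G => X.subgroupOf M) '' Cfsg.functorFamily p f M) (D.subgroupOf M) P₂ b →
      D ≤ (b : Subgroup M).map M.subtype ∧
      ∀ U : Sylow p G, (b : Subgroup M).map M.subtype ≤ (U : Subgroup G) →
        Linked p (bigFamily p f) D S₂ U from (hkey Q₂ hchain).2 T₂ hT₂
  intro b hb
  induction hb with
  | refl => exact ⟨hDP.trans hP₂, fun U hU => jump _ (hDP.trans hP₂) (hbig P₂) _ _ hS₂ hU⟩
  | @tail a b _ hab ih' =>
    obtain ⟨R, F, x, hF, hx, hxM, hba, haF, hbF, hDb⟩ := step_down hf hab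
    rw [map_subgroupOf_eq_of_le hDM] at hDb
    obtain ⟨hDa, ihU⟩ := ih'
    refine ⟨hDb, fun U hU => ?_⟩
    by_cases hfull : Nat.card (R : Subgroup M) = p ^ (Nat.card G).factorization p
    · -- the Sylow subgroups of `M` are Sylow subgroups of `G`
      have hcard : ∀ c : Sylow p M,
          Nat.card ((c : Subgroup M).map M.subtype) = p ^ (Nat.card G).factorization p := fun c => by
        rw [hcardmap, c.card_eq_multiplicity, ← R.card_eq_multiplicity, hfull]
      set A : Sylow p G := Sylow.ofCard _ (hcard a) with hA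
      set B : Sylow p G := Sylow.ofCard _ (hcard b) with hB
      refine ((ihU A le_rfl).tail (b := A) (c := B) ?_).trans (jump _ hDb (hbig b) B U le_rfl hU)
      exact ⟨normalizer (F : Set G), x, Or.inl ⟨Sylow.ofCard _ (hcard R), F, hF, rfl⟩,
        meets_of_le haF, meets_of_le hbF, hx, Sylow.ext (by rw [coe_smul]; exact hba),
        le_inf hDb (hDb.trans hbF)⟩
    · -- a larger local subgroup
      have hR0 : (R : Subgroup M).map M.subtype ≠ ⊥ := fun h => by
        have := hbig R
        rw [h, card_bot] at this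
        exact absurd this (not_lt.mpr Nat.card_pos)
      have hFP := (hf _ (R.2.map M.subtype)).1 F hF
      have hloc : Cfsg.IsPLocal p (normalizer (F : Set G)) :=
        ⟨F, (R.2.map M.subtype).to_le hFP.1, hf1 _ (R.2.map M.subtype) hR0 F hF, rfl⟩
      obtain ⟨Pa, hPa⟩ := exists_sylow_above (a.2.map M.subtype) haF
      obtain ⟨Pb, hPb⟩ := exists_sylow_above (b.2.map M.subtype) hbF
      obtain ⟨Ua, hUa⟩ := (Pa.2.map (normalizer (F : Set G)).subtype).exists_le_sylow
      obtain ⟨Ub, hUb⟩ := (Pb.2.map (normalizer (F : Set G)).subtype).exists_le_sylow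
      have hgrow : Nat.card (R : Subgroup M) < Nat.card (Pa : Subgroup (normalizer (F : Set G))) := by
        obtain ⟨W, hW⟩ := (R.2.map M.subtype).exists_le_sylow
        have hne : (R : Subgroup M).map M.subtype < (W : Subgroup G) := lt_of_le_of_ne hW fun h =>
          hfull (by rw [← hcardmap, h, W.card_eq_multiplicity])
        have h1 := exists_gt_inf_normalizer W.2 hne
        rw [hcardmap] at h1
        have h2 := card_le_pow_of_le (p := p) (W.2.to_le inf_le_left)
          ((inf_le_right : (W : Subgroup G) ⊓ normalizer (((R : Subgroup M).map M.subtype : Subgroup G) : Set G) ≤ _).trans hFP.2)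
        rw [Pa.card_eq_multiplicity]
        exact lt_of_lt_of_le h1 h2
      have hRc : Nat.card (R : Subgroup M) = Nat.card (P₂ : Subgroup M) := by
        rw [R.card_eq_multiplicity, P₂.card_eq_multiplicity]
      have hPaG : Nat.card (Pa : Subgroup (normalizer (F : Set G))) ≤ Nat.card G := by
        rw [← hcardmap Pa]; exact card_le_card_group _
      refine ((ihU Ua (hPa.trans hUa)).trans ?_).trans
        (jump _ hDb (hbig b) Ub U (hPb.trans hUb) hU)
      exact ih _ (by omega) _ hloc Pa Pb rfl (by omega) (hDa.trans hPa) (hDb.trans hPb) Ua Ub hUa hUb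

theorem linked_bigFamily (hf : Cfsg.IsNormalizerFunctor p f)
    (hf1 : ∀ P : Subgroup G, IsPGroup p ↥P → P ≠ ⊥ → ∀ F ∈ f P, F ≠ ⊥) :
    ∀ (n : ℕ) (D : Subgroup G), D ≠ ⊥ → Nat.card G - Nat.card D = n → ∀ S T : Sylow p G,
      D ≤ (S : Subgroup G) → D ≤ (T : Subgroup G) → Linked p (bigFamily p f) D S T := by
  intro n
  induction n using Nat.strong_induction_on with
  | _ n ih =>
  intro D hD hn S T hS hT
  have hA : ∀ E : Subgroup G, Nat.card D < Nat.card E → ∀ U V : Sylow p G,
      E ≤ (U : Subgroup G) → E ≤ (V : Subgroup G) → Linked p (bigFamily p f) E U V := by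
    intro E hE U V hU hV
    have := card_le_card_group E
    refine ih _ (by omega) E (fun h => ?_) rfl U V hU hV
    rw [h, card_bot] at hE
    exact absurd hE (not_lt.mpr Nat.card_pos)
  by_cases hST : S = T
  · subst hST; exact Relation.ReflTransGen.refl
  rcases lt_or_eq_of_le (card_le_of_le (le_inf hS hT)) with hlt | heq
  · exact (hA _ hlt S T inf_le_left inf_le_right).mono (le_inf hS hT)
  have hDeq : D = (S : Subgroup G) ⊓ (T : Subgroup G) :=
    Subgroup.eq_of_le_of_card_ge (le_inf hS hT) heq.ge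
  have hne : ∀ U V : Sylow p G, U ≠ V → (U : Subgroup G) ⊓ (V : Subgroup G) < (U : Subgroup G) :=
    fun U V hUV => lt_of_le_of_ne inf_le_left fun h => hUV (Sylow.ext (V.2 |> fun hV =>
      (U.3 hV (inf_eq_left.mp h)).symm))
  have hDS : D < (S : Subgroup G) := hDeq ▸ hne S T hST
  have hDT : D < (T : Subgroup G) := by
    rw [hDeq, inf_comm]; exact hne T S (Ne.symm hST)
  have hloc : Cfsg.IsPLocal p (normalizer (D : Set G)) := ⟨D, S.2.to_le hS, hD, rfl⟩
  obtain ⟨P, hP⟩ := exists_sylow_above (M := normalizer (D : Set G)) (S.2.to_le inf_le_left)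
    (inf_le_right : (S : Subgroup G) ⊓ normalizer (D : Set G) ≤ _)
  obtain ⟨Q, hQ⟩ := exists_sylow_above (M := normalizer (D : Set G)) (T.2.to_le inf_le_left)
    (inf_le_right : (T : Subgroup G) ⊓ normalizer (D : Set G) ≤ _)
  obtain ⟨S', hS'⟩ := (P.2.map (normalizer (D : Set G)).subtype).exists_le_sylow
  obtain ⟨T', hT'⟩ := (Q.2.map (normalizer (D : Set G)).subtype).exists_le_sylow
  have hcS := exists_gt_inf_normalizer S.2 hDS
  have hcT := exists_gt_inf_normalizer T.2 hDT
  have hDS' : D ≤ (S : Subgroup G) ⊓ normalizer (D : Set G) := le_inf hS le_normalizer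
  have hDT' : D ≤ (T : Subgroup G) ⊓ normalizer (D : Set G) := le_inf hT le_normalizer
  refine (((hA _ hcS S S' inf_le_left (hP.trans hS')).mono hDS').trans ?_).trans
    ((hA _ hcT T' T (hQ.trans hT') inf_le_left).mono hDT')
  refine linked_of_local hf hf1 hD hA _ _ hloc P Q rfl ?_ (hDS'.trans hP) (hDT'.trans hQ) S' T' hS' hT'
  have := card_le_of_le hP
  rw [card_map_of_injective (Subgroup.subtype_injective _)] at this
  omega

end CfsgLib.Local.Link
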