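import Cfsg.Agent.Lib.LocalWellPlaced
import Cfsg.Agent.Lib.LocalCharP

/-! Local to global control of strong fusion by a functor pair. -/

set_option autoImplicit false
open Cfsg
open scoped Pointwise

namespace CfsgLib.Local.FusionPair

open CfsgLib.Local

variable {G : Type*} [Group G]

/-- `g` agrees on `A` with a product of allowed steps staying inside `S`. -/
def Chain (W V₀ : Subgroup G → Subgroup G) (S : Subgroup G) (A : Set G) (g : G) : Prop :=
  ∃ l : List G, (∀ b ∈ l, b ∈ Subgroup.normalizer ((W S : Subgroup G) : Set G) ∨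
      b ∈ Subgroup.centralizer ((V₀ S : Subgroup G) : Set G)) ∧
    (∀ k, 0 < k → k ≤ l.length → rc ((l.take k).prod) A ⊆ (S : Set G)) ∧
    ∀ a ∈ A, g⁻¹ * a * g = l.prod⁻¹ * a * l.prod

variable {W V₀ : Subgroup G → Subgroup G} {S : Subgroup G}

theorem Chain.refl {A : Set G} {g : G} (h : ∀ a ∈ A, g⁻¹ * a * g = a) : Chain W V₀ S A g :=
  ⟨[], by simp, fun k hk hk' => by simp at hk'; omega, fun a ha => by simp [h a ha]⟩

theorem Chain.single {A : Set G} {g : G}
    (h : g ∈ Subgroup.normalizer ((W S : Subgroup G) : Set G) ∨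
      g ∈ Subgroup.centralizer ((V₀ S : Subgroup G) : Set G)) (hg : rc g A ⊆ (S : Set G)) :
    Chain W V₀ S A g :=
  ⟨[g], by simpa using h, fun k hk hk' => by
    obtain rfl : k = 1 := by simp at hk'; omega
    simpa using hg, fun a _ => by simp⟩

theorem Chain.congr {A : Set G} {g g₂ : G} (h : Chain W V₀ S A g)
    (he : ∀ a ∈ A, g₂⁻¹ * a * g₂ = g⁻¹ * a * g) : Chain W V₀ S A g₂ := by
  obtain ⟨l, h1, h2, h3⟩ := h
  exact ⟨l, h1, h2, fun a ha => (he a ha).trans (h3 a ha)⟩

theorem Chain.mono {A B : Set G} {g : G} (hAB : A ⊆ B) (h : Chain W V₀ S B g) :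
    Chain W V₀ S A g := by
  obtain ⟨l, h1, h2, h3⟩ := h
  exact ⟨l, h1, fun k hk hk' => (rc_mono _ hAB).trans (h2 k hk hk'), fun a ha => h3 a (hAB ha)⟩

theorem Chain.comp {A : Set G} {g h : G} (hg : Chain W V₀ S A g)
    (hh : Chain W V₀ S (rc g A) h) : Chain W V₀ S A (g * h) := by
  obtain ⟨l, a1, a2, a3⟩ := hg
  obtain ⟨l', b1, b2, b3⟩ := hh
  have he : rc g A = rc l.prod A := Set.image_congr a3
  refine ⟨l ++ l', fun b hb => (List.mem_append.mp hb).elim (a1 b) (b1 b), fun k hk hk' => ?_,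
    fun a ha => ?_⟩
  · rw [List.length_append] at hk'
    rcases le_or_gt k l.length with hkl | hkl
    · rw [List.take_append_of_le_length hkl]; exact a2 k hk hkl
    · rw [List.take_append, List.take_of_length_le hkl.le, List.prod_append, rc_mul, ← he]
      exact b2 _ (by omega) (by omega)
  · have h4 := b3 _ ⟨a, ha, rfl⟩
    rw [List.prod_append]
    calc (g * h)⁻¹ * a * (g * h) = h⁻¹ * (g⁻¹ * a * g) * h := by group
      _ = l'.prod⁻¹ * (g⁻¹ * a * g) * l'.prod := h4
      _ = l'.prod⁻¹ * (l.prod⁻¹ * a * l.prod) * l'.prod := by rw [a3 a ha]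
      _ = _ := by group

/-- Local to global control of strong fusion by a functor pair. -/
theorem chain_of_local [Finite G] {p : ℕ} [Fact p.Prime] (S : Sylow p G)
    (W V₀ : Subgroup G → Subgroup G) (hW : Cfsg.IsConjugacyFunctor p W)
    (hV₀ : Cfsg.IsConjugacyFunctor p V₀)
    (hWZ : ∀ H : Subgroup G, IsPGroup p ↥H → H ⊓ Subgroup.centralizer (H : Set G) ≤ W H)
    (hVmono : ∀ R : Subgroup G, R ≤ (S : Subgroup G) →
      (S : Subgroup G) ⊓ Subgroup.centralizer ((S : Subgroup G) : Set G) ≤ R → V₀ S ≤ V₀ R)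
    (hloc : ∀ H : Subgroup G, (S : Subgroup G) ⊓ Subgroup.centralizer ((S : Subgroup G) : Set G) ≤ H →
      H ≤ (S : Subgroup G) → ∃ Q : Subgroup G, Q ≤ Subgroup.normalizer (H : Set G) ∧ IsPGroup p ↥Q ∧
        ¬ p ∣ Q.relIndex (Subgroup.normalizer (H : Set G)) ∧
        ∀ (B : Set G) (y : G), B ⊆ Q → y ∈ Subgroup.normalizer (H : Set G) → rc y B ⊆ Q →
          Chain W V₀ Q B y)
    (A : Set G) (g : G) (hA : A ⊆ ((S : Subgroup G) : Set G)) (hg : rc g A ⊆ ((S : Subgroup G) : Set G)) :
    Chain W V₀ (S : Subgroup G) A g := by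
  classical
  have hS := S.isPGroup'
  set Z := (S : Subgroup G) ⊓ Subgroup.centralizer ((S : Subgroup G) : Set G) with hZ
  let R : Subgroup G → Subgroup G := fun V =>
    (S : Subgroup G) ⊓ Subgroup.normalizer (V : Set G)
  refine fusion_induction hS (Chain W V₀ (S : Subgroup G)) (fun _ _ _ h h' => h'.mono h)
    (fun _ _ _ h h' => h.comp h') (fun T hT => ?_) A g hA hg
  obtain ⟨h, hhS, hhfn⟩ := exists_fullyNorm_conj S T hT
  set U := T.map (MulAut.conj h).toMonoidHom with hU
  refine ⟨U, hhS, ⟨h⁻¹, map_conj_eq_iff.1 rfl⟩, hhfn, fun IH m hm => ?_⟩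
  have hcard : Nat.card U = Nat.card T := Subgroup.card_map_of_injective (MulAut.conj h).injective
  by_cases hZU : Z ≤ U
  swap
  · -- enlarge `U` by its centralizer in `S`
    set C := Subgroup.centralizer (U : Set G) with hC
    set N := Subgroup.normalizer (U : Set G) with hN
    have hCN : C ≤ N := Subgroup.centralizer_le_normalizer _
    let RN : Sylow p N := ((hS.to_le inf_le_left).comap_subtype (K := N)).toSylow hhfn
    haveI : (C.subgroupOf N).Normal := Subgroup.normal_subgroupOf_centralizer_normalizer _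
    obtain ⟨T₁, hT₁⟩ := CfsgLib.Local.CharP.exists_sylow_subnormal RN (K := C.subgroupOf N)
      (Subgroup.Normal.isSubnormal inferInstance)
    have hfr := Sylow.normalizer_sup_eq_top T₁
    have hxmem := hfr.ge (Subgroup.mem_top (⟨m, hm⟩ : N))
    rw [sup_comm, Subgroup.mem_sup_of_normal_left] at hxmem
    obtain ⟨c, hc, m', hm', hcm⟩ := hxmem
    have hm'e : m = (c : G) * (m' : G) := (congrArg Subtype.val hcm).symm
    set U' := U ⊔ ((S : Subgroup G) ⊓ C) with hU'
    have hU'S : U' ≤ (S : Subgroup G) := sup_le hhS inf_le_left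
    have hrc : rc (m' : G) ((U' : Subgroup G) : Set G) ⊆ ((S : Subgroup G) : Set G) := by
      rintro _ ⟨x, hx, rfl⟩
      have hle : U' ≤ (S : Subgroup G).comap (MulAut.conj (m' : G)⁻¹).toMonoidHom := by
        refine sup_le (fun y hy => ?_) (fun y hy => ?_)
        · have := (inf_le_left : _ ≤ (S : Subgroup G))
            (show (m' : G)⁻¹ * y * m' ∈ (S : Subgroup G) ⊓ N from
              (le_inf hhS Subgroup.le_normalizer) ((rc_eq_of_mem_normalizer m'.2).le ⟨y, hy, rfl⟩))
          simpa using this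
        · have hxN : y ∈ N := hCN hy.2
          have h1 : (⟨y, hxN⟩ : N) ∈
              ((T₁ : Subgroup (C.subgroupOf N)).map (C.subgroupOf N).subtype) :=
            ⟨⟨⟨y, hxN⟩, hy.2⟩, by
              show (⟨⟨y, hxN⟩, hy.2⟩ : C.subgroupOf N) ∈ (T₁ : Subgroup (C.subgroupOf N))
              rw [hT₁]; exact ⟨hy.1, hxN⟩, rfl⟩
          obtain ⟨z, hz, hze⟩ := (Subgroup.mem_normalizer_iff.1 (inv_mem hm') _).1 h1
          rw [SetLike.mem_coe, hT₁] at hz
          have hz' : ((z : N) : G) ∈ (S : Subgroup G) := hz.1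
          rw [show ((z : N) : G) = (m' : G)⁻¹ * y * ((m' : G)⁻¹)⁻¹ from congrArg Subtype.val hze,
            inv_inv] at hz'
          simpa using hz'
      have h3 := hle hx
      rw [Subgroup.mem_comap] at h3
      show (m' : G)⁻¹ * x * m' ∈ (S : Subgroup G)
      simpa using h3
    have hlt : Nat.card T < Nat.card U' := by
      rw [← hcard]
      refine card_lt_card_of_lt (lt_of_le_of_ne le_sup_left fun e => hZU ?_)
      exact e.symm ▸ (le_sup_right.trans' (inf_le_inf_left _ (Subgroup.centralizer_le hhS)))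
    refine (Chain.mono (SetLike.coe_subset_coe.2 le_sup_left) (IH U' (m' : G) hlt hU'S hrc)).congr
      fun a ha => ?_
    have hac : (c : G)⁻¹ * a * c = a := by
      have hc' : (c : G) ∈ C := hc
      rw [mul_assoc, Subgroup.mem_centralizer_iff.mp hc' a ha, inv_mul_cancel_left]
    rw [hm'e]
    calc ((c : G) * m')⁻¹ * a * ((c : G) * m') = (m' : G)⁻¹ * ((c : G)⁻¹ * a * c) * m' := by group
      _ = _ := by rw [hac]
  let Good : Subgroup G → Prop := fun V => FullyNorm p (S : Subgroup G) V ∧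
    ∃ g : G, V.map (MulAut.conj g).toMonoidHom ≤ (S : Subgroup G) ∧ Z ≤ V.map (MulAut.conj g).toMonoidHom
  have loc : ∀ (n : ℕ) (V : Subgroup G), Nat.card (S : Subgroup G) - Nat.card (R V) = n → Good V →
      V ≤ (S : Subgroup G) → Nat.card T ≤ Nat.card (R V) →
      ∀ (B : Set G) (y : G), B ⊆ R V → y ∈ Subgroup.normalizer (V : Set G) → rc y B ⊆ R V →
        Chain W V₀ (S : Subgroup G) B y := by
    intro n
    induction n using Nat.strong_induction_on with
    | _ n ih =>
    intro V hn hVG hVS hVT B y hB hy hyB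
    set N := Subgroup.normalizer (V : Set G) with hN
    obtain ⟨g₀, hg₀S, hg₀Z⟩ := hVG.2
    obtain ⟨Q, hQN, hQp, hQi, hQfus⟩ := hloc _ hg₀Z hg₀S
    set H₀ := V.map (MulAut.conj g₀).toMonoidHom with hH₀
    -- transport to `N(V)`
    set T₀ := Q.map (MulAut.conj g₀⁻¹).toMonoidHom with hT₀
    have hNH : (Subgroup.normalizer (H₀ : Set G)).map (MulAut.conj g₀⁻¹).toMonoidHom = N := by
      rw [normalizer_map_conj, hH₀, Subgroup.map_map, hN]
      congr 2
      rw [show (MulAut.conj g₀⁻¹).toMonoidHom.comp (MulAut.conj g₀).toMonoidHom = MonoidHom.id G from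
        MonoidHom.ext fun x => by simp [mul_assoc], Subgroup.map_id]
    have hT₀N : T₀ ≤ N := hNH ▸ Subgroup.map_mono hQN
    have hT₀p : IsPGroup p T₀ := hQp.map _
    have hT₀i : ¬ p ∣ T₀.relIndex N := by
      rw [← hNH, hT₀, Subgroup.relIndex_map_map_of_injective _ _ (MulEquiv.injective _)]; exact hQi
    obtain ⟨k, hk, hkR⟩ := exists_rc_le_of_fullyNorm hS hVG.1 hT₀p hT₀N
    have hNk : N.map (MulAut.conj k⁻¹).toMonoidHom = N :=
      Subgroup.mem_normalizer_iff_map_conj_eq.1 (Subgroup.le_normalizer (N.inv_mem hk))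
    have hRT : R V = T₀.map (MulAut.conj k⁻¹).toMonoidHom := by
      have hle : T₀.map (MulAut.conj k⁻¹).toMonoidHom ≤ (S : Subgroup G) ⊓ N := by
        rw [← SetLike.coe_subset_coe, ← rc_coe]; exact hkR
      refine (eq_inf_of_fullyNorm_le hS hle ?_).symm
      rwa [← hNk, Subgroup.relIndex_map_map_of_injective _ _ (MulEquiv.injective _)]
    have hcomp : (MulAut.conj k⁻¹).toMonoidHom.comp (MulAut.conj g₀⁻¹).toMonoidHom =
        (MulAut.conj (k⁻¹ * g₀⁻¹)).toMonoidHom := MonoidHom.ext fun x => by simp [mul_assoc]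
    set t := k⁻¹ * g₀⁻¹ with ht
    have hRQ : R V = Q.map (MulAut.conj t).toMonoidHom := by rw [hRT, hT₀, Subgroup.map_map, hcomp]
    have hNt : N = (Subgroup.normalizer (H₀ : Set G)).map (MulAut.conj t).toMonoidHom := by
      rw [← hcomp, ← Subgroup.map_map, hNH, hNk]
    have memR : ∀ x, x ∈ R V ↔ t⁻¹ * x * t ∈ Q := fun x => by
      rw [hRQ, Subgroup.mem_map_equiv]; simp [mul_assoc]
    have hZR : Z ≤ R V := le_inf inf_le_left fun x hx =>
      Subgroup.centralizer_le_normalizer _ (Subgroup.centralizer_le hVS hx.2)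
    have step : ∀ (B' : Set G) (b : G), B' ⊆ R V → rc b B' ⊆ R V →
        (b ∈ Subgroup.normalizer ((W (R V) : Subgroup G) : Set G) ∨
          b ∈ Subgroup.centralizer ((V₀ (R V) : Subgroup G) : Set G)) →
        Chain W V₀ (S : Subgroup G) B' b := by
      intro B' b hB' hbB' hb
      rcases hb with hb | hb
      swap
      · exact Chain.single (.inr (Subgroup.centralizer_le (hVmono _ inf_le_left hZR) hb))
          fun x hx => (hbB' hx).1
      by_cases hRS : R V = (S : Subgroup G)
      · exact Chain.single (.inl (hRS ▸ hb)) fun x hx => (hbB' hx).1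
      have hRlt : R V < (S : Subgroup G) := lt_of_le_of_ne inf_le_left hRS
      have hRp : IsPGroup p (R V) := hS.to_le inf_le_left
      obtain ⟨hWle, -, hWeq⟩ := hW (R V) hRp
      set R₂ := (S : Subgroup G) ⊓ Subgroup.normalizer ((W (R V) : Subgroup G) : Set G) with hR₂
      have hsub : R V ≤ R₂ := by
        refine le_inf inf_le_left fun x hx => ?_
        rw [Subgroup.mem_normalizer_iff_map_conj_eq]
        show (W (R V)).map (MulAut.conj x).toMonoidHom = W (R V)
        rw [← hWeq x]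
        exact congrArg W (Subgroup.mem_normalizer_iff_map_conj_eq.1 (Subgroup.le_normalizer hx))
      have hlt : Nat.card (R V) < Nat.card R₂ := by
        refine lt_of_lt_of_le (card_lt_card_of_lt (lt_inf_normalizer hS hRlt))
          (Subgroup.card_le_of_le (inf_le_inf_left _ fun x hx => ?_))
        rw [Subgroup.mem_normalizer_iff_map_conj_eq]
        show (W (R V)).map (MulAut.conj x).toMonoidHom = W (R V)
        rw [← hWeq x]
        exact congrArg W (Subgroup.mem_normalizer_iff_map_conj_eq.1 hx)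
      obtain ⟨g, hgS, hgfn⟩ := exists_fullyNorm_conj S (W (R V)) (hWle.trans inf_le_left)
      have hgG : Good ((W (R V)).map (MulAut.conj g).toMonoidHom) := by
        refine ⟨hgfn, g⁻¹, ?_, ?_⟩ <;> rw [Subgroup.map_map,
          show (MulAut.conj g⁻¹).toMonoidHom.comp (MulAut.conj g).toMonoidHom = MonoidHom.id G from
            MonoidHom.ext fun x => by simp [mul_assoc], Subgroup.map_id]
        · exact hWle.trans inf_le_left
        · exact (le_inf hZR (inf_le_right.trans (Subgroup.centralizer_le inf_le_left))).trans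
            (hWZ _ hRp)
      set V' := (W (R V)).map (MulAut.conj g).toMonoidHom with hV'
      have hNV' : (Subgroup.normalizer ((W (R V) : Subgroup G) : Set G)).map (MulAut.conj g).toMonoidHom =
          Subgroup.normalizer (V' : Set G) := normalizer_map_conj g _
      obtain ⟨m₁, hm₁, hmR⟩ := exists_rc_le_of_fullyNorm hS hgG.1
        ((hS.to_le inf_le_left).map _) (hNV' ▸ Subgroup.map_mono inf_le_right :
          R₂.map (MulAut.conj g).toMonoidHom ≤ Subgroup.normalizer (V' : Set G))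
      set u := g⁻¹ * m₁ with hu
      have hmem : ∀ x ∈ R₂, u⁻¹ * x * u ∈ R V' := by
        intro x hx
        have : m₁⁻¹ * (g * x * g⁻¹) * m₁ ∈ R V' := hmR ⟨_, ⟨x, hx, rfl⟩, rfl⟩
        simpa [hu, mul_assoc] using this
      set R₂' := R₂.map (MulAut.conj u⁻¹).toMonoidHom with hR₂'
      have hc2 : Nat.card R₂' = Nat.card R₂ := Subgroup.card_map_of_injective (MulEquiv.injective _)
      have hR₂'le : R₂' ≤ R V' := by
        rintro _ ⟨x, hx, rfl⟩
        simpa using hmem x hx
      have hc3 : Nat.card R₂' ≤ Nat.card (R V') := Subgroup.card_le_of_le hR₂'le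
      have hc4 : Nat.card (R V') ≤ Nat.card (S : Subgroup G) := Subgroup.card_le_of_le inf_le_left
      have hin : ∀ D : Set G, D ⊆ R V → rc u D ⊆ (R V' : Set G) := by
        rintro D hD _ ⟨x, hx, rfl⟩
        exact hmem x (hsub (hD hx))
      have c1 : Chain W V₀ (S : Subgroup G) B' u :=
        Chain.mono (fun x hx => hsub (hB' hx)) (IH R₂ u (by omega) inf_le_left
          (by rintro _ ⟨x, hx, rfl⟩; exact (hmem x hx).1))
      have hy' : u⁻¹ * b * u ∈ Subgroup.normalizer (V' : Set G) := by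
        have h1 : g * b * g⁻¹ ∈ Subgroup.normalizer (V' : Set G) := hNV' ▸ ⟨b, hb, rfl⟩
        have := mul_mem (mul_mem (inv_mem hm₁) h1) hm₁
        simpa [hu, mul_assoc] using this
      have hrc2 : rc (u⁻¹ * b * u) (rc u B') = rc u (rc b B') := by
        rw [← rc_mul, ← rc_mul]
        congr 1
        group
      have c2 : Chain W V₀ (S : Subgroup G) (rc u B') (u⁻¹ * b * u) :=
        ih _ (by omega) V' rfl hgG hgS (by omega) _ _ (hin B' hB') hy'
          (hrc2 ▸ hin (rc b B') hbB')
      have c3 : Chain W V₀ (S : Subgroup G) (rc (u⁻¹ * b * u) (rc u B')) u⁻¹ := by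
        rw [hrc2]
        refine Chain.mono (B := (R₂' : Set G)) ?_ (IH R₂' u⁻¹ (by omega) (hR₂'le.trans inf_le_left) ?_)
        · rintro _ ⟨x, hx, rfl⟩
          exact ⟨x, hsub (hbB' hx), by simp⟩
        · rintro _ ⟨_, ⟨x, hx, rfl⟩, rfl⟩
          show u⁻¹⁻¹ * (MulAut.conj u⁻¹).toMonoidHom x * u⁻¹ ∈ (S : Subgroup G)
          rw [show u⁻¹⁻¹ * (MulAut.conj u⁻¹).toMonoidHom x * u⁻¹ = x by simp [mul_assoc]]
          exact hx.1
      have := c1.comp (c2.comp c3)
      simpa [mul_assoc] using this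
    obtain ⟨l, hl1, hl2, hl3⟩ := hQfus ((fun x => t⁻¹ * x * t) '' B) (t⁻¹ * y * t)
      (by rintro _ ⟨x, hx, rfl⟩; exact (memR x).1 (hB hx))
      (by
        obtain ⟨w, hw, hwe⟩ := hNt.le hy
        have : w = t⁻¹ * y * t := by rw [← hwe]; simp [mul_assoc]
        exact this ▸ hw)
      (by
        rintro _ ⟨_, ⟨x, hx, rfl⟩, rfl⟩
        have := (memR _).1 (hyB ⟨x, hx, rfl⟩)
        simpa [mul_assoc] using this)
    have hWk : W (R V) = (W Q).map (MulAut.conj t).toMonoidHom := by rw [hRQ]; exact (hW Q hQp).2.2 t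
    have hVk : V₀ (R V) = (V₀ Q).map (MulAut.conj t).toMonoidHom := by rw [hRQ]; exact (hV₀ Q hQp).2.2 t
    have hprefix : ∀ j ≤ l.length, rc (t * (l.take j).prod * t⁻¹) B ⊆ (R V : Set G) := by
      intro j hj
      rintro _ ⟨x, hx, rfl⟩
      rcases Nat.eq_zero_or_pos j with rfl | hpos
      · simpa using hB hx
      · refine (memR _).2 ?_
        have := hl2 j hpos hj ⟨_, ⟨x, hx, rfl⟩, rfl⟩
        simpa [mul_assoc] using this
    have key : ∀ j ≤ l.length, Chain W V₀ (S : Subgroup G) B (t * (l.take j).prod * t⁻¹) := by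
      intro j hj
      induction j with
      | zero => exact Chain.refl fun a _ => by simp
      | succ j ihj =>
        have hlt : j < l.length := hj
        have he : t * (l.take (j + 1)).prod * t⁻¹ = (t * (l.take j).prod * t⁻¹) * (t * l[j] * t⁻¹) := by
          rw [List.prod_take_succ _ _ hlt]; group
        rw [he]
        refine (ihj hlt.le).comp (step _ _ (hprefix j hlt.le) (by rw [← rc_mul, ← he]; exact hprefix _ hj) ?_)
        rcases hl1 _ (List.getElem_mem hlt) with h | h
        · left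
          rw [hWk, ← normalizer_map_conj]
          exact ⟨_, h, rfl⟩
        · right
          rw [hVk, Subgroup.mem_centralizer_iff]
          rintro _ ⟨v, hv, rfl⟩
          show t * v * t⁻¹ * (t * l[j] * t⁻¹) = t * l[j] * t⁻¹ * (t * v * t⁻¹)
          calc t * v * t⁻¹ * (t * l[j] * t⁻¹) = t * (v * l[j]) * t⁻¹ := by group
            _ = t * (l[j] * v) * t⁻¹ := by rw [Subgroup.mem_centralizer_iff.mp h v hv]
            _ = _ := by group
    refine (key l.length le_rfl).congr fun a ha => ?_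
    rw [List.take_length]
    have := hl3 _ ⟨a, ha, rfl⟩
    calc y⁻¹ * a * y = t * ((t⁻¹ * y * t)⁻¹ * (t⁻¹ * a * t) * (t⁻¹ * y * t)) * t⁻¹ := by group
      _ = t * (l.prod⁻¹ * (t⁻¹ * a * t) * l.prod) * t⁻¹ := by rw [this]
      _ = _ := by group
  have he1 : U.map (MulAut.conj (1 : G)).toMonoidHom = U := by
    ext x; simp
  have hUR : U ≤ R U := le_inf hhS Subgroup.le_normalizer
  exact loc _ U rfl ⟨hhfn, 1, he1.symm ▸ hhS, he1.symm ▸ hZU⟩ hhS
    (hcard ▸ Subgroup.card_le_of_le hUR) _ m (SetLike.coe_subset_coe.2 hUR) hm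
    ((rc_eq_of_mem_normalizer hm).le.trans (SetLike.coe_subset_coe.2 hUR))

end CfsgLib.Local.FusionPair
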