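import Cfsg.Agent.Lib.CoreFrobenius
import Mathlib.GroupTheory.SchurZassenhaus
import Mathlib.GroupTheory.Sylow

/-!
# An isolated `p`-element centralising the `p'`-subgroups it normalises is central

The centraliser `C` of such an element is malnormal modulo the centre, so Frobenius' theorem
gives a normal subgroup `K` with `G = K C` and `K ∩ C = Z(G)`; the element centralises `K`.
-/

set_option autoImplicit false

universe u

namespace CfsgLib.Local

open Subgroup

theorem mem_center_of_isolated_centralizing {p : ℕ} [hp : Fact p.Prime] :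
    ∀ (n : ℕ) {G : Type u} [Group G] [Finite G], Nat.card G = n → ∀ x : G,
      (∃ k : ℕ, x ^ p ^ k = 1) →
      (∀ g : G, Commute (g * x * g⁻¹) x → g * x * g⁻¹ = x) →
      (∀ H : Subgroup G, (Nat.card H).Coprime p → (∀ h ∈ H, x * h * x⁻¹ ∈ H) →
        ∀ h ∈ H, x * h = h * x) →
      x ∈ center G := by
  intro n
  induction n using Nat.strong_induction_on with
  | _ n ih =>
  intro G _ _ hn x hxp hA hB
  classical
  by_contra hxc
  set C := centralizer ({x} : Set G) with hC
  have hxC : x ∈ C := mem_centralizer_singleton_iff.mpr rfl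
  -- proper subgroups containing `x` centralise it
  have key : ∀ H : Subgroup G, x ∈ H → H ≠ ⊤ → H ≤ C := by
    intro H hx hH h hh
    have hlt : Nat.card H < n := hn ▸ lt_of_le_of_ne (card_le_card_group H)
      fun e => hH (eq_top_of_card_eq H e)
    obtain ⟨k, hk⟩ := hxp
    have := ih _ hlt (G := H) rfl ⟨x, hx⟩ ⟨k, Subtype.ext (by simpa using hk)⟩
      (fun g hg => Subtype.ext (hA g (congrArg Subtype.val hg.eq)))
      (fun M hM hMx m hm => by
        have h1 := hB (M.map H.subtype) (by rwa [card_map_of_injective H.subtype_injective]) ?_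
          m ⟨m, hm, rfl⟩
        · exact Subtype.ext h1
        · rintro _ ⟨y, hy, rfl⟩
          exact ⟨_, hMx y hy, rfl⟩)
    exact mem_centralizer_singleton_iff.mpr
      (congrArg Subtype.val (Subgroup.mem_center_iff.mp this ⟨h, hh⟩))
  have hcen : ∀ u ∈ C, u ∉ center G → centralizer ({u} : Set G) ≤ C := by
    intro u hu hu'
    refine key _ (mem_centralizer_singleton_iff.mpr (mem_centralizer_singleton_iff.mp hu).symm) ?_
    intro h
    exact hu' (Subgroup.mem_center_iff.mpr fun g =>
      mem_centralizer_singleton_iff.mp (h.ge (mem_top g)))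
  set Z := center G with hZ
  set q := QuotientGroup.mk' Z with hq
  have hker : q.ker = Z := QuotientGroup.ker_mk' Z
  have hZC : Z ≤ C := fun z hz =>
    mem_centralizer_singleton_iff.mpr (Subgroup.mem_center_iff.mp hz x).symm
  have hcomap : (C.map q).comap q = C := by
    rw [comap_map_eq, hker, sup_eq_left.mpr hZC]
  have hCtop : C ≠ ⊤ := fun h => hxc (Subgroup.mem_center_iff.mpr fun g =>
    mem_centralizer_singleton_iff.mp (h.ge (mem_top g)))
  have hmal : ∀ g : G ⧸ Z, g ∉ C.map q → ∀ u ∈ C.map q, g * u * g⁻¹ ∈ C.map q → u = 1 := by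
    intro g hg u hu hgu
    obtain ⟨g, rfl⟩ := QuotientGroup.mk'_surjective Z g
    obtain ⟨u, huC, rfl⟩ := hu
    rw [← map_inv, ← map_mul, ← map_mul, ← mem_comap, hcomap] at hgu
    by_contra hu1
    have huZ : u ∉ Z := fun h => hu1 ((QuotientGroup.eq_one_iff u).mpr h)
    have hvZ : g * u * g⁻¹ ∉ Z := fun h => huZ (by
      simpa [mul_assoc] using (inferInstance : Z.Normal).conj_mem _ h g⁻¹)
    have hgC : g ∉ C := fun h => hg ⟨g, h, rfl⟩
    have hy : g * x * g⁻¹ ∈ C := by
      refine hcen _ hgu hvZ (mem_centralizer_singleton_iff.mpr ?_)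
      have hux := mem_centralizer_singleton_iff.mp huC
      calc g * x * g⁻¹ * (g * u * g⁻¹) = g * (x * u) * g⁻¹ := by group
        _ = g * (u * x) * g⁻¹ := by rw [hux]
        _ = _ := by group
    have := hA g (mem_centralizer_singleton_iff.mp hy)
    refine hgC (mem_centralizer_singleton_iff.mpr ?_)
    calc g * x = g * x * g⁻¹ * g := by group
      _ = x * g := by rw [this]
  have hx1 : q x ≠ 1 := fun h => hxc ((QuotientGroup.eq_one_iff x).mp h)
  have hF : Cfsg.IsFrobeniusComplement (C.map q) := by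
    refine CfsgLib.Core.isFrobeniusComplement_of_malnormal ?_ ?_ hmal
    · exact fun h => hx1 (by simpa [h] using mem_map_of_mem q hxC)
    · intro h
      exact hCtop (by rw [← hcomap, h, comap_top])
  obtain ⟨Kb, hKn, -, hKC, hKsup, hKcard⟩ := CfsgLib.Core.exists_kernel hF
  haveI := hKn
  have hpC : p ∣ Nat.card (C.map q) := by
    obtain ⟨k, hk⟩ := hxp
    have h1 : orderOf (q x) ∣ p ^ k := orderOf_dvd_of_pow_eq_one (by rw [← map_pow, hk, map_one])
    obtain ⟨j, -, hj⟩ := (Nat.dvd_prime_pow hp.out).mp h1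
    have hj0 : j ≠ 0 := fun h => hx1 (orderOf_eq_one_iff.mp (by rw [hj, h, pow_zero]))
    refine dvd_trans (hj ▸ dvd_pow_self p hj0) ?_
    have := orderOf_dvd_natCard (⟨q x, mem_map_of_mem q hxC⟩ : C.map q)
    rwa [← Subgroup.orderOf_coe] at this
  have hpK : ¬ p ∣ Nat.card Kb := by
    intro h
    rw [hKcard] at h
    have := Nat.dvd_gcd hpC h
    rw [(CfsgLib.Core.coprime_card_index hF).gcd_eq_one] at this
    exact hp.out.ne_one (Nat.eq_one_of_dvd_one this)
  set K := Kb.comap q with hK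
  haveI : K.Normal := hKn.comap q
  have hZK : Z ≤ K := hker ▸ ker_le_comap q Kb
  obtain ⟨P⟩ : Nonempty (Sylow p Z) := inferInstance
  set Zp := (P : Subgroup Z).map Z.subtype with hZp
  have hZpZ : Zp ≤ Z := map_subtype_le _
  haveI : Zp.Normal := ⟨fun z hz g => by
    rwa [Subgroup.mem_center_iff.mp (hZpZ hz) g, mul_inv_cancel_right]⟩
  have hZpK : Zp ≤ K := hZpZ.trans hZK
  have hZpP : IsPGroup p Zp := P.2.map _
  have hidx : ¬ p ∣ (Zp.subgroupOf K).index := by
    rw [← relIndex, ← relIndex_mul_relIndex Zp Z K hZpZ hZK]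
    refine hp.out.not_dvd_mul ?_ ?_
    · rw [relIndex, hZp, subgroupOf, comap_map_eq_self_of_injective Z.subtype_injective]
      exact P.not_dvd_index
    · have h : Z.relIndex K = Nat.card Kb := by
        have h' : q.ker.relIndex K = Nat.card Kb := by
          rw [Subgroup.relIndex_ker, hK,
            map_comap_eq_self_of_surjective (QuotientGroup.mk'_surjective Z)]
        rwa [hker] at h'
      rwa [h]
  have hcop : (Nat.card (Zp.subgroupOf K)).Coprime (Zp.subgroupOf K).index := by
    obtain ⟨k, hk⟩ := IsPGroup.iff_card.mp hZpP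
    rw [Nat.card_congr (subgroupOfEquivOfLe hZpK).toEquiv, hk]
    exact Nat.Coprime.pow_left k (hp.out.coprime_iff_not_dvd.mpr hidx)
  obtain ⟨M, hM⟩ := exists_right_complement'_of_coprime hcop
  have hMcop : (Nat.card M).Coprime p := by
    rw [← hM.symm.index_eq_card]
    exact (hp.out.coprime_iff_not_dvd.mpr hidx).symm
  have hdec : ∀ y ∈ K, ∃ z ∈ Zp, ∃ m ∈ M.map K.subtype, y = z * m := by
    intro y hy
    obtain ⟨⟨⟨a, ha⟩, ⟨b, hb⟩⟩, h⟩ := hM.2 ⟨y, hy⟩
    exact ⟨a, mem_subgroupOf.mp ha, b, ⟨b, hb, rfl⟩, congrArg Subtype.val h.symm⟩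
  have hMinv : ∀ h ∈ M.map K.subtype, x * h * x⁻¹ ∈ M.map K.subtype := by
    rintro _ ⟨m, hm, rfl⟩
    obtain ⟨z, hz, m', hm', h⟩ := hdec (x * m * x⁻¹)
      ((inferInstance : K.Normal).conj_mem _ m.2 x)
    have hMK : M.map K.subtype ≤ K := map_subtype_le _
    obtain ⟨N, hNdef⟩ : ∃ N, N = Nat.card M := ⟨_, rfl⟩
    have h1 : ∀ y ∈ M.map K.subtype, y ^ N = 1 := by
      rintro _ ⟨y, hy, rfl⟩
      rw [hNdef, ← map_pow]
      have := congrArg Subtype.val (pow_card_eq_one' (x := (⟨y, hy⟩ : M)))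
      simp only [SubmonoidClass.coe_pow, OneMemClass.coe_one] at this
      rw [this, map_one]
    have hcomm : Commute z m' := (Subgroup.mem_center_iff.mp (hZpZ hz) m').symm
    have h2 : z ^ N = 1 := by
      have h3 : (x * (m : G) * x⁻¹) ^ N = 1 := by
        rw [conj_pow, show (m : G) ^ N = 1 from h1 _ ⟨m, hm, rfl⟩, mul_one, mul_inv_cancel]
      rw [h, hcomm.mul_pow, h1 _ hm', mul_one] at h3
      exact h3
    obtain ⟨k, hk⟩ := IsPGroup.iff_card.mp hZpP
    have h4 : z ^ p ^ k = 1 := by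
      rw [← hk]
      exact congrArg Subtype.val (pow_card_eq_one' (x := (⟨z, hz⟩ : Zp)))
    have h5 : z ^ Nat.gcd N (p ^ k) = 1 := pow_gcd_eq_one.mpr ⟨h2, h4⟩
    rw [(hNdef ▸ hMcop.pow_right k : N.Coprime (p ^ k)).gcd_eq_one, pow_one] at h5
    show x * (m : G) * x⁻¹ ∈ _
    rw [h, h5, one_mul]
    exact hm'
  have hMc := hB (M.map K.subtype) (by rwa [card_map_of_injective K.subtype_injective]) hMinv
  have hKle : K ≤ C := by
    intro y hy
    obtain ⟨z, hz, m, hm, rfl⟩ := hdec y hy
    exact mul_mem (hZC (hZpZ hz)) (mem_centralizer_singleton_iff.mpr (hMc m hm).symm)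
  refine hCtop (top_unique ?_)
  calc (⊤ : Subgroup G) = (Kb ⊔ C.map q).comap q := by rw [hKsup, comap_top]
    _ = (K.map q ⊔ C.map q).comap q := by
        rw [hK, map_comap_eq_self_of_surjective (QuotientGroup.mk'_surjective Z)]
    _ ≤ (C.map q).comap q := comap_mono (sup_le (map_mono hKle) le_rfl)
    _ = C := hcomap

end CfsgLib.Local
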