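import Cfsg.Agent.Lib.LocalWeakClosed

/-!
# The factorization by `C(℧¹Z(T))` and `N(J(T))`
-/

set_option autoImplicit false

universe u

namespace CfsgLib.Local.JFactor

open CfsgLib.Core CfsgLib.Stable CfsgLib.Local.WeakClosed

variable {p : ℕ} [hp : Fact p.Prime]

/-- `a` acts quadratically on `V`. -/
def Quad {G : Type u} [Group G] (V : Subgroup G) (a : G) : Prop :=
  ∀ v ∈ V, a * (a * v * a⁻¹ * v⁻¹) = a * v * a⁻¹ * v⁻¹ * a

theorem conj_pow_quad {G : Type u} [Group G] {a d r : G} (hd : a * r * a⁻¹ * r⁻¹ = d)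
    (had : a * d = d * a) : ∀ k : ℕ, a ^ k * r * (a ^ k)⁻¹ = d ^ k * r := by
  intro k
  induction k with
  | zero => simp
  | succ k ih =>
    have h1 : a * d ^ k * a⁻¹ = d ^ k := by
      rw [((show Commute a d from had).pow_right k).eq, mul_inv_cancel_right]
    calc a ^ (k + 1) * r * (a ^ (k + 1))⁻¹ = a * (a ^ k * r * (a ^ k)⁻¹) * a⁻¹ := by
          rw [pow_succ']; group
      _ = a * d ^ k * a⁻¹ * (a * r * a⁻¹) := by rw [ih]; group
      _ = d ^ k * (d * r) := by rw [h1, ← hd]; group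
      _ = d ^ (k + 1) * r := by rw [pow_succ, mul_assoc]

/-- A quadratic element fixes the conjugates of `p`-th powers of central elements. -/
theorem quad_fixes {G : Type u} [Group G] [Finite G] (T : Sylow p G) (V : Subgroup G) [hVn : V.Normal]
    (hVc : ∀ a ∈ V, ∀ b ∈ V, a * b = b * a)
    (hZV : ∀ z ∈ (T : Subgroup G), (∀ t ∈ (T : Subgroup G), t * z = z * t) → z ∈ V) :
    ∀ (n : ℕ) (a : G), orderOf a ≤ n → a ∈ (T : Subgroup G) → Quad V a →
      ∀ g : G, ∀ z ∈ (T : Subgroup G), (∀ t ∈ (T : Subgroup G), t * z = z * t) →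
        a * (g * z ^ p * g⁻¹) = g * z ^ p * g⁻¹ * a := by
  intro n
  induction n with
  | zero => intro a ha; exact absurd ha (not_le.2 (orderOf_pos a))
  | succ n ih =>
    intro a han haT hq g z hz hzc
    rcases eq_or_ne a 1 with rfl | ha1
    · rw [one_mul, mul_one]
    set u := g * z ^ p * g⁻¹ with hu
    have hap : a ^ p * u = u * a ^ p := by
      refine ih (a ^ p) ?_ (pow_mem haT p) ?_ g z hz hzc
      · obtain ⟨k, hk⟩ := T.2 ⟨a, haT⟩
        have hk' : a ^ p ^ k = 1 := congrArg Subtype.val hk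
        obtain ⟨j, -, hj⟩ := (Nat.dvd_prime_pow hp.out).1 (orderOf_dvd_of_pow_eq_one hk')
        have hj0 : j ≠ 0 := fun e => ha1 (orderOf_eq_one_iff.1 (by rw [hj, e, pow_zero]))
        have hdvd : p ∣ orderOf a := by rw [hj]; exact dvd_pow_self p hj0
        rw [orderOf_pow_of_dvd hp.out.ne_zero hdvd]
        have := Nat.div_lt_self (orderOf_pos a) hp.out.one_lt
        omega
      · intro v hv
        have hd := conj_pow_quad (d := a * v * a⁻¹ * v⁻¹) rfl (hq v hv) p
        rw [show a ^ p * v * (a ^ p)⁻¹ * v⁻¹ = (a * v * a⁻¹ * v⁻¹) ^ p by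
          rw [hd, mul_inv_cancel_right]]
        exact (((show Commute a (a * v * a⁻¹ * v⁻¹) from hq v hv).pow_pow p p)).eq
    have hgT : ((g • T : Sylow p G) : Subgroup G) ≤ Subgroup.centralizer ({u} : Set G) := by
      rw [Sylow.coe_subgroup_smul]
      rintro _ ⟨s, hs, rfl⟩
      refine Subgroup.mem_centralizer_singleton_iff.2 ?_
      show g * s * g⁻¹ * u = u * (g * s * g⁻¹)
      rw [hu, show g * s * g⁻¹ * (g * z ^ p * g⁻¹) = g * (s * z ^ p) * g⁻¹ by group,
        ((show Commute s z from hzc s hs).pow_right p).eq]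
      group
    obtain ⟨c, hc, hcR⟩ := exists_conj_mem_sylow (g • T) hgT
      (T.2.to_le (inf_le_left : (T : Subgroup G) ⊓ Subgroup.centralizer ({u} : Set G) ≤ _)) inf_le_right
    have hcu : c * u = u * c := Subgroup.mem_centralizer_singleton_iff.1 hc
    set k := c⁻¹ * g with hk
    set r := k * z * k⁻¹ with hr
    have hrV : r ∈ V := hVn.conj_mem z (hZV z hz hzc) k
    have hru : r ^ p = u := by
      rw [hr, conj_pow, hk]
      calc c⁻¹ * g * z ^ p * (c⁻¹ * g)⁻¹ = c⁻¹ * (u * c) := by rw [hu]; group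
        _ = u := by rw [← hcu, inv_mul_cancel_left]
    have hfix : a ^ p * r * (a ^ p)⁻¹ = r := by
      have h1 := hcR (a ^ p) ⟨pow_mem haT p, Subgroup.mem_centralizer_singleton_iff.2 hap⟩
      rw [Sylow.coe_subgroup_smul] at h1
      obtain ⟨s, hs, hs'⟩ := h1
      have : g * s * g⁻¹ = c * a ^ p * c⁻¹ := hs'
      have hs2 : a ^ p = k * s * k⁻¹ := by
        rw [hk, show c⁻¹ * g * s * (c⁻¹ * g)⁻¹ = c⁻¹ * (g * s * g⁻¹) * c by group, this]
        group
      rw [hs2, hr, show k * s * k⁻¹ * (k * z * k⁻¹) * (k * s * k⁻¹)⁻¹ = k * (s * z * s⁻¹) * k⁻¹ by group,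
        hzc s hs, mul_inv_cancel_right]
    set d := a * r * a⁻¹ * r⁻¹ with hd
    have hdp : d ^ p = 1 := by
      have h := conj_pow_quad hd.symm (hq r hrV) p
      rw [hfix] at h
      exact mul_eq_right.1 h.symm
    have hdr : Commute d r :=
      hVc _ (V.mul_mem (hVn.conj_mem r hrV a) (V.inv_mem hrV)) _ hrV
    have e : a * u * a⁻¹ = u := by
      rw [← hru, ← conj_pow, show a * r * a⁻¹ = d * r by rw [hd]; group, hdr.mul_pow, hdp, one_mul]
    exact mul_inv_eq_iff_eq_mul.1 e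

/-- `g` moves `P ≤ T` into `T`. -/
def Mv {G : Type u} [Group G] (T P : Subgroup G) (g : G) : Prop :=
  P ≤ T ∧ ∀ x ∈ P, g * x * g⁻¹ ∈ T

/-- The conjugate `g P g⁻¹`. -/
def cj {G : Type u} [Group G] (g : G) (P : Subgroup G) : Subgroup G :=
  P.map (MulAut.conj g).toMonoidHom

theorem mem_cj {G : Type u} [Group G] {g : G} {P : Subgroup G} {x : G} :
    x ∈ cj g P ↔ g⁻¹ * x * g ∈ P := by
  constructor
  · rintro ⟨y, hy, rfl⟩
    show g⁻¹ * (g * y * g⁻¹) * g ∈ P
    rwa [show g⁻¹ * (g * y * g⁻¹) * g = y by group]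
  · intro h
    exact ⟨_, h, show g * (g⁻¹ * x * g) * g⁻¹ = x by group⟩

/-- A relation on moves that is closed under composition, inverse and restriction. -/
structure OkRel {G : Type u} [Group G] (T : Subgroup G) (Ok : Subgroup G → G → Prop) : Prop where
  restrict : ∀ {P R : Subgroup G} {g : G}, R ≤ P → Mv T P g → Ok P g → Ok R g
  comp : ∀ {P : Subgroup G} {g h : G}, Mv T P g → Mv T P (h * g) → Ok P g → Ok (cj g P) h →
    Ok P (h * g)
  inv : ∀ {P : Subgroup G} {g : G}, Mv T P g → Ok P g → Ok (cj g P) g⁻¹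

theorem conj_sylow_le {G : Type u} [Group G] [Finite G] (T : Sylow p G) {R : Subgroup G}
    (hR : IsPGroup p ↥R) : ∃ c : G, ∀ r ∈ R, c * r * c⁻¹ ∈ (T : Subgroup G) := by
  obtain ⟨c, -, hc⟩ := exists_conj_mem_sylow T (H := ⊤) le_top hR le_top
  exact ⟨c, hc⟩

/-- Fusion in `T` comes from a normal subgroup `K` and the normalizer of `K ⊓ T`. -/
theorem fuse {G : Type u} [Group G] [Finite G] (T : Sylow p G) {Ok : Subgroup G → G → Prop}
    (hOk : OkRel (T : Subgroup G) Ok) (K : Subgroup G) [hKn : K.Normal]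
    (hK : ∀ (P : Subgroup G), ∀ g ∈ K, Mv (T : Subgroup G) P g → Ok P g)
    (hM : ∀ (P : Subgroup G), ∀ g ∈ Subgroup.normalizer ((K ⊓ (T : Subgroup G) : Subgroup G) : Set G),
      Mv (T : Subgroup G) P g → Ok P g) :
    ∀ (P : Subgroup G) (g : G), Mv (T : Subgroup G) P g → Ok P g := by
  set M := Subgroup.normalizer ((K ⊓ (T : Subgroup G) : Subgroup G) : Set G) with hMdef
  suffices ∀ (n : ℕ) (P : Subgroup G) (g : G), Nat.card (T : Subgroup G) - Nat.card P = n →
      Mv (T : Subgroup G) P g → Ok P g from fun P g => this _ P g rfl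
  intro n
  induction n using Nat.strong_induction_on with
  | _ n ihn =>
  intro P g hn hPg
  have hbig : ∀ (P' : Subgroup G) (g' : G), Nat.card P < Nat.card P' → Mv (T : Subgroup G) P' g' →
      Ok P' g' := fun P' g' hlt h => by
    have := Subgroup.card_le_of_le h.1
    exact ihn _ (by omega) P' g' rfl h
  rcases eq_or_lt_of_le hPg.1 with hPT | hPT
  · refine hM P g (mem_normalizer_of_map_eq fun y hy => ?_) hPg
    exact ⟨hKn.conj_mem y hy.1 g, hPg.2 y (hPT ▸ hy.2)⟩
  -- moving to a subgroup with a Sylow normalizer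
  have hmove : ∀ Q : Subgroup G, Nat.card Q = Nat.card P → Q ≤ (T : Subgroup G) →
      ∃ (y : G), Ok Q y ∧ Mv (T : Subgroup G) Q y ∧
        ∀ X : Subgroup G, IsPGroup p ↥X → X ≤ Subgroup.normalizer (cj y Q : Set G) →
          Nat.card X ≤ Nat.card ((T : Subgroup G) ⊓ Subgroup.normalizer (cj y Q : Set G) : Subgroup G) := by
    intro Q hQc hQT
    set NQ := Subgroup.normalizer (Q : Set G)
    obtain ⟨X, hX, hXmax⟩ := Set.exists_max_image
      {X : Subgroup G | IsPGroup p ↥X ∧ X ≤ NQ ∧ (T : Subgroup G) ⊓ NQ ≤ X}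
      (fun X => Nat.card X) (Set.toFinite _) ⟨_, T.2.to_le inf_le_left, inf_le_right, le_rfl⟩
    obtain ⟨y, hy⟩ := conj_sylow_le T hX.1
    have hlt : Q < (T : Subgroup G) := lt_of_le_of_ne hQT fun e => by
      have : Nat.card Q = Nat.card (T : Subgroup G) := by rw [e]
      exact hPT.ne (Subgroup.eq_of_le_of_card_ge hPT.le (by omega))
    obtain ⟨t, htT, htQ, htN⟩ := exists_normalizer_gt hlt T.2
    have hQX : Q ≤ (T : Subgroup G) ⊓ NQ := le_inf hQT Subgroup.le_normalizer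
    have hcard : Nat.card P < Nat.card ((T : Subgroup G) ⊓ NQ : Subgroup G) := by
      rw [← hQc]
      refine lt_of_le_of_ne (Subgroup.card_le_of_le hQX) fun e => htQ ?_
      rw [Subgroup.eq_of_le_of_card_ge hQX e.ge]
      exact ⟨htT, htN⟩
    have hbigMv : Mv (T : Subgroup G) ((T : Subgroup G) ⊓ NQ) y :=
      ⟨inf_le_left, fun x hx => hy x (hX.2.2 hx)⟩
    refine ⟨y, hOk.restrict hQX hbigMv (hbig _ y hcard hbigMv), ⟨hQT, fun x hx => hy x (hX.2.2 (hQX hx))⟩,
      fun Y hY hYN => ?_⟩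
    have hcj : cj y⁻¹ Y ≤ NQ := fun x hx => by
      rw [mem_cj, inv_inv] at hx
      have h1 := Subgroup.mem_normalizer_iff.1 (hYN hx)
      refine Subgroup.mem_normalizer_iff.2 fun q => ?_
      have h2 := h1 (y * q * y⁻¹)
      simp only [mem_cj] at h2
      simpa [mul_assoc] using h2
    have hXT : cj y X ≤ (T : Subgroup G) ⊓ Subgroup.normalizer (cj y Q : Set G) := by
      rintro _ ⟨x, hx, rfl⟩
      refine ⟨hy x hx, Subgroup.mem_normalizer_iff.2 fun q => ?_⟩
      rw [mem_cj, mem_cj]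
      have h2 := Subgroup.mem_normalizer_iff.1 (hX.2.1 hx) (y⁻¹ * q * y)
      simpa [mul_assoc] using h2
    have e1 : Nat.card (cj y X) = Nat.card X :=
      Subgroup.card_map_of_injective (MulAut.conj y).injective
    have e2 : Nat.card (cj y⁻¹ Y) = Nat.card Y :=
      Subgroup.card_map_of_injective (MulAut.conj y⁻¹).injective
    have hYle : Nat.card (cj y⁻¹ Y) ≤ Nat.card X := by
      haveI : Finite ↥NQ := inferInstance
      obtain ⟨TX, hTX⟩ := (hX.1.comap_of_injective NQ.subtype NQ.subtype_injective).exists_le_sylow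
      obtain ⟨TY, hTY⟩ := ((hY.map (MulAut.conj y⁻¹).toMonoidHom : IsPGroup p ↥(cj y⁻¹ Y)).comap_of_injective
        NQ.subtype NQ.subtype_injective).exists_le_sylow
      have hX' : (TX : Subgroup ↥NQ).map NQ.subtype = X := by
        refine (Subgroup.eq_of_le_of_card_ge ?_ ?_).symm
        · intro x hx
          exact ⟨⟨x, hX.2.1 hx⟩, hTX (show (⟨x, hX.2.1 hx⟩ : NQ) ∈ X.comap NQ.subtype from hx), rfl⟩
        · refine hXmax _ ⟨TX.2.map _, Subgroup.map_subtype_le _, fun x hx => ?_⟩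
          exact ⟨⟨x, hx.2⟩, hTX (show (⟨x, hx.2⟩ : NQ) ∈ X.comap NQ.subtype from hX.2.2 hx), rfl⟩
      calc Nat.card (cj y⁻¹ Y) ≤ Nat.card ((TY : Subgroup ↥NQ).map NQ.subtype) :=
            Subgroup.card_le_of_le fun x hx =>
              ⟨⟨x, hcj hx⟩, hTY (show (⟨x, hcj hx⟩ : NQ) ∈ (cj y⁻¹ Y).comap NQ.subtype from hx), rfl⟩
        _ = Nat.card (TY : Subgroup ↥NQ) := Subgroup.card_map_of_injective NQ.subtype_injective
        _ = Nat.card (TX : Subgroup ↥NQ) := by rw [TX.card_eq_multiplicity, TY.card_eq_multiplicity]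
        _ = Nat.card X := by rw [← hX', Subgroup.card_map_of_injective NQ.subtype_injective]
    have := Subgroup.card_le_of_le hXT
    omega
  -- the automorphisms of such a subgroup
  have haut : ∀ R : Subgroup G, Nat.card R = Nat.card P → R ≤ (T : Subgroup G) →
      (∀ X : Subgroup G, IsPGroup p ↥X → X ≤ Subgroup.normalizer (R : Set G) →
        Nat.card X ≤ Nat.card ((T : Subgroup G) ⊓ Subgroup.normalizer (R : Set G) : Subgroup G)) →
      ∀ w ∈ Subgroup.normalizer (R : Set G), Ok R w := by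
    intro R hRc hRT hfull w hw
    set NR := Subgroup.normalizer (R : Set G)
    obtain ⟨TN, hTN⟩ := ((T.2.to_le (inf_le_left : (T : Subgroup G) ⊓ NR ≤ _)).comap_of_injective
      NR.subtype NR.subtype_injective).exists_le_sylow
    have hTN' : (TN : Subgroup ↥NR).map NR.subtype = (T : Subgroup G) ⊓ NR := by
      refine (Subgroup.eq_of_le_of_card_ge ?_ (hfull _ (TN.2.map _) (Subgroup.map_subtype_le _))).symm
      intro x hx
      exact ⟨⟨x, hx.2⟩, hTN (show (⟨x, hx.2⟩ : NR) ∈ ((T : Subgroup G) ⊓ NR).comap NR.subtype from hx), rfl⟩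
    obtain ⟨⟨l, hlN⟩, hl, ⟨m, hmN⟩, hm, hlm⟩ := frattini_decomp TN (K.subgroupOf NR) ⟨w, hw⟩
    have hlm' : w = l * m := congrArg Subtype.val hlm
    have hconjR : ∀ k ∈ NR, ∀ x ∈ R, k * x * k⁻¹ ∈ R := fun k hk x hx =>
      (Subgroup.mem_normalizer_iff.1 hk x).1 hx
    have hMvR : ∀ k ∈ NR, Mv (T : Subgroup G) R k := fun k hk => ⟨hRT, fun x hx => hRT (hconjR k hk x hx)⟩
    have hcjR : cj m R = R := by
      ext x
      rw [mem_cj]
      have h := Subgroup.mem_normalizer_iff.1 hmN (m⁻¹ * x * m)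
      rw [show m * (m⁻¹ * x * m) * m⁻¹ = x by group] at h
      exact h
    have hOkm : Ok R m := by
      set Q₀ := K ⊓ ((T : Subgroup G) ⊓ NR) with hQ₀
      have hmQ₀ : ∀ x ∈ Q₀, m * x * m⁻¹ ∈ Q₀ := by
        intro x hx
        have hx' : x ∈ (TN : Subgroup ↥NR).map NR.subtype := by rw [hTN']; exact hx.2
        obtain ⟨x', hx', rfl⟩ := hx'
        have h := (Subgroup.mem_normalizer_iff.1 hm x').1 ⟨hx.1, hx'⟩
        exact ⟨h.1, hTN' ▸ ⟨_, h.2, rfl⟩⟩
      by_cases hQR : Q₀ ≤ R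
      · -- `K ⊓ T ≤ R`
        have hKTR : K ⊓ (T : Subgroup G) ≤ R := by
          by_contra hne
          have hlt : R < R ⊔ (K ⊓ (T : Subgroup G)) :=
            lt_of_le_of_ne le_sup_left fun e => hne (e ▸ le_sup_right)
          obtain ⟨y, hy, hyR, hyN⟩ :=
            exists_normalizer_gt hlt (T.2.to_le (sup_le hRT inf_le_right))
          have hRn : R ≤ Subgroup.normalizer ((K ⊓ (T : Subgroup G) : Subgroup G) : Set G) :=
            fun r hr => mem_normalizer_of_map_eq fun x hx => ⟨hKn.conj_mem x hx.1 r,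
              (T : Subgroup G).mul_mem ((T : Subgroup G).mul_mem (hRT hr) hx.2) ((T : Subgroup G).inv_mem (hRT hr))⟩
          rw [← SetLike.mem_coe, Subgroup.coe_mul_of_left_le_normalizer_right R _ hRn] at hy
          obtain ⟨r, hr, t, ht, rfl⟩ := Set.mem_mul.mp hy
          have htN : t ∈ NR := by
            have := NR.mul_mem (NR.inv_mem (Subgroup.le_normalizer hr)) hyN
            rwa [inv_mul_cancel_left] at this
          exact hyR (R.mul_mem hr (hQR ⟨ht.1, ht.2, htN⟩))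
        refine hM R m (mem_normalizer_of_map_eq fun x hx => ?_) (hMvR m hmN)
        exact ⟨hKn.conj_mem x hx.1 m, hRT (hconjR m hmN x (hKTR hx))⟩
      · have hlt : R < R ⊔ Q₀ := lt_of_le_of_ne le_sup_left fun e => hQR (e ▸ le_sup_right)
        have hle : R ⊔ Q₀ ≤ (T : Subgroup G) := sup_le hRT (inf_le_right.trans inf_le_left)
        have hmv : Mv (T : Subgroup G) (R ⊔ Q₀) m := by
          refine ⟨hle, fun x hx => hle ?_⟩
          have : R ⊔ Q₀ ≤ (R ⊔ Q₀).comap (MulAut.conj m).toMonoidHom :=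
            sup_le (fun y hy => Subgroup.mem_sup_left (hconjR m hmN y hy))
              (fun y hy => Subgroup.mem_sup_right (hmQ₀ y hy))
          exact this hx
        refine hOk.restrict le_sup_left hmv (hbig _ m ?_ hmv)
        rw [← hRc]
        exact lt_of_le_of_ne (Subgroup.card_le_of_le le_sup_left)
          fun e => hlt.ne (Subgroup.eq_of_le_of_card_ge le_sup_left e.ge)
    rw [hlm'] at hw ⊢
    refine hOk.comp (hMvR m hmN) (hMvR _ hw) hOkm ?_
    rw [hcjR]
    exact hK R l hl (hMvR l hlN)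
  -- put the pieces together
  have hQc : ∀ (Q : Subgroup G) (h : G), Nat.card (cj h Q) = Nat.card Q := fun Q h =>
    Subgroup.card_map_of_injective (MulAut.conj h).injective
  have hcjle : ∀ {Q : Subgroup G} {h : G}, Mv (T : Subgroup G) Q h → cj h Q ≤ (T : Subgroup G) := by
    rintro Q h hQ _ ⟨x, hx, rfl⟩
    exact hQ.2 x hx
  have hcjcj : ∀ (a b : G) (Q : Subgroup G), cj a (cj b Q) = cj (a * b) Q := fun a b Q => by
    ext x
    simp [mem_cj, mul_assoc]
  obtain ⟨y, hy, hymv, hyfull⟩ := hmove P rfl hPg.1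
  obtain ⟨y', hy', hy'mv, hy'full⟩ := hmove (cj g P) (hQc P g) (hcjle hPg)
  set R := cj y P with hR
  set R' := cj y' (cj g P) with hR'
  set n₀ := y' * g * y⁻¹ with hn₀
  have hRR' : cj n₀ R = R' := by rw [hR, hR', hcjcj, hcjcj, hn₀, inv_mul_cancel_right]
  have hRc : Nat.card R = Nat.card P := hQc P y
  have hR'c : Nat.card R' = Nat.card P := by rw [hR', hQc, hQc]
  set NR := Subgroup.normalizer (R : Set G)
  set NR' := Subgroup.normalizer (R' : Set G)
  obtain ⟨w, hw, hwT⟩ : ∃ w ∈ NR', ∀ x ∈ (T : Subgroup G) ⊓ NR, w * n₀ * x * (w * n₀)⁻¹ ∈ (T : Subgroup G) := by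
    have hsub : cj n₀ ((T : Subgroup G) ⊓ NR) ≤ NR' := by
      rintro _ ⟨x, hx, rfl⟩
      refine Subgroup.mem_normalizer_iff.2 fun q => ?_
      have hcjn : ∀ z, z ∈ R' ↔ n₀⁻¹ * z * n₀ ∈ R := fun z => by rw [← hRR']; exact mem_cj
      show q ∈ R' ↔ _ ∈ R'
      rw [hcjn, hcjn]
      have h2 := Subgroup.mem_normalizer_iff.1 hx.2 (n₀⁻¹ * q * n₀)
      simpa [mul_assoc] using h2
    obtain ⟨TN, hTN⟩ := ((T.2.to_le (inf_le_left : (T : Subgroup G) ⊓ NR' ≤ _)).comap_of_injective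
      NR'.subtype NR'.subtype_injective).exists_le_sylow
    have hTN' : (TN : Subgroup ↥NR').map NR'.subtype = (T : Subgroup G) ⊓ NR' := by
      refine (Subgroup.eq_of_le_of_card_ge ?_ (hy'full _ (TN.2.map _) (Subgroup.map_subtype_le _))).symm
      intro x hx
      exact ⟨⟨x, hx.2⟩, hTN (show (⟨x, hx.2⟩ : NR') ∈ ((T : Subgroup G) ⊓ NR').comap NR'.subtype from hx), rfl⟩
    have hp' : IsPGroup p ↥(cj n₀ ((T : Subgroup G) ⊓ NR)) := (T.2.to_le inf_le_left).map _
    obtain ⟨⟨w, hw⟩, hwc⟩ := conj_sylow_le TN (hp'.comap_of_injective NR'.subtype NR'.subtype_injective)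
    refine ⟨w, hw, fun x hx => ?_⟩
    have hx' : n₀ * x * n₀⁻¹ ∈ cj n₀ ((T : Subgroup G) ⊓ NR) := ⟨x, hx, rfl⟩
    have h := hwc ⟨_, hsub hx'⟩ hx'
    have h' : w * (n₀ * x * n₀⁻¹) * w⁻¹ ∈ (TN : Subgroup ↥NR').map NR'.subtype := ⟨_, h, rfl⟩
    rw [hTN'] at h'
    rw [show w * n₀ * x * (w * n₀)⁻¹ = w * (n₀ * x * n₀⁻¹) * w⁻¹ by group]
    exact h'.1
  have hR'T : R' ≤ (T : Subgroup G) := hcjle hy'mv
  have hRT : R ≤ (T : Subgroup G) := hcjle hymv
  have hwmv : Mv (T : Subgroup G) ((T : Subgroup G) ⊓ NR) (w * n₀) := ⟨inf_le_left, hwT⟩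
  have hRle : R ≤ (T : Subgroup G) ⊓ NR := le_inf hRT Subgroup.le_normalizer
  have hlt : Nat.card P < Nat.card ((T : Subgroup G) ⊓ NR : Subgroup G) := by
    have hRlt : R < (T : Subgroup G) := lt_of_le_of_ne hRT fun e => by
      have : Nat.card R = Nat.card (T : Subgroup G) := by rw [e]
      exact hPT.ne (Subgroup.eq_of_le_of_card_ge hPT.le (by omega))
    obtain ⟨t, htT, htR, htN⟩ := exists_normalizer_gt hRlt T.2
    rw [← hRc]
    refine lt_of_le_of_ne (Subgroup.card_le_of_le hRle) fun e => htR ?_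
    rw [Subgroup.eq_of_le_of_card_ge hRle e.ge]
    exact ⟨htT, htN⟩
  have hwn : Ok R (w * n₀) := hOk.restrict hRle hwmv (hbig _ _ hlt hwmv)
  have hw' : Ok R' w⁻¹ := haut R' hR'c hR'T hy'full _ (inv_mem hw)
  -- `g = y'⁻¹ w⁻¹ (w n₀) y`
  have e1 : cj (w * n₀) R = R' := by
    rw [← hcjcj, hRR']
    ext x
    rw [mem_cj]
    have h := Subgroup.mem_normalizer_iff.1 hw (w⁻¹ * x * w)
    rw [show w * (w⁻¹ * x * w) * w⁻¹ = x by group] at h
    exact h
  have hn : Ok R n₀ := by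
    have h := hOk.comp (P := R) (g := w * n₀) (h := w⁻¹)
      ⟨hRT, fun x hx => hwT x (hRle hx)⟩
      ⟨hRT, fun x hx => by
        rw [inv_mul_cancel_left]
        exact hR'T (hRR' ▸ ⟨x, hx, rfl⟩)⟩ hwn (by rw [e1]; exact hw')
    rwa [inv_mul_cancel_left] at h
  have hny : Ok P (n₀ * y) := hOk.comp hymv ⟨hPg.1, fun x hx => by
    refine hR'T ?_
    rw [hR', hcjcj, show y' * g = n₀ * y by rw [hn₀, inv_mul_cancel_right]]
    exact ⟨x, hx, rfl⟩⟩ hy hn
  have hy'inv : Ok R' y'⁻¹ := hOk.inv hy'mv hy'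
  have hfin := hOk.comp (P := P) (g := n₀ * y) (h := y'⁻¹) ⟨hPg.1, fun x hx => by
      refine hR'T ?_
      rw [hR', hcjcj, show y' * g = n₀ * y by rw [hn₀, inv_mul_cancel_right]]
      exact ⟨x, hx, rfl⟩⟩
    ⟨hPg.1, fun x hx => by
      rw [show y'⁻¹ * (n₀ * y) = g by rw [hn₀]; group]
      exact hPg.2 x hx⟩ hny (by
      rw [← hcjcj, ← hR, hRR']
      exact hy'inv)
  rwa [show y'⁻¹ * (n₀ * y) = g by rw [hn₀]; group] at hfin

/-- A constrained group is fused by `C(℧¹Z(T))` and `N(J(T))`. -/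
theorem factorization :
    ∀ (n : ℕ) (G : Type u) [Group G] [Finite G], Nat.card G ≤ n →
      Subgroup.centralizer (Cfsg.pCore p G : Set G) ≤ Cfsg.pCore p G →
      ∀ (T : Sylow p G) (Ok : Subgroup G → G → Prop), OkRel (T : Subgroup G) Ok →
        (∀ (P : Subgroup G) (g : G), (∀ z ∈ (T : Subgroup G), (∀ t ∈ (T : Subgroup G), t * z = z * t) →
          g * z ^ p = z ^ p * g) → Mv (T : Subgroup G) P g → Ok P g) →
        (∀ (P : Subgroup G), ∀ g ∈ Subgroup.normalizer (Jsub 0 (T : Subgroup G) : Set G),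
          Mv (T : Subgroup G) P g → Ok P g) →
        ∀ (P : Subgroup G) (g : G), Mv (T : Subgroup G) P g → Ok P g := by
  intro n
  induction n with
  | zero => intro G _ _ hG; exact absurd hG (not_le.2 Nat.card_pos)
  | succ n ih =>
    intro G _ _ hG hcen T Ok hOk hC hJ
    classical
    haveI := CfsgLib.Core.normal_pCore (G := G) p
    set D := Cfsg.pCore p G with hD
    have hDT : D ≤ (T : Subgroup G) := CfsgLib.Core.pCore_le_sylow T
    set V := D ⊓ Subgroup.centralizer (D : Set G) with hV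
    haveI hVn : V.Normal := by rw [hV]; infer_instance
    have hVT : V ≤ (T : Subgroup G) := inf_le_left.trans hDT
    have hVc : ∀ a ∈ V, ∀ b ∈ V, a * b = b * a := fun a ha b hb =>
      Subgroup.mem_centralizer_iff.1 hb.2 a ha.1
    have hZV : ∀ z ∈ (T : Subgroup G), (∀ t ∈ (T : Subgroup G), t * z = z * t) → z ∈ V := by
      intro z hz hzc
      have hzC : z ∈ Subgroup.centralizer (D : Set G) :=
        Subgroup.mem_centralizer_iff.2 fun d hd => hzc d (hDT hd)
      exact ⟨hcen hzC, hzC⟩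
    set C := Subgroup.centralizer (V : Set G) with hCdef
    haveI hCn : C.Normal := by rw [hCdef]; infer_instance
    set U : Set G := {y | ∃ g : G, ∃ z ∈ (T : Subgroup G),
      (∀ t ∈ (T : Subgroup G), t * z = z * t) ∧ y = g * z ^ p * g⁻¹} with hU
    set K := Subgroup.centralizer U with hKdef
    have hKH : ∀ (P : Subgroup G), ∀ k ∈ K, Mv (T : Subgroup G) P k → Ok P k := fun P k hk =>
      hC P k fun z hz hzc => (Subgroup.mem_centralizer_iff.1 hk _ ⟨1, z, hz, hzc, by group⟩).symm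
    haveI hKn : K.Normal := ⟨fun k hk h => by
      rw [hKdef, Subgroup.mem_centralizer_iff] at hk ⊢
      rintro _ ⟨g, z, hz, hzc, rfl⟩
      have h1 := hk _ ⟨h⁻¹ * g, z, hz, hzc, rfl⟩
      calc g * z ^ p * g⁻¹ * (h * k * h⁻¹)
          = h * (h⁻¹ * g * z ^ p * (h⁻¹ * g)⁻¹ * k) * h⁻¹ := by group
        _ = h * (k * (h⁻¹ * g * z ^ p * (h⁻¹ * g)⁻¹)) * h⁻¹ := by rw [h1]
        _ = h * k * h⁻¹ * (g * z ^ p * g⁻¹) := by group⟩
    have hDC : D ≤ C := fun d hd => Subgroup.mem_centralizer_iff.2 fun v hv =>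
      (Subgroup.mem_centralizer_iff.1 hv.2 d hd).symm
    by_cases hAex : ∃ A, IsMax 0 (T : Subgroup G) A ∧ ¬ A ≤ C
    swap
    · push_neg at hAex
      refine fuse T hOk C (fun P l hl => hC P l fun z hz hzc =>
        ((show Commute z l from Subgroup.mem_centralizer_iff.1 hl z (hZV z hz hzc)).symm.pow_right p).eq)
        fun P m hm => hJ P m ?_
      rw [← Jsub_eq_of_between (inf_le_right : C ⊓ (T : Subgroup G) ≤ (T : Subgroup G))
        fun A hA => le_inf (hAex A hA) hA.1]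
      exact normalizer_le_Jsub 0 _ hm
    obtain ⟨A, ⟨hA, hAC⟩, hmax⟩ := Set.exists_max_image
      {A : Subgroup G | IsMax 0 (T : Subgroup G) A ∧ ¬ A ≤ C}
      (fun A => Nat.card ↥(A ⊓ V)) (Set.toFinite _) hAex
    have hVA : V ≤ Subgroup.normalizer (A : Set G) := by
      by_contra hn
      obtain ⟨B, hB, hBN, hlt⟩ := CfsgLib.Local.Rep.thompson_replacement T.2 hA hVT hVc hn
      by_cases hBC : B ≤ C
      · refine hn fun v hv => hBN (mem_of_isMax hB (hVT hv) (pow_zero v) fun b hb => ?_)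
        exact (Subgroup.mem_centralizer_iff.1 (hBC hb) v hv).symm
      · exact absurd (hmax B ⟨hB, hBC⟩) (not_le.2 hlt)
    have hAK : A ≤ K ⊓ (T : Subgroup G) := fun a ha => by
      refine ⟨?_, hA.1 ha⟩
      have hqa : Quad V a := fun v hv => hA.2.1.1 a ha _ (by
        rw [show a * v * a⁻¹ * v⁻¹ = a * (v * a⁻¹ * v⁻¹) by group]
        exact A.mul_mem ha ((Subgroup.mem_normalizer_iff.1 (hVA hv) _).1 (A.inv_mem ha)))
      show a ∈ Subgroup.centralizer U
      rw [Subgroup.mem_centralizer_iff]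
      rintro _ ⟨g, z, hz, hzc, rfl⟩
      exact (quad_fixes T V hVc hZV _ a le_rfl (hA.1 ha) hqa g z hz hzc).symm
    set M := Subgroup.normalizer ((K ⊓ (T : Subgroup G) : Subgroup G) : Set G) with hM
    have hMt : M ≠ ⊤ := fun e => hAC (by
      haveI : (K ⊓ (T : Subgroup G)).Normal := Subgroup.normalizer_eq_top_iff.1 e
      exact hAK.trans ((CfsgLib.Core.le_pCore inferInstance (T.2.to_le inf_le_right)).trans hDC))
    have hTM : (T : Subgroup G) ≤ M := fun t ht => mem_normalizer_of_map_eq fun y hy =>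
      ⟨hKn.conj_mem y hy.1 t,
        (T : Subgroup G).mul_mem ((T : Subgroup G).mul_mem ht hy.2) ((T : Subgroup G).inv_mem ht)⟩
    have hlt : Nat.card ↥M ≤ n := by
      have h1 := Subgroup.card_le_card_group M
      have h2 : Nat.card ↥M ≠ Nat.card G := fun e => hMt (Subgroup.eq_top_of_card_eq M e)
      omega
    have hcore : D.subgroupOf M ≤ Cfsg.pCore p ↥M :=
      CfsgLib.Core.le_pCore inferInstance
        ((CfsgLib.Core.isPGroup_pCore p).comap_of_injective M.subtype M.subtype_injective)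
    have hcenM : Subgroup.centralizer (Cfsg.pCore p ↥M : Set ↥M) ≤ Cfsg.pCore p ↥M := by
      intro m hm
      refine hcore (hcen (Subgroup.mem_centralizer_iff.2 fun d hd => ?_))
      exact congrArg Subtype.val (Subgroup.mem_centralizer_iff.1 hm ⟨d, hTM (hDT hd)⟩ (hcore hd))
    have hmap : ((T.subtype hTM : Sylow p ↥M) : Subgroup ↥M).map M.subtype = (T : Subgroup G) := by
      rw [Sylow.coe_subtype, Subgroup.map_subgroupOf_eq_of_le hTM]
    set TM := T.subtype hTM with hTMdef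
    have hTMmem : ∀ x : ↥M, x ∈ (TM : Subgroup ↥M) ↔ (x : G) ∈ (T : Subgroup G) := fun x => by
      rw [hTMdef, Sylow.coe_subtype]; rfl
    have hMv : ∀ {P : Subgroup ↥M} {g : ↥M}, Mv (TM : Subgroup ↥M) P g →
        Mv (T : Subgroup G) (P.map M.subtype) (g : G) := by
      rintro P g ⟨h1, h2⟩
      refine ⟨?_, ?_⟩
      · rintro _ ⟨x, hx, rfl⟩
        exact (hTMmem x).1 (h1 hx)
      · rintro _ ⟨x, hx, rfl⟩
        exact (hTMmem _).1 (h2 x hx)
    have hcjM : ∀ (P : Subgroup ↥M) (g : ↥M), (cj g P).map M.subtype = cj (g : G) (P.map M.subtype) :=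
      fun P g => by simp only [cj, Subgroup.map_map]; rfl
    have hrec := ih ↥M hlt hcenM TM (fun P g => Ok (P.map M.subtype) (g : G))
      ⟨fun hle hm h => hOk.restrict (Subgroup.map_mono hle) (hMv hm) h,
        fun {P g h} hg hhg h1 h2 => hOk.comp (hMv hg) (hMv hhg) h1 (hcjM P g ▸ h2),
        fun {P g} hg h1 => by rw [hcjM]; exact hOk.inv (hMv hg) h1⟩
      (fun P g hg hmv => hC _ g (fun z hz hzc => congrArg Subtype.val (hg ⟨z, hTM hz⟩ ((hTMmem _).2 hz)
        fun t ht => Subtype.ext (hzc t ((hTMmem t).1 ht)))) (hMv hmv))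
      (fun P g hg hmv => hJ _ g (by
        have hinj := Set.injOn_of_injective (s := (((T.subtype hTM : Sylow p ↥M) : Subgroup ↥M) : Set ↥M))
          M.subtype_injective
        have hg' := Subgroup.le_normalizer_map (H := Jsub 0 ((T.subtype hTM : Sylow p ↥M) : Subgroup ↥M))
          M.subtype ⟨g, hg, rfl⟩
        rwa [map_Jsub 0 _ _ hinj, hmap] at hg') (hMv hmv))
    refine fuse T hOk K hKH fun P g hg hmv => ?_
    have hPM : P ≤ M := hmv.1.trans hTM
    have h := hrec (P.subgroupOf M) ⟨g, hg⟩ ⟨fun x hx => (hTMmem x).2 (hmv.1 hx),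
      fun x hx => (hTMmem _).2 (hmv.2 x hx)⟩
    rwa [Subgroup.map_subgroupOf_eq_of_le hPM] at h

end CfsgLib.Local.JFactor
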