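import Cfsg.Agent.Lib.CoreBasic
import Cfsg.Agent.Lib.CoreLayer
import Cfsg.Agent.Lib.CoreCoprime
import Cfsg.Agent.Lib.CoreCoprime2
import Cfsg.Agent.Lib.CoreSubnormal
import Cfsg.Agent.Lib.CoreGen
import Cfsg.Agent.Lib.LocalBase
import Cfsg.Agent.Lib.LocalTypes
import Cfsg.Agent.Lib.LocalRankTwo

/-!
Components of quotients by an inverted odd normal subgroup, and balance for an elementary abelian
2-group whose centralisers have no components.
-/

set_option autoImplicit false

namespace CfsgLib.Local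

open scoped Pointwise commutatorElement
open CfsgLib.Core

universe u

section CentralExt

variable {H Q : Type*} [Group H] [Group Q]

theorem commutator_top_le_of_sup_central {D Z : Subgroup H} [Z.Normal]
    (hZ : Z ≤ Subgroup.center H) (hD : D ⊔ Z = ⊤) :
    (⁅(⊤ : Subgroup H), (⊤ : Subgroup H)⁆ : Subgroup H) ≤ ⁅D, D⁆ := by
  rw [Subgroup.commutator_le]
  intro a _ b _
  obtain ⟨d, hd, k, hk, rfl⟩ := Subgroup.mem_sup_of_normal_right.1 (hD.symm ▸ Subgroup.mem_top a)
  obtain ⟨d', hd', k', hk', rfl⟩ := Subgroup.mem_sup_of_normal_right.1 (hD.symm ▸ Subgroup.mem_top b)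
  have h1 : ∀ g, g * k = k * g := fun g => Subgroup.mem_center_iff.1 (hZ hk) g
  have h2 : ∀ g, g * k' = k' * g := fun g => Subgroup.mem_center_iff.1 (hZ hk') g
  have e : ⁅d * k, d' * k'⁆ = ⁅d, d'⁆ := by
    simp only [commutatorElement_def, mul_inv_rev]
    calc d * k * (d' * k') * (k⁻¹ * d⁻¹) * (k'⁻¹ * d'⁻¹)
        = d * (k * (d' * k')) * (k⁻¹ * d⁻¹) * (k'⁻¹ * d'⁻¹) := by group
      _ = d * ((d' * k') * k) * (k⁻¹ * d⁻¹) * (k'⁻¹ * d'⁻¹) := by rw [← h1]
      _ = d * d' * (k' * d⁻¹) * k'⁻¹ * d'⁻¹ := by group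
      _ = d * d' * (d⁻¹ * k') * k'⁻¹ * d'⁻¹ := by rw [← h2]
      _ = d * d' * d⁻¹ * d'⁻¹ := by group
  rw [e]
  exact Subgroup.commutator_mem_commutator hd hd'

/-- The derived group of a central extension of a quasisimple group is quasisimple. -/
theorem quasisimple_commutator_of_central_ext (f : H →* Q) (hf : Function.Surjective f)
    (hker : f.ker ≤ Subgroup.center H) (hQ : Cfsg.IsQuasisimple Q) :
    Cfsg.IsQuasisimple ↥(⁅(⊤ : Subgroup H), (⊤ : Subgroup H)⁆ : Subgroup H) := by
  haveI := quasisimple_nontrivial hQ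
  haveI := hQ.1
  set D : Subgroup H := ⁅(⊤ : Subgroup H), (⊤ : Subgroup H)⁆ with hD
  haveI : D.Normal := by rw [hD]; infer_instance
  have hQp : ⁅(⊤ : Subgroup Q), ⊤⁆ = ⊤ := Group.IsPerfect.commutator_eq_top (G := Q)
  have hmap : D.map f = ⊤ := by
    rw [hD, Subgroup.map_commutator, Subgroup.map_top_of_surjective f hf, hQp]
  have hsup : ∀ E : Subgroup H, E.map f = ⊤ → E ⊔ f.ker = ⊤ := fun E hE => by
    rw [← Subgroup.comap_map_eq, hE, Subgroup.comap_top]
  have hsupD := hsup D hmap
  have hDD : ⁅D, D⁆ = D := le_antisymm (Subgroup.commutator_le_self D)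
    (commutator_top_le_of_sup_central hker hsupD)
  haveI hperf : Group.IsPerfect ↥D := (Subgroup.isPerfect_iff).2 hDD
  have hne : D ≠ ⊥ := by
    intro h
    rw [h, Subgroup.map_bot] at hmap
    exact bot_ne_top hmap
  haveI : Nontrivial ↥D := (Subgroup.nontrivial_iff_ne_bot D).2 hne
  have hcenter : Subgroup.center ↥D ≠ ⊤ := by
    intro h
    refine Group.IsPerfect.not_isSolvable ↥D ?_
    exact Group.isSolvable_of_comm (fun a b => Subgroup.mem_center_iff.1 (h ▸ Subgroup.mem_top b) a)
  refine ⟨hperf, ?_⟩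
  haveI : Nontrivial (↥D ⧸ Subgroup.center ↥D) := QuotientGroup.nontrivial_iff.2 hcenter
  refine IsSimpleGroup.mk fun N₀ hN₀ => ?_
  set π := QuotientGroup.mk' (Subgroup.center ↥D) with hπ
  set N := N₀.comap π with hN
  haveI hNn : N.Normal := hN₀.comap π
  suffices hcases : N = ⊤ ∨ N ≤ Subgroup.center ↥D by
    rcases hcases with h | h
    · right
      rw [← Subgroup.map_comap_eq_self_of_surjective (QuotientGroup.mk'_surjective _) N₀, ← hπ, ← hN, h,
        Subgroup.map_top_of_surjective _ (QuotientGroup.mk'_surjective _)]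
    · left
      rw [← Subgroup.map_comap_eq_self_of_surjective (QuotientGroup.mk'_surjective _) N₀, ← hπ, ← hN,
        eq_bot_iff, Subgroup.map_le_iff_le_comap, MonoidHom.comap_bot, hπ, QuotientGroup.ker_mk']
      exact h
  set N' := N.map D.subtype with hN'
  haveI hN'n : N'.Normal := ⟨fun n hn g => by
    obtain ⟨m, hm, rfl⟩ := Subgroup.mem_map.1 hn
    obtain ⟨d, hd, k, hk, rfl⟩ := Subgroup.mem_sup_of_normal_right.1 (hsupD.symm ▸ Subgroup.mem_top g)
    have hk' := Subgroup.mem_center_iff.1 (hker hk) (D.subtype m)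
    refine Subgroup.mem_map.2 ⟨⟨d, hd⟩ * m * ⟨d, hd⟩⁻¹, hNn.conj_mem m hm _, ?_⟩
    have e : d * k * D.subtype m * (d * k)⁻¹ = d * (k * D.subtype m * k⁻¹) * d⁻¹ := by group
    rw [e, ← hk', mul_inv_cancel_right]
    simp⟩
  rcases quasisimple_normal_cases hQ (hN := hN'n.map f hf) (N'.map f) with h | h
  · left
    have h1 : D ≤ N' := (commutator_top_le_of_sup_central hker (hsup N' h)).trans
      (Subgroup.commutator_le_self N')
    rw [eq_top_iff]
    intro d _
    obtain ⟨m, hm, he⟩ := Subgroup.mem_map.1 (h1 d.2)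
    rwa [← Subtype.ext (by simpa using he : (m : H) = d)]
  · right
    have h1 : ⁅N', (⊤ : Subgroup H)⁆ ≤ Subgroup.center H := by
      refine le_trans ?_ hker
      rw [Subgroup.commutator_le]
      intro n hn g _
      rw [MonoidHom.mem_ker, map_commutatorElement, commutatorElement_eq_one_iff_mul_comm]
      exact (Subgroup.mem_center_iff.1 (h (Subgroup.mem_map_of_mem f hn)) (f g)).symm
    have h2 : ⁅⁅N', (⊤ : Subgroup H)⁆, (⊤ : Subgroup H)⁆ = ⊥ := by
      rw [Subgroup.commutator_eq_bot_iff_le_centralizer, Subgroup.coe_top]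
      exact h1.trans (Subgroup.center_le_centralizer _)
    have h3 : ⁅D, N'⁆ = ⊥ := Subgroup.commutator_commutator_eq_bot_of_rotate
      (by rwa [Subgroup.commutator_comm ⊤ N']) h2
    intro n hn
    refine Subgroup.mem_center_iff.2 fun d => Subtype.ext ?_
    have := Subgroup.commutator_mem_commutator (show (d : H) ∈ D from d.2)
      (Subgroup.mem_map_of_mem D.subtype hn : (n : H) ∈ N')
    rw [h3, Subgroup.mem_bot, commutatorElement_eq_one_iff_mul_comm] at this
    simpa using this

/-- A component of a quotient whose kernel is central in its preimage gives a component upstairs. -/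
theorem exists_component_of_central_comap (f : H →* Q) (hf : Function.Surjective f)
    {L : Subgroup Q} (hL : Cfsg.IsComponent L)
    (hker : f.ker ≤ Subgroup.centralizer (L.comap f : Set H)) :
    ∃ K : Subgroup H, Cfsg.IsComponent K := by
  have hs : (L.comap f).IsSubnormal := hL.1.comap f
  let g : ↥(L.comap f) →* ↥L := f.subgroupComap L
  have hg : Function.Surjective g := MonoidHom.subgroupComap_surjective_of_surjective f L hf
  have hgk : g.ker ≤ Subgroup.center ↥(L.comap f) := fun a ha => by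
    refine Subgroup.mem_center_iff.2 fun b => Subtype.ext ?_
    have ha' : (a : H) ∈ f.ker := by
      rw [MonoidHom.mem_ker] at ha ⊢
      exact congrArg Subtype.val ha
    simpa using Subgroup.mem_centralizer_iff.1 (hker ha') b b.2
  have hq := quasisimple_commutator_of_central_ext g hg hgk hL.2
  have hn : (⁅(⊤ : Subgroup ↥(L.comap f)), (⊤ : Subgroup ↥(L.comap f))⁆ :
    Subgroup ↥(L.comap f)).Normal := inferInstance
  exact ⟨_, isComponent_map_subtype hs ⟨hn.isSubnormal, hq⟩⟩

end CentralExt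

section Inverted

variable {M : Type*} [Group M] [Finite M]

/-- If an involution `z` inverts an odd normal subgroup `K` and neither the group nor `C(z)` has a
component, then `M / K` has none. -/
theorem no_component_quotient_of_inverted {K : Subgroup M} [K.Normal] {z : M} (hz : z * z = 1)
    (hodd : Odd (Nat.card ↥K)) (hinv : ∀ x ∈ K, z * x * z = x⁻¹)
    (hM : ∀ L : Subgroup M, ¬ Cfsg.IsComponent L)
    (hCz : ∀ L : Subgroup ↥(Subgroup.centralizer ({z} : Set M)), ¬ Cfsg.IsComponent L) :
    ∀ L : Subgroup (M ⧸ K), ¬ Cfsg.IsComponent L := by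
  intro L hL
  have hzi : z⁻¹ = z := inv_eq_of_mul_eq_one_right hz
  set π := QuotientGroup.mk' K with hπ
  have hπs : Function.Surjective π := QuotientGroup.mk'_surjective K
  have hKab : ∀ x ∈ K, ∀ y ∈ K, x * y = y * x := by
    intro x hx y hy
    have h1 := hinv _ (mul_mem hx hy)
    have e : z * (x * y) * z = (z * x * z) * (z * y * z) := by
      calc z * (x * y) * z = z * x * (z * z) * (y * z) := by rw [hz]; group
        _ = (z * x * z) * (z * y * z) := by group
    rw [e, hinv x hx, hinv y hy, ← mul_inv_rev] at h1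
    exact (inv_injective h1).symm
  set C := Subgroup.centralizer (K : Set M) with hC
  haveI hCn : C.Normal := by rw [hC]; infer_instance
  have hKC : K ≤ C := fun x hx => Subgroup.mem_centralizer_iff.2 fun y hy => hKab y hy x hx
  have hzm : ∀ m : M, z * m * z * m⁻¹ ∈ C := by
    intro m
    refine Subgroup.mem_centralizer_iff.2 fun k hk => ?_
    have hk1 : m⁻¹ * k * m ∈ K := by
      simpa using ‹K.Normal›.conj_mem k hk m⁻¹
    have h1 := hinv _ hk1
    have h2 := hinv _ hk
    -- conjugating by `z m z m⁻¹` fixes `k`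
    have e : (z * m * z * m⁻¹) * k * (z * m * z * m⁻¹)⁻¹ = k := by
      calc (z * m * z * m⁻¹) * k * (z * m * z * m⁻¹)⁻¹
          = z * m * (z * (m⁻¹ * k * m) * z⁻¹) * m⁻¹ * z⁻¹ := by group
        _ = z * m * (m⁻¹ * k * m)⁻¹ * m⁻¹ * z := by rw [hzi, h1]
        _ = z * k⁻¹ * z := by group
        _ = k := by
          have := hinv _ (inv_mem hk)
          rwa [inv_inv] at this
    calc k * (z * m * z * m⁻¹)
        = ((z * m * z * m⁻¹) * k * (z * m * z * m⁻¹)⁻¹) * (z * m * z * m⁻¹) := by rw [e]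
      _ = z * m * z * m⁻¹ * k := by group
  by_cases hLC : L ≤ C.map π
  · obtain ⟨J, hJ⟩ := exists_component_of_central_comap π hπs hL (by
      rw [Subgroup.le_centralizer_iff, hπ, QuotientGroup.ker_mk']
      refine (Subgroup.comap_mono hLC).trans ?_
      rw [← hπ, Subgroup.comap_map_eq, hπ, QuotientGroup.ker_mk', sup_eq_left.2 hKC])
    exact hM J hJ
  · haveI : (C.map π).Normal := hCn.map π hπs
    have hbot : ⁅L, C.map π⁆ = ⊥ :=
      (component_le_or_commutator_eq_bot hL (Subgroup.Normal.isSubnormal this)).resolve_left hLC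
    set T := Subgroup.zpowers (π z) with hT
    have hLT : ⁅L, T⁆ ≤ C.map π := by
      rw [Subgroup.commutator_le]
      intro l _ a ha
      obtain ⟨m, rfl⟩ := hπs l
      obtain ⟨j, hj⟩ := mem_zpowers_nat ha
      have hsq : π z * π z = 1 := by rw [← map_mul, hz, map_one]
      rcases Nat.even_or_odd j with ⟨i, rfl⟩ | ⟨i, rfl⟩
      · rw [← hj, pow_add, ← (Commute.refl (π z)).mul_pow, hsq, one_pow, commutatorElement_one_right]
        exact one_mem _
      · rw [← hj, pow_add, pow_one, pow_mul, sq, hsq, one_pow, one_mul, ← map_commutatorElement]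
        refine Subgroup.mem_map_of_mem π ?_
        have e : ⁅m, z⁆ = (z * m * z * m⁻¹)⁻¹ := by
          rw [commutatorElement_def]
          simp [mul_assoc, hzi]
        rw [e]
        exact inv_mem (hzm m)
    have hCL : ⁅C.map π, L⁆ = ⊥ := by rw [Subgroup.commutator_comm]; exact hbot
    have h1 : ⁅⁅L, T⁆, L⁆ = ⊥ :=
      le_bot_iff.1 ((Subgroup.commutator_mono hLT le_rfl).trans hCL.le)
    have h3 : ⁅⁅L, L⁆, T⁆ = ⊥ := Subgroup.commutator_commutator_eq_bot_of_rotate h1
      (by rwa [Subgroup.commutator_comm T L])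
    rw [isPerfect_of_component hL] at h3
    -- every element of `L` lifts to `C(z)`
    let f : ↥(Subgroup.centralizer ({z} : Set M)) →* M ⧸ K :=
      π.comp (Subgroup.centralizer ({z} : Set M)).subtype
    have hfi : Function.Injective f := by
      rw [injective_iff_map_eq_one]
      rintro ⟨c, hc⟩ h
      have hcK : c ∈ K := (QuotientGroup.eq_one_iff c).1 h
      have hcz : z * c = c * z := Subgroup.mem_centralizer_iff.1 hc z rfl
      have h2 := hinv c hcK
      rw [hcz, mul_assoc, hz, mul_one] at h2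
      have hc2 : c ^ 2 = 1 := by rw [sq]; nth_rewrite 2 [h2]; rw [mul_inv_cancel]
      have h3 : orderOf c ∣ 2 := orderOf_dvd_of_pow_eq_one hc2
      have h4 : orderOf c ∣ Nat.card ↥K := Subgroup.orderOf_dvd_natCard K hcK
      have h5 : orderOf c = 1 :=
        Nat.eq_one_of_dvd_coprimes (Nat.coprime_two_left.2 hodd) h3 h4
      exact Subtype.ext (orderOf_eq_one_iff.1 h5)
    have hLr : L ≤ f.range := by
      intro l hl
      obtain ⟨m, rfl⟩ := hπs l
      have hcm : π m * π z = π z * π m := by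
        have := Subgroup.commutator_mem_commutator hl (Subgroup.mem_zpowers (π z))
        rwa [← hT, h3, Subgroup.mem_bot, commutatorElement_eq_one_iff_mul_comm] at this
      set k := z * m * z * m⁻¹ with hk
      have hkK : k ∈ K := by
        rw [← QuotientGroup.eq_one_iff]
        show π (z * m * z * m⁻¹) = 1
        rw [map_mul, map_mul, map_mul, mul_assoc (π z) (π m), hcm, ← mul_assoc, ← map_mul π z z, hz,
          map_one, one_mul, map_inv, mul_inv_cancel]
      obtain ⟨i, hi⟩ := hodd
      set n := k ^ (i + 1) with hn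
      have hnK : n ∈ K := pow_mem hkK _
      have hn2 : n * n = k := by
        rw [hn, ← pow_add, show i + 1 + (i + 1) = (2 * i + 1) + 1 by ring, pow_succ, ← hi,
          orderOf_dvd_iff_pow_eq_one.1 (Subgroup.orderOf_dvd_natCard K hkK), one_mul]
      refine ⟨⟨n * m, Subgroup.mem_centralizer_iff.2 fun a ha => ?_⟩, ?_⟩
      · rw [Set.mem_singleton_iff] at ha
        rw [ha]
        have e : z * (n * m) * z = n * m := by
          calc z * (n * m) * z = (z * n * z) * (z * m * z * m⁻¹) * m := by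
                calc z * (n * m) * z = z * n * (z * z) * m * z := by rw [hz]; group
                  _ = (z * n * z) * (z * m * z * m⁻¹) * m := by group
            _ = n⁻¹ * (n * n) * m := by rw [hinv n hnK, ← hk, hn2]
            _ = n * m := by group
        calc z * (n * m) = z * (n * m) * (z * z) := by rw [hz, mul_one]
          _ = (z * (n * m) * z) * z := by group
          _ = n * m * z := by rw [e]
      · show π (n * m) = π m
        rw [map_mul, show π n = 1 from (QuotientGroup.eq_one_iff n).2 hnK, one_mul]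
    let g : ↥(L.comap f) →* ↥L := f.subgroupComap L
    have hgi : Function.Injective g := fun a b h =>
      Subtype.ext (hfi (congrArg Subtype.val h))
    have hgs : Function.Surjective g := fun l => by
      obtain ⟨c, hc⟩ := hLr l.2
      exact ⟨⟨c, by rw [Subgroup.mem_comap, hc]; exact l.2⟩, Subtype.ext hc⟩
    exact hCz (L.comap f) ⟨hL.1.comap f, quasisimple_congr (MulEquiv.ofBijective g ⟨hgi, hgs⟩).symm hL.2⟩

end Inverted

end CfsgLib.Local

namespace CfsgLib.Local

open scoped Pointwise commutatorElement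
open CfsgLib.Core

section Balance

variable {X : Type*} [Group X] [Finite X]

/-- The core of the centraliser of `y`, as a subgroup of the ambient group. -/
def coreAt (y : X) : Subgroup X :=
  (Cfsg.oddCore ↥(Subgroup.centralizer ({y} : Set X))).map
    (Subgroup.centralizer ({y} : Set X)).subtype

theorem coreAt_le (y : X) : coreAt y ≤ Subgroup.centralizer ({y} : Set X) :=
  Subgroup.map_subtype_le _

theorem odd_card_coreAt (y : X) : Odd (Nat.card ↥(coreAt y)) := by
  haveI : Fact (Nat.Prime 2) := ⟨Nat.prime_two⟩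
  rw [coreAt, Subgroup.card_subtype, ← Nat.coprime_two_right]
  exact coprime_card_pPrimeCore 2

theorem centralizer_le_normalizer_coreAt (y : X) :
    Subgroup.centralizer ({y} : Set X) ≤ Subgroup.normalizer (coreAt y : Set X) := by
  rw [le_normalizer_iff_forall]
  intro a ha k hk
  obtain ⟨m, hm, rfl⟩ := Subgroup.mem_map.1 hk
  exact Subgroup.mem_map.2 ⟨⟨a, ha⟩ * m * ⟨a, ha⟩⁻¹,
    (normal_pPrimeCore 2).conj_mem m hm _, by simp⟩

theorem conj_coreAt_le {n y : X} :
    MulAut.conj n • coreAt y ≤ coreAt (n * y * n⁻¹) := by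
  haveI : Fact (Nat.Prime 2) := ⟨Nat.prime_two⟩
  set C' := Subgroup.centralizer ({n * y * n⁻¹} : Set X)
  set S := MulAut.conj n • coreAt y with hS
  have hle : S ≤ C' := by
    intro s hs
    rw [hS, mem_conj_smul] at hs
    have h1 := Subgroup.mem_centralizer_iff.1 (coreAt_le y hs) y rfl
    refine Subgroup.mem_centralizer_iff.2 fun a ha => ?_
    rw [Set.mem_singleton_iff] at ha
    rw [ha]
    calc n * y * n⁻¹ * s = n * (y * (n⁻¹ * s * n)) * n⁻¹ := by group
      _ = n * (n⁻¹ * s * n * y) * n⁻¹ := by rw [h1]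
      _ = s * (n * y * n⁻¹) := by group
  have hn : (S.subgroupOf C').Normal := ⟨fun a ha c => by
    rw [Subgroup.mem_subgroupOf, hS, mem_conj_smul] at ha ⊢
    have hc : n⁻¹ * (c : X) * n ∈ Subgroup.centralizer ({y} : Set X) := by
      refine Subgroup.mem_centralizer_iff.2 fun b hb => ?_
      rw [Set.mem_singleton_iff] at hb
      rw [hb]
      have h1 := Subgroup.mem_centralizer_iff.1 c.2 (n * y * n⁻¹) rfl
      calc y * (n⁻¹ * (c : X) * n) = n⁻¹ * (n * y * n⁻¹ * (c : X)) * n := by group
        _ = n⁻¹ * ((c : X) * (n * y * n⁻¹)) * n := by rw [h1]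
        _ = n⁻¹ * (c : X) * n * y := by group
    have := conj_mem_of_le_normalizer (centralizer_le_normalizer_coreAt y) hc ha
    simpa [mul_assoc] using this⟩
  have hcard : (Nat.card ↥(S.subgroupOf C')).Coprime 2 := by
    rw [Nat.card_congr (Subgroup.subgroupOfEquivOfLe hle).toEquiv, hS, card_conj_smul,
      Nat.coprime_two_right]
    exact odd_card_coreAt y
  intro s hs
  exact Subgroup.mem_map.2 ⟨⟨s, hle hs⟩, le_pPrimeCore hn hcard (Subgroup.mem_subgroupOf.2 hs), rfl⟩

/-- `P × Q` inside a group of characteristic 2: an odd subgroup centralising an element `y` of a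
2-group and centralising the `y`-fixed points of `U` is trivial. -/
theorem odd_eq_bot_of_pxq {H U Q : Subgroup X} {y : X} (hy2 : y * y = 1)
    (hU : IsPGroup 2 ↥U) (hQ : Odd (Nat.card ↥Q)) (hQH : Q ≤ H)
    (hyH : y ∈ H) (hHU : H ≤ Subgroup.normalizer (U : Set X))
    (hCU : H ⊓ Subgroup.centralizer (U : Set X) ≤ U)
    (hQy : Q ≤ Subgroup.centralizer ({y} : Set X))
    (hfix : U ⊓ Subgroup.centralizer ({y} : Set X) ≤ Subgroup.centralizer (Q : Set X)) :
    Q = ⊥ := by
  haveI : Fact (Nat.Prime 2) := ⟨Nat.prime_two⟩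
  have hP : IsPGroup 2 ↥(Subgroup.zpowers y) := by
    obtain ⟨j, -, hj⟩ := (Nat.dvd_prime_pow Nat.prime_two).1
      (show orderOf y ∣ 2 ^ 1 from by
        rw [pow_one]; exact orderOf_dvd_of_pow_eq_one (by rw [sq, hy2]))
    exact IsPGroup.of_card (n := j) (by rw [Nat.card_zpowers, hj])
  have h := thompson_pxq hP (Nat.coprime_two_right.2 hQ) hU
    (by
      rw [Subgroup.zpowers_le]
      exact Subgroup.mem_centralizer_iff.2 fun q hq =>
        (Subgroup.mem_centralizer_iff.1 (hQy hq) y rfl).symm)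
    (by rw [Subgroup.zpowers_le]; exact hHU hyH) (hQH.trans hHU)
    (by
      refine le_trans (inf_le_inf_left _ (Subgroup.centralizer_le ?_)) hfix
      rw [Set.singleton_subset_iff]; exact Subgroup.mem_zpowers y)
  refine eq_bot_iff.2 fun q hq => ?_
  rw [Subgroup.mem_bot]
  have hqU : q ∈ U := hCU ⟨hQH hq, h hq⟩
  exact eq_one_of_coprime_pgroup hU hqU
    (Nat.Coprime.coprime_dvd_left (Subgroup.orderOf_dvd_natCard Q hq) (Nat.coprime_two_right.2 hQ))

variable {z : X} (hz2 : z * z = 1)
  (hzF : Cfsg.generalizedFittingSubgroup ↥(Subgroup.centralizer ({z} : Set X)) =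
    Cfsg.pCore 2 ↥(Subgroup.centralizer ({z} : Set X)))

include hzF in
theorem char_two_data :
    IsPGroup 2 ↥((Cfsg.pCore 2 ↥(Subgroup.centralizer ({z} : Set X))).map
      (Subgroup.centralizer ({z} : Set X)).subtype) ∧
    Subgroup.centralizer ({z} : Set X) ≤ Subgroup.normalizer
      (((Cfsg.pCore 2 ↥(Subgroup.centralizer ({z} : Set X))).map
        (Subgroup.centralizer ({z} : Set X)).subtype : Subgroup X) : Set X) ∧
    Subgroup.centralizer ({z} : Set X) ⊓ Subgroup.centralizer
      (((Cfsg.pCore 2 ↥(Subgroup.centralizer ({z} : Set X))).map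
        (Subgroup.centralizer ({z} : Set X)).subtype : Subgroup X) : Set X) ≤
      (Cfsg.pCore 2 ↥(Subgroup.centralizer ({z} : Set X))).map
        (Subgroup.centralizer ({z} : Set X)).subtype := by
  haveI : Fact (Nat.Prime 2) := ⟨Nat.prime_two⟩
  refine ⟨(pCore_isPGroup' 2).map _, ?_, ?_⟩
  · rw [le_normalizer_iff_forall]
    intro a ha k hk
    obtain ⟨m, hm, rfl⟩ := Subgroup.mem_map.1 hk
    exact Subgroup.mem_map.2 ⟨⟨a, ha⟩ * m * ⟨a, ha⟩⁻¹, (normal_pCore 2).conj_mem m hm _, by simp⟩
  · rintro a ⟨ha, ha'⟩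
    have h1 : (⟨a, ha⟩ : ↥(Subgroup.centralizer ({z} : Set X))) ∈ Subgroup.centralizer
        (Cfsg.generalizedFittingSubgroup ↥(Subgroup.centralizer ({z} : Set X)) :
          Set ↥(Subgroup.centralizer ({z} : Set X))) := by
      rw [hzF]
      exact Subgroup.mem_centralizer_iff.2 fun u hu => Subtype.ext
        (Subgroup.mem_centralizer_iff.1 ha' u.1 (Subgroup.mem_map_of_mem _ hu))
    have h2 := centralizer_generalizedFitting_le h1
    rw [hzF] at h2
    exact Subgroup.mem_map.2 ⟨_, h2, rfl⟩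

include hzF in
theorem coreAt_inf_centralizer {y : X} (hy2 : y * y = 1) (hyz : z * y = y * z) :
    coreAt y ⊓ Subgroup.centralizer ({z} : Set X) = ⊥ := by
  obtain ⟨hU, hN, hC⟩ := char_two_data hzF
  set Cz := Subgroup.centralizer ({z} : Set X)
  set Cy := Subgroup.centralizer ({y} : Set X)
  set U := (Cfsg.pCore 2 ↥Cz).map Cz.subtype
  set D := coreAt y ⊓ Cz with hD
  have hDodd : Odd (Nat.card ↥D) :=
    (odd_card_coreAt y).of_dvd_nat (Subgroup.card_dvd_of_le inf_le_left)
  have hycz : y ∈ Cz := Subgroup.mem_centralizer_iff.2 fun a ha => by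
    rw [Set.mem_singleton_iff] at ha; rw [ha]; exact hyz
  refine odd_eq_bot_of_pxq hy2 hU hDodd inf_le_right hycz hN hC (inf_le_left.trans (coreAt_le y)) ?_
  rintro u ⟨huU, huy⟩
  refine Subgroup.mem_centralizer_iff.2 fun d hd => ?_
  have huz : u ∈ Cz := Subgroup.map_subtype_le _ huU
  have hcD : u * d * u⁻¹ ∈ D := ⟨conj_mem_of_le_normalizer (centralizer_le_normalizer_coreAt y) huy hd.1,
    Cz.mul_mem (Cz.mul_mem huz hd.2) (Cz.inv_mem huz)⟩
  have h1 : d⁻¹ * (u * d * u⁻¹) ∈ D := mul_mem (inv_mem hd) hcD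
  have h2 : d⁻¹ * (u * d * u⁻¹) ∈ U := by
    have := mul_mem (conj_mem_of_le_normalizer hN (inv_mem hd.2) huU) (inv_mem huU)
    simpa [mul_assoc] using this
  have h3 := eq_one_of_coprime_pgroup hU h2 (Nat.Coprime.coprime_dvd_left
    (Subgroup.orderOf_dvd_natCard D h1) (Nat.coprime_two_right.2 hDodd))
  calc d * u = d * (d⁻¹ * (u * d * u⁻¹)) * u := by rw [h3, mul_one]
    _ = u * d := by group

include hz2 hzF in
theorem coreAt_inverted {y : X} (hy2 : y * y = 1) (hyz : z * y = y * z) {k : X}
    (hk : k ∈ coreAt y) : z * k * z = k⁻¹ := by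
  set Cy := Subgroup.centralizer ({y} : Set X)
  have hzy : z ∈ Cy := Subgroup.mem_centralizer_iff.2 fun a ha => by
    rw [Set.mem_singleton_iff] at ha; rw [ha]; exact hyz.symm
  haveI : (Cfsg.oddCore ↥Cy).Normal := normal_pPrimeCore 2
  obtain ⟨m, hm, rfl⟩ := Subgroup.mem_map.1 hk
  have h := inverts_of_fixedPointFree (X := Cfsg.oddCore ↥Cy) (t := (⟨z, hzy⟩ : ↥Cy))
    (Subtype.ext hz2) (by
      rw [eq_bot_iff]
      rintro c ⟨hc1, hc2⟩
      rw [Subgroup.mem_bot]
      have : (c : X) ∈ coreAt y ⊓ Subgroup.centralizer ({z} : Set X) :=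
        ⟨Subgroup.mem_map.2 ⟨c, hc1, rfl⟩, Subgroup.mem_centralizer_iff.2 fun a ha => by
          rw [Set.mem_singleton_iff] at ha; rw [ha]
          exact congrArg Subtype.val (Subgroup.mem_centralizer_iff.1 hc2 ⟨z, hzy⟩ rfl)⟩
      rw [coreAt_inf_centralizer hzF hy2 hyz, Subgroup.mem_bot] at this
      exact Subtype.ext this) hm
  simpa using congrArg Subtype.val h

include hz2 hzF in
theorem coreAt_commute {y : X} (hy2 : y * y = 1) (hyz : z * y = y * z) {a b : X}
    (ha : a ∈ coreAt y) (hb : b ∈ coreAt y) : a * b = b * a := by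
  have h1 := coreAt_inverted hz2 hzF hy2 hyz (mul_mem ha hb)
  have e : z * (a * b) * z = (z * a * z) * (z * b * z) := by
    calc z * (a * b) * z = z * a * (z * z) * (b * z) := by rw [hz2]; group
      _ = (z * a * z) * (z * b * z) := by group
  rw [e, coreAt_inverted hz2 hzF hy2 hyz ha, coreAt_inverted hz2 hzF hy2 hyz hb, ← mul_inv_rev] at h1
  exact (inv_injective h1).symm

include hzF in
theorem no_component_centralizer_pair {y : X} (hy2 : y * y = 1) (hyz : z * y = y * z)
    (hzy : z ∈ Subgroup.centralizer ({y} : Set X)) :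
    ∀ L : Subgroup ↥(Subgroup.centralizer
      ({(⟨z, hzy⟩ : ↥(Subgroup.centralizer ({y} : Set X)))} :
        Set ↥(Subgroup.centralizer ({y} : Set X)))), ¬ Cfsg.IsComponent L := by
  haveI : Fact (Nat.Prime 2) := ⟨Nat.prime_two⟩
  obtain ⟨hU, hN, hC⟩ := char_two_data hzF
  set Cz := Subgroup.centralizer ({z} : Set X)
  set Cy := Subgroup.centralizer ({y} : Set X)
  set U := (Cfsg.pCore 2 ↥Cz).map Cz.subtype
  set N := Subgroup.centralizer ({(⟨z, hzy⟩ : ↥Cy)} : Set ↥Cy) with hNdef
  intro L hL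
  let ι : ↥N →* X := Cy.subtype.comp N.subtype
  have hι : Function.Injective ι := fun a b h => Subtype.ext (Subtype.ext h)
  have hιz : ∀ n, ι n ∈ Cz := fun n => Subgroup.mem_centralizer_iff.2 fun a ha => by
    rw [Set.mem_singleton_iff] at ha; rw [ha]
    exact congrArg Subtype.val (Subgroup.mem_centralizer_iff.1 n.2 ⟨z, hzy⟩ rfl)
  set S := U.comap ι with hS
  haveI hSn : S.Normal := ⟨fun s hs g => by
    rw [hS, Subgroup.mem_comap, map_mul, map_mul, map_inv]
    exact conj_mem_of_le_normalizer hN (hιz g) hs⟩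
  have hSp : IsPGroup 2 ↥S := hU.comap_of_injective ι hι
  have hSsol : Group.IsSolvable ↥S := by haveI := hSp.isNilpotent; infer_instance
  have hLS := commutator_component_of_subnormal_solvable hL hSn.isSubnormal hSsol
  have hL2 : IsPGroup 2 ↥L := by
    refine isPGroup_of_coprime_eq_one fun l hl hcop => ?_
    have hodd : Odd (Nat.card ↥(Subgroup.zpowers (ι l))) := by
      rw [Nat.card_zpowers, orderOf_injective ι hι]
      exact Nat.coprime_two_right.1 hcop
    have hycz : y ∈ Cz := Subgroup.mem_centralizer_iff.2 fun a ha => by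
      rw [Set.mem_singleton_iff] at ha; rw [ha]; exact hyz
    have := odd_eq_bot_of_pxq hy2 hU hodd (Subgroup.zpowers_le.2 (hιz l)) hycz hN hC
      (Subgroup.zpowers_le.2 l.1.2) (by
        rintro u ⟨huU, huy⟩
        refine Subgroup.mem_centralizer_iff.2 fun q hq => ?_
        have huz : u ∈ Cz := Subgroup.map_subtype_le _ huU
        have huN : (⟨u, huy⟩ : ↥Cy) ∈ N := Subgroup.mem_centralizer_iff.2 fun a ha => by
          rw [Set.mem_singleton_iff] at ha; rw [ha]
          exact Subtype.ext (Subgroup.mem_centralizer_iff.1 huz z rfl)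
        have h := Subgroup.commutator_mem_commutator hl
          (show (⟨⟨u, huy⟩, huN⟩ : ↥N) ∈ S from huU)
        rw [hLS, Subgroup.mem_bot, commutatorElement_eq_one_iff_mul_comm] at h
        have h' : Commute (ι l) u := congrArg ι h
        obtain ⟨j, rfl⟩ := hq
        exact (h'.zpow_left j).eq)
    exact hι (by rw [map_one]; exact (Subgroup.zpowers_eq_bot).1 this)
  refine quasisimple_not_isSolvable hL.2 ?_
  haveI := hL2.isNilpotent
  infer_instance

include hz2 hzF in
/-- Balance: `O(C(x)) ∩ C(y) ≤ O(C(y))`. -/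
theorem coreAt_balance {x y : X} (hx2 : x * x = 1) (hy2 : y * y = 1) (hyz : z * y = y * z)
    (hxy : x * y = y * x)
    (hE : Cfsg.layer ↥(Subgroup.centralizer ({y} : Set X)) = ⊥) :
    coreAt x ⊓ Subgroup.centralizer ({y} : Set X) ≤ coreAt y := by
  haveI : Fact (Nat.Prime 2) := ⟨Nat.prime_two⟩
  set M := Subgroup.centralizer ({y} : Set X)
  have hzy : z ∈ M := Subgroup.mem_centralizer_iff.2 fun a ha => by
    rw [Set.mem_singleton_iff] at ha; rw [ha]; exact hyz.symm
  have hxM : x ∈ M := Subgroup.mem_centralizer_iff.2 fun a ha => by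
    rw [Set.mem_singleton_iff] at ha; rw [ha]; exact hxy.symm
  set K : Subgroup ↥M := Cfsg.pPrimeCore 2 ↥M with hK
  haveI hKn : K.Normal := normal_pPrimeCore 2
  have hKodd : Odd (Nat.card ↥K) := Nat.coprime_two_right.1 (coprime_card_pPrimeCore 2)
  have hM : ∀ L : Subgroup ↥M, ¬ Cfsg.IsComponent L := fun L hL =>
    component_ne_bot hL (eq_bot_iff.2 (hE ▸ component_le_layer hL))
  have hnc := no_component_quotient_of_inverted (K := K) (z := (⟨z, hzy⟩ : ↥M)) (Subtype.ext hz2)
    hKodd (fun k hk => Subtype.ext (by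
      simpa using coreAt_inverted hz2 hzF hy2 hyz (Subgroup.mem_map_of_mem M.subtype hk)))
    hM (no_component_centralizer_pair hzF hy2 hyz hzy)
  have hP' : Cfsg.pPrimeCore 2 (↥M ⧸ K) = ⊥ := pPrimeCore_quotient_pPrimeCore 2
  have hCU := centralizer_pCore_le_of_no_component hP' hnc
  set π := QuotientGroup.mk' K with hπ
  set D := (coreAt x).subgroupOf M with hD
  set x' : ↥M := ⟨x, hxM⟩ with hx'
  have hx'2 : x' * x' = 1 := Subtype.ext hx2
  have hDodd : Odd (Nat.card ↥D) := by
    refine (odd_card_coreAt x).of_dvd_nat ?_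
    rw [hD, ← Subgroup.card_subtype M, Subgroup.subgroupOf_map_subtype]
    exact Subgroup.card_dvd_of_le inf_le_left
  have hQodd : Odd (Nat.card ↥(D.map π)) := hDodd.of_dvd_nat (Subgroup.card_map_dvd (H := D) π)
  have hU : IsPGroup 2 ↥(Cfsg.pCore 2 (↥M ⧸ K)) := pCore_isPGroup' 2
  haveI : (Cfsg.pCore 2 (↥M ⧸ K)).Normal := normal_pCore 2
  have hbot := odd_eq_bot_of_pxq (X := ↥M ⧸ K) (H := ⊤) (U := Cfsg.pCore 2 (↥M ⧸ K))
    (Q := D.map π) (y := π x') (by rw [← map_mul, hx'2, map_one]) hU hQodd le_top trivial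
    (by rw [Subgroup.normalizer_eq_top]) (inf_le_right.trans hCU)
    (by
      rw [Subgroup.map_le_iff_le_comap]
      intro d hd
      rw [Subgroup.mem_comap]
      refine Subgroup.mem_centralizer_iff.2 fun a ha => ?_
      rw [Set.mem_singleton_iff] at ha
      rw [ha, ← map_mul, ← map_mul]
      refine congrArg π (Subtype.ext ?_)
      exact Subgroup.mem_centralizer_iff.1 (coreAt_le x hd) x rfl)
    (by
      rintro u ⟨huU, hux⟩
      obtain ⟨m, rfl⟩ := QuotientGroup.mk'_surjective K u
      have hcm : π x' * π m = π m * π x' := Subgroup.mem_centralizer_iff.1 hux _ rfl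
      have hA : (Nat.card ↥(Subgroup.zpowers x')).Coprime (Nat.card ↥K) := by
        rw [Nat.card_zpowers]
        exact Nat.Coprime.coprime_dvd_left (orderOf_dvd_of_pow_eq_one (by rw [sq, hx'2]))
          (Nat.coprime_two_left.2 hKodd)
      obtain ⟨n, hn, hnm⟩ := exists_centralizer_mem_coset (A := Subgroup.zpowers x') (N := K)
        (by rw [Subgroup.normalizer_eq_top]; exact le_top) hA (Or.inl inferInstance) (k := m)
        (fun a ha => by
          obtain ⟨j, rfl⟩ := ha
          rw [← QuotientGroup.eq_one_iff]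
          show π (m * x' ^ j * m⁻¹ * (x' ^ j)⁻¹) = 1
          simp only [map_mul, map_inv, map_zpow]
          rw [((show Commute (π x') (π m) from hcm).zpow_left j).symm.eq]
          group)
      have hfix : x' * (n * m) = (n * m) * x' := by
        have h1 : n * m * x' * (n * m)⁻¹ ∈ Subgroup.zpowers x' :=
          (Subgroup.mem_normalizer_iff.1 hnm x').1 (Subgroup.mem_zpowers x')
        obtain ⟨j, hj⟩ := mem_zpowers_nat h1
        rcases Nat.even_or_odd j with ⟨i, rfl⟩ | ⟨i, rfl⟩
        · rw [pow_add, ← (Commute.refl x').mul_pow, hx'2, one_pow] at hj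
          have : x' = 1 := conj_eq_one_iff.1 hj.symm
          rw [this]; simp
        · rw [pow_add, pow_one, pow_mul, sq, hx'2, one_pow, one_mul] at hj
          nth_rewrite 1 [hj]
          group
      have hπm : π (n * m) = π m := by
        rw [map_mul, show π n = 1 from (QuotientGroup.eq_one_iff n).2 hn, one_mul]
      refine Subgroup.mem_centralizer_iff.2 ?_
      rintro q ⟨d, hd, rfl⟩
      have hdm : n * m * d * (n * m)⁻¹ ∈ D := by
        have hd : (d : X) ∈ coreAt x := Subgroup.mem_subgroupOf.1 hd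
        rw [hD, Subgroup.mem_subgroupOf]
        have hcx : ((n * m : ↥M) : X) ∈ Subgroup.centralizer ({x} : Set X) :=
          Subgroup.mem_centralizer_iff.2 fun a ha => by
            rw [Set.mem_singleton_iff] at ha; rw [ha]
            simpa using congrArg Subtype.val hfix
        have := conj_mem_of_le_normalizer (centralizer_le_normalizer_coreAt x) hcx hd
        simpa using this
      have h1 : π d⁻¹ * (π m * π d * (π m)⁻¹) ∈ D.map π := by
        rw [← hπm, ← map_inv, ← map_mul, ← map_mul, ← map_mul]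
        exact Subgroup.mem_map_of_mem π (mul_mem (inv_mem hd) hdm)
      have h2 : π d⁻¹ * (π m * π d * (π m)⁻¹) ∈ Cfsg.pCore 2 (↥M ⧸ K) := by
        have hUn : (Cfsg.pCore 2 (↥M ⧸ K)).Normal := normal_pCore 2
        have := (Cfsg.pCore 2 (↥M ⧸ K)).mul_mem (hUn.conj_mem _ huU (π d)⁻¹)
          ((Cfsg.pCore 2 (↥M ⧸ K)).inv_mem huU)
        simpa [hπ, mul_assoc, QuotientGroup.mk'_apply] using this
      have h3 := eq_one_of_coprime_pgroup hU h2 (Nat.Coprime.coprime_dvd_left
        (Subgroup.orderOf_dvd_natCard _ h1) (Nat.coprime_two_right.2 hQodd))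
      rw [map_inv] at h3
      calc π d * π m = π d * ((π d)⁻¹ * (π m * π d * (π m)⁻¹)) * π m := by rw [h3, mul_one]
        _ = π m * π d := by group)
  rintro k ⟨hk, hkM⟩
  refine Subgroup.mem_map.2 ⟨⟨k, hkM⟩, ?_, rfl⟩
  have : π ⟨k, hkM⟩ ∈ D.map π := Subgroup.mem_map_of_mem π (Subgroup.mem_subgroupOf.2 hk)
  rw [hbot, Subgroup.mem_bot] at this
  exact (QuotientGroup.eq_one_iff _).1 this

end Balance

end CfsgLib.Local
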