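import Cfsg.Agent.Lib.LocalGlaubermanReplace
import Cfsg.Agent.Lib.LocalThompsonBasic
import Cfsg.Agent.Lib.CoreBasic

/-!
# Replacement against a class two subgroup for odd primes, with the rank bound
-/

set_option autoImplicit false

universe u

namespace CfsgLib.Local.ReplaceOdd

open Subgroup
open scoped commutatorElement

variable {G : Type u} [Group G]

theorem mem_omega {p : ℕ} {H : Subgroup G} (hH : IsMulCommutative H) {x : G}
    (hx : x ∈ Cfsg.omegaOne p H) : x ∈ H ∧ x ^ p = 1 := by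
  induction hx using closure_induction with
  | mem y hy => exact hy
  | one => exact ⟨one_mem _, one_pow _⟩
  | mul y z _ _ hy hz =>
    refine ⟨mul_mem hy.1 hz.1, ?_⟩
    rw [(show Commute y z from congrArg Subtype.val (hH.is_comm.comm (⟨y, hy.1⟩ : H) ⟨z, hz.1⟩)).mul_pow,
      hy.2, hz.2, one_mul]
  | inv y _ hy => exact ⟨inv_mem hy.1, by rw [inv_pow, hy.2, inv_one]⟩

theorem omega_map {H : Type*} [Group H] (f : G →* H) (hf : Function.Injective f) (p : ℕ)
    (A : Subgroup G) : (Cfsg.omegaOne p A).map f = Cfsg.omegaOne p (A.map f) := by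
  unfold Cfsg.omegaOne
  rw [MonoidHom.map_closure]
  congr 1
  ext y
  constructor
  · rintro ⟨x, ⟨hx, hxp⟩, rfl⟩
    exact ⟨mem_map_of_mem f hx, by rw [← map_pow, hxp, map_one]⟩
  · rintro ⟨⟨x, hx, rfl⟩, hxp⟩
    rw [← map_pow] at hxp
    exact ⟨x, ⟨hx, hf (hxp.trans f.map_one.symm)⟩, rfl⟩

variable [Finite G] {p : ℕ} [hp : Fact p.Prime]

theorem omega_le (hS : IsPGroup p G) (B : Subgroup G) [B.Normal] (hp2 : p ≠ 2)
    (A : Subgroup G) (hA : IsMulCommutative A)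
    (hBA : ⁅B, B⁆ ≤ A) (b : G) (hb : b ∈ B)
    (hbN : b ∈ normalizer ((normalizer (A : Set G)) : Set G))
    (As : Subgroup G) (hAsdef : As = (A ⊓ A.map (MulAut.conj b⁻¹).toMonoidHom) ⊔
      closure {g : G | ∃ a ∈ A, g = a * b⁻¹ * a⁻¹ * b}) :
    Nat.card (Cfsg.omegaOne p A) ≤ Nat.card (Cfsg.omegaOne p As) := by
  set N := normalizer (A : Set G) with hN
  set β := b⁻¹ with hβ
  set E := Cfsg.omegaOne p A with hE
  have hEmem : ∀ x, x ∈ E ↔ x ∈ A ∧ x ^ p = 1 := fun x =>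
    ⟨fun h => mem_omega hA h, fun h => subset_closure h⟩
  have hAc : ∀ a ∈ A, ∀ a' ∈ A, a * a' = a' * a := fun a ha a' ha' =>
    congrArg Subtype.val (hA.is_comm.comm (⟨a, ha⟩ : A) ⟨a', ha'⟩)
  have hNE : ∀ n ∈ N, ∀ x ∈ E, n * x * n⁻¹ ∈ E := fun n hn x hx => by
    rw [hEmem] at hx ⊢
    exact ⟨(mem_normalizer_iff.mp hn x).mp hx.1, by rw [conj_pow, hx.2, mul_one, mul_inv_cancel]⟩
  set E' := E.map (MulAut.conj β).toMonoidHom with hE'
  have hE'mem : ∀ {u : G}, u ∈ E' ↔ ∃ e ∈ E, β * e * β⁻¹ = u := by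
    intro u; simp [hE', Subgroup.mem_map]
  have hE'N : E' ≤ N := fun u hu => by
    obtain ⟨e, he, rfl⟩ := hE'mem.1 hu
    exact (mem_normalizer_iff.1 (inv_mem hbN) e).1 (le_normalizer ((hEmem e).mp he).1)
  have hE'nE : E' ≤ normalizer (E : Set G) := fun u hu =>
    mem_normalizer_fintype fun x hx => hNE u (hE'N hu) x hx
  have hEnE' : E ≤ normalizer (E' : Set G) := by
    intro a ha
    refine mem_normalizer_fintype fun u hu => ?_
    obtain ⟨e, he, rfl⟩ := hE'mem.1 hu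
    have hn : b * a * b⁻¹ ∈ N :=
      (mem_normalizer_iff.1 hbN a).1 (le_normalizer ((hEmem a).mp ha).1)
    exact hE'mem.2 ⟨_, hNE _ hn e he, by rw [hβ]; group⟩
  have hE'c : ∀ u ∈ E', ∀ v ∈ E', u * v = v * u := by
    intro u hu v hv
    obtain ⟨a, ha, rfl⟩ := hE'mem.1 hu
    obtain ⟨a', ha', rfl⟩ := hE'mem.1 hv
    exact ((show Commute a a' from hAc a ((hEmem a).mp ha).1 a' ((hEmem a').mp ha').1).map
      (MulAut.conj β).toMonoidHom).eq
  set T₀ := E ⊔ E' with hT₀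
  set C := E ⊓ E' with hC
  have hCT : ∀ c ∈ C, ∀ t ∈ T₀, c * t = t * c := by
    intro c hc t ht
    have hle : T₀ ≤ centralizer ({c} : Set G) := sup_le
      (fun a ha => mem_centralizer_singleton_iff.mpr
        (hAc a ((hEmem a).mp ha).1 c ((hEmem c).mp (mem_inf.mp hc).1).1))
      (fun a ha => mem_centralizer_singleton_iff.mpr (hE'c a ha c (mem_inf.mp hc).2))
    exact (mem_centralizer_singleton_iff.mp (hle ht)).symm
  set M := closure {g : G | ∃ e ∈ E, g = β * e * b * e⁻¹} with hM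
  have hMT : M ≤ T₀ := (closure_le _).mpr (by
    rintro _ ⟨e, he, rfl⟩
    rw [show β * e * b * e⁻¹ = β * e * β⁻¹ * e⁻¹ by rw [hβ]; group]
    exact mul_mem (mem_sup_right (hE'mem.2 ⟨e, he, rfl⟩)) (mem_sup_left (inv_mem he)))
  have hT₀nE : T₀ ≤ normalizer (E : Set G) := sup_le le_normalizer hE'nE
  have hMB : M ≤ B := (closure_le _).mpr (by
    rintro _ ⟨a, ha, rfl⟩
    rw [show β * a * b * a⁻¹ = β * (a * b * a⁻¹) by group]
    exact mul_mem (inv_mem hb) ((inferInstance : B.Normal).conj_mem b hb a))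
  have hME : M ⊓ E ≤ E' := by
    intro x hx
    obtain ⟨hxM, hxE⟩ := mem_inf.mp hx
    obtain ⟨hxA, hxp⟩ := (hEmem x).mp hxE
    refine hE'mem.2 ⟨b * x * b⁻¹, (hEmem _).mpr ⟨?_, by rw [conj_pow, hxp, mul_one, mul_inv_cancel]⟩,
      by rw [hβ]; group⟩
    have := mul_mem (hBA (commutator_mem_commutator hb (hMB hxM))) hxA
    rwa [commutatorElement_def, inv_mul_cancel_right] at this
  have hT₀eq : M ⊔ E = T₀ := by
    refine le_antisymm (sup_le hMT le_sup_left) (sup_le le_sup_right fun u hu => ?_)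
    obtain ⟨a, ha, rfl⟩ := hE'mem.1 hu
    rw [show β * a * β⁻¹ = β * a * b * a⁻¹ * a by rw [hβ]; group]
    exact mul_mem_sup (subset_closure ⟨a, ha, rfl⟩) ha
  have hMnC : M ≤ normalizer (C : Set G) := fun m hm => centralizer_le_normalizer _
    (mem_centralizer_iff.mpr fun c hc => hCT c hc m (hMT hm))
  have hgenp : ∀ e ∈ E, (β * e * b * e⁻¹) ^ p = 1 := by
    intro a ha
    set u := β * a * β⁻¹ with hu
    have hua : u ∈ E' := hE'mem.2 ⟨a, ha, rfl⟩
    set f := u * a * u⁻¹ * a⁻¹ with hf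
    have hfE : f ∈ E :=
      mul_mem ((mem_normalizer_iff.1 (hE'nE hua) a).1 ha) (inv_mem ha)
    have hfC : f ∈ C := mem_inf.mpr ⟨hfE, by
      rw [hf, show u * a * u⁻¹ * a⁻¹ = u * (a * u⁻¹ * a⁻¹) by group]
      exact mul_mem hua ((mem_normalizer_iff.1 (hEnE' ha) _).1 (inv_mem hua))⟩
    have hfc := hCT f hfC
    have haT : a ∈ T₀ := mem_sup_left ha
    have hswap : a⁻¹ * u = f * (u * a⁻¹) := by
      calc a⁻¹ * u = (a⁻¹ * f) * (a * u) * a⁻¹ := by rw [hf]; group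
        _ = f * (u * a⁻¹) := by rw [← hfc _ (inv_mem haT)]; group
    have h2 := CfsgLib.Stable.mul_pow_of_central (x := u) (y := a⁻¹) (c := f) hswap
      (hfc u (mem_sup_right hua)) (hfc _ (inv_mem haT)) p
    obtain ⟨-, hap⟩ := (hEmem a).mp ha
    obtain ⟨j, hj⟩ := hp.out.dvd_choose_self (k := 2) (by norm_num)
      (lt_of_le_of_ne hp.out.two_le (Ne.symm hp2))
    rw [show β * a * b * a⁻¹ = u * a⁻¹ by rw [hu, hβ]; group, h2, hu, conj_pow, hap, inv_pow, hap,
      hj, pow_mul, ((hEmem f).mp hfE).2]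
    simp
  have hle : M ⊔ C ≤ Cfsg.omegaOne p As := by
    refine sup_le ((closure_le _).mpr ?_) fun c hc => subset_closure ⟨?_, ?_⟩
    · rintro _ ⟨e, he, rfl⟩
      refine subset_closure ⟨?_, hgenp e he⟩
      rw [hAsdef]
      refine mem_sup_right ?_
      rw [← inv_mem_iff]
      exact subset_closure ⟨e, ((hEmem e).mp he).1, by rw [hβ]; group⟩
    · rw [hAsdef]
      refine mem_sup_left (mem_inf.mpr ⟨((hEmem c).mp (mem_inf.mp hc).1).1, ?_⟩)
      obtain ⟨e, he, rfl⟩ := hE'mem.1 (mem_inf.mp hc).2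
      exact ⟨e, ((hEmem e).mp he).1, rfl⟩
    · exact ((hEmem c).mp (mem_inf.mp hc).1).2
  refine le_trans (le_of_eq ?_) (Subgroup.card_le_of_le hle)
  have e1 := CfsgLib.Core.card_sup_mul_card_inf (A := M) (K := E) (hMT.trans hT₀nE)
  have e2 := CfsgLib.Core.card_sup_mul_card_inf (A := M) (K := C) hMnC
  have e3 := CfsgLib.Core.card_sup_mul_card_inf (A := E') (K := E) hE'nE
  have hinf : M ⊓ C = M ⊓ E :=
    le_antisymm (inf_le_inf_left _ inf_le_left) (le_inf inf_le_left (le_inf inf_le_right hME))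
  rw [hT₀eq] at e1
  rw [hinf] at e2
  rw [sup_comm, ← hT₀, inf_comm, ← hC, hE',
    card_map_of_injective (f := (MulAut.conj β).toMonoidHom) (MulAut.conj β).injective] at e3
  refine Nat.eq_of_mul_eq_mul_left (Nat.mul_pos (Nat.card_pos (α := E)) (Nat.card_pos (α := ↥(M ⊓ E)))) ?_
  symm
  calc Nat.card E * Nat.card ↥(M ⊓ E) * Nat.card ↥(M ⊔ C)
      = (Nat.card ↥(M ⊔ C) * Nat.card ↥(M ⊓ E)) * Nat.card E := by ring
    _ = (Nat.card M * Nat.card E) * Nat.card C := by rw [e2]; ring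
    _ = (Nat.card T₀ * Nat.card C) * Nat.card ↥(M ⊓ E) := by rw [← e1]; ring
    _ = _ := by rw [e3]; ring

/-- The replacement theorem inside a `p`-group with `B` normal. -/
theorem replace_normal (hS : IsPGroup p G) (B : Subgroup G) [B.Normal] (hp2 : p ≠ 2)
    (A : Subgroup G) (hA : IsMulCommutative A)
    (hBA : ⁅B, B⁆ ≤ A) (hnot : ¬ B ≤ normalizer (A : Set G)) :
    ∃ As : Subgroup G, IsMulCommutative As ∧ Nat.card As = Nat.card A ∧ A ⊓ B < As ⊓ B ∧
      As ≤ normalizer (A : Set G) ∧ As ≤ normalClosure (A : Set G) ∧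
      Monoid.exponent As ∣ Monoid.exponent A ∧
      Nat.card (Cfsg.omegaOne p A) ≤ Nat.card (Cfsg.omegaOne p As) := by
  obtain ⟨b, hb, hbN, hbA⟩ := CfsgLib.LocalThompson.exists_normalizes_normalizer hS B A hnot
  obtain ⟨h1, h2, -, h4, -, -, h7, -, -, h10⟩ :=
    CfsgLib.GlaubermanReplace.replacement_explicit hS B (fun h => absurd h hp2) A hA hBA hnot b hb
      hbN hbA _ rfl
  refine ⟨_, h2, h1, h4, h7, ?_, h10 hp2, omega_le hS B hp2 A hA hBA b hb hbN _ rfl⟩
  refine sup_le (inf_le_left.trans le_normalClosure) ((closure_le _).mpr ?_)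
  rintro _ ⟨a, ha, rfl⟩
  rw [show a * b⁻¹ * a⁻¹ * b = a * (b⁻¹ * a⁻¹ * b⁻¹⁻¹) by group]
  exact mul_mem (subset_normalClosure ha)
    (normalClosure_normal.conj_mem _ (inv_mem (subset_normalClosure ha)) _)

end CfsgLib.Local.ReplaceOdd
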