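import Cfsg.Agent.Lib.LocalSupersolvable2
import Cfsg.Agent.Lib.CoreCoprime
import Cfsg.Prelude.Def_Transfer

/-!
Skiba's criterion for supersolvability, given the criterion for a normal `p`-complement at the
smallest prime.
-/

set_option autoImplicit false

namespace CfsgLib.Local

open CfsgLib.Core
open scoped Pointwise

universe u

variable {G : Type u} [Group G]

attribute [local instance] Classical.propDecidable

/-- Skiba's hypothesis on the Sylow subgroups of `E`. -/
def SkibaHyp (G : Type u) [Group G] (E : Subgroup G) : Prop :=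
  ∀ (p : ℕ), p.Prime → ∀ P : Subgroup G, P ≤ E → IsPGroup p P → ¬ p ∣ P.relIndex E → ¬ IsCyclic ↥P →
    ∃ D : Subgroup G, D ≤ P ∧ 1 < Nat.card D ∧ Nat.card D < Nat.card P ∧
      ∀ F : Subgroup G, F ≤ P → (Nat.card F = Nat.card D ∨ (Nat.card D = 2 ∧ Nat.card F = 4)) →
        ∀ g : G, F.map (MulAut.conj g).toMonoidHom ⊓ Subgroup.normalizer (F : Set G) ≤ F

theorem exists_conj_mem_normalizer [Finite G] {p q : ℕ} [hp : Fact p.Prime] [hq : Fact q.Prime]
    (hpq : q ≠ p) {P F : Subgroup G} [P.Normal] (hP : IsPGroup p P) (hF : IsPGroup q F) {x : G}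
    (hx : ∃ k, x ^ q ^ k = 1) (hxN : x ∈ Subgroup.normalizer ((F ⊔ P : Subgroup G) : Set G)) :
    ∃ y ∈ P, y⁻¹ * x * y ∈ Subgroup.normalizer (F : Set G) := by
  have hXp : IsPGroup q (Subgroup.zpowers x) := by
    obtain ⟨k, hk⟩ := hx
    rintro ⟨y, hy⟩
    obtain ⟨i, rfl⟩ := Subgroup.mem_zpowers_iff.mp hy
    exact ⟨k, Subtype.ext (by
      show (x ^ i) ^ q ^ k = 1
      rw [← zpow_natCast, ← zpow_mul, mul_comm, zpow_mul, zpow_natCast, hk, one_zpow])⟩
  have hFn : F ≤ Subgroup.normalizer (P : Set G) := by rw [Subgroup.normalizer_eq_top]; exact le_top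
  set T := (F ⊔ P) ⊔ Subgroup.zpowers x with hT
  have hTN : T ≤ Subgroup.normalizer ((F ⊔ P : Subgroup G) : Set G) :=
    sup_le Subgroup.le_normalizer (Subgroup.zpowers_le.mpr hxN)
  have hFT : F ≤ T := le_sup_left.trans le_sup_left
  have hPT : P ≤ T := le_sup_right.trans le_sup_left
  obtain ⟨R, hR⟩ := (hF.comap_subtype (K := T)).exists_le_sylow
  set R0 := (R : Subgroup T).map T.subtype with hR0
  have hR0T : R0 ≤ T := Subgroup.map_subtype_le _
  have hFR : F ≤ R0 := fun y hy => ⟨⟨y, hFT hy⟩, hR (Subgroup.mem_subgroupOf.mpr hy), rfl⟩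
  have hR0p : IsPGroup q R0 := R.2.map _
  have hcop : ∀ S : Subgroup G, IsPGroup q S → (Nat.card S).Coprime (Nat.card P) := fun S hS => by
    obtain ⟨a, ha⟩ := IsPGroup.iff_card.mp hS
    obtain ⟨b, hb⟩ := IsPGroup.iff_card.mp hP
    rw [ha, hb]
    exact Nat.Coprime.pow a b ((Nat.coprime_primes hq.out hp.out).mpr hpq)
  have hinter : R0 ⊓ (F ⊔ P) = F := by
    refine (Subgroup.eq_of_le_of_card_ge (le_inf hFR le_sup_left) ?_).symm
    have h1 : Nat.card ↥(R0 ⊓ (F ⊔ P)) ∣ Nat.card F * Nat.card P := by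
      rw [← card_sup_of_disjoint hFn (inf_eq_bot_of_coprime (hcop F hF))]
      exact Subgroup.card_dvd_of_le inf_le_right
    exact Nat.le_of_dvd Nat.card_pos
      ((hcop _ (hR0p.to_le inf_le_left)).dvd_of_dvd_mul_right h1)
  have hR0N : R0 ≤ Subgroup.normalizer (F : Set G) := by
    rw [le_normalizer_iff_forall]
    intro r hr f hf
    rw [← hinter]
    exact ⟨R0.mul_mem (R0.mul_mem hr (hFR hf)) (R0.inv_mem hr),
      (Subgroup.mem_normalizer_iff.mp (hTN (hR0T hr)) f).mp (Subgroup.mem_sup_left hf)⟩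
  have hTtop : R0 ⊔ P = T := by
    refine le_antisymm (sup_le hR0T hPT) ?_
    rw [← Subgroup.relIndex_eq_one]
    by_contra hne
    obtain ⟨r, hr, hrd⟩ := Nat.exists_prime_and_dvd hne
    have h1 : (R0 ⊔ P).relIndex T ∣ R0.relIndex T := Subgroup.relIndex_dvd_of_le_left T le_sup_left
    have h2 : (R0 ⊔ P).relIndex T ∣ P.relIndex T := Subgroup.relIndex_dvd_of_le_left T le_sup_right
    have hrq : r ≠ q := fun e => R.not_dvd_index <| by
      have : R0.relIndex T = (R : Subgroup T).index := by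
        rw [hR0, Subgroup.relIndex, Subgroup.subgroupOf,
          Subgroup.comap_map_eq_self_of_injective T.subtype_injective]
      rw [← this, ← e]; exact hrd.trans h1
    have hXT : IsPGroup q (T.map (QuotientGroup.mk' P)) := by
      rw [hT, Subgroup.map_sup, Subgroup.map_sup, QuotientGroup.map_mk'_self, sup_bot_eq]
      refine (hF.map _).to_sup_of_normal_left' (hXp.map _) ?_
      have hle := Subgroup.le_normalizer_map (QuotientGroup.mk' P) (H := F ⊔ P)
      rw [Subgroup.map_sup, QuotientGroup.map_mk'_self, sup_bot_eq] at hle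
      exact le_trans (Subgroup.map_mono (Subgroup.zpowers_le.mpr hxN)) hle
    obtain ⟨c, hc⟩ := IsPGroup.iff_card.mp hXT
    have h3 : P.relIndex T = q ^ c := by
      rw [← hc, ← Subgroup.relIndex_ker, QuotientGroup.ker_mk']
    exact hrq ((Nat.prime_dvd_prime_iff_eq hr hq.out).mp
      (hr.dvd_of_dvd_pow (h3 ▸ hrd.trans h2)))
  obtain ⟨R1, hR1⟩ := (hXp.comap_subtype (K := T)).exists_le_sylow
  obtain ⟨t, ht⟩ := MulAction.exists_smul_eq T R R1
  have hxT : x ∈ T := Subgroup.mem_sup_right (Subgroup.mem_zpowers x)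
  have hx1 : (⟨x, hxT⟩ : T) ∈ (R1 : Subgroup T) :=
    hR1 (Subgroup.mem_subgroupOf.mpr (Subgroup.mem_zpowers x))
  rw [← ht, Sylow.coe_subgroup_smul, Subgroup.mem_pointwise_smul_iff_inv_smul_mem] at hx1
  have hxr : (t : G)⁻¹ * x * t ∈ R0 := ⟨_, hx1, by simp⟩
  have ht' : (t : G) ∈ (P ⊔ R0 : Subgroup G) := by rw [sup_comm, hTtop]; exact t.2
  rw [← SetLike.mem_coe, Subgroup.normal_mul] at ht'
  obtain ⟨y, hy, r, hr, hyr⟩ := Set.mem_mul.mp ht'
  refine ⟨y, hy, hR0N ?_⟩
  rw [← hyr] at hxr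
  have := R0.mul_mem (R0.mul_mem hr hxr) (R0.inv_mem hr)
  simpa [mul_assoc] using this

theorem skibaHyp_quotient [Finite G] {p : ℕ} [hp : Fact p.Prime] {E P : Subgroup G} [P.Normal]
    (hPE : P ≤ E) (hP : IsPGroup p P) (hPs : ¬ p ∣ P.relIndex E) (h : SkibaHyp G E) :
    SkibaHyp (G ⧸ P) (E.map (QuotientGroup.mk' P)) := by
  intro q hq Qb hQb hQbp hQbs hQbc
  haveI := Fact.mk hq
  set π := QuotientGroup.mk' P with hπ
  have hsurj : Function.Surjective π := QuotientGroup.mk'_surjective P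
  set T := Qb.comap π with hT
  have hmapT : T.map π = Qb := Subgroup.map_comap_eq_self_of_surjective hsurj Qb
  have hPT : P ≤ T := by
    rw [hT]; exact le_trans (by rw [hπ, QuotientGroup.ker_mk']) (Subgroup.ker_le_comap π Qb)
  have hTE : T ≤ E := by
    refine (Subgroup.comap_mono hQb).trans ?_
    rw [Subgroup.comap_map_eq_self (by rw [hπ, QuotientGroup.ker_mk']; exact hPE)]
  have hcardQb : Nat.card Qb = P.relIndex T := by
    rw [← hmapT, ← Subgroup.relIndex_ker, QuotientGroup.ker_mk']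
  have hqp : q ≠ p := by
    rintro rfl
    apply hQbc
    obtain ⟨k, hk⟩ := IsPGroup.iff_card.mp hQbp
    rcases Nat.eq_zero_or_pos k with rfl | hk0
    · rw [pow_zero] at hk
      haveI := (Nat.card_eq_one_iff_unique.mp hk).1
      infer_instance
    · refine absurd ?_ hPs
      refine (dvd_pow_self q hk0.ne').trans ?_
      rw [← hk, hcardQb]
      exact Dvd.intro _ (Subgroup.relIndex_mul_relIndex P T E hPT hTE)
  obtain ⟨S⟩ : Nonempty (Sylow q T) := inferInstance
  set Q := (S : Subgroup T).map T.subtype with hQ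
  have hQT : Q ≤ T := Subgroup.map_subtype_le _
  have hQp : IsPGroup q Q := S.2.map _
  have hcop : ∀ F : Subgroup G, IsPGroup q F → (Nat.card F).Coprime (Nat.card P) := fun F hF => by
    obtain ⟨a, ha⟩ := IsPGroup.iff_card.mp hF
    obtain ⟨b, hb⟩ := IsPGroup.iff_card.mp hP
    rw [ha, hb]
    exact Nat.Coprime.pow a b ((Nat.coprime_primes hq hp.out).mpr hqp)
  have hinj : ∀ F : Subgroup G, F ≤ Q → Nat.card (F.map π) = Nat.card F := fun F hF => by
    rw [← Subgroup.relIndex_ker, hπ, QuotientGroup.ker_mk',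
      ← Subgroup.inf_relIndex_right, inf_comm,
      inf_eq_bot_of_coprime (hcop F (hQp.to_le hF)), Subgroup.relIndex_bot_left]
  have hQmap : Q.map π = Qb := by
    refine Subgroup.eq_of_le_of_card_ge (by rw [← hmapT]; exact Subgroup.map_mono hQT) ?_
    rw [hinj Q le_rfl]
    have h1 : Nat.card Qb ∣ Nat.card T := by rw [← hmapT]; exact Subgroup.card_map_dvd _ _
    obtain ⟨k, hk⟩ := IsPGroup.iff_card.mp hQbp
    rw [hk] at h1 ⊢
    rw [hQ, Subgroup.card_map_of_injective T.subtype_injective]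
    exact Nat.le_of_dvd Nat.card_pos (S.pow_dvd_card_of_pow_dvd_card h1)
  have hQrel : ¬ q ∣ Q.relIndex E := by
    intro hd
    rw [← Subgroup.relIndex_mul_relIndex Q T E hQT hTE] at hd
    rcases hq.dvd_mul.mp hd with h1 | h1
    · rw [hQ, Subgroup.relIndex, Subgroup.subgroupOf,
        Subgroup.comap_map_eq_self_of_injective T.subtype_injective] at h1
      exact S.not_dvd_index h1
    · refine hQbs ?_
      have e1 : E = (E.map π).comap π :=
        (Subgroup.comap_map_eq_self (by rw [hπ, QuotientGroup.ker_mk']; exact hPE)).symm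
      rwa [hT, Subgroup.relIndex_comap] at h1
  have hQc : ¬ IsCyclic Q := fun hc => hQbc (by
    haveI := hc
    rw [← hQmap]
    exact isCyclic_of_surjective (π.subgroupMap Q) (π.subgroupMap_surjective Q))
  obtain ⟨D, hDQ, hD1, hD2, hDF⟩ := h q hq Q (hQT.trans hTE) hQp hQrel hQc
  refine ⟨D.map π, hQmap ▸ Subgroup.map_mono hDQ, by rwa [hinj D hDQ],
    by rw [hinj D hDQ, ← hQmap, hinj Q le_rfl]; exact hD2, ?_⟩
  intro Fb hFb hFc gb
  set F := Q ⊓ Fb.comap π with hF
  have hFmap : F.map π = Fb := by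
    refine le_antisymm (Subgroup.map_le_iff_le_comap.mpr inf_le_right) fun z hz => ?_
    obtain ⟨w, hw, rfl⟩ := (hQmap.symm ▸ hFb hz : z ∈ Q.map π)
    exact ⟨w, ⟨hw, hz⟩, rfl⟩
  have hFQ : F ≤ Q := inf_le_left
  rw [hinj D hDQ, ← hFmap, hinj F hFQ] at hFc
  obtain ⟨g, rfl⟩ := hsurj gb
  rintro zb ⟨hz1, hz2⟩
  rw [← hFmap] at hz1
  obtain ⟨_, ⟨f, hf, rfl⟩, rfl⟩ := hz1
  simp only [MulEquiv.coe_toMonoidHom, MulAut.conj_apply] at hz2 ⊢
  set x := g * f * g⁻¹ with hx
  have hxN : x ∈ Subgroup.normalizer ((F ⊔ P : Subgroup G) : Set G) := by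
    have h1 : π x ∈ Subgroup.normalizer (Fb : Set (G ⧸ P)) := by
      have : π x = π g * π f * (π g)⁻¹ := by rw [hx, map_mul, map_mul, map_inv]
      rw [this]; exact hz2
    have h2 : F ⊔ P = Fb.comap π := by
      rw [← hFmap, Subgroup.comap_map_eq, hπ, QuotientGroup.ker_mk']
    rw [h2]
    exact Subgroup.le_normalizer_comap π h1
  obtain ⟨k, hk⟩ := (hQp.to_le hFQ) ⟨f, hf⟩
  have hxq : ∃ k, x ^ q ^ k = 1 := ⟨k, by
    rw [hx, conj_pow]
    have := congrArg Subtype.val hk
    simp only [SubgroupClass.coe_pow, Subgroup.coe_one] at this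
    rw [this]; group⟩
  obtain ⟨y, hy, hyx⟩ := exists_conj_mem_normalizer hqp hP (hQp.to_le hFQ) hxq hxN
  have hres : y⁻¹ * x * y ∈ F := hDF F hFQ hFc (y⁻¹ * g) ⟨⟨f, hf, by simp [hx, mul_assoc]⟩, hyx⟩
  rw [← hFmap]
  refine ⟨_, hres, ?_⟩
  have hy1 : π y = 1 := (QuotientGroup.eq_one_iff y).mpr hy
  simp [hx, hy1]

/-- The criterion at the smallest prime, in the form used below. -/
def NilpCrit : Prop :=
  ∀ {G : Type u} [Group G] [Finite G] {p : ℕ} [Fact p.Prime], p ∣ Nat.card G →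
    (∀ q : ℕ, q.Prime → q ∣ Nat.card G → p ≤ q) → ∀ P : Sylow p G,
    (IsCyclic ↥(P : Subgroup G) ∨ ∃ D : Subgroup G, D ≤ (P : Subgroup G) ∧ 1 < Nat.card D ∧
      Nat.card D < Nat.card (P : Subgroup G) ∧
      ∀ E : Subgroup G, E ≤ (P : Subgroup G) → (Nat.card E = Nat.card D ∨ (Nat.card D = 2 ∧ Nat.card E = 4)) →
        ∀ g : G, E.map (MulAut.conj g).toMonoidHom ⊓ Subgroup.normalizer (E : Set G) ≤ E) →
    Cfsg.HasNormalPComplement p G

theorem exists_normal_sylow [Finite G] (crit : NilpCrit.{u}) :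
    ∀ (K : Subgroup G), K.Normal → K ≠ ⊥ → SkibaHyp G K →
      ∃ (p : ℕ) (P : Subgroup G), p.Prime ∧ P.Normal ∧ P ≤ K ∧ P ≠ ⊥ ∧ IsPGroup p P ∧
        ¬ p ∣ P.relIndex K := by
  intro K
  induction hn : Nat.card K using Nat.strong_induction_on generalizing K with
  | _ n ih =>
  subst hn
  intro hKn hK0 hK
  have hne1 : Nat.card K ≠ 1 := mt Subgroup.card_eq_one.mp hK0
  set p := (Nat.card K).minFac with hp
  have hpp : p.Prime := Nat.minFac_prime hne1
  haveI := Fact.mk hpp
  obtain ⟨S⟩ : Nonempty (Sylow p K) := inferInstance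
  have hSrel : ((S : Subgroup K).map K.subtype).relIndex K = (S : Subgroup K).index := by
    rw [Subgroup.relIndex, Subgroup.subgroupOf,
      Subgroup.comap_map_eq_self_of_injective K.subtype_injective]
  have hcompl : Cfsg.HasNormalPComplement p K := by
    refine crit (Nat.minFac_dvd _) (fun q hq hd => Nat.minFac_le_of_dvd hq.two_le hd) S ?_
    by_cases hc : IsCyclic (S : Subgroup K)
    · exact Or.inl hc
    right
    obtain ⟨D, hDS, hD1, hD2, hDF⟩ := hK p hpp ((S : Subgroup K).map K.subtype)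
      (Subgroup.map_subtype_le _) (S.2.map _) (by rw [hSrel]; exact S.not_dvd_index)
      (fun h => hc ((Subgroup.equivMapOfInjective _ _ K.subtype_injective).isCyclic.mpr h))
    have hDK : D ≤ K := hDS.trans (Subgroup.map_subtype_le _)
    refine ⟨D.subgroupOf K, fun y hy => ?_, by rwa [card_subgroupOf_of_le hDK], ?_, ?_⟩
    · obtain ⟨z, hz, hzy⟩ := hDS (Subgroup.mem_subgroupOf.mp hy)
      rwa [Subtype.ext hzy] at hz
    · rw [card_subgroupOf_of_le hDK]
      rwa [Subgroup.card_map_of_injective K.subtype_injective] at hD2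
    · intro F hF hFc g
      rw [card_subgroupOf_of_le hDK] at hFc
      have h1 := hDF (F.map K.subtype) (Subgroup.map_mono hF)
        (by rwa [Subgroup.card_map_of_injective K.subtype_injective]) g
      rintro _ ⟨⟨f, hf, rfl⟩, hn⟩
      have hn' := Subgroup.le_normalizer_map K.subtype (H := F) ⟨_, hn, rfl⟩
      obtain ⟨z, hz, hze⟩ := h1 ⟨⟨f, ⟨f, hf, rfl⟩, by simp⟩, hn'⟩
      have : z = (MulAut.conj g).toMonoidHom f := Subtype.ext hze
      exact this ▸ hz
  obtain ⟨S', N, hNn, hN⟩ := hcompl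
  haveI := hNn
  have hNi : N.index = Nat.card S' := hN.symm.index_eq_card
  have hNc : (Nat.card N).Coprime p := by
    rw [← hN.index_eq_card]
    exact ((hpp.coprime_iff_not_dvd).mpr S'.not_dvd_index).symm
  have hchar : N.Characteristic := by
    refine Subgroup.characteristic_iff_map_le.mpr fun φ => ?_
    rintro _ ⟨y, hy, rfl⟩
    obtain ⟨k, hk⟩ := IsPGroup.iff_card.mp S'.2
    show φ y ∈ N
    rw [← QuotientGroup.eq_one_iff, ← orderOf_eq_one_iff]
    refine Nat.eq_one_of_dvd_coprimes (hNc.pow_right k) ?_ ?_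
    · refine (orderOf_map_dvd (QuotientGroup.mk' N) (φ y)).trans ?_
      rw [MulEquiv.orderOf_eq, ← Subgroup.orderOf_mk y hy]
      exact orderOf_dvd_natCard _
    · rw [← hk, ← hNi, Subgroup.index_eq_card]
      exact orderOf_dvd_natCard _
  haveI := hchar
  haveI := hKn
  set N' := N.map K.subtype with hN'
  have hN'n : N'.Normal := inferInstance
  have hN'K : N' ≤ K := Subgroup.map_subtype_le _
  have hN'c : Nat.card N' = Nat.card N := Subgroup.card_map_of_injective K.subtype_injective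
  have hN'rel : N'.relIndex K = N.index := by
    rw [hN', Subgroup.relIndex, Subgroup.subgroupOf,
      Subgroup.comap_map_eq_self_of_injective K.subtype_injective]
  obtain ⟨k, hk⟩ := IsPGroup.iff_card.mp S'.2
  by_cases hN0 : N' = ⊥
  · refine ⟨p, K, hpp, hKn, le_rfl, hK0, ?_, by rw [Subgroup.relIndex_self]; exact hpp.not_dvd_one⟩
    refine IsPGroup.of_card (n := k) ?_
    rw [← hk, ← hNi, ← Subgroup.card_mul_index N, ← hN'c, hN0, Subgroup.card_bot, one_mul]
  · have hk0 : 0 < k := by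
      by_contra h0
      have : k = 0 := by omega
      rw [this, pow_zero] at hk
      have h2 : Nat.card K = Nat.card N := by rw [← Subgroup.card_mul_index N, hNi, hk, mul_one]
      exact (hpp.coprime_iff_not_dvd.mp hNc.symm) (h2 ▸ Nat.minFac_dvd _)
    have hlt : Nat.card N' < Nat.card K := by
      rw [hN'c, ← Subgroup.card_mul_index N, hNi, hk]
      exact lt_mul_of_one_lt_right Nat.card_pos (Nat.one_lt_pow hk0.ne' hpp.one_lt)
    have hinherit : SkibaHyp G N' := by
      intro q hq Q hQ hQp hQs hQc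
      refine hK q hq Q (hQ.trans hN'K) hQp ?_ hQc
      rw [← Subgroup.relIndex_mul_relIndex Q N' K hQ hN'K, hN'rel, hNi, hk]
      intro hd
      rcases hq.dvd_mul.mp hd with h1 | h1
      · exact hQs h1
      · have hqp : q = p := (Nat.prime_dvd_prime_iff_eq hq hpp).mp (hq.dvd_of_dvd_pow h1)
        subst hqp
        refine hQc ?_
        have h2 : Nat.card Q = 1 := by
          obtain ⟨j, hj⟩ := IsPGroup.iff_card.mp hQp
          refine Nat.eq_one_of_dvd_coprimes (hNc.pow_right j) ?_ (hj ▸ dvd_rfl)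
          rw [← hN'c]; exact Subgroup.card_dvd_of_le hQ
        haveI := (Nat.card_eq_one_iff_unique.mp h2).1
        infer_instance
    obtain ⟨q, Q, hq, hQn, hQN, hQ0, hQp, hQs⟩ := ih _ hlt N' rfl hN'n hN0 hinherit
    refine ⟨q, Q, hq, hQn, hQN.trans hN'K, hQ0, hQp, ?_⟩
    rw [← Subgroup.relIndex_mul_relIndex Q N' K hQN hN'K, hN'rel, hNi, hk]
    intro hd
    rcases hq.dvd_mul.mp hd with h1 | h1
    · exact hQs h1
    · have hqp : q = p := (Nat.prime_dvd_prime_iff_eq hq hpp).mp (hq.dvd_of_dvd_pow h1)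
      subst hqp
      obtain ⟨j, hj⟩ := IsPGroup.iff_card.mp hQp
      refine hQ0 (Subgroup.card_eq_one.mp
        (Nat.eq_one_of_dvd_coprimes (hNc.pow_right j) ?_ (hj ▸ dvd_rfl)))
      rw [← hN'c]; exact Subgroup.card_dvd_of_le hQN

/-- **Skiba's criterion**. -/
theorem isSupersolvable_of_skibaHyp [Finite G] (crit : NilpCrit.{u}) (E : Subgroup G) [E.Normal]
    (hGE : Cfsg.IsSupersolvable (G ⧸ E)) (h : SkibaHyp G E) : Cfsg.IsSupersolvable G := by
  induction hn : Nat.card G using Nat.strong_induction_on generalizing G with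
  | _ n ih =>
  subst hn
  by_cases hE0 : E = ⊥
  · subst hE0; exact isSupersolvable_congr QuotientGroup.quotientBot hGE
  obtain ⟨p, P, hp, hPn, hPE, hP0, hPp, hPs⟩ := exists_normal_sylow crit E inferInstance hE0 h
  haveI := Fact.mk hp
  haveI := hPn
  haveI : (E.map (QuotientGroup.mk' P)).Normal :=
    Subgroup.Normal.map inferInstance _ (QuotientGroup.mk'_surjective P)
  have hquot : Cfsg.IsSupersolvable (G ⧸ P) :=
    ih _ (card_quotient_lt hP0) (E.map (QuotientGroup.mk' P))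
      (isSupersolvable_congr (QuotientGroup.quotientQuotientEquivQuotient P E hPE).symm hGE)
      (skibaHyp_quotient hPE hPp hPs h) rfl
  by_cases hc : IsCyclic P
  · exact isSupersolvable_of_cyclic_normal hc hquot
  obtain ⟨D, hDP, hD1, hD2, hDF⟩ := h p hp P hPE hPp hPs hc
  exact isSupersolvable_of_normal_subgroups hPp hD1 (Subgroup.card_dvd_of_le hDP) hD2
    (fun F hFP hFc => normal_of_hproperty hPp hFP (hDF F hFP hFc)) hquot

end CfsgLib.Local
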