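import Cfsg.Agent.Lib.LocalBlackburn
import Cfsg.Agent.Lib.FgsSupersolvable
import Cfsg.Agent.Lib.CoreFitting
import Mathlib.FieldTheory.Finite.Basic
import Mathlib.Algebra.Module.ZMod

/-!
Supersolvable extensions of `p`-groups, via the subgroup of elements acting trivially on all
invariant lines.
-/

set_option autoImplicit false

namespace CfsgLib.Local

open CfsgLib.Core

universe u

variable {G : Type u} [Group G]

/-- A cyclic normal subgroup with supersolvable quotient. -/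
theorem isSupersolvable_of_cyclic_normal {N : Subgroup G} [N.Normal] (hN : IsCyclic N)
    (h : Cfsg.IsSupersolvable (G ⧸ N)) : Cfsg.IsSupersolvable G := by
  obtain ⟨n, H, h0, hl, hn, hs⟩ := h
  obtain ⟨c, hc⟩ := hN.exists_generator
  have hNc : N = Subgroup.zpowers (c : G) := by
    refine le_antisymm (fun x hx => ?_) (by rw [Subgroup.zpowers_le]; exact c.2)
    obtain ⟨k, hk⟩ := Subgroup.mem_zpowers_iff.mp (hc ⟨x, hx⟩)
    exact Subgroup.mem_zpowers_iff.mpr ⟨k, by rw [← Subgroup.coe_zpow, hk]⟩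
  let π := QuotientGroup.mk' N
  refine ⟨n + 1, Fin.cons ⊥ fun i => (H i).comap π, rfl, ?_, ?_, ?_⟩
  · rw [show Fin.last (n + 1) = (Fin.last n).succ from rfl, Fin.cons_succ, hl, Subgroup.comap_top]
  · intro i
    induction i using Fin.cases with
    | zero => rw [Fin.cons_zero]; infer_instance
    | succ i => rw [Fin.cons_succ]; exact (hn i).comap π
  · intro i
    induction i using Fin.cases with
    | zero =>
      refine ⟨c, ?_⟩
      rw [Fin.cons_succ, Fin.castSucc_zero, Fin.cons_zero, bot_sup_eq, h0, MonoidHom.comap_bot,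
        QuotientGroup.ker_mk']
      exact hNc
    | succ i =>
      obtain ⟨g, hg⟩ := hs i
      obtain ⟨g, rfl⟩ := QuotientGroup.mk'_surjective N g
      refine ⟨g, ?_⟩
      rw [Fin.cons_succ, Fin.castSucc_succ, Fin.cons_succ, hg]
      have hk : π.ker ≤ (H i.castSucc).comap π ⊔ Subgroup.zpowers g :=
        le_trans (Subgroup.ker_le_comap _ _) le_sup_left
      conv_rhs => rw [← Subgroup.comap_map_eq_self hk]
      rw [Subgroup.map_sup, MonoidHom.map_zpowers,
        Subgroup.map_comap_eq_self_of_surjective (QuotientGroup.mk'_surjective N)]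

theorem isSupersolvable_congr {G' : Type*} [Group G'] (e : G ≃* G') (h : Cfsg.IsSupersolvable G) :
    Cfsg.IsSupersolvable G' :=
  CfsgLib.Super.isSupersolvable_of_surjective e.toMonoidHom e.surjective h

/-- An endomorphism of exponent `p - 1` of a group of exponent `p` has an eigenvector. -/
theorem exists_eigen {N : Type*} [CommGroup N] {p : ℕ} [hp : Fact p.Prime]
    (hexp : ∀ x : N, x ^ p = 1) (f : N →* N) (hf : ∀ x, f^[p - 1] x = x) {v : N} (hv : v ≠ 1) :
    ∃ (w : N) (k : ℕ), w ≠ 1 ∧ f w = w ^ k := by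
  classical
  letI : Module (ZMod p) (Additive N) := AddCommGroup.zmodModule fun x => hexp x.toMul
  let F : Additive N →+ Additive N := MonoidHom.toAdditive f
  have hF : ∀ (i : ℕ) (x : N), (F^[i]) (Additive.ofMul x) = Additive.ofMul (f^[i] x) := by
    intro i
    induction i with
    | zero => intro x; rfl
    | succ i ih => intro x; rw [Function.iterate_succ_apply', Function.iterate_succ_apply', ih]; rfl
  set v' := Additive.ofMul v with hv'
  let m := p - 1
  let e : (ZMod p)ˣ → Additive N := fun k => ∑ i ∈ Finset.range m, (k : ZMod p) ^ i • (F^[i]) v'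
  have hm : 0 < m := Nat.sub_pos_of_lt hp.out.one_lt
  have he : ∀ k : (ZMod p)ˣ, (k : ZMod p) • F (e k) = e k := by
    intro k
    simp only [e, map_sum, ZMod.map_smul, Finset.smul_sum, smul_smul, ← pow_succ']
    set g : ℕ → Additive N := fun i => (k : ZMod p) ^ i • (F^[i]) v'
    have hlast : g m = g 0 := by
      simp only [g, pow_zero, one_smul, Function.iterate_zero, id]
      rw [hv', hF, hf, ZMod.pow_card_sub_one_eq_one k.ne_zero, one_smul]
    have h1 := Finset.sum_range_succ' g m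
    have h2 := Finset.sum_range_succ g m
    rw [h2, hlast] at h1
    refine Eq.trans ?_ (add_right_cancel h1).symm
    refine Finset.sum_congr rfl fun i _ => ?_
    simp only [g, Function.iterate_succ_apply']
  have hsum : ∑ k : (ZMod p)ˣ, e k = -v' := by
    rw [Finset.sum_comm, Finset.sum_eq_single 0]
    · rw [← Finset.sum_smul, FiniteField.sum_pow_units]; simp
    · intro i hi hi0
      rw [← Finset.sum_smul, FiniteField.sum_pow_units, ZMod.card, if_neg, zero_smul]
      exact fun hd => absurd (Finset.mem_range.mp hi)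
        (not_lt.mpr (Nat.le_of_dvd (Nat.pos_of_ne_zero hi0) hd))
    · intro h; exact absurd (Finset.mem_range.mpr hm) h
  obtain ⟨k, hk⟩ : ∃ k, e k ≠ 0 := by
    by_contra hne
    push Not at hne
    rw [Finset.sum_eq_zero fun k _ => hne k, eq_comm, neg_eq_zero] at hsum
    exact hv hsum
  refine ⟨(e k).toMul, ((k⁻¹ : (ZMod p)ˣ) : ZMod p).val, fun h => hk h, ?_⟩
  have h3 : F (e k) = ((k⁻¹ : (ZMod p)ˣ) : ZMod p) • e k := by
    conv_rhs => rw [← he k, smul_smul, Units.inv_mul, one_smul]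
  rw [show ((k⁻¹ : (ZMod p)ˣ) : ZMod p) = ((((k⁻¹ : (ZMod p)ˣ) : ZMod p).val : ℕ) : ZMod p) from
    (ZMod.natCast_rightInverse _).symm, Nat.cast_smul_eq_nsmul] at h3
  exact h3

/-- `B` collects enough to make a normal `p`-subgroup with supersolvable quotient harmless. -/
structure Harmless (p : ℕ) (P B : Subgroup G) : Prop where
  normal : B.Normal
  comm : ∀ g h : G, g * h * g⁻¹ * h⁻¹ ∈ B
  pow : ∀ g : G, g ^ (p - 1) ∈ B
  cent : ∀ x ∈ B, ∃ k : ℕ, x ^ p ^ k ∈ Subgroup.centralizer (P : Set G)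

theorem isSupersolvable_of_harmless [Finite G] {p : ℕ} [hp : Fact p.Prime] {P B : Subgroup G}
    [P.Normal] (hP : IsPGroup p P) (hB : Harmless p P B) (h : Cfsg.IsSupersolvable (G ⧸ P)) :
    Cfsg.IsSupersolvable G := by
  induction hn : Nat.card G using Nat.strong_induction_on generalizing G with
  | _ n ih =>
  subst hn
  by_cases hP0 : P = ⊥
  · subst hP0; exact isSupersolvable_congr QuotientGroup.quotientBot h
  obtain ⟨N, hNn, hN0, hNP, hmin⟩ := exists_minimal_normal_le hP0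
  haveI := hNn
  haveI := hB.normal
  have hNp : IsPGroup p N := hP.to_le hNP
  haveI : Group.IsSolvable N := by haveI := hNp.isNilpotent; infer_instance
  haveI := isMulCommutative_of_minimal_normal hmin
  letI : CommGroup N := { mul_comm := mul_comm' }
  obtain ⟨q, hq, hexp⟩ := exists_prime_pow_eq_one_of_minimal_normal hN0 hmin
  obtain ⟨v, hv⟩ : ∃ v : N, v ≠ 1 := by
    haveI := (Subgroup.nontrivial_iff_ne_bot N).mpr hN0
    exact exists_ne 1
  obtain rfl : q = p := by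
    obtain ⟨k, hk⟩ := hNp v
    have h1 : orderOf v ∣ q := orderOf_dvd_of_pow_eq_one (Subtype.ext (by simpa using hexp v v.2))
    have h2 : orderOf v ∣ p ^ k := orderOf_dvd_of_pow_eq_one hk
    rcases (Nat.dvd_prime hq).mp h1 with h3 | h3
    · exact absurd (orderOf_eq_one_iff.mp h3) hv
    · exact (Nat.prime_dvd_prime_iff_eq hq hp.out).mp (hq.dvd_of_dvd_pow (h3 ▸ h2))
  -- `B` centralises `N`
  have hBN : B ≤ Subgroup.centralizer (N : Set G) := by
    have hpB : IsPGroup q (B.map (MulAut.conjNormal : G →* MulAut N)) := by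
      rintro ⟨_, x, hx, rfl⟩
      obtain ⟨k, hk⟩ := hB.cent x hx
      refine ⟨k, Subtype.ext ?_⟩
      rw [SubgroupClass.coe_pow, ← map_pow, Subgroup.coe_one]
      ext y
      rw [MulAut.conjNormal_apply, ← Subgroup.mem_centralizer_iff.mp hk (y : G) (hNP y.2)]
      simp
    have hd : q ∣ Nat.card N := by
      obtain ⟨k, hk⟩ := IsPGroup.iff_card.mp hNp
      rcases Nat.eq_zero_or_pos k with rfl | hk0
      · exact absurd (Subgroup.card_eq_one.mp (by simpa using hk)) hN0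
      · rw [hk]; exact dvd_pow_self q hk0.ne'
    obtain ⟨w, hw, hw1⟩ := hpB.exists_fixed_point_of_prime_dvd_card_of_fixed_point N hd
      (a := 1) (fun σ => map_one _)
    have hfix : (w : G) ∈ N ⊓ Subgroup.centralizer (B : Set G) := by
      refine ⟨w.2, Subgroup.mem_centralizer_iff.mpr fun x hx => ?_⟩
      have h1 : ((MulAut.conjNormal x : MulAut N) w : G) = w :=
        congrArg Subtype.val (hw ⟨_, x, hx, rfl⟩)
      rw [MulAut.conjNormal_apply] at h1
      exact mul_inv_eq_iff_eq_mul.mp h1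
    rcases hmin (N ⊓ Subgroup.centralizer (B : Set G)) inferInstance inf_le_left with h1 | h1
    · rw [h1, Subgroup.mem_bot] at hfix
      exact absurd (Subtype.ext hfix) hw1.symm
    · exact Subgroup.le_centralizer_iff.mp (h1 ▸ inf_le_right)
  -- every element acts on `N` as a power map
  have hscal : ∀ g : G, ∃ k : ℕ, ∀ y ∈ N, g * y * g⁻¹ = y ^ k := by
    intro g
    let f : N →* N := (MulAut.conjNormal g : MulAut N).toMonoidHom
    have hfi : ∀ (i : ℕ) (y : N), ((f^[i] y : N) : G) = g ^ i * y * (g ^ i)⁻¹ := by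
      intro i y
      induction i with
      | zero => simp
      | succ i ihi =>
        rw [Function.iterate_succ_apply']
        show g * ((f^[i] y : N) : G) * g⁻¹ = _
        rw [ihi, pow_succ']; group
    obtain ⟨w, k, hw, hwk⟩ := exists_eigen (fun x : N => Subtype.ext (by simpa using hexp x x.2)) f
      (fun y => Subtype.ext (by
        rw [hfi, ← Subgroup.mem_centralizer_iff.mp (hBN (hB.pow g)) (y : G) y.2]; simp)) hv
    let W : Subgroup G :=
      { carrier := {y | y ∈ N ∧ g * y * g⁻¹ = y ^ k}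
        one_mem' := ⟨N.one_mem, by simp⟩
        mul_mem' := by
          rintro a b ⟨ha, ha'⟩ ⟨hb, hb'⟩
          refine ⟨N.mul_mem ha hb, ?_⟩
          have hab : Commute a b := congrArg Subtype.val (mul_comm (⟨a, ha⟩ : N) ⟨b, hb⟩)
          rw [show g * (a * b) * g⁻¹ = (g * a * g⁻¹) * (g * b * g⁻¹) by group, ha', hb',
            hab.mul_pow]
        inv_mem' := by
          rintro a ⟨ha, ha'⟩
          exact ⟨N.inv_mem ha, by
            rw [show g * a⁻¹ * g⁻¹ = (g * a * g⁻¹)⁻¹ by group, ha', inv_pow]⟩ }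
    have hWn : W.Normal := ⟨fun y hy h => by
      obtain ⟨hyN, hy'⟩ := hy
      refine ⟨hNn.conj_mem y hyN h, ?_⟩
      have hc : g * h * g⁻¹ * h⁻¹ ∈ Subgroup.centralizer (N : Set G) := hBN (hB.comm g h)
      have hgh : g * h = (g * h * g⁻¹ * h⁻¹) * (h * g) := by group
      set c := g * h * g⁻¹ * h⁻¹
      have h2 : c * (h * y ^ k * h⁻¹) * c⁻¹ = h * y ^ k * h⁻¹ := by
        rw [← Subgroup.mem_centralizer_iff.mp hc _ (hNn.conj_mem _ (pow_mem hyN k) h)]; simp
      calc g * (h * y * h⁻¹) * g⁻¹ = (g * h) * y * (g * h)⁻¹ := by group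
        _ = c * (h * (g * y * g⁻¹) * h⁻¹) * c⁻¹ := by rw [hgh]; group
        _ = (h * y * h⁻¹) ^ k := by rw [hy', h2, conj_pow]⟩
    refine ⟨k, fun y hy => ?_⟩
    rcases hmin W hWn (fun y hy => hy.1) with h1 | h1
    · have hwW : (w : G) ∈ W := ⟨w.2, by
        have := congrArg Subtype.val hwk
        simpa [f] using this⟩
      rw [h1, Subgroup.mem_bot] at hwW
      exact absurd (Subtype.ext hwW) hw
    · exact (h1.symm ▸ hy : y ∈ W).2
  have hNcyc : IsCyclic N := by
    have hz : (Subgroup.zpowers (v : G)).Normal := ⟨fun y hy g => by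
      obtain ⟨j, rfl⟩ := Subgroup.mem_zpowers_iff.mp hy
      obtain ⟨k, hk⟩ := hscal g
      rw [← conj_zpow, hk _ v.2]
      exact zpow_mem (pow_mem (Subgroup.mem_zpowers _) k) j⟩
    rcases hmin _ hz (by rw [Subgroup.zpowers_le]; exact v.2) with h1 | h1
    · rw [Subgroup.zpowers_eq_bot] at h1; exact absurd (Subtype.ext h1) hv
    · rw [← h1]; infer_instance
  refine isSupersolvable_of_cyclic_normal hNcyc ?_
  let π := QuotientGroup.mk' N
  have hsurj : Function.Surjective π := QuotientGroup.mk'_surjective N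
  haveI : (P.map π).Normal := Subgroup.Normal.map inferInstance π hsurj
  refine ih _ ?_ (hP.map π) (B := B.map π) ⟨Subgroup.Normal.map inferInstance π hsurj, ?_, ?_, ?_⟩
    (isSupersolvable_congr (QuotientGroup.quotientQuotientEquivQuotient N P hNP).symm h) rfl
  · exact card_quotient_lt hN0
  · intro a b
    obtain ⟨a, rfl⟩ := hsurj a
    obtain ⟨b, rfl⟩ := hsurj b
    exact ⟨_, hB.comm a b, by simp⟩
  · intro a
    obtain ⟨a, rfl⟩ := hsurj a
    exact ⟨_, hB.pow a, by simp⟩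
  · rintro _ ⟨x, hx, rfl⟩
    obtain ⟨k, hk⟩ := hB.cent x hx
    refine ⟨k, Subgroup.mem_centralizer_iff.mpr ?_⟩
    rintro _ ⟨y, hy, rfl⟩
    rw [← map_pow, ← map_mul, ← map_mul, Subgroup.mem_centralizer_iff.mp hk y hy]

/-- Elements acting trivially on every invariant line of `G`. -/
def lineKer (G : Type u) [Group G] (p : ℕ) : Subgroup G where
  carrier := {g | ∀ (Y : Subgroup G) (v : G), Y.Normal → v ^ p ∈ Y →
    (∀ h : G, ∃ k : ℕ, h * v * h⁻¹ * (v ^ k)⁻¹ ∈ Y) → g * v * g⁻¹ * v⁻¹ ∈ Y}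
  one_mem' := fun Y v _ _ _ => by simp
  mul_mem' := by
    intro a b ha hb Y v hY h1 h2
    have := Y.mul_mem (hY.conj_mem _ (hb Y v hY h1 h2) a) (ha Y v hY h1 h2)
    simpa [mul_assoc] using this
  inv_mem' := by
    intro a ha Y v hY h1 h2
    have := hY.conj_mem _ (Y.inv_mem (ha Y v hY h1 h2)) a⁻¹
    simpa [mul_assoc] using this

theorem mem_lineKer {p : ℕ} {g : G} : g ∈ lineKer G p ↔ ∀ (Y : Subgroup G) (v : G), Y.Normal →
    v ^ p ∈ Y → (∀ h : G, ∃ k : ℕ, h * v * h⁻¹ * (v ^ k)⁻¹ ∈ Y) → g * v * g⁻¹ * v⁻¹ ∈ Y :=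
  Iff.rfl

theorem lineKer_spec {p : ℕ} (hp : p.Prime) :
    (lineKer G p).Normal ∧ (∀ g h : G, g * h * g⁻¹ * h⁻¹ ∈ lineKer G p) ∧
      ∀ g : G, g ^ (p - 1) ∈ lineKer G p := by
  haveI := Fact.mk hp
  -- in the quotient by `Y`, conjugation raises the image of `v` to powers
  have tr : ∀ (Y : Subgroup G) [Y.Normal] (v : G),
      (∀ h : G, ∃ k : ℕ, h * v * h⁻¹ * (v ^ k)⁻¹ ∈ Y) →
      ∀ h : G, ∃ k : ℕ, (h : G ⧸ Y) * (v : G ⧸ Y) * (h : G ⧸ Y)⁻¹ = (v : G ⧸ Y) ^ k := by
    intro Y _ v hv h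
    obtain ⟨k, hk⟩ := hv h
    refine ⟨k, mul_inv_eq_one.mp ?_⟩
    exact (QuotientGroup.eq_one_iff _).mpr hk
  have back : ∀ (Y : Subgroup G) [Y.Normal] (v a : G),
      (a : G ⧸ Y) * (v : G ⧸ Y) * (a : G ⧸ Y)⁻¹ = (v : G ⧸ Y) → a * v * a⁻¹ * v⁻¹ ∈ Y := by
    intro Y _ v a ha
    refine (QuotientGroup.eq_one_iff _).mp ?_
    rw [QuotientGroup.mk_mul, QuotientGroup.mk_mul, QuotientGroup.mk_mul, QuotientGroup.mk_inv,
      QuotientGroup.mk_inv, ha, mul_inv_cancel]
  refine ⟨⟨fun g hg h => ?_⟩, fun g h => ?_, fun g => ?_⟩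
  · rw [mem_lineKer]
    intro Y v hY h1 h2
    haveI := hY
    refine back Y v _ ?_
    obtain ⟨k, hk⟩ := tr Y v h2 h⁻¹
    have hgv : (g : G ⧸ Y) * (v : G ⧸ Y) * (g : G ⧸ Y)⁻¹ = (v : G ⧸ Y) :=
      mul_inv_eq_one.mp ((QuotientGroup.eq_one_iff _).mpr (mem_lineKer.mp hg Y v hY h1 h2))
    have hgk : (g : G ⧸ Y) * (v : G ⧸ Y) ^ k * (g : G ⧸ Y)⁻¹ = (v : G ⧸ Y) ^ k := by
      rw [← conj_pow, hgv]
    rw [QuotientGroup.mk_mul, QuotientGroup.mk_mul, QuotientGroup.mk_inv]
    rw [QuotientGroup.mk_inv, inv_inv] at hk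
    calc _ = (h : G ⧸ Y) * ((g : G ⧸ Y) * ((h : G ⧸ Y)⁻¹ * v * h) * (g : G ⧸ Y)⁻¹) *
          (h : G ⧸ Y)⁻¹ := by group
      _ = (h : G ⧸ Y) * ((h : G ⧸ Y)⁻¹ * v * h) * (h : G ⧸ Y)⁻¹ := by rw [hk, hgk]
      _ = v := by group
  · rw [mem_lineKer]
    intro Y v hY h1 h2
    haveI := hY
    refine back Y v _ ?_
    obtain ⟨k, hk⟩ := tr Y v h2 g⁻¹
    obtain ⟨l, hl⟩ := tr Y v h2 h⁻¹
    rw [QuotientGroup.mk_inv] at hk hl
    rw [QuotientGroup.mk_mul, QuotientGroup.mk_mul, QuotientGroup.mk_mul, QuotientGroup.mk_inv,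
      QuotientGroup.mk_inv]
    set a := (g : G ⧸ Y)
    set b := (h : G ⧸ Y)
    set w := (v : G ⧸ Y)
    have e : a⁻¹ * (b⁻¹ * w * b⁻¹⁻¹) * a⁻¹⁻¹ = b⁻¹ * (a⁻¹ * w * a⁻¹⁻¹) * b⁻¹⁻¹ := by
      rw [hl, hk, ← conj_pow, ← conj_pow, hk, hl, ← pow_mul, ← pow_mul, mul_comm]
    calc a * b * a⁻¹ * b⁻¹ * w * (a * b * a⁻¹ * b⁻¹)⁻¹
        = a * b * (a⁻¹ * (b⁻¹ * w * b⁻¹⁻¹) * a⁻¹⁻¹) * (a * b)⁻¹ := by group
      _ = w := by rw [e]; group
  · rw [mem_lineKer]
    intro Y v hY h1 h2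
    haveI := hY
    refine back Y v _ ?_
    rw [QuotientGroup.mk_pow]
    obtain ⟨k, hk⟩ := tr Y v h2 g
    have hit : ∀ i : ℕ, (g : G ⧸ Y) ^ i * v * ((g : G ⧸ Y) ^ i)⁻¹ = (v : G ⧸ Y) ^ k ^ i := by
      intro i
      induction i with
      | zero => simp
      | succ i ihi =>
        calc (g : G ⧸ Y) ^ (i + 1) * v * ((g : G ⧸ Y) ^ (i + 1))⁻¹
            = g * ((g : G ⧸ Y) ^ i * v * ((g : G ⧸ Y) ^ i)⁻¹) * (g : G ⧸ Y)⁻¹ := by
              rw [pow_succ']; group
          _ = _ := by rw [ihi, ← conj_pow, hk, ← pow_mul, pow_succ']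
    rw [hit]
    by_cases hw : (v : G ⧸ Y) = 1
    · rw [hw]; simp
    have hp1 : (v : G ⧸ Y) ^ p = 1 := by
      rw [← QuotientGroup.mk_pow]; exact (QuotientGroup.eq_one_iff _).mpr h1
    have hk0 : k.Coprime p := by
      refine ((hp.coprime_iff_not_dvd).mpr fun hd => hw ?_).symm
      obtain ⟨r, rfl⟩ := hd
      rw [pow_mul, hp1, one_pow] at hk
      simpa using hk
    have hf : k ^ (p - 1) ≡ 1 [MOD p] := by
      rw [← Nat.totient_prime hp]; exact Nat.ModEq.pow_totient hk0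
    conv_rhs => rw [← pow_one (v : G ⧸ Y)]
    exact pow_eq_pow_iff_modEq.mpr (by rwa [orderOf_eq_prime hp1 hw])

end CfsgLib.Local
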