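import Cfsg.Agent.Lib.LocalSupersolvable
import Cfsg.Agent.Lib.LocalFusion
import Mathlib.GroupTheory.Sylow

/-!
If all subgroups of one fixed order of a normal `p`-subgroup are normal and the quotient is
supersolvable, then the group is supersolvable.
-/

set_option autoImplicit false

namespace CfsgLib.Local

open CfsgLib.Core
open scoped Pointwise

universe u

variable {G : Type u} [Group G]

attribute [local instance] Classical.propDecidable

theorem exists_le_card_pow [Finite G] {p : ℕ} [Fact p.Prime] {P H : Subgroup G} {n m : ℕ}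
    (hHP : H ≤ P) (hH : Nat.card H = p ^ n) (hm : p ^ m ∣ Nat.card P) (hnm : n ≤ m) :
    ∃ K : Subgroup G, H ≤ K ∧ K ≤ P ∧ Nat.card K = p ^ m := by
  obtain ⟨K, hK, hle⟩ := Sylow.exists_subgroup_card_pow_prime_le p hm (H.subgroupOf P)
    ((card_subgroupOf_of_le hHP).trans hH) hnm
  exact ⟨K.map P.subtype, fun x hx => ⟨⟨x, hHP hx⟩, hle (Subgroup.mem_subgroupOf.mpr hx), rfl⟩,
    Subgroup.map_subtype_le K, by rw [Subgroup.card_map_of_injective P.subtype_injective, hK]⟩

/-- In a non-cyclic group whose subgroups of index `p` are normal in `G`, lines are invariant. -/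
theorem lineKer_trivial_mod_frattini [Finite G] {p : ℕ} [hp : Fact p.Prime] {L : Subgroup G} {d : ℕ}
    (hL : IsPGroup p L) (hLc : ¬ IsCyclic L) (hcard : Nat.card L = p * d)
    (hmax : ∀ M : Subgroup G, M ≤ L → Nat.card M = d → M.Normal) :
    L.Normal ∧ ∀ x ∈ lineKer G p, ∀ v ∈ L, x * v * x⁻¹ * v⁻¹ ∈ (frattini L).map L.subtype := by
  have hd0 : d ≠ 0 := fun e => by
    rw [e, mul_zero] at hcard; exact (Nat.card_pos (α := L)).ne' hcard
  have hcoatom : ∀ M : Subgroup L, IsCoatom M → (M.map L.subtype).Normal := fun M hM => by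
    refine hmax _ (Subgroup.map_subtype_le M) ?_
    rw [Subgroup.card_map_of_injective L.subtype_injective]
    have h1 := Subgroup.card_mul_index M
    rw [(index_of_coatom_pgroup hL hM).2, hcard, mul_comm p d] at h1
    exact Nat.eq_of_mul_eq_mul_right hp.out.pos h1
  haveI hLn : L.Normal := ⟨fun x hx g => by
    obtain ⟨M, hM, hxM⟩ : ∃ M : Subgroup L, IsCoatom M ∧ (⟨x, hx⟩ : L) ∈ M := by
      rcases eq_top_or_exists_le_coatom (Subgroup.zpowers (⟨x, hx⟩ : L)) with h | ⟨M, hM, h⟩
      · exact absurd ⟨⟨⟨x, hx⟩, fun y => (h ▸ Subgroup.mem_top y : y ∈ Subgroup.zpowers (⟨x, hx⟩ : L))⟩⟩ hLc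
      · exact ⟨M, hM, h (Subgroup.mem_zpowers _)⟩
    exact Subgroup.map_subtype_le M ((hcoatom M hM).conj_mem x ⟨_, hxM, rfl⟩ g)⟩
  refine ⟨hLn, fun x hx v hv => mem_lineKer.mp hx _ v inferInstance
    ⟨⟨v, hv⟩ ^ p, pgroup_pow_mem_frattini hL ⟨v, hv⟩, by simp⟩ fun g => ?_⟩
  set v' : L := ⟨v, hv⟩
  set w : L := ⟨g * v * g⁻¹, hLn.conj_mem v hv g⟩ with hw
  set K : Subgroup L := frattini L ⊔ Subgroup.zpowers v' with hK
  by_cases hwK : w ∈ K
  · have hwK' := hwK
    rw [hK, ← SetLike.mem_coe, Subgroup.normal_mul] at hwK'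
    obtain ⟨c, hc, y, hy, hcy⟩ := Set.mem_mul.mp hwK'
    rw [SetLike.mem_coe, mem_zpowers_iff_mem_range_orderOf, Finset.mem_image] at hy
    obtain ⟨k, -, rfl⟩ := hy
    refine ⟨k, ⟨c, hc, ?_⟩⟩
    have h3 := congrArg Subtype.val hcy
    simp only [Subgroup.coe_mul, SubgroupClass.coe_pow, hw] at h3
    show (c : G) = g * v * g⁻¹ * (v ^ k)⁻¹
    rw [← h3, mul_inv_cancel_right]
  · exfalso
    obtain ⟨M, ⟨hKM, hwM⟩, hMmax⟩ := (Set.toFinite {M : Subgroup L | K ≤ M ∧ w ∉ M}).exists_maximal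
      ⟨K, le_rfl, hwK⟩
    have hΦM : frattini L ≤ M := le_sup_left.trans hKM
    have hpM : ∀ y : L, y ^ p ∈ M := fun y => hΦM (pgroup_pow_mem_frattini hL y)
    haveI : M.Normal := normal_of_commutator_le ((pgroup_commutator_le_frattini hL).trans hΦM)
    have hsplit : ∀ y : L, y ∉ M → y ∈ M ⊔ Subgroup.zpowers w := by
      intro y hy
      have hw2 : w ∈ M ⊔ Subgroup.zpowers y := by
        by_contra hnot
        exact hy (hMmax ⟨hKM.trans le_sup_left, hnot⟩ le_sup_left
          (le_sup_right (α := Subgroup L) (Subgroup.mem_zpowers y)))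
      rw [← SetLike.mem_coe, Subgroup.normal_mul] at hw2
      obtain ⟨m, hm, z, hz, hmz⟩ := Set.mem_mul.mp hw2
      rw [SetLike.mem_coe, mem_zpowers_iff_mem_range_orderOf, Finset.mem_image] at hz
      obtain ⟨k, -, rfl⟩ := hz
      have hk : ¬ p ∣ k := by
        rintro ⟨r, rfl⟩
        exact hwM (hmz ▸ M.mul_mem hm (by rw [pow_mul]; exact pow_mem (hpM y) r))
      obtain ⟨i, -, hi⟩ := Nat.exists_mul_mod_eq_one_of_coprime
        ((hp.out.coprime_iff_not_dvd.mpr hk).symm) hp.out.one_lt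
      rw [SetLike.mem_coe, ← QuotientGroup.eq_one_iff] at hm
      have h4 : (w : L ⧸ M) = (y : L ⧸ M) ^ k := by
        rw [← hmz, QuotientGroup.mk_mul, hm, one_mul, QuotientGroup.mk_pow]
      have hyp : (y : L ⧸ M) ^ p = 1 := by
        rw [← QuotientGroup.mk_pow]; exact (QuotientGroup.eq_one_iff _).mpr (hpM y)
      have h5 : ((w ^ i : L) : L ⧸ M) = (y : L ⧸ M) := by
        rw [QuotientGroup.mk_pow, h4, ← pow_mul, pow_eq_pow_mod (k * i) hyp, hi, pow_one]
      rw [QuotientGroup.eq] at h5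
      have h6 := (M ⊔ Subgroup.zpowers w).mul_mem
        (le_sup_right (α := Subgroup L) (pow_mem (Subgroup.mem_zpowers w) i))
        (le_sup_left (α := Subgroup L) h5)
      rwa [mul_inv_cancel_left] at h6
    have hMc : IsCoatom M := by
      refine ⟨fun e => hwM (e ▸ Subgroup.mem_top w), fun M' hM' => eq_top_iff.mpr fun y _ => ?_⟩
      have hw3 : w ∈ M' := by
        by_contra hnot
        exact hM'.not_ge (hMmax ⟨hKM.trans hM'.le, hnot⟩ hM'.le)
      by_cases hy : y ∈ M
      · exact hM'.le hy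
      · exact sup_le hM'.le ((Subgroup.zpowers_le).mpr hw3) (hsplit y hy)
    obtain ⟨z, hz, hzw⟩ := (hcoatom M hMc).conj_mem v
      ⟨v', hKM (le_sup_right (α := Subgroup L) (Subgroup.mem_zpowers v')), rfl⟩ g
    exact hwM ((Subtype.ext hzw : z = w) ▸ hz)

theorem lineKer_fix_of_normal_cyclic [Finite G] {p : ℕ} [hp : Fact p.Prime] {F : Subgroup G}
    [hF : F.Normal] (hFc : IsCyclic F) {u : G} (hu : u ∈ F) (hu1 : u ^ p = 1) {x : G}
    (hx : x ∈ lineKer G p) : x * u = u * x := by
  rcases eq_or_ne u 1 with rfl | hne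
  · simp
  have hmem : x * u * x⁻¹ * u⁻¹ ∈ (⊥ : Subgroup G) := by
    refine mem_lineKer.mp hx ⊥ u inferInstance (by rw [hu1]; exact one_mem _) fun g => ?_
    have hw : g * u * g⁻¹ ∈ F := hF.conj_mem u hu g
    have ho : orderOf (⟨g * u * g⁻¹, hw⟩ : F) = p := by
      refine orderOf_eq_prime (Subtype.ext ?_) ?_
      · simp [conj_pow, hu1]
      · intro e; apply hne; simpa using congrArg Subtype.val e
    have hou : orderOf (⟨u, hu⟩ : F) = p :=
      orderOf_eq_prime (Subtype.ext (by simpa using hu1)) fun e => hne (congrArg Subtype.val e)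
    haveI := hFc
    have hz : (⟨g * u * g⁻¹, hw⟩ : F) ∈ Subgroup.zpowers (⟨u, hu⟩ : F) := by
      have : Subgroup.zpowers (⟨u, hu⟩ : F) = Subgroup.zpowers (⟨g * u * g⁻¹, hw⟩ : F) := by
        haveI : Fintype F := Fintype.ofFinite F
        set S : Finset F := Finset.univ.filter fun a => a ^ p = 1 with hS
        have key : ∀ a : F, orderOf a = p → (Subgroup.zpowers a : Set F) = S := by
          intro a hao
          refine Set.eq_of_subset_of_ncard_le ?_ ?_ S.finite_toSet
          · rintro _ ⟨k, rfl⟩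
            simp only [hS, Finset.coe_filter, Finset.mem_univ, true_and, Set.mem_setOf_eq]
            rw [← zpow_natCast, ← zpow_mul, mul_comm, zpow_mul, zpow_natCast, ← hao,
              pow_orderOf_eq_one, one_zpow]
          · rw [← Nat.card_coe_set_eq (Subgroup.zpowers a : Set F), SetLike.coe_sort_coe,
              Nat.card_zpowers, hao, Set.ncard_coe_finset]
            exact IsCyclic.card_pow_eq_one_le hp.out.pos
        exact SetLike.coe_injective ((key _ hou).trans (key _ ho).symm)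
      rw [this]; exact Subgroup.mem_zpowers _
    rw [mem_zpowers_iff_mem_range_orderOf, Finset.mem_image] at hz
    obtain ⟨k, -, hk⟩ := hz
    refine ⟨k, ?_⟩
    have := congrArg Subtype.val hk
    rw [SubgroupClass.coe_pow] at this
    rw [this]; simp
  rw [Subgroup.mem_bot, mul_inv_eq_one] at hmem
  exact mul_inv_eq_iff_eq_mul.mp hmem

theorem harmless_of_normal_subgroups [Finite G] {p : ℕ} [hp : Fact p.Prime] {P : Subgroup G}
    [hPn : P.Normal] (hP : IsPGroup p P) {d : ℕ} (hd1 : 1 < d) (hd : d ∣ Nat.card P)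
    (hdP : d < Nat.card P)
    (hF : ∀ F : Subgroup G, F ≤ P → (Nat.card F = d ∨ (d = 2 ∧ Nat.card F = 4)) → F.Normal) :
    Harmless p P (lineKer G p) := by
  obtain ⟨hn, hc, hpw⟩ := lineKer_spec (G := G) hp.out
  refine ⟨hn, hc, hpw, fun x hx => ⟨(orderOf x).factorization p, ?_⟩⟩
  obtain ⟨e, he⟩ := IsPGroup.iff_card.mp hP
  obtain ⟨a, hae, rfl⟩ := (Nat.dvd_prime_pow hp.out).mp (he ▸ hd)
  have ha : 1 ≤ a := Nat.one_le_iff_ne_zero.mpr fun h => by simp [h] at hd1
  have hae' : a < e := lt_of_le_of_ne hae fun h => by rw [h, he] at hdP; exact lt_irrefl _ hdP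
  set y := x ^ p ^ (orderOf x).factorization p with hy
  have hyB : y ∈ lineKer G p := pow_mem hx _
  have hycop : (Nat.card (Subgroup.zpowers y)).Coprime p := by
    rw [Nat.card_zpowers, hy, orderOf_pow, Nat.gcd_eq_right (Nat.ordProj_dvd _ _)]
    exact (Nat.coprime_ordCompl hp.out (orderOf_pos x).ne').symm
  have hyn : ∀ N : Subgroup G, N.Normal → Subgroup.zpowers y ≤ Subgroup.normalizer (N : Set G) :=
    fun N hN => by haveI := hN; rw [Subgroup.normalizer_eq_top]; exact le_top
  -- normal subgroups of order `p ^ a` are centralised by `y`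
  have hfix : ∀ F : Subgroup G, F ≤ P → Nat.card F = p ^ a →
      Subgroup.zpowers y ≤ Subgroup.centralizer (F : Set G) := by
    intro F hFP hFc
    have hFp : IsPGroup p F := hP.to_le hFP
    haveI := hF F hFP (Or.inl hFc)
    by_cases hcyc : IsCyclic F
    · haveI := hcyc
      haveI : IsMulCommutative F := IsCyclic.isMulCommutative
      refine abelian_trivial_on_prime_order (hyn F inferInstance)
        (by rw [hFc]; exact hycop.pow_right a) fun v hv hvp b hb => ?_
      have hvo : v ^ p = 1 := by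
        have h1 : orderOf v = p := by
          obtain ⟨k, hk⟩ := (IsPGroup.iff_orderOf.mp hFp) ⟨v, hv⟩
          rw [← Subgroup.orderOf_coe] at hk
          exact (Nat.prime_dvd_prime_iff_eq hvp hp.out).mp (hvp.dvd_of_dvd_pow (dvd_of_eq (by simpa using hk)))
        rw [← h1]; exact pow_orderOf_eq_one v
      have h2 : Commute y v := lineKer_fix_of_normal_cyclic hcyc hv hvo hyB
      obtain ⟨k, rfl⟩ := Subgroup.mem_zpowers_iff.mp hb
      exact h2.zpow_left k
    · obtain ⟨L, hFL, hLP, hLc⟩ := exists_le_card_pow (m := a + 1) hFP hFc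
        (he ▸ pow_dvd_pow p hae') (Nat.le_succ a)
      have hLp : IsPGroup p L := hP.to_le hLP
      have hLnc : ¬ IsCyclic L := fun h => hcyc <| by
        haveI := h
        haveI : IsCyclic (F.subgroupOf L) := Subgroup.isCyclic _
        exact (Subgroup.subgroupOfEquivOfLe hFL).isCyclic.mp inferInstance
      obtain ⟨hLn, htriv⟩ := lineKer_trivial_mod_frattini hLp hLnc (d := p ^ a)
        (by rw [hLc, pow_succ']) fun M hM hMc => hF M (hM.trans hLP) (Or.inl hMc)
      refine le_trans ?_ (Subgroup.centralizer_le hFL)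
      refine le_centralizer_of_trivial_mod_frattini (hyn L hLn) ?_ fun b hb v hv => ?_
      · obtain ⟨k, hk⟩ := IsPGroup.iff_card.mp (hLp.to_subgroup (frattini L))
        rw [hk]; exact hycop.pow_right k
      · refine htriv b ?_ v hv
        obtain ⟨k, rfl⟩ := Subgroup.mem_zpowers_iff.mp hb
        exact zpow_mem hyB k
  refine Subgroup.zpowers_le.mp (blackburn_centralizes hP (hyn P hPn) hycop ?_)
  intro u hu hup b hb
  obtain ⟨c, hc, ho⟩ : ∃ c, (c ≤ a ∨ (p ^ a = 2 ∧ c = 2)) ∧ orderOf u = p ^ c := by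
    rcases hup with h | ⟨h2, h4⟩
    · obtain ⟨c, hc, ho⟩ := (Nat.dvd_prime_pow hp.out).mp
        ((orderOf_dvd_of_pow_eq_one h).trans (dvd_of_eq (pow_one p).symm))
      exact ⟨c, Or.inl (hc.trans ha), ho⟩
    · obtain ⟨c, hc, ho⟩ := (Nat.dvd_prime_pow hp.out).mp
        ((orderOf_dvd_of_pow_eq_one h4).trans (dvd_of_eq (by subst p; norm_num : 4 = p ^ 2)))
      refine ⟨c, ?_, ho⟩
      rcases Nat.lt_or_ge a c with h | h
      · right; subst p
        have : a = 1 ∧ c = 2 := by omega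
        exact ⟨by rw [this.1]; rfl, this.2⟩
      · exact Or.inl h
  have huc : Nat.card (Subgroup.zpowers u) = p ^ c := by rw [Nat.card_zpowers, ho]
  rcases hc with hc | ⟨h2, rfl⟩
  · obtain ⟨F, huF, hFP, hFc⟩ := exists_le_card_pow (Subgroup.zpowers_le.mpr hu) huc (he ▸ pow_dvd_pow p hae) hc
    exact (Subgroup.mem_centralizer_iff.mp (hfix F hFP hFc hb) u (huF (Subgroup.mem_zpowers u))).symm
  · have hp2 : p = 2 := (Nat.prime_dvd_prime_iff_eq hp.out Nat.prime_two).mp
      (h2 ▸ dvd_pow_self p (by omega))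
    subst p
    haveI := hF (Subgroup.zpowers u) (Subgroup.zpowers_le.mpr hu)
      (Or.inr ⟨h2, by rw [huc]; norm_num⟩)
    refine Subgroup.mem_centralizer_iff.mp (abelian_trivial_on_prime_order
      (hyn (Subgroup.zpowers u) inferInstance) (by rw [huc]; exact hycop.pow_right 2)
      (fun v hv hvp b hb => ?_) hb) u (Subgroup.mem_zpowers u) |>.symm
    have hvo : v ^ 2 = 1 := by
      have h1 : orderOf v ∣ 2 ^ 2 := by
        rw [← ho]
        obtain ⟨k, rfl⟩ := Subgroup.mem_zpowers_iff.mp hv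
        exact orderOf_dvd_of_pow_eq_one (by
          rw [← zpow_natCast, ← zpow_mul, mul_comm, zpow_mul, zpow_natCast, pow_orderOf_eq_one,
            one_zpow])
      have h3 : orderOf v = 2 :=
        (Nat.prime_dvd_prime_iff_eq hvp Nat.prime_two).mp (hvp.dvd_of_dvd_pow h1)
      rw [← h3]; exact pow_orderOf_eq_one v
    have h2 : Commute y v :=
      lineKer_fix_of_normal_cyclic (F := Subgroup.zpowers u) inferInstance hv hvo hyB
    obtain ⟨k, rfl⟩ := Subgroup.mem_zpowers_iff.mp hb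
    exact h2.zpow_left k

theorem isSupersolvable_of_normal_subgroups [Finite G] {p : ℕ} [hp : Fact p.Prime] {P : Subgroup G}
    [P.Normal] (hP : IsPGroup p P) {d : ℕ} (hd1 : 1 < d) (hd : d ∣ Nat.card P)
    (hdP : d < Nat.card P)
    (hF : ∀ F : Subgroup G, F ≤ P → (Nat.card F = d ∨ (d = 2 ∧ Nat.card F = 4)) → F.Normal)
    (h : Cfsg.IsSupersolvable (G ⧸ P)) : Cfsg.IsSupersolvable G :=
  isSupersolvable_of_harmless hP (harmless_of_normal_subgroups hP hd1 hd hdP hF) h

/-- A subgroup with the H-property that is subnormal inside a normal `p`-subgroup is normal. -/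
theorem normal_of_hproperty [Finite G] {p : ℕ} [Fact p.Prime] {P F : Subgroup G} [hP : P.Normal]
    (hPp : IsPGroup p P) (hFP : F ≤ P)
    (h : ∀ g : G, F.map (MulAut.conj g).toMonoidHom ⊓ Subgroup.normalizer (F : Set G) ≤ F) :
    F.Normal := by
  have hconj : ∀ g : G, F.map (MulAut.conj g).toMonoidHom ≤ Subgroup.normalizer (F : Set G) →
      F.map (MulAut.conj g).toMonoidHom ≤ F := fun g hg => (le_inf le_rfl hg).trans (h g)
  have hPN : P ≤ Subgroup.normalizer (F : Set G) := by
    by_contra hnot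
    have hlt : P ⊓ Subgroup.normalizer (F : Set G) < P :=
      lt_of_le_of_ne inf_le_left fun e => hnot (e ▸ inf_le_right)
    obtain ⟨g, ⟨hgP, hgN⟩, hgnot⟩ := exists_normalizer_not_mem hPp hlt
    refine hgnot ⟨hgP, ?_⟩
    have hle : F.map (MulAut.conj g).toMonoidHom ≤ F := hconj g (by
      rintro _ ⟨y, hy, rfl⟩
      exact ((Subgroup.mem_normalizer_iff.mp (show g ∈ Subgroup.normalizer _ from hgN) y).mp ⟨hFP hy, Subgroup.le_normalizer hy⟩).2)
    show g ∈ Subgroup.normalizer (F : Set G)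
    rw [← conj_smul_eq_self_iff, conj_smul_eq_map]
    exact Subgroup.eq_of_le_of_card_ge hle (by
      rw [Subgroup.card_map_of_injective (MulAut.conj g).injective])
  refine ⟨fun y hy g => hconj g ?_ ⟨y, hy, rfl⟩⟩
  rintro _ ⟨z, hz, rfl⟩
  exact hPN (hP.conj_mem z (hFP hz) g)

end CfsgLib.Local
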