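import Cfsg.Prelude.Def_SylowChains
import Cfsg.Prelude.Def_SylowControl
import Mathlib.GroupTheory.Sylow
import Mathlib.Logic.Relation
import Mathlib.Data.Fin.Tuple.Basic

/-!
# Chains of Sylow subgroups linked through a family of subgroups
-/

set_option autoImplicit false

namespace CfsgLib.Local.Link

open Subgroup
open scoped Pointwise

variable {G : Type*} [Group G]

/-- Conjugation of a subgroup. -/
abbrev K (g : G) (A : Subgroup G) : Subgroup G := A.map (MulAut.conj g).toMonoidHom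

theorem mem_K {g z : G} {A : Subgroup G} : z ∈ K g A ↔ g⁻¹ * z * g ∈ A := by
  constructor
  · rintro ⟨a, ha, rfl⟩
    simpa [mul_assoc] using ha
  · intro h
    exact ⟨_, h, by simp [mul_assoc]⟩

theorem K_mul (g h : G) (A : Subgroup G) : K g (K h A) = K (g * h) A := by
  ext z; simp only [mem_K, mul_inv_rev, mul_assoc]

theorem K_one (A : Subgroup G) : K 1 A = A := by ext z; simp [mem_K]

theorem K_inv_cancel (g : G) (A : Subgroup G) : K g⁻¹ (K g A) = A := by
  rw [K_mul, inv_mul_cancel, K_one]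

theorem K_cancel_inv (g : G) (A : Subgroup G) : K g (K g⁻¹ A) = A := by
  rw [K_mul, mul_inv_cancel, K_one]

theorem K_inf (g : G) (A B : Subgroup G) : K g (A ⊓ B) = K g A ⊓ K g B := by
  ext z; rw [mem_inf, mem_K, mem_K, mem_K, mem_inf]

theorem K_mono (g : G) {A B : Subgroup G} (h : A ≤ B) : K g A ≤ K g B := map_mono h

theorem K_card (g : G) (A : Subgroup G) : Nat.card (K g A) = Nat.card A :=
  card_map_of_injective (MulAut.conj g).injective

theorem conjRight_eq (g : G) (A : Subgroup G) : Cfsg.subgroupConjRight g A = K g⁻¹ A := rfl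

theorem K_normalizer (g : G) (A : Subgroup G) :
    K g (normalizer (A : Set G)) = normalizer ((K g A : Subgroup G) : Set G) :=
  map_equiv_normalizer_eq A (MulAut.conj g)

theorem K_of_mem_normalizer {g : G} {A : Subgroup G} (h : g ∈ normalizer (A : Set G)) :
    K g A = A := by
  ext z
  rw [mem_K]
  exact (mem_normalizer_iff''.mp h z).symm

theorem K_of_mem {g : G} {A : Subgroup G} (h : g ∈ A) : K g A = A :=
  K_of_mem_normalizer (le_normalizer h)

variable {p : ℕ}

theorem coe_smul (g : G) (S : Sylow p G) : ((g • S : Sylow p G) : Subgroup G) = K g S :=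
  Sylow.coe_subgroup_smul

/-- `S ∩ X` is a Sylow subgroup of `X`, numerically. -/
def Meets (p : ℕ) (S X : Subgroup G) : Prop :=
  Nat.card (S ⊓ X : Subgroup G) = p ^ (Nat.card X).factorization p

theorem Meets.conj {S X : Subgroup G} (h : Meets p S X) (g : G) : Meets p (K g S) (K g X) := by
  rw [Meets, ← K_inf, K_card, K_card]; exact h

variable [Finite G] [hp : Fact p.Prime]

theorem card_le_pow_of_le {Q X : Subgroup G} (hQ : IsPGroup p Q) (hQX : Q ≤ X) :
    Nat.card Q ≤ p ^ (Nat.card X).factorization p := by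
  obtain ⟨k, hk⟩ := IsPGroup.iff_card.mp hQ
  rw [hk]
  exact Nat.pow_le_pow_right hp.out.pos
    ((hp.out.pow_dvd_iff_le_factorization Nat.card_pos.ne').mp (hk ▸ card_dvd_of_le hQX))

theorem meets_of_exists {S : Subgroup G} (hS : IsPGroup p S) {X : Subgroup G}
    (P : Sylow p X) (h : (P : Subgroup X).map X.subtype ≤ S) :
    Meets p S X ∧ (P : Subgroup X).map X.subtype = S ⊓ X := by
  have hle : (P : Subgroup X).map X.subtype ≤ S ⊓ X := le_inf h (map_subtype_le _)
  have hc : Nat.card ((P : Subgroup X).map X.subtype) = p ^ (Nat.card X).factorization p := by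
    rw [card_map_of_injective X.subtype_injective]; exact P.card_eq_multiplicity
  have h2 := card_le_pow_of_le (hS.to_le (inf_le_left : S ⊓ X ≤ S)) inf_le_right
  have he := Subgroup.eq_of_le_of_card_ge hle (by omega)
  exact ⟨by rw [Meets, ← he]; exact hc, he⟩

theorem meets_iff {S : Subgroup G} (hS : IsPGroup p S) (X : Subgroup G) :
    Meets p S X ↔ ∃ P : Sylow p X, (P : Subgroup X).map X.subtype = S ⊓ X := by
  constructor
  · intro h
    refine ⟨Sylow.ofCard ((S ⊓ X).subgroupOf X) ?_, ?_⟩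
    · rw [Nat.card_congr (subgroupOfEquivOfLe inf_le_right).toEquiv]; exact h
    · exact map_subgroupOf_eq_of_le inf_le_right
  · rintro ⟨P, hP⟩
    exact (meets_of_exists hS P (hP ▸ inf_le_left)).1

theorem mem_members {𝓕 : Set (Subgroup G)} (S : Sylow p G) {X : Subgroup G} :
    X ∈ Cfsg.sylowMembers p 𝓕 (S : Subgroup G) ↔ X ∈ 𝓕 ∧ Meets p (S : Subgroup G) X := by
  rw [meets_iff S.2]
  exact Iff.rfl

theorem meets_of_le {S : Sylow p G} {X : Subgroup G} (h : (S : Subgroup G) ≤ X) :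
    Meets p (S : Subgroup G) X := by
  have h1 := card_le_pow_of_le S.2 h
  have h2 : p ^ (Nat.card X).factorization p ≤ Nat.card (S : Subgroup G) := by
    rw [S.card_eq_multiplicity]
    exact Nat.pow_le_pow_right hp.out.pos
      ((Nat.factorization_le_iff_dvd Nat.card_pos.ne' Nat.card_pos.ne').mpr (card_subgroup_dvd_card X) p)
  rw [Meets, inf_eq_left.mpr h]
  omega

theorem le_of_meets {S P : Sylow p G} {X : Subgroup G} (hP : (P : Subgroup G) ≤ X)
    (h : Meets p (S : Subgroup G) X) : (S : Subgroup G) ≤ X := by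
  have h1 := card_le_pow_of_le P.2 hP
  rw [← h, P.card_eq_multiplicity, ← S.card_eq_multiplicity] at h1
  exact inf_eq_left.mp (Subgroup.eq_of_le_of_card_ge inf_le_left h1)

/-- One link of a chain. -/
def Step (p : ℕ) (𝓕 : Set (Subgroup G)) (D : Subgroup G) (a b : Sylow p G) : Prop :=
  ∃ (X : Subgroup G) (x : G), X ∈ 𝓕 ∧ Meets p (a : Subgroup G) X ∧ Meets p (b : Subgroup G) X ∧
    x ∈ X ∧ b = x • a ∧ D ≤ (b : Subgroup G) ⊓ X

/-- Chains. -/
def Linked (p : ℕ) (𝓕 : Set (Subgroup G)) (D : Subgroup G) : Sylow p G → Sylow p G → Prop :=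
  Relation.ReflTransGen (Step p 𝓕 D)

theorem Linked.mono {𝓕 : Set (Subgroup G)} {D E : Subgroup G} {a b : Sylow p G}
    (h : Linked p 𝓕 E a b) (hDE : D ≤ E) : Linked p 𝓕 D a b :=
  Relation.ReflTransGen.mono (fun _ _ ⟨X, x, h1, h2, h3, h4, h5, h6⟩ =>
    ⟨X, x, h1, h2, h3, h4, h5, hDE.trans h6⟩) _ _ h

theorem Linked.conj {𝓕 : Set (Subgroup G)} (hF : Cfsg.IsNormalSet 𝓕) {D : Subgroup G}
    {a b : Sylow p G} (h : Linked p 𝓕 D a b) (g : G) : Linked p 𝓕 (K g D) (g • a) (g • b) := by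
  refine Relation.ReflTransGen.lift (p := Step p 𝓕 (K g D)) (fun c => g • c) ?_ _ _ h
  rintro c d ⟨X, x, h1, h2, h3, h4, rfl, h6⟩
  show Step p 𝓕 _ _ _
  refine ⟨K g X, g * x * g⁻¹, ?_, ?_, ?_, ?_, ?_, ?_⟩
  · have := hF X h1 g⁻¹
    rwa [conjRight_eq, inv_inv] at this
  · rw [coe_smul]; exact h2.conj g
  · rw [coe_smul]; exact h3.conj g
  · exact ⟨x, h4, rfl⟩
  · simp only [smul_smul, inv_mul_cancel_right]
  · rw [coe_smul g (x • c), ← K_inf]
    exact K_mono g h6

theorem step_iff {𝓕 : Set (Subgroup G)} {D : Subgroup G} {a b : Sylow p G} :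
    Step p 𝓕 D a b ↔ ∃ (X : Subgroup G) (x : G),
      X ∈ Cfsg.sylowMembers p 𝓕 (a : Subgroup G) ∧ X ∈ Cfsg.sylowMembers p 𝓕 (b : Subgroup G) ∧
      x ∈ X ∧ Cfsg.subgroupConjRight x (b : Subgroup G) = (a : Subgroup G) ∧
      D ≤ (b : Subgroup G) ⊓ X := by
  constructor
  · rintro ⟨X, x, h1, h2, h3, h4, rfl, h6⟩
    exact ⟨X, x, (mem_members a).mpr ⟨h1, h2⟩, (mem_members _).mpr ⟨h1, h3⟩, h4,
      by rw [conjRight_eq, coe_smul, K_inv_cancel], h6⟩
  · rintro ⟨X, x, h1, h2, h4, h5, h6⟩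
    refine ⟨X, x, h1.1, ((mem_members a).mp h1).2, ((mem_members b).mp h2).2, h4, ?_, h6⟩
    apply Sylow.ext
    rw [coe_smul, ← h5, conjRight_eq, K_cancel_inv]

theorem linked_iff_chain {𝓕 : Set (Subgroup G)} {D : Subgroup G} {S T : Sylow p G} :
    Linked p 𝓕 D S T ↔
    ∃ (n : ℕ) (c : Fin (n + 1) → Sylow p G) (X : Fin n → Subgroup G) (x : Fin n → G),
      c 0 = S ∧ c (Fin.last n) = T ∧
      ∀ i : Fin n,
        X i ∈ Cfsg.sylowMembers p 𝓕 (c i.castSucc : Subgroup G) ∧
        X i ∈ Cfsg.sylowMembers p 𝓕 (c i.succ : Subgroup G) ∧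
        x i ∈ X i ∧ Cfsg.subgroupConjRight (x i) (c i.succ : Subgroup G) = (c i.castSucc : Subgroup G) ∧
        D ≤ (c i.succ : Subgroup G) ⊓ X i := by
  constructor
  · intro h
    induction h using Relation.ReflTransGen.head_induction_on with
    | refl => exact ⟨0, fun _ => T, Fin.elim0, Fin.elim0, rfl, rfl, fun i => i.elim0⟩
    | @head a b hab _ ih =>
      obtain ⟨X₀, x₀, hs⟩ := step_iff.mp hab
      obtain ⟨n, c, X, x, h0, hl, hi⟩ := ih
      refine ⟨n + 1, Fin.cons a c, Fin.cons X₀ X, Fin.cons x₀ x, rfl, ?_, ?_⟩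
      · rw [← Fin.succ_last, Fin.cons_succ]; exact hl
      · refine Fin.cases ?_ (fun i => ?_)
        · simp only [Fin.castSucc_zero, Fin.cons_zero, Fin.succ_zero_eq_one]
          rw [show (1 : Fin (n + 2)) = (0 : Fin (n+1)).succ from rfl, Fin.cons_succ, h0]
          exact hs
        · simp only [Fin.cons_succ, ← Fin.succ_castSucc]
          exact hi i
  · rintro ⟨n, c, X, x, h0, hl, hi⟩
    subst h0 hl
    have : ∀ j : Fin (n + 1), Linked p 𝓕 D (c 0) (c j) := by
      refine Fin.induction Relation.ReflTransGen.refl (fun i ih => ?_)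
      exact ih.tail (step_iff.mpr ⟨X i, x i, hi i⟩)
    exact this _

theorem controls_iff {𝓕 : Set (Subgroup G)} :
    Cfsg.ControlsSylowIntersections p 𝓕 ↔ ∀ S T : Sylow p G, S ≠ T →
      (S : Subgroup G) ⊓ (T : Subgroup G) ≠ ⊥ →
      Linked p 𝓕 ((S : Subgroup G) ⊓ (T : Subgroup G)) S T :=
  ⟨fun h S T h1 h2 => linked_iff_chain.mpr (h S T h1 h2),
    fun h S T h1 h2 => linked_iff_chain.mp (h S T h1 h2)⟩

theorem linked_of_controls {𝓕 : Set (Subgroup G)} (h : Cfsg.ControlsSylowIntersections p 𝓕)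
    {D : Subgroup G} (hD : D ≠ ⊥) (S T : Sylow p G) (hS : D ≤ (S : Subgroup G))
    (hT : D ≤ (T : Subgroup G)) : Linked p 𝓕 D S T := by
  by_cases hST : S = T
  · subst hST; exact Relation.ReflTransGen.refl
  · exact (controls_iff.mp h S T hST fun hb => hD (le_bot_iff.mp (hb ▸ le_inf hS hT))).mono
      (le_inf hS hT)

end CfsgLib.Local.Link
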