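import Cfsg.Agent.Lib.LocalAlperinTame
import Mathlib.GroupTheory.Focal
import Mathlib.GroupTheory.Nilpotent

/-!
# The focal subgroup through tame intersections
-/

set_option autoImplicit false

universe u

namespace CfsgLib.TameFocal

open CfsgLib.Local
open scoped commutatorElement

variable {G : Type u} [Group G] [Finite G] {p : ℕ} [hp : Fact p.Prime]

/-- The subgroup on the right side. -/
def rhs (P : Sylow p G) : Subgroup G :=
  ⁅(P : Subgroup G), Subgroup.normalizer ((P : Subgroup G) : Set G)⁆ ⊔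
    ⨆ (Q : Sylow p G) (_ : TameInter p (P : Subgroup G) (Q : Subgroup G))
      (x : G) (_ : x ∈ Subgroup.normalizer (((P : Subgroup G) ⊓ (Q : Subgroup G) : Subgroup G) : Set G) ∧
        ∃ k : ℕ, orderOf x = p ^ k),
      ⁅(P : Subgroup G) ⊓ (Q : Subgroup G), Subgroup.zpowers x⁆

/-- Moving inside a subgroup stays in `D`. -/
def Good (D H : Subgroup G) (g : G) : Prop := ∀ h ∈ H, h⁻¹ * (g⁻¹ * h * g) ∈ D

theorem good_mul {D H : Subgroup G} {g k : G} (hg : Good D H g) (hn : ∀ h ∈ H, g⁻¹ * h * g ∈ H)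
    (hk : Good D H k) : Good D H (g * k) := by
  intro h hh
  have := mul_mem (hg h hh) (hk _ (hn h hh))
  simpa [mul_assoc] using this

theorem good_steps {P : Sylow p G} (D : Subgroup G) {A : Set G} {g : G} (hseq : TameSeq P A g)
    (hstep : ∀ (T : Sylow p G) (x : G), TameInter p (P : Subgroup G) (T : Subgroup G) →
      x ∈ Subgroup.normalizer (((P : Subgroup G) ⊓ (T : Subgroup G) : Subgroup G) : Set G) →
      (∃ w : G, rc w A ⊆ (((P : Subgroup G) ⊓ (T : Subgroup G) : Subgroup G) : Set G)) →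
      Good D ((P : Subgroup G) ⊓ (T : Subgroup G)) x) :
    ∀ a ∈ A, a⁻¹ * (g⁻¹ * a * g) ∈ D := by
  obtain ⟨l, hl, hi⟩ := hseq
  intro a ha
  have key : ∀ i ≤ l.length,
      a⁻¹ * (((l.map Prod.snd).take i).prod⁻¹ * a * ((l.map Prod.snd).take i).prod) ∈ D := by
    intro i hil
    induction i with
    | zero => simp
    | succ i ih =>
      have hlt : i < l.length := hil
      obtain ⟨h1, h2, h3⟩ := hi i hlt
      have e : ((l.map Prod.snd).take (i + 1)).prod = ((l.map Prod.snd).take i).prod * l[i].2 := by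
        rw [List.prod_take_succ _ _ (by rw [List.length_map]; exact hlt), List.getElem_map]
      set w := ((l.map Prod.snd).take i).prod with hw
      have hmem : w⁻¹ * a * w ∈ (((P : Subgroup G) ⊓ (l[i].1 : Subgroup G) : Subgroup G)) := h3 ⟨a, ha, rfl⟩
      have := mul_mem (ih hlt.le) (hstep _ _ h2 h1 ⟨w, h3⟩ _ hmem)
      rw [e]
      simpa [mul_assoc] using this
  have h := key l.length le_rfl
  rwa [List.take_of_length_le (by rw [List.length_map]), hl] at h

/-- Every tame intersection is moved within `D` by its normalizer. -/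
theorem good_tame (P : Sylow p G) : ∀ (n : ℕ) (T : Sylow p G) (x : G),
    Nat.card (P : Subgroup G) - Nat.card ↥((P : Subgroup G) ⊓ (T : Subgroup G)) ≤ n →
    TameInter p (P : Subgroup G) (T : Subgroup G) →
    x ∈ Subgroup.normalizer (((P : Subgroup G) ⊓ (T : Subgroup G) : Subgroup G) : Set G) →
    Good (rhs P) ((P : Subgroup G) ⊓ (T : Subgroup G)) x := by
  intro n
  induction n using Nat.strong_induction_on with
  | _ n ih =>
  intro T x hn hT hx
  set H := (P : Subgroup G) ⊓ (T : Subgroup G) with hH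
  set N := Subgroup.normalizer (H : Set G) with hN
  have hHP : H ≤ (P : Subgroup G) := inf_le_left
  by_cases hHeq : H = (P : Subgroup G)
  · intro h hh
    rw [show h⁻¹ * (x⁻¹ * h * x) = ⁅h⁻¹, x⁻¹⁆ by rw [commutatorElement_def]; group]
    refine Subgroup.mem_sup_left (Subgroup.commutator_mem_commutator (inv_mem (hHP hh)) (inv_mem ?_))
    rwa [hN, hHeq] at hx
  have hconj : ∀ y ∈ N, ∀ h ∈ H, y⁻¹ * h * y ∈ H := fun y hy h hh => by
    simpa using (Subgroup.mem_normalizer_iff.1 (inv_mem hy) h).1 hh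
  -- the subgroup generated by the `p`-elements
  set S : Set N := {y | ∃ k : ℕ, orderOf y = p ^ k} with hS
  set K := Subgroup.closure S with hK
  haveI hKn : K.Normal := by
    refine ⟨fun y hy z => ?_⟩
    have hle : K ≤ K.comap (MulAut.conj z).toMonoidHom := (Subgroup.closure_le _).2 fun w hw => by
      refine Subgroup.subset_closure (show (MulAut.conj z).toMonoidHom w ∈ S from ?_)
      obtain ⟨k, hk⟩ := hw
      exact ⟨k, (orderOf_injective _ (MulAut.conj z).injective w).trans hk⟩
    exact hle hy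
  have hgoodK : ∀ y ∈ K, Good (rhs P) H (y : G) := by
    intro y hy
    rw [hK, ← Subgroup.mem_toSubmonoid, Subgroup.closure_toSubmonoid_of_finite] at hy
    induction hy using Submonoid.closure_induction with
    | mem z hz =>
      intro h hh
      obtain ⟨k, hk⟩ := hz
      rw [show h⁻¹ * ((z : G)⁻¹ * h * (z : G)) = ⁅h⁻¹, (z : G)⁻¹⁆ by rw [commutatorElement_def]; group]
      refine Subgroup.mem_sup_right (Subgroup.mem_iSup_of_mem T (Subgroup.mem_iSup_of_mem hT
        (Subgroup.mem_iSup_of_mem (z : G) (Subgroup.mem_iSup_of_mem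
          ⟨z.2, k, by rw [Subgroup.orderOf_coe]; exact hk⟩ ?_))))
      exact Subgroup.commutator_mem_commutator (inv_mem hh) (inv_mem (Subgroup.mem_zpowers _))
    | one => intro h hh; simp
    | mul a b _ _ ha hb => exact good_mul ha (hconj _ a.2) hb
  -- the Sylow subgroup of the normalizer
  set R := (P : Subgroup G) ⊓ N with hR
  have hRN : R ≤ N := inf_le_right
  have hRp : IsPGroup p (R.subgroupOf N) :=
    (P.2.to_le inf_le_left).comap_of_injective N.subtype N.subtype_injective
  let Rs : Sylow p N := hRp.toSylow hT.1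
  have hRs : (Rs : Subgroup N) = R.subgroupOf N := IsPGroup.toSylow_coe hRp hT.1
  have hRK : (Rs : Subgroup N) ≤ K := fun y hy => by
    obtain ⟨k, hk⟩ := IsPGroup.iff_orderOf.1 Rs.2 ⟨y, hy⟩
    exact Subgroup.subset_closure ⟨k, by rw [← hk]; exact (Subgroup.orderOf_mk y hy).symm⟩
  have hfr := Sylow.normalizer_sup_eq_top' Rs hRK
  have hxmem : (⟨x, hx⟩ : N) ∈ K ⊔ Subgroup.normalizer ((Rs : Subgroup N) : Set N) := by
    rw [sup_comm]; exact hfr.ge (Subgroup.mem_top _)
  obtain ⟨y, hy, z, hz, hyz⟩ := Subgroup.mem_sup_of_normal_left.1 hxmem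
  have hxe : x = (y : G) * (z : G) := (congrArg Subtype.val hyz).symm
  rw [hxe]
  refine good_mul (hgoodK y hy) (hconj _ y.2) ?_
  -- the element normalizing a bigger subgroup
  have hHR : H ≤ R := le_inf hHP Subgroup.le_normalizer
  have hlt : Nat.card H < Nat.card R := by
    refine lt_of_le_of_ne (Nat.le_of_dvd Nat.card_pos (Subgroup.card_dvd_of_le hHR)) fun e => hHeq ?_
    have hRH : R = H := (Subgroup.eq_of_le_of_card_ge hHR e.ge).symm
    haveI := P.2.isNilpotent
    by_contra hne
    have h1 : H.subgroupOf (P : Subgroup G) < ⊤ := lt_top_iff_ne_top.2 fun e' =>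
      hne (le_antisymm hHP (Subgroup.subgroupOf_eq_top.1 e'))
    obtain ⟨w, hw, hw'⟩ := SetLike.exists_of_lt (Group.normalizerCondition_of_isNilpotent (G := (P : Subgroup G)) _ h1)
    rw [← Subgroup.subgroupOf_normalizer_eq hHP, Subgroup.mem_subgroupOf] at hw
    exact hw' (hRH ▸ (⟨w.2, hw⟩ : (w : G) ∈ R))
  have hzR : ∀ r ∈ R, (z : G)⁻¹ * r * (z : G) ∈ R := by
    intro r hr
    have h := (Subgroup.mem_normalizer_iff.1 (inv_mem hz) ⟨r, hRN hr⟩).1 (by rw [hRs]; exact hr)
    rw [hRs, Subgroup.mem_subgroupOf] at h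
    simpa using h
  have hseq := tame_fusion P (R : Set G) (z : G) (fun r hr => (inf_le_left : R ≤ (P : Subgroup G)) hr)
    (by rintro _ ⟨r, hr, rfl⟩; exact (inf_le_left : R ≤ (P : Subgroup G)) (hzR r hr))
  intro h hh
  refine good_steps (rhs P) hseq (fun T' x' hT' hx' hw => ?_) h (hHR hh)
  obtain ⟨w, hw⟩ := hw
  have hcard : Nat.card R ≤ Nat.card ↥((P : Subgroup G) ⊓ (T' : Subgroup G)) :=
    Nat.card_le_card_of_injective (fun r : R => ⟨w⁻¹ * r * w, hw ⟨r, r.2, rfl⟩⟩) (fun a b e => by
      have := congrArg Subtype.val e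
      exact Subtype.ext (mul_left_cancel (mul_right_cancel this)))
  have hle : Nat.card ↥((P : Subgroup G) ⊓ (T' : Subgroup G)) ≤ Nat.card (P : Subgroup G) :=
    Nat.le_of_dvd Nat.card_pos (Subgroup.card_dvd_of_le inf_le_left)
  exact ih _ (show Nat.card (P : Subgroup G) - Nat.card ↥((P : Subgroup G) ⊓ (T' : Subgroup G)) < n by omega)
    T' x' le_rfl hT' hx'

/-- The focal subgroup through tame intersections. -/
theorem focal_eq (P : Sylow p G) : (P : Subgroup G) ⊓ commutator G = rhs P := by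
  refine le_antisymm ?_ (sup_le ?_ (iSup_le fun Q => iSup_le fun _ => iSup_le fun x => iSup_le fun hx => ?_))
  · rw [inf_comm, Subgroup.commutator_inf_eq_focalSubgroup, Subgroup.focalSubgroup_def, Subgroup.closure_le]
    rintro g ⟨hg, a, ha, u, rfl⟩
    have hu : u * a⁻¹ * u⁻¹ ∈ (P : Subgroup G) := by
      have := mul_mem (inv_mem ha) hg
      simpa [commutatorElement_def, mul_assoc] using this
    have hseq := tame_fusion P ({a⁻¹} : Set G) u⁻¹
      (Set.singleton_subset_iff.2 (show a⁻¹ ∈ (P : Subgroup G) from inv_mem ha)) (by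
      rintro _ ⟨b, rfl, rfl⟩
      show u⁻¹⁻¹ * a⁻¹ * u⁻¹ ∈ (P : Subgroup G)
      rw [inv_inv]; exact hu)
    have h := good_steps (rhs P) hseq (fun T x hT hx _ => good_tame P _ T x le_rfl hT hx) a⁻¹ rfl
    simpa [commutatorElement_def, mul_assoc] using h
  · refine le_inf ?_ ((Subgroup.commutator_mono le_top le_top).trans (commutator_def G).ge)
    rw [Subgroup.commutator_le]
    intro a ha b hb
    rw [commutatorElement_def]
    have := mul_mem ha ((Subgroup.mem_normalizer_iff.1 hb _).1 (inv_mem ha))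
    simpa [mul_assoc] using this
  · refine le_inf ?_ ((Subgroup.commutator_mono le_top le_top).trans (commutator_def G).ge)
    rw [Subgroup.commutator_le]
    intro a ha b hb
    have hb' := Subgroup.zpowers_le.2 hx.1 hb
    have := mul_mem ha ((Subgroup.mem_normalizer_iff.1 hb' _).1 (inv_mem ha))
    rw [commutatorElement_def]
    have h2 : a * (b * a⁻¹ * b⁻¹) ∈ (P : Subgroup G) := this.1
    simpa [mul_assoc] using h2

end CfsgLib.TameFocal
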