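import Cfsg.Agent.Lib.LocalWellPlaced
import Mathlib.GroupTheory.Focal

/-! Local to global control of transfer by a family of conjugacy functors. -/

set_option autoImplicit false
open Cfsg
open scoped Pointwise commutatorElement

namespace CfsgLib.Local.TransferLocal

open CfsgLib.Local

variable {G : Type*} [Group G]

/-- The subgroup generated by the local focal pieces. -/
def focal (𝓦 : Set (Subgroup G → Subgroup G)) (S : Subgroup G) : Subgroup G :=
  ⨆ W ∈ 𝓦, S ⊓ ⁅(⊤ : Subgroup G) ⊓ Subgroup.normalizer ((W S : Subgroup G) : Set G),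
    ⊤ ⊓ Subgroup.normalizer ((W S : Subgroup G) : Set G)⁆

theorem inv_conj_mem_commutator {H : Subgroup G} {a g : G} (ha : a ∈ H) (hg : g ∈ H) :
    a⁻¹ * (g⁻¹ * a * g) ∈ ⁅H, H⁆ := by
  have h := Subgroup.commutator_mem_commutator (inv_mem ha) (inv_mem hg)
  simpa [commutatorElement_def, mul_assoc] using h

/-- Local to global control of transfer. -/
theorem controlsTransfer_of_local [Finite G] {p : ℕ} [Fact p.Prime] (S : Sylow p G)
    (𝓦 : Set (Subgroup G → Subgroup G)) (h𝓦 : ∀ W ∈ 𝓦, Cfsg.IsConjugacyFunctor p W)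
    (Good : Subgroup G → Prop)
    (hex : ∀ T : Subgroup G, T ≤ (S : Subgroup G) → ∃ g : G,
      T.map (MulAut.conj g).toMonoidHom ≤ (S : Subgroup G) ∧
        Good (T.map (MulAut.conj g).toMonoidHom))
    (hfn : ∀ U, Good U → FullyNorm p (S : Subgroup G) U)
    (hloc : ∀ U, Good U → U ≤ (S : Subgroup G) → U ≠ ⊥ →
      Cfsg.FamilyControlsTransferIn p 𝓦 (Subgroup.normalizer ((U : Subgroup G) : Set G))) :
    Cfsg.FamilyControlsTransferIn p 𝓦 ⊤ := by
  classical
  have hS := S.isPGroup'
  set F := focal 𝓦 (S : Subgroup G) with hF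
  let R : Subgroup G → Subgroup G := fun V =>
    (S : Subgroup G) ⊓ Subgroup.normalizer (V : Set G)
  let X : Subgroup G → Subgroup G := fun V =>
    R V ⊓ ⁅Subgroup.normalizer (V : Set G), Subgroup.normalizer (V : Set G)⁆
  let GX : ℕ → Prop := fun r => ∀ V, Good V → V ≤ (S : Subgroup G) → V ≠ ⊥ →
    (r < Nat.card (R V) ∨ R V = (S : Subgroup G)) → X V ≤ F
  -- fusion of large sets is good
  have fus : ∀ r, GX r → ∀ (A : Set G) (g : G), A ⊆ ((S : Subgroup G) : Set G) →
      rc g A ⊆ ((S : Subgroup G) : Set G) → r ≤ A.ncard → ∀ a ∈ A, a⁻¹ * (g⁻¹ * a * g) ∈ F := by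
    intro r hr A g hA hg
    refine fusion_induction hS (fun A g => r ≤ A.ncard → ∀ a ∈ A, a⁻¹ * (g⁻¹ * a * g) ∈ F)
      ?_ ?_ (fun T hT => ?_) A g hA hg
    · intro A B g hAB h hn a ha
      exact h (hn.trans (Set.ncard_le_ncard hAB (Set.toFinite B))) a (hAB ha)
    · intro A g h hg hh hn a ha
      have hinj : Function.Injective fun a => g⁻¹ * a * g := fun x y e => by simpa using e
      have h1 := hh (by rw [rc, Set.ncard_image_of_injective _ hinj]; exact hn) _ ⟨a, ha, rfl⟩
      have h2 := mul_mem (hg hn a ha) h1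
      simpa [mul_assoc] using h2
    · obtain ⟨h, hhS, hhG⟩ := hex T hT
      set U := T.map (MulAut.conj h).toMonoidHom with hU
      refine ⟨U, hhS, ⟨h⁻¹, map_conj_eq_iff.1 rfl⟩, hfn U hhG, fun _ m hm hn a ha => ?_⟩
      have ha' : a ∈ U := ha
      rcases eq_or_ne U ⊥ with hb | hb
      · rw [hb, Subgroup.mem_bot] at ha'
        simp [ha']
      · have hbig : r < Nat.card (R U) ∨ R U = (S : Subgroup G) := by
          by_cases he : U = (S : Subgroup G)
          · right
            exact le_antisymm inf_le_left (le_inf le_rfl (he ▸ Subgroup.le_normalizer))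
          · left
            refine lt_of_le_of_lt ?_ (card_lt_card_of_lt (lt_inf_normalizer hS (lt_of_le_of_ne hhS he)))
            rw [← SetLike.coe_sort_coe, Nat.card_coe_set_eq]; exact hn
        refine hr U hhG hhS hb hbig ⟨?_, ?_⟩
        · refine (le_inf hhS Subgroup.le_normalizer : U ≤ R U) (mul_mem (inv_mem ha') ?_)
          exact (rc_eq_of_mem_normalizer hm).le ⟨a, ha', rfl⟩
        · exact inv_conj_mem_commutator (Subgroup.le_normalizer ha') hm
  -- the local pieces
  have loc : ∀ (n : ℕ) (V : Subgroup G), Nat.card (S : Subgroup G) - Nat.card (R V) = n → Good V →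
      V ≤ (S : Subgroup G) → V ≠ ⊥ → X V ≤ F := by
    intro n
    induction n using Nat.strong_induction_on with
    | _ n ih =>
    intro V hn hVG hVS hVb
    set N := Subgroup.normalizer (V : Set G) with hN
    obtain ⟨T₀, hT₀N, hT₀p, hT₀i, hfoc⟩ := hloc V hVG hVS hVb
    obtain ⟨k, hk, hkR⟩ := exists_rc_le_of_fullyNorm hS (hfn V hVG) hT₀p hT₀N
    have hRT : R V = T₀.map (MulAut.conj k⁻¹).toMonoidHom := by
      have hle : T₀.map (MulAut.conj k⁻¹).toMonoidHom ≤ (S : Subgroup G) ⊓ N := by
        rw [← SetLike.coe_subset_coe, ← rc_coe]; exact hkR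
      refine (eq_inf_of_fullyNorm_le hS hle ?_).symm
      have hNk : N.map (MulAut.conj k⁻¹).toMonoidHom = N :=
        Subgroup.mem_normalizer_iff_map_conj_eq.1 (Subgroup.le_normalizer (N.inv_mem hk))
      rwa [← hNk, Subgroup.relIndex_map_map_of_injective _ _ (MulEquiv.injective _)]
    have hpiece : ∀ W ∈ 𝓦, ∀ z ∈ R V, z ∈ ⁅Subgroup.normalizer ((W (R V) : Subgroup G) : Set G),
        Subgroup.normalizer ((W (R V) : Subgroup G) : Set G)⁆ → z ∈ F := by
      intro W hW z hz hzN
      by_cases hRS : R V = (S : Subgroup G)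
      · rw [hRS] at hz hzN
        refine Subgroup.mem_iSup_of_mem W (Subgroup.mem_iSup_of_mem hW ⟨hz, ?_⟩)
        rwa [top_inf_eq]
      have hRlt : R V < (S : Subgroup G) := lt_of_le_of_ne inf_le_left hRS
      have hRp : IsPGroup p (R V) := hS.to_le inf_le_left
      have hRb : R V ≠ ⊥ := fun e =>
        hVb (le_bot_iff.mp (e ▸ (le_inf hVS Subgroup.le_normalizer : V ≤ R V)))
      obtain ⟨hWle, hWne, hWeq⟩ := h𝓦 W hW (R V) hRp
      set R₂ := (S : Subgroup G) ⊓ Subgroup.normalizer ((W (R V) : Subgroup G) : Set G) with hR₂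
      have hlt : Nat.card (R V) < Nat.card R₂ := by
        refine lt_of_lt_of_le (card_lt_card_of_lt (lt_inf_normalizer hS hRlt))
          (Subgroup.card_le_of_le (inf_le_inf_left _ fun x hx => ?_))
        rw [Subgroup.mem_normalizer_iff_map_conj_eq]
        show (W (R V)).map (MulAut.conj x).toMonoidHom = W (R V)
        rw [← hWeq x]
        exact congrArg W (Subgroup.mem_normalizer_iff_map_conj_eq.1 hx)
      obtain ⟨g, hgS, hgG⟩ := hex (W (R V)) (hWle.trans inf_le_left)
      set V' := (W (R V)).map (MulAut.conj g).toMonoidHom with hV'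
      have hNV' : (Subgroup.normalizer ((W (R V) : Subgroup G) : Set G)).map (MulAut.conj g).toMonoidHom =
          Subgroup.normalizer (V' : Set G) := normalizer_map_conj g _
      have hR₂' : R₂.map (MulAut.conj g).toMonoidHom ≤ Subgroup.normalizer (V' : Set G) :=
        hNV' ▸ Subgroup.map_mono inf_le_right
      obtain ⟨m, hm, hmR⟩ := exists_rc_le_of_fullyNorm hS (hfn V' hgG)
        ((hS.to_le inf_le_left).map _) hR₂'
      set u := g⁻¹ * m with hu
      have hmem : ∀ x ∈ R₂, u⁻¹ * x * u ∈ R V' := by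
        intro x hx
        have : m⁻¹ * (g * x * g⁻¹) * m ∈ R V' := hmR ⟨_, ⟨x, hx, rfl⟩, rfl⟩
        simpa [hu, mul_assoc] using this
      have hc2 : Nat.card R₂ ≤ Nat.card (R V') :=
        Nat.card_le_card_of_injective (fun x : R₂ => (⟨u⁻¹ * x * u, hmem x x.2⟩ : R V'))
          (fun a b e => Subtype.ext (mul_left_cancel (mul_right_cancel (congrArg Subtype.val e))))
      have hc3 : Nat.card (R V') ≤ Nat.card (S : Subgroup G) := Subgroup.card_le_of_le inf_le_left
      have hXV' : X V' ≤ F := by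
        refine ih _ ?_ V' rfl hgG hgS ?_
        · omega
        · rw [hV', Ne, Subgroup.map_eq_bot_iff_of_injective _ (MulAut.conj g).injective]
          exact hWne hRb
      have hz2 : z ∈ R₂ := ⟨(inf_le_left : R V ≤ _) hz, Subgroup.commutator_le_self _ hzN⟩
      have hX : u⁻¹ * z * u ∈ X V' := by
        refine ⟨hmem z hz2, ?_⟩
        have h1 : g * z * g⁻¹ ∈ ⁅Subgroup.normalizer (V' : Set G), Subgroup.normalizer (V' : Set G)⁆ := by
          rw [← hNV', ← Subgroup.map_commutator]
          exact ⟨z, hzN, rfl⟩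
        have h2 : m⁻¹ * ((g * z * g⁻¹) * m * (g * z * g⁻¹)⁻¹) ∈
            ⁅Subgroup.normalizer (V' : Set G), Subgroup.normalizer (V' : Set G)⁆ := by
          have := Subgroup.commutator_mem_commutator (inv_mem hm) (Subgroup.commutator_le_self _ h1)
          simpa [commutatorElement_def, mul_assoc] using this
        have := mul_mem h2 h1
        simpa [hu, mul_assoc] using this
      have hgx : GX (Nat.card (R V)) := by
        intro V₁ h1 h2 h3 h4
        refine ih _ ?_ V₁ rfl h1 h2 h3
        rcases h4 with h4 | h4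
        · have : Nat.card (R V₁) ≤ Nat.card (S : Subgroup G) := Subgroup.card_le_of_le inf_le_left
          omega
        · have := card_lt_card_of_lt hRlt
          rw [h4]; omega
      have hfus := fus _ hgx (R₂ : Set G) u (SetLike.coe_subset_coe.2 inf_le_left)
        (by rintro _ ⟨x, hx, rfl⟩; exact (hmem x hx).1)
        (by rw [← Nat.card_coe_set_eq, SetLike.coe_sort_coe]; exact hlt.le) z hz2
      have h5 := mul_mem (hXV' hX) (inv_mem hfus)
      simpa [mul_assoc] using h5
    intro x hx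
    have hNk : N.map (MulAut.conj k⁻¹).toMonoidHom = N :=
      Subgroup.mem_normalizer_iff_map_conj_eq.1 (Subgroup.le_normalizer (N.inv_mem hk))
    have hx2 : x ∈ (T₀ ⊓ ⁅N, N⁆).map (MulAut.conj k⁻¹).toMonoidHom := by
      rw [Subgroup.map_inf _ _ _ (MulAut.conj k⁻¹).injective, ← hRT, Subgroup.map_commutator,
        hNk]
      exact hx
    rw [hfoc] at hx2
    revert hx2 x
    intro x _ hx2
    simp only [Subgroup.map_iSup] at hx2
    refine (iSup₂_le fun W hW => ?_ : _ ≤ F) hx2
    rintro _ ⟨w, ⟨hwT, hwN⟩, rfl⟩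
    have hw1 : (MulAut.conj k⁻¹).toMonoidHom w ∈ R V := hRT ▸ ⟨w, hwT, rfl⟩
    refine hpiece W hW _ hw1 ?_
    have hWk : W (R V) = (W T₀).map (MulAut.conj k⁻¹).toMonoidHom := by
      rw [hRT]; exact (h𝓦 W hW T₀ hT₀p).2.2 k⁻¹
    rw [hWk, ← normalizer_map_conj, ← Subgroup.map_commutator]
    exact ⟨w, Subgroup.commutator_mono inf_le_right inf_le_right hwN, rfl⟩
  have hall : ∀ r, GX r := fun r V h1 h2 h3 _ => loc _ V rfl h1 h2 h3
  refine ⟨S, le_top, hS, by rw [Subgroup.relIndex_top_right]; exact S.not_dvd_index, ?_⟩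
  refine le_antisymm ?_ (iSup₂_le fun W hW => inf_le_inf_left _
    (Subgroup.commutator_mono inf_le_left inf_le_left))
  rw [← commutator_def, inf_comm, Subgroup.commutator_inf_eq_focalSubgroup,
    Subgroup.focalSubgroup_def, Subgroup.closure_le]
  rintro g ⟨hg, a, ha, u, rfl⟩
  have hu : u * a⁻¹ * u⁻¹ ∈ (S : Subgroup G) := by
    have := mul_mem (inv_mem ha) hg
    simpa [commutatorElement_def, mul_assoc] using this
  have h := fus 0 (hall 0) ({a⁻¹} : Set G) u⁻¹
    (Set.singleton_subset_iff.2 (show a⁻¹ ∈ (S : Subgroup G) from inv_mem ha))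
    (by
      rintro _ ⟨b, rfl, rfl⟩
      show u⁻¹⁻¹ * a⁻¹ * u⁻¹ ∈ (S : Subgroup G)
      rw [inv_inv]; exact hu)
    (Nat.zero_le _) a⁻¹ rfl
  simpa [commutatorElement_def, mul_assoc, hF, focal] using h

end CfsgLib.Local.TransferLocal
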