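import Cfsg.Agent.Lib.LocalTransferLocal
import Cfsg.Agent.Lib.LocalCharP

/-! Local to global control of transfer by a functor pair. -/

set_option autoImplicit false
open Cfsg
open scoped Pointwise commutatorElement

namespace CfsgLib.Local.TransferLocal

open CfsgLib.Local

variable {G : Type*} [Group G]

theorem controlsTransfer_pair [Finite G] {p : ℕ} [Fact p.Prime] (S : Sylow p G)
    (W V₀ : Subgroup G → Subgroup G) (hW : Cfsg.IsConjugacyFunctor p W)
    (hV₀ : Cfsg.IsConjugacyFunctor p V₀)
    (hWZ : ∀ H : Subgroup G, IsPGroup p ↥H → H ⊓ Subgroup.centralizer (H : Set G) ≤ W H)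
    (hVmono : ∀ R : Subgroup G, R ≤ (S : Subgroup G) →
      (S : Subgroup G) ⊓ Subgroup.centralizer ((S : Subgroup G) : Set G) ≤ R → V₀ S ≤ V₀ R)
    (hloc : ∀ H : Subgroup G, (S : Subgroup G) ⊓ Subgroup.centralizer ((S : Subgroup G) : Set G) ≤ H →
      H ≤ (S : Subgroup G) → ∃ Q : Subgroup G, Q ≤ Subgroup.normalizer (H : Set G) ∧ IsPGroup p ↥Q ∧
        ¬ p ∣ Q.relIndex (Subgroup.normalizer (H : Set G)) ∧
        Q ⊓ ⁅Subgroup.normalizer (H : Set G), Subgroup.normalizer (H : Set G)⁆ ≤
          (Q ⊓ ⁅Subgroup.normalizer ((W Q : Subgroup G) : Set G), Subgroup.normalizer ((W Q : Subgroup G) : Set G)⁆) ⊔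
          (Q ⊓ ⁅Subgroup.centralizer ((V₀ Q : Subgroup G) : Set G), Subgroup.centralizer ((V₀ Q : Subgroup G) : Set G)⁆)) :
    (S : Subgroup G) ⊓ commutator G ≤
      ((S : Subgroup G) ⊓ ⁅Subgroup.normalizer ((W S : Subgroup G) : Set G), Subgroup.normalizer ((W S : Subgroup G) : Set G)⁆) ⊔
      ((S : Subgroup G) ⊓ ⁅Subgroup.centralizer ((V₀ S : Subgroup G) : Set G), Subgroup.centralizer ((V₀ S : Subgroup G) : Set G)⁆) := by
  classical
  have hS := S.isPGroup'
  set Z := (S : Subgroup G) ⊓ Subgroup.centralizer ((S : Subgroup G) : Set G) with hZ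
  set F := ((S : Subgroup G) ⊓ ⁅Subgroup.normalizer ((W S : Subgroup G) : Set G), Subgroup.normalizer ((W S : Subgroup G) : Set G)⁆) ⊔
      ((S : Subgroup G) ⊓ ⁅Subgroup.centralizer ((V₀ S : Subgroup G) : Set G), Subgroup.centralizer ((V₀ S : Subgroup G) : Set G)⁆) with hF
  let Good : Subgroup G → Prop := fun U => FullyNorm p (S : Subgroup G) U ∧
    ∃ g : G, U.map (MulAut.conj g).toMonoidHom ≤ (S : Subgroup G) ∧ Z ≤ U.map (MulAut.conj g).toMonoidHom
  let R : Subgroup G → Subgroup G := fun V =>
    (S : Subgroup G) ⊓ Subgroup.normalizer (V : Set G)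
  let X : Subgroup G → Subgroup G := fun V =>
    R V ⊓ ⁅Subgroup.normalizer (V : Set G), Subgroup.normalizer (V : Set G)⁆
  let GX : ℕ → Prop := fun r => ∀ V, Good V → V ≤ (S : Subgroup G) → V ≠ ⊥ →
    (r < Nat.card (R V) ∨ R V = (S : Subgroup G)) → X V ≤ F
  -- fusion of large sets is good
  have fus : ∀ r, GX r → ∀ (A : Set G) (g : G), A ⊆ ((S : Subgroup G) : Set G) →
      rc g A ⊆ ((S : Subgroup G) : Set G) → r ≤ A.ncard → ∀ a ∈ A, a⁻¹ * (g⁻¹ * a * g) ∈ F := by
    intro r hr A g hA hg
    refine fusion_induction hS (fun A g => r ≤ A.ncard → ∀ a ∈ A, a⁻¹ * (g⁻¹ * a * g) ∈ F)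
      ?_ ?_ (fun T hT => ?_) A g hA hg
    · intro A B g hAB h hn a ha
      exact h (hn.trans (Set.ncard_le_ncard hAB (Set.toFinite B))) a (hAB ha)
    · intro A g h hg hh hn a ha
      have hinj : Function.Injective fun a => g⁻¹ * a * g := fun x y e => by simpa using e
      have h1 := hh (by rw [rc, Set.ncard_image_of_injective _ hinj]; exact hn) _ ⟨a, ha, rfl⟩
      have h2 := mul_mem (hg hn a ha) h1
      simpa [mul_assoc] using h2
    · obtain ⟨h, hhS, hhfn⟩ := exists_fullyNorm_conj S T hT
      set U := T.map (MulAut.conj h).toMonoidHom with hU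
      refine ⟨U, hhS, ⟨h⁻¹, map_conj_eq_iff.1 rfl⟩, hhfn, fun IH m hm hn a ha => ?_⟩
      have ha' : a ∈ U := ha
      rcases eq_or_ne U ⊥ with hb | hb
      · rw [hb, Subgroup.mem_bot] at ha'
        simp [ha']
      · have hbig : r < Nat.card (R U) ∨ R U = (S : Subgroup G) := by
          by_cases he : U = (S : Subgroup G)
          · right
            exact le_antisymm inf_le_left (le_inf le_rfl (he ▸ Subgroup.le_normalizer))
          · left
            refine lt_of_le_of_lt ?_ (card_lt_card_of_lt (lt_inf_normalizer hS (lt_of_le_of_ne hhS he)))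
            rw [← SetLike.coe_sort_coe, Nat.card_coe_set_eq]; exact hn
        by_cases hZU : Z ≤ U
        swap
        · -- enlarge `U` by its centralizer in `S`
          set C := Subgroup.centralizer (U : Set G) with hC
          set N := Subgroup.normalizer (U : Set G) with hN
          have hCN : C ≤ N := Subgroup.centralizer_le_normalizer _
          let RN : Sylow p N := ((hS.to_le inf_le_left).comap_subtype (K := N)).toSylow hhfn
          haveI : (C.subgroupOf N).Normal := Subgroup.normal_subgroupOf_centralizer_normalizer _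
          obtain ⟨T₁, hT₁⟩ := CfsgLib.Local.CharP.exists_sylow_subnormal RN (K := C.subgroupOf N)
            (Subgroup.Normal.isSubnormal inferInstance)
          have hfr := Sylow.normalizer_sup_eq_top T₁
          have hxmem := hfr.ge (Subgroup.mem_top (⟨m, hm⟩ : N))
          rw [sup_comm, Subgroup.mem_sup_of_normal_left] at hxmem
          obtain ⟨c, hc, m', hm', hcm⟩ := hxmem
          have hm'e : m = (c : G) * (m' : G) := (congrArg Subtype.val hcm).symm
          have hac : (c : G)⁻¹ * a * c = a := by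
            have hc' : (c : G) ∈ C := hc
            rw [mul_assoc, Subgroup.mem_centralizer_iff.mp hc' a ha', inv_mul_cancel_left]
          set U' := U ⊔ ((S : Subgroup G) ⊓ C) with hU'
          have hU'S : U' ≤ (S : Subgroup G) := sup_le hhS inf_le_left
          have hmem : ∀ x, x ∈ (S : Subgroup G) ⊓ C → (m' : G)⁻¹ * x * m' ∈ (S : Subgroup G) := by
            intro x hx
            have hxN : x ∈ N := hCN hx.2
            have h1 : (⟨x, hxN⟩ : N) ∈ ((T₁ : Subgroup (C.subgroupOf N)).map (C.subgroupOf N).subtype) :=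
              ⟨⟨⟨x, hxN⟩, hx.2⟩, by
                show (⟨⟨x, hxN⟩, hx.2⟩ : C.subgroupOf N) ∈ (T₁ : Subgroup (C.subgroupOf N))
                rw [hT₁]; exact ⟨hx.1, hxN⟩, rfl⟩
            obtain ⟨y, hy, hye⟩ := (Subgroup.mem_normalizer_iff.1 (inv_mem hm') _).1 h1
            rw [SetLike.mem_coe, hT₁] at hy
            have hy' : ((y : N) : G) ∈ (S : Subgroup G) := hy.1
            rw [show ((y : N) : G) = (m' : G)⁻¹ * x * ((m' : G)⁻¹)⁻¹ from congrArg Subtype.val hye,
              inv_inv] at hy'
            exact hy'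
          have hrc : rc (m' : G) ((U' : Subgroup G) : Set G) ⊆ ((S : Subgroup G) : Set G) := by
            rintro _ ⟨x, hx, rfl⟩
            have hle : U' ≤ (S : Subgroup G).comap (MulAut.conj (m' : G)⁻¹).toMonoidHom := by
              refine sup_le (fun y hy => ?_) (fun y hy => ?_)
              · have := (inf_le_left : _ ≤ (S : Subgroup G)) (show (m' : G)⁻¹ * y * m' ∈ (S : Subgroup G) ⊓ N from
                  (le_inf hhS Subgroup.le_normalizer) ((rc_eq_of_mem_normalizer m'.2).le ⟨y, hy, rfl⟩))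
                simpa using this
              · simpa using hmem y hy
            have h3 := hle hx
            rw [Subgroup.mem_comap] at h3
            show (m' : G)⁻¹ * x * m' ∈ (S : Subgroup G)
            simpa using h3
          have hlt : Nat.card T < Nat.card U' := by
            have he : Nat.card U = Nat.card T := Subgroup.card_map_of_injective (MulAut.conj h).injective
            rw [← he]
            refine card_lt_card_of_lt (lt_of_le_of_ne le_sup_left fun e => hZU ?_)
            exact e.symm ▸ (le_sup_right.trans' (inf_le_inf_left _ (Subgroup.centralizer_le hhS)))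
          have hn' : r ≤ ((U' : Subgroup G) : Set G).ncard :=
            hn.trans (Set.ncard_le_ncard (SetLike.coe_subset_coe.2 le_sup_left) (Set.toFinite _))
          have h2 := IH U' (m' : G) hlt hU'S hrc hn' a (Subgroup.mem_sup_left ha')
          rw [hm'e, show ((c : G) * (m' : G))⁻¹ * a * ((c : G) * m') = (m' : G)⁻¹ * ((c : G)⁻¹ * a * c) * m' by group, hac]
          exact h2
        have he1 : U.map (MulAut.conj (1 : G)).toMonoidHom = U := by
          ext x; simp
        have hhG : Good U := ⟨hhfn, 1, he1.symm ▸ hhS, he1.symm ▸ hZU⟩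
        refine hr U hhG hhS hb hbig ⟨?_, ?_⟩
        · refine (le_inf hhS Subgroup.le_normalizer : U ≤ R U) (mul_mem (inv_mem ha') ?_)
          exact (rc_eq_of_mem_normalizer hm).le ⟨a, ha', rfl⟩
        · exact inv_conj_mem_commutator (Subgroup.le_normalizer ha') hm
  -- the local pieces
  have loc : ∀ (n : ℕ) (V : Subgroup G), Nat.card (S : Subgroup G) - Nat.card (R V) = n → Good V →
      V ≤ (S : Subgroup G) → V ≠ ⊥ → X V ≤ F := by
    intro n
    induction n using Nat.strong_induction_on with
    | _ n ih =>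
    intro V hn hVG hVS hVb
    set N := Subgroup.normalizer (V : Set G) with hN
    obtain ⟨g₀, hg₀S, hg₀Z⟩ := hVG.2
    obtain ⟨Q, hQN, hQp, hQi, hQfoc⟩ := hloc _ hg₀Z hg₀S
    set H₀ := V.map (MulAut.conj g₀).toMonoidHom with hH₀
    -- transport to `N(V)`
    set T₀ := Q.map (MulAut.conj g₀⁻¹).toMonoidHom with hT₀
    have hNH : (Subgroup.normalizer (H₀ : Set G)).map (MulAut.conj g₀⁻¹).toMonoidHom = N := by
      rw [normalizer_map_conj, hH₀, Subgroup.map_map, hN]
      congr 2
      rw [show (MulAut.conj g₀⁻¹).toMonoidHom.comp (MulAut.conj g₀).toMonoidHom = MonoidHom.id G from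
        MonoidHom.ext fun x => by simp [mul_assoc], Subgroup.map_id]
    have hT₀N : T₀ ≤ N := hNH ▸ Subgroup.map_mono hQN
    have hT₀p : IsPGroup p T₀ := hQp.map _
    have hT₀i : ¬ p ∣ T₀.relIndex N := by
      rw [← hNH, hT₀, Subgroup.relIndex_map_map_of_injective _ _ (MulEquiv.injective _)]; exact hQi
    obtain ⟨k, hk, hkR⟩ := exists_rc_le_of_fullyNorm hS hVG.1 hT₀p hT₀N
    have hRT : R V = T₀.map (MulAut.conj k⁻¹).toMonoidHom := by
      have hle : T₀.map (MulAut.conj k⁻¹).toMonoidHom ≤ (S : Subgroup G) ⊓ N := by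
        rw [← SetLike.coe_subset_coe, ← rc_coe]; exact hkR
      refine (eq_inf_of_fullyNorm_le hS hle ?_).symm
      have hNk : N.map (MulAut.conj k⁻¹).toMonoidHom = N :=
        Subgroup.mem_normalizer_iff_map_conj_eq.1 (Subgroup.le_normalizer (N.inv_mem hk))
      rwa [← hNk, Subgroup.relIndex_map_map_of_injective _ _ (MulEquiv.injective _)]
    have hZR : Z ≤ R V := le_inf inf_le_left fun x hx =>
      Subgroup.centralizer_le_normalizer _ (Subgroup.centralizer_le hVS hx.2)
    have hpieceV : ∀ z ∈ R V, z ∈ ⁅Subgroup.centralizer ((V₀ (R V) : Subgroup G) : Set G),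
        Subgroup.centralizer ((V₀ (R V) : Subgroup G) : Set G)⁆ → z ∈ F := fun z hz hzC =>
      Subgroup.mem_sup_right ⟨hz.1, Subgroup.commutator_mono
        (Subgroup.centralizer_le (hVmono _ inf_le_left hZR))
        (Subgroup.centralizer_le (hVmono _ inf_le_left hZR)) hzC⟩
    have hpiece : ∀ z ∈ R V, z ∈ ⁅Subgroup.normalizer ((W (R V) : Subgroup G) : Set G),
        Subgroup.normalizer ((W (R V) : Subgroup G) : Set G)⁆ → z ∈ F := by
      intro z hz hzN
      by_cases hRS : R V = (S : Subgroup G)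
      · rw [hRS] at hz hzN
        exact Subgroup.mem_sup_left ⟨hz, hzN⟩
      have hRlt : R V < (S : Subgroup G) := lt_of_le_of_ne inf_le_left hRS
      have hRp : IsPGroup p (R V) := hS.to_le inf_le_left
      have hRb : R V ≠ ⊥ := fun e =>
        hVb (le_bot_iff.mp (e ▸ (le_inf hVS Subgroup.le_normalizer : V ≤ R V)))
      obtain ⟨hWle, hWne, hWeq⟩ := hW (R V) hRp
      set R₂ := (S : Subgroup G) ⊓ Subgroup.normalizer ((W (R V) : Subgroup G) : Set G) with hR₂
      have hlt : Nat.card (R V) < Nat.card R₂ := by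
        refine lt_of_lt_of_le (card_lt_card_of_lt (lt_inf_normalizer hS hRlt))
          (Subgroup.card_le_of_le (inf_le_inf_left _ fun x hx => ?_))
        rw [Subgroup.mem_normalizer_iff_map_conj_eq]
        show (W (R V)).map (MulAut.conj x).toMonoidHom = W (R V)
        rw [← hWeq x]
        exact congrArg W (Subgroup.mem_normalizer_iff_map_conj_eq.1 hx)
      obtain ⟨g, hgS, hgfn⟩ := exists_fullyNorm_conj S (W (R V)) (hWle.trans inf_le_left)
      have hgG : Good ((W (R V)).map (MulAut.conj g).toMonoidHom) := by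
        refine ⟨hgfn, g⁻¹, ?_, ?_⟩ <;> rw [Subgroup.map_map,
          show (MulAut.conj g⁻¹).toMonoidHom.comp (MulAut.conj g).toMonoidHom = MonoidHom.id G from
            MonoidHom.ext fun x => by simp [mul_assoc], Subgroup.map_id]
        · exact hWle.trans inf_le_left
        · exact (le_inf hZR (inf_le_right.trans (Subgroup.centralizer_le inf_le_left))).trans (hWZ _ hRp)
      set V' := (W (R V)).map (MulAut.conj g).toMonoidHom with hV'
      have hNV' : (Subgroup.normalizer ((W (R V) : Subgroup G) : Set G)).map (MulAut.conj g).toMonoidHom =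
          Subgroup.normalizer (V' : Set G) := normalizer_map_conj g _
      have hR₂' : R₂.map (MulAut.conj g).toMonoidHom ≤ Subgroup.normalizer (V' : Set G) :=
        hNV' ▸ Subgroup.map_mono inf_le_right
      obtain ⟨m, hm, hmR⟩ := exists_rc_le_of_fullyNorm hS hgG.1
        ((hS.to_le inf_le_left).map _) hR₂'
      set u := g⁻¹ * m with hu
      have hmem : ∀ x ∈ R₂, u⁻¹ * x * u ∈ R V' := by
        intro x hx
        have : m⁻¹ * (g * x * g⁻¹) * m ∈ R V' := hmR ⟨_, ⟨x, hx, rfl⟩, rfl⟩
        simpa [hu, mul_assoc] using this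
      have hc2 : Nat.card R₂ ≤ Nat.card (R V') :=
        Nat.card_le_card_of_injective (fun x : R₂ => (⟨u⁻¹ * x * u, hmem x x.2⟩ : R V'))
          (fun a b e => Subtype.ext (mul_left_cancel (mul_right_cancel (congrArg Subtype.val e))))
      have hc3 : Nat.card (R V') ≤ Nat.card (S : Subgroup G) := Subgroup.card_le_of_le inf_le_left
      have hXV' : X V' ≤ F := by
        refine ih _ ?_ V' rfl hgG hgS ?_
        · omega
        · rw [hV', Ne, Subgroup.map_eq_bot_iff_of_injective _ (MulAut.conj g).injective]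
          exact hWne hRb
      have hz2 : z ∈ R₂ := ⟨(inf_le_left : R V ≤ _) hz, Subgroup.commutator_le_self _ hzN⟩
      have hX : u⁻¹ * z * u ∈ X V' := by
        refine ⟨hmem z hz2, ?_⟩
        have h1 : g * z * g⁻¹ ∈ ⁅Subgroup.normalizer (V' : Set G), Subgroup.normalizer (V' : Set G)⁆ := by
          rw [← hNV', ← Subgroup.map_commutator]
          exact ⟨z, hzN, rfl⟩
        have h2 : m⁻¹ * ((g * z * g⁻¹) * m * (g * z * g⁻¹)⁻¹) ∈
            ⁅Subgroup.normalizer (V' : Set G), Subgroup.normalizer (V' : Set G)⁆ := by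
          have := Subgroup.commutator_mem_commutator (inv_mem hm) (Subgroup.commutator_le_self _ h1)
          simpa [commutatorElement_def, mul_assoc] using this
        have := mul_mem h2 h1
        simpa [hu, mul_assoc] using this
      have hgx : GX (Nat.card (R V)) := by
        intro V₁ h1 h2 h3 h4
        refine ih _ ?_ V₁ rfl h1 h2 h3
        rcases h4 with h4 | h4
        · have : Nat.card (R V₁) ≤ Nat.card (S : Subgroup G) := Subgroup.card_le_of_le inf_le_left
          omega
        · have := card_lt_card_of_lt hRlt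
          rw [h4]; omega
      have hfus := fus _ hgx (R₂ : Set G) u (SetLike.coe_subset_coe.2 inf_le_left)
        (by rintro _ ⟨x, hx, rfl⟩; exact (hmem x hx).1)
        (by rw [← Nat.card_coe_set_eq, SetLike.coe_sort_coe]; exact hlt.le) z hz2
      have h5 := mul_mem (hXV' hX) (inv_mem hfus)
      simpa [mul_assoc] using h5
    intro x hx
    have hNk : N.map (MulAut.conj k⁻¹).toMonoidHom = N :=
      Subgroup.mem_normalizer_iff_map_conj_eq.1 (Subgroup.le_normalizer (N.inv_mem hk))
    have hcomp : (MulAut.conj k⁻¹).toMonoidHom.comp (MulAut.conj g₀⁻¹).toMonoidHom =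
        (MulAut.conj (k⁻¹ * g₀⁻¹)).toMonoidHom := MonoidHom.ext fun x => by simp [mul_assoc]
    set t := k⁻¹ * g₀⁻¹ with ht
    have hRQ : R V = Q.map (MulAut.conj t).toMonoidHom := by rw [hRT, hT₀, Subgroup.map_map, hcomp]
    have hx2 : x ∈ (Q ⊓ ⁅Subgroup.normalizer (H₀ : Set G), Subgroup.normalizer (H₀ : Set G)⁆).map
        (MulAut.conj t).toMonoidHom := by
      rw [Subgroup.map_inf _ _ _ (MulAut.conj t).injective, ← hRQ, Subgroup.map_commutator]
      rw [← hcomp, ← Subgroup.map_map, hNH, hNk]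
      exact hx
    refine (?_ : _ ≤ F) (Subgroup.map_mono hQfoc hx2)
    rw [Subgroup.map_sup]
    refine sup_le ?_ ?_ <;> rintro _ ⟨w, ⟨hwT, hwN⟩, rfl⟩
    · refine hpiece _ (hRQ ▸ ⟨w, hwT, rfl⟩) ?_
      rw [hRQ, (hW Q hQp).2.2 t, ← normalizer_map_conj, ← Subgroup.map_commutator]
      exact ⟨w, hwN, rfl⟩
    · refine hpieceV _ (hRQ ▸ ⟨w, hwT, rfl⟩) ?_
      have hcm : (Subgroup.centralizer ((V₀ Q : Subgroup G) : Set G)).map (MulAut.conj t).toMonoidHom ≤
          Subgroup.centralizer ((V₀ (R V) : Subgroup G) : Set G) := by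
        rw [hRQ, (hV₀ Q hQp).2.2 t]
        rintro _ ⟨w', hw', rfl⟩
        rw [Subgroup.mem_centralizer_iff]
        rintro _ ⟨v, hv, rfl⟩
        rw [← map_mul, ← map_mul, Subgroup.mem_centralizer_iff.mp hw' v hv]
      refine Subgroup.commutator_mono hcm hcm ?_
      rw [← Subgroup.map_commutator]
      exact ⟨w, hwN, rfl⟩
  have hall : ∀ r, GX r := fun r V h1 h2 h3 _ => loc _ V rfl h1 h2 h3
  rw [inf_comm, Subgroup.commutator_inf_eq_focalSubgroup,
    Subgroup.focalSubgroup_def, Subgroup.closure_le]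
  rintro g ⟨hg, a, ha, u, rfl⟩
  have hu : u * a⁻¹ * u⁻¹ ∈ (S : Subgroup G) := by
    have := mul_mem (inv_mem ha) hg
    simpa [commutatorElement_def, mul_assoc] using this
  have h := fus 0 (hall 0) ({a⁻¹} : Set G) u⁻¹
    (Set.singleton_subset_iff.2 (show a⁻¹ ∈ (S : Subgroup G) from inv_mem ha))
    (by
      rintro _ ⟨b, rfl, rfl⟩
      show u⁻¹⁻¹ * a⁻¹ * u⁻¹ ∈ (S : Subgroup G)
      rw [inv_inv]; exact hu)
    (Nat.zero_le _) a⁻¹ rfl
  simpa [commutatorElement_def, mul_assoc] using h

end CfsgLib.Local.TransferLocal
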