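import Cfsg.Agent.Lib.LocalChain
import Mathlib.GroupTheory.Perm.Cycle.Type
import Mathlib.GroupTheory.GroupAction.Quotient
import Mathlib.GroupTheory.Sylow
import Mathlib.GroupTheory.SpecificGroups.Cyclic

/-!
# Transfer through a semiregular element on a coset space
-/

set_option autoImplicit false

namespace CfsgLib.Local.Semiregular

open Subgroup

/-- A permutation all of whose orbits have even length `n`, an odd number of them, is odd. -/
theorem sign_eq_neg_one {Ω : Type*} [Fintype Ω] [DecidableEq Ω] (f : Equiv.Perm Ω) (n : ℕ)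
    (hn : 2 ≤ n) (heven : Even n) (hfn : f ^ n = 1) (hfree : ∀ a : Ω, ∀ j : ℕ, 0 < j → j < n → (f ^ j) a ≠ a)
    (hodd : ∃ m : ℕ, Odd m ∧ Fintype.card Ω = n * m) : Equiv.Perm.sign f = -1 := by
  have hsupp : f.support = Finset.univ := by
    ext a
    simpa using fun h => hfree a 1 one_pos (by omega) (by rwa [pow_one])
  have hall : ∀ k ∈ f.cycleType, k = n := by
    intro k hk
    rw [Equiv.Perm.cycleType_def, Multiset.mem_map] at hk
    obtain ⟨g, hg, rfl⟩ := hk
    obtain ⟨hgc, hgf⟩ := Equiv.Perm.mem_cycleFactorsFinset_iff.mp hg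
    obtain ⟨a, ha⟩ := hgc.nonempty_support
    have hgo : g = f.cycleOf a := Equiv.Perm.cycle_is_cycleOf ha hg
    show g.support.card = n
    have hle : g.support.card ≤ n := by
      refine Nat.le_of_dvd (by omega) ?_
      rw [← hgc.orderOf]
      refine (Equiv.Perm.dvd_of_mem_cycleType ?_).trans (orderOf_dvd_of_pow_eq_one hfn)
      rw [Equiv.Perm.cycleType_def, Multiset.mem_map]
      exact ⟨g, hg, by simp [hgc.orderOf]⟩
    rcases hle.eq_or_lt with h | h
    · exact h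
    · exfalso
      refine hfree a g.support.card (Finset.card_pos.mpr ⟨a, ha⟩) h ?_
      rw [← Equiv.Perm.cycleOf_pow_apply_self, ← hgo, ← hgc.orderOf, pow_orderOf_eq_one]
      rfl
  have hrep := Multiset.eq_replicate_card.mpr hall
  obtain ⟨m, hm, hcard⟩ := hodd
  have hsum : f.cycleType.sum = n * m := by
    rw [Equiv.Perm.sum_cycleType, hsupp, Finset.card_univ, hcard]
  have hc : f.cycleType.card = m := by
    rw [hrep, Multiset.sum_replicate, smul_eq_mul, mul_comm] at hsum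
    exact Nat.eq_of_mul_eq_mul_left (by omega) hsum
  rw [Equiv.Perm.sign_of_cycleType, hsum, hc, Odd.neg_one_pow]
  exact (heven.mul_right m).add_odd hm

variable {G : Type*} [Group G] [Finite G]

/-- If no nontrivial power of `x` fuses into `U`, a subgroup of index two omits `x`. -/
theorem exists_index_two (H U : Subgroup G) (hUH : U ≤ H) {x : G} (hx : x ∈ H)
    (hxo : Even (orderOf x))
    (hfree : ∀ g ∈ H, ∀ j : ℕ, g⁻¹ * x ^ j * g ∈ U → x ^ j = 1)
    (hodd : ∃ m : ℕ, Odd m ∧ U.relIndex H = orderOf x * m) :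
    ∃ N : Subgroup G, N ≤ H ∧ N.relIndex H = 2 ∧ x ∉ N ∧ ∀ g ∈ H, Odd (orderOf g) → g ∈ N := by
  classical
  letI := Fintype.ofFinite (H ⧸ U.subgroupOf H)
  let act := MulAction.toPermHom H (H ⧸ U.subgroupOf H)
  let φ : H →* ℤˣ := (Equiv.Perm.sign).comp act
  have hn2 : 2 ≤ orderOf x := by
    obtain ⟨r, hr⟩ := hxo
    have := orderOf_pos x
    omega
  have hsign : φ ⟨x, hx⟩ = -1 := by
    refine sign_eq_neg_one _ (orderOf x) hn2 hxo ?_ ?_ ?_
    · rw [← map_pow, show (⟨x, hx⟩ : H) ^ orderOf x = 1 from Subtype.ext (pow_orderOf_eq_one x), map_one]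
    · intro a j hj0 hjn h
      obtain ⟨g, rfl⟩ := QuotientGroup.mk_surjective a
      rw [← map_pow] at h
      have h1 : (((⟨x, hx⟩ : H) ^ j * g : H) : H ⧸ U.subgroupOf H) = (g : H ⧸ U.subgroupOf H) := h
      have h2 : (g : G)⁻¹ * x ^ j * (g : G) ∈ U := by
        simpa [mem_subgroupOf, mul_assoc] using QuotientGroup.eq.mp h1.symm
      exact pow_ne_one_of_lt_orderOf hj0.ne' hjn (hfree g g.2 j h2)
    · obtain ⟨m, hm, he⟩ := hodd
      exact ⟨m, hm, by rw [← Nat.card_eq_fintype_card]; exact he⟩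
  have hneg : (-1 : ℤˣ) ≠ 1 := by decide
  refine ⟨φ.ker.map H.subtype, map_subtype_le _, ?_, ?_, ?_⟩
  · rw [relIndex, subgroupOf, comap_map_eq_self_of_injective H.subtype_injective, index_ker]
    have htop : φ.range = ⊤ := by
      refine eq_top_iff.mpr fun u _ => ?_
      rcases Int.units_eq_one_or u with rfl | rfl
      · exact one_mem _
      · exact ⟨_, hsign⟩
    rw [htop, card_top]
    simp
  · rintro ⟨y, hy, hyx⟩
    have : y = ⟨x, hx⟩ := Subtype.ext hyx
    exact hneg (by rw [← hsign, ← this]; exact hy)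
  · intro g hg hgo
    refine ⟨⟨g, hg⟩, ?_, rfl⟩
    show φ ⟨g, hg⟩ = 1
    rcases Int.units_eq_one_or (φ ⟨g, hg⟩) with h | h
    · exact h
    · exfalso
      have h1 : φ ⟨g, hg⟩ ^ orderOf g = 1 := by
        rw [← map_pow, show (⟨g, hg⟩ : H) ^ orderOf g = 1 from Subtype.ext (pow_orderOf_eq_one g), map_one]
      rw [h, hgo.neg_one_pow] at h1
      exact hneg h1

theorem pow_mem_of_relIndex_two {H N : Subgroup G} (h : N.relIndex H = 2) {g : G} (hg : g ∈ H) :
    g * g ∈ N :=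
  Subgroup.mul_self_mem_of_index_two (H := N.subgroupOf H) h ⟨g, hg⟩

theorem relIndex_two_inter {H N A : Subgroup G} (h : N.relIndex H = 2) (hA : A ≤ H) {c : G}
    (hc : c ∈ A) (hcN : c ∉ N) : N.relIndex A = 2 := by
  refine le_antisymm (h ▸ relIndex_le_of_le_right hA (by rw [h]; norm_num)) ?_
  by_contra h1
  have h0 : N.relIndex A ≠ 0 := index_ne_zero_of_finite
  exact hcN ((relIndex_eq_one.mp (show N.relIndex A = 1 by omega)) hc)

theorem card_mul_le_sup {T C : Subgroup G} (h : ∀ y ∈ C, y ∈ T → y = 1) :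
    Nat.card T * Nat.card C ≤ Nat.card (T ⊔ C : Subgroup G) := by
  rw [← Nat.card_prod]
  refine Nat.card_le_card_of_injective (fun w : T × C =>
    (⟨(w.1 : G) * w.2, mul_mem (mem_sup_left w.1.2) (mem_sup_right w.2.2)⟩ : (T ⊔ C : Subgroup G))) ?_
  intro a b hab
  have h1 : (a.1 : G) * a.2 = (b.1 : G) * b.2 := congrArg Subtype.val hab
  have h2 : (a.2 : G) * (b.2 : G)⁻¹ = (a.1 : G)⁻¹ * b.1 := by
    calc (a.2 : G) * (b.2 : G)⁻¹ = (a.1 : G)⁻¹ * ((a.1 : G) * a.2) * (b.2 : G)⁻¹ := by group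
      _ = _ := by rw [h1]; group
  have h3 := h _ (mul_mem a.2.2 (inv_mem b.2.2)) (h2 ▸ mul_mem (inv_mem a.1.2) b.1.2)
  have h4 : (a.2 : G) = b.2 := mul_inv_eq_one.mp h3
  refine Prod.ext (Subtype.ext ?_) (Subtype.ext h4)
  rw [h4] at h1
  exact mul_right_cancel h1

/-- The iteration: eventually the cyclic complement is pushed out of the residual. -/
theorem residual_inter_le (S T : Subgroup G) (hS2 : IsPGroup 2 S) (hTS : T ≤ S)
    (hTR : T ≤ Cfsg.pResidual 2 G) :
    ∀ (n : ℕ) (c : G) (H : Subgroup G), orderOf c = n → c ∈ S → Cfsg.pResidual 2 G ≤ H →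
      S ⊓ H = T ⊔ zpowers c → ¬ 2 ∣ (S ⊓ H : Subgroup G).relIndex H →
      (∀ g : G, ∀ j : ℕ, g⁻¹ * c ^ j * g ∈ T → c ^ j = 1) →
      Nat.card (S ⊓ H : Subgroup G) = Nat.card T * orderOf c →
      S ⊓ Cfsg.pResidual 2 G ≤ T := by
  intro n
  induction n using Nat.strong_induction_on with
  | _ n ih =>
  intro c H hn hcS hRH heq hHo hfree hcard
  classical
  have hcH : c ∈ H := (heq.ge (mem_sup_right (mem_zpowers c))).2
  have hTH : T ≤ H := hTR.trans hRH
  rcases Nat.lt_or_ge n 2 with hn2 | hn2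
  · have : orderOf c = 1 := by have := orderOf_pos c; omega
    rw [orderOf_eq_one_iff] at this
    subst this
    exact (inf_le_inf_left S hRH).trans (heq.le.trans (by simp))
  obtain ⟨k, hk⟩ := IsPGroup.iff_orderOf.mp hS2 ⟨c, hcS⟩
  rw [Subgroup.orderOf_mk] at hk
  have hev : Even (orderOf c) := by
    rw [hk]
    refine Nat.even_pow.mpr ⟨even_two, fun h => ?_⟩
    rw [h, pow_zero] at hk
    omega
  have hodd : ∃ m : ℕ, Odd m ∧ T.relIndex H = orderOf c * m := by
    refine ⟨(S ⊓ H : Subgroup G).relIndex H,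
      Nat.not_even_iff_odd.mp fun h => hHo (even_iff_two_dvd.mp h), ?_⟩
    rw [← relIndex_mul_relIndex T (S ⊓ H) H (le_inf hTS hTH) inf_le_right]
    congr 1
    have h1 := relIndex_mul_relIndex ⊥ T (S ⊓ H) bot_le (le_inf hTS hTH)
    rw [relIndex_bot_left, relIndex_bot_left, hcard] at h1
    exact Nat.eq_of_mul_eq_mul_left Nat.card_pos h1
  obtain ⟨N, hNH, hN2, hcN, hNodd⟩ := exists_index_two H T hTH hcH hev
    (fun g _ j h => hfree g j h) hodd
  have hRN : Cfsg.pResidual 2 G ≤ N := (closure_le _).mpr fun g hg =>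
    hNodd g (hRH (subset_closure hg)) (Nat.coprime_two_right.mp hg)
  have hc2 : orderOf (c ^ 2) = orderOf c / 2 := by
    rw [orderOf_pow, Nat.gcd_eq_right (even_iff_two_dvd.mp hev)]
  have hc2N : c ^ 2 ∈ N := by rw [pow_two]; exact pow_mem_of_relIndex_two hN2 hcH
  have hidx : N.relIndex (S ⊓ H) = 2 := relIndex_two_inter hN2 inf_le_right ⟨hcS, hcH⟩ hcN
  have hSN : N ⊓ (S ⊓ H) = S ⊓ N := by
    rw [← inf_assoc, inf_comm N S, inf_assoc, inf_eq_left.mpr hNH]
  have hidx' : (S ⊓ N).relIndex (S ⊓ H) = 2 := by rw [← hSN, inf_relIndex_right]; exact hidx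
  have hcardN : Nat.card (S ⊓ N : Subgroup G) * 2 = Nat.card T * orderOf c := by
    have h1 := relIndex_mul_relIndex ⊥ (S ⊓ N) (S ⊓ H) bot_le (inf_le_inf_left S hNH)
    rwa [relIndex_bot_left, relIndex_bot_left, hidx', hcard] at h1
  have hle : T ⊔ zpowers (c ^ 2) ≤ S ⊓ N :=
    sup_le (le_inf hTS (hTR.trans hRN)) (zpowers_le.mpr ⟨pow_mem hcS 2, hc2N⟩)
  have hlow : Nat.card T * orderOf (c ^ 2) ≤ Nat.card (T ⊔ zpowers (c ^ 2) : Subgroup G) := by
    rw [← Nat.card_zpowers]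
    refine card_mul_le_sup fun y hy hyT => ?_
    obtain ⟨j, rfl⟩ := (Submonoid.mem_powers_iff _ _).mp ((isOfFinOrder_of_finite _).mem_powers_iff_mem_zpowers.mpr hy)
    rw [← pow_mul] at hyT ⊢
    exact hfree 1 _ (by simpa using hyT)
  have hnum : Nat.card T * orderOf (c ^ 2) * 2 = Nat.card T * orderOf c := by
    rw [hc2, mul_assoc, Nat.div_mul_cancel (even_iff_two_dvd.mp hev)]
  have hcardN' : Nat.card (S ⊓ N : Subgroup G) = Nat.card T * orderOf (c ^ 2) :=
    Nat.eq_of_mul_eq_mul_right two_pos (hcardN.trans hnum.symm)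
  refine ih (orderOf c / 2) (by omega) (c ^ 2) N hc2 (pow_mem hcS 2) hRN ?_ ?_
    (fun g j h => by rw [← pow_mul] at h ⊢; exact hfree g _ h) hcardN'
  · exact (Subgroup.eq_of_le_of_card_ge hle (hcardN' ▸ hlow)).symm
  · intro h
    refine hHo ?_
    have h1 := relIndex_mul_relIndex (S ⊓ N) N H inf_le_right hNH
    have h2 := relIndex_mul_relIndex (S ⊓ N) (S ⊓ H) H (inf_le_inf_left S hNH) inf_le_right
    rw [hidx'] at h2
    rw [hN2] at h1
    obtain ⟨t, ht⟩ := h
    exact ⟨t, by rw [ht] at h1; linarith⟩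

end CfsgLib.Local.Semiregular
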