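import Mathlib
import Cfsg.Agent.Lib.CoreBasic
import Cfsg.Agent.Lib.StableZJ

/-!
# Generation by two conjugates of a subgroup of prime index in a maximal subgroup
-/

set_option autoImplicit false

namespace CfsgLib.Local.TwoConj

open CfsgLib.Core CfsgLib.Stable

variable {G : Type*} [Group G] [Finite G]

theorem eq_or_eq_of_prime {H L M : Subgroup G} (hp : (H.relIndex M).Prime) (h1 : H ≤ L)
    (h2 : L ≤ M) : L = H ∨ L = M := by
  have h := Subgroup.relIndex_mul_relIndex H L M h1 h2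
  rcases (Nat.dvd_prime hp).1 ⟨_, h.symm⟩ with e | e
  · exact Or.inl (le_antisymm (Subgroup.relIndex_eq_one.1 e) h1)
  · rw [e] at h
    have h' : L.relIndex M = 1 := by
      have := hp.pos
      exact mul_left_cancel₀ (by omega : H.relIndex M ≠ 0) (h.trans (mul_one _).symm)
    exact Or.inr (le_antisymm h2 (Subgroup.relIndex_eq_one.1 h'))

theorem mem_conjMap {c x : G} {M : Subgroup G} :
    x ∈ M.map (MulAut.conj c).toMonoidHom ↔ c⁻¹ * x * c ∈ M := by
  constructor
  · rintro ⟨y, hy, rfl⟩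
    show c⁻¹ * (c * y * c⁻¹) * c ∈ M
    rwa [show c⁻¹ * (c * y * c⁻¹) * c = y by group]
  · intro h
    exact ⟨c⁻¹ * x * c, h, show c * (c⁻¹ * x * c) * c⁻¹ = x by group⟩

/-- The transfer into `M / H`: if conjugates in `M` of elements of `M \ H` by elements outside `M`
lie in `H`, there is a proper normal subgroup containing the commutator subgroup. -/
theorem exists_proper_normal {H M : Subgroup G} (hHM : H ≤ M)
    (hHn : M ≤ Subgroup.normalizer (H : Set G)) (hp : (H.relIndex M).Prime)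
    (hfus : ∀ m ∈ M, m ∉ H → ∀ g : G, g ∉ M → g * m * g⁻¹ ∈ M → g * m * g⁻¹ ∈ H) :
    ∃ K : Subgroup G, K.Normal ∧ K ≠ ⊤ ∧ commutator G ≤ K ∧
      ((∀ h ∈ H, ∀ g : G, g * h * g⁻¹ ∈ M → g * h * g⁻¹ ∈ H) → H ≤ K) := by
  classical
  haveI : Fact (H.relIndex M).Prime := ⟨hp⟩
  haveI hn : (H.subgroupOf M).Normal := (Subgroup.normal_subgroupOf_iff_le_normalizer hHM).2 hHn
  haveI : IsCyclic (↥M ⧸ H.subgroupOf M) :=
    isCyclic_of_prime_card (p := H.relIndex M) (Subgroup.index_eq_card (H.subgroupOf M)).symm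
  letI : CommGroup (↥M ⧸ H.subgroupOf M) := IsCyclic.commGroup
  let φ : ↥M →* ↥M ⧸ H.subgroupOf M := QuotientGroup.mk' _
  have hφ : ∀ (x : G) (hx : x ∈ M), x ∈ H → φ ⟨x, hx⟩ = 1 := fun x hx hxH =>
    (QuotientGroup.eq_one_iff _).2 (Subgroup.mem_subgroupOf.2 hxH)
  set V := MonoidHom.transfer φ with hV
  refine ⟨V.ker, inferInstance, ?_, Abelianization.commutator_subset_ker V, fun hH h hh => ?_⟩
  · intro htop
    -- an element of least order outside `H`
    have hne : ∃ m, m ∈ M ∧ m ∉ H := by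
      by_contra hcon
      push_neg at hcon
      exact hp.ne_one (Subgroup.relIndex_eq_one.2 hcon)
    obtain ⟨m, ⟨hmM, hmH⟩, hmin⟩ := Set.exists_min_image {m | m ∈ M ∧ m ∉ H} orderOf
      (Set.toFinite _) hne
    letI := Fintype.ofFinite (Quotient (MulAction.orbitRel (Subgroup.zpowers m) (G ⧸ M)))
    have h1 : V m = 1 := by rw [← MonoidHom.mem_ker, htop]; trivial
    rw [hV, MonoidHom.transfer_eq_prod_quotient_orbitRel_zpowers_quot] at h1
    set q₀ : Quotient (MulAction.orbitRel (Subgroup.zpowers m) (G ⧸ M)) :=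
      Quotient.mk _ (QuotientGroup.mk (1 : G)) with hq₀
    have hfix : m • (QuotientGroup.mk (1 : G) : G ⧸ M) = QuotientGroup.mk (1 : G) :=
      QuotientGroup.eq.2 (by simpa using M.inv_mem hmM)
    have hout : q₀.out = (QuotientGroup.mk (1 : G) : G ⧸ M) := by
      have h2 : (Quotient.mk _ q₀.out : Quotient (MulAction.orbitRel (Subgroup.zpowers m) (G ⧸ M))) =
          Quotient.mk _ (QuotientGroup.mk (1 : G)) := Quotient.out_eq q₀
      obtain ⟨⟨z, hz⟩, hz'⟩ := Quotient.eq.1 h2
      rw [← hz']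
      show z • (QuotientGroup.mk (1 : G) : G ⧸ M) = _
      obtain ⟨k, rfl⟩ := hz
      have : m ∈ MulAction.stabilizer G (QuotientGroup.mk (1 : G) : G ⧸ M) := hfix
      exact Subgroup.zpow_mem _ this k
    rw [Finset.prod_eq_single q₀ ?_ (fun h => absurd (Finset.mem_univ _) h)] at h1
    · set x := q₀.out.out with hx
      have hxM : x ∈ M := by
        have h3 : (QuotientGroup.mk x : G ⧸ M) = QuotientGroup.mk (1 : G) := by
          rw [hx, QuotientGroup.out_eq', hout]
        simpa using QuotientGroup.eq.1 h3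
      have hper : Function.minimalPeriod (m • ·) q₀.out = 1 :=
        Function.minimalPeriod_eq_one_iff_isFixedPt.2 (show m • q₀.out = q₀.out by rw [hout]; exact hfix)
      have e : x⁻¹ * m ^ Function.minimalPeriod (m • ·) q₀.out * x = x⁻¹ * m * x := by
        rw [hper, pow_one]
      have h4 : φ ⟨x, hxM⟩⁻¹ * φ ⟨m, hmM⟩ * φ ⟨x, hxM⟩ = 1 := by
        rw [← map_mul, ← map_mul, ← h1]
        exact congrArg φ (Subtype.ext e.symm)
      rw [mul_right_comm, map_inv, inv_mul_cancel, one_mul] at h4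
      exact hmH (Subgroup.mem_subgroupOf.1 ((QuotientGroup.eq_one_iff _).1 h4))
    · intro q _ hq
      refine hφ _ _ ?_
      set g₀ := q.out.out with hg₀
      set r := Function.minimalPeriod (m • ·) q.out with hr
      have hmem : g₀⁻¹ * m ^ r * g₀ ∈ M := QuotientGroup.out_conj_pow_minimalPeriod_mem M m q.out
      by_cases hr1 : r = 1
      · rw [hr1, pow_one] at hmem ⊢
        have hg : g₀⁻¹ ∉ M := by
          intro hcon
          refine hq ?_
          rw [← Quotient.out_eq q, hq₀]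
          have h3 : q.out = (QuotientGroup.mk (1 : G) : G ⧸ M) := by
            rw [← QuotientGroup.out_eq' q.out]
            exact QuotientGroup.eq.2 (by simpa using hcon)
          rw [h3]
        have h5 := hfus m hmM hmH g₀⁻¹ hg (by rwa [inv_inv])
        rwa [inv_inv] at h5
      · by_contra hnH
        have h6 := hmin _ ⟨hmem, hnH⟩
        have hdvd : r ∣ orderOf m := by
          refine Function.IsPeriodicPt.minimalPeriod_dvd ?_
          show (fun y : G ⧸ M => m • y)^[orderOf m] q.out = q.out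
          rw [smul_iterate, pow_orderOf_eq_one]; exact one_smul G _
        have hr0 : r ≠ 0 := fun h0 => by
          rw [h0] at hdvd
          exact (orderOf_pos m).ne' (zero_dvd_iff.1 hdvd)
        have h7 : orderOf (g₀⁻¹ * m ^ r * g₀) = orderOf m / r := by
          rw [show g₀⁻¹ * m ^ r * g₀ = (MulAut.conj g₀⁻¹).toMonoidHom (m ^ r) by simp,
            orderOf_injective (MulAut.conj g₀⁻¹).toMonoidHom (MulAut.conj g₀⁻¹).injective,
            orderOf_pow' _ hr0, Nat.gcd_eq_right hdvd]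
        rw [h7] at h6
        exact absurd h6 (not_le.2 (Nat.div_lt_self (orderOf_pos m) (by omega)))
  · letI := Fintype.ofFinite (Quotient (MulAction.orbitRel (Subgroup.zpowers h) (G ⧸ M)))
    rw [MonoidHom.mem_ker, hV, MonoidHom.transfer_eq_prod_quotient_orbitRel_zpowers_quot]
    refine Finset.prod_eq_one fun q _ => hφ _ _ ?_
    have hpow : h ^ Function.minimalPeriod (h • ·) q.out ∈ H := H.pow_mem hh _
    have h5 := hH _ hpow q.out.out⁻¹
      (by rw [inv_inv]; exact QuotientGroup.out_conj_pow_minimalPeriod_mem M h q.out)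
    rwa [inv_inv] at h5

/-- Conjugates in `M` of elements of `M \ H` lie in `H` when no two conjugates of `H` generate. -/
theorem fusion_of_no_pair {H M : Subgroup G} (hM : IsCoatom M) (hHM : H ≤ M)
    (hHn : M ≤ Subgroup.normalizer (H : Set G)) (hp : (H.relIndex M).Prime)
    (hself : Subgroup.normalizer (M : Set G) ≤ M)
    (hno : ∀ c : G, H ⊔ H.map (MulAut.conj c).toMonoidHom ≠ ⊤)
    (hnormal : ∀ X : Subgroup G, X.Normal → H ≤ X → X ≠ ⊤ → X = ⊥) :
    ∀ m ∈ M, m ∉ H → ∀ g : G, g ∉ M → g * m * g⁻¹ ∈ M → g * m * g⁻¹ ∈ H := by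
  intro m hmM hmH g hg hgm
  by_contra hgH
  set c := g⁻¹ with hc
  set Hc := H.map (MulAut.conj c).toMonoidHom with hHc
  set Mc := M.map (MulAut.conj c).toMonoidHom with hMc
  have hmMc : m ∈ Mc := mem_conjMap.2 (by rw [hc, inv_inv]; exact hgm)
  have hmHc : m ∉ Hc := fun h => hgH (by simpa [hc] using mem_conjMap.1 h)
  have hcM : c ∉ M := fun h => hg (by simpa [hc] using M.inv_mem h)
  have hMne : ¬ Mc ≤ M := fun h => hcM (hself (mem_normalizer_of_map_eq fun x hx => h ⟨x, hx, rfl⟩))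
  have hHle : Hc ≤ Mc := Subgroup.map_mono hHM
  have hp' : (Hc.relIndex Mc).Prime := by
    rwa [hHc, hMc, Subgroup.relIndex_map_map_of_injective _ _ (MulAut.conj c).injective]
  -- `⟨H, H^c⟩` meets `M` in `H`
  have hnle : ¬ H ⊔ Hc ≤ M := by
    intro h
    rcases eq_or_eq_of_prime hp' (le_inf (le_sup_right.trans h) hHle) inf_le_right with e | e
    · exact hmHc (e ▸ (⟨hmM, hmMc⟩ : m ∈ M ⊓ Mc))
    · exact hMne (inf_eq_right.1 e)
  have hmX : m ∈ Subgroup.normalizer ((H ⊔ Hc : Subgroup G) : Set G) := by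
    refine mem_normalizer_of_map_eq fun x hx => ?_
    have h1 : (H ⊔ Hc).map (MulAut.conj m).toMonoidHom ≤ H ⊔ Hc := by
      rw [Subgroup.map_sup]
      refine sup_le ?_ ?_
      · rintro _ ⟨y, hy, rfl⟩
        exact Subgroup.mem_sup_left ((Subgroup.mem_normalizer_iff.1 (hHn hmM) y).1 hy)
      · rintro _ ⟨y, hy, rfl⟩
        refine Subgroup.mem_sup_right (mem_conjMap.2 ?_)
        show c⁻¹ * (m * y * m⁻¹) * c ∈ H
        rw [show c⁻¹ * (m * y * m⁻¹) * c =
          (c⁻¹ * m * c) * (c⁻¹ * y * c) * (c⁻¹ * m * c)⁻¹ by group]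
        exact (Subgroup.mem_normalizer_iff.1 (hHn (mem_conjMap.1 hmMc)) _).1 (mem_conjMap.1 hy)
    exact h1 ⟨x, hx, rfl⟩
  -- `M` lies in the normalizer of `⟨H, H^c⟩`
  have hMN : M ≤ Subgroup.normalizer ((H ⊔ Hc : Subgroup G) : Set G) := by
    rcases eq_or_eq_of_prime hp
      (show H ≤ Subgroup.normalizer ((H ⊔ Hc : Subgroup G) : Set G) ⊓ M from
        le_inf ((le_sup_left).trans Subgroup.le_normalizer) hHM) inf_le_right with e | e
    · exact absurd (e ▸ (⟨hmX, hmM⟩ : m ∈ Subgroup.normalizer ((H ⊔ Hc : Subgroup G) : Set G) ⊓ M)) hmH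
    · exact inf_eq_right.1 e
  have htop : Subgroup.normalizer ((H ⊔ Hc : Subgroup G) : Set G) = ⊤ := by
    by_contra hne
    have e := (hM.le_iff.1 hMN).resolve_left hne
    exact hnle (e ▸ Subgroup.le_normalizer)
  have hXn : (H ⊔ Hc).Normal := Subgroup.normalizer_eq_top_iff.1 htop
  have hX := hnormal _ hXn le_sup_left (hno c)
  exact hnle (by rw [hX]; exact bot_le)

end CfsgLib.Local.TwoConj
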