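import Mathlib
import Cfsg.Agent.Lib.LocalTransferOrbit
import Cfsg.Agent.Lib.CoreCoprime
import Cfsg.Prelude.Def_Transfer
import Mathlib.GroupTheory.Sylow
import Mathlib.Data.Nat.Choose.Factorization

/-!
# A wreath product quotient from a non-trivial norm
-/

set_option autoImplicit false

namespace CfsgLib.Local.WreathQuot

open Subgroup

variable {P : Type*} [Group P] [Finite P] {p : ℕ} [hp : Fact p.Prime]

/-- The core of a subgroup of `A` avoiding the norm of `x` has index at least `p ^ p` in `A`. -/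
theorem pow_le_relIndex (hP : IsPGroup p P) (A : Subgroup P) [A.Normal]
    (hA : Cfsg.IsElementaryAbelian p A) (hidx : A.index = p) {x y : P} (hx : x ∈ A)
    (C : Subgroup P) [C.Normal] (hCA : C ≤ A)
    (hν : ((List.range p).map (fun i => (y ^ i)⁻¹ * x * y ^ i)).prod ∉ C) :
    p ^ p * Nat.card C ≤ Nat.card A := by
  classical
  letI : CommGroup ↥A :=
    { (inferInstance : Group ↥A) with mul_comm := fun a b => hA.1.is_comm.comm a b }
  letI : Module (ZMod p) (Additive A) := AddCommGroup.zmodModule (fun v => by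
    refine Additive.toMul.injective (Subtype.ext ?_)
    rw [toMul_nsmul, toMul_zero, SubgroupClass.coe_pow]
    exact hA.2 _ (Additive.toMul v).2)
  have _hmod : Module (ZMod p) (Additive A) := inferInstance
  let L : Additive A →ₗ[ZMod p] Additive A := AddMonoidHom.toZModLinearMap p
    (MonoidHom.toAdditive (MulAut.conjNormal y⁻¹ : MulAut A).toMonoidHom)
  let val : Additive A → P := fun v => ((Additive.toMul v : A) : P)
  have hval_add : ∀ u v, val (u + v) = val u * val v := fun u v => rfl
  have hL : ∀ v, val (L v) = y⁻¹ * val v * y := fun v => by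
    refine (MulAut.conjNormal_apply y⁻¹ (Additive.toMul v)).trans ?_
    rw [inv_inv]
  have hLpow : ∀ (i : ℕ) v, val ((L ^ i) v) = (y ^ i)⁻¹ * val v * y ^ i := by
    intro i
    induction i with
    | zero => intro v; simp [val]
    | succ i ih =>
      intro v
      rw [pow_succ L, Module.End.mul_apply, ih, hL, pow_succ' y i, mul_inv_rev]
      simp only [mul_assoc]
  let v₀ : Additive A := Additive.ofMul ⟨x, hx⟩
  have hnorm : ∀ m : ℕ, val ((∑ i ∈ Finset.range m, L ^ i) v₀) =
      ((List.range m).map (fun i => (y ^ i)⁻¹ * x * y ^ i)).prod := by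
    intro m
    induction m with
    | zero => simp [val]
    | succ m ih =>
      rw [Finset.sum_range_succ, LinearMap.add_apply, hval_add, ih, hLpow, List.range_succ,
        List.map_append, List.prod_append]
      simp [val, v₀]
  set D := L - 1 with hD
  have hsum : (∑ i ∈ Finset.range p, L ^ i) = D ^ (p - 1) := by
    have h := CfsgLib.Local.Transfer.geom_sum_eq_pow (p := p) L 1
    rwa [pow_one] at h
  have hLp : L ^ p = 1 := by
    refine LinearMap.ext fun v => Additive.toMul.injective (Subtype.ext ?_)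
    show val ((L ^ p) v) = val v
    rw [hLpow]
    have hyp : y ^ p ∈ A := hidx ▸ Subgroup.pow_index_mem A y
    have h1 : val v * y ^ p = y ^ p * val v :=
      congrArg Subtype.val (mul_comm (Additive.toMul v : A) ⟨y ^ p, hyp⟩)
    rw [mul_assoc, h1, inv_mul_cancel_left]
  have hDp : D ^ p = 0 := by
    calc D ^ p = D ^ (p - 1) * D := by rw [← pow_succ, Nat.sub_add_cancel hp.out.one_le]
      _ = 0 := by rw [← hsum, hD, geom_sum_mul, hLp, sub_self]
  -- the chain of preimages of `C`
  let C' : AddSubgroup (Additive A) :=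
    { carrier := {v | val v ∈ C}
      add_mem' := fun {u v} hu hv => by
        show val (u + v) ∈ C
        rw [hval_add]; exact mul_mem hu hv
      zero_mem' := one_mem C
      neg_mem' := fun {v} hv => by exact C.inv_mem hv }
  let K : ℕ → AddSubgroup (Additive A) := fun m => C'.comap ((D ^ m : Module.End (ZMod p) (Additive A))).toAddMonoidHom
  have hDC : ∀ v, val v ∈ C → val (D v) ∈ C := by
    intro v hv
    show val (L v - v) ∈ C
    rw [sub_eq_add_neg, hval_add, hL]
    refine mul_mem ?_ (C.inv_mem hv)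
    have := (inferInstance : C.Normal).conj_mem _ hv y⁻¹
    rwa [inv_inv] at this
  have hmono : ∀ m, K m ≤ K (m + 1) := by
    intro m v hv
    show val ((D ^ (m + 1)) v) ∈ C
    rw [pow_succ', Module.End.mul_apply]
    exact hDC _ hv
  have hstrict : ∀ m, m < p → K m < K (m + 1) := by
    intro m hm
    refine lt_of_le_of_ne (hmono m) fun h => hν ?_
    have hmem : (D ^ (p - 1 - m)) v₀ ∈ K (m + 1) := by
      show val ((D ^ (m + 1)) ((D ^ (p - 1 - m)) v₀)) ∈ C
      rw [← Module.End.mul_apply, ← pow_add, show m + 1 + (p - 1 - m) = p by omega, hDp]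
      exact one_mem C
    rw [← h] at hmem
    rw [← hnorm, hsum, show p - 1 = m + (p - 1 - m) by omega, pow_add, Module.End.mul_apply]
    exact hmem
  have hPA : IsPGroup p (Multiplicative (Additive A)) := (hP.to_subgroup A).of_equiv
    (MulEquiv.multiplicativeAdditive (↥A)).symm
  have hgrow : ∀ m, m ≤ p → p ^ m * Nat.card C ≤ Nat.card (K m) := by
    intro m
    induction m with
    | zero =>
      intro _
      rw [pow_zero, one_mul]
      refine Nat.card_le_card_of_injective
        (fun c : C => (⟨Additive.ofMul ⟨(c : P), hCA c.2⟩, by exact c.2⟩ : K 0)) ?_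
      intro a b h
      exact Subtype.ext (congrArg val (congrArg Subtype.val h))
    | succ m ih =>
      intro hm
      have h1 := ih (by omega)
      have hlt := hstrict m (by omega)
      have hd : Nat.card (K m) ∣ Nat.card (K (m + 1)) := AddSubgroup.card_dvd_of_le hlt.le
      have hne : Nat.card (K m) ≠ Nat.card (K (m + 1)) := fun e =>
        hlt.ne (SetLike.coe_injective (Set.eq_of_subset_of_ncard_le hlt.le
          (by rw [← Nat.card_coe_set_eq, ← Nat.card_coe_set_eq]; exact e.ge) (Set.toFinite _)))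
      obtain ⟨a, ha⟩ := IsPGroup.iff_card.mp (hPA.to_subgroup (AddSubgroup.toSubgroup (K m)))
      obtain ⟨b, hb⟩ := IsPGroup.iff_card.mp (hPA.to_subgroup (AddSubgroup.toSubgroup (K (m + 1))))
      have ha' : Nat.card (K m) = p ^ a := ha
      have hb' : Nat.card (K (m + 1)) = p ^ b := hb
      rw [ha', hb'] at hd hne
      have hab : a ≤ b := (Nat.pow_dvd_pow_iff_le_right hp.out.one_lt).mp hd
      have hab' : a + 1 ≤ b := by
        rcases eq_or_lt_of_le hab with rfl | h
        · exact absurd rfl hne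
        · exact h
      rw [hb', pow_succ, mul_comm (p ^ m) p, mul_assoc]
      refine le_trans (Nat.mul_le_mul_left p (h1.trans ha'.le)) ?_
      rw [← pow_succ']
      exact Nat.pow_le_pow_right hp.out.pos hab'
  refine (hgrow p le_rfl).trans ?_
  exact Nat.card_le_card_of_injective (fun v : K p => (Additive.toMul (v : Additive A) : A))
    (fun a b h => Subtype.ext (Additive.toMul.injective h))

omit [Finite P] in
theorem factorization_sq_factorial : ((p ^ 2).factorial).factorization p = p + 1 := by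
  rw [sq, Nat.factorization_factorial_mul hp.out]
  have h := Nat.factorization_factorial_mul (n := 1) hp.out
  rw [mul_one, Nat.factorial_one, Nat.factorization_one] at h
  simp only [Finsupp.coe_zero, Pi.zero_apply, zero_add] at h
  rw [h]; omega

/-- The quotient map. -/
theorem exists_wreath_quotient (hP : IsPGroup p P) (A : Subgroup P) [A.Normal]
    (hA : Cfsg.IsElementaryAbelian p A) (hidx : A.index = p) {x y : P} (hx : x ∈ A)
    (hprod : ((List.range p).map (fun i => (y ^ i)⁻¹ * x * y ^ i)).prod ≠ 1) :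
    ∃ (Q : Sylow p (Equiv.Perm (Fin (p ^ 2)))) (f : P →* ↥(Q : Subgroup (Equiv.Perm (Fin (p ^ 2))))),
      Function.Surjective f := by
  classical
  set ν := ((List.range p).map (fun i => (y ^ i)⁻¹ * x * y ^ i)).prod with hν
  have hνA : ν ∈ A := by
    refine list_prod_mem fun z hz => ?_
    obtain ⟨i, -, rfl⟩ := List.mem_map.mp hz
    simpa using (inferInstance : A.Normal).conj_mem x hx (y ^ i)⁻¹
  obtain ⟨B, ⟨hBA, hBν⟩, hBmax⟩ := (Set.toFinite {B : Subgroup P | B ≤ A ∧ ν ∉ B}).exists_maximal
    ⟨⊥, bot_le, fun h => hprod (mem_bot.mp h)⟩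
  haveI := hA.1
  have hcomm : ∀ a ∈ A, ∀ b ∈ A, a * b = b * a := fun a ha b hb =>
    congrArg Subtype.val (hA.1.is_comm.comm (⟨a, ha⟩ : A) ⟨b, hb⟩)
  have hBν' : A ≤ B ⊔ zpowers ν := by
    intro a ha
    by_cases haB : a ∈ B
    · exact mem_sup_left haB
    have hle : B ⊔ zpowers a ≤ A := sup_le hBA (zpowers_le.mpr ha)
    have hνin : ν ∈ B ⊔ zpowers a := by
      by_contra h
      exact haB ((hBmax ⟨hle, h⟩ le_sup_left) (mem_sup_right (mem_zpowers a)))
    have hn : B ≤ normalizer ((zpowers a : Subgroup P) : Set P) := by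
      refine le_trans (fun b hb => ?_) (Subgroup.centralizer_le_normalizer _)
      exact mem_centralizer_iff.mpr fun w hw => hcomm w ((zpowers_le.mpr ha) hw) b (hBA hb)
    rw [CfsgLib.Core.mem_sup_iff_of_le_normalizer hn] at hνin
    obtain ⟨β, hβ, w, hw, hνw⟩ := hνin
    obtain ⟨i, rfl⟩ := mem_zpowers_iff.mp hw
    have hpa : a ^ p = 1 := hA.2 a ha
    have hi : ¬ (p : ℤ) ∣ i := by
      rintro ⟨j, rfl⟩
      rw [zpow_mul, zpow_natCast, hpa, one_zpow, mul_one] at hνw
      exact hBν (hνw ▸ hβ)
    obtain ⟨s, t, hst⟩ : IsCoprime i (p : ℤ) :=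
      ((Nat.prime_iff_prime_int.mp hp.out).coprime_iff_not_dvd.mpr hi).symm
    have hai : a ^ i ∈ B ⊔ zpowers ν := by
      have h : a ^ i = β⁻¹ * ν := by rw [← hνw]; group
      rw [h]
      exact mul_mem (mem_sup_left (inv_mem hβ)) (mem_sup_right (mem_zpowers ν))
    have := Subgroup.zpow_mem _ hai s
    rwa [← zpow_mul, show i * s = (p : ℤ) * (-t) + 1 by linear_combination hst, zpow_add, zpow_mul,
      zpow_natCast, hpa, one_zpow, one_mul, zpow_one] at this
  have hBcard : Nat.card A ≤ p * Nat.card B := by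
    have hn : B ≤ normalizer ((zpowers ν : Subgroup P) : Set P) := by
      refine le_trans (fun b hb => ?_) (Subgroup.centralizer_le_normalizer _)
      exact mem_centralizer_iff.mpr fun w hw => hcomm w ((zpowers_le.mpr hνA) hw) b (hBA hb)
    refine le_trans ?_ (le_of_eq (show Nat.card (Fin p × B) = p * Nat.card B by
      rw [Nat.card_prod, Nat.card_fin]))
    have hm : ∀ a : A, ∃ w : Fin p × B, (a : P) = (w.2 : P) * ν ^ (w.1 : ℕ) := by
      rintro ⟨a, ha⟩
      have h := hBν' ha
      rw [CfsgLib.Core.mem_sup_iff_of_le_normalizer hn] at h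
      obtain ⟨β, hβ, w, hw, rfl⟩ := h
      obtain ⟨i, rfl⟩ := mem_zpowers_iff.mp hw
      have hp0 : (0 : ℤ) < p := by exact_mod_cast hp.out.pos
      refine ⟨(⟨(i % (p : ℤ)).toNat, by
        have := Int.emod_lt_of_pos i hp0
        have := Int.emod_nonneg i hp0.ne'
        omega⟩, ⟨β, hβ⟩), ?_⟩
      show β * ν ^ i = β * ν ^ (i % (p : ℤ)).toNat
      rw [← zpow_natCast ν (i % (p : ℤ)).toNat, Int.toNat_of_nonneg (Int.emod_nonneg i hp0.ne')]
      conv_lhs => rw [← Int.emod_add_mul_ediv i (p : ℤ), zpow_add, zpow_mul, zpow_natCast,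
        hA.2 ν hνA, one_zpow, mul_one]
    choose w hw using hm
    exact Nat.card_le_card_of_injective w fun a b h => Subtype.ext (by rw [hw a, hw b, h])
  have hBidx : B.index = p ^ 2 := by
    obtain ⟨a, ha⟩ := IsPGroup.iff_card.mp (hP.to_subgroup A)
    obtain ⟨b, hb⟩ := IsPGroup.iff_card.mp (hP.to_subgroup B)
    have h1 : b < a := (Nat.pow_lt_pow_iff_right hp.out.one_lt).mp (by
      rw [← ha, ← hb]
      exact lt_of_le_of_ne (card_le_of_le hBA) fun e =>
        hBν ((Subgroup.eq_of_le_of_card_ge hBA e.ge).symm ▸ hνA))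
    have h2 : a ≤ b + 1 := (Nat.pow_le_pow_iff_right hp.out.one_lt).mp (by
      rw [pow_succ', ← ha, ← hb]; exact hBcard)
    have h3 := relIndex_mul_relIndex ⊥ B A bot_le hBA
    rw [relIndex_bot_left, relIndex_bot_left, ha, hb, show a = b + 1 by omega, pow_succ] at h3
    rw [← relIndex_mul_index hBA, hidx, Nat.eq_of_mul_eq_mul_left (pow_pos hp.out.pos b) h3, sq]
  set C := B.normalCore with hC
  have hCcard := pow_le_relIndex hP A hA hidx (y := y) hx C ((normalCore_le B).trans hBA)
    (fun h => hBν (normalCore_le B h))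
  let e : (P ⧸ B) ≃ Fin (p ^ 2) := Finite.equivFinOfCardEq (by rw [← hBidx]; rfl)
  let φ : P →* Equiv.Perm (Fin (p ^ 2)) :=
    (e.permCongrHom : Equiv.Perm (P ⧸ B) ≃* _).toMonoidHom.comp (MulAction.toPermHom P (P ⧸ B))
  have hker : φ.ker = C := by
    rw [hC, normalCore_eq_ker]
    ext g
    simp [φ, MonoidHom.mem_ker]
  have hrange : p ^ (p + 1) ≤ Nat.card φ.range := by
    rw [← index_ker, hker]
    have h1 := card_mul_index C
    have h2 := card_mul_index A
    rw [hidx] at h2
    refine Nat.le_of_mul_le_mul_left (?_ : Nat.card C * p ^ (p + 1) ≤ Nat.card C * C.index) Nat.card_pos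
    rw [h1, ← h2, pow_succ, ← mul_assoc, mul_comm (Nat.card C)]
    exact Nat.mul_le_mul_right p hCcard
  have hR : IsPGroup p φ.range := hP.of_surjective φ.rangeRestrict φ.rangeRestrict_surjective
  obtain ⟨Q, hQ⟩ := hR.exists_le_sylow
  refine ⟨Q, φ.codRestrict _ fun g => hQ ⟨g, rfl⟩, ?_⟩
  have heq : φ.range = (Q : Subgroup (Equiv.Perm (Fin (p ^ 2)))) := by
    refine Subgroup.eq_of_le_of_card_ge hQ ?_
    rw [Q.card_eq_multiplicity, Nat.card_perm, Nat.card_fin, factorization_sq_factorial]
    exact hrange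
  rintro ⟨q, hq⟩
  obtain ⟨g, hg⟩ := heq.ge hq
  exact ⟨g, Subtype.ext hg⟩

end CfsgLib.Local.WreathQuot
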