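import Mathlib

/-!
# A unipotent automorphism of a small elementary abelian group
-/

set_option autoImplicit false

namespace CfsgLib.Perm.AffineElemOrder

theorem lin {p : ℕ} [Fact p.Prime] {V : Type*} [AddCommGroup V] [Module (ZMod p) V] [Finite V] {m r : ℕ}
    (hcard : Nat.card V = p ^ m) (f : Module.End (ZMod p) V) (hf : f ^ p ^ r = 1) {q : ℕ} {s : ℕ} (hq : q = p ^ s) (hm : m < q) :
    (∑ i ∈ Finset.range q, f ^ i) = 0 ∧ f ^ q = 1 := by
  have hp := Fact.out (p := p.Prime)
  rcases Nat.eq_zero_or_pos m with rfl | hm0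
  · rw [pow_zero] at hcard
    haveI : Subsingleton V := (Nat.card_eq_one_iff_unique.1 hcard).1
    exact ⟨Subsingleton.elim _ _, Subsingleton.elim _ _⟩
  haveI : Nontrivial V := by
    rw [← Finite.one_lt_card_iff_nontrivial, hcard]; exact Nat.one_lt_pow hm0.ne' hp.one_lt
  haveI : CharP (Module.End (ZMod p) V) p := charP_of_injective_algebraMap (algebraMap (ZMod p) (Module.End (ZMod p) V)).injective p
  have hnil : IsNilpotent (f - 1) := ⟨p ^ r, by rw [sub_pow_char_pow_of_commute _ _ (Commute.one_right f), one_pow, hf, sub_self]⟩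
  have hfr : Module.finrank (ZMod p) V = m := by
    have h1 := Module.natCard_eq_pow_finrank (K := ZMod p) (V := V)
    rw [Nat.card_zmod, hcard] at h1
    exact (Nat.pow_right_injective hp.two_le h1).symm
  have hD : (f - 1) ^ m = 0 := by
    have h := (LinearMap.charpoly_nilpotent_tfae (f - 1)).out 0 1
    have hc := h.1 hnil
    have := LinearMap.aeval_self_charpoly (f - 1)
    rw [hc, hfr, map_pow, Polynomial.aeval_X] at this
    exact this
  have hgeom : ∑ i ∈ Finset.range q, f ^ i = (f - 1) ^ (q - 1) := by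
    have hpoly : ∑ i ∈ Finset.range q, (Polynomial.X : Polynomial (ZMod p)) ^ i = (Polynomial.X - 1) ^ (q - 1) := by
      refine mul_right_cancel₀ (Polynomial.X_sub_C_ne_zero (1 : ZMod p)) ?_
      rw [map_one, geom_sum_mul, ← pow_succ, show q - 1 + 1 = q by omega, hq, sub_pow_char_pow, one_pow]
    have := congrArg (Polynomial.aeval f) hpoly
    simpa [map_sum, map_pow, map_sub] using this
  have hzero : ∑ i ∈ Finset.range q, f ^ i = 0 := by
    rw [hgeom, ← Nat.sub_add_cancel (show m ≤ q - 1 by omega), pow_add, hD, mul_zero]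
  exact ⟨hzero, by rw [← sub_eq_zero, ← geom_sum_mul f q, hzero, zero_mul]⟩

theorem addGroup {p : ℕ} [Fact p.Prime] {V : Type*} [AddCommGroup V] [Finite V] {m r s : ℕ} (hV : ∀ x : V, p • x = 0)
    (hcard : Nat.card V = p ^ m) (c : V →+ V) (hc : ∀ x, c^[p ^ r] x = x) (hm : m < p ^ s) (x : V) :
    (∑ i ∈ Finset.range (p ^ s), c^[i] x) = 0 ∧ c^[p ^ s] x = x := by
  haveI : Module (ZMod p) V := AddCommGroup.zmodModule hV
  let f : Module.End (ZMod p) V := c.toZModLinearMap p
  have hpow : ∀ (j : ℕ) (y : V), (f ^ j) y = c^[j] y := fun j y => by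
    rw [Module.End.pow_apply]; rfl
  obtain ⟨h1, h2⟩ := lin hcard f (LinearMap.ext fun y => by rw [hpow, hc]; rfl) rfl hm
  constructor
  · have := LinearMap.congr_fun h1 x
    simpa [LinearMap.sum_apply, hpow] using this
  · have := LinearMap.congr_fun h2 x
    rw [hpow] at this
    exact this

theorem group {p : ℕ} [Fact p.Prime] {N : Type*} [CommGroup N] [Finite N] {m r s : ℕ} (hN : ∀ x : N, x ^ p = 1)
    (hcard : Nat.card N = p ^ m) (c : N →* N) (hc : ∀ x, c^[p ^ r] x = x) (hm : m < p ^ s) (x : N) :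
    (∏ i ∈ Finset.range (p ^ s), c^[i] x) = 1 ∧ c^[p ^ s] x = x :=
  addGroup (V := Additive N) (fun y => hN y.toMul) hcard (MonoidHom.toAdditive c) hc hm (Additive.ofMul x)

end CfsgLib.Perm.AffineElemOrder
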