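import Cfsg.Agent.Lib.CharCN5
import Mathlib.GroupTheory.GroupAction.Primitive
import Mathlib.GroupTheory.Subgroup.Centralizer
import Mathlib.GroupTheory.Nilpotent

/-!
# Extremely primitive groups are affine or almost simple
-/

set_option autoImplicit false
set_option linter.unusedSectionVars false
set_option linter.style.haveILetI false

namespace CfsgLib.ExtPrim

open MulAction
open scoped Pointwise

variable {G Ω : Type*} [Group G] [Finite G] [MulAction G Ω]

lemma stab_isCoatom {H X : Type*} [Group H] [MulAction H X] (x y : X) (h : IsPreprimitive H (orbit H x))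
    (hy : y ∈ orbit H x) (hne : y ≠ x) : IsCoatom (stabilizer H x) := by
  haveI := h
  haveI : Nontrivial (orbit H x) := ⟨⟨⟨y, hy⟩, ⟨x, mem_orbit_self x⟩, fun e => hne (congrArg Subtype.val e)⟩⟩
  have := IsPreprimitive.isCoatom_stabilizer_of_isPreprimitive H (⟨x, mem_orbit_self x⟩ : orbit H x)
  convert this using 1
  ext g
  simp [mem_stabilizer_iff, Subtype.ext_iff]

/-- A point stabilizer acting on a regular simple subgroup through power maps, with all inner
automorphisms present, cannot be primitive on all of its orbits. -/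
theorem core_false (a : Ω) (T : Subgroup G) (hs : IsSimpleGroup T) (hna : ¬ IsMulCommutative T)
    (hinj : ∀ s ∈ T, ∀ t ∈ T, s • a = t • a → s = t)
    (hep : ∀ ω : Ω, IsPreprimitive (stabilizer G a) (orbit (stabilizer G a) ω))
    (hsurj : ∀ ω : Ω, ∃ t ∈ T, t • a = ω)
    (hpow : ∀ g ∈ stabilizer G a, ∀ t ∈ T, ∀ s ∈ T, g • t • a = s • a →
      ∀ m : ℕ, g • (t ^ m) • a = (s ^ m) • a)
    (hinn : ∀ u ∈ T, ∃ g ∈ stabilizer G a, ∀ t ∈ T, g • t • a = (u * t * u⁻¹) • a) : False := by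
  set A := stabilizer G a with hA
  -- the stabilizer in `A` of `x • a`
  have hZ : ∀ x ∈ T, x ≠ 1 → ∃ u ∈ T, u * x * u⁻¹ ≠ x := by
    intro x hx hx1
    by_contra hc
    push Not at hc
    haveI := hs
    rcases IsSimpleGroup.eq_bot_or_eq_top_of_normal (Subgroup.center T) inferInstance with h | h
    · have hm : (⟨x, hx⟩ : T) ∈ Subgroup.center T := Subgroup.mem_center_iff.2 fun u => Subtype.ext (by
        have := hc u u.2
        show (u : G) * x = x * u
        conv_rhs => rw [← this]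
        group)
      rw [h, Subgroup.mem_bot] at hm
      exact hx1 (congrArg Subtype.val hm)
    · exact hna ⟨⟨fun p q => (Subgroup.mem_center_iff.1 (h ▸ Subgroup.mem_top q : q ∈ Subgroup.center T) p)⟩⟩
  have hmax : ∀ x ∈ T, x ≠ 1 → IsCoatom (stabilizer A (x • a)) := by
    intro x hx hx1
    obtain ⟨u, hu, hne⟩ := hZ x hx hx1
    obtain ⟨g, hg, hgt⟩ := hinn u hu
    refine stab_isCoatom (x • a) ((u * x * u⁻¹) • a) (hep _) ⟨⟨g, hg⟩, hgt x hx⟩ fun e => hne ?_
    exact hinj _ (T.mul_mem (T.mul_mem hu hx) (T.inv_mem hu)) _ hx e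
  have hfix : ∀ u ∈ T, ∀ g ∈ A, (∀ t ∈ T, g • t • a = (u * t * u⁻¹) • a) → ∀ x ∈ T,
      (g • x • a = x • a ↔ u * x = x * u) := by
    intro u hu g hg hgt x hx
    rw [hgt x hx]
    constructor
    · intro e
      have := hinj _ (T.mul_mem (T.mul_mem hu hx) (T.inv_mem hu)) _ hx e
      conv_rhs => rw [← this]
      group
    · intro e; rw [e, mul_inv_cancel_right]
  have hSeq : ∀ x ∈ T, ∀ m : ℕ, x ^ m ≠ 1 → stabilizer A ((x ^ m) • a) = stabilizer A (x • a) := by
    intro x hx m hm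
    have hx1 : x ≠ 1 := fun e => hm (by rw [e, one_pow])
    have hle : stabilizer A (x • a) ≤ stabilizer A ((x ^ m) • a) := by
      intro g hg
      exact hpow g g.2 x hx x hx hg m
    rcases (hmax x hx hx1).le_iff.1 hle with h | h
    · exact absurd h (hmax _ (T.pow_mem hx m) hm).1
    · exact h
  have hcent : ∀ x ∈ T, ∀ m : ℕ, x ^ m ≠ 1 → ∀ v ∈ T, (v * x ^ m = x ^ m * v ↔ v * x = x * v) := by
    intro x hx m hm v hv
    obtain ⟨g, hg, hgt⟩ := hinn v hv
    rw [← hfix v hv g hg hgt x hx, ← hfix v hv g hg hgt _ (T.pow_mem hx m)]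
    have : (⟨g, hg⟩ : A) ∈ stabilizer A ((x ^ m) • a) ↔ (⟨g, hg⟩ : A) ∈ stabilizer A (x • a) := by
      rw [hSeq x hx m hm]
    exact this
  have hnoconj : ∀ x ∈ T, ∀ u ∈ T, ∀ m : ℕ, u * x * u⁻¹ = x ^ m → x ^ m = x := by
    intro x hx u hu m hm
    by_contra hne
    have hx1 : x ≠ 1 := fun e => hne (by rw [e, one_pow])
    have hm1 : x ^ m ≠ 1 := by
      rw [← hm]; intro e; exact hx1 (by simpa [mul_inv_eq_one] using e)
    obtain ⟨g, hg, hgt⟩ := hinn u hu
    set L := stabilizer A (x • a)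
    have hgL : (⟨g, hg⟩ : A) ∉ L := by
      intro e
      have e' := hinj _ (T.mul_mem (T.mul_mem hu hx) (T.inv_mem hu)) _ hx ((hgt x hx).symm.trans e)
      exact hne (hm ▸ e')
    have hgN : (⟨g, hg⟩ : A) ∈ Subgroup.normalizer (L : Set A) := by
      have e : (⟨g, hg⟩ : A) • (x • a) = (x ^ m) • a := (hgt x hx).trans (by rw [hm])
      have h1 := stabilizer_smul_eq_stabilizer_map_conj (⟨g, hg⟩ : A) (x • a)
      rw [e, hSeq x hx m hm1] at h1
      rw [Subgroup.mem_normalizer_iff]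
      intro y
      change y ∈ L ↔ _ ∈ L
      constructor
      · intro hy; exact h1.ge ⟨y, hy, rfl⟩
      · intro hy
        obtain ⟨z, hz, hze⟩ := h1.le hy
        have : z = y := (MulAut.conj (⟨g, hg⟩ : A)).injective hze
        exact this ▸ hz
    have hLn : L.Normal := by
      rcases (hmax x hx hx1).le_iff.1 (Subgroup.le_normalizer (H := L)) with h | h
      · exact Subgroup.normalizer_eq_top_iff.1 h
      · exact absurd (h.le hgN) hgL
    -- the centralizer of `x` in `T` is then normal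
    haveI := hs
    have hn : (Subgroup.centralizer ({(⟨x, hx⟩ : T)} : Set T)).Normal := by
      refine ⟨fun v hv w => ?_⟩
      rw [Subgroup.mem_centralizer_singleton_iff] at hv ⊢
      have hv' : (v : G) * x = x * v := congrArg Subtype.val hv
      obtain ⟨gv, hgv, hgvt⟩ := hinn v v.2
      obtain ⟨gw, hgw, hgwt⟩ := hinn (w : G)⁻¹ (T.inv_mem w.2)
      have hvL : (⟨gv, hgv⟩ : A) ∈ L := (hfix v v.2 gv hgv hgvt x hx).2 hv'
      have h2 := hLn.conj_mem _ hvL (⟨gw, hgw⟩⁻¹ : A)
      rw [mem_stabilizer_iff, inv_inv, mul_smul, mul_smul, inv_smul_eq_iff] at h2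
      have h3 : gv • (((w : G)⁻¹ * x * w) • a) = ((w : G)⁻¹ * x * w) • a := by
        have e := hgwt x hx
        rw [inv_inv] at e
        rw [← e]; exact h2
      have h4 := (hfix v v.2 gv hgv hgvt _ (T.mul_mem (T.mul_mem (T.inv_mem w.2) hx) w.2)).1 h3
      refine Subtype.ext ?_
      show (w : G) * v * (w : G)⁻¹ * x = x * ((w : G) * v * (w : G)⁻¹)
      calc (w : G) * v * (w : G)⁻¹ * x = w * (v * ((w : G)⁻¹ * x * w)) * (w : G)⁻¹ := by group
        _ = w * (((w : G)⁻¹ * x * w) * v) * (w : G)⁻¹ := by rw [h4]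
        _ = x * ((w : G) * v * (w : G)⁻¹) := by group
    rcases hn.eq_bot_or_eq_top with h | h
    · have : (⟨x, hx⟩ : T) ∈ Subgroup.centralizer ({(⟨x, hx⟩ : T)} : Set T) :=
        Subgroup.mem_centralizer_singleton_iff.2 rfl
      rw [h, Subgroup.mem_bot] at this
      exact hx1 (congrArg Subtype.val this)
    · obtain ⟨u', hu', hne'⟩ := hZ x hx hx1
      refine hne' ?_
      have : (⟨u', hu'⟩ : T) ∈ Subgroup.centralizer ({(⟨x, hx⟩ : T)} : Set T) := h ▸ Subgroup.mem_top _
      have e : u' * x = x * u' := congrArg Subtype.val (Subgroup.mem_centralizer_singleton_iff.1 this)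
      rw [e, mul_inv_cancel_right]
  haveI := hs
  have hodd : Odd (Nat.card T) := by
    rw [← Nat.not_even_iff_odd, even_iff_two_dvd]
    intro h2
    haveI : Fact (Nat.Prime 2) := ⟨Nat.prime_two⟩
    obtain ⟨t, ht⟩ := exists_prime_orderOf_dvd_card' 2 h2
    have ht2 : (t : G) * t = 1 := by
      have := pow_orderOf_eq_one t
      rw [ht, pow_two] at this
      exact congrArg Subtype.val this
    have ht1 : (t : G) ≠ 1 := fun e => by
      have : t = 1 := Subtype.ext e
      rw [this, orderOf_one] at ht; omega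
    -- all conjugates of `t` commute
    have hcom : ∀ u : T, u * t * u⁻¹ * t = t * (u * t * u⁻¹) := by
      intro u
      refine Subtype.ext ?_
      show (u : G) * t * (u : G)⁻¹ * t = t * ((u : G) * t * (u : G)⁻¹)
      set s : G := (u : G) * t * (u : G)⁻¹ with hs'
      have hs2 : s * s = 1 := by
        rw [hs']
        calc _ = (u : G) * (t * t) * (u : G)⁻¹ := by group
          _ = 1 := by rw [ht2]; group
      have hst : s * t ∈ T := T.mul_mem (T.mul_mem (T.mul_mem u.2 t.2) (T.inv_mem u.2)) t.2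
      have hsi : s⁻¹ = s := inv_eq_of_mul_eq_one_right hs2
      have hti : (t : G)⁻¹ = t := inv_eq_of_mul_eq_one_right ht2
      have e : (t : G) * (s * t) * (t : G)⁻¹ = (s * t) ^ (orderOf (s * t) - 1) := by
        have h1 : (s * t) ^ (orderOf (s * t) - 1) = (s * t)⁻¹ := by
          refine eq_inv_of_mul_eq_one_left ?_
          rw [← pow_succ, Nat.sub_add_cancel (orderOf_pos _), pow_orderOf_eq_one]
        rw [h1, mul_inv_rev, hsi, hti]
        calc (t : G) * (s * t) * t = t * s * (t * t) := by group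
          _ = t * s := by rw [ht2, mul_one]
      have h3 := hnoconj _ hst t t.2 _ e
      rw [h3] at e
      calc s * t = (t : G) * (s * t) * (t : G)⁻¹ := e.symm
        _ = t * s * (t * (t : G)⁻¹) := by group
        _ = t * s := by rw [mul_inv_cancel, mul_one]
    have hc : t ∈ Subgroup.centralizer ((Subgroup.normalClosure ({t} : Set T)) : Set T) := by
      rw [Subgroup.normalClosure, Subgroup.centralizer_closure, Subgroup.mem_centralizer_iff]
      intro s hs'
      obtain ⟨r, hr, hconj⟩ := Group.mem_conjugatesOfSet_iff.1 hs'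
      rw [Set.mem_singleton_iff] at hr
      subst hr
      obtain ⟨u, rfl⟩ := isConj_iff.1 hconj
      exact hcom u
    rcases (Subgroup.normalClosure_normal (s := ({t} : Set T))).eq_bot_or_eq_top with h | h
    · have : t ∈ Subgroup.normalClosure ({t} : Set T) := Subgroup.subset_normalClosure rfl
      rw [h, Subgroup.mem_bot] at this
      exact ht1 (congrArg Subtype.val this)
    · obtain ⟨u, hu, hne⟩ := hZ t t.2 ht1
      refine hne ?_
      rw [h] at hc
      have e : u * t = t * u := congrArg Subtype.val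
        (Subgroup.mem_centralizer_iff.1 hc ⟨u, hu⟩ (Subgroup.mem_top _))
      rw [e, mul_inv_cancel_right]
  have hCN : Cfsg.IsCNGroup T := by
    intro x hx
    have hxo : orderOf x ≠ 1 := fun e => hx (orderOf_eq_one_iff.1 e)
    obtain ⟨p, hp, hpd⟩ := Nat.exists_prime_and_dvd hxo
    haveI : Fact p.Prime := ⟨hp⟩
    set y := x ^ (orderOf x / p)
    have hy : orderOf y = p := by
      rw [orderOf_pow_of_dvd (Nat.div_pos (Nat.le_of_dvd (orderOf_pos x) hpd) hp.pos).ne'
        (Nat.div_dvd_of_dvd hpd), Nat.div_div_self hpd (orderOf_pos x).ne']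
    have hy1 : y ≠ 1 := fun e => by rw [e, orderOf_one] at hy; exact hp.ne_one hy.symm
    have hcy : ∀ (z : T) (m : ℕ), z ^ m ≠ 1 → ∀ v : T, v * z ^ m = z ^ m * v ↔ v * z = z * v := by
      intro z m hm v
      have := hcent z z.2 m (fun e => hm (Subtype.ext (by simpa using e))) v v.2
      simpa [Subtype.ext_iff] using this
    have hM : Subgroup.centralizer ({x} : Set T) = Subgroup.centralizer ({y} : Set T) := by
      ext v
      rw [Subgroup.mem_centralizer_singleton_iff, Subgroup.mem_centralizer_singleton_iff]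
      exact (hcy x _ hy1 v).symm
    rw [hM]
    set M := Subgroup.centralizer ({y} : Set T)
    have hq : IsPGroup p (M ⧸ Subgroup.center M) := by
      intro q
      induction q using QuotientGroup.induction_on with
      | H m =>
        refine ⟨(orderOf m).factorization p, ?_⟩
        rw [← QuotientGroup.mk_pow, QuotientGroup.eq_one_iff]
        set k := p ^ (orderOf m).factorization p
        rcases eq_or_ne (m ^ k) 1 with h1 | h1
        · rw [h1]; exact one_mem _
        set e : T := ((m ^ k : M) : T) with he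
        have he1 : e ≠ 1 := fun h => h1 (Subtype.ext h)
        have hcp : (orderOf e).Coprime p := by
          rw [he, Subgroup.orderOf_coe, orderOf_pow_of_dvd (pow_ne_zero _ hp.ne_zero) (Nat.ordProj_dvd _ _)]
          exact (Nat.coprime_ordCompl hp (orderOf_pos m).ne').symm
        have hye : y * e = e * y :=
          (Subgroup.mem_centralizer_singleton_iff.1 (m ^ k).2).symm
        have key : ∀ v : T, v * y = y * v → v * e = e * v := by
          intro v hv
          have h2 : (y * e) ^ orderOf e = y ^ orderOf e := by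
            rw [Commute.mul_pow hye, pow_orderOf_eq_one, mul_one]
          have h3 : (y * e) ^ p = e ^ p := by
            rw [Commute.mul_pow hye, ← hy, pow_orderOf_eq_one, one_mul]
          have h4 : y ^ orderOf e ≠ 1 := by
            intro h
            have := orderOf_dvd_of_pow_eq_one h
            rw [hy] at this
            exact hp.ne_one (Nat.eq_one_of_dvd_coprimes hcp this dvd_rfl)
          have h5 : e ^ p ≠ 1 := by
            intro h
            have := orderOf_dvd_of_pow_eq_one h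
            exact he1 (orderOf_eq_one_iff.1 (Nat.eq_one_of_dvd_coprimes hcp dvd_rfl this))
          have h6 : v * (y * e) = y * e * v := by
            rw [← hcy (y * e) (orderOf e) (h2 ▸ h4) v, h2]
            exact ((Commute.pow_right hv _).eq)
          exact (hcy e p h5 v).1 (h3 ▸ (hcy (y * e) p (h3 ▸ h5) v).2 h6)
        rw [Subgroup.mem_center_iff]
        intro v
        exact Subtype.ext (key v (Subgroup.mem_centralizer_singleton_iff.1 v.2))
    haveI : Group.IsNilpotent (M ⧸ Subgroup.center M) := IsPGroup.isNilpotent hq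
    exact Group.of_quotient_center_nilpotent this
  exact hna ⟨⟨IsSimpleGroup.comm_iff_isSolvable.2 (CfsgLib.CN.isSolvable_of_odd _ T rfl hodd hCN)⟩⟩

set_option maxHeartbeats 2000000 in
/-- Extremely primitive groups are of affine type or almost simple. -/
theorem affine_or_almostSimple [FaithfulSMul G Ω] [Nontrivial Ω] [hprim : IsPreprimitive G Ω]
    (hep : ∀ α ω : Ω, IsPreprimitive (stabilizer G α) (orbit (stabilizer G α) ω)) :
    (∃ N : Subgroup G, N.Normal ∧ N ≠ ⊥ ∧ IsMulCommutative N ∧ ∀ ω : Ω, stabilizer N ω = ⊥) ∨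
    (∃ T : Subgroup G, T.Normal ∧ IsSimpleGroup T ∧ ¬ IsMulCommutative T ∧
      Subgroup.centralizer (T : Set G) = ⊥) := by
  classical
  haveI : Nontrivial G := by
    obtain ⟨a, b, hab⟩ := exists_pair_ne Ω
    obtain ⟨g, hg⟩ := exists_smul_eq G a b
    exact ⟨⟨g, 1, fun e => hab (by rw [← hg, e, one_smul])⟩⟩
  obtain ⟨N, ⟨hNn, hN1⟩, hmin⟩ := Set.Finite.exists_minimal
    (s := {R : Subgroup G | R.Normal ∧ R ≠ ⊥}) (Set.toFinite _) ⟨⊤, inferInstance, top_ne_bot⟩
  haveI := hNn
  have hminN : ∀ R : Subgroup G, R.Normal → R ≠ ⊥ → R ≤ N → R = N := fun R h1 h2 h3 =>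
    le_antisymm h3 (hmin ⟨h1, h2⟩ h3)
  have htrans : ∀ R : Subgroup G, R.Normal → R ≠ ⊥ → IsPretransitive R Ω := by
    intro R hR hne
    haveI := hR
    refine IsQuasiPreprimitive.isPretransitive_of_normal fun h => hne ?_
    rw [Subgroup.eq_bot_iff_forall]
    intro g hg
    refine eq_of_smul_eq_smul fun y : Ω => ?_
    rw [one_smul]
    exact (h.symm ▸ Set.mem_univ y : y ∈ fixedPoints R Ω) ⟨g, hg⟩
  haveI hNt := htrans N hNn hN1
  by_cases hab : IsMulCommutative N
  · refine Or.inl ⟨N, hNn, hN1, hab, fun ω => ?_⟩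
    rw [Subgroup.eq_bot_iff_forall]
    intro r hr
    refine Subtype.ext (eq_of_smul_eq_smul fun y : Ω => ?_)
    obtain ⟨s, rfl⟩ := exists_smul_eq N ω y
    show r • s • ω = (1 : N) • s • ω
    rw [smul_smul, IsMulCommutative.is_comm.comm r s, ← smul_smul, mem_stabilizer_iff.1 hr, one_smul]
  obtain ⟨a⟩ : Nonempty Ω := inferInstance
  set A := stabilizer G a with hAdef
  have hA : IsCoatom A := IsPreprimitive.isCoatom_stabilizer_of_isPreprimitive G a
  have hprod : ∀ g : G, ∃ n ∈ N, ∃ h ∈ A, g = n * h := by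
    intro g
    obtain ⟨n, hn⟩ := exists_smul_eq N a (g • a)
    refine ⟨n, n.2, (n : G)⁻¹ * g, ?_, by group⟩
    rw [hAdef, mem_stabilizer_iff, mul_smul, ← hn]
    exact inv_smul_smul (n : G) a
  have hcore : ∀ R : Subgroup G, R.Normal → R ≤ A → R = ⊥ := by
    intro R hR hle
    rw [Subgroup.eq_bot_iff_forall]
    intro r hr
    refine eq_of_smul_eq_smul fun y : Ω => ?_
    obtain ⟨g, rfl⟩ := exists_smul_eq G a y
    have : g⁻¹ * r * g ∈ A := hle (by simpa using hR.conj_mem r hr g⁻¹)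
    rw [hAdef, mem_stabilizer_iff, mul_smul, mul_smul, inv_smul_eq_iff] at this
    rw [one_smul]; exact this
  -- a minimal subgroup normalised by `N`
  obtain ⟨T, ⟨hTN, hT1, hTn⟩, hTmin⟩ := Set.Finite.exists_minimal
    (s := {R : Subgroup G | R ≤ N ∧ R ≠ ⊥ ∧ ∀ n ∈ N, ∀ r ∈ R, n * r * n⁻¹ ∈ R}) (Set.toFinite _)
    ⟨N, le_rfl, hN1, fun n hn r hr => N.mul_mem (N.mul_mem hn hr) (N.inv_mem hn)⟩
  have hminT : ∀ R : Subgroup G, R ≤ T → (∀ n ∈ N, ∀ r ∈ R, n * r * n⁻¹ ∈ R) → R = ⊥ ∨ R = T := by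
    intro R hle hR
    by_cases h : R = ⊥
    · exact Or.inl h
    · exact Or.inr (le_antisymm hle (hTmin ⟨hle.trans hTN, h, hR⟩ hle))
  let cT : G → Subgroup G := fun g => T.map (MulAut.conj g).toMonoidHom
  have mem_cT : ∀ g x : G, x ∈ cT g ↔ g⁻¹ * x * g ∈ T := by
    intro g x
    constructor
    · rintro ⟨y, hy, rfl⟩
      simpa [MulAut.conj_apply, mul_assoc] using hy
    · intro h
      exact ⟨_, h, by simp [MulAut.conj_apply, mul_assoc]⟩
  have conj_cT : ∀ g : G, ∀ x ∈ T, g * x * g⁻¹ ∈ cT g := fun g x hx => by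
    rw [mem_cT]; simpa [mul_assoc] using hx
  have cT_le : ∀ g, cT g ≤ N := by
    intro g x hx
    have := hNn.conj_mem _ (hTN ((mem_cT g x).1 hx)) g
    simpa [mul_assoc] using this
  have cT_norm : ∀ g, ∀ n ∈ N, ∀ x ∈ cT g, n * x * n⁻¹ ∈ cT g := by
    intro g n hn x hx
    rw [mem_cT] at hx ⊢
    have := hTn (g⁻¹ * n * g) (by simpa using hNn.conj_mem n hn g⁻¹) _ hx
    simpa [mul_assoc] using this
  have cT_card : ∀ g, Nat.card (cT g) = Nat.card T := fun g =>
    Subgroup.card_map_of_injective (MulAut.conj g).injective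
  have cT_disj : ∀ g, cT g = T ∨ cT g ⊓ T = ⊥ := by
    intro g
    rcases hminT (cT g ⊓ T) inf_le_right
      (fun n hn r hr => ⟨cT_norm g n hn r hr.1, hTn n hn r hr.2⟩) with h | h
    · exact Or.inr h
    · refine Or.inl (Subgroup.eq_of_le_of_card_ge ?_ (cT_card g).le).symm
      exact h ▸ inf_le_left
  have cT_comm : ∀ g, cT g ≠ T → ∀ x ∈ cT g, ∀ y ∈ T, x * y = y * x := by
    intro g hg x hx y hy
    have h0 := (cT_disj g).resolve_left hg
    have h1 : x * y * x⁻¹ * y⁻¹ ∈ cT g ⊓ T := by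
      refine ⟨?_, T.mul_mem (hTn x (cT_le g hx) y hy) (T.inv_mem hy)⟩
      have := cT_norm g y (hTN hy) x⁻¹ ((cT g).inv_mem hx)
      show x * y * x⁻¹ * y⁻¹ ∈ cT g
      have e : x * y * x⁻¹ * y⁻¹ = x * (y * x⁻¹ * y⁻¹) := by group
      rw [e]; exact (cT g).mul_mem hx this
    rw [h0, Subgroup.mem_bot, mul_inv_eq_one, mul_inv_eq_iff_eq_mul] at h1
    exact h1
  have hsup : (⨆ g, cT g) = N := by
    refine hminN _ ⟨fun x hx k => ?_⟩ ?_ (iSup_le cT_le)
    · induction hx using Subgroup.iSup_induction' with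
      | hp g y hy =>
        refine le_iSup cT (k * g) ?_
        rw [mem_cT] at hy ⊢
        simpa [mul_assoc] using hy
      | h1 => simp
      | hmul y z _ _ hy hz =>
        have e : k * (y * z) * k⁻¹ = (k * y * k⁻¹) * (k * z * k⁻¹) := by group
        rw [e]; exact mul_mem hy hz
    · intro h
      refine hT1 (le_bot_iff.1 (h ▸ le_trans ?_ (le_iSup cT 1)))
      intro x hx; rw [mem_cT]; simpa using hx
  set K := N ⊓ Subgroup.centralizer (T : Set G) with hKdef
  have hK : ∀ g, cT g ≠ T → cT g ≤ K := fun g hg x hx =>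
    ⟨cT_le g hx, Subgroup.mem_centralizer_iff.2 fun y hy => (cT_comm g hg x hx y hy).symm⟩
  have hKn : ∀ n ∈ N, ∀ c ∈ K, n * c * n⁻¹ ∈ K := by
    intro n hn c hc
    refine ⟨N.mul_mem (N.mul_mem hn hc.1) (N.inv_mem hn), Subgroup.mem_centralizer_iff.2 fun y hy => ?_⟩
    have h1 := Subgroup.mem_centralizer_iff.1 hc.2 (n⁻¹ * y * n)
      (by simpa using hTn n⁻¹ (N.inv_mem hn) y hy)
    calc y * (n * c * n⁻¹) = n * ((n⁻¹ * y * n) * c) * n⁻¹ := by group
      _ = n * (c * (n⁻¹ * y * n)) * n⁻¹ := by rw [h1]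
      _ = n * c * n⁻¹ * y := by group
  have hNTK : N ≤ T ⊔ K := by
    conv_lhs => rw [← hsup]
    refine iSup_le fun g => ?_
    by_cases hg : cT g = T
    · rw [hg]; exact le_sup_left
    · exact (hK g hg).trans le_sup_right
  have hTna : ¬ IsMulCommutative T := by
    intro hc
    have hTc : T ≤ Subgroup.centralizer (T : Set G) := fun x hx => Subgroup.mem_centralizer_iff.2
      fun y hy => congrArg Subtype.val (hc.is_comm.comm (⟨y, hy⟩ : T) ⟨x, hx⟩)
    have hall : N ≤ Subgroup.centralizer (T : Set G) :=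
      hNTK.trans (sup_le hTc inf_le_right)
    refine hab ⟨⟨fun x y => Subtype.ext ?_⟩⟩
    have hcc : N ≤ Subgroup.centralizer (N : Set G) := by
      conv_lhs => rw [← hsup]
      refine iSup_le fun g z hz => Subgroup.mem_centralizer_iff.2 fun w hw => ?_
      have h1 := Subgroup.mem_centralizer_iff.1 (hall (by simpa using hNn.conj_mem w hw g⁻¹ : g⁻¹ * w * g ∈ N))
        _ ((mem_cT g z).1 hz)
      calc w * z = g * ((g⁻¹ * w * g) * (g⁻¹ * z * g)) * g⁻¹ := by group
        _ = g * ((g⁻¹ * z * g) * (g⁻¹ * w * g)) * g⁻¹ := by rw [h1]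
        _ = z * w := by group
    exact (Subgroup.mem_centralizer_iff.1 (hcc x.2) y y.2).symm
  have hTK : T ⊓ K = ⊥ := by
    rcases hminT (T ⊓ K) inf_le_left
      (fun n hn r hr => ⟨hTn n hn r hr.1, hKn n hn r hr.2⟩) with h | h
    · exact h
    · refine absurd (⟨⟨fun x y => Subtype.ext ?_⟩⟩ : IsMulCommutative T) hTna
      exact (Subgroup.mem_centralizer_iff.1 ((h ▸ inf_le_right : T ≤ K) y.2).2 x x.2)
  have hTs : IsSimpleGroup T := by
    haveI : Nontrivial T := (Subgroup.nontrivial_iff_ne_bot T).2 hT1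
    refine ⟨fun R hR => ?_⟩
    have hinv : ∀ n ∈ N, ∀ r ∈ R.map T.subtype, n * r * n⁻¹ ∈ R.map T.subtype := by
      have hle : T ⊔ K ≤ Subgroup.normalizer (R.map T.subtype : Set G) := by
        refine sup_le (fun w hw => ?_) (fun w hw => ?_)
        · have key : ∀ w ∈ T, ∀ r ∈ R.map T.subtype, w * r * w⁻¹ ∈ R.map T.subtype := by
            rintro w hw _ ⟨r, hr, rfl⟩
            exact ⟨(⟨w, hw⟩ : T) * r * (⟨w, hw⟩ : T)⁻¹, hR.conj_mem r hr _, rfl⟩
          refine Subgroup.mem_normalizer_iff.2 fun y => ⟨fun hy => key w hw y hy, fun hy => ?_⟩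
          simpa [mul_assoc] using key w⁻¹ (T.inv_mem hw) _ hy
        · have key : ∀ w ∈ K, ∀ r ∈ R.map T.subtype, w * r * w⁻¹ = r := by
            rintro w hw _ ⟨r, hr, rfl⟩
            rw [mul_inv_eq_iff_eq_mul]
            exact (Subgroup.mem_centralizer_iff.1 hw.2 r r.2).symm
          refine Subgroup.mem_normalizer_iff.2 fun y => ⟨fun hy => (key w hw y hy).symm ▸ hy, fun hy => ?_⟩
          have := key w⁻¹ (K.inv_mem hw) _ hy
          have e : y = w * y * w⁻¹ := by simpa [mul_assoc] using this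
          exact e ▸ hy
      intro n hn r hr
      exact (Subgroup.mem_normalizer_iff.1 (hle (hNTK hn)) r).1 hr
    rcases hminT (R.map T.subtype) (Subgroup.map_subtype_le _) hinv with h | h
    · exact Or.inl ((Subgroup.map_eq_bot_iff_of_injective _ T.subtype_injective).1 h)
    · refine Or.inr (Subgroup.map_injective T.subtype_injective ?_)
      rw [h, ← MonoidHom.range_eq_map, Subgroup.range_subtype]
  have hreg : ∀ (H : Subgroup G), IsPretransitive H Ω → ∀ g : G, g • a = a →
      (∀ h ∈ H, g * h = h * g) → g = 1 := by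
    intro H hH g hg hc
    refine eq_of_smul_eq_smul fun y : Ω => ?_
    obtain ⟨h, rfl⟩ := hH.exists_smul_eq a y
    show g • (h : G) • a = (1 : G) • (h : G) • a
    rw [smul_smul, hc h h.2, ← smul_smul, hg, one_smul]
  set D := N ⊓ A with hD
  -- elements of `A` permute `T` and its conjugates transitively
  have hAconj : ∀ g, ∃ h ∈ A, cT g = cT h := by
    intro g
    obtain ⟨n, hn, h, hh, rfl⟩ := hprod g
    refine ⟨h, hh, ?_⟩
    ext x
    constructor
    · intro hx
      have := cT_norm h n⁻¹ (N.inv_mem hn) (n⁻¹ * x * n)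
      rw [mem_cT] at hx ⊢
      have h2 : n⁻¹ * x * n ∈ cT h := by rw [mem_cT]; simpa [mul_assoc] using hx
      have := cT_norm h n hn _ h2
      rw [mem_cT] at this
      simpa [mul_assoc] using this
    · intro hx
      have := cT_norm h n⁻¹ (N.inv_mem hn) x hx
      rw [mem_cT] at this ⊢
      simpa [mul_assoc] using this
  by_cases hTG : ∀ g, cT g = T
  · -- `T = N`
    have hTN' : T = N := le_antisymm hTN (by
      conv_lhs => rw [← hsup]
      exact iSup_le fun g => (hTG g).le)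
    by_cases hC : Subgroup.centralizer (T : Set G) = ⊥
    · exact Or.inr ⟨T, hTN' ▸ hNn, hTs, hTna, hC⟩
    exfalso
    haveI : (Subgroup.centralizer (T : Set G)).Normal := hTN' ▸ (inferInstance : (Subgroup.centralizer (N : Set G)).Normal)
    haveI hCt := htrans _ inferInstance hC
    refine core_false a T hTs hTna (fun s hs t ht e => ?_) (hep a) (fun ω => ?_) (fun g hg t ht s hs e m => ?_) (fun u hu => ?_)
    · rw [← inv_mul_eq_one]
      refine (hreg (Subgroup.centralizer (T : Set G)) hCt _ ?_ (fun c hc => ?_))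
      · rw [mul_smul, ← e, inv_smul_smul]
      · exact Subgroup.mem_centralizer_iff.1 hc _ (T.mul_mem (T.inv_mem hs) ht)
    · obtain ⟨n, hn⟩ := exists_smul_eq N a ω
      exact ⟨n, hTN'.symm ▸ n.2, hn⟩
    · have e1 : g * t * g⁻¹ = s := by
        rw [← inv_mul_eq_one]
        refine (hreg (Subgroup.centralizer (T : Set G)) hCt _ ?_ (fun c hc => ?_))
        · rw [mul_smul, ← e, inv_smul_eq_iff, mul_smul, mul_smul, inv_smul_eq_iff.2 (mem_stabilizer_iff.1 hg).symm]
        · have : g * t * g⁻¹ ∈ T := hTN'.symm ▸ hNn.conj_mem t (hTN ht) g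
          exact Subgroup.mem_centralizer_iff.1 hc _ (T.mul_mem (T.inv_mem this) hs)
      rw [← e1, conj_pow, mul_smul, mul_smul, inv_smul_eq_iff.2 (mem_stabilizer_iff.1 hg).symm]
    · obtain ⟨c, hc⟩ := hCt.exists_smul_eq a (u • a)
      refine ⟨(c : G)⁻¹ * u, ?_, fun t ht => ?_⟩
      · rw [mem_stabilizer_iff, mul_smul, ← hc]; exact inv_smul_smul (c : G) a
      · have h1 : ∀ z ∈ T, z * (c : G) = c * z := fun z hz => Subgroup.mem_centralizer_iff.1 c.2 z hz
        rw [mul_smul, smul_smul u t, inv_smul_eq_iff, smul_smul, ← h1 _ (T.mul_mem (T.mul_mem hu ht) (T.inv_mem hu)), mul_smul (u * t * u⁻¹) (c : G),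
          show (c : G) • a = u • a from hc, smul_smul, inv_mul_cancel_right]
  exfalso
  push Not at hTG
  obtain ⟨g₀, hg₀⟩ := hTG
  obtain ⟨g₁, hg₁A, hg₁⟩ := hAconj g₀
  rw [hg₁] at hg₀
  clear hg₁ g₀
  by_cases hD1 : D = ⊥
  · -- `N` is regular: a product over an orbit is fixed by `A`
    obtain ⟨x, hx, hx1⟩ := (Subgroup.ne_bot_iff_exists_ne_one.1 hT1) |> fun ⟨x, hx⟩ =>
      (⟨(x : G), x.2, fun e => hx (Subtype.ext e)⟩ : ∃ x ∈ T, x ≠ (1 : G))
    have hfree : ∀ n ∈ N, ∀ n' ∈ N, n • a = n' • a → n = n' := by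
      intro n hn n' hn' e
      rw [← inv_mul_eq_one]
      have : n⁻¹ * n' ∈ D := ⟨N.mul_mem (N.inv_mem hn) hn', by
        show _ • a = a; rw [mul_smul, ← e, inv_smul_smul]⟩
      rw [hD1, Subgroup.mem_bot] at this
      exact this
    have hact : ∀ h ∈ A, ∀ n : G, h • n • a = (h * n * h⁻¹) • a := fun h hh n => by
      rw [mul_smul, mul_smul, inv_smul_eq_iff.2 (mem_stabilizer_iff.1 hh).symm]
    have hcx : ∀ h ∈ A, cT h = T → h * x * h⁻¹ = x := by
      have hmax : IsCoatom (stabilizer A (x • a)) := by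
        refine stab_isCoatom _ ((g₁ * x * g₁⁻¹) • a) (hep a _) ⟨⟨g₁, hg₁A⟩, hact g₁ hg₁A x⟩ fun e => ?_
        have h1 := hfree _ (hNn.conj_mem x (hTN hx) g₁) _ (hTN hx) e
        have h2 : x ∈ cT g₁ ⊓ T := ⟨by have := conj_cT g₁ x hx; rwa [h1] at this, hx⟩
        rw [(cT_disj g₁).resolve_left hg₀, Subgroup.mem_bot] at h2
        exact hx1 h2
      set H : Subgroup A := (Subgroup.normalizer (T : Set G)).subgroupOf A
      have hmemH : ∀ h : A, h ∈ H ↔ cT (h : G) = T := by
        intro h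
        rw [Subgroup.mem_subgroupOf, Subgroup.mem_normalizer_iff']
        constructor
        · intro h1
          ext z
          rw [mem_cT]
          have := h1 ((h : G)⁻¹ * z)
          simpa [mul_assoc] using this
        · intro h1 z
          have := mem_cT (h : G) (h * z)
          rw [h1] at this
          simpa [mul_assoc] using this.symm
      have hle : stabilizer A (x • a) ≤ H := by
        intro h hh
        rw [hmemH]
        rcases cT_disj (h : G) with h1 | h1
        · exact h1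
        · exfalso
          have h2 := hfree _ (hNn.conj_mem x (hTN hx) (h : G)) _ (hTN hx) ((hact _ h.2 x).symm.trans hh)
          have h3 : x ∈ cT (h : G) ⊓ T := ⟨by have := conj_cT (h : G) x hx; rwa [h2] at this, hx⟩
          rw [h1, Subgroup.mem_bot] at h3
          exact hx1 h3
      rcases hmax.le_iff.1 hle with h | h
      · exact absurd ((hmemH ⟨g₁, hg₁A⟩).1 (h ▸ Subgroup.mem_top _)) hg₀
      · intro k hk hkT
        have hk' : (⟨k, hk⟩ : A) ∈ stabilizer A (x • a) := h ▸ (hmemH ⟨k, hk⟩).2 hkT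
        exact hfree _ (hNn.conj_mem x (hTN hx) k) _ (hTN hx) ((hact k hk x).symm.trans hk')
    cases nonempty_fintype G
    let S : Finset G := Finset.univ.filter fun y => ∃ h ∈ A, h * x * h⁻¹ = y
    have hxS : x ∈ S := by simp only [S, Finset.mem_filter, Finset.mem_univ, true_and]; exact ⟨1, A.one_mem, by simp⟩
    have hSmem : ∀ y ∈ S, ∃ h ∈ A, h * x * h⁻¹ = y := fun y hy => (Finset.mem_filter.1 hy).2
    have hother : ∀ y ∈ S, y ≠ x → ∀ t ∈ T, y * t = t * y := by
      intro y hy hne t ht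
      obtain ⟨h, hh, rfl⟩ := hSmem y hy
      exact cT_comm h (fun e => hne (hcx h hh e)) _ (conj_cT h x hx) t ht
    have hpair : (S : Set G).Pairwise Commute := by
      intro y hy z hz hne
      obtain ⟨h, hh, rfl⟩ := hSmem y hy
      obtain ⟨k, hk, rfl⟩ := hSmem z hz
      have h1 : h⁻¹ * k * x * (h⁻¹ * k)⁻¹ ≠ x := fun e => hne (by
        calc h * x * h⁻¹ = h * (h⁻¹ * k * x * (h⁻¹ * k)⁻¹) * h⁻¹ := by rw [e]
          _ = k * x * k⁻¹ := by group)
      have h2 := hother _ (Finset.mem_filter.2 ⟨Finset.mem_univ _, _, A.mul_mem (A.inv_mem hh) hk, rfl⟩) h1 x hx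
      show h * x * h⁻¹ * (k * x * k⁻¹) = k * x * k⁻¹ * (h * x * h⁻¹)
      calc h * x * h⁻¹ * (k * x * k⁻¹) = h * (x * (h⁻¹ * k * x * (h⁻¹ * k)⁻¹)) * h⁻¹ := by group
        _ = h * ((h⁻¹ * k * x * (h⁻¹ * k)⁻¹) * x) * h⁻¹ := by rw [h2]
        _ = k * x * k⁻¹ * (h * x * h⁻¹) := by group
    set z := S.noncommProd id hpair with hz
    have hzN : z ∈ N := N.noncommProd_mem _ fun y hy => by
      obtain ⟨h, hh, rfl⟩ := hSmem y hy
      exact hNn.conj_mem x (hTN hx) h
    have hz1 : z ≠ 1 := by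
      intro e
      have h1 := Finset.noncommProd_erase_mul S hxS id hpair
      rw [← hz, e] at h1
      set r := (S.erase x).noncommProd id (fun y hy w hw h => hpair (Finset.mem_of_mem_erase hy) (Finset.mem_of_mem_erase hw) h)
      have hr : r ∈ Subgroup.centralizer (T : Set G) := Subgroup.noncommProd_mem _ _ fun y hy =>
        Subgroup.mem_centralizer_iff.2 fun t ht => (hother y (Finset.mem_of_mem_erase hy) (Finset.ne_of_mem_erase hy) t ht).symm
      have hxr : x = r⁻¹ := eq_inv_of_mul_eq_one_right (by simpa using h1)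
      have : x ∈ T ⊓ K := ⟨hx, hTN hx, hxr ▸ Subgroup.inv_mem _ hr⟩
      rw [hTK, Subgroup.mem_bot] at this
      exact hx1 this
    have hzfix : ∀ h ∈ A, h * z * h⁻¹ = z := by
      intro h hh
      have himg : S.image (MulAut.conj h) = S := by
        refine Finset.eq_of_subset_of_card_le (fun y hy => ?_) (by rw [Finset.card_image_of_injective _ (MulAut.conj h).injective])
        obtain ⟨w, hw, rfl⟩ := Finset.mem_image.1 hy
        obtain ⟨k, hk, rfl⟩ := hSmem w hw
        exact Finset.mem_filter.2 ⟨Finset.mem_univ _, h * k, A.mul_mem hh hk, by simp [MulAut.conj_apply, mul_assoc]⟩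
      have h1 := Finset.map_noncommProd S id hpair (MulAut.conj h)
      rw [← hz] at h1
      refine (show h * z * h⁻¹ = MulAut.conj h z by simp [MulAut.conj_apply]).trans (h1.trans ?_)
      have e : S.1.map (fun w => MulAut.conj h w) = S.1.map id := by
        rw [Multiset.map_id, ← Finset.image_val_of_injOn ((MulAut.conj h).injective.injOn), himg]
      simp only [hz, Finset.noncommProd, id]
      simp only [id] at e
      simp only [e]
    have hzA : z ∉ A := fun e => hz1 (by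
      have : z ∈ D := ⟨hzN, e⟩
      rwa [hD1, Subgroup.mem_bot] at this)
    have hgen : A ⊔ Subgroup.zpowers z = ⊤ := hA.2 _ (lt_of_le_of_ne le_sup_left fun e =>
      hzA (e ▸ Subgroup.mem_sup_right (Subgroup.mem_zpowers z)))
    have hAn : A.Normal := by
      refine Subgroup.normalizer_eq_top_iff.1 (top_le_iff.1 (hgen ▸ sup_le Subgroup.le_normalizer ?_))
      rw [Subgroup.zpowers_le, Subgroup.mem_normalizer_iff]
      intro y
      constructor
      · intro hy
        have h1 := hzfix y hy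
        rw [mul_inv_eq_iff_eq_mul] at h1
        rw [← h1, mul_inv_cancel_right]; exact hy
      · intro hy
        have h1 := hzfix _ hy
        rw [mul_inv_eq_iff_eq_mul] at h1
        have : y = z * y * z⁻¹ := by
          calc y = z⁻¹ * ((z * y * z⁻¹) * z) := by group
            _ = z⁻¹ * (z * (z * y * z⁻¹)) := by rw [h1]
            _ = z * y * z⁻¹ := by group
        exact this ▸ hy
    have hA0 := hcore A hAn le_rfl
    refine hg₀ ?_
    rw [hA0, Subgroup.mem_bot] at hg₁A
    ext w; rw [mem_cT, hg₁A]; simp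
  -- `N` is not regular
  have hDn : ∀ h ∈ A, ∀ d ∈ D, h * d * h⁻¹ ∈ D := fun h hh d hd =>
    ⟨hNn.conj_mem d hd.1 h, A.mul_mem (A.mul_mem hh hd.2) (A.inv_mem hh)⟩
  have hTprime : ∀ h ∈ A, cT h ≠ T → cT h ≤ K := fun h _ hne => hK h hne
  obtain ⟨t, ht, d₀, hd₀, htd⟩ : ∃ t ∈ T, ∃ d ∈ D, d • t • a ≠ t • a := by
    by_contra hc
    push Not at hc
    have hT' : ∀ t ∈ T, ∀ d ∈ D, t * d * t⁻¹ ∈ D := by
      intro t ht d hd
      refine ⟨hNn.conj_mem d hd.1 t, ?_⟩
      show _ • a = a; rw [mul_smul, mul_smul, hc t⁻¹ (T.inv_mem ht) d hd, smul_inv_smul]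
    refine hD1 (hcore D ⟨fun d hd g => ?_⟩ inf_le_right)
    obtain ⟨n, hn, h, hh, rfl⟩ := hprod g
    have key : ∀ n ∈ N, ∀ d ∈ D, n * d * n⁻¹ ∈ D := by
      intro n hn
      rw [← hsup] at hn
      induction hn using Subgroup.iSup_induction' with
      | hp g y hy =>
        intro d hd
        obtain ⟨k, hk, hgk⟩ := hAconj g
        rw [hgk, mem_cT] at hy
        have := hDn k hk _ (hT' _ hy _ (hDn k⁻¹ (A.inv_mem hk) d hd))
        simpa [mul_assoc] using this
      | h1 => simp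
      | hmul y z _ _ hy hz =>
        intro d hd
        have := hy _ (hz d hd)
        simpa [mul_assoc] using this
    have := key n hn _ (hDn h hh d hd)
    simpa [mul_assoc] using this
  have htD : t ∉ D := fun e => htd (by
    rw [mem_stabilizer_iff.1 e.2, mem_stabilizer_iff.1 hd₀.2])
  have hDtrans : ∀ h ∈ A, ∃ d ∈ D, d • t • a = h • t • a := by
    haveI := hep a (t • a)
    haveI : (D.subgroupOf A).Normal := ⟨fun d hd h => Subgroup.mem_subgroupOf.2 (hDn h h.2 d hd)⟩
    have := IsQuasiPreprimitive.isPretransitive_of_normal (G := A) (X := orbit A (t • a)) (N := D.subgroupOf A) (fun hfx => htd (by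
      have := hfx.symm ▸ Set.mem_univ (⟨t • a, mem_orbit_self _⟩ : orbit A (t • a))
      exact congrArg Subtype.val (this ⟨⟨d₀, hd₀.2⟩, hd₀⟩)))
    intro h hh
    obtain ⟨d, hd⟩ := this.exists_smul_eq ⟨t • a, mem_orbit_self _⟩ ⟨h • t • a, ⟨⟨h, hh⟩, rfl⟩⟩
    exact ⟨d.1, d.2, congrArg Subtype.val hd⟩
  -- elements `s⁻¹ * (h t h⁻¹)` of `D`
  have hpairD : ∀ h ∈ A, ∃ s ∈ T, s ∉ D ∧ s⁻¹ * (h * t * h⁻¹) ∈ D := by
    intro h hh
    obtain ⟨d, hd, e⟩ := hDtrans h hh
    refine ⟨d * t * d⁻¹, hTn d hd.1 t ht, fun hmem => htD ?_, N.mul_mem (N.inv_mem (hNn.conj_mem t (hTN ht) d)) (hNn.conj_mem t (hTN ht) h), ?_⟩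
    · have := hDn d⁻¹ (A.inv_mem hd.2) _ hmem
      simpa [mul_assoc] using this
    · show _ • a = a; rw [mul_smul, inv_smul_eq_iff, mul_smul, mul_smul, inv_smul_eq_iff.2 (mem_stabilizer_iff.1 hh).symm,
        mul_smul, mul_smul, inv_smul_eq_iff.2 (mem_stabilizer_iff.1 hd.2).symm]
      exact e.symm
  set W := D ⊔ K with hW
  have hWmem : ∀ w ∈ W, ∃ d ∈ D, ∃ c ∈ K, w = d * c := by
    have hnorm : D ≤ Subgroup.normalizer (K : Set G) := fun d hd => Subgroup.mem_normalizer_iff.2 fun y =>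
      ⟨fun hy => hKn d hd.1 y hy, fun hy => by simpa [mul_assoc] using hKn d⁻¹ (N.inv_mem hd.1) _ hy⟩
    intro w hw
    have : w ∈ ((D : Set G) * (K : Set G)) := by
      rw [← Subgroup.coe_mul_of_left_le_normalizer_right _ _ hnorm]; exact hw
    obtain ⟨d, hd, c, hc, rfl⟩ := Set.mem_mul.1 this
    exact ⟨d, hd, c, hc, rfl⟩
  have hWN : N ≤ W := by
    by_contra hnot
    obtain ⟨s, hsT, hsD, hsd⟩ := hpairD g₁ hg₁A
    set t' := g₁ * t * g₁⁻¹ with ht'
    have ht'K : t' ∈ K := hK g₁ hg₀ (conj_cT g₁ t ht)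
    refine hsD ?_
    let P : Subgroup G :=
      { carrier := {n | n ∈ N ∧ ∀ h ∈ A, h * n * h⁻¹ ∈ W}
        one_mem' := ⟨one_mem _, fun h _ => by simp⟩
        mul_mem' := fun {x y} hx hy => ⟨mul_mem hx.1 hy.1, fun h hh => by
          have := mul_mem (hx.2 h hh) (hy.2 h hh)
          simpa [mul_assoc] using this⟩
        inv_mem' := fun {x} hx => ⟨inv_mem hx.1, fun h hh => by
          have := inv_mem (hx.2 h hh)
          simpa [mul_assoc] using this⟩ }
    have hsP : s ∈ P := by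
      refine ⟨hTN hsT, fun h hh => ?_⟩
      by_cases hhT : cT h = T
      · have h1 : h * (s⁻¹ * t') * h⁻¹ ∈ W := Subgroup.mem_sup_left (hDn h hh _ hsd)
        have h2 : h * t' * h⁻¹ ∈ W := by
          refine Subgroup.mem_sup_right (hK (h * g₁) (fun e => hg₀ ?_) ?_)
          · ext w
            rw [mem_cT]
            have := mem_cT (h * g₁) (h * w * h⁻¹)
            rw [e] at this
            have h3 := mem_cT h (h * w * h⁻¹)
            rw [hhT] at h3
            have e1 : (h * g₁)⁻¹ * (h * w * h⁻¹) * (h * g₁) = g₁⁻¹ * w * g₁ := by group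
            have e2 : h⁻¹ * (h * w * h⁻¹) * h = w := by group
            rw [e1] at this; rw [e2] at h3
            exact this.symm.trans h3
          · rw [mem_cT, ht']
            simpa [mul_assoc] using ht
        have e : h * s * h⁻¹ = (h * t' * h⁻¹) * (h * (s⁻¹ * t') * h⁻¹)⁻¹ := by group
        rw [e]; exact mul_mem h2 (inv_mem h1)
      · exact Subgroup.mem_sup_right (hK h hhT (conj_cT h s hsT))
    have hPA : P ≤ A := by
      by_contra hne
      have hAP : A ≤ Subgroup.normalizer (P : Set G) := by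
        intro k hk
        rw [Subgroup.mem_normalizer_iff]
        intro y
        constructor
        · intro hy
          exact ⟨hNn.conj_mem y hy.1 k, fun h hh => by simpa [mul_assoc] using hy.2 (h * k) (mul_mem hh hk)⟩
        · intro hy
          refine ⟨by simpa [mul_assoc] using hNn.conj_mem _ hy.1 k⁻¹, fun h hh => ?_⟩
          simpa [mul_assoc] using hy.2 (h * k⁻¹) (mul_mem hh (inv_mem hk))
      have htop : A ⊔ P = ⊤ := hA.2 _ (lt_of_le_of_ne le_sup_left fun e => hne (e ▸ le_sup_right))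
      refine hnot fun n hn => ?_
      have hmem : n ∈ ((A : Set G) * (P : Set G)) := by
        rw [← Subgroup.coe_mul_of_left_le_normalizer_right _ _ hAP, htop]; exact Subgroup.mem_top n
      obtain ⟨k, hk, q, hq, rfl⟩ := Set.mem_mul.1 hmem
      have hkD : k ∈ D := ⟨by simpa [mul_assoc] using N.mul_mem hn (N.inv_mem hq.1), hk⟩
      exact mul_mem (Subgroup.mem_sup_left hkD) (by simpa using hq.2 1 A.one_mem)
    exact ⟨hTN hsT, hPA hsP⟩
  have hind : ∀ u ∈ T, ∃ d ∈ D, ∀ v ∈ T, d * v * d⁻¹ = u * v * u⁻¹ := by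
    intro u hu
    obtain ⟨d, hd, c, hc, rfl⟩ := hWmem u (hWN (hTN hu))
    refine ⟨d, hd, fun v hv => ?_⟩
    have := Subgroup.mem_centralizer_iff.1 hc.2 v hv
    calc d * v * d⁻¹ = d * (v * c) * c⁻¹ * d⁻¹ := by group
      _ = d * (c * v) * c⁻¹ * d⁻¹ := by rw [this]
      _ = d * c * v * (d * c)⁻¹ := by group
  have hTD : T ⊓ D = ⊥ := by
    rcases hminT (T ⊓ D) inf_le_left (fun n hn r hr => by
      obtain ⟨d, hd, c, hc, rfl⟩ := hWmem n (hWN hn)
      have e : d * c * r * (d * c)⁻¹ = d * r * d⁻¹ := by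
        have := Subgroup.mem_centralizer_iff.1 hc.2 r hr.1
        calc d * c * r * (d * c)⁻¹ = d * (c * r) * c⁻¹ * d⁻¹ := by group
          _ = d * (r * c) * c⁻¹ * d⁻¹ := by rw [this]
          _ = d * r * d⁻¹ := by group
      rw [e]
      exact ⟨hTn d hd.1 r hr.1, hDn d hd.2 r hr.2⟩) with h | h
    · exact h
    · exact absurd ((h ▸ inf_le_right : T ≤ D) ht) htD
  by_cases h3 : ∃ g, cT g ≠ T ∧ cT g ≠ cT g₁
  · obtain ⟨g₂, hg₂⟩ := h3
    obtain ⟨g₂', hg₂A, e₂⟩ := hAconj g₂
    rw [e₂] at hg₂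
    obtain ⟨s, hsT, hsD, hsd⟩ := hpairD g₁ hg₁A
    obtain ⟨r, hrT, hrD, hrd⟩ := hpairD g₂' hg₂A
    set b := g₁ * t * g₁⁻¹ with hbdef
    set c := g₂' * t * g₂'⁻¹ with hcdef
    have hs1 : s ≠ 1 := fun e => hsD (e ▸ D.one_mem)
    have hr1 : r ≠ 1 := fun e => hrD (e ▸ D.one_mem)
    have hcom : ∀ u ∈ T, s⁻¹ * (u * r⁻¹ * u⁻¹) = u * r⁻¹ * u⁻¹ * s⁻¹ := by
      intro u hu
      obtain ⟨d, hd, hdu⟩ := hind u hu
      set c' := d * c * d⁻¹ with hc'
      have hc'2 : c' ∈ cT g₂' := cT_norm g₂' d hd.1 c (conj_cT g₂' t ht)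
      set w := u * r⁻¹ * u⁻¹ with hwdef
      have hwc : w * c' ∈ D := by
        have := hDn d hd.2 _ hrd
        rw [hwdef, ← hdu r⁻¹ (T.inv_mem hrT), hc']
        simpa [mul_assoc] using this
      have hwT : w ∈ T := T.mul_mem (T.mul_mem hu (T.inv_mem hrT)) (T.inv_mem hu)
      have hb : b ∈ cT g₁ := conj_cT g₁ t ht
      have c1 : Commute b w := cT_comm g₁ hg₀ b hb w hwT
      have c2 : Commute c' w := cT_comm g₂' hg₂.1 c' hc'2 w hwT
      have c3 : Commute b s⁻¹ := cT_comm g₁ hg₀ b hb _ (T.inv_mem hsT)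
      have c4 : Commute c' s⁻¹ := cT_comm g₂' hg₂.1 c' hc'2 _ (T.inv_mem hsT)
      have c5 : Commute b c' := by
        have hne : cT (g₂'⁻¹ * g₁) ≠ T := fun e => hg₂.2 (by
          ext z
          rw [mem_cT, mem_cT]
          have := mem_cT (g₂'⁻¹ * g₁) (g₂'⁻¹ * z * g₂')
          rw [e] at this
          have e1 : (g₂'⁻¹ * g₁)⁻¹ * (g₂'⁻¹ * z * g₂') * (g₂'⁻¹ * g₁) = g₁⁻¹ * z * g₁ := by group
          rw [e1] at this
          exact this)
        have h1 := cT_comm _ hne (g₂'⁻¹ * b * g₂') (by rw [mem_cT]; simpa [hbdef, mul_assoc] using ht) _ ((mem_cT g₂' c').1 hc'2)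
        show b * c' = c' * b
        calc b * c' = g₂' * ((g₂'⁻¹ * b * g₂') * (g₂'⁻¹ * c' * g₂')) * g₂'⁻¹ := by group
          _ = g₂' * ((g₂'⁻¹ * c' * g₂') * (g₂'⁻¹ * b * g₂')) * g₂'⁻¹ := by rw [h1]
          _ = c' * b := by group
      have hzD : (s⁻¹ * b) * (w * c') * (s⁻¹ * b)⁻¹ * (w * c')⁻¹ ∈ D :=
        mul_mem (mul_mem (mul_mem hsd hwc) (inv_mem hsd)) (inv_mem hwc)
      have e : (s⁻¹ * b) * (w * c') * (s⁻¹ * b)⁻¹ * (w * c')⁻¹ = s⁻¹ * w * s * w⁻¹ := by
        have hbwc : Commute b (w * c') := c1.mul_right c5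
        calc (s⁻¹ * b) * (w * c') * (s⁻¹ * b)⁻¹ * (w * c')⁻¹
            = s⁻¹ * (b * (w * c')) * b⁻¹ * s * c'⁻¹ * w⁻¹ := by group
          _ = s⁻¹ * ((w * c') * b) * b⁻¹ * s * c'⁻¹ * w⁻¹ := by rw [hbwc.eq]
          _ = s⁻¹ * w * (c' * s) * c'⁻¹ * w⁻¹ := by group
          _ = s⁻¹ * w * (s * c') * c'⁻¹ * w⁻¹ := by rw [(Commute.inv_right_iff.1 c4).eq]
          _ = s⁻¹ * w * s * w⁻¹ := by group
      have h1 : s⁻¹ * w * s * w⁻¹ ∈ T ⊓ D :=
        ⟨T.mul_mem (T.mul_mem (T.mul_mem (T.inv_mem hsT) hwT) hsT) (T.inv_mem hwT), e ▸ hzD⟩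
      rw [hTD, Subgroup.mem_bot, mul_inv_eq_one] at h1
      calc s⁻¹ * w = s⁻¹ * w * s * s⁻¹ := by group
        _ = w * s⁻¹ := by rw [h1]
    haveI := hTs
    set si : T := ⟨s⁻¹, T.inv_mem hsT⟩
    set ri : T := ⟨r⁻¹, T.inv_mem hrT⟩
    have hc : si ∈ Subgroup.centralizer ((Subgroup.normalClosure ({ri} : Set T)) : Set T) := by
      rw [Subgroup.normalClosure, Subgroup.centralizer_closure, Subgroup.mem_centralizer_iff]
      intro w hw
      obtain ⟨q, hq, hconj⟩ := Group.mem_conjugatesOfSet_iff.1 hw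
      rw [Set.mem_singleton_iff] at hq
      subst hq
      obtain ⟨u, rfl⟩ := isConj_iff.1 hconj
      exact Subtype.ext (hcom u u.2).symm
    rcases (Subgroup.normalClosure_normal (s := ({ri} : Set T))).eq_bot_or_eq_top with h | h
    · have : ri ∈ Subgroup.normalClosure ({ri} : Set T) := Subgroup.subset_normalClosure rfl
      rw [h, Subgroup.mem_bot] at this
      exact hr1 (inv_eq_one.1 (congrArg Subtype.val this))
    · rw [h] at hc
      have hcen : si ∈ Subgroup.center T := Subgroup.mem_center_iff.2 fun g =>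
        Subgroup.mem_centralizer_iff.1 hc g (Subgroup.mem_top g)
      rcases IsSimpleGroup.eq_bot_or_eq_top_of_normal (Subgroup.center T) inferInstance with h' | h'
      · rw [h', Subgroup.mem_bot] at hcen
        exact hs1 (inv_eq_one.1 (congrArg Subtype.val hcen))
      · exact hTna ⟨⟨fun p q => (Subgroup.mem_center_iff.1 (h' ▸ Subgroup.mem_top q : q ∈ Subgroup.center T) p)⟩⟩
  push Not at h3
  -- exactly two factors: `T` is regular
  have hTT : ∀ n ∈ N, ∃ v ∈ T, n • a = v • a := by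
    set T₂ := cT g₁
    have hT₂ : ∀ x ∈ T₂, ∃ v ∈ T, x • a = v • a := by
      intro x hx
      rw [mem_cT] at hx
      obtain ⟨d, hd, c, hc, e⟩ := hWmem _ (hWN (hTN hx))
      -- `x` is a product of an element of `D` and one centralising the second factor
      have hc' : g₁ * c * g₁⁻¹ ∈ T := by
        have hcN : g₁ * c * g₁⁻¹ ∈ T ⊔ T₂ := by
          have hle : N ≤ T ⊔ T₂ := by
            conv_lhs => rw [← hsup]
            refine iSup_le fun g => ?_
            rcases eq_or_ne (cT g) T with h | h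
            · rw [h]; exact le_sup_left
            · rw [h3 g h]; exact le_sup_right
          exact hle (hNn.conj_mem c hc.1 g₁)
        have hn2 : T ≤ Subgroup.normalizer (T₂ : Set G) := fun v hv => Subgroup.mem_normalizer_iff.2 fun y =>
          ⟨fun hy => cT_norm g₁ v (hTN hv) y hy, fun hy => by simpa [mul_assoc] using cT_norm g₁ v⁻¹ (N.inv_mem (hTN hv)) _ hy⟩
        have hm : g₁ * c * g₁⁻¹ ∈ (T : Set G) * (T₂ : Set G) := by
          rw [← Subgroup.coe_mul_of_left_le_normalizer_right _ _ hn2]; exact hcN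
        obtain ⟨v, hv, y, hy, e'⟩ := Set.mem_mul.1 hm
        have hy' : g₁⁻¹ * y * g₁ ∈ T := (mem_cT g₁ y).1 hy
        have hyK : g₁⁻¹ * y * g₁ ∈ K := by
          refine ⟨hTN hy', Subgroup.mem_centralizer_iff.2 fun z hz => ?_⟩
          have h1 : g₁ * z * g₁⁻¹ * v = v * (g₁ * z * g₁⁻¹) := cT_comm g₁ hg₀ _ (conj_cT g₁ z hz) v hv
          have h2 : z * c = c * z := Subgroup.mem_centralizer_iff.1 hc.2 z hz
          have hy2 : y = v⁻¹ * (g₁ * c * g₁⁻¹) := by rw [← e']; group
          have h3' : Commute (g₁ * z * g₁⁻¹) (g₁ * c * g₁⁻¹) := by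
            show g₁ * z * g₁⁻¹ * (g₁ * c * g₁⁻¹) = g₁ * c * g₁⁻¹ * (g₁ * z * g₁⁻¹)
            calc _ = g₁ * (z * c) * g₁⁻¹ := by group
              _ = g₁ * (c * z) * g₁⁻¹ := by rw [h2]
              _ = _ := by group
          have h4 : Commute (g₁ * z * g₁⁻¹) y := by rw [hy2]; exact (Commute.inv_right h1).mul_right h3'
          calc z * (g₁⁻¹ * y * g₁) = g₁⁻¹ * ((g₁ * z * g₁⁻¹) * y) * g₁ := by group
            _ = g₁⁻¹ * (y * (g₁ * z * g₁⁻¹)) * g₁ := by rw [h4.eq]
            _ = g₁⁻¹ * y * g₁ * z := by group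
        have : g₁⁻¹ * y * g₁ ∈ T ⊓ K := ⟨hy', hyK⟩
        rw [hTK, Subgroup.mem_bot] at this
        have hy1 : y = 1 := by
          calc y = g₁ * (g₁⁻¹ * y * g₁) * g₁⁻¹ := by group
            _ = 1 := by rw [this]; group
        rw [← e', hy1, mul_one]; exact hv
      have e2 : x = (g₁ * d * g₁⁻¹) * (g₁ * c * g₁⁻¹) := by
        calc x = g₁ * (g₁⁻¹ * x * g₁) * g₁⁻¹ := by group
          _ = g₁ * (d * c) * g₁⁻¹ := by rw [e]
          _ = _ := by group
      have hdD := hDn g₁ hg₁A d hd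
      refine ⟨(g₁ * d * g₁⁻¹) * (g₁ * c * g₁⁻¹) * (g₁ * d * g₁⁻¹)⁻¹, hTn _ hdD.1 _ hc', ?_⟩
      rw [e2, mul_smul _ (g₁ * d * g₁⁻¹)⁻¹, inv_smul_eq_iff.2 (mem_stabilizer_iff.1 hdD.2).symm]
    intro n hn
    rw [← hsup] at hn
    induction hn using Subgroup.iSup_induction' with
    | hp g y hy =>
      rcases eq_or_ne (cT g) T with h | h
      · exact ⟨y, h ▸ hy, rfl⟩
      · exact hT₂ y (h3 g h ▸ hy)
    | h1 => exact ⟨1, T.one_mem, rfl⟩
    | hmul y z hy _ hy' hz' =>
      obtain ⟨v, hv, e⟩ := hz'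
      obtain ⟨v', hv', e'⟩ := hy'
      have hyN : y ∈ N := hsup ▸ hy
      refine ⟨y * v * y⁻¹ * v', T.mul_mem (hTn y hyN v hv) hv', ?_⟩
      rw [mul_smul, e, mul_smul _ v', ← e', smul_smul, smul_smul, inv_mul_cancel_right]
  have hinj : ∀ s ∈ T, ∀ v ∈ T, s • a = v • a → s = v := by
    intro s hs v hv e
    rw [← inv_mul_eq_one]
    have h1 : s⁻¹ * v ∈ T ⊓ D := ⟨T.mul_mem (T.inv_mem hs) hv, N.mul_mem (N.inv_mem (hTN hs)) (hTN hv), by
      show _ • a = a; rw [mul_smul, ← e, inv_smul_smul]⟩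
    rw [hTD, Subgroup.mem_bot] at h1
    exact h1
  refine core_false a T hTs hTna hinj (hep a) (fun ω => ?_) (fun g hg v hv s hs e m => ?_) (fun u hu => ?_)
  · obtain ⟨n, hn⟩ := exists_smul_eq N a ω
    obtain ⟨v, hv, e⟩ := hTT n n.2
    exact ⟨v, hv, e.symm.trans hn⟩
  · have hg' : g⁻¹ • a = a := inv_smul_eq_iff.2 (mem_stabilizer_iff.1 hg).symm
    have hs' : (g * v * g⁻¹) • a = s • a := by rw [mul_smul, mul_smul, hg', e]
    have hcom : Commute s (g * v * g⁻¹) := by
      by_cases h : cT g = T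
      · have hm : g * v * g⁻¹ ∈ T := h ▸ conj_cT g v hv
        rw [hinj _ hm s hs hs']
      · exact (cT_comm g h _ (conj_cT g v hv) s hs).symm
    have h1 : (s⁻¹ * (g * v * g⁻¹)) • a = a := by rw [mul_smul, hs', inv_smul_smul]
    have h2 : ∀ k : ℕ, (s⁻¹ * (g * v * g⁻¹)) ^ k • a = a := by
      intro k
      induction k with
      | zero => simp
      | succ k ih => rw [pow_succ, mul_smul, h1, ih]
    have h4 := h2 m
    rw [Commute.mul_pow hcom.inv_left, conj_pow, inv_pow, mul_smul, inv_smul_eq_iff, mul_smul, mul_smul, hg'] at h4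
    exact h4
  · obtain ⟨d, hd, hdu⟩ := hind u hu
    refine ⟨d, hd.2, fun v hv => ?_⟩
    rw [← hdu v hv, mul_smul, mul_smul, inv_smul_eq_iff.2 (mem_stabilizer_iff.1 hd.2).symm]

end CfsgLib.ExtPrim
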