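import Cfsg.Agent.Lib.PermFpfQuat

/-!
# The frame of a tetrahedral pair
-/

set_option autoImplicit false
set_option linter.unusedSectionVars false

namespace CfsgLib.FpfQuat

universe u v

variable {G : Type u} [Group G] [Finite G] {A : Type v} [Ring A] [Algebra ℚ A] {R : FpfRep G A}

/-- The four axes of the frame of a pair. -/
def tetra (g z : G) : Fin 4 → G := ![g, z⁻¹, g⁻¹ * z⁻¹ * g, g * z⁻¹ * g⁻¹]

theorem tetra_three {g z : G} (hg : orderOf g = 3) (hz : orderOf z = 3) (m : Fin 4) :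
    orderOf (tetra g z m) = 3 := by
  have h1 := FpfRep.orderOf_conj' z⁻¹ g⁻¹
  rw [inv_inv] at h1
  fin_cases m
  · exact hg
  · show orderOf z⁻¹ = 3
    rw [orderOf_inv, hz]
  · show orderOf (g⁻¹ * z⁻¹ * g) = 3
    rw [h1, orderOf_inv, hz]
  · show orderOf (g * z⁻¹ * g⁻¹) = 3
    rw [FpfRep.orderOf_conj', orderOf_inv, hz]

/-- The signs of the four axes. -/
def sgn : Fin 4 → ℤ × ℤ × ℤ := ![(1, 1, 1), (1, -1, -1), (-1, 1, -1), (-1, -1, 1)]

theorem exists_frame [Nontrivial A] {g z : G} (hg : orderOf g = 3) (hz : orderOf z = 3)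
    (hS : R.S g z = -2) :
    ∃ F : Frame R, ∀ m : Fin 4,
      R.U (tetra g z m) = F.Q 0 ((sgn m).1 : F.D) ((sgn m).2.1 : F.D) ((sgn m).2.2 : F.D) := by
  set u₀ := R.U g with hu₀
  set u₁ := R.U z⁻¹ with hu₁
  have hz' : orderOf z⁻¹ = 3 := by rw [orderOf_inv, hz]
  have h0 : u₀ * u₀ = -3 := R.U_sq hg
  have h1 : u₁ * u₁ = -3 := R.U_sq hz'
  have h10 : u₁ * u₀ = 2 - u₀ * u₁ := by
    have h := R.S_inv_right (g := g) hz
    rw [hS, FpfRep.S, ← hu₀, ← hu₁, neg_neg] at h
    rw [← h]; abel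
  have h010 : u₀ * u₁ * u₀ = 2 * u₀ + 3 * u₁ := by
    rw [mul_assoc, h10, mul_sub, ← mul_assoc, h0]; noncomm_ring <;> norm_num
  have h101 : u₁ * u₀ * u₁ = 2 * u₁ + 3 * u₀ := by
    rw [h10, sub_mul, mul_assoc, h1]; noncomm_ring <;> norm_num
  set w := R.U (g * z⁻¹ * g⁻¹) with hw
  set w' := R.U (g⁻¹ * z⁻¹ * g) with hw'
  have e3 : 2 * w = -u₀ - u₁ - (u₀ * u₁ - 1) := by
    refine sub_eq_zero.mp (FpfRep.smul_cancel (n := 2) two_ne_zero ?_)
    have e : 4 * w = -(u₀ * u₁ * u₀) - u₀ * u₁ + u₁ * u₀ + u₁ := by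
      rw [hw, ← R.U_conj]
      calc 4 * (R.ρ g * R.U z⁻¹ * R.ρ g⁻¹) = (2 * R.ρ g) * u₁ * (2 * R.ρ g⁻¹) := by
            rw [hu₁]; noncomm_ring <;> norm_num
        _ = (u₀ - 1) * u₁ * (-u₀ - 1) := by
            rw [hu₀, FpfRep.U, R.inv_three hg]; noncomm_ring <;> norm_num
        _ = _ := by noncomm_ring <;> norm_num
    calc ((2 : ℕ) : A) * (2 * w - (-u₀ - u₁ - (u₀ * u₁ - 1)))
        = 4 * w + 2 * u₀ + 2 * u₁ + 2 * (u₀ * u₁) - 2 := by push_cast; noncomm_ring <;> norm_num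
      _ = 0 := by rw [e, h010, h10]; noncomm_ring <;> norm_num
  have e2 : 2 * w' = -u₀ - u₁ + (u₀ * u₁ - 1) := by
    refine sub_eq_zero.mp (FpfRep.smul_cancel (n := 2) two_ne_zero ?_)
    have e : 4 * w' = -(u₀ * u₁ * u₀) + u₀ * u₁ - u₁ * u₀ + u₁ := by
      have h := R.U_conj z⁻¹ g⁻¹
      rw [inv_inv] at h
      rw [hw', ← h]
      calc 4 * (R.ρ g⁻¹ * R.U z⁻¹ * R.ρ g) = (2 * R.ρ g⁻¹) * u₁ * (2 * R.ρ g) := by
            rw [hu₁]; noncomm_ring <;> norm_num
        _ = (-u₀ - 1) * u₁ * (u₀ - 1) := by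
            rw [hu₀, FpfRep.U, R.inv_three hg]; noncomm_ring <;> norm_num
        _ = _ := by noncomm_ring <;> norm_num
    calc ((2 : ℕ) : A) * (2 * w' - (-u₀ - u₁ + (u₀ * u₁ - 1)))
        = 4 * w' + 2 * u₀ + 2 * u₁ - 2 * (u₀ * u₁) + 2 := by push_cast; noncomm_ring <;> norm_num
      _ = 0 := by rw [e, h010, h10]; noncomm_ring <;> norm_num
  set s := u₀ + u₁ with hs
  set d := u₀ - u₁ with hd
  set N := u₀ * u₁ - 1 with hN
  have hsk : ∀ m, R.U (tetra g z m) ∈ R.skew := fun m => R.U_skew (tetra_three hg hz m)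
  have sk0 : u₀ ∈ R.skew := hsk 0
  have sk1 : u₁ ∈ R.skew := hsk 1
  have skN : N ∈ R.skew := by
    have h2 : N = -s - (2 : ℚ) • w := by
      rw [show (2 : ℚ) • w = 2 * w by rw [Algebra.smul_def, map_ofNat], e3, hs]; abel
    rw [h2]
    exact R.skew.sub_mem (R.skew.neg_mem (R.skew.add_mem sk0 sk1)) (R.skew.smul_mem _ (hsk 3))
  have hss : s * s = -4 := by
    calc s * s = u₀ * u₀ + u₀ * u₁ + u₁ * u₀ + u₁ * u₁ := by rw [hs]; noncomm_ring <;> norm_num
      _ = -4 := by rw [h0, h1, h10]; noncomm_ring <;> norm_num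
  have hu0N : u₀ * N = -3 * u₁ - u₀ := by
    rw [hN, mul_sub, ← mul_assoc, h0, mul_one]
  have hu1N : u₁ * N = u₁ + 3 * u₀ := by
    rw [hN, mul_sub, ← mul_assoc, h101, mul_one]; noncomm_ring <;> norm_num
  have hNu0 : N * u₀ = u₀ + 3 * u₁ := by
    rw [hN, sub_mul, h010, one_mul]; noncomm_ring <;> norm_num
  have hNu1 : N * u₁ = -3 * u₀ - u₁ := by
    rw [hN, sub_mul, mul_assoc, h1, one_mul]; noncomm_ring <;> norm_num
  have hP2 : N * N = -8 := by
    calc N * N = (N * u₀) * u₁ - N := by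
          rw [hN]; noncomm_ring <;> norm_num
      _ = -8 := by rw [hNu0, hN, add_mul, mul_assoc, h1]; noncomm_ring <;> norm_num
  have hdd : d * d = -8 := by
    calc d * d = u₀ * u₀ - u₀ * u₁ - u₁ * u₀ + u₁ * u₁ := by rw [hd]; noncomm_ring <;> norm_num
      _ = -8 := by rw [h0, h1, h10]; noncomm_ring <;> norm_num
  have hdN : d * N + N * d = 0 := by
    calc d * N + N * d = (u₀ * N - u₁ * N) + (N * u₀ - N * u₁) := by
          rw [hd]; noncomm_ring <;> norm_num
      _ = 0 := by rw [hu0N, hu1N, hNu0, hNu1]; noncomm_ring <;> norm_num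
  have hsd : s * d = -2 * N := by
    calc s * d = u₀ * u₀ - u₀ * u₁ + u₁ * u₀ - u₁ * u₁ := by rw [hs, hd]; noncomm_ring <;> norm_num
      _ = -2 * N := by rw [h0, h1, h10, hN]; noncomm_ring <;> norm_num
  have hds : d * s = 2 * N := by
    calc d * s = u₀ * u₀ + u₀ * u₁ - u₁ * u₀ - u₁ * u₁ := by rw [hs, hd]; noncomm_ring <;> norm_num
      _ = 2 * N := by rw [h0, h1, h10, hN]; noncomm_ring <;> norm_num
  have hsN : s * N = 2 * d := by
    rw [hs, hd, add_mul, hu0N, hu1N]; noncomm_ring <;> norm_num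
  have hNs : N * s = -2 * d := by
    rw [hs, hd, mul_add, hNu0, hNu1]; noncomm_ring <;> norm_num
  have hij : ((1 / 2 : ℚ) • s) * ((1 / 4 : ℚ) • (d + N)) = (1 / 4 : ℚ) • (d - N) := by
    rw [smul_mul_assoc, mul_smul_comm, smul_smul, mul_add, hsd, hsN,
      show -2 * N + 2 * d = (2 : ℚ) • (d - N) by
        rw [Algebra.smul_def, map_ofNat]; noncomm_ring <;> norm_num, smul_smul]
    norm_num
  let F : Frame R :=
    { i := (1 / 2 : ℚ) • s
      j := (1 / 4 : ℚ) • (d + N)
      hi := by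
        rw [smul_mul_assoc, mul_smul_comm, smul_smul, hss,
          show (-4 : A) = (-4 : ℚ) • 1 by rw [Algebra.smul_def, mul_one, map_neg, map_ofNat], smul_smul]
        norm_num
      hj := by
        rw [smul_mul_assoc, mul_smul_comm, smul_smul,
          show (d + N) * (d + N) = (-16 : ℚ) • (1 : A) by
            rw [Algebra.smul_def, mul_one, map_neg, map_ofNat]
            calc (d + N) * (d + N) = d * d + N * N + (d * N + N * d) := by noncomm_ring <;> norm_num
              _ = -16 := by rw [hdd, hP2, hdN]; norm_num, smul_smul]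
        norm_num
      hji := by
        rw [hij, smul_mul_assoc, mul_smul_comm, smul_smul, add_mul, hds, hNs,
          show 2 * N + -2 * d = (-2 : ℚ) • (d - N) by
            rw [Algebra.smul_def, map_neg, map_ofNat]; noncomm_ring <;> norm_num, smul_smul]
        norm_num
      ski := R.skew.smul_mem _ (R.skew.add_mem sk0 sk1)
      skj := R.skew.smul_mem _ (R.skew.add_mem (R.skew.sub_mem sk0 sk1) skN)
      skk := by rw [hij]; exact R.skew.smul_mem _ (R.skew.sub_mem (R.skew.sub_mem sk0 sk1) skN) }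
  refine ⟨F, fun m => ?_⟩
  have hk : F.k = (1 / 4 : ℚ) • (d - N) := hij
  have hi : F.i = (1 / 2 : ℚ) • s := rfl
  have hj : F.j = (1 / 4 : ℚ) • (d + N) := rfl
  have half : ∀ x y : A, 2 * x = y → x = (1 / 2 : ℚ) • y := fun x y h => by
    rw [← h, show 2 * x = (2 : ℚ) • x by rw [Algebra.smul_def, map_ofNat], smul_smul]; norm_num
  fin_cases m
  · simp only [tetra, sgn, Frame.Q, hi, hj, hk, ← hu₀]
    simp
    simp only [hs, hd, smul_add, smul_sub]
    module
  · simp only [tetra, sgn, Frame.Q, hi, hj, hk]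
    simp [← hu₁]
    simp only [hs, hd, smul_add, smul_sub]
    module
  · simp only [tetra, sgn, Frame.Q, hi, hj, hk]
    simp [← hw']
    rw [half _ _ e2]
    simp only [hs, hd, smul_add, smul_sub]
    module
  · simp only [tetra, sgn, Frame.Q, hi, hj, hk]
    simp [← hw]
    rw [half _ _ e3]
    simp only [hs, hd, smul_add, smul_sub]
    module

/-- An outside element makes at least two icosahedral pairs with the four axes. -/
theorem two_le_count [Nontrivial A] {g z y : G} (hg : orderOf g = 3) (hz : orderOf z = 3)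
    (hy : orderOf y = 3) (hS : R.S g z = -2)
    (hout : ∀ m, y ≠ tetra g z m ∧ y ≠ (tetra g z m)⁻¹) :
    2 ≤ Nat.card {m : Fin 4 // R.S (tetra g z m) y * R.S (tetra g z m) y = 20} := by
  classical
  obtain ⟨F, hF⟩ := exists_frame hg hz hS
  obtain ⟨e, a, b, c, hu⟩ := F.exists_coords (R.U y)
  have hes : (e : A) ∈ R.skew := by
    rw [← F.E_Q e a b c, ← hu]; exact F.E_skew (R.U_skew hy)
  set X : Fin 4 → Prop := fun m => R.S (tetra g z m) y * R.S (tetra g z m) y = 20
  have hval : ∀ m, R.S (tetra g z m) y * R.S (tetra g z m) y =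
      ((if X m then 20 else 4 : ℕ) : A) := by
    intro m
    by_cases hX : X m
    · rw [if_pos hX]; push_cast; exact hX
    · rw [if_neg hX]
      rcases R.pair_cases (tetra_three hg hz m) hy with h | h | h | h | h
      · exact absurd h.1 (hout m).2
      · exact absurd h.1 (hout m).1
      · rw [h]; norm_num
      · rw [h]; norm_num
      · exact absurd h hX
  set p : Fin 4 → F.D := fun m =>
    ((sgn m).1 : F.D) * a + ((sgn m).2.1 : F.D) * b + ((sgn m).2.2 : F.D) * c
  have hSm : ∀ m, R.S (tetra g z m) y = F.Q (-2 * p m) (2 * ((sgn m).1 : F.D) * e)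
      (2 * ((sgn m).2.1 : F.D) * e) (2 * ((sgn m).2.2 : F.D) * e) := by
    intro m
    rw [FpfRep.S, hF, hu, F.Q_mul, F.Q_mul, F.Q_add]
    fin_cases m <;> simp [p, sgn] <;> congr 1 <;> noncomm_ring <;> norm_num <;> abel
  have hcomp : ∀ m, ((if X m then 20 else 4 : ℕ) : F.D) = 4 * (p m * p m) - 12 * (e * e) := by
    intro m
    have h := hval m
    rw [hSm, F.Q_mul, show ((if X m then 20 else 4 : ℕ) : A) =
      F.Q ((if X m then 20 else 4 : ℕ) : F.D) 0 0 0 by rw [F.Q_scalar]; exact (map_natCast F.D.val _).symm] at h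
    rw [← (F.Q_inj h).1]
    fin_cases m <;> simp [sgn] <;> noncomm_ring <;> norm_num <;> abel
  have husq : e * e - a * a - b * b - c * c = -3 := by
    have h := R.U_sq hy
    rw [hu, F.Q_mul, show (-3 : A) = F.Q (-3) 0 0 0 by rw [F.Q_scalar, Subalgebra.coe_neg]; rfl] at h
    exact (F.Q_inj h).1
  set n := Nat.card {m : Fin 4 // X m} with hn
  have hsum : (∑ m : Fin 4, (if X m then 20 else 4 : ℕ)) = 16 + 16 * n := by
    rw [hn, Nat.card_eq_fintype_card, Fintype.card_subtype, Finset.card_filter, Fin.sum_univ_four,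
      Fin.sum_univ_four]
    split_ifs <;> norm_num
  have hD : (((16 + 16 * n : ℕ)) : F.D) = 48 - 32 * (e * e) := by
    calc (((16 + 16 * n : ℕ)) : F.D) = ∑ m : Fin 4, ((if X m then 20 else 4 : ℕ) : F.D) := by
          rw [← hsum, Nat.cast_sum]
      _ = ∑ m : Fin 4, (4 * (p m * p m) - 12 * (e * e)) := Finset.sum_congr rfl fun m _ => hcomp m
      _ = 16 * (a * a + b * b + c * c) - 48 * (e * e) := by
          rw [Fin.sum_univ_four]
          simp [p, sgn]
          noncomm_ring <;> norm_num <;> abel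
      _ = 16 * (e * e - -3) - 48 * (e * e) := by
          rw [← husq]; noncomm_ring <;> norm_num <;> abel
      _ = 48 - 32 * (e * e) := by noncomm_ring <;> norm_num <;> abel
  have hA := congrArg F.D.val hD
  rw [map_natCast, map_sub, map_mul, map_mul, map_ofNat, map_ofNat] at hA
  simp only [Subalgebra.coe_val, Nat.cast_add, Nat.cast_mul, Nat.cast_ofNat] at hA
  have h32 : (32 : ℚ) • ((e : A) * e) = algebraMap ℚ A (32 - 16 * n) := by
    rw [Algebra.smul_def, map_sub, map_mul, map_natCast, map_ofNat, map_ofNat]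
    calc (32 : A) * ((e : A) * e) = 48 - (48 - 32 * ((e : A) * e)) := by abel
      _ = 48 - (16 + 16 * (n : A)) := by rw [hA]
      _ = (48 - 16) - 16 * (n : A) := by abel
      _ = _ := by norm_num
  have hle := R.sq_nonpos _ hes ((32 - 16 * n) / 32) (by
    rw [show ((32 : ℚ) - 16 * n) / 32 = (1 / 32) * (32 - 16 * n) by ring, map_mul, ← h32,
      ← Algebra.smul_def, smul_smul]
    norm_num)
  have : (2 : ℚ) ≤ n := by linarith
  exact_mod_cast this

end CfsgLib.FpfQuat
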