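import Cfsg.Agent.Lib.PermFpfRep
import Cfsg.Agent.Lib.CoreThompsonFpf
import Mathlib.RingTheory.Idempotents
import Mathlib.Algebra.MonoidAlgebra.Basic
import Mathlib.LinearAlgebra.Dual.Lemmas
import Mathlib.Algebra.Field.ZMod
import Mathlib.Algebra.Module.ZMod
import Mathlib.FieldTheory.Finite.Basic

/-!
# Free functions modulo `p` give rational free functions

If a finite group of order prime to `p` has a non-zero free function modulo `p`, it has one over
the rationals; hence a group acting freely on a finite group has a rational representation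
without fixed vectors.
-/

set_option autoImplicit false
set_option linter.unusedSectionVars false

namespace CfsgLib.FpfQuat

universe u v

open scoped IsMulCommutative

section Average

variable {G : Type u} [Group G] [Fintype G] {k : Type v} [CommRing k]

open MonoidAlgebra in
/-- The basis element. -/
noncomputable abbrev gel (g : G) : MonoidAlgebra k G := MonoidAlgebra.single g 1

theorem gel_mul (g h : G) : (gel g : MonoidAlgebra k G) * gel h = gel (g * h) := by
  simp [gel, MonoidAlgebra.single_mul_single]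

theorem gel_one : (gel (1 : G) : MonoidAlgebra k G) = 1 := rfl

theorem gel_cancel (g : G) (a : MonoidAlgebra k G) : gel g⁻¹ * (gel g * a) = a := by
  rw [← mul_assoc, gel_mul, inv_mul_cancel, gel_one, one_mul]

theorem central_of_gel {z : MonoidAlgebra k G} (h : ∀ g : G, gel g * z = z * gel g)
    (a : MonoidAlgebra k G) : a * z = z * a := by
  induction a using MonoidAlgebra.induction_on with
  | of g => exact h g
  | add a b ha hb => rw [add_mul, mul_add, ha, hb]
  | smul r a ha => rw [smul_mul_assoc, mul_smul_comm, ha]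

/-- The norm element of a cyclic subgroup. -/
noncomputable def normEl (g : G) : MonoidAlgebra k G :=
  ∑ i ∈ Finset.range (orderOf g), gel g ^ i

theorem gel_pow (g : G) (i : ℕ) : (gel g : MonoidAlgebra k G) ^ i = gel (g ^ i) := by
  induction i with
  | zero => rw [pow_zero, pow_zero, gel_one]
  | succ i ih => rw [pow_succ, ih, gel_mul, pow_succ]

theorem gel_mul_normEl (g : G) : gel g * (normEl g : MonoidAlgebra k G) = normEl g := by
  have h := mul_geom_sum (gel g : MonoidAlgebra k G) (orderOf g)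
  rw [gel_pow g (orderOf g), pow_orderOf_eq_one, gel_one, sub_self, sub_mul, one_mul, sub_eq_zero] at h
  exact h

theorem normEl_mul_self (g : G) :
    (normEl g : MonoidAlgebra k G) * normEl g = (orderOf g : k) • normEl g := by
  have h : ∀ i : ℕ, gel g ^ i * (normEl g : MonoidAlgebra k G) = normEl g := by
    intro i
    induction i with
    | zero => rw [pow_zero, one_mul]
    | succ i ih => rw [pow_succ, mul_assoc, gel_mul_normEl, ih]
  conv_lhs => arg 1; rw [normEl]
  rw [Finset.sum_mul, Finset.sum_congr rfl fun i _ => h i, Finset.sum_const, Finset.card_range,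
    Nat.cast_smul_eq_nsmul]

theorem normEl_conj (g h : G) :
    (normEl g : MonoidAlgebra k G) * gel h = gel h * normEl (h⁻¹ * g * h) := by
  have ho : orderOf (h⁻¹ * g * h) = orderOf g := by
    simpa using MulEquiv.orderOf_eq (MulAut.conj h⁻¹) g
  rw [normEl, normEl, ho, Finset.sum_mul, Finset.mul_sum]
  refine Finset.sum_congr rfl fun i _ => ?_
  rw [gel_pow, gel_pow, gel_mul, gel_mul]
  congr 1
  have := conj_pow (i := i) (a := h⁻¹) (b := g)
  rw [inv_inv] at this
  rw [this]
  group

theorem coeff_normEl_mul (g : G) (a : MonoidAlgebra k G) (x : G) :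
    (normEl g * a).coeff x = ∑ i ∈ Finset.range (orderOf g), a.coeff ((g ^ i)⁻¹ * x) := by
  rw [normEl, Finset.sum_mul, MonoidAlgebra.coeff_sum, Finsupp.finsetSum_apply]
  refine Finset.sum_congr rfl fun i _ => ?_
  rw [gel_pow]
  simp [gel]

end Average

section Modp

variable {G : Type u} [Group G] [Fintype G] {p : ℕ} [Fact p.Prime]

/-- A central idempotent with free coefficients. -/
theorem exists_free_idem (hp : (Nat.card G : ZMod p) ≠ 0) {w : G → ZMod p} (hw : w ≠ 0)
    (hfree : ∀ g : G, g ≠ 1 → ∀ x : G, ∑ i ∈ Finset.range (orderOf g), w (g ^ i * x) = 0) :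
    ∃ f : MonoidAlgebra (ZMod p) G, f ≠ 0 ∧ f * f = f ∧ (∀ a, a * f = f * a) ∧
      ∀ g : G, g ≠ 1 → normEl g * f = 0 := by
  classical
  let J : Submodule (ZMod p) (MonoidAlgebra (ZMod p) G) :=
    { carrier := {a | ∀ g : G, g ≠ 1 → normEl g * a = 0}
      add_mem' := fun {a b} ha hb g hg => by rw [mul_add, ha g hg, hb g hg, add_zero]
      zero_mem' := fun g _ => mul_zero _
      smul_mem' := fun c a ha g hg => by rw [mul_smul_comm, ha g hg, smul_zero] }
  have hl : ∀ (h : G) a, a ∈ J → gel h * a ∈ J := by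
    intro h a ha g hg
    rw [← mul_assoc, normEl_conj, mul_assoc, ha _ (fun e => hg ?_), mul_zero]
    calc g = h * (h⁻¹ * g * h) * h⁻¹ := by group
      _ = 1 := by rw [e]; group
  have hr : ∀ (h : G) a, a ∈ J → a * gel h ∈ J := fun h a ha g hg => by
    rw [← mul_assoc, ha g hg, zero_mul]
  let a₀ : MonoidAlgebra (ZMod p) G := MonoidAlgebra.ofCoeff (Finsupp.equivFunOnFinite.symm w)
  have ha₀ : a₀ ∈ J := by
    intro g hg
    ext x
    rw [coeff_normEl_mul]
    have h1 := hfree g⁻¹ (inv_ne_one.mpr hg) x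
    rw [orderOf_inv] at h1
    simpa [a₀, inv_pow] using h1
  have ha₀0 : a₀ ≠ 0 := by
    intro e
    refine hw (funext fun x => ?_)
    have := congrArg (fun a : MonoidAlgebra (ZMod p) G => a.coeff x) e
    simpa [a₀] using this
  obtain ⟨π₀, hπ₀⟩ := J.subtype.exists_leftInverse_of_injective J.ker_subtype
  let P : MonoidAlgebra (ZMod p) G →ₗ[ZMod p] MonoidAlgebra (ZMod p) G := J.subtype.comp π₀
  let π : MonoidAlgebra (ZMod p) G →ₗ[ZMod p] MonoidAlgebra (ZMod p) G :=
    ∑ x : G, ∑ y : G, (LinearMap.mulLeft (ZMod p) (gel x⁻¹)).comp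
      ((LinearMap.mulRight (ZMod p) (gel y⁻¹)).comp
        (P.comp ((LinearMap.mulLeft (ZMod p) (gel x)).comp (LinearMap.mulRight (ZMod p) (gel y)))))
  have hπ : ∀ a, π a = ∑ x : G, ∑ y : G, gel x⁻¹ * (P (gel x * (a * gel y)) * gel y⁻¹) := fun a => by
    simp [π]
  have hπl : ∀ (h : G) a, π (gel h * a) = gel h * π a := by
    intro h a
    rw [hπ, hπ, Finset.mul_sum]
    refine Fintype.sum_equiv (Equiv.mulRight h) _ _ fun x => ?_
    rw [Finset.mul_sum]
    refine Finset.sum_congr rfl fun y _ => ?_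
    simp only [Equiv.coe_mulRight, mul_inv_rev, ← gel_mul, mul_assoc]
    rw [← mul_assoc (gel h) (gel h⁻¹), gel_mul, mul_inv_cancel, gel_one, one_mul]
  have hπr : ∀ (h : G) a, π (a * gel h) = π a * gel h := by
    intro h a
    rw [hπ, hπ, Finset.sum_mul]
    refine Finset.sum_congr rfl fun x _ => ?_
    rw [Finset.sum_mul]
    refine Fintype.sum_equiv (Equiv.mulLeft h) _ _ fun y => ?_
    simp only [Equiv.coe_mulLeft, mul_inv_rev, ← gel_mul, mul_assoc]
    rw [gel_mul h⁻¹ h, inv_mul_cancel, gel_one, mul_one]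
  have hπJ : ∀ a, π a ∈ J := fun a => by
    rw [hπ]
    exact Submodule.sum_mem _ fun x _ => Submodule.sum_mem _ fun y _ =>
      hl _ _ (hr _ _ (π₀ _).2)
  have hπfix : ∀ a ∈ J, π a = ((Nat.card G : ZMod p) * Nat.card G) • a := by
    intro a ha
    have h1 : ∀ x y : G, gel x⁻¹ * (P (gel x * (a * gel y)) * gel y⁻¹) = a := fun x y => by
      have hmem := hl x _ (hr y _ ha)
      have h2 : P (gel x * (a * gel y)) = gel x * (a * gel y) :=
        congrArg Subtype.val (LinearMap.congr_fun hπ₀ ⟨_, hmem⟩)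
      rw [h2, mul_assoc (gel x), gel_cancel, mul_assoc, gel_mul, mul_inv_cancel, gel_one, mul_one]
    rw [hπ, Finset.sum_congr rfl fun x _ => Finset.sum_congr rfl fun y _ => h1 x y]
    simp only [Finset.sum_const, Finset.card_univ, ← Nat.card_eq_fintype_card]
    rw [← mul_smul, ← Nat.cast_smul_eq_nsmul (ZMod p), Nat.cast_mul]
  have hcomm : ∀ g : G, gel g * π 1 = π 1 * gel g := fun g => by
    rw [← hπl, mul_one, ← hπr, one_mul]
  have hmul : ∀ a, π a = a * π 1 := by
    intro a
    induction a using MonoidAlgebra.induction_on with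
    | of g => exact (by rw [← hπl, mul_one] : π (gel g) = gel g * π 1)
    | add a b ha hb => rw [map_add, add_mul, ha, hb]
    | smul r a ha => rw [map_smul, smul_mul_assoc, ha]
  set c : ZMod p := ((Nat.card G : ZMod p) * Nat.card G)⁻¹ with hc
  have hfix : ∀ a ∈ J, a * (c • π 1) = a := fun a ha => by
    rw [mul_smul_comm, ← hmul, hπfix a ha, smul_smul, hc, inv_mul_cancel₀ (mul_ne_zero hp hp), one_smul]
  refine ⟨c • π 1, fun e => ha₀0 ?_, hfix _ (J.smul_mem c (hπJ 1)), fun a => ?_, J.smul_mem c (hπJ 1)⟩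
  · rw [← hfix a₀ ha₀, e, mul_zero]
  · rw [mul_smul_comm, smul_mul_assoc, central_of_gel hcomm]

theorem exists_free_lift (hp : ¬ p ∣ Nat.card G) {f : MonoidAlgebra (ZMod p) G} (hf : f * f = f)
    (hfc : ∀ a, a * f = f * a) (hfn : ∀ g : G, g ≠ 1 → normEl g * f = 0) (N : ℕ) (hN : N ≠ 0) :
    ∃ e : MonoidAlgebra (ZMod (p ^ N)) G,
      (MonoidAlgebra.mapRingHom G (ZMod.castHom (dvd_pow_self p hN) (ZMod p))) e = f ∧
      ∀ g : G, g ≠ 1 → normEl g * e = 0 := by
  classical
  have hpp : p.Prime := Fact.out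
  haveI : NeZero (p ^ N) := ⟨pow_ne_zero _ hpp.ne_zero⟩
  set c := ZMod.castHom (dvd_pow_self p hN) (ZMod p) with hc
  set φ := MonoidAlgebra.mapRingHom G c with hφ
  have hsmul : ∀ (r : ZMod (p ^ N)) (a : MonoidAlgebra (ZMod (p ^ N)) G), φ (r • a) = c r • φ a := by
    intro r a
    ext x
    simp [φ]
  have hgel : ∀ g : G, φ (gel g) = gel g := by
    intro g
    ext x
    simp only [φ, MonoidAlgebra.coeff_mapRingHom, gel, MonoidAlgebra.coeff_single, Finsupp.single_apply]
    split <;> simp
  have hnil : ∀ a ∈ RingHom.ker φ, IsNilpotent a := by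
    intro a ha
    let b : MonoidAlgebra (ZMod (p ^ N)) G :=
      MonoidAlgebra.ofCoeff (Finsupp.equivFunOnFinite.symm fun x => ((a.coeff x).val / p : ℕ))
    have hab : a = (p : ZMod (p ^ N)) • b := by
      ext x
      have h1 : c (a.coeff x) = 0 := by
        have := congrArg (fun t : MonoidAlgebra (ZMod p) G => t.coeff x) ha
        simpa [φ] using this
      rw [← ZMod.natCast_zmod_val (a.coeff x), map_natCast, ZMod.natCast_eq_zero_iff] at h1
      simp only [b, MonoidAlgebra.coeff_smul, Finsupp.smul_apply, smul_eq_mul]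
      rw [show (Finsupp.equivFunOnFinite.symm fun x => (((a.coeff x).val / p : ℕ) : ZMod (p ^ N))) x =
        (((a.coeff x).val / p : ℕ) : ZMod (p ^ N)) from rfl, ← Nat.cast_mul, Nat.mul_div_cancel' h1,
        ZMod.natCast_zmod_val]
    refine ⟨N, ?_⟩
    rw [hab, smul_pow, ← Nat.cast_pow, ZMod.natCast_self, zero_smul]
  have hord : ∀ n : ℕ, n ∣ Nat.card G → ∃ v : ZMod (p ^ N), v * n = 1 := fun n hn => by
    have h1 : n.Coprime (p ^ N) :=
      Nat.Coprime.pow_right _ ((hpp.coprime_iff_not_dvd.mpr fun h => hp (h.trans hn)).symm)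
    exact ⟨((ZMod.unitOfCoprime n h1)⁻¹ : (ZMod (p ^ N))ˣ), by
      rw [← ZMod.coe_unitOfCoprime n h1, Units.inv_mul]⟩
  -- a central lift
  obtain ⟨u, hu⟩ := hord (Nat.card G) dvd_rfl
  let f₀ : MonoidAlgebra (ZMod (p ^ N)) G :=
    MonoidAlgebra.ofCoeff (Finsupp.equivFunOnFinite.symm fun x => ((f.coeff x).val : ZMod (p ^ N)))
  have hf₀ : φ f₀ = f := by
    ext x
    simp [φ, f₀]
  let f₁ := u • ∑ h : G, gel h * f₀ * gel h⁻¹
  have hf₁ : φ f₁ = f := by
    rw [hsmul, map_sum, Finset.sum_congr rfl fun h _ => show φ (gel h * f₀ * gel h⁻¹) = f by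
      rw [map_mul, map_mul, hgel, hgel, hf₀, hfc, mul_assoc, gel_mul, mul_inv_cancel, gel_one, mul_one],
      Finset.sum_const, Finset.card_univ, ← Nat.card_eq_fintype_card, ← Nat.cast_smul_eq_nsmul (ZMod p),
      smul_smul, ← map_natCast c, ← map_mul, hu, map_one, one_smul]
  have hf₁c : f₁ ∈ Subring.center (MonoidAlgebra (ZMod (p ^ N)) G) := by
    refine Subring.mem_center_iff.mpr (central_of_gel fun g => ?_)
    simp only [f₁, mul_smul_comm, smul_mul_assoc, Finset.mul_sum, Finset.sum_mul]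
    congr 1
    refine Fintype.sum_equiv (Equiv.mulLeft g) _ _ fun h => ?_
    simp only [Equiv.coe_mulLeft, mul_inv_rev, ← gel_mul, mul_assoc]
    rw [gel_mul g⁻¹ g, inv_mul_cancel, gel_one, mul_one]
  set φc := φ.comp (Subring.center (MonoidAlgebra (ZMod (p ^ N)) G)).subtype
  obtain ⟨⟨e, hec⟩, hee, hef⟩ := exists_isIdempotentElem_eq_of_ker_isNilpotent φc (fun x hx => by
    obtain ⟨n, hn⟩ := hnil (x : MonoidAlgebra (ZMod (p ^ N)) G) hx
    exact ⟨n, Subtype.ext hn⟩) f ⟨⟨f₁, hf₁c⟩, hf₁⟩ hf
  have hee' : e * e = e := congrArg Subtype.val hee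
  have hef' : φ e = f := hef
  refine ⟨e, hef', fun g hg => ?_⟩
  obtain ⟨v, hv⟩ := hord (orderOf g) (orderOf_dvd_natCard g)
  have h1 : IsNilpotent (v • (normEl g * e)) := hnil _ (by
    rw [RingHom.mem_ker, hsmul, map_mul, hef', normEl, map_sum]
    simp only [map_pow, hgel]
    rw [← normEl, hfn g hg, smul_zero])
  have h2 : IsIdempotentElem (v • (normEl g * e)) := by
    show _ * _ = _
    rw [smul_mul_smul_comm, mul_assoc, ← mul_assoc e, ← Subring.mem_center_iff.mp hec (normEl g),
      mul_assoc (normEl g) e e, hee', ← mul_assoc, normEl_mul_self, smul_mul_assoc, smul_smul,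
      mul_assoc, hv, mul_one]
  have h3 := h2.eq_zero_of_isNilpotent h1
  have h4 := congrArg (fun t => (orderOf g : ZMod (p ^ N)) • t) h3
  simp only [smul_smul, smul_zero, mul_comm _ v, hv, one_smul] at h4
  exact h4

theorem exists_free_rat (hp : ¬ p ∣ Nat.card G) {w : G → ZMod p} (hw : w ≠ 0)
    (hfree : ∀ g : G, g ≠ 1 → ∀ x : G, ∑ i ∈ Finset.range (orderOf g), w (g ^ i * x) = 0) :
    ∃ w₀ : G → ℚ, w₀ ≠ 0 ∧
      ∀ g : G, g ≠ 1 → ∀ x : G, ∑ i ∈ Finset.range (orderOf g), w₀ (g ^ i * x) = 0 := by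
  classical
  obtain ⟨f, hf0, hff, hfc, hfn⟩ :=
    exists_free_idem (by rwa [Ne, ZMod.natCast_eq_zero_iff]) hw hfree
  obtain ⟨x₀, hx₀⟩ : ∃ x₀, f.coeff x₀ ≠ 0 := by
    by_contra h
    push Not at h
    exact hf0 (MonoidAlgebra.ext (Finsupp.ext fun x => h x))
  let T : (G → ℚ) →ₗ[ℚ] ({g : G // g ≠ 1} × G → ℚ) :=
    { toFun := fun v j => ∑ i ∈ Finset.range (orderOf j.1.1), v (j.1.1 ^ i * j.2)
      map_add' := fun a b => funext fun j => by simp [Finset.sum_add_distrib]
      map_smul' := fun r a => funext fun j => by simp [Finset.mul_sum] }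
  by_contra hcon
  push Not at hcon
  have hker : LinearMap.ker T = ⊥ := by
    rw [LinearMap.ker_eq_bot']
    intro v hv
    by_contra hv0
    obtain ⟨g, hg, x, hx⟩ := hcon v hv0
    exact hx (congrFun hv (⟨g, hg⟩, x))
  obtain ⟨S, hS⟩ := T.exists_leftInverse_of_injective hker
  set c : {g : G // g ≠ 1} × G → ℚ := fun j => S (Pi.single j 1) x₀ with hcdef
  have hid : ∀ v : G → ℚ, v x₀ = ∑ j, c j * T v j := by
    intro v
    have h1 : S (T v) x₀ = v x₀ := congrFun (LinearMap.congr_fun hS v) x₀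
    rw [← h1]
    conv_lhs => rw [pi_eq_sum_univ' (T v)]
    simp [hcdef, map_sum, mul_comm]
  set D : ℕ := ∏ j, (c j).den
  have hD : D ≠ 0 := Finset.prod_ne_zero_iff.mpr fun j _ => (c j).den_nz
  have hz : ∀ j, ∃ z : ℤ, (z : ℚ) = D * c j := fun j => by
    obtain ⟨m, hm⟩ : (c j).den ∣ D := Finset.dvd_prod_of_mem _ (Finset.mem_univ j)
    refine ⟨(c j).num * m, ?_⟩
    rw [hm, Int.cast_mul, Int.cast_natCast, Nat.cast_mul, ← Rat.mul_den_eq_num]
    ring
  choose z hz using hz
  haveI : NeZero (p ^ D) := ⟨pow_ne_zero _ (Fact.out : p.Prime).ne_zero⟩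
  obtain ⟨e, hef, hen⟩ := exists_free_lift hp hff hfc hfn D hD
  set v : G → ℤ := fun x => ((e.coeff x).val : ℤ) with hvdef
  have h1 : (D : ℤ) * v x₀ =
      ∑ j : {g : G // g ≠ 1} × G, z j * ∑ i ∈ Finset.range (orderOf j.1.1), v (j.1.1 ^ i * j.2) := by
    have h2 := hid fun x => (v x : ℚ)
    have h3 : (D : ℚ) * (v x₀ : ℚ) = ∑ j, (z j : ℚ) * T (fun x => (v x : ℚ)) j := by
      rw [h2, Finset.mul_sum]
      exact Finset.sum_congr rfl fun j _ => by rw [hz, mul_assoc]
    simp only [T, LinearMap.coe_mk, AddHom.coe_mk] at h3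
    exact_mod_cast h3
  have h4 := congrArg (fun t : ℤ => (t : ZMod (p ^ D))) h1
  simp only [Int.cast_mul, Int.cast_natCast, Int.cast_sum, hvdef, ZMod.natCast_zmod_val] at h4
  rw [Finset.sum_eq_zero fun j _ => ?_] at h4
  swap
  · have h5 := congrArg (fun t : MonoidAlgebra (ZMod (p ^ D)) G => t.coeff j.2)
      (hen j.1.1⁻¹ (inv_ne_one.mpr j.1.2))
    simp only [coeff_normEl_mul, orderOf_inv, inv_pow, inv_inv, MonoidAlgebra.coeff_zero,
      Finsupp.zero_apply] at h5
    rw [h5, mul_zero]
  have h6 : IsUnit (e.coeff x₀) := by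
    refine (ZMod.isUnit_iff_coprime (e.coeff x₀).val (p ^ D)).mpr ?_ |> fun h => by
      rwa [ZMod.natCast_zmod_val] at h
    refine Nat.Coprime.pow_right _ ((Fact.out : p.Prime).coprime_iff_not_dvd.mpr fun hd => hx₀ ?_).symm
    have h7 := congrArg (fun t : MonoidAlgebra (ZMod p) G => t.coeff x₀) hef
    simp only [MonoidAlgebra.coeff_mapRingHom] at h7
    rw [← h7, ← ZMod.natCast_zmod_val (e.coeff x₀), map_natCast, ZMod.natCast_eq_zero_iff]
    exact hd
  rw [h6.mul_left_eq_zero, ZMod.natCast_eq_zero_iff] at h4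
  have := Nat.le_of_dvd (Nat.pos_of_ne_zero hD) h4
  have h8 := Nat.lt_pow_self (n := D) (Fact.out : p.Prime).one_lt
  omega

end Modp

/-- A group acting freely and linearly on a space over `𝔽_p` has a representation without fixed vectors. -/
theorem exists_fpfRep_linear {G : Type u} [Group G] [Finite G] {p : ℕ} [Fact p.Prime]
    {V : Type v} [AddCommGroup V] [Module (ZMod p) V] [Finite V] [Nontrivial V]
    (σ : G →* (V ≃ₗ[ZMod p] V)) (hfree : ∀ g : G, g ≠ 1 → ∀ x : V, σ g x = x → x = 0) :
    ∃ (A : Type u) (_ : Ring A) (_ : Algebra ℚ A), Nontrivial A ∧ Nonempty (FpfRep G A) := by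
  classical
  haveI := Fintype.ofFinite G
  have hp : ¬ p ∣ Nat.card G := by
    intro hd
    obtain ⟨a, ha⟩ := exists_prime_orderOf_dvd_card' p hd
    have ha1 : a ≠ 1 := by
      intro e
      rw [e, orderOf_one] at ha
      exact (Fact.out : p.Prime).ne_one ha.symm
    letI : MulAction (Subgroup.zpowers a) V :=
      MulAction.compHom V (σ.comp (Subgroup.zpowers a).subtype)
    have hP : IsPGroup p (Subgroup.zpowers a) :=
      IsPGroup.of_card (n := 1) (by rw [Nat.card_zpowers, ha, pow_one])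
    have hmod := hP.card_modEq_card_fixedPoints V
    have hfix : MulAction.fixedPoints (Subgroup.zpowers a) V = {0} := by
      refine Set.eq_singleton_iff_unique_mem.mpr ⟨fun g => ?_, fun x hx => ?_⟩
      · exact map_zero (σ (g : G))
      · exact hfree a ha1 x (hx ⟨a, Subgroup.mem_zpowers a⟩)
    rw [hfix, Nat.card_coe_set_eq, Set.ncard_singleton] at hmod
    obtain ⟨x, hx⟩ := exists_ne (0 : V)
    have hpV : p ∣ Nat.card V := by
      have h1 : addOrderOf x = p :=
        addOrderOf_eq_prime (by rw [← Nat.cast_smul_eq_nsmul (ZMod p), ZMod.natCast_self, zero_smul]) hx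
      exact h1 ▸ addOrderOf_dvd_natCard x
    have h2 := (Nat.modEq_zero_iff_dvd.mpr hpV).symm.trans hmod
    exact (Fact.out : p.Prime).not_dvd_one (Nat.modEq_zero_iff_dvd.mp h2.symm)
  obtain ⟨x, hx⟩ := exists_ne (0 : V)
  obtain ⟨f, hf⟩ := Module.Projective.exists_dual_ne_zero (ZMod p) hx
  obtain ⟨w₀, hw₀, hfree₀⟩ := exists_free_rat (p := p) hp (w := fun g => f (σ g⁻¹ x))
    (fun e => hf (by simpa using congrFun e 1)) (fun g hg y => by
      have h0 : ∀ u : V, ∑ i ∈ Finset.range (orderOf g⁻¹), σ (g⁻¹ ^ i) u = 0 := by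
        intro u
        refine hfree g⁻¹ (inv_ne_one.mpr hg) _ ?_
        rw [map_sum]
        have h1 : ∀ i : ℕ, σ g⁻¹ (σ (g⁻¹ ^ i) u) = σ (g⁻¹ ^ (i + 1)) u := fun i => by
          rw [pow_succ', map_mul]; rfl
        simp only [h1]
        have h2 := Finset.sum_range_succ' (fun i => σ (g⁻¹ ^ i) u) (orderOf g⁻¹)
        rw [Finset.sum_range_succ, pow_orderOf_eq_one, pow_zero] at h2
        exact (add_right_cancel h2).symm
      calc ∑ i ∈ Finset.range (orderOf g), f (σ (g ^ i * y)⁻¹ x)
          = f (σ y⁻¹ (∑ i ∈ Finset.range (orderOf g⁻¹), σ (g⁻¹ ^ i) x)) := by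
            rw [map_sum, map_sum, orderOf_inv]
            refine Finset.sum_congr rfl fun i _ => ?_
            rw [mul_inv_rev, inv_pow, map_mul]
            rfl
        _ = 0 := by rw [h0, map_zero, map_zero])
  obtain ⟨R, hA⟩ := exists_fpfRep hw₀ hfree₀
  exact ⟨_, inferInstance, inferInstance, hA, ⟨R⟩⟩

/-- A group acting freely on an abelian group of exponent `p`. -/
theorem exists_fpfRep_exponent {G : Type u} [Group G] [Finite G] {p : ℕ} [Fact p.Prime]
    {W : Type v} [CommGroup W] [Finite W] [Nontrivial W] [Module (ZMod p) (Additive W)]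
    (act : G →* MulAut W) (hfree : ∀ g : G, g ≠ 1 → ∀ w : W, act g w = w → w = 1) :
    ∃ (A : Type u) (_ : Ring A) (_ : Algebra ℚ A), Nontrivial A ∧ Nonempty (FpfRep G A) := by
  let σ : G →* (Additive W ≃ₗ[ZMod p] Additive W) :=
    MonoidHom.mk' (fun g : G =>
        { toFun := fun x => Additive.ofMul (act g x.toMul)
          map_add' := fun x y => Additive.toMul.injective (map_mul (act g) x.toMul y.toMul)
          invFun := fun x => Additive.ofMul ((act g).symm x.toMul)
          left_inv := fun x => Additive.toMul.injective ((act g).symm_apply_apply x.toMul)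
          right_inv := fun x => Additive.toMul.injective ((act g).apply_symm_apply x.toMul)
          map_smul' := fun c x => ZMod.map_smul (AddMonoidHom.mk' (fun x : Additive W => Additive.ofMul (act g x.toMul))
            fun x y => Additive.toMul.injective (map_mul (act g) x.toMul y.toMul)) c x }) fun a b => by
        refine LinearEquiv.ext fun x => Additive.toMul.injective ?_
        refine (DFunLike.congr_fun (map_mul act a b) x.toMul).trans ?_
        rw [MulAut.mul_apply, LinearEquiv.mul_apply]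
        rfl
  refine exists_fpfRep_linear σ fun g hg x hx => ?_
  exact Additive.toMul.injective (hfree g hg x.toMul (congrArg Additive.toMul hx))

/-- A non-trivial group acting freely on a finite group has a representation without fixed vectors. -/
theorem exists_fpfRep_of_aut {G : Type u} [Group G] [Finite G] [Nontrivial G] {K : Type v} [Group K]
    [Finite K] [Nontrivial K] (σ : G →* MulAut K) (hfree : ∀ g : G, g ≠ 1 → ∀ x : K, σ g x = x → x = 1) :
    ∃ (A : Type u) (_ : Ring A) (_ : Algebra ℚ A), Nontrivial A ∧ Nonempty (FpfRep G A) := by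
  classical
  obtain ⟨r, hr, hrd⟩ := Nat.exists_prime_and_dvd (Finite.one_lt_card (α := G)).ne'
  haveI := Fact.mk hr
  obtain ⟨g, hg⟩ := exists_prime_orderOf_dvd_card' r hrd
  have hg1 : g ≠ 1 := by
    intro e
    rw [e, orderOf_one] at hg
    exact hr.ne_one hg.symm
  haveI : Group.IsNilpotent K := CfsgLib.Core.isNilpotent_of_fpf_prime hr _ K le_rfl (σ g)
    (by rw [← map_pow, ← hg, pow_orderOf_eq_one, map_one]) (hfree g hg1)
  haveI : Nontrivial (Subgroup.center K) :=
    (Subgroup.nontrivial_iff_ne_bot _).mpr (Group.IsNilpotent.center_ne_bot K)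
  obtain ⟨p, hp, hpd⟩ := Nat.exists_prime_and_dvd (Finite.one_lt_card (α := Subgroup.center K)).ne'
  haveI := Fact.mk hp
  obtain ⟨z, hz⟩ := exists_prime_orderOf_dvd_card' p hpd
  let W : Subgroup (Subgroup.center K) :=
    MonoidHom.ker (powMonoidHom p : Subgroup.center K →* Subgroup.center K)
  have hmem : ∀ (g : G) (x : K), x ∈ Subgroup.center K → σ g x ∈ Subgroup.center K := by
    intro g x hx
    rw [Subgroup.mem_center_iff] at hx ⊢
    intro y
    obtain ⟨y, rfl⟩ := (σ g).surjective y
    rw [← map_mul, ← map_mul, hx y]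
  haveI : Nontrivial W := by
    refine ⟨⟨⟨z, ?_⟩, 1, fun e => ?_⟩⟩
    · show z ^ p = 1
      rw [← hz, pow_orderOf_eq_one]
    · have h1 : z = 1 := congrArg Subtype.val e
      rw [h1, orderOf_one] at hz
      exact hp.ne_one hz.symm
  have hexp : ∀ w : W, w ^ p = 1 := fun w => Subtype.ext w.2
  have hW : ∀ (g : G) (w : W), (⟨σ g ((w : Subgroup.center K) : K), hmem g _ (w : Subgroup.center K).2⟩ :
      Subgroup.center K) ∈ W := by
    intro g w
    refine Subtype.ext ?_
    show σ g _ ^ p = 1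
    rw [← map_pow, show ((w : Subgroup.center K) : K) ^ p = 1 from congrArg
      (fun t : W => ((t : Subgroup.center K) : K)) (hexp w), map_one]
  let act : G →* MulAut W :=
    { toFun := fun g =>
        { toFun := fun w => ⟨_, hW g w⟩
          invFun := fun w => ⟨_, hW g⁻¹ w⟩
          left_inv := fun w => Subtype.ext (Subtype.ext (by
            show σ g⁻¹ (σ g _) = _
            rw [← MulAut.mul_apply, ← map_mul, inv_mul_cancel, map_one]; rfl))
          right_inv := fun w => Subtype.ext (Subtype.ext (by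
            show σ g (σ g⁻¹ _) = _
            rw [← MulAut.mul_apply, ← map_mul, mul_inv_cancel, map_one]; rfl))
          map_mul' := fun a b => Subtype.ext (Subtype.ext (map_mul (σ g) _ _)) }
      map_one' := MulEquiv.ext fun w => Subtype.ext (Subtype.ext (by
        show σ 1 _ = _
        rw [map_one]; rfl))
      map_mul' := fun a b => MulEquiv.ext fun w => Subtype.ext (Subtype.ext (by
        show σ (a * b) _ = σ a (σ b _)
        rw [map_mul]; rfl)) }
  have hp0 : ∀ x : Additive W, p • x = 0 := fun x => by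
    refine Additive.toMul.injective ?_
    rw [toMul_nsmul, toMul_zero, hexp]
  letI : Module (ZMod p) (Additive W) := AddCommGroup.zmodModule hp0
  exact exists_fpfRep_exponent (p := p) act fun g hg w hw => Subtype.ext (Subtype.ext
    (hfree g hg _ (congrArg (fun t : W => ((t : Subgroup.center K) : K)) hw)))

end CfsgLib.FpfQuat
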