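import Cfsg.Agent.Lib.PermFpfRep
import Mathlib.RingTheory.Polynomial.Dickson
import Mathlib.RingTheory.Polynomial.Cyclotomic.Roots
import Mathlib.RingTheory.AdjoinRoot
import Mathlib.RingTheory.RootsOfUnity.Complex
import Mathlib.Analysis.SpecialFunctions.Trigonometric.Basic

/-!
# Pairs of elements of order three in a fixed-point-free representation
-/

set_option autoImplicit false
set_option linter.unusedSectionVars false

namespace CfsgLib.FpfQuat

universe u v

open Polynomial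

theorem exists_coprime_middle {n : ℕ} (hn : 2 ≤ n)
    (h : n ≠ 3 ∧ n ≠ 4 ∧ n ≠ 6 ∧ n ≠ 10) : ∃ k : ℕ, k.Coprime n ∧ n < 3 * k ∧ 3 * k < 2 * n := by
  rcases Nat.even_or_odd n with ⟨m, hm⟩ | ⟨m, hm⟩
  · rcases Nat.even_or_odd m with ⟨a, ha⟩ | ⟨a, ha⟩
    · refine ⟨m - 1, ?_, by omega, by omega⟩
      rw [Nat.coprime_iff_gcd_eq_one, ← Nat.coprime_iff_gcd_eq_one]
      rw [hm]
      refine Nat.Coprime.symm ?_
      have h1 : Nat.Coprime m (m - 1) := by
        have := Nat.coprime_self_sub_right (m := 1) (n := m) (by omega)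
        exact this.mpr (Nat.coprime_one_right m)
      have h2 : Nat.Coprime 2 (m - 1) := Nat.coprime_two_left.mpr ⟨a - 1, by omega⟩
      have h3 := h2.mul_left h1
      rwa [show 2 * m = m + m by ring] at h3
    · rcases Nat.lt_or_ge m 2 with h1 | h1
      · exact ⟨1, Nat.coprime_one_left n, by omega, by omega⟩
      refine ⟨m - 2, ?_, by omega, by omega⟩
      refine Nat.Coprime.symm ?_
      have h2 : Nat.Coprime 2 (m - 2) := Nat.coprime_two_left.mpr ⟨a - 1, by omega⟩
      have h3 : Nat.Coprime m (m - 2) :=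
        (Nat.coprime_self_sub_right (m := 2) (n := m) h1).mpr
          (Nat.coprime_two_right.mpr ⟨a, ha⟩)
      have h4 := h2.mul_left h3
      rwa [show 2 * m = m + m by ring, ← hm] at h4
  · refine ⟨m, ?_, by omega, by omega⟩
    rw [hm, Nat.coprime_comm]
    exact (Nat.coprime_mul_right_add_left 1 m 2).mpr (Nat.coprime_one_left m) |>.symm |>.symm

theorem cos_middle {n k : ℕ} (h1 : n < 3 * k) (h2 : 3 * k < 2 * n) :
    2 * Real.cos (2 * Real.pi * k / n) < -1 := by
  have hn : (0 : ℝ) < n := by exact_mod_cast (by omega : 0 < n)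
  have e1 : (n : ℝ) < 3 * k := by exact_mod_cast h1
  have e2 : (3 * k : ℝ) < 2 * n := by exact_mod_cast h2
  set x := 2 * Real.pi * k / n with hx
  have hxn : x * n = 2 * Real.pi * k := by rw [hx]; field_simp
  have hpi := Real.pi_pos
  have hlo : 2 * Real.pi / 3 < x := by nlinarith
  have hhi : x < 4 * Real.pi / 3 := by nlinarith
  have hc : Real.cos (2 * Real.pi / 3) = -(1 / 2) := by
    rw [show 2 * Real.pi / 3 = Real.pi - Real.pi / 3 by ring, Real.cos_pi_sub, Real.cos_pi_div_three]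
  by_cases hle : x ≤ Real.pi
  · have := Real.cos_lt_cos_of_nonneg_of_le_pi (by positivity) hle hlo
    linarith
  · have h3 := Real.cos_lt_cos_of_nonneg_of_le_pi (x := 2 * Real.pi / 3) (y := 2 * Real.pi - x)
      (by positivity) (by linarith) (by linarith)
    rw [Real.cos_two_pi_sub] at h3
    linarith

theorem le_two_of_dickson {r : ℝ} {n : ℕ} (hn : n ≠ 0)
    (h : (dickson 1 (1 : ℝ) n).eval r = 2) : r ≤ 2 := by
  by_contra hlt
  push Not at hlt
  set s := Real.sqrt (r ^ 2 - 4) with hs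
  have hs0 : 0 < s := Real.sqrt_pos.mpr (by nlinarith)
  have hss : s ^ 2 = r ^ 2 - 4 := Real.sq_sqrt (by nlinarith)
  set a := (r + s) / 2 with ha
  set b := (r - s) / 2 with hb
  have hab : a * b = 1 := by rw [ha, hb]; linear_combination (-1 / 4 : ℝ) * hss
  have h1 := dickson_one_one_eval_add_inv a b hab n
  rw [show a + b = r by rw [ha, hb]; ring, h] at h1
  have ha1 : 1 < a := by rw [ha]; linarith
  have hbn : b ^ n * a ^ n = 1 := by rw [← mul_pow, mul_comm b, hab, one_pow]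
  have han : 1 < a ^ n := one_lt_pow₀ ha1 hn
  nlinarith

namespace FpfRep

variable {G : Type u} [Group G] [Finite G] {A : Type v} [Ring A] [Algebra ℚ A]
  (R : FpfRep G A)

theorem smul_cancel {n : ℕ} (hn : n ≠ 0) {x : A} (h : (n : A) * x = 0) : x = 0 := by
  have h1 : (n : ℚ) • x = 0 := by rw [Algebra.smul_def, map_natCast]; exact h
  exact (smul_eq_zero.mp h1).resolve_left (Nat.cast_ne_zero.mpr hn)

theorem map_inv_mul (g : G) : R.ρ g⁻¹ * R.ρ g = 1 := by rw [← map_mul, inv_mul_cancel, map_one]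

theorem map_mul_inv (g : G) : R.ρ g * R.ρ g⁻¹ = 1 := by rw [← map_mul, mul_inv_cancel, map_one]

theorem sub_one_cancel {g : G} (hg : g ≠ 1) {x : A} (h : (R.ρ g - 1) * x = 0) : x = 0 := by
  have h1 : R.ρ g * x = x := by rwa [sub_mul, one_mul, sub_eq_zero] at h
  have h2 : ∀ k : ℕ, R.ρ g ^ k * x = x := fun k => by
    induction k with
    | zero => rw [pow_zero, one_mul]
    | succ k ih => rw [pow_succ, mul_assoc, h1, ih]
  have h3 := congrArg (· * x) (R.sum_eq_zero g hg)
  simp only [zero_mul, Finset.sum_mul, h2, Finset.sum_const, Finset.card_range, nsmul_eq_mul] at h3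
  exact smul_cancel (orderOf_pos g).ne' h3

theorem inj [Nontrivial A] {g h : G} (e : R.ρ g = R.ρ h) : g = h := by
  by_contra hne
  have h1 : (R.ρ (h⁻¹ * g) - 1) * (1 : A) = 0 := by
    rw [mul_one, map_mul, e, map_inv_mul, sub_self]
  exact one_ne_zero (R.sub_one_cancel (fun h2 => hne (inv_mul_eq_one.mp h2).symm) h1)

theorem two_eq {g : G} (hg : orderOf g = 2) : R.ρ g = -1 := by
  have h := R.sum_eq_zero g (fun e => by rw [e, orderOf_one] at hg; omega)
  rw [hg, Finset.sum_range_succ, Finset.sum_range_one, pow_zero, pow_one] at h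
  exact eq_neg_of_add_eq_zero_right h

theorem cyclotomic_eq_zero [Nontrivial A] (w : G) :
    aeval (R.ρ w) (cyclotomic (orderOf w) ℚ) = 0 := by
  classical
  set n := orderOf w with hn
  by_cases hw : w = 1
  · rw [hn, hw, orderOf_one, cyclotomic_one, map_sub, aeval_X, map_one, aeval_one, sub_self]
  have hpos : 0 < n := orderOf_pos w
  have hprod := congrArg (aeval (R.ρ w)) (prod_cyclotomic_eq_X_pow_sub_one hpos ℚ)
  rw [map_sub, map_pow, aeval_X, aeval_one, ← map_pow, hn, pow_orderOf_eq_one, map_one, sub_self,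
    ← hn, ← Finset.mul_prod_erase _ _ (Nat.mem_divisors_self n hpos.ne'),
    mul_comm (cyclotomic n ℚ), map_mul] at hprod
  have hcancel : ∀ s : Finset ℕ, s ⊆ n.divisors.erase n → ∀ x : A,
      aeval (R.ρ w) (∏ d ∈ s, cyclotomic d ℚ) * x = 0 → x = 0 := by
    intro s
    induction s using Finset.induction_on with
    | empty => intro _ x hx; rwa [Finset.prod_empty, aeval_one, one_mul] at hx
    | insert d s hd ih =>
      intro hs x hx
      have hdm := Finset.mem_erase.mp (hs (Finset.mem_insert_self d s))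
      have hdd := (Nat.mem_divisors.mp hdm.2).1
      rw [Finset.prod_insert hd, map_mul, mul_assoc] at hx
      refine ih ((Finset.subset_insert d s).trans hs) x ?_
      have hd0 : 0 < d := Nat.pos_of_ne_zero fun e => hpos.ne' (Nat.eq_zero_of_zero_dvd (e ▸ hdd))
      obtain ⟨q, hq⟩ := cyclotomic.dvd_X_pow_sub_one d ℚ
      refine R.sub_one_cancel (g := w ^ d) (fun e => ?_) ?_
      · have h1 := Nat.le_of_dvd hd0 (orderOf_dvd_of_pow_eq_one e)
        have h2 := Nat.le_of_dvd hpos hdd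
        exact hdm.1 (le_antisymm h2 h1)
      · rw [show R.ρ (w ^ d) - 1 = aeval (R.ρ w) (X ^ d - 1 : ℚ[X]) by
          rw [map_sub, map_pow, map_pow, aeval_X, aeval_one], hq, mul_comm, map_mul, mul_assoc, hx,
          mul_zero]
  exact hcancel _ (Finset.Subset.refl _) _ hprod

theorem dickson_pair (a b : A) (hab : a * b = 1) (hba : b * a = 1) : ∀ n : ℕ,
    aeval (a + b) (dickson 1 (1 : ℚ) n) = a ^ n + b ^ n
  | 0 => by rw [dickson_zero]; norm_num [map_ofNat]
  | 1 => by rw [dickson_one, aeval_X, pow_one, pow_one]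
  | n + 2 => by
    rw [dickson_add_two, map_sub, map_mul, map_mul, aeval_X, dickson_pair a b hab hba n,
      dickson_pair a b hab hba (n + 1), aeval_C, map_one, one_mul, add_mul, mul_add, mul_add]
    have h1 : a * b ^ (n + 1) = b ^ n := by rw [pow_succ', ← mul_assoc, hab, one_mul]
    have h2 : b * a ^ (n + 1) = a ^ n := by rw [pow_succ', ← mul_assoc, hba, one_mul]
    rw [h1, h2, ← pow_succ', ← pow_succ']
    abel

/-- The key restriction on orders. -/
theorem order_mem [Nontrivial A] (w w' : G)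
    (h : R.ρ w + R.ρ w⁻¹ + (R.ρ w' + R.ρ w'⁻¹) = 1) :
    orderOf w = 1 ∨ orderOf w = 3 ∨ orderOf w = 4 ∨ orderOf w = 6 ∨ orderOf w = 10 := by
  by_contra hcon
  push Not at hcon
  have hn2 : 2 ≤ orderOf w := by have := orderOf_pos w; omega
  obtain ⟨k, hk, hk1, hk2⟩ := exists_coprime_middle hn2 ⟨hcon.2.1, hcon.2.2.1, hcon.2.2.2.1, hcon.2.2.2.2⟩
  set n := orderOf w with hn
  set n' := orderOf w' with hn'
  set P : ℚ[X] := (dickson 1 (1 : ℚ) n').comp (1 - (X + X ^ (n - 1))) - 2 with hP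
  have hwinv : R.ρ w ^ (n - 1) = R.ρ w⁻¹ := by
    rw [← map_pow]
    congr 1
    refine eq_inv_of_mul_eq_one_left ?_
    rw [← pow_succ, Nat.sub_add_cancel (by omega), hn, pow_orderOf_eq_one]
  have hPw : aeval (R.ρ w) P = 0 := by
    rw [hP, map_sub, aeval_comp, map_sub, map_one, map_add, map_pow, aeval_X, hwinv,
      show (1 : A) - (R.ρ w + R.ρ w⁻¹) = R.ρ w' + R.ρ w'⁻¹ from sub_eq_iff_eq_add'.mpr h.symm,
      dickson_pair _ _ (R.map_mul_inv w') (R.map_inv_mul w'), ← map_pow, ← map_pow, inv_pow, hn',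
      pow_orderOf_eq_one, inv_one, map_one, map_ofNat, one_add_one_eq_two, sub_self]
  have hP0 : cyclotomic n ℚ ∣ P := by
    by_contra hndvd
    obtain ⟨u, v, huv⟩ :=
      ((cyclotomic.irreducible_rat (by omega : 0 < n)).coprime_iff_not_dvd).mpr hndvd
    have h1 := congrArg (aeval (R.ρ w)) huv
    rw [map_add, map_mul, map_mul, R.cyclotomic_eq_zero w, hPw, mul_zero, mul_zero, add_zero,
      aeval_one] at h1
    exact zero_ne_one h1
  set ζ := Complex.exp (2 * Real.pi * Complex.I * (k / n)) with hζ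
  have hprim : IsPrimitiveRoot ζ n := Complex.isPrimitiveRoot_exp_of_coprime k n (by omega) hk
  obtain ⟨q, hq⟩ := hP0
  have h0 : aeval ζ P = 0 := by
    rw [hq, map_mul, show aeval ζ (cyclotomic n ℚ) = 0 from ?_, zero_mul]
    rw [aeval_def, eval₂_eq_eval_map, map_cyclotomic]
    exact hprim.isRoot_cyclotomic (by omega)
  set θ : ℝ := 2 * Real.pi * k / n with hθ
  have hsum : ζ + ζ ^ (n - 1) = ((2 * Real.cos θ : ℝ) : ℂ) := by
    have h1 : ζ ^ (n - 1) = ζ⁻¹ := by
      refine eq_inv_of_mul_eq_one_left ?_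
      rw [← pow_succ, Nat.sub_add_cancel (by omega), hprim.pow_eq_one]
    rw [h1, hζ, ← Complex.exp_neg, show (2 * (Real.pi : ℂ) * Complex.I * ((k : ℂ) / n)) = (θ : ℂ) * Complex.I by
      rw [hθ]; push_cast; ring]
    rw [Complex.exp_mul_I, show -((θ : ℂ) * Complex.I) = (-(θ : ℂ)) * Complex.I by ring,
      Complex.exp_mul_I, Complex.cos_neg, Complex.sin_neg]
    push_cast [Complex.ofReal_cos]
    ring
  rw [hP, map_sub, aeval_comp, map_sub, map_one, map_add, map_pow, aeval_X, hsum, map_ofNat,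
    sub_eq_zero, show (1 : ℂ) - ((2 * Real.cos θ : ℝ) : ℂ) = algebraMap ℝ ℂ (1 - 2 * Real.cos θ) by
      rw [Complex.coe_algebraMap]; push_cast; ring, aeval_algebraMap_apply] at h0
  have h1 : aeval (1 - 2 * Real.cos θ) (dickson 1 (1 : ℚ) n') = (2 : ℝ) :=
    (algebraMap ℝ ℂ).injective (h0.trans (map_ofNat _ 2).symm)
  rw [aeval_def, eval₂_eq_eval_map, map_dickson, map_one] at h1
  have := le_two_of_dickson (orderOf_pos w').ne' h1
  have := cos_middle hk1 hk2
  rw [← hθ] at this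
  linarith

/-- The axis of an element. -/
def U (g : G) : A := 2 * R.ρ g + 1

/-- The symmetrised product of two axes. -/
def S (g h : G) : A := R.U g * R.U h + R.U h * R.U g

theorem ne_one_of_three {g : G} (hg : orderOf g = 3) : g ≠ 1 := fun e => by
  rw [e, orderOf_one] at hg; omega

theorem inv_three {g : G} (hg : orderOf g = 3) : R.ρ g⁻¹ = -1 - R.ρ g := by
  have h1 : g⁻¹ = g ^ 2 := inv_eq_of_mul_eq_one_right (by
    rw [← pow_succ', show 2 + 1 = orderOf g from hg.symm, pow_orderOf_eq_one])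
  have h := R.sum_eq_zero g (ne_one_of_three hg)
  rw [hg, Finset.sum_range_succ, Finset.sum_range_succ, Finset.sum_range_one, pow_zero, pow_one,
    ← map_pow, ← h1] at h
  rw [eq_neg_of_add_eq_zero_right h]
  abel

theorem U_eq_sub {g : G} (hg : orderOf g = 3) : R.U g = R.ρ g - R.ρ g⁻¹ := by
  rw [R.inv_three hg, U, two_mul]; abel

theorem U_skew {g : G} (hg : orderOf g = 3) : R.U g ∈ R.skew := by
  rw [R.U_eq_sub hg]; exact R.skew_sub g

theorem U_inv {g : G} (hg : orderOf g = 3) : R.U g⁻¹ = -R.U g := by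
  rw [U, U, R.inv_three hg]; noncomm_ring <;> norm_num

theorem U_sq {g : G} (hg : orderOf g = 3) : R.U g * R.U g = -3 := by
  have h : R.ρ g * (-1 - R.ρ g) = 1 := by rw [← R.inv_three hg, R.map_mul_inv]
  calc R.U g * R.U g = -4 * (R.ρ g * (-1 - R.ρ g)) + 1 := by rw [U]; noncomm_ring <;> norm_num
    _ = -3 := by rw [h]; norm_num

theorem orderOf_conj' (g h : G) : orderOf (h * g * h⁻¹) = orderOf g :=
  MulEquiv.orderOf_eq (MulAut.conj h) g

theorem U_conj (g h : G) : R.ρ h * R.U g * R.ρ h⁻¹ = R.U (h * g * h⁻¹) := by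
  rw [U, U, map_mul, map_mul, mul_add, add_mul, mul_one, R.map_mul_inv]
  noncomm_ring <;> norm_num

theorem U_inj [Nontrivial A] {g h : G} (e : R.U g = R.U h) : g = h := by
  refine R.inj (sub_eq_zero.mp (smul_cancel (n := 2) two_ne_zero ?_))
  rw [Nat.cast_two, mul_sub, sub_eq_zero]
  exact add_right_cancel e

theorem S_comm (g h : G) : R.S g h = R.S h g := add_comm _ _

theorem S_inv_right {g h : G} (hh : orderOf h = 3) : R.S g h⁻¹ = -R.S g h := by
  rw [S, S, R.U_inv hh]; noncomm_ring <;> norm_num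

theorem S_inv_left {g h : G} (hg : orderOf g = 3) : R.S g⁻¹ h = -R.S g h := by
  rw [S, S, R.U_inv hg]; noncomm_ring <;> norm_num

theorem S_conj (g h k : G) : R.S (k * g * k⁻¹) (k * h * k⁻¹) = R.ρ k * R.S g h * R.ρ k⁻¹ := by
  have e : ∀ X Y : A, R.ρ k * X * R.ρ k⁻¹ * (R.ρ k * Y * R.ρ k⁻¹) = R.ρ k * (X * Y) * R.ρ k⁻¹ :=
    fun X Y => by
      calc _ = R.ρ k * X * (R.ρ k⁻¹ * R.ρ k) * Y * R.ρ k⁻¹ := by noncomm_ring <;> norm_num
        _ = _ := by rw [R.map_inv_mul, mul_one, mul_assoc (R.ρ k) X Y]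
  rw [S, S, ← R.U_conj, ← R.U_conj, e, e]
  noncomm_ring <;> norm_num

theorem scalar_inj [Nontrivial A] {a b : ℤ} (h : (a : A) = b) : a = b := by
  have h1 : algebraMap ℚ A a = algebraMap ℚ A b := by rwa [map_intCast, map_intCast]
  exact_mod_cast (algebraMap ℚ A).injective h1

theorem S_self {g : G} (hg : orderOf g = 3) : R.S g g = -6 := by
  rw [S, R.U_sq hg]; norm_num

theorem S_eq_four_t {g h : G} (hg : orderOf g = 3) (hh : orderOf h = 3) :
    R.S g h = 4 * (R.ρ (g * h) + R.ρ (g * h)⁻¹) - 2 := by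
  rw [S, U, U, mul_inv_rev, map_mul, map_mul, R.inv_three hg, R.inv_three hh]
  noncomm_ring <;> norm_num
  rw [show (4 : A) + (4 * (R.ρ h * R.ρ g) + -2) = (4 + -2) + 4 * (R.ρ h * R.ρ g) by abel,
    show (4 : A) + -2 = 2 by norm_num]

theorem t_pow_four [Nontrivial A] {w : G} (hw : orderOf w = 4) : R.ρ w + R.ρ w⁻¹ = 0 := by
  have h2 : orderOf (w ^ 2) = 2 := by
    rw [orderOf_pow' w two_ne_zero, hw]; rfl
  have h3 : w⁻¹ = w ^ 2 * w := inv_eq_of_mul_eq_one_right (by
    rw [← pow_succ, ← pow_succ', show 2 + 1 + 1 = orderOf w from hw.symm, pow_orderOf_eq_one])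
  rw [h3, map_mul, R.two_eq h2, neg_one_mul, add_neg_cancel]

theorem t_pow_three {w : G} (hw : orderOf w = 3) : R.ρ w + R.ρ w⁻¹ = -1 := by
  rw [R.inv_three hw]; abel

theorem t_pow_six [Nontrivial A] {w : G} (hw : orderOf w = 6) : R.ρ w + R.ρ w⁻¹ = 1 := by
  have h2 : orderOf (w ^ 3) = 2 := by
    rw [orderOf_pow' w (by norm_num), hw]; rfl
  have h3 : orderOf (w ^ 4) = 3 := by
    rw [orderOf_pow' w (by norm_num), hw]; rfl
  have e1 : w = w ^ 3 * (w ^ 4) := by
    rw [← pow_add]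
    calc w = w ^ 1 := (pow_one w).symm
      _ = w ^ (1 + orderOf w) := by rw [pow_add, pow_orderOf_eq_one, mul_one]
      _ = w ^ (3 + 4) := by rw [hw]
  have e2 : w⁻¹ = w ^ 3 * (w ^ 4)⁻¹ := by group
  calc R.ρ w + R.ρ w⁻¹ = R.ρ (w ^ 3 * w ^ 4) + R.ρ (w ^ 3 * (w ^ 4)⁻¹) := by rw [← e1, ← e2]
    _ = 1 := by rw [map_mul, map_mul, R.two_eq h2, R.inv_three h3]; noncomm_ring <;> norm_num

theorem t_pow_ten [Nontrivial A] {w : G} (hw : orderOf w = 10) :
    (R.ρ w + R.ρ w⁻¹) * (R.ρ w + R.ρ w⁻¹) = R.ρ w + R.ρ w⁻¹ + 1 := by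
  have h2 : orderOf (w ^ 5) = 2 := by rw [orderOf_pow' w (by norm_num), hw]; rfl
  have h5 : orderOf (w ^ 2) = 5 := by rw [orderOf_pow' w (by norm_num), hw]; rfl
  have hsum := R.sum_eq_zero (w ^ 2) (fun e => by rw [e, orderOf_one] at h5; omega)
  rw [h5, Finset.sum_range_succ, Finset.sum_range_succ, Finset.sum_range_succ, Finset.sum_range_succ,
    Finset.sum_range_one, pow_zero, pow_one, ← map_pow, ← map_pow, ← map_pow, ← pow_mul, ← pow_mul,
    ← pow_mul] at hsum
  have hm : ∀ k, k ≤ 10 → w ^ (10 - k) = w⁻¹ ^ k := fun k hk => by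
    rw [inv_pow, ← hw]
    exact eq_inv_of_mul_eq_one_left (by rw [← pow_add, Nat.sub_add_cancel (hw ▸ hk), pow_orderOf_eq_one])
  have e6 : R.ρ (w ^ (2 * 3)) = -R.ρ w := by
    rw [show 2 * 3 = 5 + 1 from rfl, pow_succ, map_mul, R.two_eq h2, neg_one_mul]
  have e4 : R.ρ (w ^ (2 * 2)) = -R.ρ w⁻¹ := by
    have h9 : R.ρ (w ^ 9) = -R.ρ (w ^ 4) := by
      rw [show 9 = 5 + 4 from rfl, pow_add, map_mul, R.two_eq h2, neg_one_mul]
    have h91 := hm 1 (by norm_num)
    rw [pow_one] at h91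
    rw [← h91, show 10 - 1 = 9 from rfl, h9, neg_neg]
  have e8 : R.ρ (w ^ (2 * 4)) = R.ρ w⁻¹ * R.ρ w⁻¹ := by
    rw [show 2 * 4 = 10 - 2 from rfl, hm 2 (by norm_num), map_pow, sq]
  have e2 : R.ρ (w ^ 2) = R.ρ w * R.ρ w := by rw [map_pow, sq]
  rw [e2, e4, e6, e8] at hsum
  calc (R.ρ w + R.ρ w⁻¹) * (R.ρ w + R.ρ w⁻¹) =
      (1 + R.ρ w * R.ρ w + -R.ρ w⁻¹ + -R.ρ w + R.ρ w⁻¹ * R.ρ w⁻¹)
        + (R.ρ w + R.ρ w⁻¹) + (R.ρ w * R.ρ w⁻¹ + R.ρ w⁻¹ * R.ρ w - 1) := by noncomm_ring <;> norm_num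
    _ = R.ρ w + R.ρ w⁻¹ + 1 := by rw [hsum, R.map_mul_inv, R.map_inv_mul]; noncomm_ring <;> norm_num

/-- Two elements of order three span one axis, a tetrahedral pair or an icosahedral pair. -/
theorem pair_cases [Nontrivial A] {g h : G} (hg : orderOf g = 3) (hh : orderOf h = 3) :
    (h = g⁻¹ ∧ R.S g h = 6) ∨ (h = g ∧ R.S g h = -6) ∨ R.S g h = 2 ∨ R.S g h = -2 ∨
      R.S g h * R.S g h = 20 := by
  have hS := R.S_eq_four_t hg hh
  have hS' := R.S_eq_four_t hg (orderOf_inv h ▸ hh : orderOf h⁻¹ = 3)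
  rw [R.S_inv_right hh] at hS'
  have hsum : R.ρ (g * h) + R.ρ (g * h)⁻¹ + (R.ρ (g * h⁻¹) + R.ρ (g * h⁻¹)⁻¹) = 1 := by
    rw [mul_inv_rev, mul_inv_rev, inv_inv, map_mul, map_mul, map_mul, map_mul, R.inv_three hg,
      R.inv_three hh]
    noncomm_ring <;> norm_num
  have hcases := R.order_mem (g * h) (g * h⁻¹) hsum
  have hcases' := R.order_mem (g * h⁻¹) (g * h) (by rw [add_comm]; exact hsum)
  rcases hcases with h1 | h3 | h4 | h6 | h10
  · left
    rw [orderOf_eq_one_iff] at h1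
    refine ⟨eq_inv_of_mul_eq_one_right h1, ?_⟩
    rw [hS, h1, inv_one, map_one]; norm_num
  · right; left
    refine ⟨?_, by rw [hS, R.t_pow_three h3]; norm_num⟩
    have ht : R.ρ (g * h⁻¹) + R.ρ (g * h⁻¹)⁻¹ = 2 := by
      rw [R.t_pow_three h3, neg_add_eq_sub, sub_eq_iff_eq_add] at hsum
      rw [hsum]; norm_num
    rcases hcases' with h1' | h3' | h4' | h6' | h10'
    · rw [orderOf_eq_one_iff, mul_inv_eq_one] at h1'
      exact h1'.symm
    · rw [R.t_pow_three h3'] at ht
      exact absurd (scalar_inj (A := A) (a := -1) (b := 2) (by push_cast; exact ht)) (by norm_num)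
    · rw [R.t_pow_four h4'] at ht
      exact absurd (scalar_inj (A := A) (a := 0) (b := 2) (by push_cast; exact ht)) (by norm_num)
    · rw [R.t_pow_six h6'] at ht
      exact absurd (scalar_inj (A := A) (a := 1) (b := 2) (by push_cast; exact ht)) (by norm_num)
    · have hq := R.t_pow_ten h10'
      rw [ht] at hq
      exact absurd (scalar_inj (A := A) (a := 4) (b := 3) (by push_cast; norm_num at hq ⊢; exact hq))
        (by norm_num)
  · right; right; right; left
    rw [hS, R.t_pow_four h4]; norm_num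
  · right; right; left
    rw [hS, R.t_pow_six h6]; norm_num
  · right; right; right; right
    have hq := R.t_pow_ten h10
    rw [hS]
    calc (4 * (R.ρ (g * h) + R.ρ (g * h)⁻¹) - 2) * (4 * (R.ρ (g * h) + R.ρ (g * h)⁻¹) - 2)
        = 16 * ((R.ρ (g * h) + R.ρ (g * h)⁻¹) * (R.ρ (g * h) + R.ρ (g * h)⁻¹))
            - 16 * (R.ρ (g * h) + R.ρ (g * h)⁻¹) + 4 := by noncomm_ring <;> norm_num
      _ = 20 := by rw [hq]; noncomm_ring <;> norm_num

theorem S_commute {g : G} (hg : orderOf g = 3) (h : G) : R.U g * R.S g h = R.S g h * R.U g := by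
  calc R.U g * R.S g h = (R.U g * R.U g) * R.U h + R.U g * R.U h * R.U g := by rw [S]; noncomm_ring <;> norm_num
    _ = R.U h * (R.U g * R.U g) + R.U g * R.U h * R.U g := by rw [R.U_sq hg]; noncomm_ring <;> norm_num
    _ = R.S g h * R.U g := by rw [S]; noncomm_ring <;> norm_num

/-- An icosahedral pair produces a tetrahedral one. -/
theorem S_step {g h : G} (hg : orderOf g = 3) (hh : orderOf h = 3) (hS : R.S g h * R.S g h = 20) :
    R.S h (g * h * g⁻¹) = -2 := by
  set u := R.U g with hu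
  set v := R.U h with hv
  set s := R.S g h with hs
  set w := R.U (g * h * g⁻¹) with hw
  have hsu : u * s = s * u := R.S_commute hg h
  have hsv : v * s = s * v := by rw [hs, R.S_comm, hv]; exact R.S_commute hh g
  have e1 : u * v * u = s * u + 3 * v := by
    calc u * v * u = (u * v + v * u) * u - v * (u * u) := by noncomm_ring <;> norm_num
      _ = s * u + 3 * v := by rw [hu, R.U_sq hg, hs, S]; noncomm_ring <;> norm_num
  have e2 : 4 * w = -(s * u) - 2 * v - u * v + v * u := by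
    rw [hw, ← R.U_conj]
    calc 4 * (R.ρ g * R.U h * R.ρ g⁻¹) = (2 * R.ρ g) * v * (2 * R.ρ g⁻¹) := by rw [hv]; noncomm_ring <;> norm_num
      _ = (u - 1) * v * (-u - 1) := by
        rw [hu, U, R.inv_three hg]; noncomm_ring <;> norm_num
      _ = -(u * v * u) - u * v + v * u + v := by noncomm_ring <;> norm_num
      _ = _ := by rw [e1]; noncomm_ring <;> norm_num
  have hvv : v * v = -3 := R.U_sq hh
  have e3 : 4 * (R.S h (g * h * g⁻¹) + 2) = 0 := by
    calc 4 * (R.S h (g * h * g⁻¹) + 2) = v * (4 * w) + (4 * w) * v + 8 := by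
          rw [S, ← hv, ← hw]; noncomm_ring <;> norm_num
      _ = -(v * s) * u - s * (u * v) - 4 * (v * v) + (v * v) * u - u * (v * v) + 8 := by
          rw [e2]; noncomm_ring <;> norm_num
      _ = -(s * (v * u + u * v)) - 4 * (v * v) + (v * v) * u - u * (v * v) + 8 := by
          rw [hsv]; noncomm_ring <;> norm_num
      _ = -(s * s) - 4 * (v * v) + (v * v) * u - u * (v * v) + 8 := by
          rw [hs, S, ← hu, ← hv]; noncomm_ring <;> norm_num
      _ = 0 := by rw [hS, hvv]; noncomm_ring <;> norm_num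
  exact eq_neg_of_add_eq_zero_left (smul_cancel (n := 4) four_ne_zero (by exact_mod_cast e3))

end FpfRep

end CfsgLib.FpfQuat
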