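import Cfsg.Agent.Lib.PermFpfPair

/-!
# Quaternion frames: coordinates in the centraliser
-/

set_option autoImplicit false
set_option linter.unusedSectionVars false

namespace CfsgLib.FpfQuat

universe u v

variable {G : Type u} [Group G] {A : Type v} [Ring A] [Algebra ℚ A]

/-- A skew quaternion frame. -/
structure Frame (R : FpfRep G A) where
  i : A
  j : A
  hi : i * i = -1
  hj : j * j = -1
  hji : j * i = -(i * j)
  ski : i ∈ R.skew
  skj : j ∈ R.skew
  skk : i * j ∈ R.skew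

namespace Frame

variable {R : FpfRep G A} (F : Frame R)

/-- The third unit. -/
def k : A := F.i * F.j

theorem ij : F.i * F.j = F.k := rfl

theorem ji : F.j * F.i = -F.k := F.hji

theorem ik : F.i * F.k = -F.j := by rw [k, ← mul_assoc, F.hi, neg_one_mul]

theorem kj : F.k * F.j = -F.i := by rw [k, mul_assoc, F.hj, mul_neg_one]

theorem jk : F.j * F.k = F.i := by rw [k, ← mul_assoc, F.hji, neg_mul, mul_assoc, F.hj, mul_neg_one, neg_neg]

theorem ki : F.k * F.i = F.j := by rw [k, mul_assoc, F.hji, mul_neg, ← mul_assoc, F.hi, neg_one_mul, neg_neg]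

theorem kk : F.k * F.k = -1 := by
  calc F.k * F.k = F.i * (F.j * F.k) := by rw [k, mul_assoc]
    _ = -1 := by rw [F.jk, F.hi]

/-- The centraliser of the frame. -/
abbrev D : Subalgebra ℚ A := Subalgebra.centralizer ℚ {F.i, F.j}

theorem mem_D {x : A} (h1 : F.i * x = x * F.i) (h2 : F.j * x = x * F.j) : x ∈ F.D := by
  rw [Subalgebra.mem_centralizer_iff]
  intro g hg
  rcases hg with rfl | hg
  · exact h1
  · rw [Set.mem_singleton_iff.mp hg]; exact h2

theorem ci (x : F.D) : F.i * (x : A) = x * F.i :=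
  (Subalgebra.mem_centralizer_iff ℚ).mp x.2 _ (Set.mem_insert _ _)

theorem cj (x : F.D) : F.j * (x : A) = x * F.j :=
  (Subalgebra.mem_centralizer_iff ℚ).mp x.2 _ (Set.mem_insert_of_mem _ rfl)

theorem ck (x : F.D) : F.k * (x : A) = x * F.k := by
  rw [k, mul_assoc, F.cj, ← mul_assoc, F.ci, mul_assoc]

/-- The element with the given coordinates. -/
def Q (e a b c : F.D) : A := (e : A) + a * F.i + b * F.j + c * F.k

theorem Q_add (e a b c e' a' b' c' : F.D) :
    F.Q e a b c + F.Q e' a' b' c' = F.Q (e + e') (a + a') (b + b') (c + c') := by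
  simp only [Q, Subalgebra.coe_add, add_mul]; abel

theorem Q_neg (e a b c : F.D) : -F.Q e a b c = F.Q (-e) (-a) (-b) (-c) := by
  simp only [Q, Subalgebra.coe_neg, neg_mul]; abel

theorem Q_sub (e a b c e' a' b' c' : F.D) :
    F.Q e a b c - F.Q e' a' b' c' = F.Q (e - e') (a - a') (b - b') (c - c') := by
  rw [sub_eq_add_neg, Q_neg, Q_add]; simp only [← sub_eq_add_neg]

theorem Q_scalar (x : F.D) : F.Q x 0 0 0 = x := by simp [Q]

theorem Q_i : F.i = F.Q 0 1 0 0 := by simp [Q]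

theorem Q_j : F.j = F.Q 0 0 1 0 := by simp [Q]

theorem Q_k : F.k = F.Q 0 0 0 1 := by simp [Q]

theorem Q_one : (1 : A) = F.Q 1 0 0 0 := by simp [Q]

theorem Q_mul (e a b c e' a' b' c' : F.D) :
    F.Q e a b c * F.Q e' a' b' c' =
      F.Q (e * e' - a * a' - b * b' - c * c') (e * a' + a * e' + b * c' - c * b')
        (e * b' + b * e' + c * a' - a * c') (e * c' + c * e' + a * b' - b * a') := by
  have h : ∀ (w : A) (hw : ∀ x : F.D, w * (x : A) = x * w) (x : F.D) (y : A),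
      w * ((x : A) * y) = x * (w * y) := fun w hw x y => by
    rw [← mul_assoc, hw, mul_assoc]
  simp only [Q, Subalgebra.coe_add, Subalgebra.coe_sub, Subalgebra.coe_mul, add_mul, mul_add,
    sub_mul, mul_assoc, h F.i F.ci, h F.j F.cj, h F.k F.ck, F.ci, F.cj, F.ck, F.hi, F.hj, F.kk,
    F.ij, F.ji, F.ik, F.ki, F.jk, F.kj, mul_neg, mul_one]
  abel

/-- Projection to the centraliser. -/
noncomputable def E (x : A) : A :=
  (1 / 4 : ℚ) • (x - F.i * x * F.i - F.j * x * F.j - F.k * x * F.k)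

theorem E_mem (x : A) : F.E x ∈ F.D := by
  refine F.mem_D ?_ ?_ <;>
  · simp only [E, mul_smul_comm, smul_mul_assoc]
    congr 1
    simp only [mul_sub, sub_mul, mul_assoc, F.hi, F.hj, F.kk, F.ij, F.ji, F.ik, F.ki, F.jk, F.kj,
      mul_neg, mul_one]
    simp only [← mul_assoc, F.hi, F.hj, F.kk, F.ij, F.ji, F.ik, F.ki, F.jk, F.kj, neg_mul,
      mul_neg, one_mul, neg_neg]
    abel

theorem E_skew {x : A} (hx : x ∈ R.skew) : F.E x ∈ R.skew :=
  R.skew.smul_mem _ (R.skew.sub_mem (R.skew.sub_mem (R.skew.sub_mem hx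
    (R.skew_sandwich _ F.ski _ hx)) (R.skew_sandwich _ F.skj _ hx))
    (R.skew_sandwich _ F.skk _ hx))

theorem E_Q (e a b c : F.D) : F.E (F.Q e a b c) = e := by
  have h : F.Q e a b c - F.i * F.Q e a b c * F.i - F.j * F.Q e a b c * F.j
      - F.k * F.Q e a b c * F.k = F.Q (4 * e) 0 0 0 := by
    rw [F.Q_i, F.Q_j, F.Q_k]
    simp only [F.Q_mul, F.Q_sub]
    congr 1 <;> noncomm_ring
  rw [E, h, F.Q_scalar, Subalgebra.coe_mul]
  rw [show ((4 : F.D) : A) * (e : A) = (4 : ℚ) • (e : A) by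
    rw [Algebra.smul_def, map_ofNat]; rfl, smul_smul]
  norm_num

theorem Q_inj {e a b c e' a' b' c' : F.D} (h : F.Q e a b c = F.Q e' a' b' c') :
    e = e' ∧ a = a' ∧ b = b' ∧ c = c' := by
  have key : ∀ (p q r s : F.D), F.E (F.Q e a b c * F.Q p q r s) = F.E (F.Q e' a' b' c' * F.Q p q r s) :=
    fun p q r s => by rw [h]
  refine ⟨?_, ?_, ?_, ?_⟩
  · have := key 1 0 0 0
    rw [F.Q_mul, F.Q_mul, F.E_Q, F.E_Q] at this
    simpa using Subtype.ext this
  · have := key 0 1 0 0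
    rw [F.Q_mul, F.Q_mul, F.E_Q, F.E_Q] at this
    simpa using Subtype.ext this
  · have := key 0 0 1 0
    rw [F.Q_mul, F.Q_mul, F.E_Q, F.E_Q] at this
    simpa using Subtype.ext this
  · have := key 0 0 0 1
    rw [F.Q_mul, F.Q_mul, F.E_Q, F.E_Q] at this
    simpa using Subtype.ext this

theorem exists_coords (x : A) : ∃ e a b c : F.D, x = F.Q e a b c := by
  refine ⟨⟨_, F.E_mem x⟩, ⟨_, F.E_mem (-(x * F.i))⟩, ⟨_, F.E_mem (-(x * F.j))⟩,
    ⟨_, F.E_mem (-(x * F.k))⟩, ?_⟩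
  simp only [Q, E, smul_mul_assoc, ← smul_add]
  rw [eq_comm, ← eq_inv_smul_iff₀ (by norm_num : (1 / 4 : ℚ) ≠ 0)]
  simp only [sub_mul, mul_neg, neg_mul, mul_assoc, F.hi, F.hj, F.kk, F.ij, F.ji, F.ik, F.ki, F.jk,
    F.kj, mul_one, neg_neg]
  rw [show ((1 / 4 : ℚ))⁻¹ • x = x + x + x + x by
    rw [show ((1 / 4 : ℚ))⁻¹ = 1 + 1 + 1 + 1 by norm_num, add_smul, add_smul, add_smul, one_smul]]
  abel

end Frame

end CfsgLib.FpfQuat
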