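import Mathlib.Algebra.Algebra.Basic
import Mathlib.Algebra.Module.Submodule.Basic
import Mathlib.GroupTheory.OrderOfElement
import Mathlib.Data.Rat.Cast.CharZero
import Mathlib.LinearAlgebra.Finsupp.Pi
import Mathlib.Algebra.Order.Ring.Rat
import Mathlib.Tactic

/-!
# Fixed-point-free representations over the rationals

A finite group with a non-zero rational function on it all of whose sums over translated cyclic
subgroups vanish has a representation in which `1 + g + g² + …` vanishes for every `g ≠ 1`.
-/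

set_option autoImplicit false
set_option linter.unusedSectionVars false

namespace CfsgLib.FpfQuat

universe u v

/-- A rational representation without fixed vectors, with a notion of skew element. -/
structure FpfRep (G : Type u) [Group G] (A : Type v) [Ring A] [Algebra ℚ A] where
  ρ : G →* A
  sum_eq_zero : ∀ g : G, g ≠ 1 → ∑ k ∈ Finset.range (orderOf g), ρ g ^ k = 0
  skew : Submodule ℚ A
  skew_sub : ∀ g : G, ρ g - ρ g⁻¹ ∈ skew
  skew_sandwich : ∀ x ∈ skew, ∀ y ∈ skew, x * y * x ∈ skew
  sq_nonpos : ∀ x ∈ skew, ∀ c : ℚ, x * x = algebraMap ℚ A c → c ≤ 0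
  skew_idem : ∀ x ∈ skew, x * x = x → x = 0

section Construction

variable (G : Type u) [Group G] [Fintype G]

/-- The free functions. -/
def freeSub : Submodule ℚ (G → ℚ) where
  carrier := {w | ∀ g : G, g ≠ 1 → ∀ x : G, ∑ k ∈ Finset.range (orderOf g), w (g ^ k * x) = 0}
  add_mem' := by
    intro v w hv hw g hg x
    simp only [Pi.add_apply, Finset.sum_add_distrib, hv g hg x, hw g hg x, add_zero]
  zero_mem' := by
    intro g hg x
    simp
  smul_mem' := by
    intro c w hw g hg x
    simp only [Pi.smul_apply, smul_eq_mul, ← Finset.mul_sum, hw g hg x, mul_zero]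

variable {G}

theorem free_translate (h : G) {w : G → ℚ} (hw : w ∈ freeSub G) :
    (fun x => w (h * x)) ∈ freeSub G := by
  intro g hg x
  have h1 := hw (h * g * h⁻¹) (fun e => hg (conj_eq_one_iff.mp e)) (h * x)
  rw [show orderOf (h * g * h⁻¹) = orderOf g from MulEquiv.orderOf_eq (MulAut.conj h) g] at h1
  refine Eq.trans (Finset.sum_congr rfl fun k _ => ?_) h1
  rw [conj_pow]
  show w (h * (g ^ k * x)) = w (h * g ^ k * h⁻¹ * (h * x))
  congr 1
  group

/-- The action on free functions. -/
def freeHom : G →* Module.End ℚ (freeSub G) where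
  toFun g :=
    { toFun := fun w => ⟨fun x => (w : G → ℚ) (g⁻¹ * x), free_translate _ w.2⟩
      map_add' := fun _ _ => rfl
      map_smul' := fun _ _ => rfl }
  map_one' := by
    refine LinearMap.ext fun w => Subtype.ext (funext fun x => ?_)
    show (w : G → ℚ) (1⁻¹ * x) = (w : G → ℚ) x
    simp
  map_mul' g h := by
    refine LinearMap.ext fun w => Subtype.ext (funext fun x => ?_)
    show (w : G → ℚ) ((g * h)⁻¹ * x) = (w : G → ℚ) (h⁻¹ * (g⁻¹ * x))
    rw [mul_inv_rev, mul_assoc]

/-- The pairing. -/
def pair (v w : freeSub G) : ℚ := ∑ x : G, (v : G → ℚ) x * (w : G → ℚ) x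

theorem pair_hom (g : G) (v w : freeSub G) :
    pair (freeHom g v) w = pair v (freeHom g⁻¹ w) := by
  refine Fintype.sum_equiv (Equiv.mulLeft g⁻¹) _ _ fun x => ?_
  show (v : G → ℚ) (g⁻¹ * x) * (w : G → ℚ) x =
    (v : G → ℚ) (g⁻¹ * x) * (w : G → ℚ) (g⁻¹⁻¹ * (g⁻¹ * x))
  rw [inv_inv, mul_inv_cancel_left]

theorem pair_self_nonneg (v : freeSub G) : 0 ≤ pair v v :=
  Finset.sum_nonneg fun x _ => mul_self_nonneg _

theorem eq_zero_of_pair_self (v : freeSub G) (h : pair v v = 0) : v = 0 :=
  Subtype.ext (funext fun x => mul_self_eq_zero.mp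
    ((Finset.sum_eq_zero_iff_of_nonneg fun x _ => mul_self_nonneg _).mp h x (Finset.mem_univ x)))

theorem pair_add_left (a b w : freeSub G) : pair (a + b) w = pair a w + pair b w := by
  simp [pair, add_mul, Finset.sum_add_distrib]

theorem pair_add_right (a b w : freeSub G) : pair w (a + b) = pair w a + pair w b := by
  simp [pair, mul_add, Finset.sum_add_distrib]

theorem pair_smul_left (c : ℚ) (a w : freeSub G) : pair (c • a) w = c * pair a w := by
  simp [pair, Finset.mul_sum, mul_assoc]

theorem pair_smul_right (c : ℚ) (a w : freeSub G) : pair w (c • a) = c * pair w a := by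
  simp [pair, Finset.mul_sum, mul_left_comm]

theorem pair_neg_left (a w : freeSub G) : pair (-a) w = -pair a w := by
  simp [pair, Finset.sum_neg_distrib]

theorem pair_neg_right (a w : freeSub G) : pair w (-a) = -pair w a := by
  simp [pair, Finset.sum_neg_distrib]

/-- Skew maps. -/
def skewMaps : Submodule ℚ (Module.End ℚ (freeSub G)) where
  carrier := {E | ∀ v w, pair (E v) w = -pair v (E w)}
  add_mem' := by
    intro E F hE hF v w
    simp only [LinearMap.add_apply, pair_add_left, pair_add_right, hE v w, hF v w]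
    ring
  zero_mem' := by
    intro v w
    simp [pair]
  smul_mem' := by
    intro c E hE v w
    simp only [LinearMap.smul_apply, pair_smul_left, pair_smul_right, hE v w, mul_neg]

theorem exists_fpfRep [DecidableEq G] {w₀ : G → ℚ} (hw₀ : w₀ ≠ 0)
    (hfree : ∀ g : G, g ≠ 1 → ∀ x : G, ∑ k ∈ Finset.range (orderOf g), w₀ (g ^ k * x) = 0) :
    ∃ _ : FpfRep G (Module.End ℚ (freeSub G)), Nontrivial (Module.End ℚ (freeSub G)) := by
  have hne : ∃ v : freeSub G, v ≠ 0 := ⟨⟨w₀, hfree⟩, fun e => hw₀ (congrArg Subtype.val e)⟩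
  obtain ⟨v₀, hv₀⟩ := hne
  have hnt : Nontrivial (freeSub G) := ⟨⟨v₀, 0, hv₀⟩⟩
  refine ⟨{
    ρ := freeHom
    sum_eq_zero := fun g hg => ?_
    skew := skewMaps
    skew_sub := fun g v w => ?_
    skew_sandwich := fun E hE F hF v w => ?_
    sq_nonpos := fun E hE c hc => ?_
    skew_idem := fun E hE hidem => ?_ }, inferInstance⟩
  · refine LinearMap.ext fun w => Subtype.ext (funext fun x => ?_)
    simp only [LinearMap.coe_sum, Finset.sum_apply, LinearMap.zero_apply, ZeroMemClass.coe_zero,
      Pi.zero_apply]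
    rw [AddSubmonoidClass.coe_finset_sum, Finset.sum_apply]
    have h1 := w.2 g⁻¹ (inv_ne_one.mpr hg) x
    rw [orderOf_inv] at h1
    refine Eq.trans (Finset.sum_congr rfl fun k _ => ?_) h1
    rw [← map_pow]
    show (w : G → ℚ) ((g ^ k)⁻¹ * x) = (w : G → ℚ) (g⁻¹ ^ k * x)
    rw [inv_pow]
  · simp only [LinearMap.sub_apply, LinearMap.add_apply, LinearMap.neg_apply, sub_eq_add_neg, pair_add_left,
      pair_add_right, pair_neg_left, pair_neg_right, pair_hom, inv_inv]
    ring
  · show pair (E (F (E v))) w = -pair v (E (F (E w)))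
    rw [hE, hF, hE, neg_neg]
  · have h1 := hE v₀ (E v₀)
    have h2 : E (E v₀) = c • v₀ := by
      rw [← Module.End.mul_apply, hc, Module.algebraMap_end_apply]
    rw [h2, pair_smul_right] at h1
    have h3 := pair_self_nonneg (E v₀)
    have h4 : 0 < pair v₀ v₀ := lt_of_le_of_ne (pair_self_nonneg v₀)
      fun e => hv₀ (eq_zero_of_pair_self v₀ e.symm)
    nlinarith
  · refine LinearMap.ext fun v => eq_zero_of_pair_self _ ?_
    have h1 := hE (E v) (E v)
    rw [← Module.End.mul_apply, hidem] at h1
    have h2 := hE v (E (E v))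
    rw [← Module.End.mul_apply, hidem, ← Module.End.mul_apply, hidem] at h2
    have h3 := hE v (E v)
    rw [← Module.End.mul_apply, hidem] at h3
    linarith

end Construction

end CfsgLib.FpfQuat
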