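import Cfsg.Agent.Lib.PermFpfZassenhaus
import Cfsg.Agent.Lib.PermFpfLift

/-!
# The structure of non-solvable groups with a fixed-point-free representation
-/

set_option autoImplicit false
set_option linter.unusedSectionVars false
set_option linter.style.haveILetI false

namespace CfsgLib.FpfQuat

universe u v

open Icosa

variable {G : Type u} [Group G] [Finite G] {A : Type v} [Ring A] [Algebra ℚ A]

theorem exists_odd_part {C : Type u} [Group C] [Finite C] [IsZGroup C] :
    ∃ (M : Subgroup C) (P : Sylow 2 C), ¬ 2 ∣ Nat.card M ∧ M ⊔ (P : Subgroup C) = ⊤ := by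
  haveI : Fact (Nat.Prime 2) := ⟨Nat.prime_two⟩
  let P : Sylow 2 C := default
  by_cases h2 : 2 ∣ Nat.card C
  · have hmin : (Nat.card C).minFac = 2 :=
      le_antisymm (Nat.minFac_le_of_dvd le_rfl h2)
        (Nat.minFac_prime (fun e => by rw [e] at h2; omega)).two_le
    have hP := IsCyclic.normalizer_le_centralizer (P := P) hmin (IsZGroup.isZGroup 2 Nat.prime_two P)
    exact ⟨(MonoidHom.transferSylow P hP).ker, P, MonoidHom.not_dvd_card_ker_transferSylow P hP,
      (MonoidHom.ker_transferSylow_isComplement' P hP).sup_eq_top⟩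
  · exact ⟨⊤, P, by rwa [Subgroup.card_top], top_sup_eq _⟩

theorem card_S5 : Nat.card S5 = 120 := by
  rw [Nat.card_eq_fintype_card, card_all]

/-- A non-solvable group with a representation without fixed vectors. -/
theorem nonsolvable_structure [Nontrivial A] (R : FpfRep G A) (hns : ¬ Group.IsSolvable G) :
    ∃ S M : Subgroup G, (S ⊔ M).Normal ∧ ((S ⊔ M).index = 1 ∨ (S ⊔ M).index = 2) ∧ S ⊓ M = ⊥ ∧
      (∀ s ∈ S, ∀ x ∈ M, s * x = x * s) ∧ Nonempty (S ≃* S5) ∧ IsZGroup M ∧
      (Nat.card M).Coprime 30 := by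
  classical
  obtain ⟨g, y, hg, hy, h20⟩ := R.exists_pair_of_not_solvable hns
  obtain ⟨H, hHn, ⟨e⟩, hidx, hZ, hsq, hD, hno4⟩ := icosa_structure R hg hy h20
  haveI := hHn
  set C := Subgroup.centralizer (H : Set G) with hC
  haveI : C.Normal := Subgroup.normal_centralizer
  haveI := hZ
  haveI : Fact (Nat.Prime 2) := ⟨Nat.prime_two⟩
  obtain ⟨M₀, P, hM2, hMP⟩ := exists_odd_part (C := C)
  set M := M₀.map C.subtype with hM
  have hMC : M ≤ C := Subgroup.map_subtype_le M₀
  have hcardM : Nat.card M = Nat.card M₀ := Subgroup.card_map_of_injective C.subtype_injective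
  -- the two-part of the centraliser lies in H
  let q0 : S5 := ⟨!![0, -1; 1, 0], by decide +kernel⟩
  have hq0 : orderOf q0 = 2 ^ (1 + 1) := orderOf_eq_prime_pow (by decide +kernel) (by decide +kernel)
  have hq : orderOf ((e.symm q0 : G) ^ 2) = 2 := by
    rw [orderOf_pow' _ two_ne_zero, Subgroup.orderOf_coe, MulEquiv.orderOf_eq, hq0]
    norm_num
  have hPH : (P : Subgroup C).map C.subtype ≤ H := by
    rintro _ ⟨x, hx, rfl⟩
    haveI := IsZGroup.isZGroup 2 Nat.prime_two P
    have h4 : orderOf (x : G) ≠ 4 := hno4 _ x.2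
    obtain ⟨k, hk⟩ := IsPGroup.iff_orderOf.mp P.2 ⟨x, hx⟩
    rw [← Subgroup.orderOf_coe ⟨x, hx⟩, ← Subgroup.orderOf_coe x] at hk
    rcases Nat.lt_or_ge k 2 with hk2 | hk2
    · interval_cases k
      · rw [pow_zero] at hk
        rw [show C.subtype x = 1 from orderOf_eq_one_iff.mp hk]
        exact H.one_mem
      · rw [pow_one] at hk
        rw [show C.subtype x = (e.symm q0 : G) ^ 2 from
          R.inj (by rw [R.two_eq hq]; exact R.two_eq hk)]
        exact H.pow_mem (e.symm q0).2 2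
    · exfalso
      refine hno4 ((x : G) ^ 2 ^ (k - 2)) (C.pow_mem x.2 _) ?_
      rw [orderOf_pow' _ (by positivity), hk, Nat.gcd_eq_right (pow_dvd_pow 2 (by omega)),
        Nat.pow_div (by omega) two_pos, show k - (k - 2) = 2 by omega]
      rfl
  have hsup : H ⊔ M = H ⊔ C := by
    refine le_antisymm (sup_le_sup_left hMC H) (sup_le le_sup_left ?_)
    have h1 : C = M ⊔ (P : Subgroup C).map C.subtype := by
      rw [hM, ← Subgroup.map_sup, hMP, ← MonoidHom.range_eq_map, Subgroup.range_subtype]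
    rw [h1]
    exact sup_le le_sup_right (hPH.trans le_sup_left)
  have hdisj : H ⊓ M = ⊥ := by
    rw [eq_bot_iff]
    intro x hx
    have h1 := orderOf_dvd_of_pow_eq_one (hsq x ⟨hx.1, hMC hx.2⟩)
    have h2 : orderOf x ∣ Nat.card M := Subgroup.orderOf_dvd_natCard M hx.2
    rcases (Nat.dvd_prime Nat.prime_two).mp h1 with h | h
    · exact Subgroup.mem_bot.mpr (orderOf_eq_one_iff.mp h)
    · exact absurd (hcardM ▸ h ▸ h2) hM2
  have hnop : ∀ p : ℕ, p.Prime → p ≠ 2 → p ∣ 120 → ¬ p ∣ Nat.card M := by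
    intro p hp hp2 hp120 hpM
    haveI := Fact.mk hp
    obtain ⟨a, ha⟩ := exists_prime_orderOf_dvd_card' (G := S5) p (by rwa [card_S5])
    obtain ⟨b, hb⟩ := exists_prime_orderOf_dvd_card' (G := M) p hpM
    have hcomm : Commute (e.symm a : G) (b : G) :=
      Subgroup.mem_centralizer_iff.mp (hMC b.2) _ (e.symm a).2
    have hmem := R.mem_zpowers_of_commute hp (by rw [Subgroup.orderOf_coe, MulEquiv.orderOf_eq, ha])
      (by rw [Subgroup.orderOf_coe, hb]) hcomm
    have hbH : (b : G) ∈ H := (Subgroup.zpowers_le.mpr (e.symm a).2) hmem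
    have hb1 : (b : G) = 1 := by
      have : (b : G) ∈ H ⊓ M := ⟨hbH, b.2⟩
      rwa [hdisj, Subgroup.mem_bot] at this
    rw [show b = 1 from Subtype.ext hb1, orderOf_one] at hb
    exact hp.ne_one hb.symm
  haveI : (H ⊔ M).Normal := by rw [hsup]; exact Subgroup.sup_normal H C
  refine ⟨H, M, inferInstance, by rwa [hsup], hdisj,
    fun s hs x hx => Subgroup.mem_centralizer_iff.mp (hMC hx) s hs, ⟨e⟩, ?_, ?_⟩
  · exact IsZGroup.of_injective (f := Subgroup.inclusion hMC) (Subgroup.inclusion_injective hMC)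
  · refine (Nat.coprime_of_dvd' fun p hp h1 h2 => ?_)
    exfalso
    by_cases hp2 : p = 2
    · subst hp2; exact hM2 (hcardM ▸ h1)
    · exact hnop p hp hp2 (h2.trans (by norm_num)) h1

end CfsgLib.FpfQuat
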