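import Cfsg.Agent.Lib.PermFpfFrame

/-!
# An icosahedral partner is determined by the tetrahedral one; at most twenty elements of order three
-/

set_option autoImplicit false
set_option linter.unusedSectionVars false
set_option maxHeartbeats 600000

namespace CfsgLib.FpfQuat

universe u v

section Ring

variable {B : Type v} [Ring B]

theorem golden_aux {r s : B} (hr : r * r = 5) (hs : s * s = 5) :
    (r + s) * (r + s) = 10 + (r * s + s * r) ∧
      (r * s - s * r) * (r * s - s * r) = (r * s + s * r) * (r * s + s * r) - 100 := by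
  constructor
  · calc (r + s) * (r + s) = r * r + s * s + (r * s + s * r) := by noncomm_ring
      _ = _ := by rw [hr, hs]; norm_num
  · calc (r * s - s * r) * (r * s - s * r)
        = (r * s + s * r) * (r * s + s * r) - 2 * (r * (s * s) * r) - 2 * (s * (r * r) * s) := by
          noncomm_ring
      _ = (r * s + s * r) * (r * s + s * r) - 10 * (r * r) - 10 * (s * s) := by
          conv_lhs => rw [hr, hs]
          noncomm_ring <;> norm_num
      _ = _ := by
          rw [hr, hs, sub_sub, show (10 : B) * 5 + 10 * 5 = 100 by norm_num]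

theorem golden_comm {r s : B} (hr : r * r = 5) (hs : s * s = 5) (h : r * s = s * r) :
    (r * s + s * r) * (r * s + s * r) = 100 := by
  rw [← sub_eq_zero, ← (golden_aux hr hs).2, h, sub_self, mul_zero]

theorem golden_anti {r s : B} (hr : r * r = 5) (hs : s * s = 5) :
    (r - s) * (r * s - s * r) + (r * s - s * r) * (r - s) = 0 := by
  calc (r - s) * (r * s - s * r) + (r * s - s * r) * (r - s)
      = (r * r) * s + (s * s) * r - s * (r * r) - r * (s * s) := by noncomm_ring
    _ = 0 := by rw [hr, hs]; noncomm_ring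

end Ring

variable {G : Type u} [Group G] [Finite G] {A : Type v} [Ring A] [Algebra ℚ A] {R : FpfRep G A}

namespace Frame

variable (F : Frame R)

theorem D_cancel {n : ℕ} (hn : n ≠ 0) {x : F.D} (h : (n : F.D) * x = 0) : x = 0 := by
  refine Subtype.ext (FpfRep.smul_cancel (A := A) hn ?_)
  have h1 := congrArg F.D.val h
  rwa [map_mul, map_natCast, map_zero] at h1

theorem Q_int (n : ℤ) : (n : A) = F.Q (n : F.D) 0 0 0 := by
  rw [F.Q_scalar]; exact (map_intCast F.D.val n).symm

end Frame

/-- The coordinates of an element carrying one axis of a frame to another. -/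
theorem partner_coords [Nontrivial A] (F : Frame R) {g z y : G} (hy : orderOf y = 3)
    (hz : orderOf z = 3) (h0 : R.U g = F.Q 0 1 1 1) (h1 : R.U z⁻¹ = F.Q 0 1 (-1) (-1))
    (h : y * g * y⁻¹ = z) :
    ∃ c : F.D, R.U y = F.Q 0 0 (c + 1) c ∧ c * c + c = 1 := by
  obtain ⟨e, a, b, c, hu⟩ := F.exists_coords (R.U y)
  have hzU : R.U z = -F.Q 0 1 (-1) (-1) := by rw [← h1, R.U_inv hz, neg_neg]
  have hE : R.U y * R.U g - R.U z * R.U y = R.U g - R.U z := by
    have h2 : R.ρ y * R.U g = R.U z * R.ρ y := by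
      rw [← h, ← R.U_conj, mul_assoc, mul_assoc, R.map_inv_mul, mul_one]
    calc R.U y * R.U g - R.U z * R.U y
        = 2 * (R.ρ y * R.U g - R.U z * R.ρ y) + (R.U g - R.U z) := by
          show (2 * R.ρ y + 1) * R.U g - R.U z * (2 * R.ρ y + 1) = _
          noncomm_ring
      _ = R.U g - R.U z := by rw [h2, sub_self, mul_zero, zero_add]
  rw [hu, h0, hzU, neg_mul, sub_neg_eq_add, F.Q_mul, F.Q_mul, F.Q_add, sub_neg_eq_add, F.Q_add] at hE
  obtain ⟨-, hi, -, hk⟩ := F.Q_inj hE
  have ha : a = 0 := by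
    refine F.D_cancel (n := 2) two_ne_zero ?_
    rw [Nat.cast_ofNat]
    calc 2 * a = _ := by noncomm_ring <;> norm_num <;> abel
      _ = 0 := sub_eq_zero.mpr hk
  have hb : b = c + 1 - e := by
    refine sub_eq_zero.mp (F.D_cancel (n := 2) two_ne_zero ?_)
    rw [Nat.cast_ofNat]
    calc 2 * (b - (c + 1 - e)) = _ := by noncomm_ring <;> norm_num <;> abel
      _ = 0 := sub_eq_zero.mpr hi
  subst ha hb
  have hsq := R.U_sq hy
  rw [hu, F.Q_mul, show (-3 : A) = F.Q (-3) 0 0 0 by rw [F.Q_scalar, Subalgebra.coe_neg]; rfl] at hsq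
  obtain ⟨hs, h_i, h_j, h_k⟩ := F.Q_inj hsq
  have hec : e * c = c * e := by
    rw [← sub_eq_zero] at h_i ⊢
    calc e * c - c * e = -((e * 0 + 0 * e + (c + 1 - e) * c - c * (c + 1 - e)) - 0) := by noncomm_ring
      _ = 0 := by rw [h_i, neg_zero]
  have hec0 : e * c = 0 := by
    refine F.D_cancel (n := 2) two_ne_zero ?_
    rw [Nat.cast_ofNat]
    calc 2 * (e * c) = e * c + c * e := by rw [← hec, two_mul]
      _ = e * c + c * e + 0 * (c + 1 - e) - (c + 1 - e) * 0 := by noncomm_ring
      _ = 0 := h_k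
  have hee : e * e = e := by
    refine (sub_eq_zero.mp (F.D_cancel (n := 2) two_ne_zero ?_)).symm
    rw [Nat.cast_ofNat]
    calc 2 * (e - e * e) = (e * (c + 1 - e) + (c + 1 - e) * e + c * 0 - 0 * c) - (e * c + c * e) := by
          noncomm_ring
      _ = 0 := by rw [h_j, ← hec, hec0]; simp
  have hes : (e : A) ∈ R.skew := by
    rw [← F.E_Q e 0 (c + 1 - e) c, ← hu]; exact F.E_skew (R.U_skew hy)
  have he : e = 0 := Subtype.ext (R.skew_idem _ hes (by rw [← Subalgebra.coe_mul, hee]))
  subst he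
  refine ⟨c, by rw [hu, sub_zero], sub_eq_zero.mp (F.D_cancel (n := 2) two_ne_zero ?_)⟩
  rw [Nat.cast_ofNat]
  calc 2 * (c * c + c - 1) = -(0 * 0 - 0 * 0 - (c + 1 - 0) * (c + 1 - 0) - c * c) - 3 := by
        noncomm_ring <;> norm_num <;> abel
    _ = 0 := by rw [hs]; norm_num

theorem scalar_or_twenty [Nontrivial A] {y y' : G} (hy : orderOf y = 3) (hy' : orderOf y' = 3) :
    (∃ n : ℤ, (n = 6 ∨ n = -6 ∨ n = 2 ∨ n = -2) ∧ R.S y y' = n) ∨ R.S y y' * R.S y y' = 20 := by
  rcases R.pair_cases hy hy' with h | h | h | h | h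
  · exact Or.inl ⟨6, by simp, by rw [h.2]; norm_num⟩
  · exact Or.inl ⟨-6, by simp, by rw [h.2]; norm_num⟩
  · exact Or.inl ⟨2, by simp, by rw [h]; norm_num⟩
  · exact Or.inl ⟨-2, by simp, by rw [h]; norm_num⟩
  · exact Or.inr h

/-- The icosahedral partner realising a given tetrahedral one is unique. -/
theorem partner_unique [Nontrivial A] {g z y y' : G} (hg : orderOf g = 3) (hz : orderOf z = 3)
    (hy : orderOf y = 3) (hy' : orderOf y' = 3) (hS : R.S g z = -2)
    (h : y * g * y⁻¹ = z) (h' : y' * g * y'⁻¹ = z) : y' = y := by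
  obtain ⟨F, hF⟩ := exists_frame hg hz hS
  have h0 : R.U g = F.Q 0 1 1 1 := by simpa [tetra, sgn] using hF 0
  have h1 : R.U z⁻¹ = F.Q 0 1 (-1) (-1) := by simpa [tetra, sgn] using hF 1
  obtain ⟨c, hu, hc⟩ := partner_coords F hy hz h0 h1 h
  obtain ⟨c', hu', hc'⟩ := partner_coords F hy' hz h0 h1 h'
  by_contra hne
  set r := 2 * c + 1 with hrdef
  set s := 2 * c' + 1 with hsdef
  have hr : r * r = 5 := by
    calc r * r = 4 * (c * c + c) + 1 := by rw [hrdef]; noncomm_ring <;> norm_num
      _ = 5 := by rw [hc]; norm_num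
  have hs : s * s = 5 := by
    calc s * s = 4 * (c' * c' + c') + 1 := by rw [hsdef]; noncomm_ring <;> norm_num
      _ = 5 := by rw [hc']; norm_num
  set L := r * s + s * r with hL
  set w := r * s - s * r with hw
  obtain ⟨e1, e2⟩ := golden_aux hr hs
  -- the first pair
  have hS1 : (2 : A) * R.S y y' = F.Q (-2 - L) 0 0 0 := by
    rw [show (2 : A) = F.Q 2 0 0 0 by rw [F.Q_scalar]; rfl, FpfRep.S, hu, hu', F.Q_mul, F.Q_mul,
      F.Q_add, F.Q_mul, hL, hrdef, hsdef]
    congr 1 <;> noncomm_ring <;> norm_num <;> rw [show (-4 : F.D) = -2 + -2 by norm_num] <;> abel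
  -- no commuting pair
  have hw0 : ∀ n : ℤ, L = n → n * n ≠ 100 → w ≠ 0 := by
    intro n hn hn2 hz0
    have h2 := golden_comm hr hs (sub_eq_zero.mp hz0)
    rw [← hL, hn] at h2
    refine hn2 (FpfRep.scalar_inj (A := A) ?_)
    have h3 := congrArg F.D.val h2
    rw [map_mul, map_intCast, map_ofNat] at h3
    rw [Int.cast_mul, h3]; norm_num
  -- the second pair
  have hgz : R.ρ (g * z) = -F.j := by
    have e4 : (4 : A) * R.ρ (g * z) = F.Q 0 0 (-4) 0 := by
      calc (4 : A) * R.ρ (g * z) = (R.U g - 1) * (R.U z - 1) := by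
            rw [map_mul, FpfRep.U, FpfRep.U]; noncomm_ring <;> norm_num
        _ = _ := by
          have : R.U z = -F.Q 0 1 (-1) (-1) := by rw [← h1, R.U_inv hz, neg_neg]
          rw [this, h0, F.Q_one, F.Q_neg, F.Q_sub, F.Q_sub, F.Q_mul]
          congr 1 <;> noncomm_ring <;> norm_num
    refine sub_eq_zero.mp (FpfRep.smul_cancel (A := A) (n := 4) four_ne_zero ?_)
    rw [Nat.cast_ofNat, mul_sub, e4, F.Q_j, F.Q_neg,
      show (4 : A) = F.Q 4 0 0 0 by rw [F.Q_scalar]; rfl, F.Q_mul, F.Q_sub,
      show (0 : A) = F.Q 0 0 0 0 by simp [Frame.Q]]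
    congr 1 <;> noncomm_ring <;> norm_num
  have hgz' : R.ρ (g * z)⁻¹ = F.j := by
    calc R.ρ (g * z)⁻¹ = R.ρ (g * z)⁻¹ * (F.j * -F.j) := by rw [mul_neg, F.hj, neg_neg, mul_one]
      _ = R.ρ (g * z)⁻¹ * (R.ρ (g * z) * F.j) := by rw [hgz, neg_mul, mul_neg]
      _ = F.j := by rw [← mul_assoc, R.map_inv_mul, one_mul]
  have hy2 : orderOf (g * z * y' * (g * z)⁻¹) = 3 := by rw [FpfRep.orderOf_conj', hy']
  have hU2 : R.U (g * z * y' * (g * z)⁻¹) = F.Q 0 0 (c' + 1) (-c') := by
    rw [← R.U_conj, hgz, hgz', hu', F.Q_j, F.Q_neg, F.Q_mul, F.Q_mul]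
    congr 1 <;> noncomm_ring
  have hS2 : R.S y (g * z * y' * (g * z)⁻¹) = F.Q (-(r + s)) (-(2 * (c * c' - c' * c))) 0 0 := by
    rw [FpfRep.S, hu, hU2, F.Q_mul, F.Q_mul, F.Q_add, hrdef, hsdef]
    congr 1 <;> noncomm_ring <;> norm_num <;> abel
  have hw4 : w = 4 * (c * c' - c' * c) := by
    rw [hw, hrdef, hsdef]; noncomm_ring <;> norm_num <;> abel
  have hS2sq : ∀ v : ℤ, R.S y (g * z * y' * (g * z)⁻¹) * R.S y (g * z * y' * (g * z)⁻¹) = v →
      (4 : F.D) * v = 140 + 4 * L - L * L := by
    intro v hv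
    rw [hS2, F.Q_mul, F.Q_int] at hv
    rw [← (F.Q_inj hv).1]
    calc _ = 4 * ((r + s) * (r + s)) - w * w := by
          rw [hw4]; noncomm_ring <;> norm_num <;> abel
      _ = _ := by
        rw [e1, e2, ← hL, mul_add, show (140 : F.D) = 4 * 10 + 100 by norm_num]; abel
  obtain ⟨v, hv, hv2⟩ : ∃ v : ℤ, (v = 36 ∨ v = 4 ∨ v = 20) ∧
      R.S y (g * z * y' * (g * z)⁻¹) * R.S y (g * z * y' * (g * z)⁻¹) = v := by
    rcases scalar_or_twenty (R := R) hy hy2 with ⟨n, hn, hn'⟩ | h20
    · refine ⟨n * n, ?_, by rw [hn', Int.cast_mul]⟩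
      rcases hn with rfl | rfl | rfl | rfl <;> norm_num
    · exact ⟨20, by simp, by rw [h20]; norm_num⟩
  have key := hS2sq v hv2
  rcases scalar_or_twenty (R := R) hy hy' with ⟨n, hn, hn'⟩ | h20
  · rw [hn', show (2 : A) = F.Q 2 0 0 0 by rw [F.Q_scalar]; rfl, F.Q_int, F.Q_mul] at hS1
    have hLn : L = ((-2 - 2 * n : ℤ) : F.D) := by
      have e := (F.Q_inj hS1).1
      push_cast
      calc L = -2 - (-2 - L) := by noncomm_ring <;> norm_num
        _ = _ := by rw [← e]; noncomm_ring <;> norm_num <;> abel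
    rw [hLn] at key
    have key2 : 4 * v = 140 + 4 * (-2 - 2 * n) - (-2 - 2 * n) * (-2 - 2 * n) := by
      have h3 := congrArg F.D.val key
      simp only [map_mul, map_sub, map_add, map_ofNat, map_intCast] at h3
      refine FpfRep.scalar_inj (A := A) ?_
      push_cast at h3 ⊢
      exact h3
    have hne6 : n ≠ -6 := by
      rintro rfl
      refine hne ?_
      rcases R.pair_cases hy hy' with hc0 | hc0 | hc0 | hc0 | hc0
      · exact absurd (FpfRep.scalar_inj (A := A) (a := -6) (b := 6) (by
          rw [← hn', hc0.2]; norm_num)) (by norm_num)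
      · exact hc0.1
      · exact absurd (FpfRep.scalar_inj (A := A) (a := -6) (b := 2) (by
          rw [← hn', hc0]; norm_num)) (by norm_num)
      · exact absurd (FpfRep.scalar_inj (A := A) (a := -6) (b := -2) (by
          rw [← hn', hc0]; norm_num)) (by norm_num)
      · exact absurd (FpfRep.scalar_inj (A := A) (a := 36) (b := 20) (by
          rw [hn'] at hc0; norm_num at hc0 ⊢; exact hc0)) (by norm_num)
    -- the third pair
    have hy3 : orderOf (g⁻¹ * y' * g⁻¹⁻¹) = 3 := by rw [FpfRep.orderOf_conj', hy']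
    have hU3 : R.U (g⁻¹ * y' * g⁻¹⁻¹) = F.Q 0 c' 0 (c' + 1) := by
      refine sub_eq_zero.mp (FpfRep.smul_cancel (A := A) (n := 4) four_ne_zero ?_)
      rw [← R.U_conj, inv_inv, hu', Nat.cast_ofNat, mul_sub, sub_eq_zero]
      calc 4 * (R.ρ g⁻¹ * F.Q 0 0 (c' + 1) c' * R.ρ g)
          = (2 * R.ρ g⁻¹) * F.Q 0 0 (c' + 1) c' * (2 * R.ρ g) := by noncomm_ring <;> norm_num
        _ = (-1 - R.U g) * F.Q 0 0 (c' + 1) c' * (R.U g - 1) := by
            rw [R.inv_three hg, FpfRep.U]; noncomm_ring <;> norm_num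
        _ = _ := by
            rw [h0, F.Q_one, F.Q_neg, F.Q_sub, F.Q_sub,
              show (4 : A) = F.Q 4 0 0 0 by rw [F.Q_scalar]; rfl, F.Q_mul, F.Q_mul, F.Q_mul]
            congr 1 <;> noncomm_ring <;> norm_num <;> abel
    set d := c * c' + c' * c + 2 * c with hd
    set ω := c * c' - c' * c with hω
    have hS3 : R.S y (g⁻¹ * y' * g⁻¹⁻¹) = F.Q (-d) ω ω (-ω) := by
      rw [FpfRep.S, hu, hU3, F.Q_mul, F.Q_mul, F.Q_add, hd, hω]
      congr 1 <;> noncomm_ring <;> norm_num <;> abel
    have hω0 : ω ≠ 0 := fun e => by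
      refine hw0 _ hLn ?_ (by rw [hw4, e, mul_zero])
      rcases hn with rfl | rfl | rfl | rfl <;> first | exact absurd rfl hne6 | norm_num
    refine hω0 ?_
    have hn2 : n = 2 ∨ n = -2 ∨ n = 6 := by omega
    have h36 : v = 36 → ω = 0 := fun e36 => by
      subst e36
      rcases scalar_or_twenty (R := R) hy hy2 with ⟨q, -, hq⟩ | h20''
      · rw [hq, F.Q_int] at hS2
        refine F.D_cancel (n := 2) two_ne_zero ?_
        rw [Nat.cast_ofNat, ← neg_eq_zero]
        exact (F.Q_inj hS2).2.1.symm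
      · exact absurd (FpfRep.scalar_inj (A := A) (a := 36) (b := 20) (by
          rw [← hv2, h20'']; norm_num)) (by norm_num)
    rcases scalar_or_twenty (R := R) hy hy3 with ⟨q, -, hq⟩ | h20'
    · rw [hq, F.Q_int] at hS3
      exact (F.Q_inj hS3).2.1.symm
    rw [hS3, F.Q_mul, show (20 : A) = F.Q 20 0 0 0 by rw [F.Q_scalar]; rfl] at h20'
    have hi := (F.Q_inj h20').2.1
    have hdw : d * ω + ω * d = 0 := by
      calc d * ω + ω * d = -((-d) * ω + ω * (-d) + ω * (-ω) - -ω * ω) := by noncomm_ring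
        _ = 0 := by rw [hi, neg_zero]
    -- compare with the anticommuting difference
    have hanti := golden_anti hr hs
    have hmain : ((-4 - 2 * n : ℤ) : F.D) * (2 * ω) = 0 := by
      calc ((-4 - 2 * n : ℤ) : F.D) * (2 * ω)
          = ((-2 - 2 * n : ℤ) : F.D) * ω + ω * ((-2 - 2 * n : ℤ) : F.D) - 4 * ω := by
            rw [← (Int.cast_commute (-2 - 2 * n) ω).eq]
            push_cast
            noncomm_ring <;> norm_num <;> abel
        _ = L * ω + ω * L - 4 * ω := by rw [hLn]
        _ = 4 * (d * ω + ω * d) -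
              2 * ((2 * (c - c')) * ω + ω * (2 * (c - c'))) := by
            rw [hL, hd, hrdef, hsdef]; noncomm_ring <;> norm_num <;> abel
        _ = 0 := by
            have h4 : (4 : F.D) * ((2 * (c - c')) * ω + ω * (2 * (c - c'))) = 0 := by
              calc (4 : F.D) * ((2 * (c - c')) * ω + ω * (2 * (c - c')))
                  = (r - s) * w + w * (r - s) := by
                    rw [hw4, hrdef, hsdef, hω]; noncomm_ring <;> norm_num <;> abel
                _ = 0 := hanti
            rw [hdw, F.D_cancel (n := 4) (by norm_num) (show ((4 : ℕ) : F.D) * ((2 * (c - c')) * ω + ω * (2 * (c - c'))) = 0 by rw [Nat.cast_ofNat]; exact h4)]; simp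
    rcases hn2 with rfl | rfl | rfl
    · refine F.D_cancel (n := 16) (by norm_num) ?_
      calc ((16 : ℕ) : F.D) * ω = -(((-4 - 2 * 2 : ℤ) : F.D) * (2 * ω)) := by
            norm_num <;> noncomm_ring
        _ = 0 := by rw [hmain, neg_zero]
    · rcases hv with rfl | rfl | rfl
      · exact h36 rfl
      all_goals norm_num at key2
    · exfalso; rcases hv with rfl | rfl | rfl <;> norm_num at key2
  · -- an irrational first pair is impossible
    have hLsq : (2 + L) * (2 + L) = 80 := by
      have h2 : ((2 : A) * R.S y y') * ((2 : A) * R.S y y') = 80 := by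
        calc ((2 : A) * R.S y y') * ((2 : A) * R.S y y') = 4 * (R.S y y' * R.S y y') := by
              noncomm_ring <;> norm_num
          _ = 80 := by rw [h20]; norm_num
      rw [hS1, F.Q_mul, show (80 : A) = F.Q 80 0 0 0 by rw [F.Q_scalar]; rfl] at h2
      rw [← (F.Q_inj h2).1]; noncomm_ring <;> norm_num <;> abel
    have hL8 : 8 * L = ((4 * v - 64 : ℤ) : F.D) := by
      push_cast
      rw [key, show (64 : F.D) = 144 - 80 by norm_num, ← hLsq]
      noncomm_ring <;> norm_num <;> abel
    have h3 : ((4 * v - 64 + 16) * (4 * v - 64 + 16) : ℤ) = (5120 : ℤ) := by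
      refine FpfRep.scalar_inj (A := A) ?_
      have h4 := congrArg F.D.val (show ((((4 * v - 64 + 16) * (4 * v - 64 + 16) : ℤ)) : F.D) =
          ((5120 : ℤ) : F.D) by
        rw [Int.cast_mul, Int.cast_add, ← hL8]
        calc (8 * L + ((16 : ℤ) : F.D)) * (8 * L + ((16 : ℤ) : F.D)) = 64 * ((2 + L) * (2 + L)) := by
              norm_num; noncomm_ring <;> norm_num <;> abel
          _ = _ := by rw [hLsq]; norm_num)
      rwa [map_intCast, map_intCast] at h4
    rcases hv with rfl | rfl | rfl <;> norm_num at h3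

/-- At most twenty elements of order three, given a tetrahedral pair. -/
theorem card_three_le [Nontrivial A] {g z : G} (hg : orderOf g = 3) (hz : orderOf z = 3)
    (hS : R.S g z = -2) : Nat.card {x : G // orderOf x = 3} ≤ 20 := by
  classical
  haveI := Fintype.ofFinite G
  set D : Finset G := Finset.univ.filter fun x => orderOf x = 3
  have hD : ∀ x, x ∈ D ↔ orderOf x = 3 := fun x => by simp [D]
  let P : G → Finset G := fun x => D.filter fun y => R.S x y * R.S x y = 20
  have hne : ∀ a b : ℤ, a ≠ b → (a : A) ≠ b := fun a b h e => h (FpfRep.scalar_inj e)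
  have hP : ∀ x ∈ D, 3 * (P x).card + 2 ≤ D.card := by
    intro x hx
    have hx3 := (hD x).mp hx
    let Z : Finset G := D.filter fun y => R.S x y = -2
    let W : Finset G := D.filter fun y => R.S x y = 2
    have hle : (P x).card ≤ Z.card := by
      refine Finset.card_le_card_of_injOn (fun y => y * x * y⁻¹) (fun y hy => ?_) fun y hy y' hy' e => ?_
      · obtain ⟨hyD, hy20⟩ := Finset.mem_filter.mp hy
        refine Finset.mem_filter.mpr ⟨(hD _).mpr (by rw [FpfRep.orderOf_conj', hx3]), ?_⟩
        exact R.S_step ((hD y).mp hyD) hx3 (by rw [R.S_comm]; exact hy20)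
      · obtain ⟨hyD, hy20⟩ := Finset.mem_filter.mp hy
        exact (partner_unique (R := R) hx3 (by rw [FpfRep.orderOf_conj', hx3]) ((hD y).mp hyD)
          ((hD y').mp (Finset.mem_filter.mp hy').1)
          (R.S_step ((hD y).mp hyD) hx3 (by rw [R.S_comm]; exact hy20)) rfl e.symm).symm
    have hWZ : W.card = Z.card := by
      refine Finset.card_bij (fun y _ => y⁻¹) (fun y hy => ?_) (fun y _ y' _ e => inv_injective e)
        fun y hy => ⟨y⁻¹, ?_, inv_inv y⟩
      · obtain ⟨hyD, hy2⟩ := Finset.mem_filter.mp hy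
        refine Finset.mem_filter.mpr ⟨(hD _).mpr (by rw [orderOf_inv, (hD y).mp hyD]), ?_⟩
        rw [R.S_inv_right ((hD y).mp hyD), hy2]
      · obtain ⟨hyD, hy2⟩ := Finset.mem_filter.mp hy
        refine Finset.mem_filter.mpr ⟨(hD _).mpr (by rw [orderOf_inv, (hD y).mp hyD]), ?_⟩
        rw [R.S_inv_right ((hD y).mp hyD), hy2, neg_neg]
    have hxx : x⁻¹ ≠ x := fun e => by
      have : x * x = 1 := by nth_rewrite 1 [← e]; exact inv_mul_cancel x
      have h2 := orderOf_dvd_of_pow_eq_one (show x ^ 2 = 1 by rw [sq, this])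
      rw [hx3] at h2
      norm_num at h2
    have hS2 : R.S x x⁻¹ = 6 := by rw [R.S_inv_right hx3, R.S_self hx3, neg_neg]
    have hd1 : Disjoint Z W := by
      rw [Finset.disjoint_left]
      intro y hy hy'
      refine hne (-2) 2 (by norm_num) ?_
      rw [← (Finset.mem_filter.mp hy').2.trans (Int.cast_ofNat (R := A) 2).symm,
        (Finset.mem_filter.mp hy).2]
      norm_num
    have hd2 : Disjoint (P x) (Z ∪ W) := by
      rw [Finset.disjoint_left]
      intro y hy hy'
      have h20 := (Finset.mem_filter.mp hy).2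
      rcases Finset.mem_union.mp hy' with h | h <;> rw [(Finset.mem_filter.mp h).2] at h20 <;>
        refine hne 4 20 (by norm_num) ?_ <;> norm_num at h20 ⊢ <;> exact h20
    have hd3 : Disjoint ({x, x⁻¹} : Finset G) (P x ∪ (Z ∪ W)) := by
      rw [Finset.disjoint_left]
      intro y hy hy'
      rcases Finset.mem_insert.mp hy with h | h
      · subst h
        rcases Finset.mem_union.mp hy' with h | h
        · have h20 := (Finset.mem_filter.mp h).2
          rw [R.S_self hx3] at h20
          refine hne 36 20 (by norm_num) ?_; norm_num at h20 ⊢; exact h20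
        rcases Finset.mem_union.mp h with h | h <;> have h2 := (Finset.mem_filter.mp h).2 <;>
          rw [R.S_self hx3] at h2
        · refine hne (-6) (-2) (by norm_num) ?_; push_cast; exact h2
        · refine hne (-6) 2 (by norm_num) ?_; push_cast; exact h2
      · rw [Finset.mem_singleton] at h
        subst h
        rcases Finset.mem_union.mp hy' with h | h
        · have h20 := (Finset.mem_filter.mp h).2
          rw [hS2] at h20
          refine hne 36 20 (by norm_num) ?_; norm_num at h20 ⊢; exact h20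
        rcases Finset.mem_union.mp h with h | h <;> have h2 := (Finset.mem_filter.mp h).2 <;>
          rw [hS2] at h2
        · refine hne 6 (-2) (by norm_num) ?_; push_cast; exact h2
        · refine hne 6 2 (by norm_num) ?_; push_cast; exact h2
    have hsub : ({x, x⁻¹} : Finset G) ∪ (P x ∪ (Z ∪ W)) ⊆ D := by
      intro y hy
      rcases Finset.mem_union.mp hy with h | h
      · rcases Finset.mem_insert.mp h with h | h
        · exact h ▸ hx
        · rw [Finset.mem_singleton] at h; rw [hD, h, orderOf_inv, hx3]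
      rcases Finset.mem_union.mp h with h | h
      · exact (Finset.mem_filter.mp h).1
      rcases Finset.mem_union.mp h with h | h <;> exact (Finset.mem_filter.mp h).1
    have h := Finset.card_le_card hsub
    rw [Finset.card_union_of_disjoint hd3, Finset.card_union_of_disjoint hd2,
      Finset.card_union_of_disjoint hd1, Finset.card_pair hxx.symm, hWZ] at h
    omega
  set T : Finset G := (Finset.univ.image (tetra g z)) ∪ (Finset.univ.image fun m => (tetra g z m)⁻¹)
  have hT : T.card ≤ 8 := by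
    refine (Finset.card_union_le _ _).trans ?_
    have h1 := Finset.card_image_le (s := (Finset.univ : Finset (Fin 4))) (f := tetra g z)
    have h2 := Finset.card_image_le (s := (Finset.univ : Finset (Fin 4))) (f := fun m => (tetra g z m)⁻¹)
    simp only [Finset.card_univ, Fintype.card_fin] at h1 h2
    omega
  have hlow : ∀ y ∈ D \ T, 2 ≤ (Finset.univ.filter fun m : Fin 4 => y ∈ P (tetra g z m)).card := by
    intro y hy
    obtain ⟨hyD, hyT⟩ := Finset.mem_sdiff.mp hy
    have h := two_le_count (R := R) hg hz ((hD y).mp hyD) hS fun m => ⟨fun e => hyT (by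
      simp only [T, Finset.mem_union, Finset.mem_image, Finset.mem_univ, true_and]
      exact Or.inl ⟨m, e.symm⟩), fun e => hyT (by
      simp only [T, Finset.mem_union, Finset.mem_image, Finset.mem_univ, true_and]
      exact Or.inr ⟨m, e.symm⟩)⟩
    rw [Nat.card_eq_fintype_card, Fintype.card_subtype] at h
    refine h.trans (le_of_eq (congrArg Finset.card (Finset.filter_congr fun m _ => ?_)))
    simp [P, hyD]
  have hsum : 2 * (D \ T).card ≤ ∑ m : Fin 4, (P (tetra g z m)).card := by
    calc 2 * (D \ T).card = ∑ _y ∈ D \ T, 2 := by rw [Finset.sum_const, smul_eq_mul, mul_comm]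
      _ ≤ ∑ y ∈ D \ T, (Finset.univ.filter fun m : Fin 4 => y ∈ P (tetra g z m)).card :=
          Finset.sum_le_sum hlow
      _ = ∑ m : Fin 4, ((D \ T).filter fun y => y ∈ P (tetra g z m)).card := by
          simp only [Finset.card_filter]; exact Finset.sum_comm
      _ ≤ _ := Finset.sum_le_sum fun m _ => Finset.card_le_card fun y hy => (Finset.mem_filter.mp hy).2
  have h4 : ∀ m, 3 * (P (tetra g z m)).card + 2 ≤ D.card := fun m =>
    hP _ ((hD _).mpr (tetra_three hg hz m))
  rw [Fin.sum_univ_four] at hsum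
  have := h4 0; have := h4 1; have := h4 2; have := h4 3
  have hdiff := Finset.card_sdiff_add_card_inter D T
  have hint : (D ∩ T).card ≤ 8 := (Finset.card_le_card Finset.inter_subset_right).trans hT
  rw [Nat.card_eq_fintype_card, Fintype.card_subtype]
  change D.card ≤ 20
  omega

end CfsgLib.FpfQuat
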