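import Cfsg.Agent.Lib.PermFpfIcosa
import Cfsg.Agent.Lib.TransferQuatSection
import Cfsg.Agent.Lib.CharBurnside
import Cfsg.Agent.S0016
import Mathlib.GroupTheory.SpecificGroups.ZGroup

/-!
# Non-solvable groups with a fixed-point-free representation contain `SL(2, 5)`
-/

set_option autoImplicit false
set_option linter.unusedSectionVars false

namespace CfsgLib.FpfQuat

universe u v

open Icosa

variable {G : Type u} [Group G] [Finite G] {A : Type v} [Ring A] [Algebra ℚ A]

namespace FpfRep

variable (R : FpfRep G A)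

/-- The representation of a subgroup. -/
def restrict (H : Subgroup G) : FpfRep H A where
  ρ := R.ρ.comp H.subtype
  sum_eq_zero g hg := by
    have h := R.sum_eq_zero (g : G) (fun e => hg (Subtype.ext e))
    rwa [Subgroup.orderOf_coe] at h
  skew := R.skew
  skew_sub g := R.skew_sub g
  skew_sandwich := R.skew_sandwich
  sq_nonpos := R.sq_nonpos
  skew_idem := R.skew_idem

theorem restrict_S (H : Subgroup G) (a b : H) : (R.restrict H).S a b = R.S a b := rfl

include R in
theorem mem_zpowers_of_commute [Nontrivial A] {p : ℕ} (hp : p.Prime) {a b : G} (ha : orderOf a = p)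
    (hb : orderOf b = p) (hab : Commute a b) : b ∈ Subgroup.zpowers a := by
  by_contra hmem
  haveI := Fact.mk hp
  have horder : ∀ i, i < p → orderOf (a ^ i * b) = p := by
    intro i _
    refine orderOf_eq_prime ?_ fun e => hmem ?_
    · rw [(hab.pow_left i).mul_pow, ← pow_mul, mul_comm i p, pow_mul, ← ha, pow_orderOf_eq_one,
        one_pow, one_mul, ha, ← hb, pow_orderOf_eq_one]
    · rw [eq_inv_of_mul_eq_one_right e]
      exact Subgroup.inv_mem _ (Subgroup.npow_mem_zpowers a i)
  have h0 : ∀ i ∈ Finset.range p, ∑ k ∈ Finset.range p, R.ρ (a ^ i) ^ k * R.ρ b ^ k = 0 := by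
    intro i hi
    have h := R.sum_eq_zero (a ^ i * b) (fun e => by
      have := horder i (Finset.mem_range.mp hi)
      rw [e, orderOf_one] at this
      exact hp.ne_one this.symm)
    rw [horder i (Finset.mem_range.mp hi)] at h
    refine Eq.trans (Finset.sum_congr rfl fun k _ => ?_) h
    rw [map_mul, Commute.mul_pow (((hab.pow_left i)).map R.ρ)]
  have h1 := Finset.sum_eq_zero h0
  rw [Finset.sum_comm] at h1
  rw [Finset.sum_eq_single 0] at h1
  · simp only [pow_zero, mul_one, Finset.sum_const, Finset.card_range, nsmul_eq_mul] at h1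
    exact one_ne_zero (smul_cancel (A := A) (n := p) hp.ne_zero (by rw [mul_one]; exact_mod_cast h1))
  · intro k hk hk0
    rw [← Finset.sum_mul]
    have hak : orderOf (a ^ k) = p := by
      refine orderOf_eq_prime (by rw [← pow_mul, mul_comm, pow_mul, ← ha, pow_orderOf_eq_one, one_pow]) ?_
      intro e
      have hd := orderOf_dvd_of_pow_eq_one e
      rw [ha] at hd
      have := Nat.le_of_dvd (Nat.pos_of_ne_zero hk0) hd
      have := Finset.mem_range.mp hk
      omega
    have h := R.sum_eq_zero (a ^ k) (fun e => by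
      rw [e, orderOf_one] at hak; exact hp.ne_one hak.symm)
    rw [hak] at h
    rw [show ∑ i ∈ Finset.range p, R.ρ (a ^ i) ^ k = 0 from
      Eq.trans (Finset.sum_congr rfl fun i _ => by rw [← map_pow, ← map_pow, ← pow_mul, ← pow_mul, mul_comm]) h,
      zero_mul]
  · intro h; exact absurd (Finset.mem_range.mpr hp.pos) h

include R in
theorem cyclic_or_quaternion [Nontrivial A] {p : ℕ} [hp : Fact p.Prime] {P : Subgroup G}
    (hP : IsPGroup p P) : IsCyclic P ∨ (p = 2 ∧ ∃ n : ℕ, Nonempty (P ≃* QuaternionGroup (2 ^ n))) := by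
  refine Cfsg.Agent.S0016.result p hP fun X Y hX hY => ?_
  by_cases hP1 : Subsingleton P
  · exact Subsingleton.elim _ _
  haveI : Nontrivial P := not_subsingleton_iff_nontrivial.1 hP1
  haveI := hP.center_nontrivial
  obtain ⟨m, hm⟩ := (hP.to_subgroup (Subgroup.center P)).exists_card_eq
  have hm0 : m ≠ 0 := fun e => by
    rw [e, pow_zero] at hm
    exact not_subsingleton (Subgroup.center P) (Nat.card_eq_one_iff_unique.1 hm).1
  obtain ⟨⟨z, hzc⟩, hz⟩ := exists_prime_orderOf_dvd_card' (G := Subgroup.center P) p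
    (hm ▸ dvd_pow_self p hm0)
  replace hz : orderOf z = p := (Subgroup.orderOf_coe ⟨z, hzc⟩).trans hz
  suffices key : ∀ S : Subgroup P, Nat.card S = p → S = Subgroup.zpowers z by rw [key X hX, key Y hY]
  intro S hS
  refine Subgroup.eq_of_le_of_card_ge (fun s hs => ?_) (by rw [Nat.card_zpowers, hz, hS])
  by_cases hs1 : s = 1
  · rw [hs1]; exact Subgroup.one_mem _
  have hso : orderOf s = p := by
    have hd : orderOf s ∣ p := hS ▸ Subgroup.orderOf_dvd_natCard S hs
    exact ((Nat.dvd_prime hp.out).mp hd).resolve_left fun e => hs1 (orderOf_eq_one_iff.mp e)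
  obtain ⟨k, hk⟩ := Subgroup.mem_zpowers_iff.mp (R.mem_zpowers_of_commute hp.out
    (a := (z : G)) (b := (s : G)) (by rw [Subgroup.orderOf_coe, hz]) (by rw [Subgroup.orderOf_coe, hso])
    (congrArg Subtype.val (Subgroup.mem_center_iff.mp hzc s)).symm)
  exact Subgroup.mem_zpowers_iff.mpr ⟨k, Subtype.ext (by rw [Subgroup.coe_zpow]; exact hk)⟩

include R in
theorem cyclic_of_odd_prime [Nontrivial A] {p : ℕ} [Fact p.Prime] (hp2 : p ≠ 2) {P : Subgroup G}
    (hP : IsPGroup p P) : IsCyclic P :=
  (R.cyclic_or_quaternion hP).resolve_right fun h => hp2 h.1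

theorem hom_trivial {M : Type*} [CommGroup M] (hperf : commutator G = ⊤) (f : G →* M) (g : G) :
    f g = 1 := by
  have : commutator G ≤ f.ker := Abelianization.commutator_subset_ker f
  rw [hperf] at this
  exact this (Subgroup.mem_top g)

theorem hom_trivial_solvable {M : Type*} [Group M] [Group.IsSolvable M] (hperf : commutator G = ⊤)
    (f : G →* M) (g : G) : f g = 1 := by
  have hr : commutator f.range = ⊤ := by
    refine eq_top_iff.mpr ?_
    calc (⊤ : Subgroup f.range) = (commutator G).map f.rangeRestrict := by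
          rw [hperf, Subgroup.map_top_of_surjective _ f.rangeRestrict_surjective]
      _ ≤ commutator f.range := by
          rw [commutator_def, commutator_def, Subgroup.map_commutator]
          exact Subgroup.commutator_mono le_top le_top
  by_contra hne
  haveI : Nontrivial f.range := ⟨⟨⟨f g, ⟨g, rfl⟩⟩, 1, fun e => hne (congrArg Subtype.val e)⟩⟩
  exact (Group.IsSolvable.commutator_lt_top_of_nontrivial f.range).ne hr

include R in
theorem not_central_three [Nontrivial A] (hperf : commutator G = ⊤) {g : G} (hg : orderOf g = 3)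
    (hc : ∀ x : G, x * g * x⁻¹ = g) : False := by
  classical
  haveI : Fact (Nat.Prime 3) := ⟨Nat.prime_three⟩
  obtain ⟨P, hP⟩ := (IsPGroup.of_card (G := Subgroup.zpowers g) (p := 3) (n := 1)
    (by rw [Nat.card_zpowers, hg, pow_one])).exists_le_sylow
  haveI := R.cyclic_of_odd_prime (by norm_num) P.2
  letI : CommGroup (P : Subgroup G) := IsCyclic.commGroup
  have key : ∀ (k : ℕ) (g₀ : G), g₀⁻¹ * g ^ k * g₀ ∈ (P : Subgroup G) → g₀⁻¹ * g ^ k * g₀ = g ^ k := by
    intro k g₀ _
    have h := conj_pow (i := k) (a := g₀⁻¹) (b := g)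
    rw [inv_inv] at h
    rw [← h]
    congr 1
    simpa using hc g₀⁻¹
  have h1 := MonoidHom.transfer_eq_pow (MonoidHom.id (P : Subgroup G)) g key
  rw [hom_trivial hperf] at h1
  have h2 : g ^ (P : Subgroup G).index = 1 := (congrArg Subtype.val h1).symm
  exact P.not_dvd_index (by
    have h3 := orderOf_dvd_of_pow_eq_one h2
    rwa [hg] at h3)

include R in
theorem isZGroup_of_two [Nontrivial A] (h : ∀ P : Sylow 2 G, IsCyclic (P : Subgroup G)) : IsZGroup G := by
  refine ⟨fun p hp P => ?_⟩
  haveI := Fact.mk hp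
  by_cases h2 : p = 2
  · subst h2; exact h P
  · exact R.cyclic_of_odd_prime h2 P.2

include R in
theorem three_dvd [Nontrivial A] [Nontrivial G] (hperf : commutator G = ⊤) : 3 ∣ Nat.card G := by
  classical
  haveI : Fact (Nat.Prime 2) := ⟨Nat.prime_two⟩
  obtain ⟨P⟩ := (inferInstance : Nonempty (Sylow 2 G))
  have hnotsolv : ¬ Group.IsSolvable G := fun h => by
    haveI := h
    exact (Group.IsSolvable.commutator_lt_top_of_nontrivial G).ne hperf
  rcases R.cyclic_or_quaternion P.2 with hcyc | ⟨-, n, hn⟩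
  · exfalso
    refine hnotsolv ?_
    haveI := R.isZGroup_of_two fun Q => isCyclic_of_surjective (P.equiv Q) (P.equiv Q).surjective
    infer_instance
  rcases CfsgLib.QuatSection.npc_or_section P hn with hnpc | ⟨H, K, hK, ⟨e⟩⟩
  · exfalso
    obtain ⟨Q, N, hN, hc⟩ := hnpc
    haveI := hN
    haveI : Group.IsSolvable (G ⧸ N) := by
      haveI : Group.IsNilpotent (Q : Subgroup G) := Q.2.isNilpotent
      exact solvable_of_surjective (f := hc.symm.QuotientMulEquiv.symm.toMonoidHom)
        hc.symm.QuotientMulEquiv.symm.surjective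
    have hNtop : N = ⊤ := (Subgroup.eq_top_iff' N).mpr fun g =>
      (QuotientGroup.eq_one_iff g).mp (hom_trivial_solvable hperf (QuotientGroup.mk' N) g)
    have hQ : (Q : Subgroup G) = ⊥ := by
      have := hc.disjoint
      rwa [hNtop, top_disjoint] at this
    haveI := R.isZGroup_of_two fun Q' => by
      haveI : Subsingleton (Q : Subgroup G) := by rw [hQ]; infer_instance
      exact isCyclic_of_surjective (Q.equiv Q') (Q.equiv Q').surjective
    exact hnotsolv inferInstance
  · have h24 : Nat.card (Matrix.SpecialLinearGroup (Fin 2) (ZMod 3)) = 24 := by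
      rw [Nat.card_eq_fintype_card]; decide +kernel
    have h1 := Subgroup.card_quotient_dvd_card (K.subgroupOf H)
    rw [Nat.card_congr e.toEquiv, h24] at h1
    exact (dvd_trans (by norm_num) h1).trans (Subgroup.card_subgroup_dvd_card H)

theorem isSolvable_perm_small {X : Type*} [Finite X] (hX : Nat.card X ≤ 4) :
    Group.IsSolvable (Equiv.Perm X) := by
  classical
  haveI := Fintype.ofFinite X
  have hc : Nat.card (Equiv.Perm X) = (Nat.card X).factorial := by
    rw [Nat.card_eq_fintype_card, Fintype.card_perm, Nat.card_eq_fintype_card]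
  obtain ⟨a, b, hab⟩ : ∃ a b, (Nat.card X).factorial = 2 ^ a * 3 ^ b := by
    interval_cases h : Nat.card X
    · exact ⟨0, 0, rfl⟩
    · exact ⟨0, 0, rfl⟩
    · exact ⟨1, 0, rfl⟩
    · exact ⟨1, 1, rfl⟩
    · exact ⟨3, 1, rfl⟩
  exact CfsgLib.Char.burnside_pq Nat.prime_two Nat.prime_three _ _ a b hc hab

/-- A perfect group has an icosahedral pair. -/
theorem exists_icosa_pair [Nontrivial A] [Nontrivial G] (hperf : commutator G = ⊤) :
    ∃ g y : G, orderOf g = 3 ∧ orderOf y = 3 ∧ R.S g y * R.S g y = 20 := by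
  classical
  haveI : Fact (Nat.Prime 3) := ⟨Nat.prime_three⟩
  obtain ⟨g, hg⟩ := exists_prime_orderOf_dvd_card' 3 (R.three_dvd hperf)
  by_contra hcon
  push Not at hcon
  -- a set of at most eight elements of order three, at most four axes
  obtain ⟨T, hT, hTD⟩ : ∃ T : Finset (Subgroup G), T.card ≤ 4 ∧
      ∀ x : G, orderOf x = 3 → Subgroup.zpowers x ∈ T := by
    by_cases hone : ∀ x : G, orderOf x = 3 → x = g ∨ x = g⁻¹
    · refine ⟨{Subgroup.zpowers g}, by simp, fun x hx => ?_⟩
      rw [Finset.mem_singleton]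
      rcases hone x hx with rfl | rfl
      · rfl
      · exact Subgroup.zpowers_inv
    push Not at hone
    obtain ⟨h, hh, hne1, hne2⟩ := hone
    obtain ⟨z, hz, hS⟩ : ∃ z, orderOf z = 3 ∧ R.S g z = -2 := by
      rcases R.pair_cases hg hh with e | e | e | e | e
      · exact absurd e.1 hne2
      · exact absurd e.1 hne1
      · exact ⟨h⁻¹, by rw [orderOf_inv, hh], by rw [R.S_inv_right hh, e]⟩
      · exact ⟨h, hh, e⟩
      · exact absurd e (hcon g h hg hh)
    refine ⟨Finset.univ.image fun m => Subgroup.zpowers (tetra g z m),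
      Finset.card_image_le.trans (by simp), fun x hx => ?_⟩
    by_contra hx'
    have h2 := two_le_count (R := R) hg hz hx hS fun m => ⟨fun e => hx' (Finset.mem_image.mpr
      ⟨m, Finset.mem_univ _, by rw [e]⟩), fun e => hx' (Finset.mem_image.mpr
      ⟨m, Finset.mem_univ _, by rw [e, Subgroup.zpowers_inv]⟩)⟩
    obtain ⟨⟨m, hm⟩⟩ : Nonempty {m : Fin 4 // R.S (tetra g z m) x * R.S (tetra g z m) x = 20} :=
      (Nat.card_pos_iff.mp (by omega)).1
    exact hcon _ x (tetra_three hg hz m) hx hm
  -- the group fixes every axis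
  let Ax := {Q : Subgroup G // ∃ x : G, orderOf x = 3 ∧ Q = Subgroup.zpowers x}
  have hAx : Nat.card Ax ≤ 4 := by
    refine le_trans ?_ hT
    rw [← Nat.card_eq_finsetCard]
    exact Nat.card_le_card_of_injective (fun Q : Ax => (⟨Q.1, by
      obtain ⟨x, hx, hQ⟩ := Q.2; rw [hQ]; exact hTD x hx⟩ : T))
      fun P Q e => Subtype.ext (congrArg (fun t : T => (t : Subgroup G)) e)
  haveI := isSolvable_perm_small hAx
  let act : G → Ax → Ax := fun k Q => ⟨Q.1.map (MulAut.conj k).toMonoidHom, by
    obtain ⟨x, hx, hQ⟩ := Q.2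
    exact ⟨k * x * k⁻¹, by rw [orderOf_conj', hx], by rw [hQ, MonoidHom.map_zpowers]; rfl⟩⟩
  have hact1 : ∀ Q, act 1 Q = Q := fun Q => Subtype.ext (by
    show Q.1.map (MulAut.conj (1 : G)).toMonoidHom = Q.1
    rw [map_one]; exact Subgroup.map_id _)
  have hact2 : ∀ a b Q, act (a * b) Q = act a (act b Q) := fun a b Q => Subtype.ext (by
    show Q.1.map (MulAut.conj (a * b)).toMonoidHom = (Q.1.map _).map _
    rw [Subgroup.map_map, map_mul]; rfl)
  letI : MulAction G Ax := { smul := act, one_smul := hact1, mul_smul := hact2 }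
  have hfix : ∀ (k : G) (Q : Ax), act k Q = Q := fun k Q =>
    Equiv.Perm.ext_iff.mp (hom_trivial_solvable hperf (MulAction.toPermHom G Ax) k) Q
  have hpm : ∀ k : G, k * g * k⁻¹ = g ∨ k * g * k⁻¹ = g⁻¹ := by
    intro k
    have h1 := congrArg Subtype.val (hfix k ⟨Subgroup.zpowers g, g, hg, rfl⟩)
    change (Subgroup.zpowers g).map (MulAut.conj k).toMonoidHom = Subgroup.zpowers g at h1
    have h2 : k * g * k⁻¹ ∈ Subgroup.zpowers g := by
      rw [← h1]
      exact Subgroup.mem_map.mpr ⟨g, Subgroup.mem_zpowers g, rfl⟩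
    obtain ⟨n, hn⟩ := mem_powers_iff_mem_zpowers.mpr h2
    simp only [← pow_mod_orderOf g n, hg] at hn
    have h3 : n % 3 = 0 ∨ n % 3 = 1 ∨ n % 3 = 2 := by omega
    rcases h3 with e | e | e <;> rw [e] at hn
    · exfalso
      have h4 : orderOf (k * g * k⁻¹) = 3 := by rw [orderOf_conj', hg]
      rw [← hn, pow_zero, orderOf_one] at h4
      omega
    · exact Or.inl (by rw [← hn, pow_one])
    · refine Or.inr ?_
      rw [← hn]
      exact eq_inv_of_mul_eq_one_left (by rw [← pow_succ, show 2 + 1 = orderOf g from hg.symm, pow_orderOf_eq_one])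
  let sgnHom : G →* Equiv.Perm {x : G // x = g ∨ x = g⁻¹} :=
    { toFun := fun k => (MulAut.conj k).toEquiv.subtypeEquiv fun x => by
        have hinv : ∀ k, k * g⁻¹ * k⁻¹ = (k * g * k⁻¹)⁻¹ := fun k => by group
        constructor
        · rintro (rfl | rfl)
          · exact hpm k
          · show k * g⁻¹ * k⁻¹ = g ∨ k * g⁻¹ * k⁻¹ = g⁻¹
            rw [hinv]
            rcases hpm k with e | e <;> rw [e]
            · exact Or.inr rfl
            · exact Or.inl (inv_inv g)
        · intro hx
          have e : x = k⁻¹ * (k * x * k⁻¹) * k⁻¹⁻¹ := by group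
          change k * x * k⁻¹ = g ∨ k * x * k⁻¹ = g⁻¹ at hx
          rcases hx with hx | hx <;> rw [e, hx]
          · exact hpm k⁻¹
          · rw [hinv]
            rcases hpm k⁻¹ with e' | e' <;> rw [e']
            · exact Or.inr rfl
            · exact Or.inl (inv_inv g)
      map_one' := by ext x; simp
      map_mul' := fun a b => by ext x; simp }
  haveI : Group.IsSolvable (Equiv.Perm {x : G // x = g ∨ x = g⁻¹}) := by
    refine isSolvable_perm_small ?_
    refine le_trans ?_ (by norm_num : 2 ≤ 4)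
    refine le_trans (Nat.card_le_card_of_surjective
      (fun b : Bool => (if b then ⟨g, Or.inl rfl⟩ else ⟨g⁻¹, Or.inr rfl⟩ : {x : G // x = g ∨ x = g⁻¹}))
      fun x => ?_) (by simp)
    rcases x.2 with e | e
    · exact ⟨true, Subtype.ext e.symm⟩
    · exact ⟨false, Subtype.ext e.symm⟩
  refine R.not_central_three hperf hg fun k => ?_
  exact congrArg Subtype.val (Equiv.Perm.ext_iff.mp (hom_trivial_solvable hperf sgnHom k) ⟨g, Or.inl rfl⟩)

theorem exists_pair_of_not_solvable [Nontrivial A] (hns : ¬ Group.IsSolvable G) :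
    ∃ g y : G, orderOf g = 3 ∧ orderOf y = 3 ∧ R.S g y * R.S g y = 20 := by
  classical
  obtain ⟨E, hE, hEc⟩ : ∃ E : Subgroup G, E ≠ ⊥ ∧ ⁅E, E⁆ = E := by
    obtain ⟨n, hn⟩ : ∃ n, derivedSeries G (n + 1) = derivedSeries G n := by
      by_contra h
      push Not at h
      have hdec : ∀ n, Nat.card (derivedSeries G n) + n ≤ Nat.card G := by
        intro n
        induction n with
        | zero => simpa using Nat.le_of_dvd Nat.card_pos (Subgroup.card_subgroup_dvd_card _)
        | succ n ih =>
          have hlt : derivedSeries G (n + 1) < derivedSeries G n :=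
            lt_of_le_of_ne (derivedSeries_antitone G (Nat.le_succ n)) (h n)
          have h2 : Nat.card (derivedSeries G (n + 1)) < Nat.card (derivedSeries G n) := by
            by_contra hge
            exact hlt.ne (Subgroup.eq_of_le_of_card_ge hlt.le (not_lt.mp hge))
          omega
      have h1 := hdec (Nat.card G)
      have h2 : 0 < Nat.card (derivedSeries G (Nat.card G)) := Nat.card_pos
      omega
    refine ⟨derivedSeries G n, fun e => hns ((Group.isSolvable_def G).mpr ⟨n, e⟩), ?_⟩
    rw [← derivedSeries_succ, hn]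
  haveI : Nontrivial E := (Subgroup.nontrivial_iff_ne_bot E).mpr hE
  have hperf : commutator E = ⊤ := by
    refine Subgroup.map_injective E.subtype_injective ?_
    rw [Subgroup.map_subtype_commutator, hEc, ← MonoidHom.range_eq_map, Subgroup.range_subtype]
  obtain ⟨g, y, hg, hy, h20⟩ := (R.restrict E).exists_icosa_pair hperf
  exact ⟨g, y, by rw [Subgroup.orderOf_coe, hg], by rw [Subgroup.orderOf_coe, hy], h20⟩

end FpfRep

theorem card_mulAut_le : Nat.card (MulAut S5) ≤ 120 := by
  classical
  have hmem : ∀ (σ : MulAut S5) (x : S5), (x ^ 3 = 1 ∧ x ≠ 1) → (σ x) ^ 3 = 1 ∧ σ x ≠ 1 := fun σ x hx =>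
    ⟨by rw [← map_pow, hx.1, map_one], fun e => hx.2 (by rwa [map_eq_one_iff _ σ.injective] at e)⟩
  obtain ⟨hG, hY, h5, h10⟩ := gens_mem
  rw [← card_pairs, ← Nat.card_eq_finsetCard]
  refine Nat.card_le_card_of_injective (fun σ : MulAut S5 => ⟨(σ genG, σ genY),
    Finset.mem_filter.mpr ⟨Finset.mem_product.mpr ⟨Finset.mem_filter.mpr ⟨Finset.mem_univ _, hmem σ _ hG⟩,
      Finset.mem_filter.mpr ⟨Finset.mem_univ _, hmem σ _ hY⟩⟩,
      by rw [← map_mul, ← map_pow, ne_eq, map_eq_one_iff _ σ.injective]; exact h5,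
      by rw [← map_mul, ← map_pow, h10, map_one]⟩⟩) fun σ τ e => ?_
  have e1 := congrArg Subtype.val e
  have h : σ.toMonoidHom = τ.toMonoidHom := by
    refine MonoidHom.eq_of_eqOn_dense closure_gens ?_
    rintro x (rfl | rfl)
    · exact congrArg Prod.fst e1
    · exact congrArg Prod.snd e1
  exact MulEquiv.ext fun x => DFunLike.congr_fun h x

theorem card_center_le : Nat.card (Subgroup.center S5) ≤ 2 := by
  classical
  refine le_trans ?_ card_center.le
  rw [← Nat.card_eq_finsetCard]
  exact Nat.card_le_card_of_injective (fun x => ⟨(x : S5), Finset.mem_filter.mpr ⟨Finset.mem_univ _,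
    ((Subgroup.mem_center_iff.mp x.2) genG).symm, ((Subgroup.mem_center_iff.mp x.2) genY).symm⟩⟩)
    fun a b e => Subtype.ext (Subtype.mk.inj e :)

theorem index_inn_le : (MulAut.conj : S5 →* MulAut S5).range.index ≤ 2 := by
  have hker : (MulAut.conj : S5 →* MulAut S5).ker ≤ Subgroup.center S5 := fun x hx => by
    rw [Subgroup.mem_center_iff]
    intro y
    have h1 : x * y * x⁻¹ = y := DFunLike.congr_fun (MonoidHom.mem_ker.mp hx) y
    exact (mul_inv_eq_iff_eq_mul.mp h1).symm
  have h1 := Subgroup.card_mul_index (MulAut.conj : S5 →* MulAut S5).ker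
  rw [Subgroup.index_ker, Nat.card_eq_fintype_card (α := S5), card_all] at h1
  have h2 := Subgroup.card_mul_index (MulAut.conj : S5 →* MulAut S5).range
  have h3 := card_mulAut_le
  have h4 : Nat.card (MulAut.conj : S5 →* MulAut S5).ker ≤ 2 :=
    (Nat.card_le_card_of_injective _ (Subgroup.inclusion_injective hker)).trans card_center_le
  nlinarith

/-- The structure of a group with an icosahedral pair. -/
theorem icosa_structure [Nontrivial A] (R : FpfRep G A) {g y : G} (hg : orderOf g = 3)
    (hy : orderOf y = 3) (h20 : R.S g y * R.S g y = 20) :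
    ∃ H : Subgroup G, H.Normal ∧ Nonempty (H ≃* S5) ∧
      ((H ⊔ Subgroup.centralizer (H : Set G)).index = 1 ∨ (H ⊔ Subgroup.centralizer (H : Set G)).index = 2) ∧
      IsZGroup (Subgroup.centralizer (H : Set G)) ∧
      (∀ x ∈ H ⊓ Subgroup.centralizer (H : Set G), x ^ 2 = 1) ∧
      (∀ x : G, orderOf x = 3 → x ∈ H) ∧
      ∀ x ∈ Subgroup.centralizer (H : Set G), orderOf x ≠ 4 := by
  classical
  haveI := Fintype.ofFinite G
  obtain ⟨φ, hφ, hφg, hφy⟩ := exists_sl25_hom hg hy h20
  set H := φ.range with hH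
  let e : S5 ≃* H := MonoidHom.ofInjective hφ
  set z := y * g * y⁻¹
  have hz : orderOf z = 3 := by rw [FpfRep.orderOf_conj', hg]
  have hgz : R.S g z = -2 := R.S_step hy hg (by rw [R.S_comm]; exact h20)
  have hD : ∀ x : G, orderOf x = 3 → x ∈ H := by
    have hle := card_three_le (R := R) hg hz hgz
    set D5 := Finset.univ.filter fun x : S5 => x ^ 3 = 1 ∧ x ≠ 1
    have hord : ∀ x ∈ D5, orderOf (φ x) = 3 := fun x hx => by
      obtain ⟨h1, h2⟩ := (Finset.mem_filter.mp hx).2
      haveI : Fact (Nat.Prime 3) := ⟨Nat.prime_three⟩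
      rw [orderOf_injective φ hφ, orderOf_eq_prime h1 h2]
    have hsub : D5.image φ ⊆ Finset.univ.filter fun x : G => orderOf x = 3 := by
      intro x hx
      obtain ⟨x₀, hx₀, rfl⟩ := Finset.mem_image.mp hx
      exact Finset.mem_filter.mpr ⟨Finset.mem_univ _, hord x₀ hx₀⟩
    have heq := Finset.eq_of_subset_of_card_le hsub (by
      rw [Finset.card_image_of_injective _ hφ, card_three, ← Fintype.card_subtype,
        ← Nat.card_eq_fintype_card]
      exact hle)
    intro x hx
    obtain ⟨x₀, -, rfl⟩ := Finset.mem_image.mp (heq ▸ Finset.mem_filter.mpr ⟨Finset.mem_univ x, hx⟩)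
    exact ⟨x₀, rfl⟩
  have hgen : H = Subgroup.closure ({g, y} : Set G) := by
    rw [hH, MonoidHom.range_eq_map, ← closure_gens, MonoidHom.map_closure, Set.image_pair, hφg, hφy]
  have hHn : H.Normal := by
    refine ⟨fun x hx k => ?_⟩
    have hle : H.map (MulAut.conj k).toMonoidHom ≤ H := by
      conv_lhs => rw [hgen]
      rw [MonoidHom.map_closure, Subgroup.closure_le]
      rintro _ ⟨w, (rfl | rfl), rfl⟩ <;> exact hD _ (by
        show orderOf (k * _ * k⁻¹) = 3
        rw [FpfRep.orderOf_conj']; assumption)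
    exact hle (Subgroup.mem_map.mpr ⟨x, hx, rfl⟩)
  haveI := hHn
  set C := Subgroup.centralizer (H : Set G)
  let T : G →* MulAut S5 :=
    (MulAut.congr e.symm).toMonoidHom.comp (MulAut.conjNormal : G →* MulAut H)
  have hN : (MulAut.conj : S5 →* MulAut S5).range.comap T ≤ H ⊔ C := by
    intro k hk
    obtain ⟨s, hs⟩ := hk
    have hkey : ∀ w : H, (e s : G) * w * (e s : G)⁻¹ = k * w * k⁻¹ := by
      intro w
      have h1 := congrArg e (DFunLike.congr_fun hs (e.symm w))
      simp only [T, MonoidHom.comp_apply, MulEquiv.coe_toMonoidHom, MulAut.conj_apply, map_mul,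
        map_inv, MulEquiv.apply_symm_apply] at h1
      have h2 := congrArg Subtype.val h1
      simp [MulAut.congr] at h2
      exact h2
    have hc : (e s : G)⁻¹ * k ∈ C := by
      rw [Subgroup.mem_centralizer_iff]
      intro w hw
      have h1 := hkey ⟨w, hw⟩
      calc w * ((e s : G)⁻¹ * k) = (e s : G)⁻¹ * ((e s : G) * w * (e s : G)⁻¹) * k := by group
        _ = (e s : G)⁻¹ * k * w := by rw [h1]; group
    have h2 := Subgroup.mul_mem (H ⊔ C) (Subgroup.mem_sup_left (e s).2) (Subgroup.mem_sup_right hc)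
    rwa [mul_inv_cancel_left] at h2
  have hidx : (H ⊔ C).index ≤ 2 := by
    have h1 := Subgroup.index_comap (MulAut.conj : S5 →* MulAut S5).range T
    have h2 : (MulAut.conj : S5 →* MulAut S5).range.relIndex T.range ≤
        (MulAut.conj : S5 →* MulAut S5).range.relIndex ⊤ :=
      Subgroup.relIndex_le_of_le_right le_top (by
        rw [Subgroup.relIndex_top_right]; exact Subgroup.index_ne_zero_of_finite)
    rw [Subgroup.relIndex_top_right, ← h1] at h2
    exact (Nat.le_of_dvd (Nat.pos_of_ne_zero Subgroup.index_ne_zero_of_finite)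
      (Subgroup.index_dvd_of_le hN)).trans (h2.trans index_inn_le)
  have hsq : ∀ x ∈ H ⊓ C, x ^ 2 = 1 := by
    rintro x ⟨⟨x₀, rfl⟩, hxC⟩
    have hx0 : x₀ ∈ Subgroup.center S5 := by
      rw [Subgroup.mem_center_iff]
      intro w
      exact hφ (by rw [map_mul, map_mul]; exact Subgroup.mem_centralizer_iff.mp hxC _ ⟨w, rfl⟩)
    have hle := card_center_le
    have hd := orderOf_dvd_natCard (⟨x₀, hx0⟩ : Subgroup.center S5)
    have hpos : 0 < Nat.card (Subgroup.center S5) := Nat.card_pos
    have h2 : orderOf (⟨x₀, hx0⟩ : Subgroup.center S5) ∣ 2 := by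
      rcases (by omega : Nat.card (Subgroup.center S5) = 1 ∨ Nat.card (Subgroup.center S5) = 2) with h | h <;>
        rw [h] at hd
      · exact hd.trans (one_dvd 2)
      · exact hd
    rw [← map_pow]
    show φ (x₀ ^ 2) = 1
    rw [show x₀ ^ 2 = 1 from congrArg Subtype.val (orderOf_dvd_iff_pow_eq_one.mp h2), map_one]
  have hno4 : ∀ x ∈ C, orderOf x ≠ 4 := by
    intro x hx h4
    haveI : Fact (Nat.Prime 2) := ⟨Nat.prime_two⟩
    let q0 : S5 := ⟨!![0, -1; 1, 0], by decide +kernel⟩
    set q := φ q0 with hqdef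
    have hq4 : orderOf q = 4 := by
      rw [hqdef, orderOf_injective φ hφ, show 4 = 2 ^ (1 + 1) from rfl]
      exact orderOf_eq_prime_pow (p := 2) (n := 1) (by decide +kernel) (by decide +kernel)
    have hcomm : Commute x q := (Subgroup.mem_centralizer_iff.mp hx q ⟨q0, rfl⟩).symm
    have h2 : ∀ w : G, orderOf w = 4 → R.ρ (w ^ 2) = -1 := fun w hw => R.two_eq (by
      rw [orderOf_pow' w two_ne_zero, hw]; rfl)
    have hw : R.ρ ((x * q) ^ 2) = 1 := by
      rw [hcomm.mul_pow, map_mul, h2 x h4, h2 q hq4]; norm_num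
    have hw' : (x * q) ^ 2 = 1 := R.inj (by rw [hw, map_one])
    have hmem : x * q ∈ H ⊓ C ∨ x * q = 1 ∨ x * q = q ^ 2 := by
      by_cases h1 : x * q = 1
      · exact Or.inr (Or.inl h1)
      have ho : orderOf (x * q) = 2 := orderOf_eq_prime hw' h1
      exact Or.inr (Or.inr (R.inj (by rw [R.two_eq ho, h2 q hq4])))
    have hxH : x ∈ H := by
      have hq : q ∈ H := ⟨q0, rfl⟩
      rcases hmem with h | h | h
      · have := H.mul_mem h.1 (H.inv_mem hq)
        rwa [mul_inv_cancel_right] at this
      · rw [eq_inv_of_mul_eq_one_left h]; exact H.inv_mem hq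
      · rw [sq] at h; rw [mul_right_cancel h]; exact hq
    have := orderOf_dvd_of_pow_eq_one (hsq x ⟨hxH, hx⟩)
    rw [h4] at this
    norm_num at this
  have hZ : IsZGroup C := by
    refine ⟨fun p hp P => ?_⟩
    haveI := Fact.mk hp
    rcases (R.restrict C).cyclic_or_quaternion P.2 with hc | ⟨rfl, n, ⟨eq⟩⟩
    · exact hc
    exfalso
    have h1 : orderOf (((eq.symm (QuaternionGroup.xa 0) : (P : Subgroup C)) : C) : G) = 4 := by
      rw [Subgroup.orderOf_coe, Subgroup.orderOf_coe, MulEquiv.orderOf_eq, QuaternionGroup.orderOf_xa]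
    exact hno4 _ ((eq.symm (QuaternionGroup.xa 0) : (P : Subgroup C)) : C).2 h1
  refine ⟨H, hHn, ⟨e.symm⟩, ?_, hZ, hsq, hD, hno4⟩
  rcases Nat.lt_or_ge (H ⊔ C).index 2 with h | h
  · exact Or.inl (le_antisymm (Nat.lt_succ_iff.mp h) (Nat.one_le_iff_ne_zero.mpr Subgroup.index_ne_zero_of_finite))
  · exact Or.inr (le_antisymm hidx h)

theorem perfect_iso [Nontrivial A] [Nontrivial G] (R : FpfRep G A) (hperf : commutator G = ⊤) :
    Nonempty (G ≃* S5) := by
  obtain ⟨g, y, hg, hy, h20⟩ := R.exists_icosa_pair hperf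
  obtain ⟨H, hHn, ⟨e⟩, hidx, hZ, -, -⟩ := icosa_structure R hg hy h20
  haveI := hHn
  haveI : (Subgroup.centralizer (H : Set G)).Normal := Subgroup.normal_centralizer
  haveI : Group.IsSolvable (Subgroup.centralizer (H : Set G)) := inferInstance
  set N := H ⊔ Subgroup.centralizer (H : Set G) with hN
  have htop : N = ⊤ := by
    rcases hidx with h | h
    · exact Subgroup.index_eq_one.mp h
    · exfalso
      haveI : N.Normal := Subgroup.normal_of_index_eq_two h
      haveI : Fact (Nat.Prime 2) := ⟨Nat.prime_two⟩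
      haveI : IsCyclic (G ⧸ N) := isCyclic_of_prime_card (p := 2) (by rw [← Subgroup.index_eq_card, h])
      letI : CommGroup (G ⧸ N) := IsCyclic.commGroup
      have : N = ⊤ := (Subgroup.eq_top_iff' N).mpr fun k =>
        (QuotientGroup.eq_one_iff k).mp (FpfRep.hom_trivial hperf (QuotientGroup.mk' N) k)
      rw [this, Subgroup.index_top] at h
      omega
  haveI : Group.IsSolvable (G ⧸ H) := by
    refine solvable_of_surjective
      (f := (QuotientGroup.mk' H).comp (Subgroup.centralizer (H : Set G)).subtype) fun x => ?_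
    obtain ⟨k, rfl⟩ := QuotientGroup.mk'_surjective H x
    obtain ⟨a, ha, b, hb, rfl⟩ := Subgroup.mem_sup_of_normal_left.mp (show k ∈ N by rw [htop]; trivial)
    refine ⟨⟨b, hb⟩, ?_⟩
    rw [MonoidHom.comp_apply, map_mul, show QuotientGroup.mk' H a = 1 from (QuotientGroup.eq_one_iff a).mpr ha,
      one_mul]
    rfl
  have hH : H = ⊤ := (Subgroup.eq_top_iff' H).mpr fun k =>
    (QuotientGroup.eq_one_iff k).mp (FpfRep.hom_trivial_solvable hperf (QuotientGroup.mk' H) k)
  exact ⟨(((MulEquiv.subgroupCongr hH).trans Subgroup.topEquiv).symm).trans e⟩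

end CfsgLib.FpfQuat
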