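import Cfsg.Prelude.Def_Perm
import Mathlib.GroupTheory.GroupAction.MultipleTransitivity
import Mathlib.GroupTheory.GroupAction.SubMulAction.Combination
import Mathlib.GroupTheory.GroupAction.Quotient
import Mathlib.GroupTheory.Perm.Cycle.Type
import Mathlib.GroupTheory.Sylow
import Mathlib.GroupTheory.Solvable
import Mathlib.RingTheory.Polynomial.Basic
import Mathlib.FieldTheory.Finite.Basic
import Mathlib.LinearAlgebra.FiniteDimensional.Lemmas
import Mathlib.Algebra.Field.ZMod
import Mathlib.LinearAlgebra.Lagrange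

/-!
# Permutation groups of prime degree
-/

set_option autoImplicit false
set_option linter.unusedSectionVars false
set_option linter.style.haveILetI false

namespace CfsgLib.PrimeDeg

open Polynomial MulAction

universe u v w

variable {p : ℕ} [hp : Fact p.Prime] {K : Type w} [Field K] [CharP K p]

/-- The embedding of the prime field. -/
noncomputable def emb (p : ℕ) (K : Type w) [Field K] [CharP K p] : ZMod p →+* K :=
  ZMod.castHom (dvd_refl p) K

theorem emb_injective : Function.Injective (emb p K) := (emb p K).injective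

variable (p K) in
/-- A polynomial as a function on the prime field. -/
noncomputable def evalFn : K[X] →ₗ[K] (ZMod p → K) where
  toFun P := fun j => P.eval (emb p K j)
  map_add' P Q := by funext j; simp
  map_smul' a P := by funext j; simp

variable (p K) in
/-- The polynomial functions of degree less than `r`. -/
noncomputable def polyFn (r : ℕ) : Submodule K (ZMod p → K) :=
  (Polynomial.degreeLT K r).map (evalFn p K)

theorem mem_polyFn {r : ℕ} {f : ZMod p → K} :
    f ∈ polyFn p K r ↔ ∃ P : K[X], P.degree < r ∧ ∀ j, f j = P.eval (emb p K j) := by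
  constructor
  · rintro ⟨P, hP, rfl⟩
    exact ⟨P, mem_degreeLT.mp hP, fun j => rfl⟩
  · rintro ⟨P, hP, h⟩
    exact ⟨P, mem_degreeLT.mpr hP, funext fun j => (h j).symm⟩

theorem eval_mem_polyFn {r : ℕ} {P : K[X]} (hP : P.degree < r) :
    (fun j => P.eval (emb p K j)) ∈ polyFn p K r :=
  mem_polyFn.mpr ⟨P, hP, fun _ => rfl⟩

theorem polyFn_mono {r s : ℕ} (h : r ≤ s) : polyFn p K r ≤ polyFn p K s :=
  Submodule.map_mono (degreeLT_mono h)

/-- A polynomial of degree less than zero vanishes. -/
theorem eq_zero_of_degree_lt_zero {P : K[X]} (hP : P.degree < ((0 : ℕ) : WithBot ℕ)) : P = 0 :=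
  degree_eq_bot.mp (Nat.WithBot.lt_zero_iff.mp hP)

theorem poly_unique {P Q : K[X]} (hP : P.degree < (p : ℕ)) (hQ : Q.degree < (p : ℕ))
    (h : ∀ j : ZMod p, P.eval (emb p K j) = Q.eval (emb p K j)) : P = Q := by
  classical
  refine Polynomial.eq_of_degrees_lt_of_eval_index_eq (s := (Finset.univ : Finset (ZMod p)))
    (v := emb p K) emb_injective.injOn ?_ ?_ fun j _ => h j
  · rwa [Finset.card_univ, ZMod.card]
  · rwa [Finset.card_univ, ZMod.card]

theorem finrank_polyFn {r : ℕ} (hr : r ≤ p) : Module.finrank K (polyFn p K r) = r := by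
  have hinj : Function.Injective ((evalFn p K).domRestrict (Polynomial.degreeLT K r)) := by
    rintro ⟨P, hP⟩ ⟨Q, hQ⟩ h
    refine Subtype.ext (poly_unique ((mem_degreeLT.mp hP).trans_le (by exact_mod_cast hr))
      ((mem_degreeLT.mp hQ).trans_le (by exact_mod_cast hr)) fun j => congrFun h j)
  have e : polyFn p K r = LinearMap.range ((evalFn p K).domRestrict (Polynomial.degreeLT K r)) := by
    rw [LinearMap.range_domRestrict]
    rfl
  rw [e, LinearMap.finrank_range_of_inj hinj, (degreeLTEquiv K r).finrank_eq,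
    Module.finrank_fintype_fun_eq_card, Fintype.card_fin]

theorem polyFn_top : polyFn p K p = ⊤ := by
  refine Submodule.eq_top_of_finrank_eq ?_
  rw [finrank_polyFn le_rfl, Module.finrank_fintype_fun_eq_card, ZMod.card]

theorem degree_shift_sub {P : K[X]} {r : ℕ} (hP : P.degree < (r + 1 : ℕ)) (a : K) :
    (P.comp (X + C a) - P).degree < (r : ℕ) := by
  by_cases h0 : P = 0
  · simp [h0]
  have hnd : (X + C a).natDegree = 1 := natDegree_X_add_C a
  have hlc : (P.comp (X + C a)).leadingCoeff = P.leadingCoeff := by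
    rw [leadingCoeff_comp (by rw [hnd]; exact one_ne_zero), leadingCoeff_X_add_C, one_pow, mul_one]
  have hne : P.comp (X + C a) ≠ 0 := fun e => by
    rw [e, leadingCoeff_zero] at hlc
    exact h0 (leadingCoeff_eq_zero.mp hlc.symm)
  have hd : (P.comp (X + C a)).degree = P.degree := by
    rw [degree_eq_natDegree hne, degree_eq_natDegree h0, natDegree_comp, hnd, mul_one]
  have h1 := degree_sub_lt_left hd hne hlc
  rw [hd, degree_eq_natDegree h0] at h1
  rw [degree_eq_natDegree h0] at hP
  have h2 : P.natDegree < r + 1 := by exact_mod_cast hP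
  exact h1.trans_le (by exact_mod_cast (show P.natDegree ≤ r by omega))

theorem shift_sub_mem {r : ℕ} {f : ZMod p → K} (hf : f ∈ polyFn p K (r + 1)) (u : ZMod p) :
    (fun j => f (j + u) - f j) ∈ polyFn p K r := by
  obtain ⟨P, hP, h⟩ := mem_polyFn.mp hf
  refine mem_polyFn.mpr ⟨_, degree_shift_sub hP (emb p K u), fun j => ?_⟩
  rw [h, h, map_add]
  simp

variable (p K) in
/-- The backwards difference operator. -/
noncomputable def diffOp : (ZMod p → K) →ₗ[K] (ZMod p → K) where
  toFun f := fun j => f (j + (-1)) - f j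
  map_add' f g := funext fun j => add_sub_add_comm _ _ _ _
  map_smul' a f := funext fun j => (mul_sub a _ _).symm

theorem diffOp_apply (f : ZMod p → K) : diffOp p K f = fun j => f (j + (-1)) - f j := rfl

theorem diffOp_mem {r : ℕ} {f : ZMod p → K} (hf : f ∈ polyFn p K (r + 1)) :
    diffOp p K f ∈ polyFn p K r := by
  rw [diffOp_apply]; exact shift_sub_mem hf (-1)

theorem mem_polyFn_one_of_diffOp {f : ZMod p → K} (hf : diffOp p K f = 0) :
    f ∈ polyFn p K 1 := by
  have hs : ∀ j, f (j + (-1)) = f j := fun j => sub_eq_zero.mp (congrFun hf j)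
  have hn : ∀ n : ℕ, f (-(n : ZMod p)) = f 0 := by
    intro n
    induction n with
    | zero => simp
    | succ n ih => rw [Nat.cast_succ, neg_add, hs, ih]
  refine mem_polyFn.mpr ⟨C (f 0), degree_C_le.trans_lt (by simp), fun j => ?_⟩
  rw [eval_C]
  obtain ⟨n, hn'⟩ := ZMod.natCast_zmod_surjective (-j)
  rw [← hn n, hn', neg_neg]

theorem exists_diffOp_eq {i : ℕ} (hi : i + 1 ≤ p) {h : ZMod p → K} (hh : h ∈ polyFn p K i) :
    ∃ g ∈ polyFn p K (i + 1), diffOp p K g = h := by
  have hsurj : Submodule.map (diffOp p K) (polyFn p K (i + 1)) = polyFn p K i := by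
    refine Submodule.eq_of_le_of_finrank_le ?_ ?_
    · rintro _ ⟨g, hg, rfl⟩
      exact diffOp_mem hg
    · have hrn := LinearMap.finrank_range_add_finrank_ker
        ((diffOp p K).domRestrict (polyFn p K (i + 1)))
      rw [LinearMap.range_domRestrict, finrank_polyFn hi] at hrn
      have hk : Module.finrank K
          (LinearMap.ker ((diffOp p K).domRestrict (polyFn p K (i + 1)))) ≤ 1 := by
        rw [← Submodule.finrank_map_subtype_eq, ← finrank_polyFn (p := p) (K := K) (r := 1) hp.out.one_le]
        refine Submodule.finrank_mono fun g hg => ?_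
        obtain ⟨x, hx, rfl⟩ := Submodule.mem_map.mp hg
        rw [LinearMap.mem_ker, LinearMap.domRestrict_apply] at hx
        exact mem_polyFn_one_of_diffOp hx
      rw [finrank_polyFn (show i ≤ p by omega)]
      omega
  rw [← hsurj] at hh
  exact Submodule.mem_map.mp hh

theorem polyFn_le_of_mem (W : Submodule K (ZMod p → K)) (hW : ∀ f ∈ W, diffOp p K f ∈ W) :
    ∀ i, i + 1 ≤ p → ∀ f ∈ W, f ∈ polyFn p K (i + 1) → f ∉ polyFn p K i →
      polyFn p K (i + 1) ≤ W := by
  intro i
  induction i with
  | zero =>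
    intro hi f hfW hf hf'
    have hle : Submodule.span K {f} ≤ polyFn p K (0 + 1) :=
      (Submodule.span_singleton_le_iff_mem _ _).mpr hf
    have hf0 : f ≠ 0 := fun e => hf' (e ▸ Submodule.zero_mem _)
    rw [← Submodule.eq_of_le_of_finrank_le hle
      (by rw [finrank_polyFn hi, finrank_span_singleton hf0])]
    exact (Submodule.span_singleton_le_iff_mem _ _).mpr hfW
  | succ i ih =>
    intro hi f hfW hf hf'
    have hD := diffOp_mem hf
    have hD' : diffOp p K f ∉ polyFn p K i := fun h => by
      obtain ⟨g, hg, hge⟩ := exists_diffOp_eq (show i + 1 ≤ p by omega) h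
      have h1 : f - g ∈ polyFn p K 1 :=
        mem_polyFn_one_of_diffOp (by rw [map_sub, hge, sub_self])
      have h2 := Submodule.add_mem _ (polyFn_mono (show 1 ≤ i + 1 by omega) h1) hg
      rw [sub_add_cancel] at h2
      exact hf' h2
    have hlow := ih (by omega) _ (hW f hfW) hD hD'
    have hlt : polyFn p K (i + 1) < polyFn p K (i + 1) ⊔ Submodule.span K {f} := by
      refine lt_of_le_of_ne le_sup_left fun e => hf' ?_
      rw [e]
      exact Submodule.mem_sup_right (Submodule.mem_span_singleton_self f)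
    have hfin := Submodule.finrank_lt_finrank_of_lt hlt
    rw [finrank_polyFn (show i + 1 ≤ p by omega)] at hfin
    have hle : polyFn p K (i + 1) ⊔ Submodule.span K {f} ≤ polyFn p K (i + 1 + 1) :=
      sup_le (polyFn_mono (by omega)) ((Submodule.span_singleton_le_iff_mem _ _).mpr hf)
    rw [← Submodule.eq_of_le_of_finrank_le hle (by rw [finrank_polyFn hi]; omega)]
    exact sup_le hlow ((Submodule.span_singleton_le_iff_mem _ _).mpr hfW)

/-- Translation invariant subspaces are spaces of polynomial functions. -/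
theorem eq_polyFn (W : Submodule K (ZMod p → K))
    (hW : ∀ f ∈ W, (fun j => f (j - 1)) ∈ W) :
    ∃ r, r ≤ p ∧ Module.finrank K W = r ∧ W = polyFn p K r := by
  classical
  have hD : ∀ f ∈ W, diffOp p K f ∈ W := fun f hf => by
    rw [diffOp_apply]
    have h := W.sub_mem (hW f hf) hf
    simp only [sub_eq_add_neg] at h ⊢
    exact h
  have hex : ∃ r, W ≤ polyFn p K r := ⟨p, by rw [polyFn_top]; exact le_top⟩
  have hle := Nat.find_spec hex
  have hrp : Nat.find hex ≤ p := Nat.find_le (by rw [polyFn_top]; exact le_top)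
  have heq : W = polyFn p K (Nat.find hex) := by
    refine le_antisymm hle ?_
    rcases hr : Nat.find hex with _ | i
    · rintro f hf
      obtain ⟨P, hP, h⟩ := mem_polyFn.mp hf
      rw [show f = 0 from funext fun j => by rw [h, eq_zero_of_degree_lt_zero hP, eval_zero]; rfl]
      exact W.zero_mem
    · have hmin : ¬ W ≤ polyFn p K i := Nat.find_min hex (by omega)
      obtain ⟨f, hf, hf'⟩ := SetLike.not_le_iff_exists.mp hmin
      exact polyFn_le_of_mem W hD i (by omega) f hf (by
        have := hle hf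
        rwa [hr] at this) hf'
  exact ⟨_, hrp, (LinearEquiv.ofEq _ _ heq).finrank_eq.trans (finrank_polyFn hrp), heq⟩

theorem sum_eval {Q : K[X]} (hQ : Q.degree < (p : ℕ)) :
    ∑ j : ZMod p, Q.eval (emb p K j) = -Q.coeff (p - 1) := by
  classical
  have hone : ∀ i < p, ∑ j : ZMod p, (emb p K j) ^ i = if i = p - 1 then -1 else 0 := by
    intro i hi
    rw [Finset.sum_congr rfl fun j _ => (map_pow (emb p K) j i).symm, ← map_sum]
    split_ifs with h
    · subst h
      have h2 := hp.out.two_le
      rw [← Finset.add_sum_erase _ _ (Finset.mem_univ (0 : ZMod p)), zero_pow (by omega), zero_add,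
        Finset.sum_congr rfl fun j hj => ZMod.pow_card_sub_one_eq_one (Finset.ne_of_mem_erase hj),
        Finset.sum_const, Finset.card_erase_of_mem (Finset.mem_univ _), Finset.card_univ, ZMod.card,
        nsmul_eq_mul, mul_one, Nat.cast_sub (by omega), ZMod.natCast_self, zero_sub, map_neg,
        Nat.cast_one, map_one]
    · rw [FiniteField.sum_pow_lt_card_sub_one (K := ZMod p) i (by rw [ZMod.card]; omega), map_zero]
  by_cases h0 : Q = 0
  · simp [h0]
  have hnd : Q.natDegree < p := by
    rw [degree_eq_natDegree h0] at hQ; exact_mod_cast hQ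
  simp only [eval_eq_sum_range' hnd]
  rw [Finset.sum_comm, Finset.sum_eq_single (p - 1)]
  · rw [← Finset.mul_sum, hone _ (by have := hp.out.two_le; omega), if_pos rfl, mul_neg, mul_one]
  · intro i hi hne
    rw [← Finset.mul_sum, hone i (Finset.mem_range.mp hi), if_neg hne, mul_zero]
  · intro h
    exact absurd (Finset.mem_range.mpr (by have := hp.out.two_le; omega)) h

theorem sum_mul_eq_zero {a b : ℕ} (hab : a + b ≤ p) {f g : ZMod p → K} (hf : f ∈ polyFn p K a)
    (hg : g ∈ polyFn p K b) : ∑ j, f j * g j = 0 := by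
  obtain ⟨P, hP, hfP⟩ := mem_polyFn.mp hf
  obtain ⟨Q, hQ, hgQ⟩ := mem_polyFn.mp hg
  by_cases h0 : P * Q = 0
  · refine Finset.sum_eq_zero fun j _ => ?_
    rw [hfP, hgQ, ← eval_mul, h0, eval_zero]
  obtain ⟨hP0, hQ0⟩ := mul_ne_zero_iff.mp h0
  rw [degree_eq_natDegree hP0] at hP
  rw [degree_eq_natDegree hQ0] at hQ
  have h1 : P.natDegree < a := by exact_mod_cast hP
  have h2 : Q.natDegree < b := by exact_mod_cast hQ
  have h3 := natDegree_mul hP0 hQ0
  have hd : (P * Q).degree < (p : ℕ) := by
    rw [degree_eq_natDegree h0]; exact_mod_cast (show (P * Q).natDegree < p by omega)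
  rw [Finset.sum_congr rfl fun j _ => show f j * g j = (P * Q).eval (emb p K j) by
    rw [eval_mul, hfP, hgQ], sum_eval hd, coeff_eq_zero_of_natDegree_lt (by omega), neg_zero]

theorem mem_of_sum_mul_eq_zero {r : ℕ} (hr : r ≤ p) {f : ZMod p → K}
    (h : ∀ g ∈ polyFn p K r, ∑ j, f j * g j = 0) : f ∈ polyFn p K (p - r) := by
  obtain ⟨P, hP, hfP⟩ := mem_polyFn.mp ((polyFn_top (p := p) (K := K)).symm ▸ Submodule.mem_top (x := f))
  by_cases hP0 : P = 0
  · exact mem_polyFn.mpr ⟨0, by rw [degree_zero]; exact WithBot.bot_lt_coe _, fun j => by rw [hfP, hP0]⟩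
  rw [degree_eq_natDegree hP0] at hP
  have hd : P.natDegree < p := by exact_mod_cast hP
  refine mem_polyFn.mpr ⟨P, ?_, hfP⟩
  rw [degree_eq_natDegree hP0]
  by_contra hc
  have hge : p - r ≤ P.natDegree := by
    by_contra h'
    exact hc (by exact_mod_cast (show P.natDegree < p - r by omega))
  have hX : ((X : K[X]) ^ (p - 1 - P.natDegree)).degree < (r : ℕ) := by
    rw [degree_X_pow]; exact_mod_cast (show p - 1 - P.natDegree < r by omega)
  have h1 := h _ (eval_mem_polyFn hX)
  have hmd : (P * X ^ (p - 1 - P.natDegree)).natDegree = p - 1 := by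
    rw [natDegree_mul hP0 (pow_ne_zero _ X_ne_zero), natDegree_X_pow]; omega
  have hne : P * X ^ (p - 1 - P.natDegree) ≠ 0 := mul_ne_zero hP0 (pow_ne_zero _ X_ne_zero)
  rw [Finset.sum_congr rfl fun j _ => show f j * _ = (P * X ^ (p - 1 - P.natDegree)).eval (emb p K j) by
    rw [eval_mul, hfP], sum_eval (by
      rw [degree_eq_natDegree hne, hmd]
      have := hp.out.two_le
      exact_mod_cast (show p - 1 < p by omega)), neg_eq_zero] at h1
  have hco' : (P * X ^ (p - 1 - P.natDegree)).coeff (p - 1) = P.coeff P.natDegree := by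
    have := coeff_mul_X_pow P (p - 1 - P.natDegree) P.natDegree
    rwa [Nat.add_sub_cancel' (by omega)] at this
  rw [hco'] at h1
  exact hP0 (leadingCoeff_eq_zero.mp h1)

/-- A permutation preserving a middle space of polynomial functions is affine. -/
theorem affine_of_invariant (π : Equiv.Perm (ZMod p)) {r : ℕ} (hr2 : 2 ≤ r) (hrp : r + 2 ≤ p)
    (h1 : ∀ f ∈ polyFn p K r, (fun j => f (π j)) ∈ polyFn p K r)
    (h2 : ∀ f ∈ polyFn p K r, (fun j => f (π.symm j)) ∈ polyFn p K r) :
    ∃ a b : ZMod p, ∀ j, π j = a * j + b := by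
  obtain ⟨s, hs2, hsp, hs⟩ : ∃ s, 2 ≤ s ∧ 2 * s ≤ p + 1 ∧
      ∀ f ∈ polyFn p K s, (fun j => f (π j)) ∈ polyFn p K s := by
    by_cases hc : 2 * r ≤ p + 1
    · exact ⟨r, hr2, hc, h1⟩
    · refine ⟨p - r, by omega, by omega, fun f hf => mem_of_sum_mul_eq_zero (by omega) fun g hg => ?_⟩
      rw [show (∑ j, f (π j) * g j) = ∑ j, f j * g (π.symm j) from
        Fintype.sum_equiv π _ _ fun j => by rw [Equiv.symm_apply_apply]]
      exact sum_mul_eq_zero (a := p - r) (b := r) (by omega) hf (h2 g hg)
  have hpow : ∀ i, i < s → (fun j => (emb p K (π j)) ^ i) ∈ polyFn p K s := by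
    intro i hi
    have h := eval_mem_polyFn (p := p) (K := K) (r := s) (P := X ^ i)
      (by rw [degree_X_pow]; exact_mod_cast hi)
    simpa using hs _ h
  obtain ⟨F, hF, hFe⟩ := mem_polyFn.mp (hpow 1 (by omega))
  by_cases hd : F.natDegree ≤ 1
  · have hlin := eq_X_add_C_of_natDegree_le_one hd
    have hb : emb p K (π 0) = F.coeff 0 := by
      have := hFe 0
      rw [pow_one, hlin] at this
      simpa using this
    have ha : emb p K (π 1) = F.coeff 1 + F.coeff 0 := by
      have := hFe 1
      rw [pow_one, hlin] at this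
      simpa using this
    refine ⟨π 1 - π 0, π 0, fun j => emb_injective (p := p) (K := K) ?_⟩
    have := hFe j
    rw [pow_one, hlin] at this
    rw [this, map_add, map_mul, map_sub, hb, ha]
    simp
  · exfalso
    push Not at hd
    have hF0 : F ≠ 0 := fun e => by rw [e, natDegree_zero] at hd; omega
    set d := F.natDegree
    have hds : d < s := by
      rw [degree_eq_natDegree hF0] at hF; exact_mod_cast hF
    set i := (s - 1) / d + 1 with hi
    have hdiv := Nat.div_add_mod (s - 1) d
    have hmod := Nat.mod_lt (s - 1) (show d > 0 by omega)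
    have hid1 : i * d = d * ((s - 1) / d) + d := by rw [hi]; ring
    have hle : (s - 1) / d ≤ (s - 1) / 2 := Nat.div_le_div_left hd (by norm_num)
    have his : i < s := by omega
    obtain ⟨Q, hQ, hQe⟩ := mem_polyFn.mp (hpow i his)
    have hne : F ^ i ≠ 0 := pow_ne_zero _ hF0
    have hdeg : (F ^ i).degree < (p : ℕ) := by
      rw [degree_eq_natDegree hne, natDegree_pow]
      exact_mod_cast (show i * d < p by omega)
    have e := poly_unique (p := p) hdeg (hQ.trans_le (by exact_mod_cast (show s ≤ p by omega))) fun j => by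
      rw [eval_pow, ← hFe, pow_one, ← hQe]
    rw [← e, degree_eq_natDegree hne, natDegree_pow] at hQ
    have : i * d < s := by exact_mod_cast hQ
    omega

/-! ### Groups of prime degree -/

variable {α : Type u} [Fintype α] [DecidableEq α]

/-- Coordinates in which a given element of order `p` is the translation by one. -/
theorem exists_coord (hα : Fintype.card α = p) (c : Equiv.Perm α) (hc : orderOf c = p) (a : α) :
    ∃ e : ZMod p ≃ α, e 0 = a ∧ ∀ j, c (e j) = e (j + 1) := by
  classical
  let f : ZMod p → α := fun j => (c ^ j.val) a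
  have hstep : ∀ n : ℕ, (c ^ n) a = f n := fun n => by
    show _ = (c ^ ((n : ZMod p)).val) a
    rw [ZMod.val_natCast, ← hc, pow_mod_orderOf]
  have hsucc : ∀ j, c (f j) = f (j + 1) := fun j => by
    show c ((c ^ j.val) a) = _
    rw [← Equiv.Perm.mul_apply, ← pow_succ', hstep, Nat.cast_succ, ZMod.natCast_zmod_val]
  have hc1 : c ≠ 1 := fun e => by rw [e, orderOf_one] at hc; exact hp.out.ne_one hc.symm
  have hP : IsPGroup p (Subgroup.zpowers c) :=
    IsPGroup.of_card (n := 1) (by rw [Nat.card_zpowers, hc, pow_one])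
  obtain ⟨b, hb⟩ : ∃ b, c b ≠ b := by
    by_contra h; push Not at h; exact hc1 (Equiv.ext h)
  have hfull : ∀ x : α, ∃ i : ℤ, (c ^ i) b = x := by
    intro x
    obtain ⟨n, hn⟩ := hP.card_orbit b
    have hle : Nat.card (orbit (Subgroup.zpowers c) b) ≤ p := by
      rw [← hα, ← Nat.card_eq_fintype_card]
      exact Nat.card_le_card_of_injective _ Subtype.val_injective
    have hn1 : n ≠ 0 := fun e => hb (by
      rw [e, pow_zero, Nat.card_eq_one_iff_unique] at hn
      exact congrArg Subtype.val (hn.1.elim ⟨c b, ⟨⟨c, Subgroup.mem_zpowers c⟩, rfl⟩⟩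
        ⟨b, mem_orbit_self b⟩))
    have hge : p ≤ Nat.card (orbit (Subgroup.zpowers c) b) := by
      rw [hn]; exact Nat.le_self_pow hn1 p
    have hu : orbit (Subgroup.zpowers c) b = Set.univ :=
      Set.eq_of_subset_of_ncard_le (Set.subset_univ _)
        (by rw [Set.ncard_univ, ← Nat.card_coe_set_eq, Nat.card_eq_fintype_card (α := α), hα]; exact hge)
        (Set.toFinite _)
    obtain ⟨⟨g, hg⟩, hgb⟩ : x ∈ orbit (Subgroup.zpowers c) b := hu ▸ Set.mem_univ x
    obtain ⟨i, rfl⟩ := Subgroup.mem_zpowers_iff.mp hg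
    exact ⟨i, hgb⟩
  have hsurj : Function.Surjective f := by
    intro x
    obtain ⟨i, hi⟩ := hfull x
    obtain ⟨j, hj⟩ := hfull a
    have hfin : IsOfFinOrder c := isOfFinOrder_of_finite c
    obtain ⟨n, hn⟩ : c ^ (i - j) ∈ Submonoid.powers c :=
      hfin.mem_powers_iff_mem_zpowers.mpr ⟨i - j, rfl⟩
    refine ⟨(n : ZMod p), ?_⟩
    rw [← hstep, show c ^ n = c ^ (i - j) from hn]
    conv_lhs => rw [← hj]
    rw [← Equiv.Perm.mul_apply, ← zpow_add, sub_add_cancel, hi]
  have hbij : Function.Bijective f :=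
    (Fintype.bijective_iff_surjective_and_card f).mpr ⟨hsurj, by rw [ZMod.card, hα]⟩
  refine ⟨Equiv.ofBijective f hbij, ?_, hsucc⟩
  show (c ^ (0 : ZMod p).val) a = a
  rw [ZMod.val_zero, pow_zero]
  rfl

variable (G : Subgroup (Equiv.Perm α)) [IsPretransitive G α]

theorem exists_orderOf (hα : Fintype.card α = p) : ∃ c : G, orderOf (c : Equiv.Perm α) = p := by
  haveI : Nonempty α := Fintype.card_pos_iff.mp (by rw [hα]; exact hp.out.pos)
  have hd : p ∣ Nat.card G := by
    rw [← hα, ← Nat.card_eq_fintype_card, ← index_stabilizer_of_transitive G (Classical.arbitrary α)]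
    exact Subgroup.index_dvd_card _
  obtain ⟨c, hc⟩ := exists_prime_orderOf_dvd_card' p hd
  exact ⟨c, by rw [Subgroup.orderOf_coe, hc]⟩

theorem solvable_of_affine (e : ZMod p ≃ α)
    (h : ∀ g : G, ∃ a b : ZMod p, ∀ j, (g : Equiv.Perm α) (e j) = e (a * j + b)) :
    Group.IsSolvable G := by
  choose a b hab using h
  have hne : ∀ g, a g ≠ 0 := fun g e0 => by
    have h0 := hab g 0
    have h1 := hab g 1
    rw [e0, zero_mul] at h0 h1
    exact zero_ne_one (e.injective ((g : Equiv.Perm α).injective (h0.trans h1.symm)))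
  have hmul : ∀ g g', a (g * g') = a g * a g' := by
    intro g g'
    have key : ∀ j, a (g * g') * j + b (g * g') = a g * (a g' * j + b g') + b g := fun j =>
      e.injective (by
        rw [← hab (g * g') j, Subgroup.coe_mul, Equiv.Perm.mul_apply, hab g' j, hab g])
    have h0 := key 0
    have h1 := key 1
    simp only [mul_zero, zero_add, mul_one] at h0 h1
    linear_combination h1 - h0
  let Φ : G →* (ZMod p)ˣ := MonoidHom.mk' (fun g => Units.mk0 (a g) (hne g))
    fun g g' => Units.ext (hmul g g')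
  haveI : IsMulCommutative Φ.ker := ⟨⟨fun x y => by
    refine Subtype.ext (Subtype.ext (Equiv.ext fun z => ?_))
    obtain ⟨j, rfl⟩ := e.surjective z
    have hx : a x.1 = 1 := congrArg Units.val (MonoidHom.mem_ker.mp x.2)
    have hy : a y.1 = 1 := congrArg Units.val (MonoidHom.mem_ker.mp y.2)
    show (x.1 : Equiv.Perm α) ((y.1 : Equiv.Perm α) (e j)) = (y.1 : Equiv.Perm α) ((x.1 : Equiv.Perm α) (e j))
    rw [hab y.1, hab x.1, hab x.1 j, hab y.1, hx, hy]
    congr 1
    ring⟩⟩
  haveI : Group.IsSolvable Φ.ker := Group.isSolvable_of_comm fun x y => IsMulCommutative.is_comm.comm x y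
  exact Group.isSolvable_of_ker_le_range Φ.ker.subtype Φ (by rw [Subgroup.range_subtype])

theorem perm_affine_two : ∀ σ : Equiv.Perm (ZMod 2), ∃ a b : ZMod 2, ∀ j, σ j = a * j + b := by
  decide

theorem perm_affine_three : ∀ σ : Equiv.Perm (ZMod 3), ∃ a b : ZMod 3, ∀ j, σ j = a * j + b := by
  decide

theorem solvable_of_small (hα : Fintype.card α = p) (h : p ≤ 3) : Group.IsSolvable G := by
  obtain ⟨c, hc⟩ := exists_orderOf G hα
  obtain ⟨x⟩ : Nonempty α := Fintype.card_pos_iff.mp (by rw [hα]; exact hp.out.pos)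
  obtain ⟨e, -, -⟩ := exists_coord hα _ hc x
  refine solvable_of_affine G e fun g => ?_
  have key : ∀ σ : Equiv.Perm (ZMod p), ∃ a b : ZMod p, ∀ j, σ j = a * j + b := by
    have h2 := hp.out.two_le
    interval_cases p
    · exact perm_affine_two
    · exact perm_affine_three
  obtain ⟨a, b, hab⟩ := key ((e.trans (g : Equiv.Perm α)).trans e.symm)
  exact ⟨a, b, fun j => e.symm.injective (by simpa using hab j)⟩

/-- A proper middle invariant subspace forces solvability. -/
theorem solvable_of_subrep (e : ZMod p ≃ α) (c : G) (hc : ∀ j, (c : Equiv.Perm α) (e j) = e (j + 1))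
    (W : Subrepresentation (Cfsg.permRep K G α)) (h2 : 2 ≤ Module.finrank K W.toSubmodule)
    (hp2 : Module.finrank K W.toSubmodule + 2 ≤ p) : Group.IsSolvable G := by
  let L : (α → K) ≃ₗ[K] (ZMod p → K) := LinearEquiv.funCongrLeft K K e
  have hmem : ∀ f : α → K, f ∈ W.toSubmodule ↔ (fun j => f (e j)) ∈ W.toSubmodule.map L.toLinearMap :=
    fun f => ⟨fun hf => ⟨f, hf, rfl⟩, fun ⟨f', hf', hff⟩ =>
      (L.injective (hff : L f' = L f)) ▸ hf'⟩
  obtain ⟨r, hr, hrr, hW⟩ := eq_polyFn (W.toSubmodule.map L.toLinearMap) (by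
    rintro _ ⟨f, hf, rfl⟩
    refine ⟨_, W.apply_mem_toSubmodule c hf, funext fun j => ?_⟩
    show f ((c : Equiv.Perm α)⁻¹ (e j)) = f (e (j - 1))
    rw [Equiv.Perm.inv_eq_iff_eq.mpr (show e j = (c : Equiv.Perm α) (e (j - 1)) by
      rw [hc, sub_add_cancel])])
  rw [LinearEquiv.finrank_map_eq] at hrr
  refine solvable_of_affine G e fun g => ?_
  let π : Equiv.Perm (ZMod p) := (e.trans (g : Equiv.Perm α)).trans e.symm
  have hinv : ∀ g' : G, ∀ f ∈ polyFn p K r,
      (fun j => f (e.symm ((g' : Equiv.Perm α)⁻¹ (e j)))) ∈ polyFn p K r := by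
    intro g' f hf
    rw [← hW] at hf ⊢
    obtain ⟨f₀, hf₀, rfl⟩ := hf
    refine ⟨_, W.apply_mem_toSubmodule g' hf₀, funext fun j => ?_⟩
    show f₀ ((g' : Equiv.Perm α)⁻¹ (e j)) = f₀ (e (e.symm ((g' : Equiv.Perm α)⁻¹ (e j))))
    rw [Equiv.apply_symm_apply]
  obtain ⟨a, b, hab⟩ := affine_of_invariant π (K := K) (r := r) (by omega) (by omega)
    (fun f hf => by simpa [π] using hinv g⁻¹ f hf)
    (fun f hf => hinv g f hf)
  exact ⟨a, b, fun j => e.symm.injective (by simpa [π] using hab j)⟩

theorem heart_irreducible (hα : Fintype.card α = p) (hG : ¬ Group.IsSolvable G)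
    (W : Subrepresentation (Cfsg.permRep K G α))
    (h₁ : (Cfsg.permConstants K G α).toSubmodule ≤ W.toSubmodule)
    (h₂ : W.toSubmodule ≤ (Cfsg.permSumZero K G α).toSubmodule) :
    W = Cfsg.permConstants K G α ∨ W = Cfsg.permSumZero K G α := by
  obtain ⟨c, hc⟩ := exists_orderOf G hα
  obtain ⟨x⟩ : Nonempty α := Fintype.card_pos_iff.mp (by rw [hα]; exact hp.out.pos)
  obtain ⟨e, -, he⟩ := exists_coord hα _ hc x
  have hC : Module.finrank K (Cfsg.permConstants K G α).toSubmodule = 1 :=
    finrank_span_singleton fun h => one_ne_zero (congrFun h x)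
  have hS : Module.finrank K (Cfsg.permSumZero K G α).toSubmodule + 1 ≤ p := by
    have hlt : Module.finrank K (Cfsg.permSumZero K G α).toSubmodule < Module.finrank K (α → K) :=
      Submodule.finrank_lt fun h => by
        have hm : Pi.single x (1 : K) ∈ (Cfsg.permSumZero K G α).toSubmodule := h ▸ Submodule.mem_top
        have hm' : ∑ y, (Pi.single x (1 : K) : α → K) y = 0 := hm
        rw [Finset.sum_pi_single'] at hm'
        simp at hm'
    rw [Module.finrank_fintype_fun_eq_card, hα] at hlt
    omega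
  have h1 := Submodule.finrank_mono h₁
  have h2 := Submodule.finrank_mono h₂
  rw [hC] at h1
  by_cases hmid : 2 ≤ Module.finrank K W.toSubmodule ∧ Module.finrank K W.toSubmodule + 2 ≤ p
  · exact absurd (solvable_of_subrep G e c he W hmid.1 hmid.2) hG
  · rcases Nat.lt_or_ge (Module.finrank K W.toSubmodule) 2 with h | h
    · left
      exact Subrepresentation.toSubmodule_injective
        (Submodule.eq_of_le_of_finrank_le h₁ (by rw [hC]; omega)).symm
    · right
      exact Subrepresentation.toSubmodule_injective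
        (Submodule.eq_of_le_of_finrank_le h₂ (by omega))

/-- The operator of an invariant set of pairs, shifted by its valency. -/
noncomputable def orbOp (O : α → α → ZMod p) (k : ZMod p) :
    (α → ZMod p) →ₗ[ZMod p] (α → ZMod p) where
  toFun f := fun x => (∑ y, O x y * f y) - k * f x
  map_add' f g := funext fun x => by simp [mul_add, Finset.sum_add_distrib]; ring
  map_smul' a f := funext fun x => by simp [Finset.mul_sum, mul_sub, mul_left_comm]

theorem burnside (hα : Fintype.card α = p) :
    Group.IsSolvable G ∨ IsMultiplyPretransitive G α 2 := by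
  classical
  by_cases hsmall : p ≤ 3
  · exact .inl (solvable_of_small G hα hsmall)
  by_cases hG : Group.IsSolvable G
  · exact .inl hG
  right
  rw [is_two_pretransitive_iff]
  intro a b a' b' hab hab'
  by_contra hnot
  apply hG
  obtain ⟨c, hc⟩ := exists_orderOf G hα
  obtain ⟨e, he0, he⟩ := exists_coord hα _ hc a
  let O : α → α → ZMod p := fun x y => if ∃ g : G, g • a = x ∧ g • b = y then 1 else 0
  have hOinv : ∀ (g : G) x y, O (g • x) (g • y) = O x y := by
    intro g x y
    by_cases h : ∃ g' : G, g' • a = x ∧ g' • b = y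
    · obtain ⟨g', h1, h2⟩ := h
      simp only [O]
      rw [if_pos (⟨g', h1, h2⟩ : ∃ g'' : G, g'' • a = x ∧ g'' • b = y), if_pos (⟨g * g', by rw [mul_smul, h1], by rw [mul_smul, h2]⟩ : ∃ g'' : G, g'' • a = g • x ∧ g'' • b = g • y)]
    · simp only [O]
      rw [if_neg h, if_neg fun ⟨g', h1, h2⟩ => h ⟨g⁻¹ * g', by rw [mul_smul, h1, inv_smul_smul],
        by rw [mul_smul, h2, inv_smul_smul]⟩]
  have hpow : ∀ u : ZMod p, ∃ g : G, ∀ j, g • e j = e (j + u) := by
    intro u
    obtain ⟨n, rfl⟩ := ZMod.natCast_zmod_surjective u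
    induction n with
    | zero => exact ⟨1, fun j => by rw [one_smul, Nat.cast_zero, add_zero]⟩
    | succ n ih =>
      obtain ⟨g, hg⟩ := ih
      refine ⟨c * g, fun j => ?_⟩
      rw [mul_smul, hg]
      show (c : Equiv.Perm α) _ = _
      rw [he, Nat.cast_succ, add_assoc]
  let k : ZMod p := ∑ y, O a y
  let N := orbOp O k
  have hNg : ∀ (g : G) (f : α → ZMod p),
      N (Cfsg.permRep (ZMod p) G α g f) = Cfsg.permRep (ZMod p) G α g (N f) := by
    intro g f
    funext x
    show (∑ y, O x y * f (g⁻¹ • y)) - k * f (g⁻¹ • x) = (∑ y, O (g⁻¹ • x) y * f y) - k * f (g⁻¹ • x)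
    congr 1
    refine Fintype.sum_equiv (MulAction.toPerm g⁻¹) _ _ fun y => ?_
    show O x y * f (g⁻¹ • y) = O (g⁻¹ • x) (g⁻¹ • y) * f (g⁻¹ • y)
    rw [hOinv]
  -- in coordinates the operator lowers degrees
  have hlow : ∀ r, ∀ f : α → ZMod p, (fun j => f (e j)) ∈ polyFn p (ZMod p) (r + 1) →
      (fun j => N f (e j)) ∈ polyFn p (ZMod p) r := by
    intro r f hf
    have e1 : (fun j => N f (e j)) = ∑ u : ZMod p, O (e 0) (e u) • fun j => f (e (j + u)) - f (e j) := by
      funext j
      rw [Finset.sum_apply]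
      simp only [Pi.smul_apply, smul_eq_mul, mul_sub, Finset.sum_sub_distrib, ← Finset.sum_mul]
      show (∑ y, O (e j) y * f y) - k * f (e j) = _
      congr 1
      · obtain ⟨g, hg⟩ := hpow j
        refine (Fintype.sum_equiv (((Equiv.addRight j).trans e)) _ _ fun u => ?_).symm
        show O (e 0) (e u) * f (e (j + u)) = O (e j) (e (u + j)) * f (e (u + j))
        rw [add_comm j u, ← hOinv g (e 0) (e u), hg, hg, zero_add]
      · congr 1
        refine (Fintype.sum_equiv e _ _ fun u => ?_).symm
        rw [he0]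
    rw [e1]
    exact Submodule.sum_mem _ fun u _ => Submodule.smul_mem _ _ (shift_sub_mem hf u)
  have hconst : ∀ f : α → ZMod p, (∀ x, f x = f a) → N f = 0 := by
    intro f hf
    funext x
    obtain ⟨g, rfl⟩ := exists_smul_eq G a x
    show (∑ y, O (g • a) y * f y) - k * f (g • a) = 0
    rw [hf (g • a), Finset.sum_congr rfl fun y _ => by rw [hf y], ← Finset.sum_mul, ← sub_mul]
    have : ∑ y, O (g • a) y = k :=
      (Fintype.sum_equiv (MulAction.toPerm g) _ _ fun y => (hOinv g a y).symm).symm
    rw [this, sub_self, zero_mul]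
  let V1 : Subrepresentation (Cfsg.permRep (ZMod p) G α) :=
    ⟨LinearMap.ker N, fun g f hf => by
      rw [LinearMap.mem_ker] at hf ⊢
      rw [hNg, hf, map_zero]⟩
  let V2 : Subrepresentation (Cfsg.permRep (ZMod p) G α) :=
    ⟨LinearMap.ker (N.comp N), fun g f hf => by
      rw [LinearMap.mem_ker, LinearMap.comp_apply] at hf ⊢
      rw [hNg, hNg, hf, map_zero]⟩
  have hV1pos : 1 ≤ Module.finrank (ZMod p) V1.toSubmodule := by
    have hle : Submodule.span (ZMod p) {fun _ : α => (1 : ZMod p)} ≤ V1.toSubmodule := by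
      rw [Submodule.span_singleton_le_iff_mem]
      exact LinearMap.mem_ker.mpr (hconst _ fun _ => rfl)
    have := Submodule.finrank_mono hle
    rwa [finrank_span_singleton fun h => one_ne_zero (congrFun h a)] at this
  have hV1le : Module.finrank (ZMod p) V1.toSubmodule + 2 ≤ p := by
    by_contra hc'
    have hpr : Module.finrank (ZMod p) (LinearMap.range N) ≤ 1 := by
      have := LinearMap.finrank_range_add_finrank_ker N
      rw [Module.finrank_fintype_fun_eq_card, hα] at this
      have e' : Module.finrank (ZMod p) V1.toSubmodule = Module.finrank (ZMod p) (LinearMap.ker N) := rfl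
      omega
    -- all images are constant
    have hNc : ∀ f, ∀ x, N f x = N f a := by
      by_cases hN0 : N = 0
      · intro f x; rw [hN0]; rfl
      obtain ⟨r, hr, hrr, hW⟩ := eq_polyFn ((LinearMap.range N).map
        (LinearEquiv.funCongrLeft (ZMod p) (ZMod p) e).toLinearMap) (by
          rintro _ ⟨_, ⟨f, rfl⟩, rfl⟩
          obtain ⟨g, hg⟩ := hpow (-1)
          refine ⟨N (Cfsg.permRep (ZMod p) G α g⁻¹ f), ⟨_, rfl⟩, funext fun j => ?_⟩
          show N (Cfsg.permRep (ZMod p) G α g⁻¹ f) (e j) = N f (e (j - 1))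
          rw [hNg, sub_eq_add_neg, ← hg j]
          show N f (g⁻¹⁻¹ • e j) = _
          rw [inv_inv])
      rw [LinearEquiv.finrank_map_eq] at hrr
      intro f x
      have hm : (fun j => N f (e j)) ∈ polyFn p (ZMod p) 1 :=
        polyFn_mono (show r ≤ 1 by omega) (hW ▸ ⟨N f, ⟨f, rfl⟩, rfl⟩)
      obtain ⟨P, hP, hPe⟩ := mem_polyFn.mp hm
      rw [Nat.cast_one] at hP
      have hPd : P = C (P.coeff 0) := eq_C_of_degree_le_zero (Polynomial.degree_le_of_natDegree_le (by
        have := natDegree_lt_iff_degree_lt (p := P) (n := 1)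
        by_cases h0 : P = 0
        · simp [h0]
        · exact Nat.le_of_lt_succ ((natDegree_lt_iff_degree_lt h0).mpr (by simpa using hP))))
      have hall : ∀ j, N f (e j) = P.coeff 0 := fun j => by rw [hPe j, hPd]; simp
      rw [← e.apply_symm_apply x, hall, ← he0, hall]
    have hcol : ∀ x y : α, x ≠ y → y ≠ a → x ≠ a → O x y = O a y := by
      intro x y hxy hya _
      have h := hNc (Pi.single y 1) x
      change (∑ z, O x z * (Pi.single y (1 : ZMod p) : α → ZMod p) z) - k * (Pi.single y (1 : ZMod p) : α → ZMod p) x =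
        (∑ z, O a z * (Pi.single y (1 : ZMod p) : α → ZMod p) z) - k * (Pi.single y (1 : ZMod p) : α → ZMod p) a at h
      rw [Pi.single_eq_of_ne hxy, Pi.single_eq_of_ne (Ne.symm hya)] at h
      simpa [Pi.single_apply] using h
    -- so adjacency only depends on the second point, hence is constant off the diagonal
    have hAB : ∀ w v : ZMod p, w ≠ 0 → v ≠ 0 → O a (e w) = O a (e v) := by
      intro w v hw hv
      by_cases hwv : w = v
      · rw [hwv]
      obtain ⟨g, hg⟩ := hpow (v - w)
      have h := hOinv g (e 0) (e w)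
      rw [hg, hg, zero_add, add_sub_cancel, he0] at h
      rw [← h]
      refine hcol _ _ (fun e' => hw ?_) (fun e' => hv ?_) (fun e' => hwv ?_)
      · exact sub_eq_self.mp (e.injective e')
      · exact e.injective (e'.trans he0.symm)
      · exact (sub_eq_zero.mp (e.injective (e'.trans he0.symm))).symm
    obtain ⟨i, hi⟩ := e.surjective b
    have hi0 : i ≠ 0 := fun e' => hab (by rw [← hi, e', he0])
    obtain ⟨g, hga⟩ := exists_smul_eq G a a'
    obtain ⟨j, hj⟩ := e.surjective (g⁻¹ • b')
    have hj0 : j ≠ 0 := fun e' => hab' (by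
      rw [← hga, ← smul_inv_smul g b', ← hj, e', he0])
    have h := hAB j i hj0 hi0
    rw [hj, hi] at h
    simp only [O] at h
    have h1 : ∃ g : G, g • a = a ∧ g • b = b := ⟨1, one_smul _ _, one_smul _ _⟩
    rw [if_pos h1] at h
    split_ifs at h with h'
    · obtain ⟨g', h1, h2⟩ := h'
      exact hnot ⟨g * g', by rw [mul_smul, h1, hga], by rw [mul_smul, h2, smul_inv_smul]⟩
    · exact zero_ne_one h
  by_cases h2 : 2 ≤ Module.finrank (ZMod p) V1.toSubmodule
  · exact solvable_of_subrep G e c he V1 h2 hV1le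
  · have hV1 : Module.finrank (ZMod p) V1.toSubmodule = 1 := by omega
    have hge : 2 ≤ Module.finrank (ZMod p) V2.toSubmodule := by
      have hle : (polyFn p (ZMod p) 2).map
          (LinearEquiv.funCongrLeft (ZMod p) (ZMod p) e).symm.toLinearMap ≤ V2.toSubmodule := by
        rintro _ ⟨f, hf, rfl⟩
        show _ ∈ LinearMap.ker (N.comp N)
        rw [LinearMap.mem_ker, LinearMap.comp_apply]
        set f' := (LinearEquiv.funCongrLeft (ZMod p) (ZMod p) e).symm f
        have hf' : (fun j => f' (e j)) ∈ polyFn p (ZMod p) 2 := by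
          rw [show (fun j => f' (e j)) = f from
            (LinearEquiv.funCongrLeft (ZMod p) (ZMod p) e).apply_symm_apply f]
          exact hf
        have h0 := hlow 0 (N f') (hlow 1 f' hf')
        obtain ⟨P, hP, hPe⟩ := mem_polyFn.mp h0
        funext x
        obtain ⟨j, rfl⟩ := e.surjective x
        show N (N f') (e j) = 0
        rw [hPe j, eq_zero_of_degree_lt_zero hP, eval_zero]
      have := Submodule.finrank_mono hle
      rwa [LinearEquiv.finrank_map_eq, finrank_polyFn (by omega)] at this
    have hle2 : Module.finrank (ZMod p) V2.toSubmodule ≤ 2 := by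
      let φ : V2.toSubmodule →ₗ[ZMod p] V1.toSubmodule :=
        LinearMap.codRestrict _ (N.comp V2.toSubmodule.subtype) fun f => f.2
      have hrn := LinearMap.finrank_range_add_finrank_ker φ
      have hk : Module.finrank (ZMod p) (LinearMap.ker φ) ≤ Module.finrank (ZMod p) V1.toSubmodule := by
        refine LinearMap.finrank_le_finrank_of_injective
          (f := LinearMap.codRestrict V1.toSubmodule
            (V2.toSubmodule.subtype.comp (Submodule.subtype _))
            fun x => congrArg Subtype.val (LinearMap.mem_ker.mp x.2)) fun x y e' => ?_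
        exact Subtype.ext (Subtype.ext (congrArg Subtype.val e' :))
      have := Submodule.finrank_le (LinearMap.range φ)
      omega
    exact solvable_of_subrep G e c he V2 hge (by omega)

end CfsgLib.PrimeDeg
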