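import Cfsg.Agent.Lib.ClassicalSL

/-!
`SL(3,F)` is generated by two conjugate regular unipotent elements.
-/

set_option autoImplicit false

namespace CfsgLib.SLThreeTwoUnipotent

open Matrix

abbrev SL3 (F : Type*) [Field F] := Matrix.SpecialLinearGroup (Fin 3) F

variable {F : Type*} [Field F] {H : Subgroup (SL3 F)}

/-- The matrix `1 + x ψ` lies in `H`. -/
def Mem (H : Subgroup (SL3 F)) (x ψ : Fin 3 → F) : Prop :=
  ∃ h ∈ H, (h : Matrix (Fin 3) (Fin 3) F) = 1 + vecMulVec x ψ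

theorem Mem.zero (ψ : Fin 3 → F) : Mem H 0 ψ := ⟨1, one_mem H, by simp⟩

theorem Mem.add {x y ψ : Fin 3 → F} (hx : Mem H x ψ) (hy : Mem H y ψ) (h : ψ ⬝ᵥ y = 0) :
    Mem H (x + y) ψ := by
  obtain ⟨a, ha, ea⟩ := hx
  obtain ⟨b, hb, eb⟩ := hy
  refine ⟨a * b, mul_mem ha hb, ?_⟩
  rw [Matrix.SpecialLinearGroup.coe_mul, ea, eb, add_mul, mul_add, mul_add,
    Matrix.vecMulVec_mul_vecMulVec, h, add_vecMulVec]
  simp [add_comm, add_left_comm, add_assoc]

theorem Mem.neg {x ψ : Fin 3 → F} (hx : Mem H x ψ) (h : ψ ⬝ᵥ x = 0) : Mem H (-x) ψ := by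
  obtain ⟨a, ha, ea⟩ := hx
  refine ⟨a⁻¹, inv_mem ha, ?_⟩
  have h1 : (1 + vecMulVec (-x) ψ) * (1 + vecMulVec x ψ) = (1 : Matrix (Fin 3) (Fin 3) F) := by
    rw [add_mul, mul_add, mul_add, Matrix.vecMulVec_mul_vecMulVec, h]
    simp [Matrix.neg_vecMulVec]
  calc ((a⁻¹ : SL3 F) : Matrix (Fin 3) (Fin 3) F)
      = (1 + vecMulVec (-x) ψ) * (a : Matrix (Fin 3) (Fin 3) F) * (a⁻¹ : SL3 F) := by
        rw [ea, h1, one_mul]
    _ = 1 + vecMulVec (-x) ψ := by
        rw [mul_assoc, ← Matrix.SpecialLinearGroup.coe_mul, mul_inv_cancel,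
          Matrix.SpecialLinearGroup.coe_one, mul_one]

theorem Mem.conj {x ψ : Fin 3 → F} (hx : Mem H x ψ) {g : SL3 F} (hg : g ∈ H) :
    Mem H (g.1 *ᵥ x) (ψ ᵥ* (g⁻¹ : SL3 F).1) := by
  obtain ⟨a, ha, ea⟩ := hx
  refine ⟨g * a * g⁻¹, mul_mem (mul_mem hg ha) (inv_mem hg), ?_⟩
  rw [Matrix.SpecialLinearGroup.coe_mul, Matrix.SpecialLinearGroup.coe_mul, ea, mul_add, add_mul,
    mul_one, ← Matrix.SpecialLinearGroup.coe_mul, mul_inv_cancel, Matrix.SpecialLinearGroup.coe_one,
    Matrix.mul_vecMulVec, Matrix.vecMulVec_mul]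

theorem Mem.comm {a α b β : Fin 3 → F} (hA : Mem H a α) (hB : Mem H b β) (hαa : α ⬝ᵥ a = 0)
    (hβb : β ⬝ᵥ b = 0) (hαb : α ⬝ᵥ b = 0) : Mem H ((β ⬝ᵥ a) • b) α := by
  obtain ⟨X, hX, eX⟩ := hA
  obtain ⟨Y, hY, eY⟩ := hB
  refine ⟨Y * X * (X * Y)⁻¹, mul_mem (mul_mem hY hX) (inv_mem (mul_mem hX hY)), ?_⟩
  have h1 : (1 + vecMulVec ((β ⬝ᵥ a) • b) α) * ((X * Y : SL3 F) : Matrix (Fin 3) (Fin 3) F)
      = ((Y * X : SL3 F) : Matrix (Fin 3) (Fin 3) F) := by
    rw [Matrix.SpecialLinearGroup.coe_mul, Matrix.SpecialLinearGroup.coe_mul, eX, eY]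
    simp only [add_mul, mul_add, one_mul, mul_one, Matrix.vecMulVec_mul_vecMulVec, hαa, hαb,
      zero_smul, smul_vecMulVec, Matrix.smul_mul, Matrix.mul_smul, smul_zero, add_zero, zero_add]
    simp [add_comm, add_left_comm, add_assoc]
  rw [Matrix.SpecialLinearGroup.coe_mul, ← h1, mul_assoc, ← Matrix.SpecialLinearGroup.coe_mul,
    mul_inv_cancel, Matrix.SpecialLinearGroup.coe_one, mul_one]

/-- A change of basis turns three full transvection groups into the elementary matrices. -/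
theorem eq_top_of_full (P Q : Matrix (Fin 3) (Fin 3) F) (hQP : Q * P = 1)
    (hfull : ∀ j, ∀ x : Fin 3 → F, P j ⬝ᵥ x = 0 → Mem H x (P j)) : H = ⊤ := by
  have hPQ : P * Q = 1 := mul_eq_one_comm.mp hQP
  have hdet : Q.det * P.det = 1 := by rw [← Matrix.det_mul, hQP, Matrix.det_one]
  let f : SL3 F →* SL3 F :=
    { toFun := fun g => ⟨Q * g.1 * P, by
        rw [Matrix.det_mul, Matrix.det_mul, g.2, mul_one, hdet]⟩
      map_one' := Subtype.ext (by simp [hQP])
      map_mul' := fun g h => Subtype.ext (by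
        show Q * (g.1 * h.1) * P = Q * g.1 * P * (Q * h.1 * P)
        rw [mul_assoc (Q * g.1) P, ← mul_assoc P (Q * h.1), ← mul_assoc P Q, hPQ, one_mul]
        simp only [mul_assoc]) }
  have htop : H.comap f = ⊤ := by
    refine CfsgLib.Classical.sl_eq_top_of_transvection fun i j hij c => ?_
    obtain ⟨h, hh, eh⟩ := hfull j (Q *ᵥ Pi.single i c) (by
      rw [show P j ⬝ᵥ (Q *ᵥ Pi.single i c) = (P *ᵥ (Q *ᵥ Pi.single i c)) j from rfl,
        Matrix.mulVec_mulVec, hPQ, Matrix.one_mulVec, Pi.single_eq_of_ne hij.symm])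
    rw [Subgroup.mem_comap]
    suffices e : f (SpecialLinearGroup.transvection hij c) = h by rw [e]; exact hh
    apply Subtype.ext
    show Q * (SpecialLinearGroup.transvection hij c).1 * P = h.1
    rw [eh, SpecialLinearGroup.transvection_coe, mul_add, add_mul, mul_one, hQP]
    congr 1
    have : P j = Pi.single j 1 ᵥ* P := by simp; rfl
    have hsv : Matrix.single i j c = vecMulVec (Pi.single i c) (Pi.single j (1 : F)) := by
      ext x y
      by_cases hx : i = x <;> by_cases hy : j = y <;>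
        simp [Matrix.single, vecMulVec, Pi.single_apply, eq_comm, hx, hy]
    rw [this, ← Matrix.vecMulVec_mul, ← Matrix.mul_vecMulVec, hsv]
  rw [eq_top_iff]
  intro g _
  let g' : SL3 F := ⟨P * g.1 * Q, by
    rw [Matrix.det_mul, Matrix.det_mul, g.2, mul_one, mul_comm, hdet]⟩
  have hg : g' ∈ H.comap f := htop ▸ Subgroup.mem_top _
  rw [Subgroup.mem_comap] at hg
  convert hg
  apply Subtype.ext
  show g.1 = Q * (P * g.1 * Q) * P
  rw [← mul_assoc, ← mul_assoc, hQP, one_mul, mul_assoc, hQP, mul_one]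

/-- A finite field has no proper subring containing an element of order at least `(q - 1) / 3`,
unless it has four elements. -/
theorem subring_eq_top [Fintype F] (R : Subring F) {l : F} (hl : l ≠ 0)
    (hgen : orderOf l = Fintype.card F - 1) (hρ : (l⁻¹) ^ 3 ∈ R) (hq : Fintype.card F ≠ 4) :
    R = ⊤ := by
  classical
  haveI : Fintype R := Fintype.ofFinite R
  letI : Field R := (Finite.isDomain_to_isField (↥R)).toField
  rcases eq_or_ne (Fintype.card R) (Fintype.card F) with he | he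
  · refine SetLike.coe_injective (Set.eq_univ_of_forall fun x => ?_)
    have hs := ((Fintype.bijective_iff_injective_and_card (Subtype.val : R → F)).mpr
      ⟨Subtype.val_injective, he⟩).2 x
    obtain ⟨y, hy⟩ := hs
    rw [← hy]
    exact y.2
  exfalso
  obtain ⟨n, hn⟩ : ∃ n : ℕ, Fintype.card F = Fintype.card R ^ n :=
    ⟨Module.finrank R F, Module.card_eq_pow_finrank⟩
  set r := Fintype.card R
  have hr : 2 ≤ r := Fintype.one_lt_card
  set x : R := ⟨_, hρ⟩
  have hx : x ≠ 0 := fun h => pow_ne_zero 3 (inv_ne_zero hl) (congrArg Subtype.val h)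
  have h1 : x ^ (r - 1) = 1 := FiniteField.pow_card_sub_one_eq_one x hx
  have h2 : l ^ (3 * (r - 1)) = 1 := by
    have := congrArg Subtype.val h1
    rw [SubmonoidClass.coe_pow, OneMemClass.coe_one] at this
    rw [← inv_inv l, inv_pow, pow_mul, this, inv_one]
  have h3 := Nat.le_of_dvd (by omega) (hgen ▸ orderOf_dvd_of_pow_eq_one h2)
  have hn2 : 2 ≤ n := by
    rcases n with _ | _ | n
    · rw [pow_zero] at hn
      have : 1 < Fintype.card F := Fintype.one_lt_card
      omega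
    · rw [pow_one] at hn; exact absurd hn.symm he
    · omega
  have h4 : r ^ 2 ≤ Fintype.card F := hn ▸ Nat.pow_le_pow_right (by omega) hn2
  have h5 : r = 2 := by
    by_contra hne
    have : 3 * r ≤ r ^ 2 := by rw [sq]; exact Nat.mul_le_mul_right r (by omega)
    omega
  rw [h5] at h3 hn h2
  have h6 : 2 ^ n ≤ 4 := by omega
  have h7 : 2 ^ 2 ≤ 2 ^ n := Nat.pow_le_pow_right (by omega) hn2
  omega

section Main

variable (l : F)

/-- The upper regular unipotent element. -/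
def uU : SL3 F := ⟨!![1, 1, 0; 0, 1, 1; 0, 0, 1], by simp [Matrix.det_fin_three]⟩

/-- The inverse of the upper regular unipotent element. -/
def uI : SL3 F := ⟨!![1, -1, 1; 0, 1, -1; 0, 0, 1], by simp [Matrix.det_fin_three]⟩

/-- The second regular unipotent element. -/
def vV : SL3 F :=
  ⟨!![1, 0, 0; (l - 1) ^ 2 * (2 * l + 1) / l ^ 2, 1, l; -((l - 1) ^ 3 / l ^ 2), 0, 1], by
    simp [Matrix.det_fin_three]⟩

/-- The conjugating element. -/
def gG : Matrix (Fin 3) (Fin 3) F :=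
  (l / (l - 1) ^ 2) • !![0, 0, 1; l * -((l - 1) ^ 3 / l ^ 2), (l - 1) ^ 2 * (2 * l + 1) / l ^ 2, 0;
    0, -((l - 1) ^ 3 / l ^ 2), 0]

variable {l}

theorem inv_uU : ((uU : SL3 F)⁻¹).1 = !![1, -1, 1; 0, 1, -1; 0, 0, 1] := by
  have h : (uU : SL3 F) * uI = 1 := by
    apply Subtype.ext
    rw [Matrix.SpecialLinearGroup.coe_mul, Matrix.SpecialLinearGroup.coe_one]
    ext i j
    fin_cases i <;> fin_cases j <;> simp [uU, uI, Matrix.mul_apply, Fin.sum_univ_three]
  rw [inv_eq_of_mul_eq_one_right h]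
  rfl

set_option maxHeartbeats 2000000 in
theorem generate [Fintype F] (hl : l ≠ 0) (hgen : orderOf l = Fintype.card F - 1)
    (h2 : l + 2 ≠ 0) (hd : l - 1 ≠ 0) (h3 : l ^ 3 ≠ 1) (hq : Fintype.card F ≠ 4) :
    Subgroup.closure ({uU, vV l} : Set (SL3 F)) = ⊤ := by
  classical
  set H := Subgroup.closure ({uU, vV l} : Set (SL3 F)) with hH
  have hu : (uU : SL3 F) ∈ H := Subgroup.subset_closure (by simp)
  have hv : vV l ∈ H := Subgroup.subset_closure (by simp)
  have hμ : l - 1 / l ^ 2 ≠ 0 := by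
    intro e
    apply h3
    field_simp at e
    linear_combination e
  set μ : F := 1 / l ^ 2 with hμdef
  set r : F := (l - μ)⁻¹ with hr
  have hr1 : r * (l - μ) = 1 := inv_mul_cancel₀ hμ
  have hqq : l ^ 2 + l + 1 ≠ 0 := fun e => h3 (by linear_combination (l - 1) * e)
  set d := l - 1 with hddef
  set w : Fin 3 → F := ![l ^ 2, d, -d ^ 2] with hw
  set φ : Fin 3 → F := ![d ^ 2, d, l ^ 2 + 1] with hφ
  set e : Fin 3 → F := ![l + 1, -(d * (l ^ 2 + l + 2)), d ^ 2] with he
  set w' : Fin 3 → F := ![l ^ 2 + d, d - d ^ 2, -d ^ 2] with hw'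
  set S : SL3 F := uU * vV l with hS
  have hSH : S ∈ H := mul_mem hu hv
  set s : Matrix (Fin 3) (Fin 3) F := S.1 with hs
  set N : Matrix (Fin 3) (Fin 3) F := μ • vecMulVec w φ with hN
  clear_value r μ N
  have hφw : φ ⬝ᵥ w = 0 := by
    simp [φ, w, dotProduct, Fin.sum_univ_three, hddef]; ring
  have hφw' : φ ⬝ᵥ w' = 0 := by
    simp [φ, w', dotProduct, Fin.sum_univ_three, hddef]; ring
  have hφe : φ ⬝ᵥ e = 0 := by
    simp [φ, e, dotProduct, Fin.sum_univ_three, hddef]; ring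
  have hsw : s *ᵥ w = l • w := by
    ext i
    fin_cases i <;>
      simp [s, S, uU, vV, w, Matrix.mulVec, dotProduct, Fin.sum_univ_three, Matrix.mul_apply, hddef] <;>
      field_simp <;> ring
  have hse : s *ᵥ e = μ • e := by
    ext i
    fin_cases i <;>
      simp [s, S, uU, vV, e, hμdef, Matrix.mulVec, dotProduct, Fin.sum_univ_three, Matrix.mul_apply, hddef] <;>
      field_simp <;> ring
  have hφs : φ ᵥ* s = l • φ := by
    ext i
    fin_cases i <;>
      simp [s, S, uU, vV, φ, Matrix.vecMul, dotProduct, Fin.sum_univ_three, Matrix.mul_apply, hddef] <;>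
      field_simp <;> ring
  have hNdef : s * s - (l + μ) • s + (l * μ) • (1 : Matrix (Fin 3) (Fin 3) F) = N := by
    ext i j
    fin_cases i <;> fin_cases j <;>
      simp [s, S, hN, uU, vV, w, φ, hμdef, vecMulVec, Fin.sum_univ_three, Matrix.mul_apply, hddef] <;>
      field_simp <;> ring
  have hsN : s * N = l • N := by
    rw [hN, Matrix.mul_smul, Matrix.mul_vecMulVec, hsw, smul_vecMulVec, smul_comm]
  have hNs : N * s = l • N := by
    rw [hN, Matrix.smul_mul, Matrix.vecMulVec_mul, hφs, vecMulVec_smul, smul_comm]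
  have hNN : N * N = 0 := by
    rw [hN, Matrix.smul_mul, Matrix.mul_smul, Matrix.vecMulVec_mul_vecMulVec, hφw]
    simp
  set D := s - r • N with hD
  clear_value D
  have hDD : D * D = (l + μ) • D - (l * μ) • (1 : Matrix (Fin 3) (Fin 3) F) := by
    rw [hD, sub_mul, mul_sub, mul_sub, Matrix.smul_mul, Matrix.smul_mul, Matrix.mul_smul,
      Matrix.mul_smul, hsN, hNs, hNN,
      show s * s = (l + μ) • s - (l * μ) • (1 : Matrix (Fin 3) (Fin 3) F) + N by rw [← hNdef]; abel]
    match_scalars <;> first | ring1 | linear_combination hr1 | linear_combination -hr1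
  have hpow : ∀ n : ℕ, s ^ n = ((l * μ ^ n - μ * l ^ n) * r) • (1 : Matrix (Fin 3) (Fin 3) F) +
      ((l ^ n - μ ^ n) * r) • D + ((n : F) * l ^ n * r / l) • N := by
    intro n
    induction n with
    | zero =>
      simp
      rw [show (l - μ) * r = 1 by linear_combination hr1, one_smul]
    | succ n ih =>
      have hsD : s = D + r • N := by rw [hD]; abel
      have hDN : D * N = l • N := by
        rw [hD, sub_mul, Matrix.smul_mul, hNN, hsN, smul_zero, sub_zero]
      have hND : N * D = l • N := by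
        rw [hD, mul_sub, Matrix.mul_smul, hNN, hNs, smul_zero, sub_zero]
      rw [pow_succ, ih]
      conv_lhs => rw [hsD]
      simp only [add_mul, mul_add, Matrix.smul_mul, Matrix.mul_smul, one_mul, hDD, hDN, hND, hNN]
      match_scalars <;>
        first | ring1 | (push_cast; linear_combination (l ^ n * r) * hr1 - (l ^ n * r) * mul_inv_cancel₀ hl)
  have hcard : (((Fintype.card F - 1 : ℕ) : F)) = -1 := by
    rw [Nat.cast_sub Fintype.card_pos, FiniteField.cast_card_eq_zero]; simp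
  have hln : l ^ (Fintype.card F - 1) = 1 := FiniteField.pow_card_sub_one_eq_one l hl
  have hμn : μ ^ (Fintype.card F - 1) = 1 :=
    FiniteField.pow_card_sub_one_eq_one μ (by simp [hμdef, hl])
  obtain ⟨k, hk, ht⟩ : ∃ k : F, k ≠ 0 ∧ Mem H (k • w) φ := by
    refine ⟨-(r / l * μ), ?_, S ^ (Fintype.card F - 1), pow_mem hSH _, ?_⟩
    · have hμ0 : μ ≠ 0 := by simp [hμdef, hl]
      have hr0 : r ≠ 0 := left_ne_zero_of_mul (hr1.trans_ne one_ne_zero)
      exact neg_ne_zero.mpr (mul_ne_zero (div_ne_zero hr0 hl) hμ0)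
    · rw [Matrix.SpecialLinearGroup.coe_pow, ← hs, hpow, hln, hμn, hcard, hN, smul_vecMulVec]
      match_scalars
      · linear_combination hr1
      · ring
      · ring
  -- inverse actions
  have hφsi : φ ᵥ* (S⁻¹ : SL3 F).1 = l⁻¹ • φ := by
    have h := congrArg (fun x => x ᵥ* (S⁻¹ : SL3 F).1) hφs
    simp only [Matrix.vecMul_vecMul, Matrix.smul_vecMul] at h
    rw [hs, ← Matrix.SpecialLinearGroup.coe_mul, mul_inv_cancel, Matrix.SpecialLinearGroup.coe_one,
      Matrix.vecMul_one] at h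
    calc φ ᵥ* (S⁻¹ : SL3 F).1 = l⁻¹ • (l • (φ ᵥ* (S⁻¹ : SL3 F).1)) := by
          rw [inv_smul_smul₀ hl]
      _ = l⁻¹ • φ := by rw [← h]
  set φ' := φ ᵥ* ((uU : SL3 F)⁻¹).1 with hφ'
  have huw : (uU : SL3 F).1 *ᵥ w = w' := by
    ext i
    fin_cases i <;>
      simp [uU, w, w', Matrix.mulVec, dotProduct, Fin.sum_univ_three, hddef] <;> ring
  have ht' : Mem H (k • w') φ' := by
    have := ht.conj hu
    rwa [Matrix.mulVec_smul, huw] at this
  have hφ'w' : φ' ⬝ᵥ w' = 0 := by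
    rw [hφ', ← huw, ← Matrix.dotProduct_mulVec, Matrix.mulVec_mulVec,
      ← Matrix.SpecialLinearGroup.coe_mul, inv_mul_cancel, Matrix.SpecialLinearGroup.coe_one,
      Matrix.one_mulVec, hφw]
  have hφ'w : φ' ⬝ᵥ w = -d ^ 4 := by
    rw [hφ', inv_uU]
    simp [φ, w, Matrix.vecMul, dotProduct, Fin.sum_univ_three, hddef]; ring
  have hφ'e : φ' ⬝ᵥ e = d ^ 3 * l * (l + 2) := by
    rw [hφ', inv_uU]
    simp [φ, e, Matrix.vecMul, dotProduct, Fin.sum_univ_three, hddef]; ring
  have hx0 : Mem H ((-d ^ 4 * k * k) • w') φ := by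
    have := ht.comm ht' (by simp [hφw]) (by simp [hφ'w']) (by simp [hφw'])
    convert this using 1
    rw [dotProduct_smul, hφ'w, smul_smul, smul_eq_mul]
    congr 1; ring
  -- a multiple of `e`
  set ρ : F := l⁻¹ ^ 3 with hρ
  set α : F := d / (l ^ 2 + l + 1) with hα
  have hα1 : α * (l ^ 2 + l + 1) = d := div_mul_cancel₀ d hqq
  clear_value α
  have hw'e : w' = (1 + α) • w + α • e := by
    ext i
    fin_cases i
    · simp [w, w', e]; linear_combination (-1 : F) * hα1
    · simp [w, w', e]; linear_combination d * hα1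
    · simp [w, w', e]; ring
  have hLs : ∀ {x : Fin 3 → F}, φ ⬝ᵥ x = 0 → Mem H x φ → Mem H (l⁻¹ • (s *ᵥ x)) φ := by
    intro x _ hx
    obtain ⟨g, hg, eg⟩ := hx.conj hSH
    refine ⟨g, hg, ?_⟩
    rw [eg, hφsi, vecMulVec_smul, smul_vecMulVec]
  have hLe : l⁻¹ • (s *ᵥ e) = ρ • e := by
    rw [hse, smul_smul, hρ, hμdef]
    congr 1
    field_simp
  set c : F := -d ^ 4 * k * k * α * (ρ - 1) with hc
  have hρ1 : ρ - 1 ≠ 0 := by
    intro e'
    apply h3
    rw [hρ, inv_pow, sub_eq_zero, inv_eq_one] at e'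
    exact e'
  have hc0 : c ≠ 0 := by
    simp [hc, hα, hk, hρ1, hqq, hd]
  have hce : Mem H (c • e) φ := by
    have h1 := hLs (by simp [hφw']) hx0
    have h2 := h1.add (hx0.neg (by simp [hφw'])) (by simp [hφw'])
    convert h2 using 1
    rw [Matrix.mulVec_smul, hw'e, Matrix.mulVec_add, Matrix.mulVec_smul, Matrix.mulVec_smul, hsw,
      smul_comm l⁻¹, smul_add, smul_comm l⁻¹ (1 + α), inv_smul_smul₀ hl, smul_comm l⁻¹ α, hLe, hc]
    module
  let A : AddSubgroup F :=
    { carrier := {f | Mem H ((f * c) • e) φ}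
      zero_mem' := by simpa using Mem.zero φ
      add_mem' := fun {a b} ha hb => by
        have := ha.add hb (by simp [hφe])
        simpa [add_mul, add_smul] using this
      neg_mem' := fun {a} ha => by
        have := ha.neg (by simp [hφe])
        simpa [neg_mul, neg_smul] using this }
  let R : Subring F :=
    { carrier := {f | ∀ a ∈ A, f * a ∈ A}
      zero_mem' := fun a _ => by rw [zero_mul]; exact zero_mem A
      one_mem' := fun a ha => by rwa [one_mul]
      add_mem' := fun {x y} hx hy a ha => by rw [add_mul]; exact add_mem (hx a ha) (hy a ha)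
      neg_mem' := fun {x} hx a ha => by rw [neg_mul]; exact neg_mem (hx a ha)
      mul_mem' := fun {x y} hx hy a ha => by rw [mul_assoc]; exact hx _ (hy a ha) }
  have hρR : ρ ∈ R := fun a ha => by
    have h1 := hLs (by simp [hφe]) (show Mem H ((a * c) • e) φ from ha)
    rw [Matrix.mulVec_smul, smul_comm, hLe, smul_smul] at h1
    show Mem H ((ρ * a * c) • e) φ
    convert h1 using 2
    ring
  have hRtop := subring_eq_top R hl hgen hρR hq
  have hE : ∀ f : F, Mem H (f • e) φ := by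
    intro f
    have hfR : f / c ∈ R := hRtop ▸ Subring.mem_top _
    have h1 : Mem H ((f / c * 1 * c) • e) φ := hfR 1 (show Mem H ((1 * c) • e) φ by rwa [one_mul])
    rwa [mul_one, div_mul_cancel₀ f hc0] at h1
  have hW : ∀ f : F, Mem H (f • w') φ := by
    intro f
    have hne : k * (d ^ 3 * l * (l + 2)) ≠ 0 := by simp [hk, hd, hl, h2]
    have h1 := (hE (f / (k * (d ^ 3 * l * (l + 2))))).comm ht' (by simp [hφe]) (by simp [hφ'w'])
      (by simp [hφw'])
    convert h1 using 1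
    rw [dotProduct_smul, hφ'e, smul_smul, smul_eq_mul]
    congr 1
    field_simp
  have hfull : ∀ x : Fin 3 → F, φ ⬝ᵥ x = 0 → Mem H x φ := by
    intro x hx
    simp [φ, dotProduct, Fin.sum_univ_three] at hx
    have hD2 : d ^ 2 * l * (l + 2) ≠ 0 := by simp [hd, hl, h2]
    set a : F := (x 0 * d ^ 2 + x 2 * (l ^ 2 + d)) / (d ^ 2 * l * (l + 2)) with ha
    set b : F := (x 0 * d ^ 2 - x 2 * (l + 1)) / (d ^ 2 * l * (l + 2)) with hb
    have ha1 := div_mul_cancel₀ (x 0 * d ^ 2 + x 2 * (l ^ 2 + d)) hD2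
    have hb1 := div_mul_cancel₀ (x 0 * d ^ 2 - x 2 * (l + 1)) hD2
    rw [← ha] at ha1
    rw [← hb] at hb1
    clear_value a b
    have : x = a • e + b • w' := by
      ext i
      fin_cases i <;> simp [e, w'] <;> apply mul_right_cancel₀ hD2
      · linear_combination -(l + 1) * ha1 - (l ^ 2 + d) * hb1 - x 0 * d ^ 2 * hddef
      · linear_combination (d * (l ^ 2 + l + 2)) * ha1 - (d - d ^ 2) * hb1 + d * l * (l + 2) * hx
      · linear_combination -(d ^ 2) * ha1 + d ^ 2 * hb1 - x 2 * d ^ 2 * hddef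
    rw [this]
    exact (hE a).add (hW b) (by simp [hφw'])
  -- the three forms
  set Ui := ((uU : SL3 F)⁻¹).1 with hUi
  have hstep : ∀ {ψ : Fin 3 → F}, (∀ x, ψ ⬝ᵥ x = 0 → Mem H x ψ) →
      ∀ x, (ψ ᵥ* Ui) ⬝ᵥ x = 0 → Mem H x (ψ ᵥ* Ui) := by
    intro ψ h x hx
    rw [← Matrix.dotProduct_mulVec] at hx
    have := (h _ hx).conj hu
    rwa [Matrix.mulVec_mulVec, ← Matrix.SpecialLinearGroup.coe_mul, mul_inv_cancel,
      Matrix.SpecialLinearGroup.coe_one, Matrix.one_mulVec] at this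
  set P : Matrix (Fin 3) (Fin 3) F := Matrix.of ![φ, φ ᵥ* Ui, φ ᵥ* Ui ᵥ* Ui] with hP
  have hdetP : P.det = -(d ^ 6) := by
    have e1 : φ ᵥ* Ui = ![d ^ 2, d - d ^ 2, d ^ 2 - d + (l ^ 2 + 1)] := by
      rw [hUi, inv_uU]
      ext i
      fin_cases i <;> simp [φ, Matrix.vecMul, dotProduct, Fin.sum_univ_three] <;> ring
    have e2 : φ ᵥ* Ui ᵥ* Ui = ![d ^ 2, d - 2 * d ^ 2, 3 * d ^ 2 - 2 * d + (l ^ 2 + 1)] := by
      rw [e1, hUi, inv_uU]
      ext i
      fin_cases i <;> simp [Matrix.vecMul, dotProduct, Fin.sum_univ_three] <;> ring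
    rw [hP, Matrix.det_fin_three, e2, e1]
    simp [φ]
    ring
  have hPu : IsUnit P.det := by rw [hdetP]; exact (neg_ne_zero.mpr (pow_ne_zero 6 hd)).isUnit
  refine eq_top_of_full P P⁻¹ (Matrix.nonsing_inv_mul P hPu) fun j => ?_
  fin_cases j
  · exact hfull
  · exact hstep hfull
  · exact hstep (hstep hfull)

theorem conj_eq (hl : l ≠ 0) (hd : l - 1 ≠ 0) :
    ∃ g : SL3 F, g * uU * g⁻¹ = vV l := by
  let g : SL3 F := ⟨gG l, by
    rw [gG, Matrix.det_smul, Fintype.card_fin, Matrix.det_fin_three]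
    simp
    field_simp
    try ring⟩
  refine ⟨g, ?_⟩
  · rw [mul_inv_eq_iff_eq_mul]
    apply Subtype.ext
    show gG l * (uU : SL3 F).1 = (vV l).1 * gG l
    ext i j
    fin_cases i <;> fin_cases j <;>
      simp [uU, vV, gG, Matrix.mul_apply, Fin.sum_univ_three] <;> field_simp <;> ring

theorem unipotent : IsNilpotent (((uU : SL3 F) : Matrix (Fin 3) (Fin 3) F) - 1) ∧
    (((uU : SL3 F) : Matrix (Fin 3) (Fin 3) F) - 1) ^ (3 - 1) ≠ 0 := by
  refine ⟨⟨3, ?_⟩, fun h => ?_⟩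
  · ext i j
    fin_cases i <;> fin_cases j <;> simp [uU, pow_succ, Matrix.mul_apply, Fin.sum_univ_three]
  · have := congrFun (congrFun h 0) 2
    simp [uU, pow_succ, Matrix.mul_apply, Fin.sum_univ_three] at this

end Main

end CfsgLib.SLThreeTwoUnipotent
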