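import Cfsg.Agent.Lib.SLThreeTwoUnipotent

/-!
`SL(3,2)` and `SL(3,4)` are generated by two conjugate regular unipotent elements.
-/

set_option autoImplicit false
set_option maxRecDepth 4000

namespace CfsgLib.SLThreeTwoUnipotent

open Matrix
open scoped commutatorElement

/-- Nine entries. -/
structure M9 (K : Type) where
  a : K
  b : K
  c : K
  d : K
  e : K
  f : K
  g : K
  h : K
  i : K
deriving DecidableEq

variable {K : Type} [Add K] [Mul K] [Zero K] [One K]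

/-- Product of two tables. -/
def mm (A B : M9 K) : M9 K :=
  ⟨A.a * B.a + A.b * B.d + A.c * B.g, A.a * B.b + A.b * B.e + A.c * B.h, A.a * B.c + A.b * B.f + A.c * B.i,
   A.d * B.a + A.e * B.d + A.f * B.g, A.d * B.b + A.e * B.e + A.f * B.h, A.d * B.c + A.e * B.f + A.f * B.i,
   A.g * B.a + A.h * B.d + A.i * B.g, A.g * B.b + A.h * B.e + A.i * B.h, A.g * B.c + A.h * B.f + A.i * B.i⟩

/-- Determinant in characteristic two. -/
def detK (A : M9 K) : K :=
  A.a * A.e * A.i + A.a * A.f * A.h + A.b * A.d * A.i + A.b * A.f * A.g + A.c * A.d * A.h + A.c * A.e * A.g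

variable {F : Type*} [Field F]

/-- A map respecting the operations. -/
structure OpHom (K : Type) [Add K] [Mul K] [Zero K] [One K] (F : Type*) [Field F] where
  toFun : K → F
  map_zero : toFun 0 = 0
  map_one : toFun 1 = 1
  map_add : ∀ a b, toFun (a + b) = toFun a + toFun b
  map_mul : ∀ a b, toFun (a * b) = toFun a * toFun b

/-- The matrix of a table. -/
def mat (φ : OpHom K F) (A : M9 K) : Matrix (Fin 3) (Fin 3) F :=
  !![φ.toFun A.a, φ.toFun A.b, φ.toFun A.c; φ.toFun A.d, φ.toFun A.e, φ.toFun A.f;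
    φ.toFun A.g, φ.toFun A.h, φ.toFun A.i]

theorem mat_mm (φ : OpHom K F) (A B : M9 K) : mat φ (mm A B) = mat φ A * mat φ B := by
  ext i j
  fin_cases i <;> fin_cases j <;>
    simp [mat, mm, Matrix.mul_apply, Fin.sum_univ_three, φ.map_add, φ.map_mul]

theorem det_mat [CharP F 2] (φ : OpHom K F) (A : M9 K) : (mat φ A).det = φ.toFun (detK A) := by
  simp only [mat, detK, φ.map_add, φ.map_mul, Matrix.det_fin_three]
  simp [CharTwo.sub_eq_add]

variable {H : Subgroup (SL3 F)}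

/-- The matrix of the table lies in the subgroup. -/
def InH (φ : OpHom K F) (H : Subgroup (SL3 F)) (A : M9 K) : Prop :=
  ∃ h ∈ H, (h : Matrix (Fin 3) (Fin 3) F) = mat φ A

theorem inH_one (φ : OpHom K F) : InH φ H (⟨1, 0, 0, 0, 1, 0, 0, 0, 1⟩ : M9 K) := by
  refine ⟨1, one_mem H, ?_⟩
  ext i j
  fin_cases i <;> fin_cases j <;> simp [mat, φ.map_zero, φ.map_one]

theorem InH.mul {φ : OpHom K F} {A B C : M9 K} (hA : InH φ H A) (hB : InH φ H B) (h : C = mm A B) :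
    InH φ H C := by
  obtain ⟨a, ha, ea⟩ := hA
  obtain ⟨b, hb, eb⟩ := hB
  exact ⟨a * b, mul_mem ha hb, by rw [h, mat_mm, Matrix.SpecialLinearGroup.coe_mul, ea, eb]⟩

theorem transvection_eq_commutator' {i j k : Fin 3} (hij : i ≠ j) (hik : i ≠ k) (hkj : k ≠ j) (c : F) :
    SpecialLinearGroup.transvection hij c =
      ⁅SpecialLinearGroup.transvection hik (1 : F), SpecialLinearGroup.transvection hkj c⁆ := by
  rw [commutatorElement_def, SpecialLinearGroup.transvection_inv, SpecialLinearGroup.transvection_inv]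
  apply SpecialLinearGroup.coeMonoidHom_injective
  simp only [map_mul, SpecialLinearGroup.coeMonoidHom_apply, SpecialLinearGroup.transvection_coe]
  simp [add_mul, mul_add, Matrix.single_mul_single_same, Matrix.single_mul_single_of_ne,
    hij, hik, hkj, hij.symm, hik.symm, hkj.symm]
  simp only [← Matrix.single_neg]
  abel

theorem comm_mem {a b : SL3 F} (ha : a ∈ H) (hb : b ∈ H) : ⁅a, b⁆ ∈ H := by
  rw [commutatorElement_def]
  exact mul_mem (mul_mem (mul_mem ha hb) (inv_mem ha)) (inv_mem hb)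

theorem eq_top_of_three (h01 : ∀ c : F, SpecialLinearGroup.transvection (show (0 : Fin 3) ≠ 1 by decide) c ∈ H)
    (h12 : SpecialLinearGroup.transvection (show (1 : Fin 3) ≠ 2 by decide) (1 : F) ∈ H)
    (h20 : SpecialLinearGroup.transvection (show (2 : Fin 3) ≠ 0 by decide) (1 : F) ∈ H) : H = ⊤ := by
  have A (i j k : Fin 3) (hij : i ≠ j) (hik : i ≠ k) (hkj : k ≠ j) (c : F)
      (ha : SpecialLinearGroup.transvection hik c ∈ H) (hb : SpecialLinearGroup.transvection hkj (1 : F) ∈ H) :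
      SpecialLinearGroup.transvection hij c ∈ H := by
    rw [CfsgLib.Classical.transvection_eq_commutator hij hik hkj c]; exact comm_mem ha hb
  have B (i j k : Fin 3) (hij : i ≠ j) (hik : i ≠ k) (hkj : k ≠ j) (c : F)
      (ha : SpecialLinearGroup.transvection hik (1 : F) ∈ H) (hb : SpecialLinearGroup.transvection hkj c ∈ H) :
      SpecialLinearGroup.transvection hij c ∈ H := by
    rw [transvection_eq_commutator' hij hik hkj c]; exact comm_mem ha hb
  have h02 := fun c => A 0 2 1 (by decide) _ _ c (h01 c) h12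
  have h21 := fun c => B 2 1 0 (by decide) _ _ c h20 (h01 c)
  have h10 := A 1 0 2 (by decide) _ _ 1 h12 h20
  have h12' := fun c => B 1 2 0 (by decide) _ _ c h10 (h02 c)
  have h20' := fun c => A 2 0 1 (by decide) _ _ c (h21 c) h10
  have h10' := fun c => A 1 0 2 (by decide) _ _ c (h12' c) h20
  refine CfsgLib.Classical.sl_eq_top_of_transvection fun i j hij c => ?_
  fin_cases i <;> fin_cases j <;>
    first
      | exact absurd rfl hij
      | exact h01 c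
      | exact h02 c
      | exact h21 c
      | exact h12' c
      | exact h20' c
      | exact h10' c

theorem mem_of_inH {φ : OpHom K F} {A : M9 K} {g : SL3 F} (h : InH φ H A)
    (hg : (g : Matrix (Fin 3) (Fin 3) F) = mat φ A) : g ∈ H := by
  obtain ⟨a, ha, ea⟩ := h
  rwa [show g = a from Subtype.ext (hg.trans ea.symm)]

theorem conj_of_table [CharP F 2] (φ : OpHom K F) {g gi v : M9 K} {u : M9 K} (hu : mat φ u = (uU : SL3 F).1)
    (h1 : mm g gi = ⟨1, 0, 0, 0, 1, 0, 0, 0, 1⟩) (h2 : detK g = 1) (h3 : mm (mm g u) gi = v) :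
    ∃ x : SL3 F, (x * uU * x⁻¹).1 = mat φ v := by
  refine ⟨⟨mat φ g, by rw [det_mat, h2, φ.map_one]⟩, ?_⟩
  set x : SL3 F := ⟨mat φ g, by rw [det_mat, h2, φ.map_one]⟩
  have e : mat φ g * mat φ gi = 1 := by
    rw [← mat_mm, h1]
    ext i j
    fin_cases i <;> fin_cases j <;> simp [mat, φ.map_zero, φ.map_one]
  have hinv : (x⁻¹ : SL3 F).1 = mat φ gi := by
    calc (x⁻¹ : SL3 F).1 = (x⁻¹ : SL3 F).1 * (mat φ g * mat φ gi) := by rw [e, mul_one]
      _ = (x⁻¹ * x : SL3 F).1 * mat φ gi := by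
        rw [← mul_assoc, Matrix.SpecialLinearGroup.coe_mul]
      _ = mat φ gi := by rw [inv_mul_cancel, Matrix.SpecialLinearGroup.coe_one, one_mul]
  rw [← h3, mat_mm, mat_mm, Matrix.SpecialLinearGroup.coe_mul, Matrix.SpecialLinearGroup.coe_mul, hinv, hu]

/-- The field of two elements, mapped. -/
def hom2 (F : Type*) [Field F] [CharP F 2] : OpHom (ZMod 2) F where
  toFun := ZMod.castHom (dvd_refl 2) F
  map_zero := map_zero _
  map_one := map_one _
  map_add := map_add _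
  map_mul := map_mul _

theorem generate_two [Fintype F] (hF : Fintype.card F = 2) :
    ∃ g : SL3 F, Subgroup.closure ({uU, g * uU * g⁻¹} : Set (SL3 F)) = ⊤ := by
  classical
  haveI : CharP F 2 :=
    haveI : Fact (Nat.Prime 2) := ⟨Nat.prime_two⟩
    charP_of_card_eq_prime_pow (f := 1) (by simpa using hF)
  set φ := hom2 F
  obtain ⟨x, hx⟩ := conj_of_table φ (g := (⟨0, 0, 1, 0, 1, 1, 1, 1, 0⟩ : M9 (ZMod 2)))
    (gi := ⟨1, 1, 1, 1, 1, 0, 1, 0, 0⟩) (v := ⟨1, 0, 0, 1, 1, 0, 0, 1, 1⟩) (u := ⟨1, 1, 0, 0, 1, 1, 0, 0, 1⟩)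
    (by ext i j; fin_cases i <;> fin_cases j <;> simp [mat, uU, φ, hom2]) (by decide) (by decide) (by decide)
  refine ⟨x, ?_⟩
  set H := Subgroup.closure ({uU, x * uU * x⁻¹} : Set (SL3 F))
  have hu : InH φ H (⟨1, 1, 0, 0, 1, 1, 0, 0, 1⟩ : M9 (ZMod 2)) :=
    ⟨uU, Subgroup.subset_closure (by simp), by
      ext i j; fin_cases i <;> fin_cases j <;> simp [mat, uU, φ, hom2]⟩
  have hv : InH φ H (⟨1, 0, 0, 1, 1, 0, 0, 1, 1⟩ : M9 (ZMod 2)) :=
    ⟨x * uU * x⁻¹, Subgroup.subset_closure (by simp), hx⟩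
  have w0_0 : InH φ H (⟨1, 0, 0, 0, 1, 0, 0, 0, 1⟩ : M9 (ZMod 2)) := inH_one φ
  have w0_1 : InH φ H (⟨1, 0, 0, 1, 1, 0, 0, 1, 1⟩ : M9 (ZMod 2)) := w0_0.mul hv (by decide)
  have w0_2 : InH φ H (⟨1, 1, 0, 1, 0, 1, 0, 1, 0⟩ : M9 (ZMod 2)) := w0_1.mul hu (by decide)
  have w0_3 : InH φ H (⟨0, 1, 0, 1, 1, 1, 1, 1, 0⟩ : M9 (ZMod 2)) := w0_2.mul hv (by decide)
  have w0_4 : InH φ H (⟨0, 1, 1, 1, 0, 0, 1, 0, 1⟩ : M9 (ZMod 2)) := w0_3.mul hu (by decide)
  have w0_5 : InH φ H (⟨0, 1, 0, 1, 1, 0, 1, 1, 1⟩ : M9 (ZMod 2)) := w0_4.mul hu (by decide)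
  have w0_6 : InH φ H (⟨1, 1, 0, 0, 1, 0, 0, 0, 1⟩ : M9 (ZMod 2)) := w0_5.mul hv (by decide)
  have w1_0 : InH φ H (⟨1, 0, 0, 0, 1, 0, 0, 0, 1⟩ : M9 (ZMod 2)) := inH_one φ
  have w1_1 : InH φ H (⟨1, 0, 0, 1, 1, 0, 0, 1, 1⟩ : M9 (ZMod 2)) := w1_0.mul hv (by decide)
  have w1_2 : InH φ H (⟨1, 1, 0, 1, 0, 1, 0, 1, 0⟩ : M9 (ZMod 2)) := w1_1.mul hu (by decide)
  have w1_3 : InH φ H (⟨1, 0, 1, 1, 1, 1, 0, 1, 1⟩ : M9 (ZMod 2)) := w1_2.mul hu (by decide)
  have w1_4 : InH φ H (⟨1, 1, 1, 0, 0, 1, 1, 0, 1⟩ : M9 (ZMod 2)) := w1_3.mul hv (by decide)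
  have w1_5 : InH φ H (⟨1, 0, 0, 0, 0, 1, 1, 1, 1⟩ : M9 (ZMod 2)) := w1_4.mul hu (by decide)
  have w1_6 : InH φ H (⟨1, 0, 0, 0, 1, 1, 0, 0, 1⟩ : M9 (ZMod 2)) := w1_5.mul hv (by decide)
  have w2_0 : InH φ H (⟨1, 0, 0, 0, 1, 0, 0, 0, 1⟩ : M9 (ZMod 2)) := inH_one φ
  have w2_1 : InH φ H (⟨1, 0, 0, 1, 1, 0, 0, 1, 1⟩ : M9 (ZMod 2)) := w2_0.mul hv (by decide)
  have w2_2 : InH φ H (⟨1, 0, 0, 0, 1, 0, 1, 0, 1⟩ : M9 (ZMod 2)) := w2_1.mul hv (by decide)
  have hall : ∀ c : F, c = 0 ∨ c = 1 := by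
    intro c
    by_contra hc
    rw [not_or] at hc
    have := Finset.card_le_univ ({c, 0, 1} : Finset F)
    rw [Finset.card_insert_of_notMem (by simp [hc.1, hc.2]), Finset.card_pair zero_ne_one, hF] at this
    omega
  refine eq_top_of_three (fun c => ?_) ?_ ?_
  · rcases hall c with rfl | rfl
    · rw [SpecialLinearGroup.transvection_coeff_zero]; exact one_mem H
    · refine mem_of_inH w0_6 ?_
      rw [SpecialLinearGroup.transvection_coe]
      ext i j; fin_cases i <;> fin_cases j <;> simp [mat, φ, hom2, Matrix.single]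
  · refine mem_of_inH w1_6 ?_
    rw [SpecialLinearGroup.transvection_coe]
    ext i j; fin_cases i <;> fin_cases j <;> simp [mat, φ, hom2, Matrix.single]
  · refine mem_of_inH w2_2 ?_
    rw [SpecialLinearGroup.transvection_coe]
    ext i j; fin_cases i <;> fin_cases j <;> simp [mat, φ, hom2, Matrix.single]

/-- The field of four elements as a table. -/
inductive K4 where
  | o | l | x | y
deriving DecidableEq

instance : Fintype K4 :=
  Fintype.ofList [K4.o, .l, .x, .y] (fun a => by cases a <;> simp)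

instance : Zero K4 := ⟨.o⟩
instance : One K4 := ⟨.l⟩
/-- Sum table. -/
def addK : K4 → K4 → K4
  | .o, b => b
  | a, .o => a
  | .l, .l => .o | .l, .x => .y | .l, .y => .x
  | .x, .l => .y | .x, .x => .o | .x, .y => .l
  | .y, .l => .x | .y, .x => .l | .y, .y => .o

/-- Product table. -/
def mulK : K4 → K4 → K4
  | .o, _ => .o
  | _, .o => .o
  | .l, b => b
  | a, .l => a
  | .x, .x => .y | .x, .y => .l
  | .y, .x => .l | .y, .y => .x

instance : Add K4 := ⟨addK⟩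
instance : Mul K4 := ⟨mulK⟩

/-- The four values. -/
def val4 (ω : F) : K4 → F
  | .o => 0
  | .l => 1
  | .x => ω
  | .y => ω + 1

/-- The field of four elements, mapped. -/
def hom4 {ω : F} (h2 : (2 : F) = 0) (hω : ω ^ 2 + ω + 1 = 0) : OpHom K4 F where
  toFun := val4 ω
  map_zero := rfl
  map_one := rfl
  map_add a b := by
    show val4 ω (addK a b) = val4 ω a + val4 ω b
    cases a <;> cases b <;> simp only [addK, val4] <;>
      first | ring1 | linear_combination -h2 | linear_combination -(ω * h2) | linear_combination -((ω + 1) * h2)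
  map_mul a b := by
    show val4 ω (mulK a b) = val4 ω a * val4 ω b
    cases a <;> cases b <;> simp only [mulK, val4] <;>
      first | ring1 | linear_combination -hω | linear_combination h2 - hω | linear_combination (ω + 1) * h2 - hω

theorem generate_four [Fintype F] (hF : Fintype.card F = 4) :
    ∃ g : SL3 F, Subgroup.closure ({uU, g * uU * g⁻¹} : Set (SL3 F)) = ⊤ := by
  classical
  haveI : CharP F 2 :=
    haveI : Fact (Nat.Prime 2) := ⟨Nat.prime_two⟩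
    charP_of_card_eq_prime_pow (f := 2) (by simpa using hF)
  have h2 : (2 : F) = 0 := CharTwo.two_eq_zero
  obtain ⟨z, hz⟩ := IsCyclic.exists_ofOrder_eq_natCard (α := Fˣ)
  rw [Nat.card_units, Nat.card_eq_fintype_card, hF] at hz
  set ω : F := (z : F) with hωdef
  have hω3 : ω ^ 3 = 1 := by
    rw [hωdef, ← Units.val_pow_eq_pow_val, show 3 = orderOf z by rw [hz], pow_orderOf_eq_one, Units.val_one]
  have hω1 : ω ≠ 1 := fun e => by
    rw [show z = 1 from Units.ext e, orderOf_one] at hz; omega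
  have hω : ω ^ 2 + ω + 1 = 0 := (mul_eq_zero.1 (show (ω - 1) * (ω ^ 2 + ω + 1) = 0 by
    linear_combination hω3)).resolve_left (sub_ne_zero.2 hω1)
  set φ := hom4 h2 hω
  obtain ⟨x, hx⟩ := conj_of_table φ (g := (⟨.o, .x, .o, .y, .o, .l, .l, .o, .y⟩ : M9 K4))
    (gi := ⟨.o, .l, .x, .y, .o, .o, .o, .x, .l⟩) (v := ⟨.l, .y, .x, .x, .l, .o, .y, .o, .l⟩)
    (u := ⟨.l, .l, .o, .o, .l, .l, .o, .o, .l⟩)
    (by ext i j; fin_cases i <;> fin_cases j <;> simp [mat, uU, φ, hom4, val4]) (by decide) (by decide) (by decide)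
  refine ⟨x, ?_⟩
  set H := Subgroup.closure ({uU, x * uU * x⁻¹} : Set (SL3 F))
  have hu : InH φ H (⟨.l, .l, .o, .o, .l, .l, .o, .o, .l⟩ : M9 K4) :=
    ⟨uU, Subgroup.subset_closure (by simp), by
      ext i j; fin_cases i <;> fin_cases j <;> simp [mat, uU, φ, hom4, val4]⟩
  have hv : InH φ H (⟨.l, .y, .x, .x, .l, .o, .y, .o, .l⟩ : M9 K4) :=
    ⟨x * uU * x⁻¹, Subgroup.subset_closure (by simp), hx⟩
  have w0_0 : InH φ H (⟨.l, .o, .o, .o, .l, .o, .o, .o, .l⟩ : M9 K4) := inH_one φ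
  have w0_1 : InH φ H (⟨.l, .l, .o, .o, .l, .l, .o, .o, .l⟩ : M9 K4) := w0_0.mul hu (by decide)
  have w0_2 : InH φ H (⟨.l, .o, .l, .o, .l, .o, .o, .o, .l⟩ : M9 K4) := w0_1.mul hu (by decide)
  have w0_3 : InH φ H (⟨.x, .y, .y, .x, .l, .o, .y, .o, .l⟩ : M9 K4) := w0_2.mul hv (by decide)
  have w0_4 : InH φ H (⟨.l, .x, .o, .o, .o, .y, .o, .x, .o⟩ : M9 K4) := w0_3.mul hv (by decide)
  have w0_5 : InH φ H (⟨.l, .y, .x, .o, .o, .y, .o, .x, .x⟩ : M9 K4) := w0_4.mul hu (by decide)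
  have w0_6 : InH φ H (⟨.l, .o, .o, .x, .o, .y, .x, .x, .x⟩ : M9 K4) := w0_5.mul hv (by decide)
  have w0_7 : InH φ H (⟨.l, .y, .x, .o, .l, .o, .o, .y, .l⟩ : M9 K4) := w0_6.mul hv (by decide)
  have w0_8 : InH φ H (⟨.l, .x, .l, .o, .l, .l, .o, .y, .x⟩ : M9 K4) := w0_7.mul hu (by decide)
  have w0_9 : InH φ H (⟨.l, .y, .y, .o, .l, .o, .o, .y, .l⟩ : M9 K4) := w0_8.mul hu (by decide)
  have w0_10 : InH φ H (⟨.x, .o, .l, .x, .l, .o, .x, .y, .l⟩ : M9 K4) := w0_9.mul hv (by decide)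
  have w0_11 : InH φ H (⟨.l, .l, .x, .o, .o, .y, .o, .x, .x⟩ : M9 K4) := w0_10.mul hv (by decide)
  have w0_12 : InH φ H (⟨.l, .o, .y, .o, .o, .y, .o, .x, .o⟩ : M9 K4) := w0_11.mul hu (by decide)
  have w0_13 : InH φ H (⟨.y, .y, .l, .x, .o, .y, .y, .x, .o⟩ : M9 K4) := w0_12.mul hv (by decide)
  have w0_14 : InH φ H (⟨.l, .l, .o, .o, .l, .o, .o, .o, .l⟩ : M9 K4) := w0_13.mul hv (by decide)
  have w1_0 : InH φ H (⟨.l, .o, .o, .o, .l, .o, .o, .o, .l⟩ : M9 K4) := inH_one φ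
  have w1_1 : InH φ H (⟨.l, .y, .x, .x, .l, .o, .y, .o, .l⟩ : M9 K4) := w1_0.mul hv (by decide)
  have w1_2 : InH φ H (⟨.l, .o, .o, .o, .o, .y, .o, .x, .o⟩ : M9 K4) := w1_1.mul hv (by decide)
  have w1_3 : InH φ H (⟨.l, .l, .o, .o, .o, .y, .o, .x, .x⟩ : M9 K4) := w1_2.mul hu (by decide)
  have w1_4 : InH φ H (⟨.l, .o, .l, .o, .o, .y, .o, .x, .o⟩ : M9 K4) := w1_3.mul hu (by decide)
  have w1_5 : InH φ H (⟨.x, .y, .y, .x, .o, .y, .y, .x, .o⟩ : M9 K4) := w1_4.mul hv (by decide)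
  have w1_6 : InH φ H (⟨.l, .x, .o, .o, .l, .o, .o, .o, .l⟩ : M9 K4) := w1_5.mul hv (by decide)
  have w2_0 : InH φ H (⟨.l, .o, .o, .o, .l, .o, .o, .o, .l⟩ : M9 K4) := inH_one φ
  have w2_1 : InH φ H (⟨.l, .y, .x, .x, .l, .o, .y, .o, .l⟩ : M9 K4) := w2_0.mul hv (by decide)
  have w2_2 : InH φ H (⟨.l, .o, .o, .o, .o, .y, .o, .x, .o⟩ : M9 K4) := w2_1.mul hv (by decide)
  have w2_3 : InH φ H (⟨.l, .l, .o, .o, .o, .y, .o, .x, .x⟩ : M9 K4) := w2_2.mul hu (by decide)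
  have w2_4 : InH φ H (⟨.y, .x, .x, .x, .o, .y, .x, .x, .x⟩ : M9 K4) := w2_3.mul hv (by decide)
  have w2_5 : InH φ H (⟨.l, .o, .y, .o, .l, .o, .o, .y, .l⟩ : M9 K4) := w2_4.mul hv (by decide)
  have w2_6 : InH φ H (⟨.l, .l, .y, .o, .l, .l, .o, .y, .x⟩ : M9 K4) := w2_5.mul hu (by decide)
  have w2_7 : InH φ H (⟨.l, .o, .x, .o, .l, .o, .o, .y, .l⟩ : M9 K4) := w2_6.mul hu (by decide)
  have w2_8 : InH φ H (⟨.o, .y, .o, .x, .l, .o, .x, .y, .l⟩ : M9 K4) := w2_7.mul hv (by decide)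
  have w2_9 : InH φ H (⟨.l, .y, .o, .o, .o, .y, .o, .x, .x⟩ : M9 K4) := w2_8.mul hv (by decide)
  have w2_10 : InH φ H (⟨.l, .x, .y, .o, .o, .y, .o, .x, .o⟩ : M9 K4) := w2_9.mul hu (by decide)
  have w2_11 : InH φ H (⟨.o, .l, .l, .x, .o, .y, .y, .x, .o⟩ : M9 K4) := w2_10.mul hv (by decide)
  have w2_12 : InH φ H (⟨.l, .l, .l, .o, .l, .o, .o, .o, .l⟩ : M9 K4) := w2_11.mul hv (by decide)
  have w2_13 : InH φ H (⟨.l, .o, .o, .o, .l, .l, .o, .o, .l⟩ : M9 K4) := w2_12.mul hu (by decide)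
  have w3_0 : InH φ H (⟨.l, .o, .o, .o, .l, .o, .o, .o, .l⟩ : M9 K4) := inH_one φ
  have w3_1 : InH φ H (⟨.l, .l, .o, .o, .l, .l, .o, .o, .l⟩ : M9 K4) := w3_0.mul hu (by decide)
  have w3_2 : InH φ H (⟨.l, .o, .l, .o, .l, .o, .o, .o, .l⟩ : M9 K4) := w3_1.mul hu (by decide)
  have w3_3 : InH φ H (⟨.x, .y, .y, .x, .l, .o, .y, .o, .l⟩ : M9 K4) := w3_2.mul hv (by decide)
  have w3_4 : InH φ H (⟨.l, .x, .o, .o, .o, .y, .o, .x, .o⟩ : M9 K4) := w3_3.mul hv (by decide)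
  have w3_5 : InH φ H (⟨.l, .y, .x, .o, .o, .y, .o, .x, .x⟩ : M9 K4) := w3_4.mul hu (by decide)
  have w3_6 : InH φ H (⟨.l, .o, .o, .x, .o, .y, .x, .x, .x⟩ : M9 K4) := w3_5.mul hv (by decide)
  have w3_7 : InH φ H (⟨.l, .y, .x, .o, .l, .o, .o, .y, .l⟩ : M9 K4) := w3_6.mul hv (by decide)
  have w3_8 : InH φ H (⟨.l, .o, .o, .x, .l, .o, .x, .y, .l⟩ : M9 K4) := w3_7.mul hv (by decide)
  have w3_9 : InH φ H (⟨.l, .l, .o, .x, .y, .l, .x, .l, .x⟩ : M9 K4) := w3_8.mul hu (by decide)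
  have w3_10 : InH φ H (⟨.l, .o, .l, .x, .l, .x, .x, .y, .y⟩ : M9 K4) := w3_9.mul hu (by decide)
  have w3_11 : InH φ H (⟨.x, .y, .y, .l, .o, .l, .l, .x, .o⟩ : M9 K4) := w3_10.mul hv (by decide)
  have w3_12 : InH φ H (⟨.l, .x, .o, .x, .y, .y, .x, .l, .x⟩ : M9 K4) := w3_11.mul hv (by decide)
  have w3_13 : InH φ H (⟨.l, .y, .x, .x, .l, .o, .x, .y, .y⟩ : M9 K4) := w3_12.mul hu (by decide)
  have w3_14 : InH φ H (⟨.l, .o, .o, .o, .o, .y, .l, .x, .o⟩ : M9 K4) := w3_13.mul hv (by decide)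
  have w3_15 : InH φ H (⟨.l, .y, .x, .x, .o, .y, .x, .l, .x⟩ : M9 K4) := w3_14.mul hv (by decide)
  have w3_16 : InH φ H (⟨.l, .o, .o, .o, .l, .o, .l, .o, .l⟩ : M9 K4) := w3_15.mul hv (by decide)
  have hinj : Function.Injective (val4 ω) := by
    have hω0 : ω ≠ 0 := fun e => by rw [e] at hω3; simp at hω3
    have hy0 : ω + 1 ≠ 0 := fun e => hω1 (by linear_combination e - h2)
    intro a b h
    cases a <;> cases b <;> simp [val4, hω0, hω1, hy0, Ne.symm hω0, Ne.symm hω1, Ne.symm hy0] at h ⊢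
  have hsur : Function.Surjective (val4 ω) :=
    ((Fintype.bijective_iff_injective_and_card _).2 ⟨hinj, by rw [hF]; decide⟩).2
  have hl : SpecialLinearGroup.transvection (show (0 : Fin 3) ≠ 1 by decide) (1 : F) ∈ H := by
    refine mem_of_inH w0_14 ?_
    rw [SpecialLinearGroup.transvection_coe]
    ext i j; fin_cases i <;> fin_cases j <;> simp [mat, φ, hom4, val4, Matrix.single]
  have hxx : SpecialLinearGroup.transvection (show (0 : Fin 3) ≠ 1 by decide) ω ∈ H := by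
    refine mem_of_inH w1_6 ?_
    rw [SpecialLinearGroup.transvection_coe]
    ext i j; fin_cases i <;> fin_cases j <;> simp [mat, φ, hom4, val4, Matrix.single]
  refine eq_top_of_three (fun c => ?_) ?_ ?_
  · obtain ⟨k, rfl⟩ := hsur c
    cases k
    · rw [val4, SpecialLinearGroup.transvection_coeff_zero]; exact one_mem H
    · exact hl
    · exact hxx
    · rw [val4, SpecialLinearGroup.transvection_add]; exact mul_mem hxx hl
  · refine mem_of_inH w2_13 ?_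
    rw [SpecialLinearGroup.transvection_coe]
    ext i j; fin_cases i <;> fin_cases j <;> simp [mat, φ, hom4, val4, Matrix.single]
  · refine mem_of_inH w3_16 ?_
    rw [SpecialLinearGroup.transvection_coe]
    ext i j; fin_cases i <;> fin_cases j <;> simp [mat, φ, hom4, val4, Matrix.single]

theorem two_conjugate [Fintype F] :
    ∃ u g : SL3 F, IsNilpotent ((u : Matrix (Fin 3) (Fin 3) F) - 1) ∧
      ((u : Matrix (Fin 3) (Fin 3) F) - 1) ^ (3 - 1) ≠ 0 ∧
      Subgroup.closure ({u, g * u * g⁻¹} : Set (SL3 F)) = ⊤ := by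
  classical
  suffices h : ∃ g : SL3 F, Subgroup.closure ({uU, g * uU * g⁻¹} : Set (SL3 F)) = ⊤ by
    obtain ⟨g, hg⟩ := h
    exact ⟨uU, g, unipotent.1, unipotent.2, hg⟩
  by_cases h2 : Fintype.card F = 2
  · exact generate_two h2
  by_cases h4 : Fintype.card F = 4
  · exact generate_four h4
  obtain ⟨z, hz⟩ := IsCyclic.exists_ofOrder_eq_natCard (α := Fˣ)
  rw [Nat.card_units, Nat.card_eq_fintype_card, ← orderOf_units] at hz
  have hq : 2 < Fintype.card F := by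
    have : 1 < Fintype.card F := Fintype.one_lt_card
    omega
  have key : ∀ l : F, l ≠ 0 → orderOf l = Fintype.card F - 1 → l + 2 ≠ 0 →
      ∃ g : SL3 F, Subgroup.closure ({uU, g * uU * g⁻¹} : Set (SL3 F)) = ⊤ := by
    intro l hl hord hl2
    have hd : l - 1 ≠ 0 := fun e => by
      rw [sub_eq_zero.1 e, orderOf_one] at hord; omega
    have h3 : l ^ 3 ≠ 1 := fun e => by
      have h5 := orderOf_dvd_of_pow_eq_one e
      rw [hord] at h5
      rcases (Nat.dvd_prime Nat.prime_three).1 h5 with h | h <;> omega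
    obtain ⟨g, hg⟩ := conj_eq hl hd
    exact ⟨g, by rw [hg]; exact generate hl hord hl2 hd h3 h4⟩
  by_cases hz2 : (z : F) + 2 = 0
  · refine key (z⁻¹ : Fˣ) (Units.ne_zero _) ?_ ?_
    · rw [orderOf_units, orderOf_inv, ← orderOf_units, hz]
    · intro e
      have h1 : (z : F) * (z⁻¹ : Fˣ) = 1 := Units.mul_inv z
      have h3 : (3 : F) = 0 := by
        linear_combination h1 - ((z⁻¹ : Fˣ) : F) * hz2 + 2 * e
      have : (z : F) = 1 := by linear_combination hz2 - h3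
      rw [this, orderOf_one] at hz
      omega
  · exact key z (Units.ne_zero _) hz hz2

end CfsgLib.SLThreeTwoUnipotent
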