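import Mathlib

namespace Cfsg.Agent.SLTwoSquareRoot

open Matrix

variable {F : Type*} [Field F] [Fintype F]

theorem two_ne (hF : Odd (Fintype.card F)) : (2 : F) ≠ 0 := by
  intro h
  obtain ⟨p, hc⟩ := CharP.exists F
  haveI := hc
  haveI hp : Fact p.Prime := ⟨CharP.char_is_prime F p⟩
  have h2 : p ∣ 2 := (CharP.cast_eq_zero_iff F p 2).1 (by exact_mod_cast h)
  have hp2 : p = 2 := (Nat.prime_dvd_prime_iff_eq hp.out Nat.prime_two).1 h2
  obtain ⟨⟨n, hn⟩, -, hcard⟩ := FiniteField.card F p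
  rw [hcard, hp2] at hF
  exact (Nat.not_even_iff_odd.2 hF) ⟨2 ^ (n - 1), by
    rw [← two_mul, ← pow_succ']; congr 1; simp only [PNat.mk_coe] at *; omega⟩

theorem sq_add_sq_eq (hF : Odd (Fintype.card F)) (c : F) : ∃ x y : F, x ^ 2 + y ^ 2 = c := by
  haveI : DecidableEq F := Classical.decEq F
  obtain ⟨a, b, hab⟩ := FiniteField.exists_root_sum_quadratic (R := F)
    (f := Polynomial.X ^ 2) (g := Polynomial.X ^ 2 - Polynomial.C c)
    (Polynomial.degree_X_pow 2) (Polynomial.degree_X_pow_sub_C (by norm_num) c)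
    (Nat.odd_iff.1 hF)
  refine ⟨a, b, ?_⟩
  simp only [Polynomial.eval_pow, Polynomial.eval_X, Polynomial.eval_sub, Polynomial.eval_C] at hab
  linear_combination hab

theorem entries_sq (M : Matrix.SpecialLinearGroup (Fin 2) F) :
    (M ^ 2).1 0 0 = M.1 0 0 * M.1 0 0 + M.1 0 1 * M.1 1 0 ∧
    (M ^ 2).1 0 1 = M.1 0 1 * (M.1 0 0 + M.1 1 1) ∧
    (M ^ 2).1 1 0 = M.1 1 0 * (M.1 0 0 + M.1 1 1) ∧
    (M ^ 2).1 1 1 = M.1 1 0 * M.1 0 1 + M.1 1 1 * M.1 1 1 := by
  refine ⟨?_, ?_, ?_, ?_⟩ <;> simp [pow_two, Matrix.mul_apply, Fin.sum_univ_two] <;> ring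

/-- Only the two scalar square roots of one. -/
theorem sq_eq_one (h2 : (2 : F) ≠ 0) {M : Matrix.SpecialLinearGroup (Fin 2) F} (hM : M ^ 2 = 1) :
    M = 1 ∨ M = -1 := by
  obtain ⟨e1, e2, e3, e4⟩ := entries_sq M
  rw [hM] at e1 e2 e3 e4
  simp at e1 e2 e3 e4
  have hdet := M.2
  rw [Matrix.det_fin_two] at hdet
  set a := M.1 0 0; set b := M.1 0 1; set c := M.1 1 0; set d := M.1 1 1
  have htr : a + d ≠ 0 := fun h => h2 (by linear_combination e1 - hdet + a * h)
  have hb : b = 0 := e2.resolve_right htr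
  have hc : c = 0 := e3.resolve_right htr
  have ha : a * a = 1 := by linear_combination -e1 - c * hb
  have had : a * d = 1 := by linear_combination hdet + c * hb
  have hda : d = a := by linear_combination a * had - d * ha
  rcases mul_self_eq_one_iff.1 ha with h | h
  · left; ext i j; fin_cases i <;> fin_cases j <;> simp [hb, hc, h, hda, a, b, c, d] at * <;> simp_all
  · right; ext i j; fin_cases i <;> fin_cases j <;> simp [hb, hc, h, hda, a, b, c, d] at * <;> simp_all

/-- The standard square root of minus one. -/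
def W : Matrix.SpecialLinearGroup (Fin 2) F :=
  ⟨!![0, -1; 1, 0], by simp [Matrix.det_fin_two]⟩

theorem W_sq : (W (F := F)) ^ 2 = -1 := by
  ext i j
  rw [pow_two, Matrix.SpecialLinearGroup.coe_mul]
  fin_cases i <;> fin_cases j <;> simp [W, Matrix.mul_apply, Fin.sum_univ_two]

theorem conj_W (hF : Odd (Fintype.card F)) {M : Matrix.SpecialLinearGroup (Fin 2) F}
    (hM : M ^ 2 = -1) : ∃ P : Matrix.SpecialLinearGroup (Fin 2) F, P * W * P⁻¹ = M := by
  have h2 := two_ne hF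
  obtain ⟨e1, e2, e3, e4⟩ := entries_sq M
  rw [hM] at e1 e2 e3 e4
  simp at e1 e2 e3 e4
  have hdet := M.2
  rw [Matrix.det_fin_two] at hdet
  set a := M.1 0 0 with ha
  set b := M.1 0 1 with hb
  set c := M.1 1 0 with hc
  set d := M.1 1 1 with hd
  have htr : a + d = 0 := by
    by_contra htr
    have hb0 : b = 0 := e2.resolve_right htr
    have hc0 : c = 0 := e3.resolve_right htr
    have haa : a * a = -1 := by linear_combination -e1 - c * hb0
    have had : a * d = 1 := by linear_combination hdet + c * hb0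
    have ha0 : a ≠ 0 := fun h => by rw [h, zero_mul] at had; exact zero_ne_one had
    exact htr ((mul_eq_zero.1 (show a * (a + d) = 0 by linear_combination haa + had)).resolve_left ha0)
  have hd' : d = -a := by linear_combination htr
  have hsq : a * a + b * c = -1 := by linear_combination -e1
  obtain ⟨x, y, hxy⟩ : ∃ x y : F, c * x ^ 2 - 2 * a * (x * y) - b * y ^ 2 = 1 := by
    rcases eq_or_ne c 0 with hc0 | hc0
    · have ha0 : a ≠ 0 := fun h => by rw [h, hc0] at hsq; simp at hsq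
      refine ⟨(-1 - b) / (2 * a), 1, ?_⟩
      rw [hc0]; field_simp; ring
    · obtain ⟨u, y, huy⟩ := sq_add_sq_eq hF c
      refine ⟨(u + a * y) / c, y, ?_⟩
      field_simp
      linear_combination huy - y ^ 2 * hsq
  let P : Matrix.SpecialLinearGroup (Fin 2) F :=
    ⟨!![x, a * x + b * y; y, c * x + d * y], by
      rw [Matrix.det_fin_two_of, hd']; linear_combination hxy⟩
  refine ⟨P, ?_⟩
  rw [mul_inv_eq_iff_eq_mul]
  refine Subtype.ext ?_
  rw [Matrix.SpecialLinearGroup.coe_mul, Matrix.SpecialLinearGroup.coe_mul, Matrix.eta_fin_two M.1,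
    ← ha, ← hb, ← hc, ← hd]
  show !![x, a * x + b * y; y, c * x + d * y] * !![0, -1; 1, 0] =
    !![a, b; c, d] * !![x, a * x + b * y; y, c * x + d * y]
  rw [Matrix.mul_fin_two, Matrix.mul_fin_two, hd']
  ext i j
  fin_cases i <;> fin_cases j <;> simp
  · linear_combination -x * hsq
  · linear_combination -y * hsq

theorem subgroup_facts {G : Type*} [Group G] (hF : Odd (Fintype.card F)) (L : Subgroup G)
    (e : ↥L ≃* Matrix.SpecialLinearGroup (Fin 2) F) {j : G} (hjL : j ∈ L) (hj2 : j ^ 2 = 1) (hj1 : j ≠ 1) :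
    (∀ u ∈ L, u ^ 2 = 1 → u = 1 ∨ u = j) ∧
      ∃ w ∈ L, w ^ 2 = j ∧ ∀ u ∈ L, u ^ 2 = j → ∃ g ∈ L, g * w * g⁻¹ = u := by
  have h2 := two_ne hF
  have hjm1 : e ⟨j, hjL⟩ = -1 := by
    refine (sq_eq_one h2 ?_).resolve_left fun h => hj1 ?_
    · rw [← map_pow, show (⟨j, hjL⟩ : ↥L) ^ 2 = 1 from Subtype.ext hj2, map_one]
    · exact congrArg Subtype.val (e.injective (h.trans (map_one e).symm))
  refine ⟨fun u hu hu2 => ?_, (e.symm W : G), Subtype.mem _, ?_, fun u hu hu2 => ?_⟩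
  · rcases sq_eq_one h2 (M := e ⟨u, hu⟩)
      (by rw [← map_pow, show (⟨u, hu⟩ : ↥L) ^ 2 = 1 from Subtype.ext hu2, map_one]) with h | h
    · exact Or.inl (congrArg Subtype.val (e.injective (h.trans (map_one e).symm)))
    · exact Or.inr (congrArg Subtype.val (e.injective (h.trans hjm1.symm)))
  · rw [← Subgroup.coe_pow, ← map_pow, W_sq, ← hjm1, MulEquiv.symm_apply_apply]
  · obtain ⟨P, hP⟩ := conj_W hF (M := e ⟨u, hu⟩) (by
      rw [← map_pow, show (⟨u, hu⟩ : ↥L) ^ 2 = ⟨j, hjL⟩ from Subtype.ext hu2, hjm1])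
    refine ⟨(e.symm P : G), Subtype.mem _, ?_⟩
    have h3 := congrArg e.symm hP
    rw [map_mul, map_mul, map_inv, MulEquiv.symm_apply_apply] at h3
    exact congrArg Subtype.val h3

end Cfsg.Agent.SLTwoSquareRoot
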