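import Cfsg.Agent.Lib.DicksonTorus
import Cfsg.Agent.Lib.LieSpecGLTwo
import Cfsg.Agent.Lib.LieSuzukiBridge
import Cfsg.Agent.Lib.ClassicalOrdersGU

/-!
Sections of `GL(5,2)` isomorphic to simple groups of rank one in characteristic two.
-/

set_option autoImplicit false
set_option exponentiation.threshold 64

namespace CfsgLib.SectionsGLFiveTwo

open CfsgLib.Dickson

theorem card_gl : Nat.card (GL (Fin 5) (ZMod 2)) = 9999360 := by
  haveI : Fact (Nat.Prime 2) := ⟨Nat.prime_two⟩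
  rw [Matrix.card_GL_field]
  simp [Fin.prod_univ_succ]

variable {H : Subgroup (GL (Fin 5) (ZMod 2))} {K : Subgroup ↥H} [K.Normal]

theorem card_dvd {Y : Type*} [Group Y] (e : (↥H ⧸ K) ≃* Y) : Nat.card Y ∣ 9999360 := by
  rw [← Nat.card_congr e.toEquiv, ← card_gl]
  exact (Subgroup.card_quotient_dvd_card K).trans H.card_subgroup_dvd_card

theorem no_nine {Y : Type*} [Group Y] (e : (↥H ⧸ K) ≃* Y) (y : Y) : orderOf y ≠ 9 := by
  intro h
  haveI : Fact (Nat.Prime 2) := ⟨Nat.prime_two⟩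
  obtain ⟨x, hx⟩ := QuotientGroup.mk'_surjective K (e.symm y)
  have h1 : orderOf y ∣ orderOf ((x : GL (Fin 5) (ZMod 2))) := by
    rw [← orderOf_injective e.symm.toMonoidHom e.symm.injective y, MulEquiv.coe_toMonoidHom, ← hx,
      Subgroup.orderOf_coe]
    exact orderOf_map_dvd _ _
  rw [h] at h1
  have h2 := h1.trans (CfsgLib.Spec.orderOf_dvd_bound (ZMod.card 2) _)
  revert h2
  decide

theorem psl_case {F : Type} [Field F] [Fintype F] {n : ℕ} (hn : 2 ≤ n) (hF : Fintype.card F = 2 ^ n)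
    (e : (↥H ⧸ K) ≃* Matrix.ProjectiveSpecialLinearGroup (Fin 2) F) : n = 2 := by
  haveI : Fact (Nat.Prime 2) := ⟨Nat.prime_two⟩
  haveI : CharP F 2 := charP_of_card_eq_prime_pow hF
  have hcard := card_psl (F := F) hF (p := 2)
  have hg : Nat.gcd 2 (2 ^ n - 1) = 1 := by
    refine (Nat.prime_two.coprime_iff_not_dvd).2 fun hd => ?_
    have h1 : 2 ∣ 2 ^ n := dvd_pow_self 2 (by omega)
    have h2 : 0 < 2 ^ n := Nat.two_pow_pos n
    omega
  rw [hg, mul_one] at hcard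
  have hd : 2 ^ n * (2 ^ n - 1) * (2 ^ n + 1) ∣ 9999360 := hcard ▸ card_dvd e
  have hn8 : n ≤ 8 := by
    by_contra hc
    have h1 : 512 ≤ 2 ^ n := by
      calc 512 = 2 ^ 9 := by norm_num
        _ ≤ 2 ^ n := Nat.pow_le_pow_right two_pos (by omega)
    have h2 := Nat.le_of_dvd (by norm_num) hd
    have h3 : 512 * 511 * 513 ≤ 2 ^ n * (2 ^ n - 1) * (2 ^ n + 1) :=
      Nat.mul_le_mul (Nat.mul_le_mul h1 (by omega)) (by omega)
    omega
  interval_cases n
  · rfl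
  · exfalso
    have hF' : Fintype.card F = 8 := by rw [hF]; norm_num
    obtain ⟨C, hC, hord, hcent⟩ := exists_torus (p := 2) hF' (by norm_num) 9 (Or.inr (by norm_num))
    obtain ⟨k, D, hk, -, -, -, -, c, -, hc⟩ := exists_dihedral (p := 2) hF' (by norm_num) hC hord
    rw [hcent] at hk
    norm_num at hk
    exact no_nine e c (hc.trans hk)
  all_goals norm_num at hd

theorem sz_case {F : Type} [Field F] [Fintype F] {m : ℕ} (hm : 1 ≤ m) (hF : Fintype.card F = 2 ^ (2 * m + 1))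
    (e : (↥H ⧸ K) ≃* ↥(Cfsg.Lie.Sz F (2 ^ (m + 1)))) : False := by
  have hcard := CfsgLib.Lie.SzOvoid.card_Sz (CfsgLib.Lie.SzOvoid.par_mk hm hF)
  obtain ⟨φ, -⟩ := CfsgLib.Lie.SzOvoid.bridge (CfsgLib.Lie.SzOvoid.par_mk hm hF)
  rw [hF, Nat.card_congr φ.toEquiv] at hcard
  have hd : (2 ^ (2 * m + 1)) ^ 2 * ((2 ^ (2 * m + 1)) ^ 2 + 1) * (2 ^ (2 * m + 1) - 1) ∣ 9999360 :=
    hcard ▸ card_dvd e
  have hm2 : m ≤ 2 := by
    by_contra hc
    have h1 : 128 ≤ 2 ^ (2 * m + 1) := by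
      calc 128 = 2 ^ 7 := by norm_num
        _ ≤ 2 ^ (2 * m + 1) := Nat.pow_le_pow_right two_pos (by omega)
    have h2 := Nat.le_of_dvd (by norm_num) hd
    have h3 : 128 ^ 2 * (128 ^ 2 + 1) * 127 ≤
        (2 ^ (2 * m + 1)) ^ 2 * ((2 ^ (2 * m + 1)) ^ 2 + 1) * (2 ^ (2 * m + 1) - 1) :=
      Nat.mul_le_mul (Nat.mul_le_mul (Nat.pow_le_pow_left h1 2)
        (Nat.add_le_add_right (Nat.pow_le_pow_left h1 2) 1)) (by omega)
    omega
  interval_cases m <;> norm_num at hd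

theorem psu_case {F : Type} [Field F] [Fintype F] {n : ℕ} (hn : 2 ≤ n) (hF : Fintype.card F = 4 ^ n)
    (e : (↥H ⧸ K) ≃* Cfsg.PSU 3 F (2 ^ n)) : False := by
  have hF' : Fintype.card F = (2 ^ n) ^ 2 := by
    rw [hF, ← pow_mul, mul_comm, pow_mul]
    norm_num
  have hcard := CfsgLib.Classical.Orders.card_PSU (n := 3) hF' (by norm_num)
  rw [CfsgLib.Classical.Orders.card_GU hF'] at hcard
  simp [Finset.prod_range_succ, Nat.even_iff] at hcard
  set q := 2 ^ n with hq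
  have hgd : Nat.gcd 3 (q + 1) ∣ 3 := Nat.gcd_dvd_left _ _
  have hd : q ^ 3 * ((q + 1) * (q ^ 2 - 1) * (q ^ 3 + 1)) ∣ 3 * ((q + 1) * 9999360) := by
    rw [← hcard]
    exact mul_dvd_mul hgd (mul_dvd_mul_left _ (card_dvd e))
  have hn4 : n ≤ 4 := by
    by_contra hc
    have h1 : 32 ≤ q := by
      calc 32 = 2 ^ 5 := by norm_num
        _ ≤ q := Nat.pow_le_pow_right two_pos (by omega)
    have h2 := Nat.le_of_dvd (by omega) hd
    have h4 : 1024 ≤ q ^ 2 := by nlinarith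
    have h5 : 32768 ≤ q ^ 3 := by nlinarith
    have h3 : 32768 * ((q + 1) * 1023 * 32769) ≤ q ^ 3 * ((q + 1) * (q ^ 2 - 1) * (q ^ 3 + 1)) :=
      Nat.mul_le_mul h5 (Nat.mul_le_mul (Nat.mul_le_mul_left _ (by omega)) (by omega))
    omega
  rw [hq] at hd
  interval_cases n <;> norm_num at hd

end CfsgLib.SectionsGLFiveTwo
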