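import Cfsg.Agent.Lib.DicksonTorus

/-!
A solvable group isospectral to the square of `PSL(2,q)`.
-/

set_option autoImplicit false

namespace CfsgLib.SpectrumSquarePSL

open CfsgLib.Dickson

/-- The orders occurring are the divisors of `p * a`, `p * b` and `a * b`. -/
def Spec (p a b : ℕ) : Set ℕ := {n | n ∣ p * a ∨ n ∣ p * b ∨ n ∣ a * b}

theorem range_eq {G : Type*} [Group G] [Finite G] {p a b : ℕ}
    (hcov : ∀ x : G, x ^ (p * a) = 1 ∨ x ^ (p * b) = 1 ∨ x ^ (a * b) = 1)
    (h1 : ∃ x : G, orderOf x = p * a) (h2 : ∃ x : G, orderOf x = p * b)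
    (h3 : ∃ x : G, orderOf x = a * b) :
    Set.range (orderOf : G → ℕ) = Spec p a b := by
  ext n
  constructor
  · rintro ⟨x, rfl⟩
    rcases hcov x with h | h | h
    · exact Or.inl (orderOf_dvd_of_pow_eq_one h)
    · exact Or.inr (Or.inl (orderOf_dvd_of_pow_eq_one h))
    · exact Or.inr (Or.inr (orderOf_dvd_of_pow_eq_one h))
  · rintro (h | h | h)
    · obtain ⟨x, hx⟩ := h1
      exact ⟨x ^ (orderOf x / n), orderOf_pow_orderOf_div (orderOf_pos x).ne' (hx ▸ h)⟩
    · obtain ⟨x, hx⟩ := h2
      exact ⟨x ^ (orderOf x / n), orderOf_pow_orderOf_div (orderOf_pos x).ne' (hx ▸ h)⟩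
    · obtain ⟨x, hx⟩ := h3
      exact ⟨x ^ (orderOf x / n), orderOf_pow_orderOf_div (orderOf_pos x).ne' (hx ▸ h)⟩

section Prod

variable {L : Type*} [Group L] {p a b : ℕ}

theorem pair_cases (hL : ∀ x : L, x ^ p = 1 ∨ x ^ a = 1 ∨ x ^ b = 1) (z : L × L) :
    z ^ (p * a) = 1 ∨ z ^ (p * b) = 1 ∨ z ^ (a * b) = 1 := by
  obtain ⟨x, y⟩ := z
  have key : ∀ {m k n : ℕ}, x ^ m = 1 → y ^ k = 1 → m ∣ n → k ∣ n → (x, y) ^ n = 1 := by
    intro m k n hx hy h1 h2
    exact Prod.ext (orderOf_dvd_iff_pow_eq_one.1 ((orderOf_dvd_of_pow_eq_one hx).trans h1))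
      (orderOf_dvd_iff_pow_eq_one.1 ((orderOf_dvd_of_pow_eq_one hy).trans h2))
  have pa : p ∣ p * a ∧ a ∣ p * a := ⟨dvd_mul_right _ _, dvd_mul_left _ _⟩
  have pb : p ∣ p * b ∧ b ∣ p * b := ⟨dvd_mul_right _ _, dvd_mul_left _ _⟩
  have ab : a ∣ a * b ∧ b ∣ a * b := ⟨dvd_mul_right _ _, dvd_mul_left _ _⟩
  rcases hL x with hx | hx | hx <;> rcases hL y with hy | hy | hy
  · exact Or.inl (key hx hy pa.1 pa.1)
  · exact Or.inl (key hx hy pa.1 pa.2)
  · exact Or.inr (Or.inl (key hx hy pb.1 pb.2))
  · exact Or.inl (key hx hy pa.2 pa.1)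
  · exact Or.inl (key hx hy pa.2 pa.2)
  · exact Or.inr (Or.inr (key hx hy ab.1 ab.2))
  · exact Or.inr (Or.inl (key hx hy pb.2 pb.1))
  · exact Or.inr (Or.inr (key hx hy ab.2 ab.1))
  · exact Or.inr (Or.inl (key hx hy pb.2 pb.2))

theorem pair_order {m k : ℕ} {x y : L} (hx : orderOf x = m) (hy : orderOf y = k) (h : m.Coprime k) :
    orderOf (x, y) = m * k := by
  rw [Prod.orderOf, hx, hy, h.lcm_eq_mul]

end Prod

section Model

variable (p : ℕ) [Fact p.Prime] (K : Type) [Field K] [CharP K p]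

/-- Scaling both coordinates. -/
def twist (a b : ℕ) (C : Subgroup Kˣ) : ↥C →* MulAut (Multiplicative (K × K)) where
  toFun c :=
    { toFun := fun v => Multiplicative.ofAdd
        (((c : Kˣ) ^ a : Kˣ) * v.toAdd.1, ((c : Kˣ) ^ b : Kˣ) * v.toAdd.2)
      invFun := fun v => Multiplicative.ofAdd
        ((((c : Kˣ) ^ a)⁻¹ : Kˣ) * v.toAdd.1, (((c : Kˣ) ^ b)⁻¹ : Kˣ) * v.toAdd.2)
      left_inv := fun v => by
        apply Multiplicative.toAdd.injective
        simp [Prod.ext_iff]
      right_inv := fun v => by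
        apply Multiplicative.toAdd.injective
        simp [Prod.ext_iff]
      map_mul' := fun v w => by
        apply Multiplicative.toAdd.injective
        simp [Prod.ext_iff, mul_add] }
  map_one' := by
    refine MulEquiv.ext fun v => ?_
    apply Multiplicative.toAdd.injective
    show (_, _) = v.toAdd
    simp
  map_mul' c d := by
    refine MulEquiv.ext fun v => ?_
    apply Multiplicative.toAdd.injective
    show (_, _) = (_, _)
    simp [mul_pow, mul_assoc]

variable {K}

theorem pow_coords (a b : ℕ) (C : Subgroup Kˣ) (z : Multiplicative (K × K) ⋊[twist K a b C] ↥C) (n : ℕ) :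
    z ^ n = ⟨Multiplicative.ofAdd
      ((∑ i ∈ Finset.range n, (((z.right : Kˣ) ^ a : Kˣ) : K) ^ i) * z.left.toAdd.1,
       (∑ i ∈ Finset.range n, (((z.right : Kˣ) ^ b : Kˣ) : K) ^ i) * z.left.toAdd.2), z.right ^ n⟩ := by
  induction n with
  | zero => ext <;> simp
  | succ n ih =>
    rw [pow_succ', ih]
    refine SemidirectProduct.ext ?_ ?_
    · rw [SemidirectProduct.mul_left]
      apply Multiplicative.toAdd.injective
      rw [toAdd_mul, toAdd_ofAdd]
      show z.left.toAdd + (_, _) = _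
      rw [Prod.ext_iff, geom_sum_succ, geom_sum_succ]
      constructor <;> simp <;> ring
    · rw [SemidirectProduct.mul_right, pow_succ']

theorem geom_zero {u : K} {m : ℕ} (hu : u ^ m = 1) : ∑ i ∈ Finset.range (p * m), u ^ i = 0 := by
  by_cases h1 : u = 1
  · subst h1
    simp
  · have := geom_sum_mul u (p * m)
    rw [mul_comm p m, pow_mul, hu, one_pow, sub_self] at this
    rw [mul_comm p m]
    exact (mul_eq_zero.1 this).resolve_right (sub_ne_zero.2 h1)

theorem geom_zero' {u : K} {m : ℕ} (hu : u ^ m = 1) (h1 : u ≠ 1) :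
    ∑ i ∈ Finset.range m, u ^ i = 0 := by
  have := geom_sum_mul u m
  rw [hu, sub_self] at this
  exact (mul_eq_zero.1 this).resolve_right (sub_ne_zero.2 h1)

variable (K) in
theorem model [Finite K] {a b : ℕ} (ha : a ≠ 0) (hb : b ≠ 0) (hab : a.Coprime b) (hpa : p.Coprime a)
    (hpb : p.Coprime b) (hdvd : a * b ∣ Nat.card Kˣ) :
    ∃ (H : Type) (_ : Group H) (_ : Finite H), Group.IsSolvable H ∧
      Set.range (orderOf : H → ℕ) = Spec p a b := by
  obtain ⟨g₀, hg₀⟩ := IsCyclic.exists_ofOrder_eq_natCard (α := Kˣ)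
  obtain ⟨g, hg⟩ : ∃ g : Kˣ, orderOf g = a * b :=
    ⟨g₀ ^ (orderOf g₀ / (a * b)), orderOf_pow_orderOf_div (orderOf_pos g₀).ne' (hg₀ ▸ hdvd)⟩
  set C := Subgroup.zpowers g with hC
  haveI : Finite (Multiplicative (K × K) ⋊[twist K a b C] ↥C) :=
    Finite.of_equiv _ SemidirectProduct.equivProd.symm
  refine ⟨Multiplicative (K × K) ⋊[twist K a b C] ↥C, inferInstance, inferInstance, ?_, ?_⟩
  · exact solvable_of_ker_le_range SemidirectProduct.inl SemidirectProduct.rightHom
      (le_of_eq SemidirectProduct.range_inl_eq_ker_rightHom.symm)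
  let gC : ↥C := ⟨g, Subgroup.mem_zpowers g⟩
  have hgC : orderOf gC = a * b := by rw [Subgroup.orderOf_mk, hg]
  have hcard : ∀ c : ↥C, c ^ (a * b) = 1 := fun c => by
    obtain ⟨i, hi⟩ := Subgroup.mem_zpowers_iff.1 c.2
    apply Subtype.ext
    rw [Subgroup.coe_pow, Subgroup.coe_one, ← hi, ← zpow_natCast, ← zpow_mul, mul_comm, zpow_mul,
      zpow_natCast, ← hg, pow_orderOf_eq_one, one_zpow]
  have hone : ∀ {c : ↥C} {m : ℕ}, c ^ m = 1 → ∀ k, (((c : Kˣ) ^ k : Kˣ) : K) ^ m = 1 := by
    intro c m h k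
    rw [← Units.val_pow_eq_pow_val, ← pow_mul, mul_comm, pow_mul, ← Subgroup.coe_pow, h]
    simp
  refine range_eq ?_ ?_ ?_ ?_
  · intro z
    by_cases h1 : z.right ^ a = 1
    · left
      rw [pow_coords, geom_zero p (hone h1 a), geom_zero p (hone h1 b), mul_comm p a, pow_mul, h1,
        one_pow]
      ext <;> simp
    by_cases h2 : z.right ^ b = 1
    · right; left
      rw [pow_coords, geom_zero p (hone h2 a), geom_zero p (hone h2 b), mul_comm p b, pow_mul, h2,
        one_pow]
      ext <;> simp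
    · right; right
      have hne : ∀ {k : ℕ}, z.right ^ k ≠ 1 → (((z.right : Kˣ) ^ k : Kˣ) : K) ≠ 1 := fun hk e =>
        hk (Subtype.ext (by rw [Subgroup.coe_pow]; exact Units.ext e))
      rw [pow_coords, geom_zero' (hone (hcard _) a) (hne h1), geom_zero' (hone (hcard _) b) (hne h2),
        hcard]
      ext <;> simp
  · let v : Multiplicative (K × K) := Multiplicative.ofAdd ((1 : K), (0 : K))
    have hv : orderOf v = p := by
      refine orderOf_eq_prime ?_ ?_
      · rw [← ofAdd_nsmul]; simp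
      · intro e
        have := congrArg (fun u => (Multiplicative.toAdd u).1) e
        simp [v] at this
    have hgb : orderOf (gC ^ b) = a := by
      rw [orderOf_pow, hgC, Nat.gcd_mul_left_left, Nat.mul_div_cancel a (Nat.pos_of_ne_zero hb)]
    refine ⟨SemidirectProduct.inl v * SemidirectProduct.inr (gC ^ b), ?_⟩
    rw [Commute.orderOf_mul_eq_mul_orderOf_of_coprime]
    · rw [orderOf_injective _ SemidirectProduct.inl_injective, hv,
        orderOf_injective _ SemidirectProduct.inr_injective, hgb]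
    · refine SemidirectProduct.ext ?_ (by simp)
      simp only [SemidirectProduct.mul_left, SemidirectProduct.left_inl, SemidirectProduct.right_inl,
        SemidirectProduct.left_inr, SemidirectProduct.right_inr, map_one, mul_one, one_mul]
      apply Multiplicative.toAdd.injective
      have : ((g ^ b) ^ a : Kˣ) = 1 := by rw [← pow_mul, mul_comm, ← hg, pow_orderOf_eq_one]
      simp [twist, v, gC]
      rw [← Units.val_pow_eq_pow_val, ← Units.val_pow_eq_pow_val, this, Units.val_one]
    · rw [orderOf_injective _ SemidirectProduct.inl_injective, hv,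
        orderOf_injective _ SemidirectProduct.inr_injective, hgb]
      exact hpa
  · let v : Multiplicative (K × K) := Multiplicative.ofAdd ((0 : K), (1 : K))
    have hv : orderOf v = p := by
      refine orderOf_eq_prime ?_ ?_
      · rw [← ofAdd_nsmul]; simp
      · intro e
        have := congrArg (fun u => (Multiplicative.toAdd u).2) e
        simp [v] at this
    have hga : orderOf (gC ^ a) = b := by
      rw [orderOf_pow, hgC, Nat.gcd_mul_right_left, Nat.mul_div_cancel_left b (Nat.pos_of_ne_zero ha)]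
    refine ⟨SemidirectProduct.inl v * SemidirectProduct.inr (gC ^ a), ?_⟩
    rw [Commute.orderOf_mul_eq_mul_orderOf_of_coprime]
    · rw [orderOf_injective _ SemidirectProduct.inl_injective, hv,
        orderOf_injective _ SemidirectProduct.inr_injective, hga]
    · refine SemidirectProduct.ext ?_ (by simp)
      simp only [SemidirectProduct.mul_left, SemidirectProduct.left_inl, SemidirectProduct.right_inl,
        SemidirectProduct.left_inr, SemidirectProduct.right_inr, map_one, mul_one, one_mul]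
      apply Multiplicative.toAdd.injective
      have : ((g ^ a) ^ b : Kˣ) = 1 := by rw [← pow_mul, ← hg, pow_orderOf_eq_one]
      simp [twist, v, gC]
      rw [← Units.val_pow_eq_pow_val, ← Units.val_pow_eq_pow_val, this, Units.val_one]
    · rw [orderOf_injective _ SemidirectProduct.inl_injective, hv,
        orderOf_injective _ SemidirectProduct.inr_injective, hga]
      exact hpb
  · exact ⟨SemidirectProduct.inr gC, by
      rw [orderOf_injective _ SemidirectProduct.inr_injective, hgC]⟩

end Model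

theorem exists_solvable {F : Type*} [Field F] [Fintype F] (hF : 4 ≤ Fintype.card F) :
    ∃ (H : Type) (_ : Group H) (_ : Finite H), Group.IsSolvable H ∧
      Set.range (orderOf : H → ℕ) = Set.range (orderOf : PSL F × PSL F → ℕ) := by
  classical
  set p := ringChar F
  haveI : CharP F p := ringChar.charP F
  obtain ⟨n, hp, hn⟩ := FiniteField.card F p
  haveI : Fact p.Prime := ⟨hp⟩
  set q := Fintype.card F with hq
  set d := Nat.gcd 2 (q - 1) with hd
  obtain ⟨hd1, hd2⟩ := gcd_dvd (F := F) hq.symm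
  have hd0 : 0 < d := Nat.gcd_pos_of_pos_left _ two_pos
  set a := (q - 1) / d with ha
  set b := (q + 1) / d with hb
  have ha' : d * a = q - 1 := Nat.mul_div_cancel' hd1
  have hb' : d * b = q + 1 := Nat.mul_div_cancel' hd2
  have ha0 : a ≠ 0 := fun h => by rw [h, mul_zero] at ha'; omega
  have hb0 : b ≠ 0 := fun h => by rw [h, mul_zero] at hb'; omega
  have hpq : p ∣ q := hn ▸ dvd_pow_self p n.ne_zero
  have hpa : p.Coprime a := hp.coprime_iff_not_dvd.2 fun h => by
    have := (Nat.dvd_sub hpq (ha' ▸ h.mul_left d))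
    rw [Nat.sub_sub_self (by omega)] at this
    exact hp.not_dvd_one this
  have hpb : p.Coprime b := hp.coprime_iff_not_dvd.2 fun h => by
    have := Nat.dvd_sub (hb' ▸ h.mul_left d) hpq
    rw [Nat.add_sub_cancel_left] at this
    exact hp.not_dvd_one this
  have hab : a.Coprime b := by
    have hg2 : d * Nat.gcd a b ∣ 2 := by
      have := Nat.dvd_sub (mul_dvd_mul_left d (Nat.gcd_dvd_right a b)) (mul_dvd_mul_left d (Nat.gcd_dvd_left a b))
      rwa [ha', hb', show q + 1 - (q - 1) = 2 by omega] at this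
    rcases (Nat.dvd_prime Nat.prime_two).1 (Nat.gcd_dvd_left 2 (q - 1)) with e | e
    · rcases (Nat.dvd_prime Nat.prime_two).1 ((dvd_mul_left _ d).trans hg2) with h | h
      · exact h
      · exfalso
        have h' : 2 ∣ a := by rw [← h]; exact Nat.gcd_dvd_left a b
        have h2 : 2 ∣ q - 1 := ha' ▸ h'.mul_left d
        have := Nat.dvd_gcd (dvd_refl 2) h2
        rw [e] at this
        omega
    · rw [show d = 2 from e] at hg2
      exact Nat.dvd_one.1 (Nat.dvd_of_mul_dvd_mul_left two_pos (n := 1) (by rwa [mul_one]))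
  -- the orders in `PSL(2,q)`
  have hU : ∃ x : PSL F, orderOf x = p := by
    refine ⟨mkP (upperU 1), orderOf_eq_prime ?_ ?_⟩
    · rw [← map_pow, upperU_pow, CharP.cast_eq_zero, zero_mul, upperU_zero, map_one]
    · intro h
      exact one_ne_zero (α := F) (mkP_eq_one.1 h).1
  have hT : ∀ e, e = q - 1 ∨ e = q + 1 → ∃ x : PSL F, orderOf x = e / d := by
    intro e he
    obtain ⟨C, hC, hord, hcard⟩ := exists_torus (p := p) hq.symm hF e he
    obtain ⟨k, D, hk, -, -, -, -, c, -, hc⟩ := exists_dihedral (p := p) hq.symm hF hC hord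
    refine ⟨c, ?_⟩
    rw [hc, ← hcard, ← hk]
    exact (Nat.mul_div_cancel_left k hd0).symm
  have hL : Set.range (orderOf : PSL F × PSL F → ℕ) = Spec p a b := by
    obtain ⟨x, hx⟩ := hU
    obtain ⟨y, hy⟩ := hT _ (Or.inl rfl)
    obtain ⟨z, hz⟩ := hT _ (Or.inr rfl)
    exact range_eq (pair_cases fun w => psl_pow_cases hq.symm w) ⟨(x, y), pair_order hx hy hpa⟩
      ⟨(x, z), pair_order hx hz hpb⟩ ⟨(y, z), pair_order hy hz hab⟩
  rw [hL]
  haveI : Fintype (GaloisField p (2 * n)) := Fintype.ofFinite _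
  refine model p (GaloisField p (2 * n)) ha0 hb0 hab hpa hpb ?_
  rw [Nat.card_units, GaloisField.card p (2 * n) (by positivity), mul_comm 2, pow_mul, ← hn]
  refine (mul_dvd_mul (Nat.div_dvd_of_dvd hd1) (Nat.div_dvd_of_dvd hd2)).trans ?_
  rw [mul_comm, ← Nat.sq_sub_sq, one_pow]

end CfsgLib.SpectrumSquarePSL
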