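import Mathlib

/-!
Symmetry of orthogonality for conjugate involutions with extraspecial cores.
-/

set_option autoImplicit false

namespace CfsgLib.Spor.Orth

variable {G : Type*} [Group G] [Finite G]

/-- The properties used for the core of a singular involution. -/
structure Sing (Q : G → Subgroup G) (u : G) : Prop where
  mem : u ∈ Q u
  invol : u * u = 1
  ne_one : u ≠ 1
  central : ∀ x ∈ Q u, x * u = u * x
  comm : ∀ x ∈ Q u, ∀ y ∈ Q u, x * y * x⁻¹ = y ∨ x * y * x⁻¹ = u * y
  centre : ∀ v ∈ Q u, (∀ x ∈ Q u, x * v = v * x) → v = 1 ∨ v = u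
  sq : ∀ x ∈ Q u, x * x = 1 ∨ x * x = u
  cent : ∀ x : G, (∀ y ∈ Q u, x * y = y * x) → x ∈ Q u

variable {Q : G → Subgroup G} {z v : G}

/-- The inner automorphism sends cores to cores. -/
def Equivariant (Q : G → Subgroup G) : Prop :=
  ∀ g x y : G, y ∈ Q x → g * y * g⁻¹ ∈ Q (g * x * g⁻¹)

theorem normalizes (hE : Equivariant Q) {u c y : G} (hc : c * u = u * c) (hy : y ∈ Q u) : c * y * c⁻¹ ∈ Q u := by
  have := hE c u y hy
  rwa [mul_inv_eq_iff_eq_mul.2 hc] at this

/-- The centre of the centraliser of a point in an extraspecial core. -/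
theorem centre_stab (hz : Sing Q z) {v : G} (hv : v ∈ Q z) (hv1 : v ≠ 1) (hvz : v ≠ z) {n : G} (hn : n ∈ Q z)
    (hcom : ∀ r ∈ Q z, r * v = v * r → r * n = n * r) : n = 1 ∨ n = z ∨ n = v ∨ n = z * v := by
  obtain ⟨q, hq, hqv⟩ : ∃ q ∈ Q z, q * v * q⁻¹ = z * v := by
    by_contra h
    push Not at h
    rcases hz.centre v hv (fun x hx => mul_inv_eq_iff_eq_mul.1 ((hz.comm x hx v hv).resolve_right (h x hx))) with e | e
    exacts [hv1 e, hvz e]
  have hzv : z * v = v * z := (hz.central v hv).symm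
  have hvcom : ∀ r ∈ Q z, r * v = v * r → ∀ k, k = n ∨ k = n * v → r * k = k * r := fun r hr hrv k hk => by
    rcases hk with rfl | rfl
    · exact hcom r hr hrv
    · rw [← mul_assoc, hcom r hr hrv, mul_assoc, hrv, ← mul_assoc]
  obtain ⟨k, hk, hkQ, hkq⟩ : ∃ k, (k = n ∨ k = n * v) ∧ k ∈ Q z ∧ q * k * q⁻¹ = k := by
    rcases hz.comm q hq n hn with e | e
    · exact ⟨n, Or.inl rfl, hn, e⟩
    · refine ⟨n * v, Or.inr rfl, (Q z).mul_mem hn hv, ?_⟩
      calc q * (n * v) * q⁻¹ = q * n * q⁻¹ * (q * v * q⁻¹) := by group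
        _ = z * n * (z * v) := by rw [e, hqv]
        _ = z * (n * z) * v := by group
        _ = z * z * (n * v) := by rw [hz.central n hn]; group
        _ = n * v := by rw [hz.invol, one_mul]
  have hkc : ∀ x ∈ Q z, x * k = k * x := by
    intro x hx
    rcases hz.comm x hx v hv with e | e
    · exact hvcom x hx (mul_inv_eq_iff_eq_mul.1 e) k hk
    · have hr : (q⁻¹ * x) * v = v * (q⁻¹ * x) := by
        have h2 : q⁻¹ * (z * v) * q = v := by rw [← hqv]; group
        calc q⁻¹ * x * v = q⁻¹ * (x * v * x⁻¹) * q * (q⁻¹ * x) := by group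
          _ = v * (q⁻¹ * x) := by rw [e, h2]
      have h1 := hvcom _ ((Q z).mul_mem ((Q z).inv_mem hq) hx) hr k hk
      calc x * k = q * (q⁻¹ * x * k) := by group
        _ = q * k * q⁻¹ * x := by rw [h1]; group
        _ = k * x := by rw [hkq]
  have hvv : v * v = 1 ∨ v * v = z := hz.sq v hv
  rcases hz.centre k hkQ hkc with e | e <;> rcases hk with rfl | rfl
  · exact Or.inl e
  · have en : n = v⁻¹ := eq_inv_of_mul_eq_one_left e
    rcases hvv with h | h
    · exact Or.inr (Or.inr (Or.inl (en.trans (inv_eq_of_mul_eq_one_right h))))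
    · exact Or.inr (Or.inr (Or.inr (en.trans (inv_eq_of_mul_eq_one_right
        (by rw [← mul_assoc, ← hzv, mul_assoc, h, hz.invol])))))
  · exact Or.inr (Or.inl e)
  · have en : n = z * v⁻¹ := eq_mul_inv_of_mul_eq e
    rcases hvv with h | h
    · exact Or.inr (Or.inr (Or.inr (by rw [en, inv_eq_of_mul_eq_one_right h])))
    · refine Or.inr (Or.inr (Or.inl ?_))
      rw [en, ← h, mul_inv_cancel_right]

theorem symm (hE : Equivariant Q) (hz : Sing Q z) (hv : Sing Q v) (hcard : Nat.card (Q v) = Nat.card (Q z))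
    (hmem : v ∈ Q z) (hne : v ≠ z) : z ∈ Q v := by
  classical
  have hzv : z * v = v * z := (hz.central v hmem).symm
  by_contra hcon
  have hzW : ∀ a ∈ Q v, z * a * z⁻¹ ∈ Q v := fun a ha => normalizes hE hzv ha
  have hnoe : ∀ e ∈ Q v, z * e * z⁻¹ ≠ e * v := by
    intro e he hze
    apply hcon
    obtain ⟨q, hq, hqv⟩ : ∃ q ∈ Q z, q * v * q⁻¹ = z * v := by
      by_contra h
      push Not at h
      rcases hz.centre v hmem
        (fun x hx => mul_inv_eq_iff_eq_mul.1 ((hz.comm x hx v hmem).resolve_right (h x hx))) with e | e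
      exacts [hv.ne_one e, hne e]
    have hev : e * v = v * e := hv.central e he
    have hez : e * z * e⁻¹ = v * z := by
      have hz' : z⁻¹ = z := inv_eq_of_mul_eq_one_right hz.invol
      rw [hz'] at hze
      have hv' : v⁻¹ = v := inv_eq_of_mul_eq_one_right hv.invol
      have h2 : z * e * z = v * e := hze.trans hev
      have h3 : z * e = v * e * z := by rw [← h2, mul_assoc, hz.invol, mul_one]
      calc e * z * e⁻¹ = v * (v * e * z) * e⁻¹ := by rw [← mul_assoc v, ← mul_assoc v, hv.invol, one_mul]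
        _ = v * z := by rw [← h3]; group
    have hvzQ : v * z ∈ Q z := (Q z).mul_mem hmem hz.mem
    have h4 := hE e z (v * z) hvzQ
    rw [hez, show e * (v * z) * e⁻¹ = (e * v * e⁻¹) * (e * z * e⁻¹) by group, hez, hev, mul_inv_cancel_right,
      ← mul_assoc, hv.invol, one_mul] at h4
    have h5 := hE q (v * z) z h4
    rwa [show q * (v * z) * q⁻¹ = (q * v * q⁻¹) * (q * z * q⁻¹) by group, hz.central q hq, mul_inv_cancel_right, hqv,
      hzv, mul_assoc, hz.invol, mul_one] at h5
  have hdP : ∀ a ∈ Q v, z * (z * a * z⁻¹ * a⁻¹) * z⁻¹ = z * a * z⁻¹ * a⁻¹ := by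
    intro a ha
    set d := z * a * z⁻¹ * a⁻¹ with hd
    have hdW : d ∈ Q v := (Q v).mul_mem (hzW a ha) ((Q v).inv_mem ha)
    have hinv : z * d * z⁻¹ = d⁻¹ := by
      rw [hd]
      calc z * (z * a * z⁻¹ * a⁻¹) * z⁻¹ = (z * z) * a * z⁻¹ * a⁻¹ * z⁻¹ := by group
        _ = a * (z * a * z)⁻¹ := by rw [hz.invol]; group
        _ = (z * a * z⁻¹ * a⁻¹)⁻¹ := by rw [inv_eq_of_mul_eq_one_right hz.invol]; group
    rcases hv.sq d hdW with e | e
    · rw [hinv, inv_eq_of_mul_eq_one_right e]
    · exfalso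
      refine hnoe d hdW ?_
      rw [hinv, ← e]
      calc d⁻¹ = d⁻¹ * (v * v) := by rw [hv.invol, mul_one]
        _ = d⁻¹ * (d * d * (d * d)) := by rw [e]
        _ = d * (d * d) := by group
  have hcp : ∀ y ∈ Q v, (∀ p ∈ Q v, z * p * z⁻¹ = p → y * p = p * y) → z * y * z⁻¹ = y := by
    intro y hy hcom
    set d := z * y * z⁻¹ * y⁻¹ with hd
    have hdW : d ∈ Q v := (Q v).mul_mem (hzW y hy) ((Q v).inv_mem hy)
    have hdy : z * y * z⁻¹ = d * y := by rw [hd]; group
    have hdp : ∀ p ∈ Q v, z * p * z⁻¹ = p → d * p = p * d := fun p hp hzp => by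
      have h1 : (z * y * z⁻¹) * p = p * (z * y * z⁻¹) := by
        calc (z * y * z⁻¹) * p = (z * y * z⁻¹) * (z * p * z⁻¹) := by rw [hzp]
          _ = z * (y * p) * z⁻¹ := by group
          _ = z * (p * y) * z⁻¹ := by rw [hcom p hp hzp]
          _ = (z * p * z⁻¹) * (z * y * z⁻¹) := by group
          _ = p * (z * y * z⁻¹) := by rw [hzp]
      rw [hdy, mul_assoc, hcom p hp hzp, ← mul_assoc, ← mul_assoc] at h1
      exact mul_right_cancel h1
    have hdc : ∀ a ∈ Q v, a * d = d * a := by
      intro a ha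
      set da := z * a * z⁻¹ * a⁻¹ with hda
      have hdaW : da ∈ Q v := (Q v).mul_mem (hzW a ha) ((Q v).inv_mem ha)
      have c1 : y * da = da * y := hcom da hdaW (hdP a ha)
      have c2 : d * da = da * d := hdp da hdaW (hdP a ha)
      have hya : ∀ k, y * a * y⁻¹ = k * a → k * v = v * k → (z * k * z⁻¹ = k) →
          d * a * d⁻¹ = a := fun k hk hkv hzk => by
        have h1 : z * (y * a * y⁻¹) * z⁻¹ = k * (da * a) := by
          rw [hk]
          calc z * (k * a) * z⁻¹ = (z * k * z⁻¹) * (z * a * z⁻¹) := by group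
            _ = k * (da * a) := by rw [hzk, hda]; group
        have h2 : z * (y * a * y⁻¹) * z⁻¹ = (d * y) * (da * a) * (d * y)⁻¹ := by rw [← hdy, hda]; group
        have hkd : d * k * d⁻¹ = k := by
          rcases hv.comm d hdW k (by
            have : k = y * a * y⁻¹ * a⁻¹ := by rw [hk]; group
            rw [this]
            exact (Q v).mul_mem ((Q v).mul_mem ((Q v).mul_mem hy ha) ((Q v).inv_mem hy)) ((Q v).inv_mem ha)) with e | e
          · exact e
          · exfalso
            have hkk : k = 1 ∨ k = v := by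
              rcases hv.comm y hy a ha with e' | e' <;> rw [e'] at hk
              · exact Or.inl (mul_eq_right.1 hk.symm)
              · exact Or.inr (mul_right_cancel hk).symm
            rcases hkk with rfl | rfl
            · simp at e; exact hv.ne_one e.symm
            · rw [hv.invol, mul_inv_eq_iff_eq_mul, hv.central d hdW, one_mul] at e
              exact hv.ne_one (mul_eq_right.1 e)
        have h3 : (d * y) * (da * a) * (d * y)⁻¹ = k * (da * (d * a * d⁻¹)) := by
          calc (d * y) * (da * a) * (d * y)⁻¹ = d * ((y * da) * a * y⁻¹) * d⁻¹ := by group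
            _ = d * (da * (y * a * y⁻¹)) * d⁻¹ := by rw [c1]; group
            _ = d * (da * (k * a)) * d⁻¹ := by rw [hk]
            _ = (d * da) * k * a * d⁻¹ := by group
            _ = da * (d * k * d⁻¹) * (d * a * d⁻¹) := by rw [c2]; group
            _ = (da * k) * (d * a * d⁻¹) := by rw [hkd]
            _ = k * (da * (d * a * d⁻¹)) := by
              have hkk : k = 1 ∨ k = v := by
                rcases hv.comm y hy a ha with e' | e' <;> rw [e'] at hk
                · exact Or.inl (mul_eq_right.1 hk.symm)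
                · exact Or.inr (mul_right_cancel hk).symm
              rcases hkk with rfl | rfl
              · group
              · rw [hv.central da hdaW, mul_assoc]
        exact mul_left_cancel (mul_left_cancel ((h3.symm.trans (h2.symm.trans h1))))
      rcases hv.comm y hy a ha with e | e
      · exact (mul_inv_eq_iff_eq_mul.1 (hya 1 (by rw [one_mul]; exact e) (by group) (by group))).symm
      · exact (mul_inv_eq_iff_eq_mul.1 (hya v e rfl (by rw [hzv, mul_inv_cancel_right]))).symm
    rcases hv.centre d hdW hdc with e | e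
    · rw [hdy, e, one_mul]
    · exfalso
      refine hnoe y hy ?_
      rw [hdy, e, hv.central y hy]
  have hRW : ∀ n, n ∈ Q v → n ∈ Q z → n = 1 ∨ n = v := by
    intro n hnW hnQ
    have hcom : ∀ r ∈ Q z, r * v = v * r → r * n = n * r := fun r hr hrv => by
      rcases hz.comm r hr n hnQ with e | e
      · exact mul_inv_eq_iff_eq_mul.1 e
      · exfalso
        apply hcon
        have h1 : r * n * r⁻¹ * n⁻¹ ∈ Q v := (Q v).mul_mem (normalizes hE hrv hnW) ((Q v).inv_mem hnW)
        rwa [e, mul_inv_cancel_right] at h1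
    rcases centre_stab hz hmem hv.ne_one hne hnQ hcom with e | e | e | e
    · exact Or.inl e
    · exact absurd (e ▸ hnW) hcon
    · exact Or.inr e
    · refine absurd ?_ hcon
      have := (Q v).mul_mem (e ▸ hnW) hv.mem
      rwa [mul_assoc, hv.invol, mul_one] at this
  have hrp : ∀ r ∈ Q z, r * v = v * r → ∀ p ∈ Q v, z * p * z⁻¹ = p → r * p * r⁻¹ * p⁻¹ = 1 ∨
      r * p * r⁻¹ * p⁻¹ = v := by
    intro r hr hrv p hp hzp
    refine hRW _ ((Q v).mul_mem (normalizes hE hrv hp) ((Q v).inv_mem hp)) ?_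
    have h1 : p * r⁻¹ * p⁻¹ ∈ Q z := normalizes hE (mul_inv_eq_iff_eq_mul.1 hzp).symm ((Q z).inv_mem hr)
    rw [show r * p * r⁻¹ * p⁻¹ = r * (p * r⁻¹ * p⁻¹) by group]
    exact (Q z).mul_mem hr h1
  have hdr : ∀ r ∈ Q z, r * v = v * r → ∀ a ∈ Q v, ∀ p ∈ Q v, z * p * z⁻¹ = p →
      (r * a * r⁻¹ * a⁻¹) * p = p * (r * a * r⁻¹ * a⁻¹) := by
    intro r hr hrv a ha p hp hzp
    set d := r * a * r⁻¹ * a⁻¹ with hd
    have hra : r * a * r⁻¹ = d * a := by rw [hd]; group
    have hvc : ∀ w ∈ Q v, w * v = v * w := hv.central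
    obtain ⟨k, hk, hpk⟩ : ∃ k, (k = 1 ∨ k = v) ∧ r * p * r⁻¹ = k * p := by
      rcases hrp r hr hrv p hp hzp with e | e
      · exact ⟨1, Or.inl rfl, by rw [one_mul]; exact mul_inv_eq_one.1 e⟩
      · exact ⟨v, Or.inr rfl, mul_inv_eq_iff_eq_mul.1 e⟩
    have hdW : d ∈ Q v := (Q v).mul_mem (normalizes hE hrv ha) ((Q v).inv_mem ha)
    have hkc : ∀ w ∈ Q v, w * k = k * w := fun w hw => by
      rcases hk with rfl | rfl
      · group
      · exact hvc w hw
    obtain ⟨j, hj, hap⟩ : ∃ j, (j = 1 ∨ j = v) ∧ a * p * a⁻¹ = j * p := by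
      rcases hv.comm a ha p hp with e | e
      · exact ⟨1, Or.inl rfl, by rw [one_mul]; exact e⟩
      · exact ⟨v, Or.inr rfl, e⟩
    have hjc : ∀ w ∈ Q v, w * j = j * w := fun w hw => by
      rcases hj with rfl | rfl
      · group
      · exact hvc w hw
    have hrj : r * j * r⁻¹ = j := by
      rcases hj with rfl | rfl
      · group
      · rw [hrv, mul_inv_cancel_right]
    have h1 : (d * a) * (k * p) * (d * a)⁻¹ = j * (k * p) := by
      rw [← hra, ← hpk]
      calc r * a * r⁻¹ * (r * p * r⁻¹) * (r * a * r⁻¹)⁻¹ = r * (a * p * a⁻¹) * r⁻¹ := by group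
        _ = (r * j * r⁻¹) * (r * p * r⁻¹) := by rw [hap]; group
        _ = j * (r * p * r⁻¹) := by rw [hrj]
    have h2 : (d * a) * (k * p) * (d * a)⁻¹ = j * (k * (d * p * d⁻¹)) := by
      calc (d * a) * (k * p) * (d * a)⁻¹ = d * ((a * k) * p * a⁻¹) * d⁻¹ := by group
        _ = d * (k * (a * p * a⁻¹)) * d⁻¹ := by rw [hkc a ha]; group
        _ = (d * k) * (j * p) * d⁻¹ := by rw [hap]; group
        _ = k * ((d * j) * p * d⁻¹) := by rw [hkc d hdW]; group
        _ = (k * j) * (d * p * d⁻¹) := by rw [hjc d hdW]; group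
        _ = j * (k * (d * p * d⁻¹)) := by
          rw [show k * j = j * k from hjc k (by rcases hk with rfl | rfl; exacts [(Q v).one_mem, hv.mem]), mul_assoc]
    exact mul_inv_eq_iff_eq_mul.1 (mul_left_cancel (mul_left_cancel (h2.symm.trans h1)))
  by_cases hab : ∃ r ∈ Q z, ∃ s ∈ Q z, r * v = v * r ∧ s * v = v * s ∧ r * s ≠ s * r
  · obtain ⟨r, hr, s, hs, hrv, hsv, hne'⟩ := hab
    apply hcon
    refine hv.cent z fun a ha => ?_
    suffices h : z * a * z⁻¹ = a from mul_inv_eq_iff_eq_mul.1 h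
    set da := r * a * r⁻¹ * a⁻¹ with hda
    set db := s * a * s⁻¹ * a⁻¹ with hdb
    have hdaW : da ∈ Q v := (Q v).mul_mem (normalizes hE hrv ha) ((Q v).inv_mem ha)
    have hdbW : db ∈ Q v := (Q v).mul_mem (normalizes hE hsv ha) ((Q v).inv_mem ha)
    have hdaP := hcp da hdaW (hdr r hr hrv a ha)
    have hdbP := hcp db hdbW (hdr s hs hsv a ha)
    obtain ⟨k1, hk1, e1⟩ : ∃ k, (k = 1 ∨ k = v) ∧ s * da * s⁻¹ = k * da := by
      rcases hrp s hs hsv da hdaW hdaP with e | e
      · exact ⟨1, Or.inl rfl, by rw [one_mul]; exact mul_inv_eq_one.1 e⟩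
      · exact ⟨v, Or.inr rfl, mul_inv_eq_iff_eq_mul.1 e⟩
    obtain ⟨k2, hk2, e2⟩ : ∃ k, (k = 1 ∨ k = v) ∧ r * db * r⁻¹ = k * db := by
      rcases hrp r hr hrv db hdbW hdbP with e | e
      · exact ⟨1, Or.inl rfl, by rw [one_mul]; exact mul_inv_eq_one.1 e⟩
      · exact ⟨v, Or.inr rfl, mul_inv_eq_iff_eq_mul.1 e⟩
    have cab : da * db = db * da := hdr r hr hrv a ha db hdbW hdbP
    have hsr : s * r * a * (s * r)⁻¹ = k1 * (da * db * a) := by
      calc s * r * a * (s * r)⁻¹ = (s * da * s⁻¹) * (s * a * s⁻¹) := by rw [hda]; group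
        _ = k1 * (da * db * a) := by rw [e1, hdb]; group
    have hrs : r * s * a * (r * s)⁻¹ = k2 * (da * db * a) := by
      calc r * s * a * (r * s)⁻¹ = (r * db * r⁻¹) * (r * a * r⁻¹) := by rw [hdb]; group
        _ = k2 * (db * da * a) := by rw [e2, hda]; group
        _ = k2 * (da * db * a) := by rw [cab]
    have hrs' : r * s = z * (s * r) := by
      rcases hz.comm r hr s hs with e | e
      · exact absurd (mul_inv_eq_iff_eq_mul.1 e) hne'
      · rw [← mul_assoc]; exact mul_inv_eq_iff_eq_mul.1 e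
    have key : k2 * (da * db * a) = z * (k1 * (da * db * a)) * z⁻¹ := by
      rw [← hrs, hrs', ← hsr]; group
    have hzk : z * k1 * z⁻¹ = k1 := by
      rcases hk1 with rfl | rfl
      · group
      · rw [hzv, mul_inv_cancel_right]
    have key2 : k2 * (da * db * a) = k1 * (da * db * (z * a * z⁻¹)) := by
      rw [key]
      calc z * (k1 * (da * db * a)) * z⁻¹ =
            (z * k1 * z⁻¹) * ((z * da * z⁻¹) * (z * db * z⁻¹) * (z * a * z⁻¹)) := by group
        _ = _ := by rw [hzk, hdaP, hdbP]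
    have hkc : ∀ k, (k = 1 ∨ k = v) → ∀ w ∈ Q v, w * k = k * w := fun k hk w hw => by
      rcases hk with rfl | rfl
      · group
      · exact hv.central w hw
    have hk12 : k1⁻¹ * k2 = 1 ∨ k1⁻¹ * k2 = v := by
      rcases hk1 with rfl | rfl <;> rcases hk2 with rfl | rfl
      · left; group
      · right; group
      · right; rw [mul_one]; exact inv_eq_of_mul_eq_one_right hv.invol
      · left; group
    have hz2 : z * a * z⁻¹ = (k1⁻¹ * k2) * a := by
      have e3 : (k1⁻¹ * k2) * (da * db) = (da * db) * (k1⁻¹ * k2) :=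
        (hkc _ hk12 _ ((Q v).mul_mem hdaW hdbW)).symm
      calc z * a * z⁻¹ = (da * db)⁻¹ * (k1⁻¹ * (k1 * (da * db * (z * a * z⁻¹)))) := by group
        _ = (da * db)⁻¹ * (k1⁻¹ * k2 * (da * db)) * a := by rw [← key2]; group
        _ = (k1⁻¹ * k2) * a := by rw [e3]; group
    rcases hk12 with e | e
    · rw [hz2, e, one_mul]
    · exfalso
      exact hnoe a ha (by rw [hz2, e, hv.central a ha])
  · push Not at hab
    obtain ⟨q, hq, hqv⟩ : ∃ q ∈ Q z, q * v * q⁻¹ = z * v := by
      by_contra h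
      push Not at h
      rcases hz.centre v hmem
        (fun x hx => mul_inv_eq_iff_eq_mul.1 ((hz.comm x hx v hmem).resolve_right (h x hx))) with e | e
      exacts [hv.ne_one e, hne e]
    let T : Finset G := {1, z, v, z * v}
    have hQ8 : Nat.card (Q z) ≤ 8 := by
      have hsub : ((Q z : Subgroup G) : Set G) ⊆ ↑(T ∪ T.image fun t => q * t) := by
        intro x hx
        have hT : ∀ r ∈ Q z, r * v = v * r → r ∈ T := fun r hr hrv => by
          rcases centre_stab hz hmem hv.ne_one hne hr (fun s hs hsv => hab s hs r hr hsv hrv) with e | e | e | e <;>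
            simp [T, e]
        rw [Finset.coe_union, Finset.coe_image, Set.mem_union]
        rcases hz.comm x hx v hmem with e | e
        · exact Or.inl (hT x hx (mul_inv_eq_iff_eq_mul.1 e))
        · refine Or.inr ⟨q⁻¹ * x, hT _ ((Q z).mul_mem ((Q z).inv_mem hq) hx) ?_, by simp⟩
          have h2 : q⁻¹ * (z * v) * q = v := by rw [← hqv]; group
          calc q⁻¹ * x * v = q⁻¹ * (x * v * x⁻¹) * q * (q⁻¹ * x) := by group
            _ = v * (q⁻¹ * x) := by rw [e, h2]
      have h := Set.ncard_le_ncard hsub (Finset.finite_toSet _)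
      rw [Set.ncard_coe_finset, ← Nat.card_coe_set_eq] at h
      refine h.trans ((Finset.card_union_le _ _).trans ?_)
      have h4 : T.card ≤ 4 := Finset.card_le_four
      have := Finset.card_image_le (s := T) (f := fun t => q * t)
      omega
    apply hcon
    refine hv.cent z fun a ha => ?_
    suffices h : z * a * z⁻¹ = a from mul_inv_eq_iff_eq_mul.1 h
    by_contra hza
    set d := z * a * z⁻¹ * a⁻¹ with hd
    have hdW : d ∈ Q v := (Q v).mul_mem (hzW a ha) ((Q v).inv_mem ha)
    have hd1 : d ≠ 1 := fun e => hza (mul_inv_eq_one.1 e)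
    have hdv : d ≠ v := fun e => hnoe a ha (by
      have : z * a * z⁻¹ = d * a := by rw [hd]; group
      rw [this, e, hv.central a ha])
    have hzd : z * d * z⁻¹ = d := hdP a ha
    have hdd : d * d = 1 := by
      have h1 : a = d * (d * a) := by
        calc a = z * (z * a * z⁻¹) * z⁻¹ := by
              rw [show z * (z * a * z⁻¹) * z⁻¹ = (z * z) * a * (z * z)⁻¹ by group, hz.invol]; group
          _ = z * (d * a) * z⁻¹ := by rw [hd]; group
          _ = (z * d * z⁻¹) * (z * a * z⁻¹) := by group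
          _ = d * (d * a) := by rw [hzd, hd]; group
      exact mul_eq_right.1 (show d * d * a = a by rw [mul_assoc]; exact h1.symm)
    have hda : a * d = d * a := by
      rcases hv.comm a ha d hdW with e | e
      · exact mul_inv_eq_iff_eq_mul.1 e
      · exfalso
        have hsq : z * (a * a) * z⁻¹ = a * a := by
          rcases hv.sq a ha with h | h <;> rw [h]
          · group
          · rw [hzv, mul_inv_cancel_right]
        have h1 : (d * a) * (d * a) = a * a := by
          rw [← hsq, hd]; group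
        rw [show d * a * (d * a) = d * (a * d * a⁻¹) * (a * a) by group, e, ← mul_assoc d v d,
          hv.central d hdW, mul_assoc v d d, hdd, mul_one] at h1
        exact hv.ne_one (mul_eq_right.1 h1)
    let P : Subgroup G := Q v ⊓ Subgroup.centralizer ({z} : Set G)
    have hPmem : ∀ p, p ∈ P ↔ p ∈ Q v ∧ z * p * z⁻¹ = p := fun p => by
      simp only [P, Subgroup.mem_inf, Subgroup.mem_centralizer_singleton_iff, mul_inv_eq_iff_eq_mul]
      exact and_congr_right' eq_comm
    have haP : a ∉ P := fun h => hza ((hPmem a).1 h).2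
    have hlt : P < Q v := lt_of_le_of_ne inf_le_left fun e => haP (e.symm ▸ ha)
    let f : Fin 4 → P := ![1, ⟨v, (hPmem v).2 ⟨hv.mem, by rw [hzv, mul_inv_cancel_right]⟩⟩, ⟨d, (hPmem d).2 ⟨hdW, hzd⟩⟩,
      ⟨v * d, (hPmem _).2 ⟨(Q v).mul_mem hv.mem hdW, by
        rw [show z * (v * d) * z⁻¹ = (z * v * z⁻¹) * (z * d * z⁻¹) by group, hzd, hzv, mul_inv_cancel_right]⟩⟩]
    have hvd1 : v * d ≠ 1 := fun e => hdv ((eq_inv_of_mul_eq_one_right e).trans (inv_eq_of_mul_eq_one_right hv.invol))
    have hf : Function.Injective f := by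
      intro i j e
      have e' : (f i : G) = f j := congrArg Subtype.val e
      fin_cases i <;> fin_cases j <;>
        simp [f, hd1, hd1.symm, hdv, hdv.symm, hv.ne_one, hv.ne_one.symm, hvd1, hvd1.symm] at e' ⊢
    have h4 : 4 ≤ Nat.card P := by simpa using Nat.card_le_card_of_injective f hf
    have hdvd := Subgroup.card_dvd_of_le hlt.le
    have hne8 : Nat.card P ≠ Nat.card (Q v) := fun e => hlt.ne (Subgroup.eq_of_le_of_card_ge hlt.le e.ge)
    have hpos : 0 < Nat.card (Q v) := Nat.card_pos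
    obtain ⟨c, hc⟩ := hdvd
    have hc2 : 2 ≤ c := by
      rcases c with _ | _ | c
      · simp at hc; omega
      · simp at hc; exact absurd hc.symm hne8
      · omega
    have h4' : Nat.card P = 4 := by nlinarith [hcard ▸ hQ8]
    have hbij : Function.Bijective f := hf.bijective_of_nat_card_le (by rw [h4', Nat.card_fin])
    refine hza (hcp a ha fun p hp hzp => ?_)
    obtain ⟨i, hi⟩ := hbij.2 ⟨p, (hPmem p).2 ⟨hp, hzp⟩⟩
    have e' : (f i : G) = p := congrArg Subtype.val hi
    rw [← e']
    fin_cases i <;> simp only [f] <;> simp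
    · exact hv.central a ha
    · exact hda
    · rw [← mul_assoc, hv.central a ha, mul_assoc, hda, ← mul_assoc]

end CfsgLib.Spor.Orth
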