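import Cfsg.Prelude.Def_Transfer
import Cfsg.Agent.Lib.CoreBasic

/-!
Singular subgroups in a group with a large extraspecial 2-subgroup.
-/

set_option autoImplicit false

namespace CfsgLib.Spor.Singular
open Cfsg

variable {G : Type*} [Group G] [Finite G]

/-- The setting: the 2-cores of centralisers, and an involution with extraspecial core. -/
structure Setup (Q : G → Subgroup G) (z : G) : Prop where
  hQ : ∀ x : G, Q x = (Cfsg.pCore 2 ↥(Subgroup.centralizer ({x} : Set G))).map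
    (Subgroup.centralizer ({x} : Set G)).subtype
  hz : orderOf z = 2
  hE : Cfsg.IsExtraspecial 2 ↥(Q z)

variable {Q : G → Subgroup G} {z : G} (S : Setup Q z)
include S

theorem map_conj (g x : G) : (Q x).map (MulAut.conj g).toMonoidHom = Q (g * x * g⁻¹) := by
  have hC : (Subgroup.centralizer ({x} : Set G)).map (MulAut.conj g).toMonoidHom =
      Subgroup.centralizer ({g * x * g⁻¹} : Set G) := by
    ext y
    rw [Subgroup.mem_map_equiv, Subgroup.mem_centralizer_singleton_iff, Subgroup.mem_centralizer_singleton_iff,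
      MulAut.conj_symm_apply]
    constructor <;> intro h
    · calc y * (g * x * g⁻¹) = g * (g⁻¹ * y * g * x) * g⁻¹ := by group
        _ = g * (x * (g⁻¹ * y * g)) * g⁻¹ := by rw [h]
        _ = g * x * g⁻¹ * y := by group
    · calc g⁻¹ * y * g * x = g⁻¹ * (y * (g * x * g⁻¹)) * g := by group
        _ = g⁻¹ * (g * x * g⁻¹ * y) * g := by rw [h]
        _ = x * (g⁻¹ * y * g) := by group
  let e : ↥(Subgroup.centralizer ({x} : Set G)) ≃* ↥(Subgroup.centralizer ({g * x * g⁻¹} : Set G)) :=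
    ((Subgroup.centralizer ({x} : Set G)).equivMapOfInjective (MulAut.conj g).toMonoidHom
      (MulAut.conj g).injective).trans (MulEquiv.subgroupCongr hC)
  rw [S.hQ x, S.hQ (g * x * g⁻¹), ← CfsgLib.Core.map_pCore_of_mulEquiv 2 e, Subgroup.map_map, Subgroup.map_map]
  rfl

theorem mem_Q_self {u : G} (hu : u * u = 1) : u ∈ Q u := by
  rw [S.hQ u]
  set C := Subgroup.centralizer ({u} : Set G)
  have huC : u ∈ C := Subgroup.mem_centralizer_singleton_iff.2 rfl
  have hcen : ∀ y : C, y * ⟨u, huC⟩ = ⟨u, huC⟩ * y := fun y =>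
    Subtype.ext (Subgroup.mem_centralizer_singleton_iff.1 y.2)
  refine ⟨⟨u, huC⟩, CfsgLib.Core.le_pCore (N := Subgroup.zpowers ⟨u, huC⟩) ⟨fun n hn y => ?_⟩ ?_
    (Subgroup.mem_zpowers _), rfl⟩
  · obtain ⟨k, rfl⟩ := Subgroup.mem_zpowers_iff.1 hn
    refine Subgroup.mem_zpowers_iff.2 ⟨k, ?_⟩
    rw [(Commute.zpow_right (hcen y) k).eq, mul_inv_cancel_right]
  · haveI : Fact (Nat.Prime 2) := ⟨Nat.prime_two⟩
    intro y
    obtain ⟨k, hk⟩ := Subgroup.mem_zpowers_iff.1 y.2
    refine ⟨1, Subtype.ext ?_⟩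
    have h2 : (⟨u, huC⟩ : C) ^ 2 = 1 := Subtype.ext (by rw [pow_two]; exact hu)
    rw [Subgroup.coe_pow, Subgroup.coe_one, ← hk, pow_one, ← zpow_natCast, ← zpow_mul, mul_comm, zpow_mul,
      zpow_natCast, h2, one_zpow]

/-- The core of a singular involution is extraspecial with that involution as centre. -/
theorem singular_facts {u : G} (hu : ∃ g : G, g * z * g⁻¹ = u) :
    u ∈ Q u ∧ u * u = 1 ∧ (∀ x ∈ Q u, x * u = u * x) ∧
      (∀ x ∈ Q u, ∀ y ∈ Q u, x * y * x⁻¹ * y⁻¹ = 1 ∨ x * y * x⁻¹ * y⁻¹ = u) ∧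
      ∀ v ∈ Q u, (∀ x ∈ Q u, x * v = v * x) → v = 1 ∨ v = u := by
  obtain ⟨g, rfl⟩ := hu
  have hzz : z * z = 1 := by rw [← pow_two, ← S.hz]; exact pow_orderOf_eq_one z
  have hzQ := mem_Q_self S hzz
  have hz1 : z ≠ 1 := fun e => by have := S.hz; rw [e, orderOf_one] at this; norm_num at this
  have hcentral : ∀ x ∈ Q z, x * z = z * x := fun x hx => by
    rw [S.hQ z] at hx
    obtain ⟨y, -, rfl⟩ := hx
    exact Subgroup.mem_centralizer_singleton_iff.1 y.2
  have hcz : ∀ c : ↥(Q z), c ∈ Subgroup.center ↥(Q z) → (c : G) = 1 ∨ (c : G) = z := by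
    intro c hc
    by_contra hne
    push Not at hne
    have hzc : (⟨z, hzQ⟩ : ↥(Q z)) ∈ Subgroup.center ↥(Q z) :=
      Subgroup.mem_center_iff.2 fun y => Subtype.ext (hcentral y y.2)
    have h2 := S.hE.2
    haveI : Finite ↥(Subgroup.center ↥(Q z)) := inferInstance
    let f : Fin 3 → ↥(Subgroup.center ↥(Q z)) := ![1, ⟨_, hzc⟩, ⟨c, hc⟩]
    have hf : Function.Injective f := by
      intro i j e
      have e' : ((f i : ↥(Q z)) : G) = (f j : ↥(Q z)) := by rw [e]
      fin_cases i <;> fin_cases j <;> simp [f, hz1, hz1.symm, hne.1, hne.1.symm, hne.2, hne.2.symm] at e' ⊢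
    have := Nat.card_le_card_of_injective f hf
    rw [Nat.card_fin, h2] at this
    omega
  have hmem : ∀ x, x ∈ Q (g * z * g⁻¹) ↔ g⁻¹ * x * g ∈ Q z := fun x => by
    rw [← map_conj S g z, Subgroup.mem_map_equiv, MulAut.conj_symm_apply]
  have back : ∀ x, x = g * (g⁻¹ * x * g) * g⁻¹ := fun x => by group
  refine ⟨(hmem _).2 (by convert hzQ using 1; group), ?_, fun x hx => ?_, fun x hx y hy => ?_, fun v hv hcom => ?_⟩
  · calc g * z * g⁻¹ * (g * z * g⁻¹) = g * (z * z) * g⁻¹ := by group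
      _ = 1 := by rw [hzz]; group
  · calc x * (g * z * g⁻¹) = g * ((g⁻¹ * x * g) * z) * g⁻¹ := by group
      _ = g * (z * (g⁻¹ * x * g)) * g⁻¹ := by rw [hcentral _ ((hmem x).1 hx)]
      _ = g * z * g⁻¹ * x := by group
  · let a : ↥(Q z) := ⟨_, (hmem x).1 hx⟩
    let b : ↥(Q z) := ⟨_, (hmem y).1 hy⟩
    have hc : a * b * a⁻¹ * b⁻¹ ∈ Subgroup.center ↥(Q z) := by
      rw [← S.hE.1.2.2]
      have h := Subgroup.commutator_mem_commutator (Subgroup.mem_top a) (Subgroup.mem_top b)
      rwa [commutatorElement_def] at h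
    have e : x * y * x⁻¹ * y⁻¹ = g * ((a * b * a⁻¹ * b⁻¹ : ↥(Q z)) : G) * g⁻¹ := by
      simp only [Subgroup.coe_mul, Subgroup.coe_inv, a, b]; group
    rcases hcz _ hc with h | h
    · left; rw [e, h]; group
    · right; rw [e, h]
  · have hc : (⟨_, (hmem v).1 hv⟩ : ↥(Q z)) ∈ Subgroup.center ↥(Q z) := by
      refine Subgroup.mem_center_iff.2 fun y => Subtype.ext ?_
      have hy : g * (y : G) * g⁻¹ ∈ Q (g * z * g⁻¹) := (hmem _).2 (by convert y.2 using 1; group)
      show (y : G) * (g⁻¹ * v * g) = g⁻¹ * v * g * (y : G)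
      calc (y : G) * (g⁻¹ * v * g) = g⁻¹ * (g * (y : G) * g⁻¹ * v) * g := by group
        _ = g⁻¹ * (v * (g * (y : G) * g⁻¹)) * g := by rw [hcom _ hy]
        _ = g⁻¹ * v * g * (y : G) := by group
    rcases hcz _ hc with h | h
    · left
      change g⁻¹ * v * g = 1 at h
      rw [back v, h]; group
    · right
      change g⁻¹ * v * g = z at h
      rw [back v, h]

variable {u : G} (hu : ∃ g : G, g * z * g⁻¹ = u)
include hu

theorem conj_cases {x y : G} (hx : x ∈ Q u) (hy : y ∈ Q u) : x * y * x⁻¹ = y ∨ x * y * x⁻¹ = u * y := by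
  rcases (singular_facts S hu).2.2.2.1 x hx y hy with e | e
  · left; exact mul_inv_eq_one.1 e
  · right; exact mul_inv_eq_iff_eq_mul.1 e

/-- An element outside a subgroup containing the centre is moved by an element fixing the subgroup. -/
theorem exists_sep (T : Finset G) : (∀ t ∈ T, t ∈ Q u) → ∀ a ∈ Q u, a ∉ Subgroup.closure (insert u (T : Set G)) →
    ∃ x ∈ Q u, (∀ t ∈ T, x * t * x⁻¹ = t) ∧ x * a * x⁻¹ = u * a := by
  classical
  obtain ⟨huQ, huu, hucen, -, hcent⟩ := singular_facts S hu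
  induction T using Finset.induction_on with
  | empty =>
    intro _ a ha hna
    by_contra hcon
    push Not at hcon
    have hall : ∀ x ∈ Q u, x * a = a * x := fun x hx => by
      rcases conj_cases S hu hx ha with e | e
      · exact mul_inv_eq_iff_eq_mul.1 e
      · exact absurd e (hcon x hx (by simp))
    rcases hcent a ha hall with rfl | rfl
    · exact hna (one_mem _)
    · exact hna (Subgroup.subset_closure (Set.mem_insert _ _))
  | @insert w T hw ih =>
    intro hT a ha hna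
    have hT' : ∀ t ∈ T, t ∈ Q u := fun t ht => hT t (Finset.mem_insert_of_mem ht)
    have hwQ : w ∈ Q u := hT w (Finset.mem_insert_self w T)
    set H := Subgroup.closure (insert u ((insert w T : Finset G) : Set G)) with hH
    have hmono : Subgroup.closure (insert u (T : Set G)) ≤ H := by
      refine Subgroup.closure_mono (Set.insert_subset_insert ?_)
      rw [Finset.coe_insert]; exact Set.subset_insert _ _
    have hwH : w ∈ H := Subgroup.subset_closure (Set.mem_insert_of_mem _ (by simp))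
    by_cases hwc : w ∈ Subgroup.closure (insert u (T : Set G))
    · obtain ⟨x, hx, hfix, hxa⟩ := ih hT' a ha fun h => hna (hmono h)
      refine ⟨x, hx, fun t ht => ?_, hxa⟩
      rcases Finset.mem_insert.1 ht with rfl | ht
      · have : Subgroup.closure (insert u (T : Set G)) ≤ Subgroup.centralizer ({x} : Set G) := by
          rw [Subgroup.closure_le]
          intro s hs
          rw [SetLike.mem_coe, Subgroup.mem_centralizer_singleton_iff]
          rcases hs with rfl | hs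
          · exact (hucen x hx).symm
          · exact (mul_inv_eq_iff_eq_mul.1 (hfix s hs)).symm
        exact mul_inv_eq_iff_eq_mul.2 (Subgroup.mem_centralizer_singleton_iff.1 (this hwc)).symm
      · exact hfix t ht
    obtain ⟨x1, hx1, f1, m1⟩ := ih hT' w hwQ hwc
    obtain ⟨x2, hx2, f2, m2⟩ := ih hT' a ha fun h => hna (hmono h)
    obtain ⟨x3, hx3, f3, m3⟩ := ih hT' (a * w) ((Q u).mul_mem ha hwQ) fun h =>
      hna (by have := H.mul_mem (hmono h) (H.inv_mem hwH); rwa [mul_inv_cancel_right] at this)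
    rcases conj_cases S hu hx2 hwQ with e2 | e2
    · exact ⟨x2, hx2, fun t ht => by rcases Finset.mem_insert.1 ht with rfl | ht; exacts [e2, f2 t ht], m2⟩
    rcases conj_cases S hu hx3 hwQ with e3 | e3
    · refine ⟨x3, hx3, fun t ht => by rcases Finset.mem_insert.1 ht with rfl | ht; exacts [e3, f3 t ht], ?_⟩
      have : x3 * a * x3⁻¹ * (x3 * w * x3⁻¹) = u * (a * w) := by rw [← m3]; group
      rw [e3, ← mul_assoc] at this
      exact mul_right_cancel this
    · have ea : x3 * a * x3⁻¹ = a := by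
        have : x3 * a * x3⁻¹ * (x3 * w * x3⁻¹) = u * (a * w) := by rw [← m3]; group
        rw [e3, ← mul_assoc u a, show u * a = a * u from (hucen a ha).symm, mul_assoc a u w] at this
        exact mul_right_cancel this
      refine ⟨x2 * x3, (Q u).mul_mem hx2 hx3, fun t ht => ?_, ?_⟩
      · rcases Finset.mem_insert.1 ht with rfl | ht
        · calc x2 * x3 * t * (x2 * x3)⁻¹ = x2 * (x3 * t * x3⁻¹) * x2⁻¹ := by group
            _ = (x2 * u * x2⁻¹) * (x2 * t * x2⁻¹) := by rw [e3]; group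
            _ = t := by rw [e2, hucen x2 hx2, mul_inv_cancel_right, ← mul_assoc, huu, one_mul]
        · calc x2 * x3 * t * (x2 * x3)⁻¹ = x2 * (x3 * t * x3⁻¹) * x2⁻¹ := by group
            _ = t := by rw [f3 t ht, f2 t ht]
      · calc x2 * x3 * a * (x2 * x3)⁻¹ = x2 * (x3 * a * x3⁻¹) * x2⁻¹ := by group
          _ = u * a := by rw [ea, m2]

omit hu
variable {U : Subgroup G} (hU2 : ∀ v ∈ U, v * v = 1) (hS : ∀ v ∈ U, v ≠ 1 → ∃ g : G, g * z * g⁻¹ = v)
  (hO : ∀ v ∈ U, ∀ w ∈ U, v ≠ 1 → w ≠ 1 → w ∈ Q v)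

include hO in
omit S in
theorem U_le_Q {v : G} (hv : v ∈ U) (h1 : v ≠ 1) : U ≤ Q v := fun w hw => by
  by_cases e : w = 1
  · rw [e]; exact one_mem _
  · exact hO v hv w hw h1 e

include hU2 hS hO

/-- The intersection over generators is the whole intersection. -/
theorem inf_generators {T : Set G} (hT : Subgroup.closure T = U) (hT1 : (1 : G) ∉ T) :
    (⨅ t ∈ T, Q t) ≤ ⨅ v ∈ ((U : Set G) \ {1}), Q v := by
  set I := ⨅ t ∈ T, Q t with hI
  have key : ∀ v ∈ U, v ≠ 1 → I ≤ Q v := by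
    intro v hv
    rw [← hT] at hv
    have hclo : ∀ w, w ∈ Subgroup.closure T → w ∈ U ∧ (w ≠ 1 → I ≤ Q w) := by
      intro w hw
      induction hw using Subgroup.closure_induction with
      | mem t ht => exact ⟨hT ▸ Subgroup.subset_closure ht, fun _ => iInf₂_le t ht⟩
      | one => exact ⟨U.one_mem, fun h => absurd rfl h⟩
      | inv a _ ih => rw [show a⁻¹ = a from inv_eq_of_mul_eq_one_right (hU2 a ih.1)]; exact ih
      | mul a b _ _ iha ihb =>
        refine ⟨U.mul_mem iha.1 ihb.1, fun hne => ?_⟩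
        by_cases ha : a = 1
        · rw [ha, one_mul] at hne ⊢; exact ihb.2 hne
        by_cases hb : b = 1
        · rw [hb, mul_one] at hne ⊢; exact iha.2 hne
        have hab : b ≠ a := fun e => hne (by rw [e]; exact hU2 a iha.1)
        have hsa := hS a iha.1 ha
        obtain ⟨-, -, -, -, hcent⟩ := singular_facts S hsa
        obtain ⟨x, hx, ex⟩ : ∃ x ∈ Q a, x * b * x⁻¹ = a * b := by
          by_contra hcon
          push Not at hcon
          rcases hcent b (hO a iha.1 b ihb.1 ha hb) (fun x hx => mul_inv_eq_iff_eq_mul.1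
            ((conj_cases S hsa hx (hO a iha.1 b ihb.1 ha hb)).resolve_right (hcon x hx))) with e | e
          exacts [hb e, hab e]
        intro y hy
        have hya := iha.2 ha hy
        have hyb := ihb.2 hb hy
        have h2 : x⁻¹ * y * x ∈ Q b := by
          rcases conj_cases S hsa ((Q a).inv_mem hx) hya with e | e <;> rw [inv_inv] at e <;> rw [e]
          · exact hyb
          · exact (Q b).mul_mem (hO b ihb.1 a iha.1 hb ha) hyb
        rw [← ex, ← map_conj S x b, Subgroup.mem_map_equiv, MulAut.conj_symm_apply]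
        exact h2
    exact (hclo v hv).2
  exact le_iInf₂ fun v hv => key v hv.1 hv.2

theorem conj_mem_U {g : G} (hg : g ∈ ⨆ v ∈ ((U : Set G) \ {1}), Q v) :
    ∀ w ∈ U, g * w * g⁻¹ ∈ U := by
  have hle : (⨆ v ∈ ((U : Set G) \ {1}), Q v) ≤ Subgroup.normalizer (U : Set G) := by
    refine iSup₂_le fun v hv x hx => ?_
    have hgen : ∀ x ∈ Q v, ∀ w ∈ U, x * w * x⁻¹ ∈ U := fun x hx w hw => by
      rcases conj_cases S (hS v hv.1 hv.2) hx (U_le_Q hO hv.1 hv.2 hw) with e | e <;> rw [e]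
      · exact hw
      · exact U.mul_mem hv.1 hw
    rw [Subgroup.mem_normalizer_iff]
    refine fun w => ⟨hgen x hx w, fun h => ?_⟩
    have := hgen x⁻¹ ((Q v).inv_mem hx) _ h
    rw [inv_inv] at this
    convert this using 1; group
  intro w hw
  exact ((Subgroup.mem_normalizer_iff.1 (hle hg)) w).1 hw

/-- Every automorphism of a singular subgroup is induced. -/
theorem induces_aut (φ : ↥U ≃* ↥U) :
    ∃ g ∈ (⨆ v ∈ ((U : Set G) \ {1}), Q v), ∀ w : ↥U, g * (w : G) * g⁻¹ = ((φ w : ↥U) : G) := by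
  classical
  set L := ⨆ v ∈ ((U : Set G) \ {1}), Q v with hL
  let good : Set (Subgroup ↥U) := {W | ∃ g ∈ L, ∀ w ∈ W, g * (w : G) * g⁻¹ = ((φ w : ↥U) : G)}
  obtain ⟨W, hW, hmax⟩ := Set.Finite.exists_maximalFor id good (Set.toFinite _)
    ⟨⊥, 1, L.one_mem, fun w hw => by rw [Subgroup.mem_bot.1 hw]; simp⟩
  obtain ⟨g, hg, hgW⟩ := hW
  suffices h : W = ⊤ from ⟨g, hg, fun w => hgW w (h ▸ Subgroup.mem_top w)⟩
  by_contra hne
  obtain ⟨a, ha⟩ : ∃ a, a ∉ W := by
    by_contra h; push Not at h; exact hne (eq_top_iff.2 fun w _ => h w)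
  let agree : G → Subgroup ↥U := fun k => MonoidHom.eqLocus ((MulAut.conj k).toMonoidHom.comp U.subtype)
    (U.subtype.comp φ.toMonoidHom)
  suffices h : ∃ k ∈ L, W ≤ agree k ∧ a ∈ agree k by
    obtain ⟨k, hk, hWk, hak⟩ := h
    exact ha (hmax (j := agree k) ⟨k, hk, fun w hw => hw⟩ hWk hak)
  set b : G := g * (a : G) * g⁻¹ with hb
  set c : G := ((φ a : ↥U) : G) with hc
  have hbU : b ∈ U := conj_mem_U S hU2 hS hO hg a a.2
  by_cases hbc : b = c
  · exact ⟨g, hg, fun w hw => hgW w hw, hbc⟩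
  set v := c * b with hv
  have hvU : v ∈ U := U.mul_mem (φ a).2 hbU
  have hv1 : v ≠ 1 := fun e => hbc (by
    rw [hv] at e
    rw [← mul_left_cancel_iff (a := c), e]; exact (hU2 c (φ a).2).symm)
  let T : Finset G := (Set.toFinite ((fun w : ↥U => ((φ w : ↥U) : G)) '' (W : Set ↥U))).toFinset
  have hTU : ∀ t ∈ T, t ∈ Q v := fun t ht => by
    obtain ⟨w, -, rfl⟩ := (Set.Finite.mem_toFinset _).1 ht
    exact U_le_Q hO hvU hv1 (φ w).2
  have hnb : b ∉ Subgroup.closure (insert v (T : Set G)) := by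
    intro h
    let K : Subgroup G := ((W.map φ.toMonoidHom)).map U.subtype
    have hK : ∀ y, y ∈ K ↔ ∃ w ∈ W, ((φ w : ↥U) : G) = y := fun y => by
      constructor
      · rintro ⟨_, ⟨w, hw, rfl⟩, rfl⟩; exact ⟨w, hw, rfl⟩
      · rintro ⟨w, hw, rfl⟩; exact ⟨_, ⟨w, hw, rfl⟩, rfl⟩
    have hnK : b ∉ K ∧ c ∉ K := by
      refine ⟨fun hk => ?_, fun hk => ?_⟩ <;> obtain ⟨w, hw, e⟩ := (hK _).1 hk
      · rw [← hgW w hw, hb] at e
        exact ha (Subtype.ext (mul_left_cancel (mul_right_cancel e)) ▸ hw)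
      · exact ha (φ.injective (Subtype.ext e) ▸ hw)
    have hsub : Subgroup.closure (insert v (T : Set G)) ≤
        { carrier := {y | y ∈ K ∨ v * y ∈ K}
          one_mem' := Or.inl K.one_mem
          inv_mem' := fun {y} hy => by
            have hyU : y ∈ U := by
              rcases hy with h | h
              · obtain ⟨w, -, rfl⟩ := (hK _).1 h; exact (φ w).2
              · obtain ⟨w, -, e⟩ := (hK _).1 h
                have : v * y ∈ U := e ▸ (φ w).2
                simpa [← mul_assoc, hU2 v hvU] using U.mul_mem hvU this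
            rw [Set.mem_setOf_eq, show y⁻¹ = y from inv_eq_of_mul_eq_one_right (hU2 y hyU)]
            exact hy
          mul_mem' := fun {x y} hx hy => by
            have hU' : ∀ p ∈ K, p ∈ U := fun p hp => by obtain ⟨w, -, rfl⟩ := (hK _).1 hp; exact (φ w).2
            have hcm : ∀ p ∈ U, p * v = v * p := fun p hp => by
              have := hU2 _ (U.mul_mem hp hvU)
              calc p * v = (p * v)⁻¹ := (inv_eq_of_mul_eq_one_right this).symm
                _ = v * p := by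
                  rw [mul_inv_rev, inv_eq_of_mul_eq_one_right (hU2 v hvU), inv_eq_of_mul_eq_one_right (hU2 p hp)]
            have hxU : x ∈ U := by
              rcases hx with h | h
              · exact hU' _ h
              · simpa [← mul_assoc, hU2 v hvU] using U.mul_mem hvU (hU' _ h)
            rcases hx with hx | hx <;> rcases hy with hy | hy
            · exact Or.inl (K.mul_mem hx hy)
            · right; rw [← mul_assoc, ← hcm x hxU, mul_assoc]; exact K.mul_mem hx hy
            · right; rw [← mul_assoc]; exact K.mul_mem hx hy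
            · left
              have := K.mul_mem hx hy
              rwa [hcm' x v y (hcm x hxU) (hU2 v hvU)] at this } := by
      rw [Subgroup.closure_le]
      intro y hy
      rcases hy with rfl | hy
      · exact Or.inr (by rw [hU2 v hvU]; exact K.one_mem)
      · exact Or.inl ((hK _).2 (by simpa [T] using hy))
    rcases hsub h with hk | hk
    · exact hnK.1 hk
    · rw [hv, mul_assoc, hU2 b hbU, mul_one] at hk; exact hnK.2 hk
  obtain ⟨x, hx, hfix, hxb⟩ := exists_sep S (hS v hvU hv1) T hTU b (U_le_Q hO hvU hv1 hbU) hnb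
  refine ⟨x * g, L.mul_mem (le_iSup₂ (f := fun v (_ : v ∈ ((U : Set G) \ {1})) => Q v) v ⟨hvU, hv1⟩ hx) hg,
    fun w hw => ?_, ?_⟩
  · show x * g * (w : G) * (x * g)⁻¹ = ((φ w : ↥U) : G)
    rw [show x * g * (w : G) * (x * g)⁻¹ = x * (g * (w : G) * g⁻¹) * x⁻¹ by group, hgW w hw]
    exact hfix _ ((Set.Finite.mem_toFinset _).2 ⟨w, hw, rfl⟩)
  · show x * g * (a : G) * (x * g)⁻¹ = c
    rw [show x * g * (a : G) * (x * g)⁻¹ = x * b * x⁻¹ by rw [hb]; group, hxb, hv, mul_assoc, hU2 b hbU, mul_one]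
where
  hcm' (x v y : G) (h : x * v = v * x) (h2 : v * v = 1) : v * x * (v * y) = x * y := by
    rw [← mul_assoc, mul_assoc v x v, h, ← mul_assoc, h2, one_mul]

theorem commutator_mem {g x : G} (hg : g ∈ ⨆ v ∈ ((U : Set G) \ {1}), Q v)
    (hx : x ∈ ⨅ v ∈ ((U : Set G) \ {1}), Q v) : g * x * g⁻¹ * x⁻¹ ∈ U := by
  set L := ⨆ v ∈ ((U : Set G) \ {1}), Q v with hL
  set I := ⨅ v ∈ ((U : Set G) \ {1}), Q v with hI
  let A : Set G := {g | g ∈ L ∧ ∀ y ∈ I, g * y * g⁻¹ * y⁻¹ ∈ U}
  have hmul : ∀ a b, a ∈ A → b ∈ A → a * b ∈ A := by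
    intro a b ha hb
    refine ⟨L.mul_mem ha.1 hb.1, fun y hy => ?_⟩
    have e : a * b * y * (a * b)⁻¹ * y⁻¹ = a * (b * y * b⁻¹ * y⁻¹) * a⁻¹ * (a * y * a⁻¹ * y⁻¹) := by group
    rw [e]
    exact U.mul_mem (conj_mem_U S hU2 hS hO ha.1 _ (hb.2 y hy)) (ha.2 y hy)
  have hinv : ∀ a, a ∈ A → a⁻¹ ∈ A := by
    intro a ha
    refine ⟨L.inv_mem ha.1, fun y hy => ?_⟩
    have e : a⁻¹ * y * a⁻¹⁻¹ * y⁻¹ = a⁻¹ * (a * y * a⁻¹ * y⁻¹)⁻¹ * a⁻¹⁻¹ := by group
    rw [e]
    exact conj_mem_U S hU2 hS hO (L.inv_mem ha.1) _ (U.inv_mem (ha.2 y hy))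
  let A' : Subgroup G :=
    { carrier := A
      one_mem' := ⟨L.one_mem, fun y _ => by simp⟩
      mul_mem' := fun {a b} ha hb => hmul a b ha hb
      inv_mem' := fun {a} ha => hinv a ha }
  have hle : L ≤ A' := by
    rw [hL]
    refine iSup₂_le fun v hv a ha => ⟨?_, fun y hy => ?_⟩
    · exact le_iSup₂ (f := fun v (_ : v ∈ ((U : Set G) \ {1})) => Q v) v hv ha
    · rcases (singular_facts S (hS v hv.1 hv.2)).2.2.2.1 a ha y
        (iInf₂_le (f := fun v (_ : v ∈ ((U : Set G) \ {1})) => Q v) v hv hy) with e | e <;> rw [e]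
      · exact U.one_mem
      · exact hv.1
  exact (hle hg).2 x hx

/-- Cosets of the singular subgroup are permuted transitively by its centraliser. -/
theorem coset_transitive {x : G} (hx : x ∈ ⨅ v ∈ ((U : Set G) \ {1}), Q v) (hxU : x ∉ U) {u : G} (hu' : u ∈ U) :
    ∃ g ∈ (⨆ v ∈ ((U : Set G) \ {1}), Q v) ⊓ Subgroup.centralizer (U : Set G), g * x * g⁻¹ = x * u := by
  classical
  by_cases h1 : u = 1
  · exact ⟨1, one_mem _, by simp [h1]⟩
  have hxQ : x ∈ Q u := iInf₂_le (f := fun v (_ : v ∈ ((U : Set G) \ {1})) => Q v) u ⟨hu', h1⟩ hx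
  let T : Finset G := (Set.toFinite (U : Set G)).toFinset
  have hsing := hS u hu' h1
  obtain ⟨g, hg, hfix, hgx⟩ := exists_sep S hsing T
    (fun t ht => U_le_Q hO hu' h1 ((Set.Finite.mem_toFinset _).1 ht)) x hxQ fun h => hxU (by
      refine (Subgroup.closure_le U).2 ?_ h
      rintro y (rfl | hy)
      exacts [hu', (Set.Finite.mem_toFinset _).1 hy])
  refine ⟨g, ⟨le_iSup₂ (f := fun v (_ : v ∈ ((U : Set G) \ {1})) => Q v) u ⟨hu', h1⟩ hg,
    fun w hw => (mul_inv_eq_iff_eq_mul.1 (hfix w ((Set.Finite.mem_toFinset _).2 hw))).symm⟩, ?_⟩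
  rw [hgx, (singular_facts S hsing).2.2.1 x hxQ]

end CfsgLib.Spor.Singular
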