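import Mathlib
import Cfsg.Prelude.Def_SporadicB

/-!
Elementary facts about a set of 3-transpositions.
-/

set_option autoImplicit false

namespace CfsgLib.Spor.Trans

variable {G : Type*} [Group G] {D : Set G}

theorem mul_self (hD : Cfsg.IsThreeTranspositionSet D) {a : G} (ha : a ∈ D) : a * a = 1 := by
  rw [← pow_two, ← hD.1 a ha, pow_orderOf_eq_one]

theorem inv_eq (hD : Cfsg.IsThreeTranspositionSet D) {a : G} (ha : a ∈ D) : a⁻¹ = a :=
  inv_eq_of_mul_eq_one_right (mul_self hD ha)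

theorem commute_iff (hD : Cfsg.IsThreeTranspositionSet D) {a b : G} (ha : a ∈ D) (hb : b ∈ D) :
    Commute a b ↔ (a * b) ^ 2 = 1 := by
  constructor
  · intro h; rw [h.mul_pow, pow_two, pow_two, mul_self hD ha, mul_self hD hb, one_mul]
  · intro h
    show a * b = b * a
    rw [pow_two] at h
    rw [eq_inv_of_mul_eq_one_left h, mul_inv_rev, inv_eq hD ha, inv_eq hD hb]

theorem pow_three (hD : Cfsg.IsThreeTranspositionSet D) {a b : G} (ha : a ∈ D) (hb : b ∈ D)
    (h : ¬ Commute a b) : (a * b) ^ 3 = 1 :=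
  (hD.2 a ha b hb).resolve_left fun e => h ((commute_iff hD ha hb).2 e)

theorem braid (hD : Cfsg.IsThreeTranspositionSet D) {a b : G} (ha : a ∈ D) (hb : b ∈ D)
    (h : ¬ Commute a b) : a * b * a = b * a * b := by
  have e := pow_three hD ha hb h
  have e' : a * b * a * (b * a * b) = 1 := by rw [← e]; simp [pow_succ, mul_assoc]
  rw [eq_inv_of_mul_eq_one_left e', mul_inv_rev, mul_inv_rev, inv_eq hD ha, inv_eq hD hb, mul_assoc]

theorem ne_of_not_commute {a b : G} (h : ¬ Commute a b) : a ≠ b := fun e => h (e ▸ Commute.refl a)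

theorem commute_pair_iff (hE : Cfsg.IsThreeTranspositionSet D) {a b e : G} (ha : a ∈ D) (hb : b ∈ D) (he : e ∈ D)
    (hab : a ≠ b) (hcomm : Commute a b) : Commute e (a * b) ↔ (Commute e a ∧ Commute e b) := by
  refine ⟨fun h => ?_, fun h => h.1.mul_right h.2⟩
  have haa := mul_self hE ha
  have hbb := mul_self hE hb
  by_cases h1 : Commute e a
  · exact ⟨h1, by simpa [← mul_assoc, haa] using h1.mul_right h⟩
  · by_cases h2 : Commute e b
    · exact absurd (by simpa [mul_assoc, hbb] using h.mul_right h2) h1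
    · exfalso
      apply hab
      have hee := mul_self hE he
      have hs : e * (a * b) * e = a * b := by rw [h.eq, mul_assoc, hee, mul_one]
      have h3 : a * e * a * (b * e * b) = a * b := by
        rw [← braid hE he ha h1, ← braid hE he hb h2]
        calc e * a * e * (e * b * e) = e * a * (e * e) * b * e := by simp only [mul_assoc]
          _ = a * b := by rw [hee, mul_one]; simpa only [mul_assoc] using hs
      have h4 : e * a * b * e * b = b := by
        have := congrArg (fun x => a * x) h3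
        simpa only [← mul_assoc, haa, one_mul] using this
      have h5 : e * (a * b) * e * b = b := by simpa only [mul_assoc] using h4
      rw [hs, mul_assoc, hbb, mul_one] at h5
      exact h5

theorem commute_key (hE : Cfsg.IsThreeTranspositionSet D) {a b c : G} (ha : a ∈ D) (hb : b ∈ D) (hc : c ∈ D)
    (hab : ¬ Commute a b) (hac : ¬ Commute a c) (hbc : Commute b c) : Commute a (c * (a * b * a) * c) := by
  have hcc := mul_self hE hc
  have e2 := braid hE ha hc hac
  have key : a * (c * (a * b * a) * c) * a = c * (a * b * a) * c := by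
    calc a * (c * (a * b * a) * c) * a = (a * c * a) * b * (a * c * a) := by simp only [mul_assoc]
      _ = (c * a * c) * b * (c * a * c) := by rw [e2]
      _ = c * a * (c * b) * c * a * c := by simp only [mul_assoc]
      _ = c * a * (b * c) * c * a * c := by rw [hbc.eq]
      _ = c * a * b * (c * c) * a * c := by simp only [mul_assoc]
      _ = c * (a * b * a) * c := by rw [hcc]; simp only [mul_one, mul_assoc]
  show a * _ = _ * a
  conv_rhs => rw [← key]
  simp only [mul_assoc, mul_self hE ha, mul_one]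

theorem commute_triple_iff (hE : Cfsg.IsThreeTranspositionSet D) {a b c e : G} (ha : a ∈ D) (hb : b ∈ D)
    (hc : c ∈ D) (he : e ∈ D) (hab : a ≠ b) (hac : a ≠ c) (hbc : b ≠ c) (h₁ : Commute a b) (h₂ : Commute a c)
    (h₃ : Commute b c) : Commute e (a * b * c) ↔ (Commute e a ∧ Commute e b ∧ Commute e c) := by
  refine ⟨fun h => ?_, fun h => (h.1.mul_right h.2.1).mul_right h.2.2⟩
  have hcc := mul_self hE hc
  by_cases k : Commute e c
  · have := h.mul_right k
    rw [mul_assoc, hcc, mul_one] at this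
    obtain ⟨i, j⟩ := (commute_pair_iff hE ha hb he hab h₁).1 this
    exact ⟨i, j, k⟩
  by_cases j : Commute e b
  · have h' : Commute e (a * c) := by
      have := h.mul_right j
      rwa [show a * b * c * b = a * c by
        rw [mul_assoc (a * b), ← h₃.eq, ← mul_assoc, mul_assoc a b b, mul_self hE hb, mul_one]] at this
    exact absurd ((commute_pair_iff hE ha hc he hac h₂).1 h').2 k
  by_cases i : Commute e a
  · have h' : Commute e (b * c) := by
      have := i.mul_right h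
      rwa [← mul_assoc, ← mul_assoc, mul_self hE ha, one_mul] at this
    exact absurd ((commute_pair_iff hE hb hc he hbc h₃).1 h').2 k
  exfalso
  have hee := mul_self hE he
  have haa := mul_self hE ha
  have hconj : e * (a * b * c) * e = a * b * c := by rw [h.eq, mul_assoc, hee, mul_one]
  have hexp : (a * e * a) * (b * e * b) * (c * e * c) = a * b * c := by
    rw [← braid hE he ha i, ← braid hE he hb j, ← braid hE he hc k]
    calc e * a * e * (e * b * e) * (e * c * e) = e * a * (e * e) * b * (e * e) * c * e := by simp only [mul_assoc]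
      _ = e * (a * b * c) * e := by rw [hee]; simp only [mul_one, mul_assoc]
      _ = _ := hconj
  have s1 : e * (a * b) * e * (b * c) * e * c = b * c := mul_left_cancel (a := a) (by simpa only [mul_assoc] using hexp)
  have s2 : e * (a * b) * e * (b * c) * e = b := mul_right_cancel (b := c) s1
  have s3 : a * b * e * (b * c) = b * e * b := by
    rw [← braid hE he hb j]
    calc a * b * e * (b * c) = (e * e) * (a * b * e * (b * c)) * (e * e) := by rw [hee, one_mul, mul_one]
      _ = e * (e * (a * b) * e * (b * c) * e) * e := by simp only [mul_assoc]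
      _ = _ := by rw [s2]
  have s4 : a * e * (b * c) = e * b := by
    apply mul_left_cancel (a := b)
    calc b * (a * e * (b * c)) = (b * a) * e * (b * c) := by simp only [mul_assoc]
      _ = b * e * b := by rw [← h₁.eq, s3]
      _ = _ := mul_assoc _ _ _
  have s5 : a * e = e * c := by
    calc a * e = a * e * ((b * c) * (b * c)) := by
          rw [show b * c * (b * c) = 1 by
            rw [← pow_two, h₃.mul_pow, pow_two, pow_two, mul_self hE hb, hcc, one_mul], mul_one]
      _ = (a * e * (b * c)) * (b * c) := by simp only [mul_assoc]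
      _ = e * (b * b) * c := by rw [s4]; simp only [mul_assoc]
      _ = e * c := by rw [mul_self hE hb, mul_one]
  have s6 : a * e * a = c := by
    rw [← braid hE he ha i, mul_assoc, s5, ← mul_assoc, hee, one_mul]
  apply i
  show e * a = a * e
  calc e * a = a * (a * e * a) := by simp only [← mul_assoc, haa, one_mul]
    _ = (a * e * a) * a := by rw [s6]; exact h₂.eq
    _ = a * e := by simp only [mul_assoc, haa, mul_one]

theorem exists_fixed (hD : Cfsg.IsThreeTranspositionSet D) (hconj : ∀ g : G, ∀ d ∈ D, g * d * g⁻¹ ∈ D)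
    (x : G ≃* G) (hx : ∀ g : G, x (x g) = g) (hxD : ∀ d ∈ D, x d ∈ D) {a : G} (ha : a ∈ D)
    (h : ¬ Commute a (x a)) : ∃ d ∈ D, x d = d := by
  refine ⟨a * x a * a⁻¹, hconj a _ (hxD a ha), ?_⟩
  rw [inv_eq hD ha, map_mul, map_mul, hx, braid hD ha (hxD a ha) h]

/-- The six elements of the symmetric group on the first three points. -/
def permU : Fin 6 → Equiv.Perm (Fin 4) :=
  ![1, Equiv.swap 0 1, Equiv.swap 1 2, Equiv.swap 0 1 * Equiv.swap 1 2, Equiv.swap 1 2 * Equiv.swap 0 1,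
    Equiv.swap 0 1 * Equiv.swap 1 2 * Equiv.swap 0 1]

/-- Representatives of the cosets of that symmetric group. -/
def permV : Fin 4 → Equiv.Perm (Fin 4) :=
  ![1, Equiv.swap 2 3, Equiv.swap 2 3 * Equiv.swap 1 2, Equiv.swap 2 3 * Equiv.swap 1 2 * Equiv.swap 0 1]

theorem permUV_bijective : Function.Bijective fun ij : Fin 6 × Fin 4 => permU ij.1 * permV ij.2 := by
  rw [Fintype.bijective_iff_injective_and_card]
  constructor
  · intro x y; revert x y; decide +kernel
  · decide +kernel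

theorem perm_four_witness : ∀ σ : Equiv.Perm (Fin 4), σ ≠ 1 →
    (∃ τ : Equiv.Perm (Fin 4), τ * σ * τ⁻¹ = Equiv.swap 0 1 * Equiv.swap 2 3) ∨
      ∃ τ ρ : Equiv.Perm (Fin 4), τ * σ * τ⁻¹ * (ρ * σ * ρ⁻¹) = Equiv.swap 0 1 * Equiv.swap 2 3 := by
  decide +kernel

theorem exists_sym_four (hD : Cfsg.IsThreeTranspositionSet D) {a b c : G} (ha : a ∈ D) (hb : b ∈ D) (hc : c ∈ D)
    (hac : a ≠ c) (hac' : Commute a c) (hab : ¬ Commute a b) (hbc : ¬ Commute b c) :
    ∃ φ : Equiv.Perm (Fin 4) →* G, Function.Injective φ ∧ φ (Equiv.swap 0 1) = a ∧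
      φ (Equiv.swap 1 2) = b ∧ φ (Equiv.swap 2 3) = c := by
  classical
  have haa := mul_self hD ha
  have hbb := mul_self hD hb
  have hcc := mul_self hD hc
  have e1 := braid hD ha hb hab
  have e2 := braid hD hb hc hbc
  let A : Equiv.Perm (Fin 4) × G := (Equiv.swap 0 1, a)
  let B : Equiv.Perm (Fin 4) × G := (Equiv.swap 1 2, b)
  let C : Equiv.Perm (Fin 4) × G := (Equiv.swap 2 3, c)
  let U : Fin 6 → Equiv.Perm (Fin 4) × G := ![1, A, B, A * B, B * A, A * B * A]
  let V : Fin 4 → Equiv.Perm (Fin 4) × G := ![1, C, C * B, C * B * A]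
  have hAA : A * A = 1 := Prod.ext (Equiv.swap_mul_self 0 1) haa
  have hBB : B * B = 1 := Prod.ext (Equiv.swap_mul_self 1 2) hbb
  have hCC : C * C = 1 := Prod.ext (Equiv.swap_mul_self 2 3) hcc
  have hAB : A * B * A = B * A * B :=
    Prod.ext (show Equiv.swap (0 : Fin 4) 1 * Equiv.swap 1 2 * Equiv.swap 0 1 =
      Equiv.swap 1 2 * Equiv.swap 0 1 * Equiv.swap 1 2 by decide) e1
  have hBC : B * C * B = C * B * C :=
    Prod.ext (show Equiv.swap (1 : Fin 4) 2 * Equiv.swap 2 3 * Equiv.swap 1 2 =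
      Equiv.swap 2 3 * Equiv.swap 1 2 * Equiv.swap 2 3 by decide) e2
  have hAC : A * C = C * A :=
    Prod.ext (show Equiv.swap (0 : Fin 4) 1 * Equiv.swap 2 3 = Equiv.swap 2 3 * Equiv.swap 0 1 by decide) hac'.eq
  have hUA : ∀ i, ∃ i', U i * A = U i' := fun i => by
    fin_cases i
    · exact ⟨1, by simp [U]⟩
    · exact ⟨0, by simp [U, hAA]⟩
    · exact ⟨4, by simp [U]⟩
    · exact ⟨5, by simp [U]⟩
    · exact ⟨2, by simp [U, mul_assoc, hAA]⟩
    · exact ⟨3, by simp [U, mul_assoc, hAA]⟩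
  have hUB : ∀ i, ∃ i', U i * B = U i' := fun i => by
    fin_cases i
    · exact ⟨2, by simp [U]⟩
    · exact ⟨3, by simp [U]⟩
    · exact ⟨0, by simp [U, hBB]⟩
    · exact ⟨1, by simp [U, mul_assoc, hBB]⟩
    · exact ⟨5, by show B * A * B = A * B * A; rw [hAB]⟩
    · exact ⟨4, by show A * B * A * B = B * A; rw [hAB, mul_assoc, hBB, mul_one]⟩
  let W : Set (Equiv.Perm (Fin 4) × G) := {x | ∃ i j, x = U i * V j}
  have hW : ∀ x ∈ W, ∀ g ∈ ({A, B, C} : Set (Equiv.Perm (Fin 4) × G)), x * g ∈ W := by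
    rintro _ ⟨i, j, rfl⟩ g hg
    have key : ∃ j', V j * g = V j' ∨ V j * g = A * V j' ∨ V j * g = B * V j' := by
      simp only [Set.mem_insert_iff, Set.mem_singleton_iff] at hg
      rcases hg with rfl | rfl | rfl <;> fin_cases j
      · exact ⟨0, Or.inr (Or.inl (by simp [V]))⟩
      · exact ⟨1, Or.inr (Or.inl (by simp [V, hAC]))⟩
      · exact ⟨3, Or.inl (by simp [V])⟩
      · exact ⟨2, Or.inl (by simp [V, mul_assoc, hAA])⟩
      · exact ⟨0, Or.inr (Or.inr (by simp [V]))⟩
      · exact ⟨2, Or.inl (by simp [V])⟩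
      · exact ⟨1, Or.inl (by simp [V, mul_assoc, hBB])⟩
      · refine ⟨3, Or.inr (Or.inl ?_)⟩
        show C * B * A * B = A * (C * B * A)
        rw [mul_assoc C, mul_assoc C, ← hAB, ← mul_assoc, ← mul_assoc, ← hAC]
        simp only [mul_assoc]
      · exact ⟨1, Or.inl (by simp [V])⟩
      · exact ⟨0, Or.inl (by simp [V, hCC])⟩
      · exact ⟨2, Or.inr (Or.inr (by show C * B * C = B * (C * B); rw [← hBC, mul_assoc]))⟩
      · refine ⟨3, Or.inr (Or.inr ?_)⟩
        show C * B * A * C = B * (C * B * A)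
        rw [mul_assoc (C * B), hAC, ← mul_assoc, ← hBC]
        simp only [mul_assoc]
    obtain ⟨j', h | h | h⟩ := key
    · exact ⟨i, j', by rw [mul_assoc, h]⟩
    · obtain ⟨i', hi⟩ := hUA i
      exact ⟨i', j', by rw [mul_assoc, h, ← mul_assoc, hi]⟩
    · obtain ⟨i', hi⟩ := hUB i
      exact ⟨i', j', by rw [mul_assoc, h, ← mul_assoc, hi]⟩
  let R := Subgroup.closure ({A, B, C} : Set (Equiv.Perm (Fin 4) × G))
  have hRW : ∀ x ∈ R, x ∈ W := by
    intro x hx
    induction hx using Subgroup.closure_induction_right with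
    | one => exact ⟨0, 0, by simp [U, V]⟩
    | mul_right x hx y hy ih => exact hW x ih y hy
    | mul_inv_cancel x hx y hy ih =>
      have : y⁻¹ = y := by
        simp only [Set.mem_insert_iff, Set.mem_singleton_iff] at hy
        rcases hy with rfl | rfl | rfl
        · exact inv_eq_of_mul_eq_one_right hAA
        · exact inv_eq_of_mul_eq_one_right hBB
        · exact inv_eq_of_mul_eq_one_right hCC
      rw [this]
      exact hW x ih y hy
  have hA : A ∈ R := Subgroup.subset_closure (Or.inl rfl)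
  have hB : B ∈ R := Subgroup.subset_closure (Or.inr (Or.inl rfl))
  have hC : C ∈ R := Subgroup.subset_closure (Or.inr (Or.inr rfl))
  have hU : ∀ i, U i ∈ R ∧ (U i).1 = permU i := fun i => by
    fin_cases i
    · exact ⟨R.one_mem, rfl⟩
    · exact ⟨hA, rfl⟩
    · exact ⟨hB, rfl⟩
    · exact ⟨R.mul_mem hA hB, rfl⟩
    · exact ⟨R.mul_mem hB hA, rfl⟩
    · exact ⟨R.mul_mem (R.mul_mem hA hB) hA, rfl⟩
  have hV : ∀ j, V j ∈ R ∧ (V j).1 = permV j := fun j => by
    fin_cases j
    · exact ⟨R.one_mem, rfl⟩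
    · exact ⟨hC, rfl⟩
    · exact ⟨R.mul_mem hC hB, rfl⟩
    · exact ⟨R.mul_mem (R.mul_mem hC hB) hA, rfl⟩
  let f : R →* Equiv.Perm (Fin 4) := (MonoidHom.fst _ _).comp R.subtype
  have hf : Function.Bijective f := by
    constructor
    · intro x y hxy
      obtain ⟨i, j, hx⟩ := hRW x x.2
      obtain ⟨i', j', hy⟩ := hRW y y.2
      have hxy' : permU i * permV j = permU i' * permV j' := by
        have e : (x : Equiv.Perm (Fin 4) × G).1 = (y : Equiv.Perm (Fin 4) × G).1 := hxy
        rw [hx, hy, Prod.fst_mul, Prod.fst_mul, (hU i).2, (hV j).2, (hU i').2, (hV j').2] at e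
        exact e
      have h2 := permUV_bijective.1 (a₁ := (i, j)) (a₂ := (i', j')) hxy'
      cases h2
      exact Subtype.ext (hx.trans hy.symm)
    · intro σ
      obtain ⟨⟨i, j⟩, hij⟩ := permUV_bijective.2 σ
      refine ⟨⟨U i * V j, R.mul_mem (hU i).1 (hV j).1⟩, ?_⟩
      show (U i * V j).1 = σ
      rw [Prod.fst_mul, (hU i).2, (hV j).2]
      exact hij
  let e := MulEquiv.ofBijective f hf
  let φ : Equiv.Perm (Fin 4) →* G := ((MonoidHom.snd _ _).comp R.subtype).comp e.symm.toMonoidHom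
  have hφ : ∀ (x : R), φ (f x) = (x : Equiv.Perm (Fin 4) × G).2 := fun x => by
    show (((e.symm (e x)) : R) : Equiv.Perm (Fin 4) × G).2 = _
    rw [e.symm_apply_apply]
  have hφa : φ (Equiv.swap 0 1) = a := hφ ⟨A, hA⟩
  have hφb : φ (Equiv.swap 1 2) = b := hφ ⟨B, hB⟩
  have hφc : φ (Equiv.swap 2 3) = c := hφ ⟨C, hC⟩
  refine ⟨φ, ?_, hφa, hφb, hφc⟩
  rw [injective_iff_map_eq_one]
  intro σ hσ
  by_contra h
  apply hac
  have hw : φ (Equiv.swap 0 1 * Equiv.swap 2 3) = 1 := by
    rcases perm_four_witness σ h with ⟨τ, hτ⟩ | ⟨τ, ρ, hτ⟩ <;> rw [← hτ] <;> simp [hσ]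
  rw [map_mul, hφa, hφc] at hw
  rw [eq_inv_of_mul_eq_one_left hw, inv_eq hD hc]

theorem commuting_trace (hD : Cfsg.IsThreeTranspositionSet D) (hconj : ∀ g : G, ∀ d ∈ D, g * d * g⁻¹ ∈ D)
    {T : Subgroup G} (hT : IsPGroup 2 T) : ∀ x ∈ {d | d ∈ D ∧ d ∈ T}, ∀ y ∈ {d | d ∈ D ∧ d ∈ T}, Commute x y := by
  rintro x ⟨hx, hxT⟩ y ⟨hy, hyT⟩
  by_contra hxy
  obtain ⟨k, hk⟩ := hT ⟨x * y, mul_mem hxT hyT⟩
  have hk' : (x * y) ^ (2 ^ k) = 1 := congrArg Subtype.val hk
  have hg : (x * y) ^ Nat.gcd (2 ^ k) 3 = 1 := pow_gcd_eq_one.2 ⟨hk', pow_three hD hx hy hxy⟩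
  rw [Nat.Coprime.gcd_eq_one (Nat.Coprime.pow_left k (by norm_num)), pow_one] at hg
  exact hxy ((commute_iff hD hx hy).2 (by rw [hg, one_pow]))

theorem isPGroup_closure_commuting (hD : Cfsg.IsThreeTranspositionSet D) {F : Set G} (hF : F ⊆ D)
    (hc : ∀ x ∈ F, ∀ y ∈ F, Commute x y) : IsPGroup 2 (Subgroup.closure F) := by
  haveI := Subgroup.isMulCommutative_closure fun x hx y hy => (hc x hx y hy).eq
  intro x
  refine ⟨1, ?_⟩
  obtain ⟨x, hx⟩ := x
  induction hx using Subgroup.closure_induction with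
  | mem y hy => exact Subtype.ext (by rw [pow_one]; exact (pow_two y).trans (mul_self hD (hF hy)))
  | one => exact one_pow _
  | mul x y hx hy ihx ihy =>
    have : (⟨x * y, mul_mem hx hy⟩ : Subgroup.closure F) = ⟨x, hx⟩ * ⟨y, hy⟩ := rfl
    rw [this, (show Commute (⟨x, hx⟩ : Subgroup.closure F) ⟨y, hy⟩ from mul_comm' _ _).mul_pow, ihx, ihy, one_mul]
  | inv x hx ihx =>
    have : (⟨x⁻¹, inv_mem hx⟩ : Subgroup.closure F) = ⟨x, hx⟩⁻¹ := rfl
    rw [this, inv_pow, ihx, inv_one]

theorem trace_ncard [Finite G] (hD : Cfsg.IsThreeTranspositionSet D) (hconj : ∀ g : G, ∀ d ∈ D, g * d * g⁻¹ ∈ D)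
    (T : Sylow 2 G) {F : Set G} (hF : F ⊆ D) (hc : ∀ x ∈ F, ∀ y ∈ F, Commute x y) :
    F.ncard ≤ {d : G | d ∈ D ∧ d ∈ T}.ncard := by
  haveI : Fact (Nat.Prime 2) := ⟨Nat.prime_two⟩
  obtain ⟨P, hP⟩ := (isPGroup_closure_commuting hD hF hc).exists_le_sylow
  obtain ⟨g, hg⟩ := MulAction.exists_smul_eq G P T
  refine Set.ncard_le_ncard_of_injOn (fun x => g * x * g⁻¹) (fun x hx => ⟨hconj g x (hF hx), ?_⟩)
    (fun x _ y _ e => by simpa using e) (Set.toFinite _)
  rw [← hg, ← SetLike.mem_coe, Sylow.coe_smul]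
  exact Set.smul_mem_smul_set (hP (Subgroup.subset_closure hx))

theorem fixed_of_normalized (hD : Cfsg.IsThreeTranspositionSet D) (hconj : ∀ g : G, ∀ d ∈ D, g * d * g⁻¹ ∈ D)
    {p : ℕ} (hp : p.Prime) (hp3 : 3 < p) {P : Subgroup G} (hP : IsPGroup p P) {d : G} (hd : d ∈ D)
    (hnorm : ∀ x ∈ P, d * x * d⁻¹ ∈ P) {x : G} (hx : x ∈ P) : Commute d x := by
  have hmem : d * (x * d * x⁻¹) ∈ P := by
    rw [show d * (x * d * x⁻¹) = (d * x * d⁻¹) * x⁻¹ by rw [inv_eq hD hd]; group]
    exact mul_mem (hnorm x hx) (inv_mem hx)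
  obtain ⟨k, hk⟩ := hP ⟨_, hmem⟩
  have hk' : (d * (x * d * x⁻¹)) ^ (p ^ k) = 1 := congrArg Subtype.val hk
  have h1 : d * (x * d * x⁻¹) = 1 := by
    rcases hD.2 d hd _ (hconj x d hd) with e | e
    · have := pow_gcd_eq_one.2 ⟨hk', e⟩
      rwa [Nat.Coprime.gcd_eq_one (Nat.Coprime.pow_left k ((Nat.coprime_primes hp Nat.prime_two).2 (by omega))),
        pow_one] at this
    · have := pow_gcd_eq_one.2 ⟨hk', e⟩
      rwa [Nat.Coprime.gcd_eq_one (Nat.Coprime.pow_left k ((Nat.coprime_primes hp Nat.prime_three).2 (by omega))),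
        pow_one] at this
  have h2 : x * d * x⁻¹ = d := by rw [eq_inv_of_mul_eq_one_right h1, inv_eq hD hd]
  exact (mul_inv_eq_iff_eq_mul.1 h2).symm

theorem involution_sandwich (a g : G) (ha : orderOf a = 2) :
    (∀ m : ℕ, orderOf (a * (g⁻¹ * a * g)) = 2 * m + 1 → Commute (g * (a * (g⁻¹ * a * g)) ^ m) a) ∧
      (∀ m : ℕ, orderOf (a * (g⁻¹ * a * g)) = 2 * m →
        Commute ((a * (g⁻¹ * a * g)) ^ m) a ∧ Commute ((a * (g * a * g⁻¹)) ^ m) a) := by
  have haa : a * a = 1 := by rw [← pow_two, ← ha, pow_orderOf_eq_one]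
  have hai : a⁻¹ = a := inv_eq_of_mul_eq_one_right haa
  have hinv : ∀ c : G, c * c = 1 → ∀ m : ℕ, a * (a * c) ^ m = ((a * c) ^ m)⁻¹ * a := by
    intro c hc m
    have hconj : a * (a * c) * a⁻¹ = (a * c)⁻¹ := by
      rw [mul_inv_rev, inv_eq_of_mul_eq_one_right hc, hai, ← mul_assoc, haa, one_mul]
    rw [← inv_pow, ← hconj, conj_pow, inv_mul_cancel_right]
  have hgag : ∀ u : G, u * a * u⁻¹ * (u * a * u⁻¹) = 1 := fun u => by
    rw [show u * a * u⁻¹ * (u * a * u⁻¹) = u * (a * a) * u⁻¹ by group, haa, mul_one, mul_inv_cancel]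
  have hc1 : g⁻¹ * a * g * (g⁻¹ * a * g) = 1 := by simpa using hgag g⁻¹
  refine ⟨fun m hm => ?_, fun m hm => ⟨?_, ?_⟩⟩
  · set t := a * (g⁻¹ * a * g) with ht
    have ht1 : t ^ (2 * m + 1) = 1 := by rw [← hm, pow_orderOf_eq_one]
    have hc : g⁻¹ * a * g = a * t := by rw [ht, ← mul_assoc a a, haa, one_mul]
    have h2 : t ^ (m + 1) = (t ^ m)⁻¹ := eq_inv_of_mul_eq_one_left (by rw [← pow_add, ← ht1]; congr 1; omega)
    show g * t ^ m * a = a * (g * t ^ m)
    calc g * t ^ m * a = g * (a * (t ^ m)⁻¹) := by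
          have h3 : a * (t ^ m)⁻¹ = t ^ m * a := by
            have h4 := hinv _ hc1 m
            rw [← ht] at h4
            calc a * (t ^ m)⁻¹ = a * ((t ^ m)⁻¹ * a) * a := by rw [mul_assoc, mul_assoc, haa, mul_one]
              _ = a * (a * t ^ m) * a := by rw [h4]
              _ = _ := by rw [← mul_assoc, haa, one_mul]
          rw [h3, mul_assoc]
      _ = g * (a * t) * t ^ m := by rw [← h2, pow_succ']; simp only [mul_assoc]
      _ = _ := by rw [← hc]; group
  · have h := hinv _ hc1 m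
    set t := a * (g⁻¹ * a * g)
    rw [show (t ^ m)⁻¹ = t ^ m from inv_eq_of_mul_eq_one_right (by
      rw [← pow_add, ← two_mul, ← hm, pow_orderOf_eq_one])] at h
    exact h.symm
  · have hord : orderOf (a * (g * a * g⁻¹)) = 2 * m := by
      rw [← hm]
      have e : (MulAut.conj g) ((a * (g⁻¹ * a * g))⁻¹) = a * (g * a * g⁻¹) := by
        rw [mul_inv_rev, inv_eq_of_mul_eq_one_right hc1, hai, MulAut.conj_apply]
        group
      rw [← e, MulEquiv.orderOf_eq, orderOf_inv]
    have h := hinv _ (hgag g) m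
    set t := a * (g * a * g⁻¹)
    rw [show (t ^ m)⁻¹ = t ^ m from inv_eq_of_mul_eq_one_right (by
      rw [← pow_add, ← two_mul, ← hord, pow_orderOf_eq_one])] at h
    exact h.symm

theorem swaps_class (n : ℕ) (hn : 2 ≤ n) :
    ((∀ d ∈ {σ : Equiv.Perm (Fin n) | σ.IsSwap}, orderOf d = 2) ∧
      ∀ d ∈ {σ : Equiv.Perm (Fin n) | σ.IsSwap}, ∀ e ∈ {σ : Equiv.Perm (Fin n) | σ.IsSwap},
        (d * e) ^ 2 = 1 ∨ (d * e) ^ 3 = 1) ∧
    (∃ d ∈ {σ : Equiv.Perm (Fin n) | σ.IsSwap}, {σ : Equiv.Perm (Fin n) | σ.IsSwap} = conjugatesOf d) ∧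
      Subgroup.closure {σ : Equiv.Perm (Fin n) | σ.IsSwap} = ⊤ := by
  classical
  refine ⟨⟨fun d hd => ?_, ?_⟩, ?_, Equiv.Perm.closure_isSwap⟩
  · obtain ⟨x, y, hxy, rfl⟩ := hd
    exact orderOf_eq_prime (by rw [pow_two, Equiv.swap_mul_self]) (fun e => hxy (Equiv.swap_eq_one_iff.1 e))
  · have h2 : ∀ p q r : Fin n, p ≠ q → p ≠ r → (Equiv.swap p q * Equiv.swap p r) ^ 3 = 1 := by
      intro p q r hpq hpr
      by_cases hqr : q = r
      · rw [hqr, Equiv.swap_mul_self, one_pow]
      · have h3 := (Equiv.Perm.isThreeCycle_swap_mul_swap_same hpq hpr hqr).orderOf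
        rw [← h3, pow_orderOf_eq_one]
    rintro d ⟨x, y, hxy, rfl⟩ e ⟨u, v, huv, rfl⟩
    by_cases h : x ≠ u ∧ x ≠ v ∧ y ≠ u ∧ y ≠ v
    · left
      have hd : Equiv.Perm.Disjoint (Equiv.swap x y) (Equiv.swap u v) := by
        intro z
        by_cases hz : z = x ∨ z = y
        · right
          rcases hz with rfl | rfl
          · exact Equiv.swap_apply_of_ne_of_ne h.1 h.2.1
          · exact Equiv.swap_apply_of_ne_of_ne h.2.2.1 h.2.2.2
        · push Not at hz
          left; exact Equiv.swap_apply_of_ne_of_ne hz.1 hz.2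
      rw [hd.commute.mul_pow, pow_two, pow_two, Equiv.swap_mul_self, Equiv.swap_mul_self, one_mul]
    · right
      rcases (show x = u ∨ x = v ∨ y = u ∨ y = v by tauto) with e | e | e | e
      · subst e; exact h2 x y v hxy huv
      · subst e; rw [Equiv.swap_comm u x]; exact h2 x y u hxy huv.symm
      · subst e; rw [Equiv.swap_comm x y]; exact h2 y x v hxy.symm huv
      · subst e; rw [Equiv.swap_comm x y, Equiv.swap_comm u y]; exact h2 y x u hxy.symm huv.symm
  · have h01 : (⟨0, by omega⟩ : Fin n) ≠ ⟨1, by omega⟩ := by simp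
    refine ⟨_, ⟨_, _, h01, rfl⟩, ?_⟩
    ext σ
    constructor
    · rintro ⟨x, y, hxy, rfl⟩; exact Equiv.Perm.isConj_swap h01 hxy
    · intro h
      obtain ⟨g, rfl⟩ := isConj_iff.1 h
      exact ⟨_, _, fun e => h01 (g.injective e), (Equiv.swap_apply_apply g _ _).symm⟩

end CfsgLib.Spor.Trans
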