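import Cfsg.Agent.Lib.StableControlApps

/-!
# `Z(J)` in groups with well behaved `p`-local subgroups
-/

set_option autoImplicit false
set_option linter.style.haveILetI false

universe u

namespace CfsgLib.Stable

variable {p : ℕ} [hp : Fact p.Prime]

theorem mk_mem_pCore_of_hom {A B : Type u} [Group A] [Group B] [Finite A] [Finite B]
    {M : Subgroup A} [M.Normal] {M' : Subgroup B} [M'.Normal] (i : A →* B)
    (hM : M = M'.comap i) {a : A}
    (h : (QuotientGroup.mk (i a) : B ⧸ M') ∈ Cfsg.pCore p (B ⧸ M')) :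
    (QuotientGroup.mk a : A ⧸ M) ∈ Cfsg.pCore p (A ⧸ M) := by
  let f : A ⧸ M →* B ⧸ M' := QuotientGroup.map M M' i hM.le
  have hf : Function.Injective f := by
    rw [injective_iff_map_eq_one]
    intro q hq1
    obtain ⟨x, rfl⟩ := QuotientGroup.mk_surjective q
    rw [QuotientGroup.eq_one_iff, hM, Subgroup.mem_comap]
    exact (QuotientGroup.eq_one_iff (i x)).1 hq1
  have hle : (Cfsg.pCore p (B ⧸ M')).comap f ≤ Cfsg.pCore p (A ⧸ M) :=
    CfsgLib.Core.le_pCore
      (Subgroup.Normal.comap (CfsgLib.Core.normal_pCore (G := B ⧸ M') p) f)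
      ((CfsgLib.Core.isPGroup_pCore p).comap_of_injective f hf)
  exact hle h

theorem normalizerPStable_subgroup {G : Type u} [Group G] [Finite G]
    (h : Cfsg.IsNormalizerPStable p G) (H : Subgroup G) : Cfsg.IsNormalizerPStable p H := by
  intro P hP g hg hq
  have hg' : (g : G) ∈ Subgroup.normalizer ((P.map H.subtype : Subgroup G) : Set G) :=
    Subgroup.le_normalizer_map H.subtype ⟨g, hg, rfl⟩
  have hq' : ⁅⁅P.map H.subtype, Subgroup.zpowers (g : G)⁆, Subgroup.zpowers (g : G)⁆ = ⊥ := by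
    have h1 := congrArg (Subgroup.map H.subtype) hq
    rw [Subgroup.map_commutator, Subgroup.map_commutator, MonoidHom.map_zpowers,
      Subgroup.map_bot] at h1
    exact h1
  have h1 := h (P.map H.subtype) (hP.map _) g hg' hq'
  let i : ↥(Subgroup.normalizer (P : Set H)) →*
      ↥(Subgroup.normalizer ((P.map H.subtype : Subgroup G) : Set G)) :=
    (H.subtype.comp (Subgroup.normalizer (P : Set H)).subtype).codRestrict _
      (fun x => Subgroup.le_normalizer_map H.subtype ⟨(x : H), x.2, rfl⟩)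
  refine mk_mem_pCore_of_hom i ?_ (a := ⟨g, hg⟩) h1
  ext x
  rw [Subgroup.mem_comap, Subgroup.mem_subgroupOf, Subgroup.mem_subgroupOf,
    Subgroup.mem_centralizer_iff, Subgroup.mem_centralizer_iff]
  constructor
  · rintro hx _ ⟨y, hy, rfl⟩
    exact congrArg Subtype.val (hx y hy)
  · intro hx y hy
    exact Subtype.ext (hx (y : G) ⟨y, hy, rfl⟩)

/-- Normalizer stability passes to stability of quotients by normal `p'`-subgroups. -/
theorem stab_quotient_normalizerPStable {G : Type u} [Group G] [Finite G]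
    (h : Cfsg.IsNormalizerPStable p G) {N : Subgroup G} [N.Normal]
    (hN : (Nat.card N).Coprime p) : Stab p (G ⧸ N) := by
  set f := QuotientGroup.mk' N with hf
  have hfs : Function.Surjective f := QuotientGroup.mk'_surjective N
  have hker : (Nat.card f.ker).Coprime p := by rw [hf, QuotientGroup.ker_mk']; exact hN
  intro W hWn hWp b _ hq
  set M := W.comap f with hM
  obtain ⟨S⟩ := (inferInstance : Nonempty (Sylow p M))
  set P := (S : Subgroup M).map M.subtype with hP
  have hPp : IsPGroup p P := S.2.map _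
  have hPW : P.map f = W := by
    have hs : Function.Surjective (f.subgroupComap W) :=
      f.subgroupComap_surjective_of_surjective W hfs
    have h1 : (S : Subgroup M).map (f.subgroupComap W) = ⊤ := by
      rw [← Sylow.coe_mapSurjective hs S]
      exact ((S.mapSurjective hs).3 (hWp.to_subgroup ⊤) le_top).symm
    rw [hP, Subgroup.map_map, show f.comp M.subtype = W.subtype.comp (f.subgroupComap W) from rfl,
      ← Subgroup.map_map, h1, ← MonoidHom.range_eq_map, Subgroup.range_subtype]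
  have hbN : b ∈ (Subgroup.normalizer (P : Set G)).map f := by
    rw [← normalizer_map_eq f hfs hker hPp, hPW, Subgroup.normalizer_eq_top]
    exact Subgroup.mem_top b
  obtain ⟨a, haN, rfl⟩ := hbN
  set A := Subgroup.zpowers a with hA
  have hqP : ⁅⁅P, A⁆, A⁆ = ⊥ := by
    have h1 : (⁅⁅P, A⁆, A⁆).map f = ⊥ := by
      rw [Subgroup.map_commutator, Subgroup.map_commutator, hPW, hA, MonoidHom.map_zpowers, hq]
    have h3 : ∀ X : Subgroup G, X ≤ P → ⁅X, A⁆ ≤ P := fun X hX => by
      rw [Subgroup.commutator_le]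
      intro x hx y hy
      rw [commutatorElement_def, mul_assoc x y, mul_assoc]
      exact mul_mem (hX hx)
        ((Subgroup.mem_normalizer_iff.1 (Subgroup.zpowers_le.2 haN hy) _).1 (inv_mem (hX hx)))
    rw [eq_bot_iff]
    intro x hx
    rw [Subgroup.mem_bot]
    refine injOn_of_coprime_ker f hker hPp (h3 _ (h3 _ le_rfl) hx) P.one_mem ?_
    rw [map_one, ← Subgroup.mem_bot, ← h1]
    exact ⟨x, hx, rfl⟩
  have h1 := h P hPp a haN hqP
  set C := Subgroup.centralizer (P : Set G)
  set NP := Subgroup.normalizer (P : Set G) with hNP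
  let g : ↥NP ⧸ C.subgroupOf NP →* (G ⧸ N) ⧸ Subgroup.centralizer (W : Set (G ⧸ N)) :=
    QuotientGroup.lift (C.subgroupOf NP) (((QuotientGroup.mk' _).comp f).comp NP.subtype) (by
      intro x hx
      rw [MonoidHom.mem_ker]
      show QuotientGroup.mk' _ (f (x : G)) = 1
      rw [QuotientGroup.mk'_apply, QuotientGroup.eq_one_iff, ← hPW, Subgroup.mem_centralizer_iff]
      rintro _ ⟨y, hy, rfl⟩
      rw [← map_mul, ← map_mul]
      exact congrArg f (Subgroup.mem_centralizer_iff.1 hx y hy))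
  have hgs : Function.Surjective g := by
    intro q
    obtain ⟨x, rfl⟩ := QuotientGroup.mk_surjective q
    have hx : x ∈ NP.map f := by
      rw [hNP, ← normalizer_map_eq f hfs hker hPp, hPW, Subgroup.normalizer_eq_top]
      exact Subgroup.mem_top x
    obtain ⟨y, hy, rfl⟩ := hx
    exact ⟨QuotientGroup.mk ⟨y, hy⟩, rfl⟩
  exact CfsgLib.Core.map_pCore_le_of_surjective p g hgs ⟨_, h1, rfl⟩

/-- Trivial local data: the ambient group has no constrained sections to check. -/
theorem localData_trivial {V : ∀ (G : Type u) [Group G], Subgroup G → Subgroup G}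
    (le : ∀ {G : Type u} [Group G] [Finite G] {D : Subgroup G}, IsPGroup p D → V G D ≤ D)
    (ne_bot : ∀ {G : Type u} [Group G] [Finite G] {D : Subgroup G},
      IsPGroup p D → D ≠ ⊥ → V G D ≠ ⊥)
    (map : ∀ {G X : Type u} [Group G] [Group X] [Finite G] [Finite X] (f : G →* X) {D : Subgroup G},
      IsPGroup p D → Set.InjOn f (D : Set G) → (V G D).map f = V X (D.map f)) :
    LocalData p PUnit.{u + 1} V False where
  le := le
  ne_bot := ne_bot
  map := map
  normal {X} _ _ hX _ _ _ _ _ := by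
    obtain ⟨K, f, hf⟩ := hX
    refine ⟨fun x hx g => ?_⟩
    obtain ⟨k, rfl⟩ := hf g
    rw [Subsingleton.elim k 1, map_one, one_mul, inv_one, mul_one]
    exact hx

/-- Control of strong fusion from constrained locals and stability. -/
theorem ctrl_of_constrained_locals (hodd : p ≠ 2) {V : ∀ (G : Type u) [Group G], Subgroup G → Subgroup G}
    (hV : LocalData p PUnit.{u + 1} V False)
    (hnorm : ∀ {X : Type u} [Group X] [Finite X],
      Subgroup.centralizer (Cfsg.pCore p X : Set X) ≤ Cfsg.pCore p X → Stab p X →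
      ∀ (P : Sylow p X) (D : Subgroup X), SClosed D (P : Subgroup X) → (V X D).Normal)
    {G : Type u} [Group G] [Finite G] (P : Sylow p G) {D : Subgroup G}
    (hD : SClosed D (P : Subgroup G)) (hst : Cfsg.IsNormalizerPStable p G)
    (hc : ∀ U : Subgroup G, U ≤ (P : Subgroup G) → U ≠ ⊥ →
      Cfsg.IsPConstrained p ↥(Subgroup.normalizer (U : Set G))) :
    Ctrl (P : Subgroup G) (V G D) := by
  have hlocal : ∀ U : Subgroup G, U ≤ (P : Subgroup G) → U ≠ ⊥ →
      Goal p V False ↥(Subgroup.normalizer (U : Set G)) := by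
    intro U hU hU1
    set H := Subgroup.normalizer (U : Set G) with hH
    intro T E hE _
    haveI := CfsgLib.Core.normal_pPrimeCore (G := H) p
    refine ctrl_of_pPrimeCore hV T hE False.elim (N := Cfsg.pPrimeCore p H)
      (CfsgLib.Core.coprime_card_pPrimeCore p) fun T' E' hE' _ A hA g hg => ⟨g, ?_, fun a _ => rfl⟩
    haveI := hnorm (centralizer_pCore_quotient (hc U hU hU1))
      (stab_quotient_normalizerPStable (normalizerPStable_subgroup hst H)
        (CfsgLib.Core.coprime_card_pPrimeCore p)) T' E' hE'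
    rw [Subgroup.normalizer_eq_top]
    exact Subgroup.mem_top g
  intro T hT g hgT
  by_cases hP1 : (P : Subgroup G) = ⊥
  · refine ⟨1, one_mem _, fun t ht => ?_⟩
    have : t = 1 := Subgroup.mem_bot.1 (hP1 ▸ hT ht)
    simp [this]
  have hloc : ∀ U : Subgroup G, U ≠ ⊥ → Cfsg.IsWellPlaced p (V G) (P : Subgroup G) U →
      Cfsg.ControlsStrongFusionIn p (V G) (Subgroup.normalizer ((U : Subgroup G) : Set G)) := by
    intro U hU hwp
    set N := Subgroup.normalizer ((U : Subgroup G) : Set G) with hN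
    obtain ⟨T₀⟩ := (inferInstance : Nonempty (Sylow p N))
    refine ⟨(T₀ : Subgroup N).map N.subtype, Subgroup.map_subtype_le _, T₀.2.map _, ?_, ?_⟩
    · rw [Subgroup.relIndex, ← Subgroup.comap_subtype,
        Subgroup.comap_map_eq_self_of_injective N.subtype_injective]
      exact T₀.not_dvd_index
    · intro A h hh hA hhA
      obtain ⟨x, hx, hxe⟩ := hlocal U hwp.1 hU T₀ (T₀ : Subgroup N) (sclosed_self _) (fun _ => rfl)
        (Subgroup.closure ((↑) ⁻¹' A : Set N)) ((Subgroup.closure_le _).2 fun a ha => by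
          obtain ⟨b, hb, e⟩ := hA ha
          have e' : b = a := N.subtype_injective e
          subst e'
          exact hb) ⟨h, hh⟩ (fun t ht => by
          have hle : Subgroup.closure ((↑) ⁻¹' A : Set N) ≤
              (T₀ : Subgroup N).comap (MulAut.conj (⟨h, hh⟩ : N)).toMonoidHom := by
            rw [Subgroup.closure_le]
            intro a ha
            obtain ⟨b, hb, e⟩ := hhA ⟨(a : G), ha, rfl⟩
            have e' : b = MulAut.conj (⟨h, hh⟩ : N) a := Subtype.ext e
            subst e'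
            exact hb
          exact hle ht)
      refine ⟨(x : G), ⟨x.2, ?_⟩, fun a ha => ?_⟩
      · have h1 := Subgroup.le_normalizer_map N.subtype ⟨x, hx, rfl⟩
        rw [hV.map N.subtype T₀.2 (Set.injOn_of_injective N.subtype_injective)] at h1
        exact h1
      · obtain ⟨b, hb, e⟩ := hA ha
        have hb' : b ∈ ((↑) ⁻¹' A : Set N) := by
          show (b : G) ∈ A
          rw [show (b : G) = a from e]
          exact ha
        have h2 := congrArg Subtype.val (hxe b (Subgroup.subset_closure hb'))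
        rw [← e]
        exact h2
  obtain ⟨m, hm, c, hcT, hmc⟩ := ((Cfsg.Agent.S1967.result P (V G)
    (isConjugacyFunctor_of_localData hV G)).1
    (Cfsg.Agent.S1961.result P (V G) (isConjugacyFunctor_of_localData hV G) hloc)) T g hT
    (by rintro _ ⟨t, ht, rfl⟩; exact hgT t ht)
  have hmt : ∀ t ∈ T, m * t * m⁻¹ = g * t * g⁻¹ := fun t ht => by
    have h1 := Subgroup.mem_centralizer_iff.1 hcT t ht
    rw [hmc]
    calc m * t * m⁻¹ = m * (t * c) * c⁻¹ * m⁻¹ := by group
      _ = m * (c * t) * c⁻¹ * m⁻¹ := by rw [h1]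
      _ = _ := by group
  obtain ⟨n', hn', hnt⟩ := ctrl_of_subgroup hV P hD False.elim
    (Subgroup.le_normalizer.trans (hV.normalizer_le P.2))
    (hlocal _ (hV.le P.2) (hV.ne_bot P.2 hP1)) hT hm
    (fun t ht => by rw [hmt t ht]; exact hgT t ht)
  exact ⟨n', hn', fun t ht => (hnt t ht).trans (hmt t ht)⟩

/-- In characteristic `p` type with stable locals all `p`-locals lie in one subgroup. -/
theorem normalizer_le_normalizer_Zsub (hodd : p ≠ 2) {G : Type u} [Group G] [Finite G]
    (hloc : ∀ Q : Subgroup G, IsPGroup p Q → Q ≠ ⊥ →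
      Cfsg.pPrimeCore p ↥(Subgroup.normalizer (Q : Set G)) = ⊥ ∧
      Cfsg.IsPConstrained p ↥(Subgroup.normalizer (Q : Set G)) ∧
      Cfsg.IsPStable p ↥(Subgroup.normalizer (Q : Set G)))
    (P : Sylow p G) (Q : Subgroup G) (hQP : Q ≤ (P : Subgroup G)) (hQ1 : Q ≠ ⊥) :
    Subgroup.normalizer (Q : Set G) ≤ Subgroup.normalizer (Zsub 0 (P : Subgroup G) : Set G) := by
  -- a Sylow subgroup of a local subgroup
  have hsyl : ∀ (Q : Subgroup G) (A : Subgroup G), IsPGroup p A →
      A ≤ Subgroup.normalizer (Q : Set G) →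
      ∃ (R : Subgroup G) (P₁ : Sylow p G), A ≤ R ∧ R ≤ (P₁ : Subgroup G) ∧
        R ≤ Subgroup.normalizer (Q : Set G) ∧
        ∃ S : Sylow p ↥(Subgroup.normalizer (Q : Set G)),
          (S : Subgroup ↥(Subgroup.normalizer (Q : Set G))).map
            (Subgroup.subtype (Subgroup.normalizer (Q : Set G))) = R := by
    intro Q A hA hAN
    obtain ⟨S, hS⟩ := (hA.comap_of_injective _
      (Subgroup.subtype_injective (Subgroup.normalizer (Q : Set G)))).exists_le_sylow
    obtain ⟨P₁, hP₁⟩ := (S.2.map (Subgroup.subtype _)).exists_le_sylow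
    exact ⟨(S : Subgroup ↥(Subgroup.normalizer (Q : Set G))).map (Subgroup.subtype _), P₁,
      fun a ha => Subgroup.mem_map.2 ⟨(⟨a, hAN ha⟩ : ↥(Subgroup.normalizer (Q : Set G))), hS ha, rfl⟩,
      hP₁, Subgroup.map_subtype_le _, S, rfl⟩
  -- the local subgroup normalizes `Z(J)` of its Sylow subgroups
  have hN : ∀ Q : Subgroup G, IsPGroup p Q → Q ≠ ⊥ →
      ∀ S : Sylow p ↥(Subgroup.normalizer (Q : Set G)),
        Subgroup.normalizer (Q : Set G) ≤
          Subgroup.normalizer (Zsub 0 ((S : Subgroup ↥(Subgroup.normalizer (Q : Set G))).map (Subgroup.subtype (Subgroup.normalizer (Q : Set G)))) : Set G) := by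
    intro Q hQ hQ0 S
    obtain ⟨h1, h2, h3⟩ := hloc Q hQ hQ0
    have h4 := sup_normalizer_Zsub hodd h2 h3 S (e := 0) (Or.inl rfl)
    rw [h1, bot_sup_eq] at h4
    intro x hx
    have h5 := Subgroup.le_normalizer_map (Subgroup.normalizer (Q : Set G)).subtype
      ⟨(⟨x, hx⟩ : ↥(Subgroup.normalizer (Q : Set G))), h4.ge (Subgroup.mem_top _), rfl⟩
    rwa [map_Zsub 0 _ _ (Set.injOn_of_injective (Subgroup.subtype_injective _))] at h5
  have hMconj : ∀ (P₁ : Sylow p G) (n : G),
      n ∈ Subgroup.normalizer (Zsub 0 (P₁ : Subgroup G) : Set G) →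
      Subgroup.normalizer (Zsub 0 ((n • P₁ : Sylow p G) : Subgroup G) : Set G) =
        Subgroup.normalizer (Zsub 0 (P₁ : Subgroup G) : Set G) := by
    intro P₁ n hn
    have h1 : ((n • P₁ : Sylow p G) : Subgroup G) = (P₁ : Subgroup G).map (MulAut.conj n).toMonoidHom :=
      Sylow.coe_subgroup_smul
    rw [h1, ← Zsub_conj]
    have h2 : (Zsub 0 (P₁ : Subgroup G)).map (MulAut.conj n).toMonoidHom = Zsub 0 (P₁ : Subgroup G) :=
      Subgroup.eq_of_le_of_card_ge (map_conj_le_of_normalizer hn le_rfl) (card_conj _ n).ge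
    rw [h2]
  set c := Nat.card (P : Subgroup G) with hc
  have hcard : ∀ P₁ : Sylow p G, Nat.card (P₁ : Subgroup G) = c := fun P₁ => by
    rw [hc, Sylow.card_eq_multiplicity, Sylow.card_eq_multiplicity]
  have key : ∀ d : ℕ,
      (∀ P₁ P₂ : Sylow p G, (P₁ : Subgroup G) ⊓ P₂ ≠ ⊥ →
        c ≤ Nat.card ↥((P₁ : Subgroup G) ⊓ P₂) + d →
        Subgroup.normalizer (Zsub 0 (P₁ : Subgroup G) : Set G) =
          Subgroup.normalizer (Zsub 0 (P₂ : Subgroup G) : Set G)) ∧
      (∀ (Q : Subgroup G), IsPGroup p Q → Q ≠ ⊥ →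
        ∀ (S : Sylow p ↥(Subgroup.normalizer (Q : Set G))) (P₁ : Sylow p G),
          (S : Subgroup ↥(Subgroup.normalizer (Q : Set G))).map
            (Subgroup.subtype (Subgroup.normalizer (Q : Set G))) ≤ (P₁ : Subgroup G) →
          c ≤ Nat.card ↥((S : Subgroup ↥(Subgroup.normalizer (Q : Set G))).map (Subgroup.subtype (Subgroup.normalizer (Q : Set G)))) + d →
          Subgroup.normalizer (Q : Set G) ≤
            Subgroup.normalizer (Zsub 0 (P₁ : Subgroup G) : Set G)) := by
    intro d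
    induction d using Nat.strong_induction_on with
    | h d ih =>
    constructor
    · intro P₁ P₂ hne hd
      obtain ⟨D, hDdef⟩ : ∃ D, D = (P₁ : Subgroup G) ⊓ P₂ := ⟨_, rfl⟩
      rw [← hDdef] at hne hd
      have hD1 : D ≤ (P₁ : Subgroup G) := hDdef.le.trans inf_le_left
      have hD2 : D ≤ (P₂ : Subgroup G) := hDdef.le.trans inf_le_right
      by_cases h12 : P₁ = P₂
      · rw [h12]
      have hlt : ∀ P' : Sylow p G, D ≤ (P' : Subgroup G) → (P' : Subgroup G) ≤ D → False := by
        intro P' _ h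
        apply h12
        have hle1 : (P' : Subgroup G) ≤ P₁ := h.trans hD1
        have hle2 : (P' : Subgroup G) ≤ P₂ := h.trans hD2
        exact (Sylow.ext (P'.3 P₁.2 hle1)).trans (Sylow.ext (P'.3 P₂.2 hle2)).symm
      have hDp : IsPGroup p D := P₁.2.to_le hD1
      obtain ⟨A₁, hA₁p, hA₁N, hA₁P, hA₁c⟩ := exists_bigger
        (lt_of_le_not_ge hD1 (hlt P₁ hD1)) P₁.2
      obtain ⟨A₂, hA₂p, hA₂N, hA₂P, hA₂c⟩ := exists_bigger
        (lt_of_le_not_ge hD2 (hlt P₂ hD2)) P₂.2
      obtain ⟨R₁, Q₁, hAR₁, hRQ₁, hR₁N, S₁, hS₁⟩ := hsyl D A₁ hA₁p hA₁N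
      obtain ⟨R₂, Q₂, hAR₂, hRQ₂, hR₂N, S₂, hS₂⟩ := hsyl D A₂ hA₂p hA₂N
      have hd0 : 0 < d := by
        have := Subgroup.card_le_of_le hA₁P
        rw [hcard] at this
        omega
      have hA₁1 : A₁ ≠ ⊥ := by
        intro e
        rw [e, Subgroup.card_bot] at hA₁c
        exact absurd hA₁c (by have := Nat.card_pos (α := D); omega)
      have hA₂1 : A₂ ≠ ⊥ := by
        intro e
        rw [e, Subgroup.card_bot] at hA₂c
        exact absurd hA₂c (by have := Nat.card_pos (α := D); omega)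
      obtain ⟨ihA, ihL⟩ := ih (d - 1) (by omega)
      have e1 := ihA P₁ Q₁ (fun e => hA₁1 (le_bot_iff.1 (e ▸ le_inf hA₁P (hAR₁.trans hRQ₁)))) (by
        have := Subgroup.card_le_of_le (le_inf hA₁P (hAR₁.trans hRQ₁))
        omega)
      have e2 := ihA P₂ Q₂ (fun e => hA₂1 (le_bot_iff.1 (e ▸ le_inf hA₂P (hAR₂.trans hRQ₂)))) (by
        have := Subgroup.card_le_of_le (le_inf hA₂P (hAR₂.trans hRQ₂))
        omega)
      have hL := ihL D hDp hne S₁ Q₁ (hS₁.le.trans hRQ₁) (by
        rw [hS₁]
        have := Subgroup.card_le_of_le hAR₁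
        omega)
      obtain ⟨n, hn⟩ := MulAction.exists_smul_eq ↥(Subgroup.normalizer (D : Set G)) S₁ S₂
      have hR : R₂ ≤ (((n : G) • Q₁ : Sylow p G) : Subgroup G) := by
        rw [← hS₂, ← hn, Sylow.coe_subgroup_smul, Sylow.coe_subgroup_smul]
        rintro _ ⟨_, ⟨x, hx, rfl⟩, rfl⟩
        exact ⟨(x : G), hRQ₁ (hS₁ ▸ ⟨x, hx, rfl⟩), rfl⟩
      have e3 := ihA ((n : G) • Q₁) Q₂ (fun e => hA₂1 (le_bot_iff.1
        (e ▸ le_inf (hAR₂.trans hR) (hAR₂.trans hRQ₂)))) (by
        have := Subgroup.card_le_of_le (le_inf (hAR₂.trans hR) (hAR₂.trans hRQ₂))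
        omega)
      rw [e1, e2, ← e3, hMconj Q₁ (n : G) (hL n.2)]
    · intro Q hQ hQ0 S P₁ hSP hd
      set R := (S : Subgroup ↥(Subgroup.normalizer (Q : Set G))).map (Subgroup.subtype (Subgroup.normalizer (Q : Set G))) with hR
      by_cases hRP : R = (P₁ : Subgroup G)
      · rw [← hRP]
        exact hN Q hQ hQ0 S
      have hRp : IsPGroup p R := S.2.map _
      obtain ⟨A, hAp, hAN, hAP, hAc⟩ := exists_bigger (lt_of_le_of_ne hSP hRP) P₁.2
      have hd0 : 0 < d := by
        have := Subgroup.card_le_of_le hAP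
        rw [hcard] at this
        omega
      obtain ⟨ihA, ihL⟩ := ih (d - 1) (by omega)
      have hR1 : R ≠ ⊥ := by
        intro e
        have hS1 : (S : Subgroup ↥(Subgroup.normalizer (Q : Set G))) = ⊥ :=
          (Subgroup.map_eq_bot_iff_of_injective _ (Subgroup.subtype_injective _)).1 (hR.symm.trans e)
        obtain ⟨S', hS'⟩ := (hQ.comap_of_injective _
          (Subgroup.subtype_injective (Subgroup.normalizer (Q : Set G)))).exists_le_sylow
        have hQS : Nat.card Q ≤ Nat.card (S : Subgroup ↥(Subgroup.normalizer (Q : Set G))) := by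
          have h1 := Subgroup.card_le_of_le hS'
          rw [← Subgroup.card_subtype, Subgroup.map_comap_eq_self (by
            rw [Subgroup.range_subtype]; exact Subgroup.le_normalizer)] at h1
          rwa [Sylow.card_eq_multiplicity, ← Sylow.card_eq_multiplicity S] at h1
        rw [hS1, Subgroup.card_bot] at hQS
        exact hQ0 (Subgroup.eq_bot_of_card_le Q hQS)
      obtain ⟨R', P', hAR', hR'P, -, S', hS'⟩ := hsyl (Zsub 0 R) A hAp
        (hAN.trans ((normalizer_le_Jsub 0 R).trans (normalizer_Jsub_le_Zsub 0 R)))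
      have hA1 : A ≠ ⊥ := by
        intro e
        rw [e, Subgroup.card_bot] at hAc
        exact absurd hAc (by have := Nat.card_pos (α := R); omega)
      have hL := ihL (Zsub 0 R) (hRp.to_le (Zsub_le 0 R)) (Zsub_ne_bot (Or.inl rfl) hRp hR1) S' P'
        (hS'.le.trans hR'P) (by
          rw [hS']
          have := Subgroup.card_le_of_le hAR'
          omega)
      have e1 := ihA P₁ P' (fun e => hA1 (le_bot_iff.1 (e ▸ le_inf hAP (hAR'.trans hR'P)))) (by
        have := Subgroup.card_le_of_le (le_inf hAP (hAR'.trans hR'P))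
        omega)
      rw [e1]
      exact (hN Q hQ hQ0 S).trans hL
  obtain ⟨R, P₁, hAR, hRP, -, S, hS⟩ := hsyl Q ((P : Subgroup G) ⊓ Subgroup.normalizer (Q : Set G))
    (P.2.to_le inf_le_left) inf_le_right
  obtain ⟨hA, hL⟩ := key c
  have hQA : Q ≤ (P : Subgroup G) ⊓ Subgroup.normalizer (Q : Set G) := le_inf hQP Subgroup.le_normalizer
  rw [hA P P₁ (fun e => hQ1 (le_bot_iff.1 (e ▸ le_inf hQP ((hQA.trans hAR).trans hRP)))) (by omega)]
  exact hL Q (P.2.to_le hQP) hQ1 S P₁ (hS.le.trans hRP) (by omega)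

end CfsgLib.Stable
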