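import Cfsg.Agent.Lib.FusionGroup
import Cfsg.Agent.Lib.CoreBasic
import Cfsg.Prelude.Def_LocalEven

/-!
# Stability of a group and of its fusion system
-/

set_option autoImplicit false

namespace CfsgLib.TwoFusion.PStable

open CfsgLib.Fusion Cfsg Cfsg.FusionSystem

variable {Ω : Type*} [Group Ω] [Finite Ω] {p : ℕ} [Fact p.Prime]

theorem quad_iff (Q : Subgroup Ω) (g : Ω) :
    ⁅⁅Q, Subgroup.zpowers g⁆, Subgroup.zpowers g⁆ = ⊥ ↔ ∀ a ∈ Q, Commute g (a⁻¹ * g * a * g⁻¹) := by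
  rw [Subgroup.commutator_eq_bot_iff_le_centralizer, Subgroup.commutator_le]
  constructor
  · intro h a ha
    have h1 := Subgroup.mem_centralizer_iff.1 (h a⁻¹ (inv_mem ha) g (Subgroup.mem_zpowers g)) g
      (Subgroup.mem_zpowers g)
    rw [commutatorElement_def, inv_inv] at h1
    exact h1
  · intro h x hx c hc
    rw [Subgroup.mem_centralizer_iff]
    intro d hd
    obtain ⟨i, rfl⟩ := Subgroup.mem_zpowers_iff.1 hc
    obtain ⟨j, rfl⟩ := Subgroup.mem_zpowers_iff.1 hd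
    have h1 := h x⁻¹ (inv_mem hx)
    rw [inv_inv] at h1
    have h2 : Commute g (x * g * x⁻¹) := by
      have := h1.mul_right (Commute.refl g)
      rwa [show x * g * x⁻¹ * g⁻¹ * g = x * g * x⁻¹ by group] at this
    have h3 : Commute g (x * g ^ i * x⁻¹) := by
      have := h2.zpow_right i
      rwa [conj_zpow] at this
    rw [commutatorElement_def]
    exact ((h3.mul_right ((Commute.refl g).zpow_right i).inv_right).zpow_left j)

theorem quad_conjAut (Q : Subgroup Ω) (g : ↥(Subgroup.normalizer (Q : Set Ω))) :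
    (∀ a : ↥Q, (conjAut Q g a⁻¹) * a * (conjAut Q g a⁻¹) * (conjAut Q g (conjAut Q g a)) = 1) ↔
      ∀ a ∈ Q, Commute (g : Ω) (a⁻¹ * (g : Ω) * a * (g : Ω)⁻¹) := by
  constructor
  · intro h a ha
    have h1 := congrArg Subtype.val (h ⟨a, ha⟩)
    simp only [Subgroup.coe_mul, Subgroup.coe_inv, conjAut_apply, Subgroup.coe_one] at h1
    have h2 : ((g : Ω) * a⁻¹ * (g : Ω)⁻¹) * a * ((g : Ω) * a⁻¹ * (g : Ω)⁻¹) * ((g : Ω) * ((g : Ω) * a * (g : Ω)⁻¹) * (g : Ω)⁻¹) =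
        (a⁻¹ * (g : Ω) * a * (g : Ω)⁻¹)⁻¹ * ((g : Ω) * (a⁻¹ * (g : Ω) * a * (g : Ω)⁻¹) * (g : Ω)⁻¹) := by group
    rw [h2, inv_mul_eq_one] at h1
    exact mul_inv_eq_iff_eq_mul.1 h1.symm
  · intro h a
    refine Subtype.ext ?_
    simp only [Subgroup.coe_mul, Subgroup.coe_inv, conjAut_apply, Subgroup.coe_one]
    have h1 : (g : Ω) * ((a : Ω)⁻¹ * g * a * (g : Ω)⁻¹) * (g : Ω)⁻¹ = (a : Ω)⁻¹ * g * a * (g : Ω)⁻¹ := by
      rw [(h a a.2).eq, mul_inv_cancel_right]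
    calc ((g : Ω) * (a : Ω)⁻¹ * (g : Ω)⁻¹) * a * ((g : Ω) * (a : Ω)⁻¹ * (g : Ω)⁻¹) * ((g : Ω) * ((g : Ω) * a * (g : Ω)⁻¹) * (g : Ω)⁻¹)
        = ((a : Ω)⁻¹ * (g : Ω) * a * (g : Ω)⁻¹)⁻¹ * ((g : Ω) * ((a : Ω)⁻¹ * (g : Ω) * a * (g : Ω)⁻¹) * (g : Ω)⁻¹) := by group
      _ = 1 := by rw [h1, inv_mul_cancel]

theorem range_conjAut {P : Sylow p Ω} {Q : Subgroup Ω} (hQ : Q ≤ (P : Subgroup Ω)) :
    (conjAut Q).range = (groupFusionSystem (P : Subgroup Ω)).autGroup Q := by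
  ext α
  rw [mem_autGroup_iff hQ, groupFusion_map_iff]
  constructor
  · rintro ⟨g, rfl⟩
    refine ⟨hQ, fun x hx => hQ (autFun_mem _ hx), g, fun x hx => ?_⟩
    rw [autFun_apply _ hx]; rfl
  · rintro ⟨-, -, g, hg⟩
    have hn : g ∈ Subgroup.normalizer (Q : Set Ω) :=
      mem_normalizer_of_conj_mem fun x hx => hg x hx ▸ autFun_mem α hx
    exact ⟨⟨g, hn⟩, autFun_inj fun x hx => by rw [autFun_apply _ hx, hg x hx]; rfl⟩

theorem ker_conjAut (Q : Subgroup Ω) :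
    (conjAut Q).ker = (Subgroup.centralizer (Q : Set Ω)).subgroupOf (Subgroup.normalizer (Q : Set Ω)) := by
  ext g
  rw [MonoidHom.mem_ker, Subgroup.mem_subgroupOf, Subgroup.mem_centralizer_iff]
  constructor
  · intro h x hx
    have h1 := congrArg (fun α : MulAut Q => ((α ⟨x, hx⟩ : Q) : Ω)) h
    simp only [conjAut_apply, MulAut.one_apply] at h1
    exact (mul_inv_eq_iff_eq_mul.1 h1).symm
  · intro h
    refine MulEquiv.ext fun x => Subtype.ext ?_
    rw [conjAut_apply, ← h x x.2, mul_inv_cancel_right]; rfl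

/-- The stability condition at one element, read in the automizer. -/
def Good (p : ℕ) (Q : Subgroup Ω) (g : ↥(Subgroup.normalizer (Q : Set Ω))) : Prop :=
  conjAut Q g ∈ (pCore p ↥(conjAut Q).range).map (conjAut Q).range.subtype

theorem good_iff (Q : Subgroup Ω) (g : ↥(Subgroup.normalizer (Q : Set Ω)))
    (K : Subgroup ↥(Subgroup.normalizer (Q : Set Ω))) [K.Normal]
    (hK : K = (Subgroup.centralizer (Q : Set Ω)).subgroupOf (Subgroup.normalizer (Q : Set Ω))) :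
    (QuotientGroup.mk (s := K) g) ∈ pCore p (↥(Subgroup.normalizer (Q : Set Ω)) ⧸ K) ↔ Good p Q g := by
  obtain rfl : K = (conjAut Q).ker := hK.trans (ker_conjAut Q).symm
  set e := QuotientGroup.quotientKerEquivRange (conjAut Q)
  rw [Good, ← CfsgLib.Core.map_pCore_of_mulEquiv p e, Subgroup.map_map]
  constructor
  · intro h
    exact ⟨_, h, rfl⟩
  · rintro ⟨w, hw, he⟩
    have : w = QuotientGroup.mk g := e.injective (Subtype.ext he)
    exact this ▸ hw

theorem good_transport {Q : Subgroup Ω} {g : ↥(Subgroup.normalizer (Q : Set Ω))} (h : Ω)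
    (g' : ↥(Subgroup.normalizer (Q.map (MulAut.conj h).toMonoidHom : Set Ω)))
    (hg' : (g' : Ω) = h * g * h⁻¹) (hgood : Good p (Q.map (MulAut.conj h).toMonoidHom) g') : Good p Q g := by
  let e : Q ≃* (Q.map (MulAut.conj h).toMonoidHom) := Q.equivMapOfInjective _ (MulAut.conj h).injective
  have he : ∀ x : Q, ((e x : (Q.map (MulAut.conj h).toMonoidHom)) : Ω) = h * x * h⁻¹ := fun x => rfl
  have hcomm : ∀ (a : ↥(Subgroup.normalizer (Q : Set Ω))) (a' : ↥(Subgroup.normalizer ((Q.map (MulAut.conj h).toMonoidHom) : Set Ω))),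
      (a' : Ω) = h * a * h⁻¹ → (MulAut.congr e).symm (conjAut (Q.map (MulAut.conj h).toMonoidHom) a') = conjAut Q a := fun a a' ha => by
    refine MulEquiv.ext fun x => e.injective (Subtype.ext ?_)
    show ((e (e.symm (conjAut (Q.map (MulAut.conj h).toMonoidHom) a' (e x))) : (Q.map (MulAut.conj h).toMonoidHom)) : Ω) = _
    rw [e.apply_symm_apply, conjAut_apply, he, he, conjAut_apply, ha]
    group
  have hmap : (conjAut (Q.map (MulAut.conj h).toMonoidHom)).range.map (MulAut.congr e).symm.toMonoidHom = (conjAut Q).range := by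
    have hn := map_conj_normalizer Q h
    ext α
    constructor
    · rintro ⟨_, ⟨a', rfl⟩, rfl⟩
      obtain ⟨a, ha, hae⟩ := hn.ge a'.2
      exact ⟨⟨a, ha⟩, (hcomm ⟨a, ha⟩ a' hae.symm).symm⟩
    · rintro ⟨a, rfl⟩
      exact ⟨_, ⟨⟨h * a * h⁻¹, hn.le ⟨a, a.2, rfl⟩⟩, rfl⟩, hcomm a _ rfl⟩
  let f : ↥(conjAut (Q.map (MulAut.conj h).toMonoidHom)).range ≃* ↥(conjAut Q).range :=
    ((conjAut (Q.map (MulAut.conj h).toMonoidHom)).range.equivMapOfInjective _ (MulAut.congr e).symm.injective).trans (MulEquiv.subgroupCongr hmap)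
  obtain ⟨w, hw, hwe⟩ := hgood
  refine ⟨f w, CfsgLib.Core.map_pCore_le_of_surjective p f.toMonoidHom f.surjective ⟨w, hw, rfl⟩, ?_⟩
  show (MulAut.congr e).symm (w : MulAut (Q.map (MulAut.conj h).toMonoidHom)) = conjAut Q g
  rw [show (w : MulAut (Q.map (MulAut.conj h).toMonoidHom)) = conjAut (Q.map (MulAut.conj h).toMonoidHom) g' from hwe]
  exact hcomm g g' hg'

theorem main (P : Sylow p Ω) : Cfsg.IsNormalizerPStable p Ω ↔
    (∀ Q : Subgroup Ω, (groupFusionSystem (P : Subgroup Ω)).IsFullyNormalized Q → ∀ χ : MulAut ↥Q,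
      χ ∈ (groupFusionSystem (P : Subgroup Ω)).autGroup Q →
      (∀ a : ↥Q, (χ a⁻¹) * a * (χ a⁻¹) * (χ (χ a)) = 1) →
      χ ∈ ((pCore p ↥((groupFusionSystem (P : Subgroup Ω)).autGroup Q)).map
        ((groupFusionSystem (P : Subgroup Ω)).autGroup Q).subtype : Subgroup (MulAut ↥Q))) := by
  have hinst : ∀ Q : Subgroup Ω,
      ((Subgroup.centralizer (Q : Set Ω)).subgroupOf (Subgroup.normalizer (Q : Set Ω))).Normal := fun Q =>
    ker_conjAut Q ▸ MonoidHom.normal_ker _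
  constructor
  · intro hst Q hQ χ hχ hq
    rw [← range_conjAut hQ.1] at hχ ⊢
    obtain ⟨g, rfl⟩ := hχ
    haveI := hinst Q
    exact (good_iff Q g _ rfl).1
      (hst Q (P.2.to_le hQ.1) g g.2 ((quad_iff Q g).2 ((quad_conjAut Q g).1 hq)))
  · intro hF Q hQ g hg hq
    haveI := hinst Q
    refine (good_iff Q ⟨g, hg⟩ _ rfl).2 ?_
    obtain ⟨R, hR⟩ := hQ.exists_le_sylow
    obtain ⟨c, hc⟩ := MulAction.exists_smul_eq Ω R P
    have hQP : Q.map (MulAut.conj c).toMonoidHom ≤ (P : Subgroup Ω) := by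
      rintro _ ⟨x, hx, rfl⟩
      rw [← hc, Sylow.coe_subgroup_smul]
      exact Subgroup.smul_mem_pointwise_smul x (MulAut.conj c) _ (hR hx)
    obtain ⟨Q₂, k, hfn, hk, hkQ⟩ :=
      exists_fullyNormalized_map P.2 (groupFusion_saturated P) hQP
    obtain ⟨-, -, d, hd⟩ := groupFusion_map_iff.1 hk
    have hQ₂ : Q₂ = Q.map (MulAut.conj (d * c)).toMonoidHom := by
      rw [← hkQ]
      ext y
      rw [(hk.restrict (le_normalizerIn hQP)).mem_img]
      constructor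
      · rintro ⟨x, hx, rfl⟩
        rw [hd x (le_normalizerIn hQP hx)]
        obtain ⟨a, ha, rfl⟩ := hx
        exact ⟨a, ha, by simp [mul_assoc]⟩
      · rintro ⟨a, ha, rfl⟩
        refine ⟨_, ⟨a, ha, rfl⟩, ?_⟩
        rw [hd _ (le_normalizerIn hQP ⟨a, ha, rfl⟩)]
        simp [mul_assoc]
    subst hQ₂
    set b := d * c
    have hgn : b * g * b⁻¹ ∈ Subgroup.normalizer (Q.map (MulAut.conj b).toMonoidHom : Set Ω) :=
      (map_conj_normalizer Q b).le ⟨g, hg, rfl⟩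
    refine good_transport b ⟨_, hgn⟩ rfl ?_
    have h2 := hF _ hfn (conjAut _ ⟨_, hgn⟩) (range_conjAut hfn.1 ▸ ⟨_, rfl⟩) ((quad_conjAut _ _).2 (by
      rintro _ ⟨a, ha, rfl⟩
      have := (((quad_iff Q g).1 hq) a ha).map (MulAut.conj b).toMonoidHom
      convert this using 1 <;> simp <;> group))
    rw [← range_conjAut hfn.1] at h2
    exact h2

end CfsgLib.TwoFusion.PStable
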