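import Cfsg.Agent.Lib.TwoFusionPStableNormalizer
import Cfsg.Agent.Lib.FusionSubmodel
import Cfsg.Agent.Lib.FusionRelative
import Cfsg.Agent.Lib.FusionSimple

/-!
# `p`-stability and radical centric subgroups
-/

set_option autoImplicit false

universe u

namespace CfsgLib.TwoFusion.PStableNormalizer

open CfsgLib.Fusion Cfsg Cfsg.FusionSystem

variable {Ω : Type u} [Group Ω] {S : Subgroup Ω} [Finite S] {F : FusionSystem S} {p : ℕ} [Fact p.Prime]

/-- The conclusion of stability at one subgroup. -/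
def StableAt (p : ℕ) (F : FusionSystem S) (Q : Subgroup Ω) : Prop :=
  ∀ χ : MulAut ↥Q, χ ∈ F.autGroup Q →
    (∀ a : ↥Q, (χ a⁻¹) * a * (χ a⁻¹) * (χ (χ a)) = 1) →
    χ ∈ ((Cfsg.pCore p ↥(F.autGroup Q)).map (F.autGroup Q).subtype : Subgroup (MulAut ↥Q))

theorem stableAt_of_map {Q Q' : Subgroup Ω} {k : Ω → Ω} (hk' : Map F Q k) (himg : img k Q = Q')
    (h : StableAt p F Q') : StableAt p F Q := by
  intro χ hχ hq
  obtain ⟨e, he⟩ := hk'.exists_equiv himg
  obtain ⟨g, hg, hgk, hkg, himg'⟩ := hk'.exists_inv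
  rw [himg] at hg himg'
  have he' : ∀ y : Q', ((e.symm y : Q) : Ω) = g y := fun y => by
    conv_rhs => rw [← e.apply_symm_apply y, he]
    exact (hgk _ (e.symm y).2).symm
  have hmap : (F.autGroup Q).map (MulAut.congr e).toMonoidHom = F.autGroup Q' := by
    refine le_antisymm ?_ fun β hβ => ⟨MulAut.congr e.symm β, congr_mem_autGroup hg himg' he' hβ, ?_⟩
    · rintro _ ⟨α, hα, rfl⟩
      exact congr_mem_autGroup hk' himg he hα
    · ext y
      simp [MulAut.congr]
  let f : ↥(F.autGroup Q) ≃* ↥(F.autGroup Q') :=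
    ((F.autGroup Q).equivMapOfInjective _ (MulAut.congr e).injective).trans (MulEquiv.subgroupCongr hmap)
  have hq' : ∀ a : ↥Q', (MulAut.congr e χ a⁻¹) * a * (MulAut.congr e χ a⁻¹) * (MulAut.congr e χ (MulAut.congr e χ a)) = 1 := by
    intro a
    obtain ⟨b, rfl⟩ := e.surjective a
    have hc : ∀ c : Q, MulAut.congr e χ (e c) = e (χ c) := fun c => by simp [MulAut.congr]
    rw [← map_inv, hc, hc, hc, ← map_mul, ← map_mul, ← map_mul, hq b, map_one]
  obtain ⟨w, hw, hwe⟩ := h _ (congr_mem_autGroup hk' himg he hχ) hq'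
  refine ⟨⟨χ, hχ⟩, ?_, rfl⟩
  rw [← CfsgLib.Core.map_pCore_of_mulEquiv p f] at hw
  obtain ⟨v, hv, rfl⟩ := hw
  have : v = ⟨χ, hχ⟩ := Subtype.ext ((MulAut.congr e).injective hwe)
  exact this ▸ hv

/-- All automorphisms of `Q` extend to the centric subgroup `R`. -/
def Covers (F : FusionSystem S) (Q R : Subgroup Ω) : Prop :=
  Q ≤ R ∧ F.IsCentric R ∧ ∀ α ∈ F.autGroup Q, ∃ β ∈ F.autGroup R, ∀ x ∈ Q, autFun β x = autFun α x

theorem covers_initial (hS : IsPGroup p S) (hF : F.IsSaturated p) {Q : Subgroup Ω}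
    (hQ : F.IsFullyNormalized Q) : Covers F Q (Q ⊔ centralizerIn S Q) := by
  have hle : Q ⊔ centralizerIn S Q ≤ S := sup_le hQ.1 (centralizerIn_le S Q)
  haveI := finite_of_le hle
  have hfc := isFullyCentralized_of_fullyNormalized hS hF hQ
  refine ⟨le_sup_left, ⟨hle, fun R' hR' => ?_⟩, fun α hα => ?_⟩
  · obtain ⟨f, hf, rfl⟩ := isConj_iff.1 hR'
    have hfQ : Map F Q f := hf.restrict le_sup_left
    have hC : img f (centralizerIn S Q) = centralizerIn S (img f Q) := by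
      haveI := finite_of_le (centralizerIn_le S Q)
      refine eq_of_le_of_card_le (centralizerIn_le S _) (img_le_iff.mpr fun c hc => ?_)
        ((hfc.2 _ (isConj_iff.mpr ⟨f, hfQ, rfl⟩)).trans (hf.restrict le_sup_right).card_img.ge)
      refine ⟨hf.apply_mem (Subgroup.mem_sup_right hc), fun y hy => ?_⟩
      obtain ⟨z, hz, rfl⟩ := hfQ.mem_img.1 hy
      rw [← hf.map_mul (Subgroup.mem_sup_left hz) (Subgroup.mem_sup_right hc), hc.2 z hz,
        hf.map_mul (Subgroup.mem_sup_right hc) (Subgroup.mem_sup_left hz)]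
    intro c hc
    have hc' : c ∈ centralizerIn S (img f Q) := ⟨hc.1, fun y hy => hc.2 y (img_mono f le_sup_left hy)⟩
    rw [← hC] at hc'
    exact img_mono f le_sup_right hc'
  · have hm := (mem_autGroup_iff hQ.1).1 hα
    obtain ⟨k, hk, hkf⟩ := receptive_extend (isReceptive_of_fullyNormalized hS hF hQ) hm (img_autFun α)
      (R := Q ⊔ centralizerIn S Q) le_sup_left
      (inExtender_sup (fun g hg => inExtender_of_mem hm hg) (fun g hg => inExtender_of_centralizerIn _ hg)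
        (by obtain ⟨φ, -, he⟩ := hm; exact ⟨φ, he⟩))
    have hkQ : img k Q = Q := (img_congr hkf).trans (img_autFun α)
    have hkC : ∀ c ∈ centralizerIn S Q, k c ∈ centralizerIn S Q := fun c hc =>
      ⟨hk.apply_mem (Subgroup.mem_sup_right hc), fun y hy => by
        obtain ⟨z, hz, rfl⟩ := (hk.restrict le_sup_left).mem_img.1 (hkQ.ge hy)
        rw [← hk.map_mul (Subgroup.mem_sup_left hz) (Subgroup.mem_sup_right hc), hc.2 z hz,
          hk.map_mul (Subgroup.mem_sup_right hc) (Subgroup.mem_sup_left hz)]⟩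
    have himg : img k (Q ⊔ centralizerIn S Q) = Q ⊔ centralizerIn S Q :=
      eq_of_le_of_card_le hle (img_le_iff.mpr (hk.apply_mem_sup le_sup_left le_sup_right
        (fun x hx => hkQ.le (mem_img_of_mem k hx)) hkC)) hk.card_img.ge
    obtain ⟨β, hβ, hβk⟩ := hk.exists_aut himg
    exact ⟨β, hβ, fun x hx => (hβk x (Subgroup.mem_sup_left hx)).trans (hkf x hx)⟩

theorem covers_map {Q R : Subgroup Ω} (h : Covers F Q R) {k : Ω → Ω}
    (hk : Map F R k) : Covers F (img k Q) (img k R) := by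
  obtain ⟨hQR, hc, hext⟩ := h
  obtain ⟨g, hg, hgk, hkg, hgimg⟩ := hk.exists_inv
  have hQS : Q ≤ S := hQR.trans hc.1
  refine ⟨img_mono k hQR, isCentric_of_isConj hc (isConj_iff.mpr ⟨k, hk, rfl⟩), fun α hα => ?_⟩
  have hkQ := hk.restrict hQR
  have hQ'S : img k Q ≤ S := img_le_iff.mpr fun x hx => hkQ.apply_mem hx
  have hmem : ∀ x ∈ img k Q, g x ∈ Q := fun x hx => by
    obtain ⟨z, hz, rfl⟩ := hkQ.mem_img.1 hx
    rw [hgk z (hQR hz)]; exact hz
  have hα' : Map F Q fun x => g (autFun α (k x)) :=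
    (hkQ.comp ((mem_autGroup_iff hQ'S).1 hα) fun x hx => mem_img_of_mem k hx).comp hg fun x hx =>
      img_mono k hQR (autFun_mem α (mem_img_of_mem k hx))
  haveI := finite_of_le hQS
  obtain ⟨α', hα'm, hα'e⟩ := hα'.exists_aut (eq_of_le_of_card_le hQS
    (img_le_iff.mpr fun x hx => hmem _ (autFun_mem α (mem_img_of_mem k hx))) hα'.card_img.ge)
  obtain ⟨β, hβ, hβe⟩ := hext α' hα'm
  have hmemR : ∀ x ∈ img k R, g x ∈ R := fun x hx => hgimg.le (mem_img_of_mem g hx)
  have hβ' : Map F (img k R) fun x => k (autFun β (g x)) :=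
    (hg.comp ((mem_autGroup_iff hc.1).1 hβ) hmemR).comp hk fun x hx => autFun_mem β (hmemR x hx)
  have hR'S : img k R ≤ S := img_le_iff.mpr fun x hx => hk.apply_mem hx
  haveI := finite_of_le hR'S
  obtain ⟨γ, hγ, hγe⟩ := hβ'.exists_aut (eq_of_le_of_card_le hR'S
    (img_le_iff.mpr fun x hx => mem_img_of_mem k (autFun_mem β (hmemR x hx))) hβ'.card_img.ge)
  refine ⟨γ, hγ, fun x hx => ?_⟩
  rw [hγe x (img_mono k hQR hx)]
  obtain ⟨z, hz, rfl⟩ := hkQ.mem_img.1 hx
  show k (autFun β (g (k z))) = _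
  rw [hgk z (hQR hz), hβe z hz, hα'e z hz]
  exact (hkg _ (img_mono k hQR (autFun_mem α (mem_img_of_mem k hz)))).2

/-- Enlarging a covering subgroup along the core of its automizer. -/
theorem covers_grow (hS : IsPGroup p S) (hF : F.IsSaturated p) {Q R : Subgroup Ω} (h : Covers F Q R)
    (hR : F.IsFullyNormalized R) :
    ∃ R', R ≤ R' ∧ Covers F Q R' ∧ (R' = R → F.IsRadical p R) := by
  obtain ⟨hQR, hc, hext⟩ := h
  have hRS := hc.1
  haveI := finite_of_le hRS
  haveI := finite_autGroup F hRS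
  set A := F.autGroup R
  set O : Subgroup (MulAut R) := (pCore p A).map A.subtype
  haveI := CfsgLib.Core.normal_pCore p (G := A)
  have hInnO : Inn R ≤ O := by
    intro γ hγ
    have hp : IsPGroup p ((Inn R).subgroupOf A) :=
      (((hS.to_le hRS).of_surjective (MulAut.conj : R →* MulAut R).rangeRestrict
        (MonoidHom.rangeRestrict_surjective _))).of_equiv
        (Subgroup.subgroupOfEquivOfLe (inn_le_autGroup hRS)).symm
    exact ⟨⟨γ, inn_le_autGroup hRS hγ⟩, CfsgLib.Core.le_pCore (inn_subgroupOf_normal F R) hp hγ, rfl⟩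
  have hOS : O ≤ autInducedBy S R := by
    rintro _ ⟨γ, hγ, rfl⟩
    have hfa := ((isFullyAutomized_iff hS).mp (isFullyAutomized_of_fullyNormalized hS hF hR))
    have hle := hfa.1
    obtain ⟨T, hT⟩ := (((isPGroup_autInducedBy (P := R) hS).comap_of_injective A.subtype Subtype.val_injective :
      IsPGroup p ((autInducedBy S R).subgroupOf A))).exists_le_sylow
    have hTeq : (T : Subgroup A) = (autInducedBy S R).subgroupOf A := by
      obtain ⟨n, hn⟩ := IsPGroup.iff_card.mp (T.2)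
      have h2 : ¬ p ∣ ((autInducedBy S R).subgroupOf A).index := hfa.2
      have h3 := Subgroup.relIndex_mul_index hT
      obtain ⟨i, -, hi⟩ := (Nat.dvd_prime_pow (Fact.out : p.Prime)).mp
        (hn ▸ Subgroup.relIndex_dvd_card ((autInducedBy S R).subgroupOf A) T)
      cases i with
      | zero =>
        rw [pow_zero, Subgroup.relIndex_eq_one] at hi
        exact le_antisymm hi hT
      | succ i => exact absurd (((dvd_pow_self p i.succ_ne_zero).trans hi.symm.dvd).trans (Dvd.intro _ h3)) h2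
    have := CfsgLib.Core.pCore_le_sylow T hγ
    rw [hTeq] at this
    exact this
  let R' : Subgroup Ω := (O.comap (normalizerInToAut S R)).map (normalizerIn S R).subtype
  have hR'mem : ∀ n, n ∈ R' ↔ ∃ hn : n ∈ normalizerIn S R, normalizerInToAut S R ⟨n, hn⟩ ∈ O := by
    intro n
    constructor
    · rintro ⟨⟨m, hm⟩, h1, rfl⟩; exact ⟨hm, h1⟩
    · rintro ⟨hn, h1⟩; exact ⟨⟨n, hn⟩, h1, rfl⟩
  have hRR' : R ≤ R' := fun r hr => (hR'mem r).2 ⟨⟨hRS hr, Subgroup.le_normalizer hr⟩, hInnO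
    (mem_inn_iff.mpr ⟨r, hr, fun x hx => autFun_normalizerInToAut (⟨r, hRS hr, Subgroup.le_normalizer hr⟩ : normalizerIn S R) hx⟩)⟩
  have hR'S : R' ≤ S := fun n hn => ((hR'mem n).1 hn).1.1
  haveI := finite_of_le hR'S
  refine ⟨R', hRR', ⟨hQR.trans hRR', isCentric_mono hc hRR' hR'S, fun α hα => ?_⟩, fun heq => ⟨hRS, le_antisymm ?_ hInnO⟩⟩
  · obtain ⟨β, hβ, hβe⟩ := hext α hα
    have hOconj : ∀ γ ∈ O, β * γ * β⁻¹ ∈ O := by
      rintro _ ⟨γ, hγ, rfl⟩
      exact ⟨⟨β, hβ⟩ * γ * (⟨β, hβ⟩ : A)⁻¹, (CfsgLib.Core.normal_pCore p).conj_mem γ hγ _, rfl⟩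
    have hm := (mem_autGroup_iff hRS).1 hβ
    have key : ∀ n ∈ R', ∃ h ∈ S, h ∈ Subgroup.normalizer (R : Set Ω) ∧
        (∀ x ∈ R, autFun β (n * x * n⁻¹) = h * autFun β x * h⁻¹) ∧
        ∀ γ : MulAut R, (∀ x ∈ R, autFun γ x = h * x * h⁻¹) → γ ∈ O := by
      intro n hn
      obtain ⟨hnN, hnO⟩ := (hR'mem n).1 hn
      have h1 := hOconj _ hnO
      obtain ⟨h, hh, hhn, he⟩ := mem_autInducedBy_iff.mp (hOS h1)
      refine ⟨h, hh, hhn, fun x hx => ?_, fun γ hγ => ?_⟩
      · rw [← he _ (autFun_mem β hx), autFun_mul _ _ (autFun_mem β hx), autFun_mul _ _ (autFun_mem _ (autFun_mem β hx)),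
          autFun_inv_apply β hx, autFun_normalizerInToAut ⟨n, hnN⟩ hx]
      · rwa [show γ = β * normalizerInToAut S R ⟨n, hnN⟩ * β⁻¹ from autFun_inj fun x hx => (hγ x hx).trans (he x hx).symm]
    obtain ⟨k, hk, hkf⟩ := receptive_extend (isReceptive_of_fullyNormalized hS hF hR) hm (img_autFun β) hRR'
      (fun n hn => ⟨hR'S hn, ((hR'mem n).1 hn).1.2, by
        obtain ⟨h, hh, -, he, -⟩ := key n hn; exact ⟨h, hh, he⟩⟩)
    have hkR' : ∀ n ∈ R', k n ∈ R' := by
      intro n hn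
      obtain ⟨hnN, -⟩ := (hR'mem n).1 hn
      have hkn : k n ∈ normalizerIn S R := by
        have := hk.apply_mem_normalizerIn hRR' hn hnN.2
        rwa [(img_congr hkf).trans (img_autFun β)] at this
      obtain ⟨h, -, -, he, hO⟩ := key n hn
      refine (hR'mem _).2 ⟨hkn, hO _ fun x hx => ?_⟩
      rw [autFun_normalizerInToAut ⟨k n, hkn⟩ hx]
      have hy : autFun β⁻¹ x ∈ R := autFun_mem _ hx
      have h1 := he _ hy
      rw [autFun_apply_inv β hx, ← hkf _ (conj_mem_of_mem_normalizer hnN.2 hy),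
        hk.map_conj hn (hRR' hy), hkf _ hy, autFun_apply_inv β hx] at h1
      exact h1
    obtain ⟨γ, hγ, hγe⟩ := hk.exists_aut (eq_of_le_of_card_le hR'S (img_le_iff.mpr hkR') hk.card_img.ge)
    exact ⟨γ, hγ, fun x hx => by rw [hγe x (hRR' (hQR hx)), hkf x (hQR hx), hβe x hx]⟩
  · intro γ hγ
    obtain ⟨n, hn, hnn, he⟩ := mem_autInducedBy_iff.mp (hOS hγ)
    have hnR' : n ∈ R' := (hR'mem n).2 ⟨⟨hn, hnn⟩, by
      rwa [show normalizerInToAut S R ⟨n, hn, hnn⟩ = γ from autFun_inj fun x hx =>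
        (autFun_normalizerInToAut (⟨n, hn, hnn⟩ : normalizerIn S R) hx).trans (he x hx).symm]⟩
    rw [heq] at hnR'
    exact mem_inn_iff.mpr ⟨n, hnR', he⟩

/-- Stability of the normalizer systems of centric radical subgroups gives stability. -/
theorem bwd_radical (hS : IsPGroup p S) (hF : F.IsSaturated p)
    (h : ∀ R : Subgroup Ω, F.IsFullyNormalized R → F.IsCentric R → F.IsRadical p R →
      ∀ N : FusionSystem (normalizerIn S R), F.IsNormalizerSystem R N → Stable p N) : Stable p F := by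
  intro Q hQ
  show StableAt p F Q
  let Pairs : Set (Subgroup Ω × Subgroup Ω) := {x | F.IsConj Q x.1 ∧ Covers F x.1 x.2}
  have hfin : Pairs.Finite := Set.Finite.subset (finite_subgroups_le.prod finite_subgroups_le)
    fun x hx => ⟨isConj_le_right hx.1, hx.2.2.1.1⟩
  obtain ⟨⟨Q₁, R₁⟩, ⟨hc₁, hcov₁⟩, hmax⟩ := Set.exists_max_image Pairs (fun x => Nat.card x.2) hfin
    ⟨(Q, Q ⊔ centralizerIn S Q), isConj_refl F hQ.1, covers_initial hS hF hQ⟩
  obtain ⟨R, k, hRfn, hk, himg⟩ := exists_fullyNormalized_map hS hF hcov₁.2.1.1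
  have hk₁ := hk.restrict (le_normalizerIn hcov₁.2.1.1)
  have hcov : Covers F (img k Q₁) R := himg ▸ covers_map hcov₁ hk₁
  have hc : F.IsConj Q (img k Q₁) := isConj_trans hc₁ (isConj_iff.mpr ⟨k, hk₁.restrict hcov₁.1, rfl⟩)
  set Q₂ := img k Q₁
  obtain ⟨R', hRR', hcov', hrad⟩ := covers_grow hS hF hcov hRfn
  have hrad' : F.IsRadical p R := hrad (by
    haveI := finite_of_le hcov'.2.1.1
    refine (eq_of_le_of_card_le hcov'.2.1.1 hRR' ?_).symm
    rw [← himg, hk₁.card_img]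
    exact hmax (Q₂, R') ⟨hc, hcov'⟩)
  obtain ⟨N, hN⟩ := exists_normalizerSystem F hRfn.1
  have hNs := normalizerSystem_saturated hS hF hRfn hN
  have hQ₂R : Q₂ ≤ R := hcov.1
  have hQ₂N : Q₂ ≤ normalizerIn S R := hQ₂R.trans (le_normalizerIn hRfn.1)
  haveI := finite_of_le (normalizerIn_le S R)
  have hQ₂S := hQ₂R.trans hRfn.1
  have heq : N.autGroup Q₂ = F.autGroup Q₂ := by
    ext α
    rw [mem_autGroup_iff hQ₂N, mem_autGroup_iff hQ₂S, map_of_isNormalizerSystem hN]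
    refine ⟨And.left, fun hf => ?_⟩
    obtain ⟨β, hβ, hβe⟩ := hcov.2.2 α ((mem_autGroup_iff hQ₂S).2 hf)
    exact ⟨hf, hQ₂N, fun x hx => hQ₂N (autFun_mem α hx), autFun β,
      by rw [sup_eq_right.2 hQ₂R]; exact (mem_autGroup_iff hRfn.1).1 hβ, hβe, img_autFun β⟩
  obtain ⟨f, hf, hfimg⟩ := isConj_iff.1 hc
  refine stableAt_of_map hf hfimg fun χ hχ hq => ?_
  have := stable_all (hS.to_le (normalizerIn_le S R)) hNs (h R hRfn hcov.2.1 hrad' N hN) hQ₂N (heq.ge hχ) hq
  rwa [heq] at this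

end CfsgLib.TwoFusion.PStableNormalizer
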