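import Cfsg.Agent.Lib.FusionSat
import Cfsg.Prelude.Def_FusionComponents

/-!
# Direct products of saturated fusion systems are saturated
-/

set_option autoImplicit false

namespace CfsgLib.TwoFusion.ProductSaturated

open CfsgLib.Fusion Cfsg Cfsg.FusionSystem

variable {Ω₁ Ω₂ : Type*} [Group Ω₁] [Group Ω₂] {S₁ : Subgroup Ω₁} {S₂ : Subgroup Ω₂}
  {F₁ : FusionSystem S₁} {F₂ : FusionSystem S₂} {E : FusionSystem (S₁.prod S₂)}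

/-- The first projection. -/
abbrev p₁ (P : Subgroup (Ω₁ × Ω₂)) : Subgroup Ω₁ := P.map (MonoidHom.fst Ω₁ Ω₂)

/-- The second projection. -/
abbrev p₂ (P : Subgroup (Ω₁ × Ω₂)) : Subgroup Ω₂ := P.map (MonoidHom.snd Ω₁ Ω₂)

theorem proj_le {P : Subgroup (Ω₁ × Ω₂)} (hP : P ≤ S₁.prod S₂) : p₁ P ≤ S₁ ∧ p₂ P ≤ S₂ :=
  ⟨by rintro _ ⟨x, hx, rfl⟩; exact (hP hx).1, by rintro _ ⟨x, hx, rfl⟩; exact (hP hx).2⟩

theorem map_iff (hE : IsProductSystem F₁ F₂ E) {P : Subgroup (Ω₁ × Ω₂)} {f : Ω₁ × Ω₂ → Ω₁ × Ω₂} :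
    Map E P f ↔ P ≤ S₁.prod S₂ ∧ ∃ f₁ f₂, Map F₁ (p₁ P) f₁ ∧ Map F₂ (p₂ P) f₂ ∧
      ∀ x ∈ P, f x = (f₁ x.1, f₂ x.2) := by
  constructor
  · rintro ⟨φ, hφ, he⟩
    obtain ⟨hP, φ₁, h₁, φ₂, h₂, hx⟩ := (hE P φ).1 hφ
    refine ⟨hP, ext φ₁, ext φ₂, map_ext h₁, map_ext h₂, fun x hx' => ?_⟩
    have h1 : x.1 ∈ p₁ P := ⟨x, hx', rfl⟩
    have h2 : x.2 ∈ p₂ P := ⟨x, hx', rfl⟩
    rw [← he ⟨x, hx'⟩, hx ⟨x, hx'⟩ h1 h2, ext_apply φ₁ h1, ext_apply φ₂ h2]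
  · rintro ⟨hP, f₁, f₂, ⟨φ₁, h₁, e₁⟩, ⟨φ₂, h₂, e₂⟩, hf⟩
    let φ : P →* Ω₁ × Ω₂ :=
      { toFun := fun x => (φ₁ ⟨(x : Ω₁ × Ω₂).1, ⟨x, x.2, rfl⟩⟩, φ₂ ⟨(x : Ω₁ × Ω₂).2, ⟨x, x.2, rfl⟩⟩)
        map_one' := Prod.ext (_root_.map_one φ₁) (_root_.map_one φ₂)
        map_mul' := fun a b => Prod.ext
          (φ₁.map_mul ⟨(a : Ω₁ × Ω₂).1, ⟨a, a.2, rfl⟩⟩ ⟨(b : Ω₁ × Ω₂).1, ⟨b, b.2, rfl⟩⟩)
          (φ₂.map_mul ⟨(a : Ω₁ × Ω₂).2, ⟨a, a.2, rfl⟩⟩ ⟨(b : Ω₁ × Ω₂).2, ⟨b, b.2, rfl⟩⟩) }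
    refine ⟨φ, (hE P φ).2 ⟨hP, φ₁, h₁, φ₂, h₂, fun x _ _ => rfl⟩, fun x => ?_⟩
    rw [hf x x.2]
    exact Prod.ext (e₁ _) (e₂ _)

theorem proj_img {P : Subgroup (Ω₁ × Ω₂)} {f : Ω₁ × Ω₂ → Ω₁ × Ω₂} (hf : Map E P f) {f₁ : Ω₁ → Ω₁}
    {f₂ : Ω₂ → Ω₂} (h₁ : Map F₁ (p₁ P) f₁) (h₂ : Map F₂ (p₂ P) f₂) (he : ∀ x ∈ P, f x = (f₁ x.1, f₂ x.2)) :
    p₁ (img f P) = img f₁ (p₁ P) ∧ p₂ (img f P) = img f₂ (p₂ P) := by
  constructor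
  all_goals ext y
  · constructor
    · rintro ⟨w, hw, rfl⟩
      obtain ⟨x, hx, rfl⟩ := hf.mem_img.1 hw
      rw [he x hx]
      exact mem_img_of_mem f₁ ⟨x, hx, rfl⟩
    · intro hy
      obtain ⟨_, ⟨x, hx, rfl⟩, rfl⟩ := h₁.mem_img.1 hy
      exact ⟨f x, mem_img_of_mem f hx, by rw [he x hx]; rfl⟩
  · constructor
    · rintro ⟨w, hw, rfl⟩
      obtain ⟨x, hx, rfl⟩ := hf.mem_img.1 hw
      rw [he x hx]
      exact mem_img_of_mem f₂ ⟨x, hx, rfl⟩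
    · intro hy
      obtain ⟨_, ⟨x, hx, rfl⟩, rfl⟩ := h₂.mem_img.1 hy
      exact ⟨f x, mem_img_of_mem f hx, by rw [he x hx]; rfl⟩

theorem receptive (hE : IsProductSystem F₁ F₂ E) {Q : Subgroup (Ω₁ × Ω₂)} (hQ : Q ≤ S₁.prod S₂)
    (h₁ : F₁.IsReceptive (p₁ Q)) (h₂ : F₂.IsReceptive (p₂ Q)) : E.IsReceptive Q := by
  refine isReceptive_iff.2 ⟨hQ, fun P f hf hi R hPR hR => ?_⟩
  obtain ⟨hP, f₁, f₂, hf₁, hf₂, he⟩ := (map_iff hE).1 hf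
  obtain ⟨hi₁, hi₂⟩ := proj_img hf hf₁ hf₂ he
  rw [hi] at hi₁ hi₂
  have key : ∀ g ∈ R, InExtender S₁ (p₁ P) f₁ g.1 ∧ InExtender S₂ (p₂ P) f₂ g.2 := by
    intro g hg
    obtain ⟨hgS, hgN, h, hhS, hh⟩ := hR g hg
    refine ⟨⟨hgS.1, ?_, h.1, hhS.1, ?_⟩, ⟨hgS.2, ?_, h.2, hhS.2, ?_⟩⟩
    · refine Subgroup.mem_normalizer_iff.2 fun a => ⟨?_, ?_⟩
      · rintro ⟨x, hx, rfl⟩
        exact ⟨g * x * g⁻¹, (Subgroup.mem_normalizer_iff.1 hgN x).1 hx, rfl⟩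
      · rintro ⟨x, hx, hxe⟩
        refine ⟨g⁻¹ * x * g, conj_inv_mem_of_mem_normalizer hgN hx, ?_⟩
        show g.1⁻¹ * x.1 * g.1 = a
        rw [show x.1 = g.1 * a * g.1⁻¹ from hxe]; group
    · rintro _ ⟨x, hx, rfl⟩
      have h' := hh x hx
      rw [he x hx, he _ (conj_mem_of_mem_normalizer hgN hx)] at h'
      exact congrArg Prod.fst h'
    · refine Subgroup.mem_normalizer_iff.2 fun a => ⟨?_, ?_⟩
      · rintro ⟨x, hx, rfl⟩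
        exact ⟨g * x * g⁻¹, (Subgroup.mem_normalizer_iff.1 hgN x).1 hx, rfl⟩
      · rintro ⟨x, hx, hxe⟩
        refine ⟨g⁻¹ * x * g, conj_inv_mem_of_mem_normalizer hgN hx, ?_⟩
        show g.2⁻¹ * x.2 * g.2 = a
        rw [show x.2 = g.2 * a * g.2⁻¹ from hxe]; group
    · rintro _ ⟨x, hx, rfl⟩
      have h' := hh x hx
      rw [he x hx, he _ (conj_mem_of_mem_normalizer hgN hx)] at h'
      exact congrArg Prod.snd h'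
  obtain ⟨k₁, hk₁, hke₁⟩ := receptive_extend h₁ hf₁ hi₁.symm (R := p₁ R) (Subgroup.map_mono hPR)
    (by rintro _ ⟨g, hg, rfl⟩; exact (key g hg).1)
  obtain ⟨k₂, hk₂, hke₂⟩ := receptive_extend h₂ hf₂ hi₂.symm (R := p₂ R) (Subgroup.map_mono hPR)
    (by rintro _ ⟨g, hg, rfl⟩; exact (key g hg).2)
  refine ⟨fun x => (k₁ x.1, k₂ x.2), (map_iff hE).2 ⟨fun g hg => (hR g hg).1, k₁, k₂, hk₁, hk₂, fun _ _ => rfl⟩,
    fun x hx => ?_⟩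
  rw [he x hx]
  exact Prod.ext (hke₁ _ ⟨x, hx, rfl⟩) (hke₂ _ ⟨x, hx, rfl⟩)

section Act

variable {Q₁ : Subgroup Ω₁} {Q₂ : Subgroup Ω₂}

/-- A pair of automorphisms as a function on the product. -/
noncomputable def act (γ : F₁.autGroup Q₁ × F₂.autGroup Q₂) (x : Ω₁ × Ω₂) : Ω₁ × Ω₂ :=
  (autFun (γ.1 : MulAut Q₁) x.1, autFun (γ.2 : MulAut Q₂) x.2)

theorem act_mem (γ : F₁.autGroup Q₁ × F₂.autGroup Q₂) {x : Ω₁ × Ω₂} (hx : x ∈ Q₁.prod Q₂) :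
    act γ x ∈ Q₁.prod Q₂ := ⟨autFun_mem _ hx.1, autFun_mem _ hx.2⟩

theorem act_mul (γ δ : F₁.autGroup Q₁ × F₂.autGroup Q₂) {x : Ω₁ × Ω₂} (hx : x ∈ Q₁.prod Q₂) :
    act (γ * δ) x = act γ (act δ x) := Prod.ext (autFun_mul _ _ hx.1) (autFun_mul _ _ hx.2)

theorem act_one {x : Ω₁ × Ω₂} (hx : x ∈ Q₁.prod Q₂) :
    act (1 : F₁.autGroup Q₁ × F₂.autGroup Q₂) x = x := Prod.ext (autFun_one hx.1) (autFun_one hx.2)

theorem map_act (hE : IsProductSystem F₁ F₂ E) (h₁ : Q₁ ≤ S₁) (h₂ : Q₂ ≤ S₂)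
    (γ : F₁.autGroup Q₁ × F₂.autGroup Q₂) {P : Subgroup (Ω₁ × Ω₂)} (hP : P ≤ Q₁.prod Q₂) :
    Map E P (act γ) :=
  (map_iff hE).2 ⟨fun x hx => ⟨h₁ (hP hx).1, h₂ (hP hx).2⟩, _, _,
    ((mem_autGroup_iff h₁).1 γ.1.2).restrict (by rintro _ ⟨x, hx, rfl⟩; exact (hP hx).1),
    ((mem_autGroup_iff h₂).1 γ.2.2).restrict (by rintro _ ⟨x, hx, rfl⟩; exact (hP hx).2), fun _ _ => rfl⟩

/-- The stabilizer of a subgroup of the product. -/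
noncomputable def stab (F₁ : FusionSystem S₁) (F₂ : FusionSystem S₂) (P : Subgroup (Ω₁ × Ω₂))
    (hP : P ≤ Q₁.prod Q₂) [Finite (F₁.autGroup Q₁ × F₂.autGroup Q₂)] :
    Subgroup (F₁.autGroup Q₁ × F₂.autGroup Q₂) where
  carrier := {γ | ∀ x ∈ P, act γ x ∈ P}
  one_mem' x hx := by rw [act_one (hP hx)]; exact hx
  mul_mem' {γ δ} hγ hδ x hx := by rw [act_mul γ δ (hP hx)]; exact hγ _ (hδ x hx)
  inv_mem' {γ} hγ := by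
    have hpow : ∀ n : ℕ, ∀ x ∈ P, act (γ ^ n) x ∈ P := by
      intro n
      induction n with
      | zero => intro x hx; rw [pow_zero, act_one (hP hx)]; exact hx
      | succ n ih => intro x hx; rw [pow_succ, act_mul _ _ (hP hx)]; exact ih _ (hγ x hx)
    intro x hx
    obtain ⟨n, hn⟩ := (mem_powers_iff_mem_zpowers (x := γ)).2 (Subgroup.inv_mem _ (Subgroup.mem_zpowers γ))
    rw [← hn]; exact hpow n x hx

end Act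

theorem saturated {p : ℕ} [Fact p.Prime] [Finite S₁] [Finite S₂] (hp₁ : IsPGroup p S₁) (hp₂ : IsPGroup p S₂)
    (hF₁ : F₁.IsSaturated p) (hF₂ : F₂.IsSaturated p) (hE : IsProductSystem F₁ F₂ E) : E.IsSaturated p := by
  haveI : Finite (S₁.prod S₂) := Finite.of_equiv _ (Subgroup.prodEquiv S₁ S₂).toEquiv.symm
  have hS : IsPGroup p (S₁.prod S₂) := by
    obtain ⟨a, ha⟩ := IsPGroup.iff_card.1 hp₁
    obtain ⟨b, hb⟩ := IsPGroup.iff_card.1 hp₂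
    exact IsPGroup.of_card (n := a + b) (by
      rw [Nat.card_congr (Subgroup.prodEquiv S₁ S₂).toEquiv, Nat.card_prod, ha, hb, pow_add])
  intro P hP
  obtain ⟨hP₁, hP₂⟩ := proj_le hP
  obtain ⟨Q₁, hc₁, ha₁, hr₁⟩ := hF₁ (p₁ P) hP₁
  obtain ⟨Q₂, hc₂, ha₂, hr₂⟩ := hF₂ (p₂ P) hP₂
  obtain ⟨f₁, hf₁, hi₁⟩ := isConj_iff.1 hc₁
  obtain ⟨f₂, hf₂, hi₂⟩ := isConj_iff.1 hc₂
  have hQ₁ : Q₁ ≤ S₁ := hr₁.1
  have hQ₂ : Q₂ ≤ S₂ := hr₂.1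
  set f : Ω₁ × Ω₂ → Ω₁ × Ω₂ := fun x => (f₁ x.1, f₂ x.2)
  have hf : Map E P f := (map_iff hE).2 ⟨hP, f₁, f₂, hf₁, hf₂, fun _ _ => rfl⟩
  set P' := img f P
  have hpP := proj_img hf hf₁ hf₂ fun _ _ => rfl
  rw [hi₁, hi₂] at hpP
  have hP' : P' ≤ Q₁.prod Q₂ := fun x hx => ⟨hpP.1.le ⟨x, hx, rfl⟩, hpP.2.le ⟨x, hx, rfl⟩⟩
  haveI := finite_autGroup F₁ hQ₁
  haveI := finite_autGroup F₂ hQ₂
  haveI : Finite (F₁.autGroup Q₁ × F₂.autGroup Q₂) := inferInstance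
  set R₁ := (autInducedBy S₁ Q₁).subgroupOf (F₁.autGroup Q₁)
  set R₂ := (autInducedBy S₂ Q₂).subgroupOf (F₂.autGroup Q₂)
  obtain ⟨hR₁, hR₁i⟩ : IsPGroup p R₁ ∧ ¬ p ∣ R₁.index := by
    refine ⟨?_, ((isFullyAutomized_iff hp₁).1 ha₁).2⟩
    obtain ⟨-, T, hT⟩ := ha₁
    rw [show R₁ = T from hT.symm]; exact T.2
  obtain ⟨hR₂, hR₂i⟩ : IsPGroup p R₂ ∧ ¬ p ∣ R₂.index := by
    refine ⟨?_, ((isFullyAutomized_iff hp₂).1 ha₂).2⟩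
    obtain ⟨-, T, hT⟩ := ha₂
    rw [show R₂ = T from hT.symm]; exact T.2
  set R := R₁.prod R₂
  have hRp : IsPGroup p R := by
    obtain ⟨a, ha⟩ := IsPGroup.iff_card.1 hR₁
    obtain ⟨b, hb⟩ := IsPGroup.iff_card.1 hR₂
    exact IsPGroup.of_card (n := a + b) (by
      rw [Nat.card_congr (Subgroup.prodEquiv R₁ R₂).toEquiv, Nat.card_prod, ha, hb, pow_add])
  have hRi : ¬ p ∣ R.index := by
    rw [Subgroup.index_prod, (Fact.out : p.Prime).dvd_mul, not_or]; exact ⟨hR₁i, hR₂i⟩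
  set H := stab F₁ F₂ P' hP'
  let T : Sylow p H := default
  obtain ⟨g, hg⟩ := exists_conj_mem_of_pGroup (T.2.map H.subtype) hRp hRi
  have hgP' := map_act hE hQ₁ hQ₂ g hP'
  set Q := img (act g) P'
  have hQ : Q ≤ Q₁.prod Q₂ := img_le_iff.2 fun x hx => act_mem g (hP' hx)
  have hQS : Q ≤ S₁.prod S₂ := fun x hx => ⟨hQ₁ (hQ hx).1, hQ₂ (hQ hx).2⟩
  have hconj : E.IsConj P Q := isConj_iff.2 ⟨_, hf.comp hgP' (fun x hx => mem_img_of_mem f hx), hf.img_comp _⟩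
  have hQp : p₁ Q = Q₁ ∧ p₂ Q = Q₂ := by
    constructor
    all_goals refine le_antisymm (fun y hy => ?_) (fun y hy => ?_)
    · obtain ⟨x, hx, rfl⟩ := hy; exact (hQ hx).1
    · obtain ⟨x, hx, hxe⟩ := hpP.1.ge (autFun_mem (g.1 : MulAut Q₁)⁻¹ hy)
      refine ⟨act g x, mem_img_of_mem _ hx, ?_⟩
      show autFun (g.1 : MulAut Q₁) x.1 = y
      rw [show x.1 = _ from hxe, autFun_apply_inv _ hy]
    · obtain ⟨x, hx, rfl⟩ := hy; exact (hQ hx).2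
    · obtain ⟨x, hx, hxe⟩ := hpP.2.ge (autFun_mem (g.2 : MulAut Q₂)⁻¹ hy)
      refine ⟨act g x, mem_img_of_mem _ hx, ?_⟩
      show autFun (g.2 : MulAut Q₂) x.2 = y
      rw [show x.2 = _ from hxe, autFun_apply_inv _ hy]
  refine ⟨Q, hconj, ?_, receptive hE hQS (hQp.1 ▸ hr₁) (hQp.2 ▸ hr₂)⟩
  set H' := stab F₁ F₂ Q hQ
  haveI : Finite Q := finite_of_le hQS
  have hex : ∀ γ : H', ∃ α : E.autGroup Q, ∀ x ∈ Q, autFun (α : MulAut Q) x = act (γ : F₁.autGroup Q₁ × F₂.autGroup Q₂) x := by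
    intro γ
    have hm := map_act hE hQ₁ hQ₂ (γ : F₁.autGroup Q₁ × F₂.autGroup Q₂) hQ
    obtain ⟨α, hα, he⟩ := hm.exists_aut
      (eq_of_le_of_card_le hQS (img_le_iff.2 γ.2) hm.card_img.ge)
    exact ⟨⟨α, hα⟩, he⟩
  choose ψ₀ hψ₀ using hex
  let ψ : H' →* E.autGroup Q := MonoidHom.mk' ψ₀ fun γ δ => Subtype.ext (autFun_inj fun x hx => by
    rw [hψ₀ _ x hx, Subgroup.coe_mul, act_mul _ _ (hQ hx)]
    push_cast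
    rw [autFun_mul _ _ hx, hψ₀ δ x hx, hψ₀ γ _ (δ.2 x hx)])
  have hψ : Function.Surjective ψ := by
    intro α
    obtain ⟨-, a₁, a₂, h₁, h₂, he⟩ := (map_iff hE).1 ((mem_autGroup_iff hQS).1 α.2)
    obtain ⟨i₁, i₂⟩ := proj_img ((mem_autGroup_iff hQS).1 α.2) h₁ h₂ he
    rw [img_autFun, hQp.1] at i₁
    rw [img_autFun, hQp.2] at i₂
    rw [hQp.1] at h₁
    rw [hQp.2] at h₂
    obtain ⟨γ₁, hγ₁, e₁⟩ := h₁.exists_aut i₁.symm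
    obtain ⟨γ₂, hγ₂, e₂⟩ := h₂.exists_aut i₂.symm
    have hact : ∀ x ∈ Q, act ((⟨γ₁, hγ₁⟩, ⟨γ₂, hγ₂⟩) : F₁.autGroup Q₁ × F₂.autGroup Q₂) x = autFun (α : MulAut Q) x :=
      fun x hx => by rw [he x hx]; exact Prod.ext (e₁ _ (hQ hx).1) (e₂ _ (hQ hx).2)
    exact ⟨⟨(⟨γ₁, hγ₁⟩, ⟨γ₂, hγ₂⟩), fun x hx => by rw [hact x hx]; exact autFun_mem _ hx⟩,
      Subtype.ext (autFun_inj fun x hx => (hψ₀ _ x hx).trans (hact x hx))⟩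
  have hHH : H.map (MulAut.conj g).toMonoidHom = H' := by
    refine le_antisymm ?_ ?_
    · rintro _ ⟨γ, hγ, rfl⟩ y hy
      obtain ⟨x, hx, rfl⟩ := hgP'.mem_img.1 hy
      show act (g * γ * g⁻¹) (act g x) ∈ Q
      rw [← act_mul _ _ (hP' hx), inv_mul_cancel_right, act_mul _ _ (hP' hx)]
      exact mem_img_of_mem _ (hγ x hx)
    · intro δ hδ
      refine ⟨g⁻¹ * δ * g, fun x hx => ?_, by show g * (g⁻¹ * δ * g) * g⁻¹ = δ; group⟩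
      rw [act_mul _ _ (hP' hx), act_mul _ _ (act_mem g (hP' hx))]
      obtain ⟨w, hw, hwe⟩ := hgP'.mem_img.1 (hδ _ (mem_img_of_mem _ hx))
      rw [← hwe, ← act_mul _ _ (hP' hw), inv_mul_cancel, act_one (hP' hw)]
      exact hw
  set T' := R.subgroupOf H'
  have hT' : ¬ p ∣ T'.index := by
    intro hd
    have hle : ((T : Subgroup H).map H.subtype).map (MulAut.conj g).toMonoidHom ≤ R ⊓ H' := by
      rintro _ ⟨t, ht, rfl⟩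
      refine ⟨hg t ht, hHH.le ⟨t, ?_, rfl⟩⟩
      obtain ⟨u, -, rfl⟩ := ht; exact u.2
    have h2 := Subgroup.relIndex_dvd_of_le_left H' hle
    rw [Subgroup.inf_relIndex_right] at h2
    have h3 : (((T : Subgroup H).map H.subtype).map (MulAut.conj g).toMonoidHom).relIndex H' = (T : Subgroup H).index := by
      rw [← hHH, Subgroup.relIndex_map_map_of_injective _ _ (MulAut.conj g).injective]
      show (((T : Subgroup H).map H.subtype).comap H.subtype).index = _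
      rw [Subgroup.comap_map_eq_self_of_injective H.subtype_injective]
    rw [h3] at h2
    exact T.not_dvd_index (hd.trans h2)
  refine (isFullyAutomized_iff hS).2 ⟨hQS, fun hd => hT' ?_⟩
  have hle : T'.map ψ ≤ (autInducedBy (S₁.prod S₂) Q).subgroupOf (E.autGroup Q) := by
    rintro _ ⟨γ, hγ, rfl⟩
    haveI := finite_of_le hQ₁
    haveI := finite_of_le hQ₂
    obtain ⟨n₁, hn₁, -, e₁⟩ := mem_autInducedBy_iff.1 (Subgroup.mem_subgroupOf.1 (Subgroup.mem_subgroupOf.1 hγ).1)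
    obtain ⟨n₂, hn₂, -, e₂⟩ := mem_autInducedBy_iff.1 (Subgroup.mem_subgroupOf.1 (Subgroup.mem_subgroupOf.1 hγ).2)
    have hc : ∀ x ∈ Q, autFun ((ψ γ : E.autGroup Q) : MulAut Q) x = (n₁, n₂) * x * (n₁, n₂)⁻¹ := fun x hx =>
      (hψ₀ γ x hx).trans (Prod.ext (e₁ _ (hQ hx).1) (e₂ _ (hQ hx).2))
    exact Subgroup.mem_subgroupOf.2 (mem_autInducedBy_iff.2 ⟨(n₁, n₂), ⟨hn₁, hn₂⟩,
      mem_normalizer_of_conj_mem fun x hx => hc x hx ▸ autFun_mem _ hx, hc⟩)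
  exact (hd.trans (Subgroup.index_dvd_of_le hle)).trans (Subgroup.index_map_dvd T' hψ)

end CfsgLib.TwoFusion.ProductSaturated
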