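import Cfsg.Agent.Lib.FusionMisc

/-!
# Abelian two-groups with pairwise distinct invariants have rigid fusion
-/

set_option autoImplicit false

universe u

namespace CfsgLib.TwoFusion.RigidAbelian

open CfsgLib.Fusion Cfsg Cfsg.FusionSystem

theorem isPGroup_mulAut {G : Type*} [CommGroup G] [Finite G] (N : ℕ) (hN : ∀ g : G, g ^ 2 ^ N = 1)
    (hQ : ∀ k : ℕ, ∀ x y : G, x ^ 2 = 1 → y ^ 2 = 1 → (∃ z, x = z ^ 2 ^ k) → (∃ z, y = z ^ 2 ^ k) →
      (¬ ∃ z, x = z ^ 2 ^ (k + 1)) → (¬ ∃ z, y = z ^ 2 ^ (k + 1)) → ∃ z, x * y = z ^ 2 ^ (k + 1)) :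
    IsPGroup 2 (MulAut G) := by
  haveI : Fact (Nat.Prime 2) := ⟨Nat.prime_two⟩
  haveI : Finite (MulAut G) := CfsgLib.Fusion.finite_mulAut G
  have key : ∀ φ : MulAut G, Odd (orderOf φ) → φ = 1 := by
    intro φ hodd
    have step : ∀ x : G, (φ x * x⁻¹) ^ 2 = 1 → φ (φ x * x⁻¹) = φ x * x⁻¹ → φ x = x := by
      intro x h2 hfix
      set d := φ x * x⁻¹
      have hit : ∀ n : ℕ, (φ ^ n) x = d ^ n * x := by
        intro n
        induction n with
        | zero => simp
        | succ n ih =>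
          rw [pow_succ', MulAut.mul_apply, ih, map_mul, map_pow, hfix,
            show φ x = d * x by simp [d], ← mul_assoc, ← pow_succ]
      have h := hit (orderOf φ)
      rw [pow_orderOf_eq_one, MulAut.one_apply] at h
      obtain ⟨j, hj⟩ := hodd
      rw [hj, pow_succ, pow_mul, h2, one_pow, one_mul] at h
      exact mul_inv_eq_one.1 (mul_eq_right.1 h.symm)
    have hV : ∀ j k : ℕ, N ≤ k + j → ∀ x : G, x ^ 2 = 1 → (∃ z, x = z ^ 2 ^ k) → φ x = x := by
      intro j
      induction j with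
      | zero =>
        rintro k hk x - ⟨z, rfl⟩
        obtain ⟨r, rfl⟩ : ∃ r, k = N + r := ⟨k - N, by omega⟩
        rw [pow_add, pow_mul, hN, one_pow, map_one]
      | succ j ih =>
        intro k hk x hx hxk
        by_cases hx1 : ∃ z, x = z ^ 2 ^ (k + 1)
        · exact ih (k + 1) (by omega) x hx hx1
        · have hφx : φ x ^ 2 = 1 := by rw [← map_pow, hx, map_one]
          have hφk : ∃ z, φ x = z ^ 2 ^ k := by
            obtain ⟨z, rfl⟩ := hxk
            exact ⟨φ z, map_pow _ _ _⟩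
          have hφ1 : ¬ ∃ z, φ x = z ^ 2 ^ (k + 1) := fun ⟨z, hz⟩ => hx1 ⟨φ.symm z, by
            rw [← map_pow, ← hz, MulEquiv.symm_apply_apply]⟩
          obtain ⟨z, hz⟩ := hQ k (φ x) x hφx hx hφk hxk hφ1 hx1
          have hxi : x⁻¹ = x := inv_eq_of_mul_eq_one_right (by rw [← sq, hx])
          refine step x (by rw [hxi, mul_pow, hφx, hx, one_mul]) ?_
          rw [hxi]
          exact ih (k + 1) (by omega) _ (by rw [mul_pow, hφx, hx, one_mul]) ⟨z, hz⟩
    have hall : ∀ j : ℕ, ∀ x : G, x ^ 2 ^ j = 1 → φ x = x := by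
      intro j
      induction j with
      | zero => intro x hx; rw [pow_zero, pow_one] at hx; rw [hx, map_one]
      | succ j ih =>
        intro x hx
        have h2 := ih (x ^ 2) (by rw [← pow_mul, ← pow_succ']; exact hx)
        have hd : (φ x * x⁻¹) ^ 2 = 1 := by
          rw [mul_pow, ← map_pow, h2, ← mul_pow, mul_inv_cancel, one_pow]
        exact step x hd (hV N 0 (by omega) _ hd ⟨_, by rw [pow_zero, pow_one]⟩)
    exact MulEquiv.ext fun x => hall N x (hN x)
  intro φ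
  obtain ⟨i, m, hm, hi⟩ := Nat.exists_eq_pow_mul_and_not_dvd (orderOf_pos φ).ne' 2 (by norm_num)
  exact ⟨i, key _ ((Nat.odd_iff.2 (Nat.two_dvd_ne_zero.1 hm)).of_dvd_nat
    (orderOf_dvd_of_pow_eq_one (by rw [← pow_mul, ← hi, pow_orderOf_eq_one])))⟩

theorem coord (a k : ℕ) (z : ZMod (2 ^ a)) (h : 2 * (2 ^ k * z) = 0) :
    (a ≠ k + 1 → ∃ w, 2 ^ k * z = 2 ^ (k + 1) * w) ∧ (a = k + 1 → 2 ^ k * z = 0 ∨ 2 ^ k * z = 2 ^ k) := by
  haveI : NeZero (2 ^ a) := ⟨by positivity⟩
  obtain ⟨v, rfl⟩ : ∃ v : ℕ, (v : ZMod (2 ^ a)) = z := ⟨z.val, ZMod.natCast_zmod_val z⟩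
  have h' : 2 ^ a ∣ 2 ^ (k + 1) * v := by
    rw [← ZMod.natCast_eq_zero_iff]; push_cast; rw [pow_succ]; linear_combination h
  constructor
  · intro hne
    rcases Nat.lt_or_ge a (k + 1) with hlt | hge
    · refine ⟨0, ?_⟩
      have h0 : ((2 ^ k : ℕ) : ZMod (2 ^ a)) = 0 :=
        (ZMod.natCast_eq_zero_iff _ _).2 (pow_dvd_pow 2 (by omega))
      push_cast at h0
      rw [h0, zero_mul, mul_zero]
    · obtain ⟨r, rfl⟩ : ∃ r, a = k + 1 + (r + 1) := ⟨a - (k + 2), by omega⟩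
      rw [pow_add 2 (k + 1)] at h'
      obtain ⟨w, hw⟩ := (Nat.mul_dvd_mul_iff_left (by positivity)).1 h'
      refine ⟨((2 ^ r * w : ℕ) : ZMod _), ?_⟩
      rw [hw]; push_cast; ring
  · rintro rfl
    rcases Nat.even_or_odd v with ⟨w, rfl⟩ | ⟨w, rfl⟩
    · left
      have h0 : ((2 ^ k * (w + w) : ℕ) : ZMod (2 ^ (k + 1))) = 0 :=
        (ZMod.natCast_eq_zero_iff _ _).2 ⟨w, by ring⟩
      simpa using h0
    · right
      have h0 : ((2 ^ (k + 1) : ℕ) : ZMod (2 ^ (k + 1))) = 0 := ZMod.natCast_self _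
      push_cast at h0 ⊢
      linear_combination (w : ZMod (2 ^ (k + 1))) * h0

theorem isPGroup_mulAut_pi (n : ℕ) (a : Fin n → ℕ) (ha : StrictMono a) :
    IsPGroup 2 (MulAut (Multiplicative ((i : Fin n) → ZMod (2 ^ a i)))) := by
  haveI : ∀ i, NeZero (2 ^ a i) := fun i => ⟨by positivity⟩
  refine isPGroup_mulAut (∑ i, a i) (fun g => ?_) fun k x y hx hy ⟨u, hu⟩ ⟨v, hv⟩ hnx hny => ?_
  · apply Multiplicative.toAdd.injective
    ext i
    simp only [toAdd_pow, toAdd_one, Pi.smul_apply, Pi.zero_apply, nsmul_eq_mul]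
    rw [(ZMod.natCast_eq_zero_iff _ _).2 (pow_dvd_pow 2 (Finset.single_le_sum (fun j _ => Nat.zero_le (a j))
      (Finset.mem_univ i))), zero_mul]
  · have hc : ∀ (x u : Multiplicative ((i : Fin n) → ZMod (2 ^ a i))), x ^ 2 = 1 → x = u ^ 2 ^ k → ∀ i,
        Multiplicative.toAdd x i = 2 ^ k * Multiplicative.toAdd u i ∧
        2 * (2 ^ k * Multiplicative.toAdd u i) = 0 := by
      rintro x u hx rfl i
      have h := congrArg (fun w : Multiplicative ((i : Fin n) → ZMod (2 ^ a i)) => Multiplicative.toAdd w i) hx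
      simp only [toAdd_pow, toAdd_one, Pi.smul_apply, Pi.zero_apply, nsmul_eq_mul] at h ⊢
      push_cast at h ⊢
      exact ⟨rfl, h⟩
    have hin : ∀ x : Multiplicative ((i : Fin n) → ZMod (2 ^ a i)),
        (∀ i, ∃ w, Multiplicative.toAdd x i = 2 ^ (k + 1) * w) → ∃ z, x = z ^ 2 ^ (k + 1) := by
      intro x h
      choose w hw using h
      refine ⟨Multiplicative.ofAdd w, Multiplicative.toAdd.injective ?_⟩
      ext i
      simp only [toAdd_pow, toAdd_ofAdd, Pi.smul_apply, nsmul_eq_mul, hw]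
      push_cast; rfl
    have hex : ∀ (x u : Multiplicative ((i : Fin n) → ZMod (2 ^ a i))), x ^ 2 = 1 → x = u ^ 2 ^ k →
        (¬ ∃ z, x = z ^ 2 ^ (k + 1)) → ∃ i, a i = k + 1 ∧ Multiplicative.toAdd x i = 2 ^ k := by
      intro x u hx hu hnx
      by_contra hno
      push Not at hno
      refine hnx (hin x fun i => ?_)
      obtain ⟨h1, h2⟩ := hc x u hx hu i
      by_cases hi : a i = k + 1
      · rcases (coord _ _ _ h2).2 hi with e | e
        · exact ⟨0, by rw [h1, e, mul_zero]⟩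
        · exact absurd (h1.trans e) (hno i hi)
      · rw [h1]; exact (coord _ _ _ h2).1 hi
    obtain ⟨i, hi, hxi⟩ := hex x u hx hu hnx
    obtain ⟨j, hj, hyj⟩ := hex y v hy hv hny
    obtain rfl : i = j := ha.injective (hi.trans hj.symm)
    refine hin _ fun l => ?_
    rcases eq_or_ne l i with rfl | hl
    · refine ⟨0, ?_⟩
      rw [toAdd_mul, Pi.add_apply, hxi, hyj, mul_zero, ← two_mul, ← pow_succ', ← hi]
      have h0 : ((2 ^ a l : ℕ) : ZMod (2 ^ a l)) = 0 := ZMod.natCast_self _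
      push_cast at h0
      exact h0
    · obtain ⟨h1, h2⟩ := hc x u hx hu l
      obtain ⟨h3, h4⟩ := hc y v hy hv l
      have hne : a l ≠ k + 1 := fun e => hl (ha.injective (e.trans hi.symm))
      obtain ⟨w, hw⟩ := (coord _ _ _ h2).1 hne
      obtain ⟨w', hw'⟩ := (coord _ _ _ h4).1 hne
      exact ⟨w + w', by rw [toAdd_mul, Pi.add_apply, h1, h3, hw, hw', mul_add]⟩

/-- A saturated system over an abelian group whose automorphism group is a two-group is inner. -/
theorem inner_of_isPGroup_mulAut {Ω : Type u} [Group Ω] {S : Subgroup Ω} [Finite S] (hS : IsPGroup 2 S)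
    (hab : ∀ x ∈ S, ∀ y ∈ S, x * y = y * x) (hA : IsPGroup 2 (MulAut S)) (F : FusionSystem S)
    (hF : F.IsSaturated 2) (P : Subgroup Ω) : F.Hom P = (innerFusionSystem S).Hom P := by
  haveI : Fact (Nat.Prime 2) := ⟨Nat.prime_two⟩
  have hC : ∀ Q : Subgroup Ω, Q ≤ S → centralizerIn S Q = S := fun Q hQ =>
    le_antisymm inf_le_left fun s hs => ⟨hs, Subgroup.mem_centralizer_iff.2 fun q hq => hab q (hQ hq) s hs⟩
  have haut : ∀ α ∈ F.autGroup S, ∀ x ∈ S, autFun α x = x := by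
    obtain ⟨Q, hc, ⟨-, R, hR⟩, -⟩ := hF S le_rfl
    have hQ : Q = S := eq_of_le_of_card_le le_rfl (isConj_le_right hc) (isConj_card hc).ge
    subst hQ
    have htopR : (R : Subgroup (F.autGroup Q)) = ⊤ := (R.3 ((hA.to_subgroup _).to_subgroup _) le_top).symm
    intro α hα x hx
    have h4 : (⟨α, hα⟩ : F.autGroup Q) ∈ (Cfsg.autInducedBy Q Q).subgroupOf (F.autGroup Q) := by
      rw [← hR, htopR]; trivial
    obtain ⟨g, hg, -, he⟩ := mem_autInducedBy_iff.mp (Subgroup.mem_subgroupOf.1 h4)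
    rw [he x hx, hab g hg x hx, mul_inv_cancel_right]
  have heq : F = innerFusionSystem S := fusion_eq fun P f => by
    rw [map_inner_id_iff hab]
    constructor
    · intro hf
      refine ⟨hf.le, ?_⟩
      have hfc : F.IsFullyCentralized (img f P) := by
        refine ⟨isConj_le_right (isConj_iff.mpr ⟨f, hf, rfl⟩), fun Q hQ => ?_⟩
        rw [hC _ (isConj_le_right hQ), hC _ (isConj_le_right (isConj_iff.mpr ⟨f, hf, rfl⟩))]
      obtain ⟨k, hk, hke⟩ := receptive_extend (isReceptive_of_fullyCentralized hS hF hfc) hf rfl (hf.le : P ≤ S)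
        (R := S) fun y hy => ⟨hy, Subgroup.centralizer_le_normalizer _ (Subgroup.mem_centralizer_iff.2
          fun q hq => hab q (hf.le hq) y hy), 1, S.one_mem, fun x hx => by
          rw [one_mul, inv_one, mul_one, hab y hy x (hf.le hx), mul_inv_cancel_right]⟩
      have himg : img k S = S := eq_of_le_of_card_le le_rfl
        (isConj_le_right (isConj_iff.mpr ⟨k, hk, rfl⟩)) hk.card_img.ge
      obtain ⟨e, he⟩ := hk.exists_equiv himg
      intro x hx
      have h := haut e ((mem_autGroup_iff le_rfl).2 (hk.congr fun y hy => by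
        rw [autFun_apply e hy]; exact (he ⟨y, hy⟩).symm)) x (hf.le hx)
      rw [autFun_apply e (hf.le hx)] at h
      exact (hke x hx).symm.trans ((he ⟨x, hf.le hx⟩).symm.trans h)
    · rintro ⟨hP, he⟩
      exact (map_conj hP S.one_mem).congr fun x hx => by rw [one_mul, inv_one, mul_one, he x hx]
  rw [heq]

end CfsgLib.TwoFusion.RigidAbelian
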