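import Cfsg.Agent.Lib.FusionAlperin
import Cfsg.Agent.Lib.InvolQuatAut

/-!
# Automizers of dihedral and quaternion two-groups
-/

set_option autoImplicit false

universe u

namespace CfsgLib.TwoFusion

open Subgroup

theorem hasTop_of_equiv {A : Type u} [Group A] {B : Type*} [Group B] (e : A ≃* B) (a : B)
    (h1 : ∀ y, y ∉ zpowers a → orderOf y < orderOf a)
    (h2 : ∀ x y : B, x ∉ zpowers a → y ∉ zpowers a → x⁻¹ * y ∈ zpowers a) :
    CfsgLib.QuatAut.HasTop A := by
  have hmem : ∀ y, y ∈ zpowers (e.symm a) ↔ e y ∈ zpowers a := fun y => by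
    constructor
    · rintro ⟨k, rfl⟩
      exact ⟨k, by simp⟩
    · rintro ⟨k, hk⟩
      exact ⟨k, e.injective (by simpa using hk)⟩
  refine ⟨e.symm a, fun y hy => ?_, fun x y hx hy => ?_⟩
  · rw [MulEquiv.orderOf_eq, ← e.orderOf_eq y]
    exact h1 _ ((hmem y).not.1 hy)
  · rw [hmem, map_mul, map_inv]
    exact h2 _ _ ((hmem x).not.1 hx) ((hmem y).not.1 hy)

theorem hasTop_dihedral {A : Type u} [Group A] (m : ℕ) (hm : 3 ≤ m) (e : A ≃* DihedralGroup m) :
    CfsgLib.QuatAut.HasTop A := by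
  haveI : NeZero m := ⟨by omega⟩
  have hr : ∀ a : ZMod m, DihedralGroup.r a ∈ zpowers (DihedralGroup.r (1 : ZMod m)) := fun a =>
    ⟨(a.val : ℤ), by simp [DihedralGroup.r_one_zpow]⟩
  refine hasTop_of_equiv e (.r 1) (fun y hy => ?_) (fun x y hx hy => ?_)
  · cases y with
    | r a => exact absurd (hr a) hy
    | sr a => rw [DihedralGroup.orderOf_sr, DihedralGroup.orderOf_r_one]; omega
  · cases x with
    | r a => exact absurd (hr a) hx
    | sr a =>
      cases y with
      | r b => exact absurd (hr b) hy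
      | sr b => rw [DihedralGroup.inv_sr, DihedralGroup.sr_mul_sr]; exact hr _

theorem hasTop_quaternion {A : Type u} [Group A] (m : ℕ) (hm : 3 ≤ m) (e : A ≃* QuaternionGroup m) :
    CfsgLib.QuatAut.HasTop A := by
  haveI : NeZero m := ⟨by omega⟩
  have hr : ∀ a : ZMod (2 * m), QuaternionGroup.a a ∈ zpowers (QuaternionGroup.a (1 : ZMod (2 * m))) :=
    fun a => ⟨(a.val : ℤ), by
      show QuaternionGroup.a 1 ^ (a.val : ℤ) = _
      rw [zpow_natCast, QuaternionGroup.a_one_pow, ZMod.natCast_zmod_val]⟩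
  refine hasTop_of_equiv e (.a 1) (fun y hy => ?_) (fun x y hx hy => ?_)
  · cases y with
    | a b => exact absurd (hr b) hy
    | xa b => rw [QuaternionGroup.orderOf_xa, QuaternionGroup.orderOf_a_one]; omega
  · cases x with
    | a b => exact absurd (hr b) hx
    | xa b =>
      cases y with
      | a c => exact absurd (hr c) hy
      | xa c =>
        rw [show (QuaternionGroup.xa b)⁻¹ = QuaternionGroup.xa ((m : ZMod (2 * m)) + b) from rfl,
          QuaternionGroup.xa_mul_xa]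
        exact hr _

open CfsgLib.Fusion in
theorem autGroup_eq_inn {Ω : Type u} [Group Ω] {S : Subgroup Ω} [Finite S] (hS : IsPGroup 2 S)
    (htop : CfsgLib.QuatAut.HasTop S) (F : Cfsg.FusionSystem S) (hF : F.IsSaturated 2) :
    F.autGroup S = Cfsg.Inn S := by
  haveI : Fact (Nat.Prime 2) := ⟨Nat.prime_two⟩
  obtain ⟨Q, hc, ⟨-, R, hR⟩, -⟩ := hF S le_rfl
  have hQ : Q = S := CfsgLib.Fusion.eq_of_le_of_card_le le_rfl (isConj_le_right hc) (isConj_card hc).ge
  subst hQ
  have h2 : IsPGroup 2 (F.autGroup Q) := (CfsgLib.QuatAut.isPGroup_mulAut hS htop).to_subgroup _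
  have htopR : (R : Subgroup (F.autGroup Q)) = ⊤ := by
    have h3 : IsPGroup 2 (⊤ : Subgroup (F.autGroup Q)) := h2.to_subgroup _
    exact (R.3 h3 le_top).symm
  refine le_antisymm (fun α hα => ?_) (inn_le_autGroup le_rfl)
  have h4 : (⟨α, hα⟩ : F.autGroup Q) ∈ (Cfsg.autInducedBy Q Q).subgroupOf (F.autGroup Q) := by
    rw [← hR, htopR]; trivial
  obtain ⟨g, hg, -, he⟩ := mem_autInducedBy_iff.mp (mem_subgroupOf.1 h4)
  exact mem_inn_iff.mpr ⟨g, hg, he⟩

end CfsgLib.TwoFusion
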